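import Cfsg.Agent.H1.Cores
import Cfsg.Agent.H28.OutGen

/-! The group-theoretic core of the local balance statements. -/

set_option autoImplicit false

namespace Cfsg.Agent.H28

open Subgroup

variable {G H K : Type*} [Group G] [Group H] [Group K] {p : ℕ}

lemma core_eq_bot_iff [Finite G] : pPrimeCore p G = ⊥ ↔
    ∀ N : Subgroup G, N.Normal → (Nat.card N).Coprime p → N = ⊥ :=
  ⟨fun h _ _ e => le_bot_iff.1 (h ▸ H1.le_pPrimeCore e),
    fun h => h _ inferInstance (H1.coprime_card_pPrimeCore p G)⟩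

lemma core_congr (e : G ≃* H) (h : pPrimeCore p G = ⊥) : pPrimeCore p H = ⊥ := by
  rw [← H1.map_pPrimeCore_equiv e, h, Subgroup.map_bot]

lemma coprime_card_iff [Finite G] [hp : Fact p.Prime] :
    (Nat.card G).Coprime p ↔ ∀ x : G, orderOf x ≠ p := by
  rw [Nat.coprime_comm, hp.out.coprime_iff_not_dvd]
  refine ⟨fun h x e => h (e ▸ orderOf_dvd_natCard x), fun h e => ?_⟩
  obtain ⟨x, hx⟩ := exists_prime_orderOf_dvd_card' p e
  exact h x hx

lemma core_of_simple [Finite G] [IsSimpleGroup G] [hp : Fact p.Prime] (h : p ∣ Nat.card G) :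
    pPrimeCore p G = ⊥ :=
  (inferInstance : (pPrimeCore p G).Normal).eq_bot_or_eq_top.resolve_right fun e =>
    H1.not_dvd_card_pPrimeCore p G (by rwa [e, card_top])

lemma core_prod [Finite G] [Finite H] (h1 : pPrimeCore p G = ⊥) (h2 : pPrimeCore p H = ⊥) :
    pPrimeCore p (G × H) = ⊥ := by
  have e1 := H1.map_pPrimeCore_le (p := p) (f := MonoidHom.fst G H) Prod.fst_surjective
  have e2 := H1.map_pPrimeCore_le (p := p) (f := MonoidHom.snd G H) Prod.snd_surjective
  rw [h1] at e1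
  rw [h2] at e2
  exact eq_bot_iff.2 fun x hx => Prod.ext (e1 ⟨x, hx, rfl⟩) (e2 ⟨x, hx, rfl⟩)

/-- groups whose non-central normal subgroups have `r`-power index -/
def QS (r : ℕ) (G : Type*) [Group G] : Prop :=
  ∀ N : Subgroup G, N.Normal → N ≤ center G ∨ ∃ k, N.index = r ^ k

lemma QS.core [Finite G] {r : ℕ} (h : QS r G) [hp : Fact p.Prime] (hr : p.Coprime r)
    (hd : p ∣ Nat.card (G ⧸ center G)) : pPrimeCore p (G ⧸ center G) = ⊥ := by
  refine core_eq_bot_iff.2 fun N _ e => ?_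
  rcases h (N.comap (QuotientGroup.mk' _)) inferInstance with h | ⟨k, h⟩
  · rw [← map_comap_eq_self_of_surjective (QuotientGroup.mk'_surjective _) N,
      Subgroup.map_eq_bot_iff,
      QuotientGroup.ker_mk']
    exact h
  · rw [index_comap_of_surjective _ (QuotientGroup.mk'_surjective _)] at h
    rw [← N.card_mul_index, h] at hd
    exact absurd ((e.symm.mul_right (hr.pow_right k)).eq_one_of_dvd hd) hp.out.one_lt.ne'

lemma core_range [Finite G] [hp : Fact p.Prime] (φ : G →* H) (hk : φ.ker ≤ center G)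
    (hZ : ∀ z ∈ center G, ∃ k, φ z ^ p ^ k = 1) (h : pPrimeCore p (G ⧸ center G) = ⊥) :
    pPrimeCore p φ.range = ⊥ := by
  have : Finite φ.range := .of_surjective _ φ.rangeRestrict_surjective
  let π : φ.range →* G ⧸ center G :=
    (QuotientGroup.map _ _ (MonoidHom.id G) hk).comp (QuotientGroup.quotientKerEquivRange φ).symm
  have hπ : ∀ g, π (φ.rangeRestrict g) = (g : G ⧸ center G) := fun g => by
    have : (QuotientGroup.quotientKerEquivRange φ).symm (φ.rangeRestrict g) = (g : G ⧸ φ.ker) :=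
      (MulEquiv.symm_apply_eq _).2 rfl
    simp only [π, MonoidHom.comp_apply, MonoidHom.coe_coe, this]
    rfl
  have h1 := H1.map_pPrimeCore_le (p := p) (f := π) fun x => by
    induction x using QuotientGroup.induction_on with | H g => exact ⟨_, hπ g⟩
  rw [h] at h1
  refine eq_bot_iff.2 fun x hx => ?_
  obtain ⟨g, rfl⟩ := φ.rangeRestrict_surjective x
  obtain ⟨k, hk⟩ := hZ g ((QuotientGroup.eq_one_iff g).1 (hπ g ▸ h1 ⟨_, hx, rfl⟩))
  have h2 := (H1.coprime_card_pPrimeCore p φ.range).coprime_dvd_left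
    (Subgroup.orderOf_dvd_natCard _ hx)
  exact orderOf_eq_one_iff.1 ((h2.pow_right k).eq_one_of_dvd
    (orderOf_dvd_of_pow_eq_one (Subtype.ext hk)))

lemma dvd_of_mul_eq {P g M a : ℕ} (h : g * P = M) (hg : g ∣ a) (ha : a ≠ 0) (hM : a * p ∣ M) :
    p ∣ P :=
  Nat.dvd_of_mul_dvd_mul_left (Nat.pos_of_ne_zero ha) (hM.trans (h ▸ Nat.mul_dvd_mul_right hg P))

lemma card_eqLocus (hZ : center K = ⊥) (x : MulAut K) :
    Nat.card (MonoidHom.eqLocus x.toMonoidHom (MonoidHom.id K)) =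
      Nat.card ↥(Inn K ⊓ centralizer {x}) := by
  have hi : Function.Injective (MulAut.conj : K →* MulAut K) :=
    (injective_iff_map_eq_one _).2 fun k hk => show k ∈ (⊥ : Subgroup K) from hZ ▸
      mem_center_iff.2 fun g => (mul_inv_eq_iff_eq_mul.1 (DFunLike.congr_fun hk g)).symm
  rw [← card_map_of_injective hi]
  congr 2
  ext y
  have key : ∀ k, MulAut.conj k ∈ centralizer {x} ↔ x k = k := fun k => by
    rw [mem_centralizer_singleton_iff, ← hi.eq_iff, ← conj_mul_conj, mul_inv_eq_iff_eq_mul, eq_comm]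
  exact ⟨fun ⟨k, hk, e⟩ => e ▸ ⟨⟨k, rfl⟩, (key k).2 hk⟩, fun ⟨⟨k, e⟩, hk⟩ =>
    ⟨k, (key k).1 (e ▸ hk), e⟩⟩

/-- the local balance statement for an automorphism `x` -/
def Bal (p : ℕ) (x : MulAut K) (P : Prop) : Prop :=
  ∀ A : Subgroup (MulAut K), (∀ k, MulAut.conj k ∈ A) →
    (pPrimeCore p ↥(A ⊓ centralizer {x}) ≠ ⊥ ↔
      P ∧ p.Coprime (Nat.card (MonoidHom.eqLocus x.toMonoidHom (MonoidHom.id K))))

lemma Bal.conj {x : MulAut K} {P : Prop} (α : MulAut K) (h : Bal p (α * x * α⁻¹) P) :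
    Bal p x P := fun A hA => by
  have h1 : (A ⊓ centralizer {x}).map (MulAut.conj α : MulAut K →* MulAut K) =
      A.map (MulAut.conj α : MulAut K →* MulAut K) ⊓ centralizer {α * x * α⁻¹} := by
    rw [map_inf _ _ _ (MulAut.conj α).injective]
    congr 1
    ext y
    obtain ⟨y, rfl⟩ := (MulAut.conj α).surjective y
    refine (mem_map_iff_mem (MulAut.conj α).injective).trans ?_
    simp [mem_centralizer_singleton_iff, ← mul_assoc]
    simp [mul_assoc]
  have h2 : (MonoidHom.eqLocus x.toMonoidHom (MonoidHom.id K)).map (α : K →* K) =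
      MonoidHom.eqLocus (α * x * α⁻¹ : MulAut K).toMonoidHom (MonoidHom.id K) := by
    ext y
    obtain ⟨y, rfl⟩ := α.surjective y
    refine (mem_map_iff_mem α.injective).trans ?_
    simp [MonoidHom.eqLocus]
  let e := ((MulAut.conj α).subgroupMap (A ⊓ centralizer {x})).trans (MulEquiv.subgroupCongr h1)
  rw [← card_map_of_injective (f := (α : K →* K)) α.injective, h2, ← h (A.map (MulAut.conj α :
    MulAut K →* MulAut K)) fun k => ⟨_, hA (α⁻¹ k), (conj_mul_conj _ _).trans (by simp)⟩]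
  exact not_congr ⟨core_congr e, core_congr e.symm⟩

theorem bal_of [Finite K] [IsSimpleGroup K] [hp : Fact p.Prime] {x : MulAut K} {P : Prop}
    {I : Type*} (R : I → Subgroup (MulAut K)) (hR : ∀ i, R i ≤ Inn K ⊓ centralizer {x})
    (h0 : ∃ i, R i ≠ ⊥)
    (h1 : (¬ P ∨ ∃ y ∈ Inn K, Commute y x ∧ orderOf y = p) → ∀ i, pPrimeCore p (R i) = ⊥)
    (h2 : ∀ i, ∀ y ∈ Inn K, Commute y x → (orderOf y).Coprime p → ∀ z ∈ R i, y * z * y⁻¹ ∈ R i)
    (h3 : ∀ α, Commute α x → (orderOf α).Coprime p → (∀ i, ∀ y ∈ R i, Commute α y) → α = 1) :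
    Bal p x P := fun A hA => by
  obtain ⟨i₀, h0⟩ := h0
  have hI : Inn K ≤ A := by rintro _ ⟨k, rfl⟩; exact hA k
  have hZ : center K = ⊥ := (inferInstance : (center K).Normal).eq_bot_or_eq_top.resolve_right
    fun e => h0 (eq_bot_iff.2 fun y hy => by
      obtain ⟨k, rfl⟩ := (hR _ hy).1
      exact MulEquiv.ext fun g => mul_inv_eq_iff_eq_mul.2
        (mem_center_iff.1 (e ▸ mem_top g) k))
  rw [card_eqLocus hZ, Nat.coprime_comm]
  have k1 : (∀ i, pPrimeCore p (R i) = ⊥) → pPrimeCore p ↥(A ⊓ centralizer {x}) = ⊥ := fun h => by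
    set D := (pPrimeCore p ↥(A ⊓ centralizer {x})).map (A ⊓ centralizer {x}).subtype with hD
    have d1 : D ≤ A ⊓ centralizer {x} := map_subtype_le _
    have d2 : (Nat.card D).Coprime p := H1.coprime_card_map_pPrimeCore p _
    have d3 : ∀ y ∈ A ⊓ centralizer {x}, ∀ d ∈ D, y * d * y⁻¹ ∈ D := by
      rintro y hy _ ⟨d, hd, rfl⟩
      exact ⟨_, (inferInstance : (pPrimeCore p _).Normal).conj_mem d hd ⟨y, hy⟩, rfl⟩
    have d4 : ∀ d ∈ D, Commute d x ∧ (orderOf d).Coprime p := fun d hd =>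
      ⟨mem_centralizer_singleton_iff.1 (d1 hd).2,
        d2.coprime_dvd_left (Subgroup.orderOf_dvd_natCard _ hd)⟩
    have d5 : ∀ i, R i ≤ A ⊓ centralizer {x} := fun i => (hR i).trans (inf_le_inf_right _ hI)
    have d6 : ∀ i, ∀ d ∈ D, ∀ y ∈ R i, d * y * d⁻¹ * y⁻¹ ∈ D := fun i d hd y hy => by
      simpa [mul_assoc] using mul_mem hd (d3 y (d5 i hy) _ (inv_mem hd))
    have d7 : ∀ d ∈ D, d ∈ Inn K → d = 1 := fun d hd hd' => by
      refine h3 d (d4 d hd).1 (d4 d hd).2 fun i y hy => ?_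
      have : (D.subgroupOf (R i)).Normal := ⟨fun a ha b => d3 b (d5 i b.2) a ha⟩
      have e := core_eq_bot_iff.1 (h i) _ this (d2.coprime_dvd_left (card_comap_dvd_of_injective
        _ _ (R i).subtype_injective))
      have e2 : (⟨_, mul_mem (h2 i d hd' (d4 d hd).1 (d4 d hd).2 y hy) (inv_mem hy)⟩ : R i) ∈
        D.subgroupOf (R i) := d6 i d hd y hy
      rw [e] at e2
      exact commutatorElement_eq_one_iff_commute.1 (congrArg Subtype.val e2)
    rw [← map_eq_bot_iff_of_injective _ (subtype_injective _), eq_bot_iff]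
    exact fun d hd => h3 d (d4 d hd).1 (d4 d hd).2 fun i y hy =>
      commutatorElement_eq_one_iff_commute.1 (d7 _ (d6 i d hd y hy) (mul_mem
        ((innNormal K).conj_mem _ (hR i hy).1 d) (inv_mem (hR i hy).1)))
  refine ⟨fun h => by_contra fun H => h (k1 (h1 ?_)), fun ⟨_, h⟩ e => h0 ?_⟩
  · rw [not_and_or, coprime_card_iff] at H
    refine H.imp_right fun H => ?_
    push Not at H
    obtain ⟨y, hy⟩ := H
    exact ⟨y, y.2.1, mem_centralizer_singleton_iff.1 y.2.2, by rwa [orderOf_coe]⟩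
  · have := H1.le_map_pPrimeCore (inf_le_inf_right (centralizer {x}) hI)
      (H1.le_normalizer_inf ?_ (inf_le_right.trans le_normalizer)) h
    · rw [e, Subgroup.map_bot] at this
      exact le_bot_iff.1 ((hR _).trans this)
    · exact le_normalizer_of_normal

end Cfsg.Agent.H28
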