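import Cfsg.Agent.H28.OPre

/-! Field automorphisms of orthogonal groups: centralisers, Lang's theorem, class splitting. -/

set_option autoImplicit false

namespace Cfsg.Agent.H28

open Module QuadraticMap H13 H13.SemiSim

section Sgn

variable {F F₀ : Type*} [Field F] [Field F₀] [Finite F] [Finite F₀]

omit [Finite F₀] in
lemma finrank_of_card [Algebra F₀ F] {r : ℕ} (hr : Nat.card F = Nat.card F₀ ^ r) :
    finrank F₀ F = r := by
  have : Finite F₀ := .of_injective _ (algebraMap F₀ F).injective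
  exact Nat.pow_right_injective (Finite.one_lt_card (α := F₀))
    ((Module.natCard_eq_pow_finrank (K := F₀) (V := F)).symm.trans hr)

lemma sgn_map (j : F₀ →+* F) {r : ℕ} (hr : Nat.card F = Nat.card F₀ ^ r) (a : F₀) :
    sgn (j a) = sgn a ^ r := by
  by_cases h : IsSquare a
  · rw [sgn_eq_one_iff.2 h, sgn_eq_one_iff.2 (h.map j), one_pow]
  let _ := j.toAlgebra
  have h1 := exists_root_iff (K := F) (a := 0) (b := -a) (aniso_of_no_root fun t e =>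
    h ⟨t, by linear_combination -e⟩)
  have h2 : IsSquare (j a) ↔ Even r := by
    rw [even_iff_two_dvd, ← finrank_of_card hr, ← h1, map_zero, map_neg]
    exact ⟨fun ⟨t, e⟩ => ⟨t, by linear_combination -e⟩, fun ⟨t, e⟩ => ⟨t, by linear_combination -e⟩⟩
  rw [sgn_eq_neg_one_iff.2 h]
  rcases Nat.even_or_odd r with e | e
  · rw [sgn_eq_one_iff.2 (h2.2 e), e.neg_one_pow]
  · rw [sgn_eq_neg_one_iff.2 (mt h2.1 (Nat.not_even_iff_odd.2 e)), e.neg_one_pow]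

lemma sgn_norm (h2 : (2 : F₀) ≠ 0) (j : F₀ →+* F) (hr : Nat.card F = Nat.card F₀ ^ 2)
    {σ : F ≃+* F} (hσ : orderOf σ = 2) {y : F} {n : F₀} (hn : n ≠ 0) (h : j n = y * σ y) :
    sgn y = sgn n := by
  have := Fintype.ofFinite F
  have := Fintype.ofFinite F₀
  simp only [Nat.card_eq_fintype_card] at hr
  have h0 : y ≠ 0 := by rintro rfl; simp [hn] at h
  obtain ⟨k, hk⟩ := odd_card_of_two_ne_zero h2
  have : IsSquare y ↔ IsSquare n := by
    rw [FiniteField.isSquare_iff (ringChar_ne_two_of_two_ne_zero h2) hn, FiniteField.isSquare_iff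
      (ringChar_ne_two_of_two_ne_zero (by rwa [← map_ofNat j, map_ne_zero])) h0,
      ← j.injective.eq_iff, map_pow, h, apply_eq_pow_of_orderOf_two hr hσ, ← pow_succ', ← pow_mul,
      map_one, hr, hk, show (2 * k + 1) ^ 2 = 1 + 2 * ((2 * k + 1 + 1) * k) by ring,
      show (2 * k + 1) / 2 = k by omega, show ∀ n, (1 + 2 * n) / 2 = n by omega]
  by_cases h : IsSquare n
  · rw [sgn_eq_one_iff.2 h, sgn_eq_one_iff.2 (this.2 h)]
  · rw [sgn_eq_neg_one_iff.2 h, sgn_eq_neg_one_iff.2 (mt this.1 h)]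

lemma card_eq_pow_of_fix {σ : F ≃+* F} {j : F₀ →+* F} (hj : ∀ x, x ∈ Set.range j ↔ σ x = x) :
    Nat.card F = Nat.card F₀ ^ orderOf σ := by
  rw [← card_fixF_pow σ, Nat.card_congr (Equiv.ofInjective j j.injective)]
  exact congrArg (· ^ _) (Nat.card_congr (Equiv.subtypeEquivRight fun x => (hj x).symm))

omit [Finite F₀] in
lemma odd_orderOf_of_aniso {σ : F ≃+* F} {a b : F} (ha : σ a = a) (hb : σ b = b)
    (hab : ∀ z₁ z₂ : F, z₁ ^ 2 + a * z₁ * z₂ + b * z₂ ^ 2 = 0 → z₁ = 0 ∧ z₂ = 0) :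
    Odd (orderOf σ) := by
  rw [← Nat.not_even_iff_odd, even_iff_two_dvd, ← finrank_fixF, ← exists_root_iff
    (a := (⟨a, ha⟩ : fixF σ)) (b := ⟨b, hb⟩) fun z₁ z₂ e => by
      simpa using hab z₁ z₂ (congrArg Subtype.val e)]
  rintro ⟨t, ht⟩
  exact one_ne_zero (hab t 1 (by rw [mul_one, one_pow, mul_one]; exact ht)).2

end Sgn

variable {F V F₀ V₀ X Y : Type*} [Field F] [AddCommGroup V] [Module F V]
  [Field F₀] [AddCommGroup V₀] [Module F₀ V₀] [Group X] [Group Y]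
  {Q : QuadraticForm F V} {Q₀ : QuadraticForm F₀ V₀} {m : ℕ}

instance normal_ZΩ : (ZΩ Q).Normal := ⟨fun _ h s => by
  obtain ⟨z, g, hg, rfl⟩ := mem_ZΩ.1 h
  exact mem_ZΩ.2 ⟨unitsAut F s.σ z, s.conj g, (mem_commutator_equiv _ _).2 hg, by
    rw [← conj_ofOG, ← mul_assoc, mul_scalar]; simp only [mul_assoc]⟩⟩

lemma map_eq_of_scalar {A : SemiSim Q Q →* X} (hA : A.ker = (scalar Q).range) (z : Fˣ)
    (s : SemiSim Q Q) : A (scalar Q z * s) = A s := by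
  rw [map_mul, show A (scalar Q z) = 1 from show _ ∈ A.ker from hA ▸ ⟨z, rfl⟩, one_mul]

lemma orderOf_σ {A : SemiSim Q Q →* X} (hA : A.ker = (scalar Q).range) {s : SemiSim Q Q} {r : ℕ}
    (hr : r.Prime) (h : A s ^ r = 1) (hs : s.σ ≠ 1) :
    orderOf s.σ = r ∧ s ^ orderOf s.σ ∈ (scalar Q).range := by
  have := Fact.mk hr
  have h1 : s ^ r ∈ (scalar Q).range := by rwa [← hA, MonoidHom.mem_ker, map_pow]
  have h2 : orderOf s.σ = r := orderOf_eq_prime (by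
    obtain ⟨z, hz⟩ := h1
    exact (map_pow (σHom Q) s r).symm.trans (congrArg (σHom Q) hz.symm)) hs
  exact ⟨h2, h2 ▸ h1⟩

variable [FiniteDimensional F V] [FiniteDimensional F₀ V₀]

lemma Ev.exists_mu [Finite F] (h : Ev Q m) (h2 : (2 : F) ≠ 0) :
    ∃ δ : OSim Q, h.dk δ = 1 ∧ mu Q δ = -1 := by
  obtain ⟨c, h0, hc⟩ := exists_nonsquare h2
  obtain ⟨e', he⟩ := h.nd.exists_similarity h.dim h0
  obtain ⟨v, -, hv⟩ := h.exists_refl
  let δ : OSim Q := ⟨ofLinear e' c h0 he, rfl⟩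
  have h1 : mu Q δ = -1 := hc
  rcases Int.units_eq_one_or (h.dk δ) with e3 | e3
  exacts [⟨δ, e3, h1⟩, ⟨δ * oS Q (refl Q v), by simp [e3, hv], by simp [h1]⟩]

namespace Desc

variable (D : Desc Q₀ Q) {s : SemiSim Q Q} {A : SemiSim Q Q →* X}

omit [FiniteDimensional F V] in
lemma commute_iff [Nontrivial V] (hQ : ND Q) (hA : A.ker = (scalar Q).range)
    (hs : ∀ v, s.e (D.J v) = D.J v) (hj : ∀ x, x ∈ Set.range D.j ↔ s.σ x = x) (u : OSim Q) :
    Commute (A u) (A s) ↔ ∃ (w : Fˣ) (u₀ : OSim Q₀), u.1 = scalar Q w * D.E u₀ := by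
  constructor
  · intro h
    obtain ⟨z, hz⟩ : s * u * (u * s)⁻¹ ∈ (scalar Q).range := by
      rw [← hA, MonoidHom.mem_ker, map_mul, map_inv, map_mul, map_mul, h.eq, mul_inv_cancel]
    exact D.exists_E_of_comm hQ hs (fun a => (hj a).2) u (z := z) (by rw [hz]; group)
  · rintro ⟨w, u₀, e⟩
    rw [e, map_eq_of_scalar hA, Commute, SemiconjBy, ← map_mul, ← map_mul,
      D.conj_E hs fun a => (hj _).1 ⟨a, rfl⟩]

omit [FiniteDimensional F V] in
lemma centralizer_equiv [Nontrivial V] [Nontrivial V₀] (hQ : ND Q)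
    (hA : A.ker = (scalar Q).range) {A₀ : SemiSim Q₀ Q₀ →* Y} (hA₀ : A₀.ker = (scalar Q₀).range)
    (hs : ∀ v, s.e (D.J v) = D.J v) (hj : ∀ x, x ∈ Set.range D.j ↔ s.σ x = x)
    {S : Subgroup (SemiSim Q Q)} {S₀ : Subgroup (SemiSim Q₀ Q₀)} (hS : S ≤ OSim Q)
    (hZ : ∀ z, scalar Q z ∈ S) (hS₀ : S₀ ≤ OSim Q₀) (hE : ∀ u : OSim Q₀, (D.E u).1 ∈ S ↔ u.1 ∈ S₀) :
    Nonempty (↥(S.map A ⊓ Subgroup.centralizer {A s}) ≃* S₀.map A₀) := by
  obtain ⟨e⟩ := nonempty_range_equiv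
    (((A.comp (OSim Q).subtype).comp D.E).comp (Subgroup.inclusion hS₀)) (A₀.comp S₀.subtype)
    (Subgroup.ext fun u => show (D.E _).1 ∈ A.ker ↔ u.1 ∈ A₀.ker by
      rw [hA, hA₀, D.E_mem_scalar]; rfl)
  refine ⟨((MulEquiv.subgroupCongr (Subgroup.ext fun x => ⟨?_, ?_⟩)).trans e).trans
    (MulEquiv.subgroupCongr (by rw [MonoidHom.range_comp, Subgroup.range_subtype]))⟩
  · rintro ⟨⟨u, hu, rfl⟩, h⟩
    obtain ⟨w, u₀, e⟩ := (D.commute_iff hQ hA hs hj ⟨u, hS hu⟩).1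
      (Subgroup.mem_centralizer_singleton_iff.1 h)
    obtain rfl : u = _ := e
    exact ⟨⟨u₀, (hE u₀).1 ((mul_mem_cancel_left (hZ w)).1 hu)⟩, (map_eq_of_scalar hA _ _).symm⟩
  · rintro ⟨u, rfl⟩
    exact ⟨⟨_, (hE ⟨u, hS₀ u.2⟩).2 u.2, rfl⟩, Subgroup.mem_centralizer_singleton_iff.2
      ((D.commute_iff hQ hA hs hj _).2 ⟨1, ⟨u, hS₀ u.2⟩, by simp; rfl⟩)⟩

omit [FiniteDimensional F V] in
lemma split_eq [Nontrivial V] (hQ : ND Q) (hA : A.ker = (scalar Q).range)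
    (hs : ∀ v, s.e (D.J v) = D.J v) (hj : ∀ x, x ∈ Set.range D.j ↔ s.σ x = x)
    {S : Subgroup (SemiSim Q Q)} (hS : S ≤ OSim Q) (hZ : ZΩ Q ≤ S) (W : Subgroup (SemiSim Q Q))
    (hW : ∀ u ∈ S, u ∈ W ↔ ∃ u₀, u * (D.E u₀).1⁻¹ ∈ ZΩ Q) :
    splitClassCount (S.map A) ((ZΩ Q).map A) (A s) = W.relIndex S := by
  have h := splitClassCount_eq (A.comp S.subtype) ((ZΩ Q).subgroupOf S) (A s)
  rw [MonoidHom.range_comp, Subgroup.range_subtype, ← Subgroup.map_map,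
    Subgroup.subgroupOf_map_subtype, inf_eq_left.2 hZ] at h
  rw [h, Subgroup.relIndex]
  congr 1
  ext u
  rw [Subgroup.mem_sup_of_normal_left, Subgroup.mem_subgroupOf, hW u u.2]
  constructor
  · rintro ⟨a, ha, c, hc, rfl⟩
    obtain ⟨w, u₀, e⟩ := (D.commute_iff hQ hA hs hj ⟨c, hS c.2⟩).1
      (Subgroup.mem_centralizer_singleton_iff.1 hc)
    refine ⟨u₀, ?_⟩
    rw [Subgroup.coe_mul, show c.1 = _ from e, mul_assoc, mul_inv_cancel_right]
    exact mul_mem ha (scalar_mem_ZΩ w)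
  · rintro ⟨u₀, h⟩
    exact ⟨⟨_, hZ h⟩, h, ⟨D.E u₀, by simpa using mul_mem (inv_mem (hZ h)) u.2⟩,
      Subgroup.mem_centralizer_singleton_iff.2 ((D.commute_iff hQ hA hs hj _).2
        ⟨1, u₀, by simp⟩), Subtype.ext (by simp)⟩

variable [Finite F] [Finite F₀]

include D in
lemma isPlus_iff_of_odd (h : Ev Q m) {r : ℕ} (hr : Nat.card F = Nat.card F₀ ^ r) (ho : Odd r) :
    IsPlus Q₀ ↔ IsPlus Q := by
  refine ⟨D.isPlus, fun hP => by_contra fun h0 => ?_⟩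
  obtain ⟨a, b, hab⟩ := exists_anisotropic_binary F₀
  obtain ⟨e, he⟩ := (D.nd h.nd).equiv_QMinus h0 (m := m - 1)
    (by have := h.three; rw [← D.dim, h.dim]; omega) hab
  obtain ⟨e', -, he'⟩ := D.exists_sim ((descMinus (m - 1) D.j a b).pre (ofIsometry e he)) rfl
  let _ := D.j.toAlgebra
  refine not_isPlus_QMinus (aniso_of_no_root fun t ht => ?_) (IsPlus.of_semiSim
    (ofLinear e' _ (div_ne_zero (Desc.b_ne _) D.b_ne) he') hP)
  have := (exists_root_iff hab).1 ⟨t, ht⟩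
  rw [finrank_of_card hr, ← even_iff_two_dvd, ← Nat.not_odd_iff_even] at this
  exact this ho

lemma exists_E_of_odd (hQ : ND Q) (hG : Good Q) (hG₀ : Good Q₀) (h2 : (2 : F₀) ≠ 0)
    (hn : 2 ≤ finrank F₀ V₀) {r : ℕ} (hr : Nat.card F = Nat.card F₀ ^ r) (ho : Odd r) (z : Fˣ)
    {g : OG Q} (hg : dickson hQ hG g = 1) :
    ∃ g₀, scalar Q z * ofOG Q g * (D.E (oS Q₀ g₀)).1⁻¹ ∈ ZΩ Q := by
  obtain ⟨g₀, e⟩ := ds_surjective (D.nd hQ) hG₀ h2 hn (1, spinor hQ hG g)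
  obtain ⟨e1, e2⟩ : dickson _ hG₀ g₀ = 1 ∧ spinor _ hG₀ g₀ = _ := Prod.ext_iff.1 e
  refine ⟨g₀, mem_ZΩ.2 ⟨z, g * (D.EO g₀)⁻¹, (hQ.mem_commutator_iff hG _).2 ?_, by
    simp [D.E_oS, mul_assoc]⟩⟩
  simp [D.dickson_EO (D.nd hQ) hG₀, D.spinor_EO (D.nd hQ) hG₀ hQ hG fun a _ => sgn_map D.j hr a,
    hg, e1, e2, Int.units_pow_eq_pow_mod_two _ r, Nat.odd_iff.1 ho]

lemma E_mem_of_even (hQ : ND Q) (hG : Good Q) (hG₀ : Good Q₀)
    (hr : Nat.card F = Nat.card F₀ ^ 2) (z : F₀ˣ) {g : OG Q₀}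
    (hg : dickson (D.nd hQ) hG₀ g = 1) : (D.E (zS Q₀ z * oS Q₀ g)).1 ∈ ZΩ Q := by
  rw [map_mul, E_zS, E_oS]
  refine mem_ZΩ.2 ⟨_, _, (hQ.mem_commutator_iff hG _).2 ?_, rfl⟩
  simp [D.dickson_EO (D.nd hQ) hG₀, D.spinor_EO (D.nd hQ) hG₀ hQ hG fun a _ => sgn_map D.j hr a, hg]

lemma exists_delta_spinor (h : Ev Q m) (h2 : (2 : F₀) ≠ 0) (hr : Nat.card F = Nat.card F₀ ^ 2)
    {σ : F ≃+* F} (hσ : orderOf σ = 2) (hj : ∀ x, x ∈ Set.range D.j ↔ σ x = x) :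
    ∃ (δ : OSim Q₀) (z : Fˣ) (g : OG Q), (h.desc D).dk δ = 1 ∧ mu Q₀ δ = -1 ∧
      D.E δ = zS Q z * oS Q g ∧ h.sp g = (-1) ^ m * disc Q₀ := by
  have h₀ := h.desc D
  have h2' : (2 : F) ≠ 0 := by rwa [← map_ofNat D.j, map_ne_zero]
  obtain ⟨c, h0, hc⟩ := exists_nonsquare h2
  obtain ⟨B, s, t, δ, ho, hB, hst, hδ, e1, e2, e3⟩ :=
    exists_delta h₀.nd h2 h₀.dim (Units.mk0 c h0)
  simp only [Units.val_mk0] at hst e1 e3
  have hs := sgn_map D.j hr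
  simp only [Int.units_sq] at hs
  obtain ⟨z, g, e4⟩ := exists_zS_oS (s := D.E δ) (sgn_eq_one_iff.1 (by rw [E_c, hs]))
  have e5 : (z : F) ^ 2 = D.j c := by
    simpa [mul_c, e1] using (congrArg (fun u : OSim Q => u.1.c) e4).symm
  have e6 : σ z = -z := (sq_eq_sq_iff_eq_or_eq_neg.1 (show σ z ^ 2 = z ^ 2 by
    rw [← map_pow, e5, (hj _).1 ⟨c, rfl⟩])).resolve_left fun e => by
      obtain ⟨d, hd⟩ := (hj _).2 e
      exact sgn_eq_neg_one_iff.1 hc ⟨d, D.j.injective (by rw [← e5, map_mul, hd, pow_two])⟩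
  have ht : ∀ i, t i ≠ 0 := fun i e => sgn_eq_neg_one_iff.1 hc ⟨s i, mul_right_cancel₀ (hB (0, i))
    (by rw [← hst, e]; ring)⟩
  have e7 : ∀ x, (D.E δ).1.e x = (z : F) • g.1 x := fun x => by rw [e4]; rfl
  have e8 : ∀ x, g.1 (g.1 x) = x := fun x => smul_right_injective V (pow_ne_zero 2 z.ne_zero) (by
    have := congrArg (fun u : OSim Q => u.1.e x) ((map_mul D.E δ δ).symm.trans
      ((congrArg D.E e2).trans (D.E_zS _)))
    simp only [Subgroup.coe_mul, mul_e, e7, coe_zS, scalar_e, _root_.map_smul, smul_smul] at this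
    simp only [pow_two, this]
    rw [← pow_two, e5]; rfl)
  have e9 : ∀ i, (z : F) • g.1 (D.J (B (0, i))) =
      D.j (s i) • D.J (B (0, i)) + D.j (t i) • D.J (B (1, i)) := fun i => by
    rw [← e7, E_e, hδ, map_add, D.map_smul, D.map_smul]
  let w : Fin m → V := fun i => (D.j (s i) - z) • D.J (B (0, i)) + D.j (t i) • D.J (B (1, i))
  let w' : Fin m → V := fun i => (D.j (s i) + z) • D.J (B (0, i)) + D.j (t i) • D.J (B (1, i))
  have k1 : ∀ i, w i = (z : F) • (g.1 (D.J (B (0, i))) - D.J (B (0, i))) := fun i => by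
    rw [smul_sub, e9]; module
  have k2 : ∀ i, w' i = (z : F) • (g.1 (D.J (B (0, i))) + D.J (B (0, i))) := fun i => by
    rw [smul_add, e9]; module
  have k3 : ∀ i, Q (w i) = D.b * (D.j (2 * Q₀ (B (0, i)) * c) - z * D.j (2 * Q₀ (B (0, i)) * s i)) :=
    fun i => by
      have := congrArg D.j (hst i)
      simp only [w, Q_add, Q_smul, D.map_Q, polar_smul_left, polar_smul_right, D.map_polar,
        ho (0, i) (1, i) (by simp), map_mul, map_add, map_pow, map_ofNat, map_zero] at this ⊢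
      linear_combination D.b * this + D.b * D.j (Q₀ (B (0, i))) * e5
  have k4 : ∀ i, Q (w i) ≠ 0 ∧ sgn (Q (w i)) = sgn D.b * -sgn (Q₀ (B (0, i)) * Q₀ (B (1, i))) :=
    fun i => by
      have l0 := mul_ne_zero (hB (0, i)) (hB (1, i))
      have l1 : (2 * t i) ^ 2 * (c * (Q₀ (B (0, i)) * Q₀ (B (1, i)))) ≠ 0 := by simp [*]
      have l2 : D.j ((2 * t i) ^ 2 * (c * (Q₀ (B (0, i)) * Q₀ (B (1, i))))) =
          (D.j (2 * Q₀ (B (0, i)) * c) - z * D.j (2 * Q₀ (B (0, i)) * s i)) *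
          σ (D.j (2 * Q₀ (B (0, i)) * c) - z * D.j (2 * Q₀ (B (0, i)) * s i)) := by
        have := congrArg D.j (hst i)
        rw [map_sub, map_mul σ, (hj _).1 ⟨_, rfl⟩, (hj _).1 ⟨_, rfl⟩, e6]
        simp only [map_mul, map_add, map_pow, map_ofNat] at this ⊢
        linear_combination 4 * D.j c * D.j (Q₀ (B (0, i))) * this +
          4 * D.j (Q₀ (B (0, i))) ^ 2 * D.j (s i) ^ 2 * e5
      have l3 := left_ne_zero_of_mul (l2 ▸ (map_ne_zero D.j).2 l1)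
      rw [k3, sgn_mul D.b_ne l3, sgn_norm h2 D.j hr hσ l1 l2, sgn_sq_mul (by simp [*])
        (mul_ne_zero h0 l0), sgn_mul h0 l0, hc]
      exact ⟨mul_ne_zero D.b_ne l3, by simp⟩
  have k5 := eq_prod_refl h2' g w w' (fun i => (k4 i).1) (fun i k e => by
    simp [w, D.map_polar, ho, e]) (fun i => by simp [k1, e8, ← smul_neg])
    (fun i => by simp [k2, e8, add_comm]) (eq_top_iff.2 (by
      rw [← (D.basis B).span_eq, Submodule.span_le]
      rintro _ ⟨⟨k, i⟩, rfl⟩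
      have l1 := Submodule.subset_span (R := F) (s := Set.range w ∪ Set.range w') (.inl ⟨i, rfl⟩)
      have l2 := Submodule.subset_span (R := F) (s := Set.range w ∪ Set.range w') (.inr ⟨i, rfl⟩)
      have l3 : D.J (B (0, i)) = (2 * z : F)⁻¹ • (w' i - w i) := by
        simp only [w, w']; match_scalars <;> field_simp <;> ring
      have l4 := l3 ▸ Submodule.smul_mem _ (2 * z : F)⁻¹ (sub_mem l2 l1)
      have l5 : D.J (B (1, i)) = (D.j (t i))⁻¹ • (w i - (D.j (s i) - z) • D.J (B (0, i))) := by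
        simp [w, ht]
      have l6 := l5 ▸ Submodule.smul_mem _ (D.j (t i))⁻¹
        (sub_mem l1 (Submodule.smul_mem _ (D.j (s i) - z) l4))
      rw [D.basis_apply]
      fin_cases k
      exacts [l4, l6]))
  have k6 : h.sp g = sgn D.b ^ m * ((-1) ^ m * disc Q₀) := by
    rw [k5, spinor_list _ _ _ (by simpa using fun i => (k4 i).1), List.map_ofFn, List.prod_ofFn,
      sgn_prod _ (Q ∘ w) fun i _ => (k4 i).1, h₀.nd.disc_eq B, gdet_of_orthogonal _ _ ho,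
      Fintype.prod_prod_type_right, sgn_prod _ _ fun i _ => by simp [polar_self', h2, hB],
      ← Fin.prod_const, ← Fin.prod_const, ← Finset.prod_mul_distrib, ← Finset.prod_mul_distrib]
    refine Finset.prod_congr rfl fun i _ => ?_
    rw [Function.comp_apply, (k4 i).2, ← sgn_sq_mul h2 (mul_ne_zero (hB _) (hB _)), neg_one_mul]
    congr 3
    simp [polar_self']; ring
  have k7 : h₀.dk δ = (-1) ^ m := h₀.dk_eq h2 (by rw [e3, e1, neg_pow]; simp)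
  have k8 : mu Q₀ δ = -1 := by rw [mu_apply, e1, hc]
  rcases Nat.even_or_odd m with hm | hm
  · exact ⟨δ, z, g, by rw [k7, hm.neg_one_pow], k8, e4, by
      rw [k6, Int.units_pow_eq_pow_mod_two, Nat.even_iff.1 hm, pow_zero, one_mul]⟩
  · obtain ⟨v, hv, hv'⟩ := h₀.exists_refl
    refine ⟨δ * oS Q₀ (refl Q₀ v), z, g * D.EO (refl Q₀ v), by simp [k7, hv', hm.neg_one_pow],
      by simp [k8], by rw [map_mul, e4, E_oS, map_mul, mul_assoc], ?_⟩
    rw [map_mul, k6, EO_refl, spinor_refl _ _ (by simp [D.map_Q, D.b_ne, hv]), D.map_Q,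
      sgn_mul D.b_ne (by simpa), hs, Int.units_pow_eq_pow_mod_two, Nat.odd_iff.1 hm, pow_one,
      mul_one, mul_right_comm, Int.units_mul_self, one_mul]

lemma split_of_odd (h : Ev Q m) (hA : A.ker = (scalar Q).range)
    (hs : ∀ v, s.e (D.J v) = D.J v) (hj : ∀ x, x ∈ Set.range D.j ↔ s.σ x = x)
    (ho : Odd (orderOf s.σ) ∨ (2 : F) = 0) :
    splitClassCount (h.Sp.map A) ((ZΩ Q).map A) (A s) = 1 := by
  have := h.nontrivial
  have h₀ := h.desc D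
  rw [D.split_eq h.nd hA hs hj h.Sp_le h.ZΩ_le_Sp h.Sp fun u hu => iff_of_true hu ?_,
    Subgroup.relIndex_self]
  by_cases h2 : (2 : F) = 0
  · exact ⟨1, by simpa [← h.Sp_eq_two h2]⟩
  replace ho := ho.resolve_right h2
  have hr := card_eq_pow_of_fix hj
  replace h2 : (2 : F₀) ≠ 0 := by rwa [← map_ofNat D.j, map_eq_zero] at h2
  obtain ⟨δ, e1, e2⟩ : ∃ δ : OSim Q₀, h₀.dk δ = 1 ∧ mu Q₀ δ = mu Q u := by
    rcases Int.units_eq_one_or (mu Q u) with e | e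
    · exact ⟨1, by simp [e]⟩
    · exact e ▸ h₀.exists_mu h2
  obtain ⟨z, g, e3, e4⟩ := h.exists_of_mem_Sp (mul_mem hu (inv_mem
    (h.mem_Sp.2 ((h.dk_E h₀ D δ).trans e1)))) (by
      rw [map_mul, map_inv, ← e2, mu_apply, mu_apply, E_c, sgn_map D.j hr,
        Int.units_pow_eq_pow_mod_two, Nat.odd_iff.1 ho, pow_one, mul_inv_cancel])
  obtain ⟨g₀, e5⟩ := D.exists_E_of_odd h.nd h.good h₀.good h2 (by have := h₀.five; omega) hr ho z e3
  exact ⟨oS Q₀ g₀ * δ, by rwa [map_mul, Subgroup.coe_mul, mul_inv_rev, ← mul_assoc, e4]⟩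

lemma split_of_two (h : Ev Q m) (hA : A.ker = (scalar Q).range) (h2 : (2 : F) ≠ 0)
    (hd : disc Q = 1) (hs : ∀ v, s.e (D.J v) = D.J v) (hj : ∀ x, x ∈ Set.range D.j ↔ s.σ x = x)
    (ho : orderOf s.σ = 2) : splitClassCount (h.Sp.map A) ((ZΩ Q).map A) (A s) =
      if (-1) ^ m * disc Q₀ = 1 then 4 else 2 := by
  have := h.nontrivial
  have h₀ := h.desc D
  have hr := ho ▸ card_eq_pow_of_fix hj
  have h2' : (2 : F₀) ≠ 0 := by rwa [← map_ofNat D.j, map_ne_zero] at h2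
  obtain ⟨δ, z, g, e1, e2, e3, e4⟩ := D.exists_delta_spinor h h2' hr ho hj
  have e5 : h.dik g = 1 := by simpa [e3, e1] using h.dk_E h₀ D δ
  have k1 : ∀ u : OSim Q₀, h₀.dk u = 1 → mu Q₀ u = 1 → (D.E u).1 ∈ ZΩ Q := fun u l1 l2 => by
    obtain ⟨z, g, rfl⟩ := exists_zS_oS (s := u) (sgn_eq_one_iff.1 l2)
    exact D.E_mem_of_even h.nd h.good h₀.good hr z (by simpa using l1)
  have k2 : ∀ u ∈ h.Sp, ∀ u₀, u * (D.E u₀).1⁻¹ ∈ ZΩ Q → h₀.dk u₀ = 1 := fun u hu u₀ e => by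
    rw [← h.dk_E h₀ D, ← h.mem_Sp]
    simpa using mul_mem (inv_mem (h.ZΩ_le_Sp e)) hu
  have k3 : ∀ g, h.dik g = 1 → h.sp g = 1 → ∀ z, scalar Q z * ofOG Q g ∈ ZΩ Q := fun g l1 l2 z =>
    mem_ZΩ.2 ⟨z, g, (h.nd.mem_commutator_iff h.good g).2 ⟨l1, l2⟩, rfl⟩
  split_ifs with e
  · rw [D.split_eq h.nd hA hs hj h.Sp_le h.ZΩ_le_Sp (ZΩ Q) fun u hu =>
      ⟨fun l => ⟨1, by simpa⟩, fun ⟨u₀, l⟩ => ?_⟩]
    · rw [← QuotientGroup.ker_mk' (ZΩ Q), Subgroup.relIndex_ker]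
      rcases Nat.even_or_odd m with hm | hm
      · simpa using Nat.card_congr (h.sp_V4 h2 (QuotientGroup.ker_mk' _) hd hm).some.toEquiv
      · simpa using Nat.card_congr (h.sp_Z4 h2 (QuotientGroup.ker_mk' _) hd hm).some.toEquiv
    have l1 := k2 u hu u₀ l
    have l2 : (D.E δ).1 ∈ ZΩ Q := e3 ▸ k3 g e5 (e4.trans e) z
    suffices (D.E u₀).1 ∈ ZΩ Q by simpa using mul_mem l this
    rcases Int.units_eq_one_or (mu Q₀ u₀) with l3 | l3
    · exact k1 _ l1 l3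
    · simpa using mul_mem (k1 (u₀ * δ⁻¹) (by simp [l1, e1]) (by simp [l3, e2])) l2
  · rw [D.split_eq h.nd hA hs hj h.Sp_le h.ZΩ_le_Sp (mu Q).ker fun u hu =>
      ⟨fun l => ?_, fun ⟨u₀, l⟩ => ?_⟩]
    · obtain ⟨δ, l1, l2⟩ := h.exists_mu h2
      rw [Subgroup.relIndex_ker, show h.Sp.map (mu Q) = ⊤ from eq_top_iff.2 fun x _ => by
        rcases Int.units_eq_one_or x with rfl | rfl
        exacts [one_mem _, ⟨δ, h.mem_Sp.2 l1, l2⟩]]
      simp
    · obtain ⟨z', g', l1, rfl⟩ := h.exists_of_mem_Sp hu l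
      rcases Int.units_eq_one_or (h.sp g') with l2 | l2
      · exact ⟨1, by simpa using k3 g' l1 l2 z'⟩
      · refine ⟨δ, ?_⟩
        rw [e3, Subgroup.coe_mul, mul_inv_rev, ← mul_assoc]
        exact mul_mem (by simpa [mul_assoc] using k3 (g' * g⁻¹) (by simp [l1, e5]) (by
          simp [l2, e4, units_ne_one e]) z') (inv_mem (scalar_mem_ZΩ z))
    · have := ZΩ_le_mu l
      rwa [MonoidHom.mem_ker, map_mul, map_inv, mu_apply (D.E u₀).1, E_c, sgn_map D.j hr,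
        Int.units_sq, inv_one, mul_one] at this

lemma isConjUnder_of_semiSim [Nontrivial V] (hQ : ND Q) (hA : A.ker = (scalar Q).range)
    (hs : ∀ v, s.e (D.J v) = D.J v) {R : QuadraticForm F₀ V₀} (D' : Desc R Q) (hj : D'.j = D.j)
    {s' : SemiSim Q Q} (hs' : ∀ v, s'.e (D'.J v) = D'.J v) (hσ : s.σ = s'.σ)
    (t : SemiSim Q₀ R) (ht : ∀ a, t.σ a = a) : ∃ u ∈ OSim Q, s' = u * s * u⁻¹ :=
  D.exists_conj hQ (D'.pre t) (RingHom.ext fun a => by simp [pre, ht, hj])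
    (DFunLike.congr_fun hσ) hs fun v => hs' _

end Desc

section Odd

variable [Finite F] (hQ : ND Q) (hn : finrank F V = 2 * m + 1)
include hQ hn

lemma exists_of_odd (hG : Good Q) (s : OSim Q) :
    ∃ z g, dickson hQ hG g = 1 ∧ s = zS Q z * oS Q g := by
  have ho : Odd (finrank F V) := by simp [hn]
  obtain ⟨z, g, rfl⟩ := exists_zS_oS (hQ.isSquare_of_similar ho (lin s) s.1.c_ne (Sim_Q s))
  rcases Int.units_eq_one_or (dickson hQ hG g) with e | e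
  · exact ⟨z, g, e, rfl⟩
  · refine ⟨z * -1, negOne Q * g, by
      rw [map_mul, e, hQ.dickson_negOne hG (hQ.two_ne_zero_of_odd ho), ho.neg_one_pow]; rfl,
      Subtype.ext ?_⟩
    simp only [map_mul, Subgroup.coe_mul, coe_zS, coe_oS, scalar_neg_one, mul_assoc]
    rw [← mul_assoc (ofOG Q _), ← map_mul, negOne_mul_self, map_one, one_mul]

lemma exists_map_odd (hm : 1 ≤ m) {π : SemiSim Q Q →* X} (hπ : π.ker = ZΩ Q) :
    ∃ c, c ≠ 1 ∧ ∀ x, x ∈ (OSim Q).map π ↔ x = 1 ∨ x = c := by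
  have ho : Odd (finrank F V) := by simp [hn]
  have h2 := hQ.two_ne_zero_of_odd ho
  have hG : Good Q := good_of_two_ne_zero h2
  obtain ⟨ρ, h1, h3, -⟩ := exists_rho hQ hG h2 (by omega) hπ
  refine ⟨ρ (1, -1), by simp [h3, ho.neg_one_pow, Prod.ext_iff], fun x => ⟨?_, ?_⟩⟩
  · rintro ⟨s, hs, rfl⟩
    obtain ⟨z, g, e1, e2⟩ := exists_of_odd hQ hn hG ⟨s, hs⟩
    rw [show s = scalar Q z * ofOG Q g from congrArg Subtype.val e2, map_mul, h1, e1,
      show π (scalar Q z) = 1 from show _ ∈ π.ker from hπ ▸ scalar_mem_ZΩ z, one_mul]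
    rcases Int.units_eq_one_or (spinor hQ hG g) with e | e <;> rw [e]
    exacts [.inl (map_one ρ), .inr rfl]
  · rintro (rfl | rfl)
    · exact one_mem _
    · obtain ⟨g, e⟩ := ds_surjective hQ hG h2 (by omega) (1, -1)
      exact ⟨_, (oS Q g).2, (h1 g).trans (congrArg ρ e)⟩

lemma Desc.split_odd_dim [Finite F₀] (hm : 1 ≤ m) (D : Desc Q₀ Q) {s : SemiSim Q Q}
    {A : SemiSim Q Q →* X} (hA : A.ker = (scalar Q).range)
    (hs : ∀ v, s.e (D.J v) = D.J v) (hj : ∀ x, x ∈ Set.range D.j ↔ s.σ x = x) :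
    (Odd (orderOf s.σ) → splitClassCount ((OSim Q).map A) ((ZΩ Q).map A) (A s) = 1) ∧
    (orderOf s.σ = 2 → splitClassCount ((OSim Q).map A) ((ZΩ Q).map A) (A s) = 2) := by
  have : Nontrivial V := nontrivial_of_finrank_pos (R := F) (by omega)
  have h2 := hQ.two_ne_zero_of_odd (by simp [hn])
  have h2' : (2 : F₀) ≠ 0 := by rwa [← map_ofNat D.j, map_ne_zero] at h2
  have hG : Good Q := good_of_two_ne_zero h2
  have hG₀ : Good Q₀ := good_of_two_ne_zero h2'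
  have hr := card_eq_pow_of_fix hj
  refine ⟨fun ho => ?_, fun ho => ?_⟩
  · rw [D.split_eq hQ hA hs hj le_rfl ZΩ_le_Sim (OSim Q) fun u hu => iff_of_true hu ?_,
      Subgroup.relIndex_self]
    obtain ⟨z, g, e1, e2⟩ := exists_of_odd hQ hn hG ⟨u, hu⟩
    obtain ⟨g₀, e⟩ := D.exists_E_of_odd hQ hG hG₀ h2' (by rw [← D.dim]; omega) hr ho z e1
    exact ⟨_, (show u = scalar Q z * ofOG Q g from congrArg Subtype.val e2) ▸ e⟩
  · rw [D.split_eq hQ hA hs hj le_rfl ZΩ_le_Sim (ZΩ Q) fun u hu =>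
      ⟨fun l => ⟨1, by simpa⟩, fun ⟨u₀, l⟩ => ?_⟩]
    · obtain ⟨c, h1, h3⟩ := exists_map_odd hQ hn hm (QuotientGroup.ker_mk' (ZΩ Q))
      rw [← QuotientGroup.ker_mk' (ZΩ Q), Subgroup.relIndex_ker]
      simpa using Nat.card_congr (nonempty_Z2 h1 h3).some.toEquiv
    · obtain ⟨z, g, e1, rfl⟩ := exists_of_odd (D.nd hQ) (D.dim ▸ hn) hG₀ u₀
      simpa only [inv_mul_cancel_right] using
        mul_mem l (D.E_mem_of_even hQ hG hG₀ (ho ▸ hr) z e1)

end Odd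

section Lang

variable [Finite F] {ι : Type} [Fintype ι] [DecidableEq ι] {Q : QuadraticForm F (ι → F)}
  {A : SemiSim Q Q →* X} {s : SemiSim Q Q}

lemma isConjUnder_aux (hA : A.ker = (scalar Q).range) {S : Subgroup (SemiSim Q Q)}
    {δ u : SemiSim Q Q} (hu : u ∈ S) {z z' : Fˣ}
    (e : scalar Q z' * (δ * s) = u * (scalar Q z * s) * u⁻¹) :
    IsConjUnder (S.map A) (A s) (A δ * A s) :=
  ⟨A u, ⟨u, hu, rfl⟩, by
    rw [← map_mul, ← map_eq_of_scalar hA z', e, map_mul, map_mul, map_eq_of_scalar hA, map_inv]⟩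

lemma lang_odd_dim (hQ : ND Q) (hn : finrank F (ι → F) = 2 * m + 1)
    (hA : A.ker = (scalar Q).range) (hs : A s ^ orderOf s.σ = 1) {δ : X}
    (hδ : δ ∈ (OSim Q).map A) (h : (δ * A s) ^ orderOf s.σ = 1) :
    IsConjUnder ((OSim Q).map A) (A s) (δ * A s) := by
  have : Nonempty ι := Fintype.card_pos_iff.1 (by simp at hn; omega)
  obtain ⟨δ, hδ, rfl⟩ := hδ
  have e : (δ * s).σ = s.σ := RingEquiv.ext fun a => mem_Sim.1 hδ _
  obtain ⟨z, R, D, e1, e2⟩ := exists_desc hQ s (by rwa [← hA, MonoidHom.mem_ker, map_pow])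
    (fixF s.σ).subtype (by simp [mem_fixF])
  obtain ⟨z', R', D', e3, e4⟩ := exists_desc hQ (δ * s) (by
    rwa [← hA, MonoidHom.mem_ker, map_pow, map_mul, e]) (fixF s.σ).subtype (by simp [mem_fixF, e])
  obtain ⟨f, c, hc, hf⟩ := (D.nd hQ).equiv_QOdd (D.dim ▸ hn)
  obtain ⟨f', c', hc', hf'⟩ := (D'.nd hQ).equiv_QOdd (D'.dim ▸ hn)
  obtain ⟨u, hu, e5⟩ := D.isConjUnder_of_semiSim hQ hA e2 D' (e3.trans e1.symm) e4 e.symm
    ((ofLinear f c hc hf).trans (ofLinear f' c' hc' hf').symm) fun _ => rfl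
  exact isConjUnder_aux hA hu e5

lemma Ev.dk_of_conj (h : Ev Q m) {δ u : OSim Q} {z z' : Fˣ}
    (e : scalar Q z' * (δ * s) = u * (scalar Q z * s) * u.1⁻¹) : h.dk δ = 1 := by
  have := h.dk_conj (t := s) (s := u) (s' := (zS Q z' * δ)⁻¹ * u * zS Q z) (by
    have := eq_mul_inv_iff_mul_eq.1 e
    simp only [Subgroup.coe_mul, Subgroup.coe_inv, coe_zS, mul_assoc] at this ⊢
    rw [eq_inv_mul_iff_mul_eq, ← this, mul_assoc])
  simpa using this

lemma Ev.exists_conj (h : Ev Q m) {R R' : QuadraticForm F₀ V₀} [Finite F₀] (D : Desc R Q)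
    (D' : Desc R' Q) (hj : D'.j = D.j) {s' : SemiSim Q Q} (hs : ∀ v, s.e (D.J v) = D.J v)
    (hs' : ∀ v, s'.e (D'.J v) = D'.J v) (hσ : s.σ = s'.σ) (hP : IsPlus R ↔ IsPlus R') :
    ∃ u ∈ OSim Q, s' = u * s * u⁻¹ := by
  have := h.nontrivial
  obtain ⟨e, he⟩ := (D.nd h.nd).exists_isometry_of_isPlus_iff (D'.nd h.nd) (h.desc D).dim
    (h.desc D').dim hP
  exact D.isConjUnder_of_semiSim h.nd (A := QuotientGroup.mk' _) (QuotientGroup.ker_mk' _) hs D' hj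
    hs' hσ (ofIsometry e he) fun _ => rfl

lemma Ev.isPlus_iff_of_two (h : Ev Q m) {R R' : QuadraticForm F₀ (ι → F₀)} [Finite F₀]
    (D : Desc R Q) (D' : Desc R' Q) (hj : D'.j = D.j) (hj' : ∀ x, x ∈ Set.range D.j ↔ s.σ x = x)
    (h2 : orderOf s.σ = 2) {δ : OSim Q} (hδ : h.dk δ = 1) (hs : ∀ v, s.e (D.J v) = D.J v)
    {z : Fˣ} (hs' : ∀ v, (scalar Q z * (δ * s)).e (D'.J v) = D'.J v) : IsPlus R ↔ IsPlus R' := by
  have := h.nontrivial
  have : Nonempty ι := Fintype.card_pos_iff.1 (by have := h.five; simp at this; omega)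
  obtain ⟨v, -, hv⟩ := (h.desc D).exists_refl
  let ρ := D.E (oS R (refl R v))
  have e : (ρ * s).σ = s.σ := RingEquiv.ext fun a => mem_Sim.1 ρ.2 _
  have e1 : h.dk ρ = -1 := (h.dk_E (h.desc D) D _).trans (by simp [hv])
  obtain ⟨z', R'', D'', e3, e4⟩ := exists_desc h.nd (ρ * s) (by
    have : s ^ 2 = 1 := ND.semiSim_ext h.nd (D.e_ext (DFunLike.congr_fun ((map_pow (σHom Q) s 2).trans
      (h2 ▸ pow_orderOf_eq_one s.σ))) fun v => by rw [pow_two, mul_e, hs, hs, one_e])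
    rw [e, h2, (show Commute s ρ from D.conj_E hs (fun a => (hj' _).1 ⟨a, rfl⟩) _).symm.mul_pow,
      this, ← Subgroup.coe_pow, ← map_pow, ← map_pow, pow_two, refl_mul_self]
    simp) D.j (e ▸ hj')
  by_contra H
  by_cases H' : IsPlus R ↔ IsPlus R''
  · obtain ⟨u, hu, e5⟩ := h.exists_conj D D'' e3 hs e4 e.symm H'
    have := h.dk_of_conj (u := ⟨u, hu⟩) (z := 1) (by simpa using e5)
    simp [e1] at this
  · obtain ⟨u, hu, e5⟩ := h.exists_conj D'' D' (hj.trans e3.symm) e4 hs'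
      (e.trans (RingEquiv.ext fun a => (mem_Sim.1 δ.2 _).symm)) (by tauto)
    have := h.dk_of_conj (s := ρ.1 * s) (δ := δ * ρ⁻¹) (u := ⟨u, hu⟩) (by simpa [mul_assoc] using e5)
    simp [e1, hδ] at this

lemma Ev.lang (h : Ev Q m) (hA : A.ker = (scalar Q).range) (hp : (orderOf s.σ).Prime)
    (hs : A s ^ orderOf s.σ = 1) {δ : X} (hδ : δ ∈ h.Sp.map A)
    (H : (δ * A s) ^ orderOf s.σ = 1) : IsConjUnder (h.Sp.map A) (A s) (δ * A s) := by
  have : Nonempty ι := Fintype.card_pos_iff.1 (by have := h.five; simp at this; omega)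
  obtain ⟨δ, hδ, rfl⟩ := hδ
  lift δ to OSim Q using h.Sp_le hδ
  have e : (δ * s).σ = s.σ := RingEquiv.ext fun a => mem_Sim.1 δ.2 _
  have hj : ∀ x, x ∈ Set.range (fixF s.σ).subtype ↔ s.σ x = x := by simp [mem_fixF]
  obtain ⟨z, R, D, e1, e2⟩ := exists_desc h.nd s (by rwa [← hA, MonoidHom.mem_ker, map_pow]) _ hj
  obtain ⟨z', R', D', e3, e4⟩ := exists_desc h.nd (δ * s) (by
    rwa [← hA, MonoidHom.mem_ker, map_pow, map_mul, e]) (fixF s.σ).subtype (by rw [e]; exact hj)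
  obtain ⟨u, hu, e5⟩ := h.exists_conj D D' (e3.trans e1.symm) e2 e4 e.symm (by
    rcases hp.eq_two_or_odd' with h2 | ho
    · refine h.isPlus_iff_of_two (s := scalar Q z * s) (δ := δ) (z := z' * z⁻¹) D D'
        (e3.trans e1.symm) (e1 ▸ hj) h2 (h.mem_Sp.1 hδ) e2 ?_
      rwa [← mul_assoc δ.1, Sim_mul_scalar δ.2, ← mul_assoc, ← mul_assoc, ← map_mul,
        inv_mul_cancel_right, mul_assoc]
    · rw [D.isPlus_iff_of_odd h (card_eq_pow_of_fix hj) ho,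
        D'.isPlus_iff_of_odd h (card_eq_pow_of_fix hj) ho])
  rcases Int.units_eq_one_or (h.dk ⟨u, hu⟩) with e6 | e6
  · exact isConjUnder_aux hA ((h.mem_Sp (s := ⟨u, hu⟩)).2 e6) e5
  · obtain ⟨v, -, hv⟩ := (h.desc D).exists_refl
    refine isConjUnder_aux (z := z) (z' := z') hA ((h.mem_Sp
      (s := ⟨u, hu⟩ * D.E (oS R (refl R v)))).2 (by simp [e6, h.dk_E (h.desc D), hv])) ?_
    rw [e5, Subgroup.coe_mul, mul_assoc u, mul_assoc u,
      ← D.conj_E e2 fun a => (hj _).1 ⟨a, e1 ▸ rfl⟩]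
    group

end Lang

section Coord

variable {K : Type*} [Field K] {ι : Type} [Fintype ι] [DecidableEq ι]
  {Q Q' : QuadraticForm F (ι → F)}

lemma exists_eps [Finite F] (h : Ev (QPlus m F) m) : ∃ ε : SemiSim (QPlus m F) (QPlus m F) →* ℤˣ,
    (∀ s : OSim _, ε s = h.dk s) ∧ ∀ σ hσ, ε (coord σ hσ) = 1 := by
  let φ : (F ≃+* F) →* SemiSim (QPlus m F) (QPlus m F) := MonoidHom.mk'
    (fun σ => coord σ fun v => by simp [QPlus_apply]) fun _ _ =>
      ext' (fun _ => rfl) (fun _ => rfl) (by simp [mul_c, coord])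
  let n : SemiSim (QPlus m F) (QPlus m F) → OSim (QPlus m F) := fun s => ⟨s * (φ s.σ)⁻¹, by
    rw [MonoidHom.mem_ker, map_mul, map_inv]; exact mul_inv_cancel _⟩
  refine ⟨MonoidHom.mk' (fun s => h.dk (n s)) fun s t => ?_, fun s => congrArg h.dk (Subtype.ext ?_),
    fun σ hσ => (congrArg h.dk (Subtype.ext (mul_inv_cancel _))).trans (map_one _)⟩
  · rw [← h.dk_conj (t := φ s.σ) (s := n t) (s' := (n s)⁻¹ * n (s * t)) (by
      simp only [n, Subgroup.coe_mul, Subgroup.coe_inv, show (s * t).σ = s.σ * t.σ from rfl, map_mul]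
      group)]
    simp [← mul_assoc]
  · simp [n, show s.1.σ = 1 from s.2]

/-- the isomorphism induced by a semisimilarity -/
def pomIso (t : SemiSim Q Q') : POmega F ⇑Q ≃* POmega F ⇑Q' :=
  ((pomegaEquiv Q).trans t.pomEquiv).trans (pomegaEquiv Q').symm

lemma pomIso_aut (t : SemiSim Q Q') (u : SemiSim Q' Q') (x : POmega F ⇑Q) :
    pomIso t (aut Q ((t.trans u).trans t.symm) x) = aut Q' u (pomIso t x) := by
  obtain ⟨x, rfl⟩ := (pomegaEquiv Q).symm.surjective x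
  obtain ⟨x, rfl⟩ := QuotientGroup.mk_surjective x
  simp only [pomIso, aut, autEquiv, MonoidHom.comp_apply, MulEquiv.coe_toMonoidHom,
    MulAut.congr_apply, MulEquiv.trans_apply, MulEquiv.symm_symm, MulEquiv.apply_symm_apply,
    autHom_apply, pomEquiv_mk]
  exact congrArg _ (congrArg _ (Subtype.ext (OG_ext fun v => by
    simp [conj_apply, SemiSim.trans, SemiSim.symm])))

lemma exists_of_fieldMinus [Finite F] (hm : 3 ≤ m) {a b : F}
    (hab : ∀ z₁ z₂ : F, z₁ ^ 2 + a * z₁ * z₂ + b * z₂ ^ 2 = 0 → z₁ = 0 ∧ z₂ = 0)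
    {x : MulAut (POmega F (QMinus m F a b))} (hx : IsFieldAutClassPOmegaMinus m x) :
    ∃ s, x = aut _ s ∧ s.σ ≠ 1 ∧ Odd (orderOf s.σ) := by
  obtain ⟨a', b', ψ, σ, hab', h1, h2, h3, h4⟩ := hx
  have h := ev_QMinus (m := m) (by omega) hab
  have h' := ev_QMinus (m := m) (by omega) hab'
  obtain ⟨e, he⟩ := h.nd.exists_isometry_of_isPlus_iff h'.nd h.dim h'.dim
    (iff_of_false (not_isPlus_QMinus hab) (not_isPlus_QMinus hab'))
  let t := ofIsometry e he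
  obtain ⟨t', ht'⟩ := aut_surjective h'.nd (by rw [h'.dim]; omega)
    (fun _ => not_isPlus_QMinus hab') ((pomIso t).symm.trans ψ)
  have h7 : ∀ v, QMinus m F a' b' (fun i => σ (v i)) = σ (QMinus m F a' b' v) := fun v => by
    simp [QMinus_apply, h2, h3]
  have h5 := (isFieldAut_iff h7).1 h4
  have h6 : ((t.trans (t'⁻¹ * coord σ h7 * t')).trans t.symm).σ = σ := by
    change (σHom _ (t'⁻¹ * coord σ h7 * t') : F ≃+* F) = σ
    rw [map_mul, map_mul, map_inv, ringAut_comm, mul_inv_cancel_left]; rfl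
  refine ⟨_, MulEquiv.ext fun y => (pomIso t).injective ?_, h6.symm ▸ h1,
    h6.symm ▸ odd_orderOf_of_aniso h2 h3 hab'⟩
  rw [pomIso_aut, map_mul, map_mul, map_inv, ht', ← h5]
  change _ = pomIso t (ψ.symm (ψ (x (ψ.symm (ψ ((pomIso t).symm (pomIso t y)))))))
  exact congrArg _ ((congrArg x (((pomIso t).symm_apply_apply y).symm.trans
    (ψ.symm_apply_apply _).symm)).trans (ψ.symm_apply_apply _).symm)

lemma exists_of_field [Finite F] (hs : Function.Surjective (aut Q))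
    (h : ∀ (σ : F ≃+* F) v, Q (fun i => σ (v i)) = σ (Q v))
    {x : MulAut (POmega F Q)} (hx : IsFieldAutClassPOmega Q x) : ∃ s, x = aut _ s ∧ s.σ ≠ 1 := by
  obtain ⟨α, φ, σ, h1, h2, h3⟩ := hx
  obtain ⟨t, rfl⟩ := hs α
  refine ⟨t⁻¹ * coord σ (h σ) * t, by
    rw [map_mul, map_mul, ← (isFieldAut_iff _).1 h2, ← h3, map_inv]; group, ?_⟩
  change (σHom _ (t⁻¹ * coord σ (h σ) * t) : F ≃+* F) ≠ 1
  rwa [map_mul, map_mul, map_inv, ringAut_comm, mul_inv_cancel_left]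

lemma exists_of_graphField [Finite F] (hm : 5 ≤ m) (h : Ev (QPlus m F) m)
    {ε : SemiSim (QPlus m F) (QPlus m F) →* ℤˣ} (h1 : ∀ s : OSim _, ε s = h.dk s)
    (h2 : ∀ σ hσ, ε (coord σ hσ) = 1) {x : MulAut (POmega F (QPlus m F))}
    (hx : IsGraphFieldAutClassPOmegaPlus m x) : ∃ s, x = aut _ s ∧ s.σ ≠ 1 ∧ ε s = -1 := by
  obtain ⟨α, γ, φ, σ, v, r, e1, e2, -, e3, e4, e5, e6⟩ := hx
  obtain ⟨t, rfl⟩ := aut_surjective h.nd (by rw [h.dim]; omega) (by rw [h.dim]; omega) α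
  have e7 : ∀ v, QPlus m F (fun i => σ (v i)) = σ (QPlus m F v) := fun v => by simp [QPlus_apply]
  have e8 := (induced_iff (s := oS _ (refl (QPlus m F) v)) fun w => by
    rw [e3]; exact (reflectionMatrix_mulVec v w).symm).1 e4
  refine ⟨t⁻¹ * (oS _ (refl (QPlus m F) v) * coord σ e7) * t, by
    rw [map_mul, map_mul, map_mul, ← (isFieldAut_iff _).1 e5, ← e8, map_inv]
    exact eq_mul_of_mul_inv_eq (eq_inv_mul_of_mul_eq ((mul_assoc _ _ _).symm.trans e6)), ?_, ?_⟩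
  · change (σHom _ (t⁻¹ * (_ * coord σ e7) * t) : F ≃+* F) ≠ 1
    rwa [map_mul, map_mul, map_inv, ringAut_comm, mul_inv_cancel_left]
  · rw [map_mul, map_mul, map_mul, h1, h2, h.dk_oS, dickson_refl _ _ e2, map_inv, mul_right_comm]
    simp

lemma not_isPlus_of_eps [Finite F] [Finite F₀] (h : Ev (QPlus m F) m)
    {ε : SemiSim (QPlus m F) (QPlus m F) →* ℤˣ}
    (h2 : ∀ σ hσ, ε (coord σ hσ) = 1) {s : SemiSim (QPlus m F) (QPlus m F)} (hs : ε s = -1)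
    {R : QuadraticForm F₀ (Fin m ⊕ Fin m → F₀)} (D : Desc R (QPlus m F))
    (h3 : ∀ v, s.e (D.J v) = D.J v) (hj : ∀ x, x ∈ Set.range D.j ↔ s.σ x = x) : ¬ IsPlus R := by
  intro H
  have e5 : ∀ v, QPlus m F (fun i => s.σ (v i)) = s.σ (QPlus m F v) := fun v => by
    simp [QPlus_apply]
  obtain ⟨u, -, e4⟩ := h.exists_conj (descPlus m D.j) D rfl (s := coord s.σ e5)
    (fun v => funext fun i => (hj _).1 ⟨v i, rfl⟩) h3 rfl (iff_of_true (isPlus_QPlus _) H)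
  have := congrArg ε e4
  rw [map_mul, map_mul, h2, hs] at this
  simp at this

lemma inndiagMinus_eq' [Finite F] {a b : F} {k : ℕ}
    (hab : ∀ z₁ z₂ : F, z₁ ^ 2 + a * z₁ * z₂ + b * z₂ ^ 2 = 0 → z₁ = 0 ∧ z₂ = 0)
    (h : Ev (QMinus k F a b) m) : inndiagPOmegaMinus k F a b = h.Sp.map (aut _) := by
  obtain rfl : m = k + 1 := by have := h.dim; simp at this; omega
  exact inndiagMinus_eq hab h

end Coord

end Cfsg.Agent.H28
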