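import Cfsg.Agent.H28.Balance
import Cfsg.Agent.H28.OField
import Cfsg.Agent.H28.ClField
import Cfsg.Agent.H12.SMore
import Cfsg.Agent.H13.Low4

/-! Additive versions of Schur's lemma for the classical groups, and their `p'`-cores. -/

set_option autoImplicit false

namespace Cfsg.Agent.H28

open Module QuadraticMap
open scoped MatrixGroups

variable {F V N : Type*} [Field F] [AddCommGroup V] [Module F V] [Group N]

/-- additive maps commuting with the unipotent elements are scalars -/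
def Schur (ν : N →* (V ≃ₗ[F] V)) : Prop :=
  ∀ S : V →+ V, (∀ n : N, (∃ k, n ^ ringChar F ^ k = 1) → ∀ v, S (ν n v) = ν n (S v)) →
    ∃ c : F, ∀ v, S v = c • v

lemma eq_one_of_semiconj [Finite F] {S : V → V} {T : V ≃ₗ[F] V} {k : ℕ}
    (hT : T ^ ringChar F ^ k = 1) {z : F} (h : ∀ x, S (T x) = z • T (S x)) {x : V} (hx : S x ≠ 0) :
    z = 1 := by
  have : Fact (ringChar F).Prime := ⟨CharP.char_is_prime F _⟩
  have key : ∀ n x, S ((T ^ n) x) = z ^ n • (T ^ n) (S x) := fun n => by
    induction n with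
    | zero => simp
    | succ n ih =>
      intro x
      rw [pow_succ', LinearEquiv.mul_apply, h, ih, map_smul, smul_smul, pow_succ' z]; rfl
  have := key (ringChar F ^ k) x
  rw [hT] at this
  exact eq_one_of_pow_char_pow (smul_left_injective F hx ((one_smul _ _).trans this)).symm

section O
open H13
variable {Q : QuadraticForm F V} [FiniteDimensional F V] [Finite F]

lemma schur_Om (hQ : ND Q) (hG : Good Q) (hn : 3 ≤ finrank F V) :
    Schur ((OG Q).subtype.comp (Om Q).subtype) := fun S hS => by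
  have h : ∀ u a x, S ((sieg Q u a).1 x) = (sieg Q u a).1 (S x) := fun u a =>
    hS (hQ.sg hG u a) ((unip_sieg u a).imp fun _ h => Subtype.ext h)
  have h1 : ∀ u, Q u = 0 → u ≠ 0 → ∀ c : F, ∃ d : F, d • u = S (c • u) := fun u hu h0 c =>
    Submodule.mem_span_singleton.1 (hQ.mem_span_of_forall_sieg hn hu h0 fun a _ => by
      rw [← h, (sieg Q u a).1.map_smul, sieg_apply_self]; exact Submodule.mem_span_singleton_self _)
  have h2 : ∀ {u v}, HP Q u v → ∃ β : F, ∀ a : pp Q u v, ∃ c : F, S a = β • a + c • u :=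
    fun {u v} hp => by
      obtain ⟨β, e1⟩ := h1 v hp.Qv hp.ne_right 1
      refine ⟨β, fun a => ?_⟩
      obtain ⟨d, e2⟩ := h1 u hp.Qu hp.ne_left (Q a)
      have := h u a v
      rw [one_smul] at e1
      rw [← e1, map_smul, sieg_apply hp.Qu (pp_left a), pp_right', hp.uv, zero_smul, add_zero,
        one_smul, map_sub, map_add, ← e1, ← e2] at this
      exact ⟨β * Q a - d, by linear_combination (norm := module) -this⟩
  have h3 : ∀ {u v}, HP Q u v → ∀ β : F, (∀ a : pp Q u v, S a = β • a) →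
      ∀ c : F, S (c • u) = β • c • u := fun {u v} hp β e c => by
    have := hp.nontrivial_pp hn
    obtain ⟨a, ha⟩ := exists_ne (0 : pp Q u v)
    obtain ⟨b, hb⟩ := (hp.nd_pp hQ).exists_ne ha
    replace hb : polar Q (a : V) b ≠ 0 := hb
    have := h u a (((c / polar Q (a : V) b) • b : pp Q u v))
    rw [e, map_smul, sieg_apply_of_perp hp.Qu (pp_left a) (pp_left _), map_add, e] at this
    simpa [hb] using this
  obtain ⟨u, h0, hu⟩ := exists_singular Q hn
  obtain ⟨v, hp⟩ := hQ.exists_hp hu h0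
  obtain ⟨β, e1⟩ := h2 hp
  obtain ⟨α, e2⟩ := h2 hp.symm
  have e3 : ∀ a : pp Q u v, S a = β • a := fun a => by
    obtain ⟨c, e3⟩ := e1 a
    obtain ⟨d, e4⟩ := e2 ⟨a, (pp_comm u v).le a.2⟩
    have := congrArg (polarBilin Q v) (e3.symm.trans e4)
    simp [pp_right, hp.vu, hp.Qv] at this
    simp [e3, this]
  refine ⟨β, fun x => ?_⟩
  obtain ⟨a, b, w, rfl⟩ := hp.exists_eq x
  rw [map_add, map_add, e3, h3 hp β e3, h3 hp.symm β fun a => e3 ⟨a, (pp_comm v u).le a.2⟩,
    smul_add, smul_add]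

end O

section S
open H12
variable {σ : F →+* F} {B : V →ₛₗ[σ] V →ₗ[F] F}

lemma rho_pow (D : SD B) (e u : V) (c : F) : rho B e u c ^ ringChar F ^ 2 = 1 := by
  by_cases h : Adm B e u c
  swap
  · rw [rho_of_not h, one_pow]
  have key : ∀ {u c}, Adm B e u c → ∀ k : ℕ, ∃ d, Adm B e ((k : F) • u) d ∧
      rho B e u c ^ k = rho B e ((k : F) • u) d ∧ (u = 0 → d = k * c) := fun {u c} h k => by
    induction k with
    | zero => exact ⟨0, by simpa using adm_zero h.ee (map_zero σ), by simp [rho_zero D], by simp⟩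
    | succ k ih =>
      obtain ⟨d, hd, e1, e2⟩ := ih
      refine ⟨d + c + B ((k : F) • u) u, ?_, ?_, fun h0 => by simp [e2 h0, h0, add_mul]⟩
      · rw [Nat.cast_succ, add_smul, one_smul]; exact hd.add D h
      · rw [pow_succ, e1, rho_mul D hd h, Nat.cast_succ, add_smul, one_smul]
  obtain ⟨d, hd, e1, -⟩ := key h (ringChar F)
  rw [ringChar.Nat.cast_ringChar, zero_smul] at hd e1
  obtain ⟨d', -, e2, e3⟩ := key hd (ringChar F)
  rw [pow_two, pow_mul, e1, e2, e3 rfl, smul_zero, ringChar.Nat.cast_ringChar, zero_mul, rho_zero D]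

variable [FiniteDimensional F V] [Finite F]

lemma schur_SUG (D : SD B) (hn : 3 ≤ finrank F V) :
    Schur ((UG B).subtype.comp (SUG B).subtype) := fun S hS => by
  have h : ∀ e u c x, S ((rho B e u c).1 x) = (rho B e u c).1 (S x) := fun e u c =>
    hS (D.rhoS e u c) ⟨2, Subtype.ext (rho_pow D e u c)⟩
  have h1 : ∀ e, B e e = 0 → ∀ x, S (B e x • e) = B e (S x) • e := fun e he x => by
    simpa [rho_apply D (adm_zero he (map_one σ))] using h e 0 1 x
  have h3 : ∀ {e f}, SP B e f → ∀ β : F, (∀ a : spp B e f, S a = β • a) →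
      ∀ c : F, S (c • e) = β • c • e := fun {e f} hp β H c => by
    have := hp.nontrivial_spp D hn
    obtain ⟨a, ha⟩ := exists_ne (0 : spp B e f)
    obtain ⟨b, hb⟩ := (hp.sd D).exists_ne ha
    rw [res_apply] at hb
    obtain ⟨d, hd⟩ := exists_adm D hp.ee (spp_left a)
    have := h e a d (((c / B a b) • b : spp B e f))
    rw [H, map_smul, rho_apply D hd, spp_left, map_add, map_add, H] at this
    simpa [hb] using this
  obtain ⟨e, h0, he⟩ := D.exists_iso D.ns (by omega)
  obtain ⟨f, hp⟩ := D.exists_SP he h0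
  have e1 : S f = -B f (S e) • f := by simpa [hp.fe D, neg_eq_iff_eq_neg] using h1 f hp.ff e
  generalize -B f (S e) = β at e1
  have e3 : ∀ a : spp B e f, S a = β • a := fun a => by
    obtain ⟨c, hc⟩ := exists_adm D he (spp_left a)
    have k1 := h e a c f
    have k2 := h1 f hp.ff a
    have k3 := h1 e he (c • f)
    rw [e1, map_smul, rho_apply D hc, hp.ef, D.spp_right'] at k1
    simp only [one_smul, mul_one, add_zero, map_add, e1] at k1
    rw [(B e).map_smul, hp.ef, smul_eq_mul, mul_one] at k3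
    have k4 : S a = β • (a : V) + (β * c - B e (S (c • f))) • e := by
      rw [k3] at k1; linear_combination (norm := module) k1
    rw [spp_right, zero_smul, map_zero, eq_comm, smul_eq_zero, or_iff_left hp.ne_right, k4] at k2
    simp only [map_add, map_smul, spp_right, hp.fe D, smul_eq_mul, mul_zero, zero_add,
      mul_neg, mul_one, neg_eq_zero] at k2
    simp [k4, k2]
  refine ⟨β, fun x => ?_⟩
  obtain ⟨a, b, w, rfl⟩ := hp.exists_eq D x
  rw [map_add, map_add, e3, h3 hp β e3, h3 (hp.symm D) β fun a => e3 ⟨a, mem_sperp_pair.2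
    ⟨by simpa using spp_right a, spp_left a⟩⟩, smul_add, smul_add]

lemma qs_SUG (D : SD B) (hn : 2 ≤ finrank F V) : QS (ringChar F) (SUG B) := fun N _ => by
  have : Fact (ringChar F).Prime := ⟨CharP.char_is_prime F _⟩
  have : Finite V := Module.finite_of_finite F
  have : Finite (SUG B) := .of_injective (fun g => (g.1.1 : V → V)) fun _ _ h =>
    Subtype.ext (UG_ext (congrFun h))
  refine or_iff_not_imp_left.2 fun hc => IsPGroup.iff_card.1 ?_
  obtain ⟨e, h0, he⟩ := D.exists_iso D.ns hn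
  have key : ∀ g (hg : g ∈ EG B), ∃ u c, Adm B e u c ∧
      ((⟨g, D.EG_le_SUG hg⟩ : SUG B) : SUG B ⧸ N) = D.rhoS e u c := fun g hg => by
    have h1 : Adm B e 0 0 ∧ ((1 : SUG B) : SUG B ⧸ N) = D.rhoS e 0 0 :=
      ⟨adm_zero he (map_zero σ), congrArg _ (Subtype.ext (rho_zero D e).symm)⟩
    induction hg using Subgroup.closure_induction with
    | mem g hg =>
      obtain ⟨e', u, c, rfl⟩ := hg
      by_cases h : Adm B e' u c
      swap
      · exact ⟨0, 0, h1.1, (congrArg _ (Subtype.ext (rho_of_not h))).trans h1.2⟩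
      by_cases h2 : e' = 0
      · exact ⟨0, 0, h1.1, (congrArg _ (Subtype.ext (UG_ext fun x => by
          rw [rho_apply D h]; simp [h2]))).trans h1.2⟩
      obtain ⟨n, hn, a, ha, e1⟩ := D.exists_map_of_normal D.ns hn hc h.ee h2 he h0
      have h3 := (adm_conj n.1).2 h
      rw [e1] at h3
      have h4 : Adm B e (n.1.1 u) c :=
        ⟨he, by simpa [D.σ_ne_zero ha] using h3.eu, h3.cc⟩
      refine ⟨σ a • n.1.1 u, c * (a * σ a), by simpa [D.invol, mul_comm] using h4.smul_right D (σ a),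
        ?_⟩
      rw [show D.rhoS e _ _ = n * D.rhoS e' u c * n⁻¹ from Subtype.ext
        ((rho_smul D h4 a).symm.trans (e1 ▸ (conj_rho D n.1 e' u c).symm))]
      simp [(QuotientGroup.eq_one_iff n).2 hn]
      rfl
    | one => exact ⟨0, 0, h1⟩
    | mul a b _ _ ha hb =>
      obtain ⟨u, c, h2, e1⟩ := ha
      obtain ⟨u', c', h3, e2⟩ := hb
      exact ⟨_, _, h2.add D h3, (congrArg₂ (· * ·) e1 e2).trans
        (congrArg (QuotientGroup.mk (s := N)) (Subtype.ext (rho_mul D h2 h3)))⟩
    | inv a _ ha =>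
      obtain ⟨u, c, h2, e1⟩ := ha
      exact ⟨_, _, h2.neg D, (congrArg (·⁻¹) e1).trans
        (congrArg (QuotientGroup.mk (s := N)) (Subtype.ext (rho_inv D h2)))⟩
  intro x
  induction x using QuotientGroup.induction_on with | H g => ?_
  obtain ⟨u, c, -, e1⟩ := key g.1 ((D.EG_eq_SUG D.ns).ge g.2)
  exact ⟨2, by rw [e1, ← QuotientGroup.mk_pow, show D.rhoS e u c ^ _ = 1 from
    Subtype.ext (rho_pow D e u c)]; rfl⟩

end S

section SL
open Matrix
variable {ι : Type*} [Fintype ι] [DecidableEq ι]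

lemma schur_SL [Nontrivial ι] :
    Schur ((H12.glEq ι F).toMonoidHom.comp (SpecialLinearGroup.toGL : SpecialLinearGroup ι F →* _)) :=
  fun S hS => by
  have h : ∀ i j, i ≠ j → ∀ (c : F) v, S (Pi.single i (c * v j)) = Pi.single i (c * S v j) :=
    fun i j hij c v => by
      have := hS (SpecialLinearGroup.transvection hij c) ⟨1, by
        have : ∀ k : ℕ, SpecialLinearGroup.transvection hij c ^ k =
            SpecialLinearGroup.transvection hij (k * c) := fun k => by
          induction k with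
          | zero => simp
          | succ k ih => rw [pow_succ, ih, ← SpecialLinearGroup.transvection_add]; congr 1; simp [add_mul]
        simp [this]⟩ v
      change S (transvection i j c *ᵥ v) = transvection i j c *ᵥ S v at this
      simpa [transvection, add_mulVec, single_mulVec, Pi.single] using this
  have h1 : ∀ i j, i ≠ j → ∀ c : F, S (Pi.single i c) = Pi.single i (c * S (Pi.single j 1) j) :=
    fun i j hij c => by simpa using h i j hij c (Pi.single j 1)
  have h2 : ∀ i j, S (Pi.single i 1) i = S (Pi.single j 1) j := fun i j => by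
    by_cases e : i = j
    · rw [e]
    · simp [h1 i j e]
  obtain ⟨i₀⟩ : Nonempty ι := inferInstance
  refine ⟨S (Pi.single i₀ 1) i₀, fun v => ?_⟩
  rw [← Finset.univ_sum_single v, map_sum, Finset.smul_sum]
  refine Finset.sum_congr rfl fun i _ => ?_
  obtain ⟨j, hj⟩ := exists_ne i
  rw [h1 i j hj.symm, h2 j i₀, ← Pi.single_smul, smul_eq_mul, mul_comm]

end SL

/-- Schur's lemma after extension of scalars -/
lemma Desc.schur {F₀ V₀ : Type*} [Field F₀] [AddCommGroup V₀] [Module F₀ V₀]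
    [FiniteDimensional F₀ V₀] [Nontrivial V₀] {Q₀ : QuadraticForm F₀ V₀} {Q : QuadraticForm F V}
    (D : Desc Q₀ Q) {ν : N →* (V₀ ≃ₗ[F₀] V₀)} (hν : Schur ν) (E : N → V ≃ₗ[F] V)
    (hE : ∀ n v, E n (D.J v) = D.J (ν n v)) (S : V →+ V)
    (hS : ∀ n : N, (∃ k, n ^ ringChar F₀ ^ k = 1) → ∀ x, S (E n x) = E n (S x)) :
    ∃ c : F, ∀ v, S (D.J v) = c • D.J v := by
  let _ := D.j.toAlgebra
  let b := finBasis F₀ V₀
  let π : (F →ₗ[F₀] F₀) → V →+ V₀ := fun ψ =>
    { toFun := fun x => ∑ i, ψ ((D.basis b).repr x i) • b i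
      map_zero' := by simp
      map_add' := fun x y => by simp [add_smul, Finset.sum_add_distrib] }
  have h1 : ∀ ψ (c : F) v, π ψ (c • D.J v) = ψ c • v := fun ψ c v => by
    conv_rhs => rw [← b.sum_repr v, Finset.smul_sum]
    change ∑ i, ψ ((D.basis b).repr (c • D.J v) i) • b i = _
    refine Finset.sum_congr rfl fun i _ => ?_
    rw [_root_.map_smul, Finsupp.smul_apply, D.repr_J, smul_eq_mul, mul_comm, smul_smul,
      mul_comm (ψ c)]
    exact congrArg (· • b i) (ψ.map_smul _ c)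
  have h2 : ∀ ψ n x, π ψ (E n x) = ν n (π ψ x) := fun ψ n x => by
    rw [← (D.basis b).sum_repr x]
    simp only [map_sum, _root_.map_smul, D.basis_apply, hE, h1]
  choose k hk using fun ψ => hν ((π ψ).comp (S.comp D.J)) fun n hn v => by
    simp [← hE, hS n hn, h2]
  have h3 : ∀ ψ v i, ψ ((D.basis b).repr (S (D.J v)) i) = k ψ * b.repr v i := fun ψ v i => by
    simpa [π, Finsupp.single_apply] using congrArg (fun x => b.repr x i) (hk ψ v)
  have i₀ : Fin (finrank F₀ V₀) := ⟨0, finrank_pos⟩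
  refine ⟨(D.basis b).repr (S (D.J (b i₀))) i₀, fun v => (D.basis b).ext_elem fun i => ?_⟩
  rw [← sub_eq_zero, ← Module.forall_dual_apply_eq_zero_iff F₀]
  intro ψ
  rw [map_sub, h3, _root_.map_smul, Finsupp.smul_apply, D.repr_J, smul_eq_mul, mul_comm _ (D.j _),
    show ψ (D.j _ * _) = _ from ψ.map_smul _ _, h3]
  simp [mul_comm]

section Core
variable {p : ℕ} [hp : Fact p.Prime] [Fintype F]

lemma QS.congr {G H : Type*} [Group G] [Group H] {r : ℕ} (h : QS r H) (e : G ≃* H) : QS r G :=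
  fun N _ => (h (N.map (e : G →* H)) (Subgroup.Normal.map ‹_› _ e.surjective)).imp (fun h g hg =>
    Subgroup.mem_center_iff.2 fun k => e.injective (by
      simpa using Subgroup.mem_center_iff.1 (h ⟨g, hg, rfl⟩) (e k)))
    fun ⟨k, h⟩ => ⟨k, by rwa [Subgroup.index_map_equiv] at h⟩

lemma coprime_ringChar {r : ℕ} [Fact r.Prime] [CharP F r] (h : p ≠ r) : p.Coprime (ringChar F) := by
  rw [ringChar.eq F r]; exact (Nat.coprime_primes hp.out Fact.out).2 h

lemma core_PSL {n : ℕ} (hn : 2 ≤ n) (hr : p.Coprime (ringChar F)) (h : p ∣ Nat.card PSL(n, F)) :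
    pPrimeCore p PSL(n, F) = ⊥ := by
  rcases hn.eq_or_lt with rfl | hn
  · have D : H12.SD (H12.spB (Fin 1) F) := H12.sd_spB
    obtain ⟨e, he0, he⟩ := D.exists_iso D.ns (by simp)
    obtain ⟨f, h'⟩ := D.exists_SP he he0
    exact ((qs_SUG D (by simp)).congr (h'.sl2Equiv D (by simp) (RingHom.id F) (fun _ => rfl)
      fun a _ => ⟨a, rfl⟩)).core hr h
  · have := H12.PSL_simple_of_three_le (F := F) (ι := Fin n) (by simpa using hn.succ_le)
    exact core_of_simple h

lemma sub_one_dvd (q k : ℕ) : q - 1 ∣ q ^ k - 1 := by simpa using Nat.sub_dvd_pow_sub_pow q 1 k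

lemma dvd_card_PSL {n : ℕ} (hn : 2 ≤ n) (h : p ∣ Fintype.card F - 1) :
    p ∣ Nat.card PSL(n, F) := by
  have h1 := Fintype.one_lt_card (α := F)
  set q := Fintype.card F with hq
  rcases hn.eq_or_lt with rfl | hn
  · refine dvd_of_mul_eq (H12.card_PSL2 hq.symm) (a := q + 1) ?_ (by omega) ?_
    · exact (Nat.dvd_add_right (Nat.gcd_dvd_right 2 (q - 1))).2 (Nat.gcd_dvd_left _ _) |>.trans
        (dvd_of_eq (by omega))
    · rw [show q ^ 2 - 1 = (q + 1) * (q - 1) by simpa using Nat.sq_sub_sq q 1]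
      exact (Nat.mul_dvd_mul_left _ h).mul_left _
  have h2 := H12.card_PSL_fin hq.symm n (by omega)
  rw [← mul_assoc] at h2
  refine dvd_of_mul_eq h2 (Nat.mul_dvd_mul_right (Nat.gcd_dvd_right _ _) _)
    (mul_ne_zero (by omega) (by omega)) ((Nat.mul_dvd_mul_left _ h).trans ?_)
  obtain ⟨k, rfl⟩ : ∃ k, n = k + 3 := ⟨n - 3, by omega⟩
  have h3 : ∀ a b, q - 1 ∣ q ^ a - q ^ b := fun a b =>
    (Nat.dvd_sub (sub_one_dvd q a) (sub_one_dvd q b)).trans (dvd_of_eq (by
      have := Nat.one_le_pow b q (by omega); omega))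
  rw [Fin.prod_univ_succ, Fin.prod_univ_succ, Fin.prod_univ_succ, mul_assoc]
  exact mul_dvd_mul (h3 _ _) (mul_dvd_mul (h3 _ _) ((h3 _ _).mul_right _))

omit hp in
lemma core_PSL2_two (h2 : (2 : F) ≠ 0) : pPrimeCore 2 PSL(2, F) = ⊥ :=
  core_PSL le_rfl ((Nat.coprime_primes Nat.prime_two (CharP.char_is_prime F _)).2
    (H13.ringChar_ne_two_of_two_ne_zero h2).symm) (dvd_card_PSL le_rfl
      ((H13.odd_card_of_two_ne_zero h2).tsub_odd odd_one).two_dvd)

omit hp in
lemma four_dvd (h2 : (2 : F) ≠ 0) (k : ℕ) : 2 * 2 ∣ Nat.card F ^ (2 * k) - 1 := by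
  obtain ⟨a, ha⟩ := H13.odd_card_of_two_ne_zero h2
  rw [pow_mul, Nat.card_eq_fintype_card, ha]
  exact Dvd.dvd.trans ⟨a * a + a, by ring_nf; omega⟩ (sub_one_dvd _ k)

open H13 in
omit hp in
lemma two_dvd_card_POm [FiniteDimensional F V] {Q : QuadraticForm F V} (hQ : ND Q)
    (h2 : (2 : F) ≠ 0) (hn : 3 ≤ finrank F V) : 2 ∣ Nat.card (POm Q) := by
  have hG : Good Q := good_of_two_ne_zero h2
  have h1 : 1 < Nat.card F := Finite.one_lt_card
  obtain ⟨m, hm | hm⟩ := Nat.even_or_odd' (finrank F V)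
  · have h3 : 2 ∣ ∏ i ∈ Finset.range (m - 1), (Nat.card F ^ (2 * (i + 1)) - 1) :=
      ((dvd_mul_right 2 2).trans (four_dvd h2 1)).trans
        (Finset.dvd_prod_of_mem _ (a := 0) (by simp; omega))
    by_cases hP : IsPlus Q
    · exact dvd_of_mul_eq (hQ.card_POm_plus hG hP (by omega) hm) (Nat.gcd_dvd_right _ _)
        (Nat.sub_ne_zero_of_lt (Nat.one_lt_pow (by omega) h1)) (mul_dvd_mul (dvd_mul_left _ _) h3)
    · exact dvd_of_mul_eq (hQ.card_POm_minus hG hP (by omega) hm) (Nat.gcd_dvd_right _ _)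
        (by simp) (mul_dvd_mul (dvd_mul_left _ _) h3)
  · exact dvd_of_mul_eq (hQ.card_POm_odd (by omega) hm) dvd_rfl two_ne_zero
      (((four_dvd h2 1).trans (Finset.dvd_prod_of_mem _ (a := 0) (by simp; omega))).mul_left _)

open H13 in
omit hp in
lemma core_POm_two [FiniteDimensional F V] {Q : QuadraticForm F V} (hQ : ND Q)
    (h2 : (2 : F) ≠ 0) (hn : 3 ≤ finrank F V) : pPrimeCore 2 (POm Q) = ⊥ := by
  obtain h | h | h : finrank F V = 3 ∨ finrank F V = 4 ∨ 5 ≤ finrank F V := by omega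
  · obtain ⟨t⟩ := hQ.nonempty_semiSim_odd (nd_symS h2) (m := 1) h finrank_symS
    exact core_congr (t.pomEquiv.trans (nonempty_equiv_POm_symS h2).some).symm (core_PSL2_two h2)
  · by_cases hP : IsPlus Q
    · obtain ⟨t⟩ := hQ.nonempty_semiSim_even nd_detQ (m := 2) h finrank_M2
        (iff_of_true hP isPlus_detQ)
      refine core_congr (t.pomEquiv.trans (nonempty_equiv_POm_detQ ?_).some).symm
        (core_prod (core_PSL2_two h2) (core_PSL2_two h2))
      have := Fintype.one_lt_card (α := F)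
      obtain ⟨k, hk⟩ := odd_card_of_two_ne_zero h2
      omega
    · have : Fact (ringChar F).Prime := ⟨CharP.char_is_prime F _⟩
      let K := FiniteField.Extension F (ringChar F) 2
      have := Fintype.ofFinite K
      refine core_congr (exists_form_equiv_PSL2 (K := K) ?_ hQ h hP).some.symm
        (core_PSL2_two (by rwa [← map_ofNat (algebraMap F K), map_ne_zero]))
      rw [← Nat.card_eq_fintype_card, ← Nat.card_eq_fintype_card, FiniteField.natCard_extension]
  · have := hQ.isSimpleGroup_POm h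
    have : Finite V := Module.finite_of_finite F
    exact core_of_simple (two_dvd_card_POm hQ h2 hn)

end Core

end Cfsg.Agent.H28
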