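import Cfsg.Agent.H28.Elu7

/-! Counting subspaces of symplectic and unitary spaces modulo a prime; reductions. -/

set_option autoImplicit false

namespace Cfsg.Agent.H28

open Polynomial Module H12 H13
open scoped Pointwise

theorem mul_card_dvd {G H X : Type*} [Group G] [Group H] [MulAction G X] {P : X → Prop} {x : X} (hx : P x)
    (hP : ∀ g : G, P (g • x)) (ht : ∀ y, P y → ∃ g : G, g • x = y) (f : H →* G) (hf : Function.Injective f)
    (h : ∀ h, f h • x = x) : Nat.card {y // P y} * Nat.card H ∣ Nat.card G := by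
  rw [card_eq_index_of_trans hx hP ht, ← (MulAction.stabilizer G x).index_mul_card]
  exact Nat.mul_dvd_mul_left _ (Subgroup.card_dvd_of_injective (f.codRestrict _ h) fun _ _ e => hf (congrArg Subtype.val e))

theorem exists_dvd_factor {f : ℕ → ℕ} {N q a b e n r : ℕ} (hr : r.Prime) (h0 : ∀ j, 0 < f j) (hq : ¬ r ∣ q) (he : e ≤ n)
    (h : N * (q ^ a * ∏ j ∈ Finset.range e, f j) ∣ q ^ b * ∏ j ∈ Finset.range n, f j) (hN : r ∣ N) :
    ∃ j, e ≤ j ∧ j < n ∧ r ∣ f j := by
  rw [← Finset.prod_range_mul_prod_Ico f he, ← mul_assoc, mul_left_comm, mul_comm] at h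
  obtain ⟨j, h1, h2⟩ := (hr.prime.dvd_finsetProd_iff _).1 (((Nat.Prime.dvd_mul hr).1 ((hN.mul_right _).trans
    (Nat.dvd_of_mul_dvd_mul_left (Finset.prod_pos fun j _ => h0 j) h))).resolve_left fun h => hq (hr.dvd_of_dvd_pow h))
  exact ⟨j, (Finset.mem_Ico.1 h1).1, (Finset.mem_Ico.1 h1).2, h2⟩

theorem mod_lt_of_dvd {c n j k : ℕ} (h : c ∣ j) (h1 : j ≤ n) (h2 : n < j + k) : n % c < k := by
  obtain ⟨d, rfl⟩ := Nat.exists_eq_add_of_le h1
  obtain ⟨j, rfl⟩ := h
  rw [Nat.mul_add_mod]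
  exact (Nat.mod_le _ _).trans_lt (by omega)

theorem St.zpow {k : Type*} [Field k] {r : ℕ} [hr : Fact r.Prime] {M : Multiset k} (hM : PRt r M) {z w : ℤ}
    (h : St (· ^ z) M) {j : ℕ} (hw : (w : ZMod r) = z ^ j) : St (· ^ w) M :=
  map_zpow_of_eq hr.out.ne_zero (fun x hx => (hM x hx).1) h hw

theorem exists_eq_sq_pow {G : Type*} [Monoid G] {x : G} (h : Odd (orderOf x)) : ∃ j, x = (x ^ 2) ^ j := by
  obtain ⟨j, hj⟩ := h
  exact ⟨j + 1, by rw [← pow_mul, mul_add, mul_one, ← add_assoc _ 1 1, ← hj, pow_succ, pow_orderOf_eq_one, one_mul]⟩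

theorem orderOf_neg_eq {r : ℕ} [Fact r.Prime] (h2 : r ≠ 2) {x : ZMod r} (h0 : 0 < orderOf x) : orderOf (-x) =
    if orderOf x % 4 = 0 then orderOf x else if orderOf x % 4 = 2 then orderOf x / 2 else 2 * orderOf x := by
  rcases Nat.even_or_odd (orderOf x) with h | h
  · rcases Nat.even_or_odd (orderOf (-x)) with h1 | h1
    · have h3 : orderOf (x ^ 2) = orderOf ((-x) ^ 2) := by rw [neg_sq]
      rw [orderOf_pow' _ two_ne_zero, orderOf_pow' _ two_ne_zero, Nat.gcd_eq_right h.two_dvd,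
        Nat.gcd_eq_right h1.two_dvd] at h3
      obtain ⟨j, hj⟩ := h
      have h4 : ¬ Odd j := fun h4 => (Nat.not_even_iff_odd.2 h4) (h1.trans_dvd (orderOf_dvd_of_pow_eq_one (by
        rw [h4.neg_pow, pow_half_eq (by omega) (hj.trans (two_mul j).symm), neg_neg])))
      rw [Nat.odd_iff] at h4
      rw [Nat.even_iff] at h1
      rw [if_pos (by omega)]; omega
    · have := orderOf_neg_odd h2 h1
      rw [neg_neg] at this
      rw [Nat.odd_iff] at h1
      rw [if_neg (by omega), if_pos (by omega)]; omega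
  · rw [orderOf_neg_odd h2 h]
    rw [Nat.odd_iff] at h
    rw [if_neg (by omega), if_neg (by omega)]

variable {F V : Type*} [Field F] [AddCommGroup V] [Module F V] {σ : F →+* F}
  {B : V →ₛₗ[σ] V →ₗ[F] F} {a : End F V} {U U' : Submodule F V} [FiniteDimensional F V] [Fintype F]

local notation "K" => AlgebraicClosure F
local notation "ι" => algebraMap F (AlgebraicClosure F)

section PerEx
variable {p r : ℕ} [Fact p.Prime] [CharP F p] [hr : Fact r.Prime] (hrp : r ≠ p) (h2 : r ≠ 2)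
include hrp h2

theorem per_sp_even (h : Even (orderOf (Fintype.card F : ZMod r))) :
    Per (RingHom.id F) (RingHom.id K) r (Fintype.card F) (orderOf (Fintype.card F : ZMod r)) where
  ext _ := rfl
  ne := cast_ne_zero_of_ne hr.out hrp
  odd := h2
  ord := by simp
  inj := by simpa using pow_card_inj
  iff M hM := ⟨fun h1 => ⟨by simpa using h1, by
    obtain ⟨j, hj⟩ := h
    have := orderOf_card_pos (F := F) hrp
    simpa using h1.zpow hM (w := -1) (j := j) (by simpa using (pow_half_eq (by omega) (hj.trans (two_mul j).symm)).symm)⟩,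
    fun h => by simpa using h.1⟩
  even _ := h

theorem per_sp_odd (h : Odd (orderOf (Fintype.card F : ZMod r))) :
    Per (RingHom.id F) (RingHom.id K) r (-Fintype.card F) (2 * orderOf (Fintype.card F : ZMod r)) where
  ext _ := rfl
  ne := cast_ne_zero_of_ne hr.out hrp
  odd := h2
  ord := by simpa using orderOf_neg_odd h2 h
  inj := by simpa [Function.comp_def] using inv_injective.comp pow_card_inj
  iff M hM := ⟨fun h1 => ⟨by
    simpa using h1.zpow hM (w := Fintype.card F) (j := orderOf (Fintype.card F : ZMod r) + 1)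
      (by simp [h.add_one.neg_pow, pow_succ, pow_orderOf_eq_one]), by
    simpa using h1.zpow hM (w := -1) (j := orderOf (Fintype.card F : ZMod r)) (by simp [h.neg_pow, pow_orderOf_eq_one])⟩,
    fun h => by simpa [Function.comp_def] using h.2.comp h.1⟩
  even _ := even_two_mul _

omit h2 in
theorem sp_mod_lt {B : V →ₛₗ[RingHom.id F] V →ₗ[F] F} (D : SD B) {z : ℤ} {c : ℕ} (hz : z = Fintype.card F ∨ z = -Fintype.card F)
    (hc : orderOf (z : ZMod r) = c) (hU : NDs B U) {N : ℕ} (h : N * Nat.card (UG (res B (sperp B U))) ∣ Nat.card (UG B))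
    (hN : r ∣ N) : finrank F V % c < finrank F U := by
  obtain ⟨d, hd⟩ := D.even_finrank
  obtain ⟨e, he⟩ := (D.restrict (D.disjoint_sperp hU)).even_finrank
  have h1 := D.finrank_sperp U
  rw [card_UG_sp d D (by omega), card_UG_sp e (D.restrict (D.disjoint_sperp hU)) (by omega), Nat.card_eq_fintype_card] at h
  obtain ⟨j, h3, h4, h5⟩ := exists_dvd_factor hr.out (fun j => Nat.sub_pos_of_lt (Nat.one_lt_pow (by omega)
    Fintype.one_lt_card)) (not_dvd_card_of_ne hr.out hrp) (by omega) h hN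
  refine mod_lt_of_dvd (j := 2 * (j + 1)) (hc ▸ orderOf_dvd_of_pow_eq_one ?_) (by omega) (by omega)
  rw [← ZMod.natCast_eq_zero_iff, Nat.cast_sub (Nat.one_le_pow _ _ Fintype.card_pos), sub_eq_zero] at h5
  rcases hz with rfl | rfl <;> simpa [pow_mul] using h5

variable {q : ℕ} (hF : Fintype.card F = q ^ 2)

omit hrp h2 hr in
theorem exists_frob_pow : ∃ ρ : K →+* K, (∀ x, ρ x = x ^ q) ∧ ∀ c, ρ (ι c) = ι (frobq hF c) := by
  obtain ⟨p, a, hp, _, hq⟩ := exists_pow_of_card_eq_sq hF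
  have := Fact.mk hp
  exact ⟨iterateFrobenius K p a, fun x => by rw [iterateFrobenius_def, hq], fun c => by
    rw [iterateFrobenius_def, ← hq, frobq_apply, map_pow]⟩

theorem per_u {ρ : K →+* K} (h : ∀ x, ρ x = x ^ q) : Per (frobq hF) ρ r (-q) (orderOf (-q : ZMod r)) where
  ext c := by rw [h, frobq_apply, map_pow]
  ne := cast_ne_zero_of_ne hr.out hrp
  odd := h2
  ord := by simp
  inj := by simpa [← h, Function.comp_def] using inv_injective.comp ρ.injective
  iff M _ := ⟨fun h1 => ⟨by simpa [Function.comp_def, ← pow_mul, hF, sq] using h1.comp h1, by simpa [h] using h1⟩,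
    fun h1 => by simpa [h] using h1.2⟩
  even h := absurd h (frobq_ne_id hF)

omit h2 in
theorem u_mod_lt {B : V →ₛₗ[frobq hF] V →ₗ[F] F} (D : SD B) (hU : NDs B U) {N : ℕ}
    (h : N * Nat.card (UG (res B (sperp B U))) ∣ Nat.card (UG B)) (hN : r ∣ N) :
    finrank F V % orderOf (-q : ZMod r) < finrank F U := by
  have h1 := D.finrank_sperp U
  have h0 := two_le_of_card_eq_sq hF
  rw [D.card_UG_unitary (frobq_ne_id hF), (D.restrict (D.disjoint_sperp hU)).card_UG_unitary (frobq_ne_id hF), q0_frobq] at h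
  obtain ⟨j, h3, h4, h5⟩ := exists_dvd_factor hr.out (fun j => by
    have := Nat.one_lt_pow (n := j + 1) (by omega) h0
    split_ifs <;> omega) (fun h => not_dvd_card_of_ne (F := F) hr.out hrp (hF ▸ h.pow two_ne_zero)) (by omega) h hN
  refine mod_lt_of_dvd (j := j + 1) (orderOf_dvd_of_pow_eq_one ?_) (by omega) (by omega)
  rw [← ZMod.natCast_eq_zero_iff] at h5
  split_ifs at h5 with h6
  · rw [h6.add_one.neg_pow]; push_cast at h5; linear_combination -h5
  · rw [Nat.cast_sub (Nat.one_le_pow _ _ (by omega)), sub_eq_zero] at h5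
    rw [(Nat.not_even_iff_odd.1 h6).add_one.neg_pow]; exact_mod_cast h5

end PerEx

omit [Fintype F] in
theorem exists_smul_eq (D : SD B) (φ : U ≃ₗ[F] U') (h : ∀ x y, B (φ x) (φ y) = B x y) : ∃ g : UG B, g • U = U' := by
  obtain ⟨g, hg⟩ := D.witt_extend U (U'.subtype ∘ₗ φ.toLinearMap) (U'.injective_subtype.comp φ.injective) h
  refine ⟨g, Submodule.eq_of_le_of_finrank_eq ?_ ((LinearEquiv.finrank_map_eq g.1 U).trans φ.finrank_eq)⟩
  rintro _ ⟨u, hu, rfl⟩
  exact (hg ⟨u, hu⟩).symm ▸ (φ ⟨u, hu⟩).2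

omit [Fintype F] in
theorem card_mul_dvd (D : SD B) {X : Type*} [MulAction (UG B) X] {P : X → Prop} {x : X} (hx : P x)
    (hP : ∀ g : UG B, P (g • x)) (ht : ∀ y, P y → ∃ g : UG B, g • x = y) (hU : NDs B U)
    (h : ∀ g : UG B, (∀ u ∈ U, g.1 u = u) → g • x = x) :
    Nat.card {y // P y} * Nat.card (UG (res B (sperp B U))) ∣ Nat.card (UG B) :=
  mul_card_dvd hx hP ht (extUG D (D.isCompl (D.disjoint_sperp hU))) (extUG_injective _ _) fun g =>
    h _ fun u hu => extUG_apply_perp _ _ g (D.le_sperp_sperp U hu)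

omit [Fintype F] [FiniteDimensional F V] in
theorem smul_eq_of_fix {g : UG B} (h : ∀ u ∈ U, g.1 u = u) : g • U = U :=
  le_antisymm (by rintro _ ⟨u, hu, rfl⟩; exact (h u hu).symm ▸ hu) fun u hu => ⟨u, hu, h u hu⟩

theorem exists_nds_dim (D : SD B) {m : ℕ} (h : m ≤ finrank F V) (hm : σ = RingHom.id F → Even m) :
    ∃ U : Submodule F V, finrank F U = m ∧ NDs B U := by
  obtain ⟨l, hl⟩ := Nat.exists_eq_add_of_le h
  obtain ⟨U, h1, h2, h3, -⟩ := exists_nds D (a := 1) (fun _ _ => rfl) ⟨1, by simp, by simp⟩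
    (rs_replicate D.invol (c := 1) (by simp) hm) (rs_replicate D.invol (c := 1) (e := l) (by simp) (by
      rintro rfl; exact (Nat.even_add.1 (hl ▸ D.even_finrank)).1 (hm rfl))) (by simp [rts_one, hl, Multiset.replicate_add])
  exact ⟨U, by simp [← card_rto h1, h3], h2⟩

theorem nd_count (D : SD B) {m : ℕ} (h : m ≤ finrank F V) (hm : σ = RingHom.id F → Even m) :
    ∃ U : Submodule F V, finrank F U = m ∧ NDs B U ∧ Nat.card {W : Submodule F V // finrank F W = m ∧ NDs B W} *
      Nat.card (UG (res B (sperp B U))) ∣ Nat.card (UG B) := by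
  obtain ⟨U, h1, h2⟩ := exists_nds_dim D h hm
  refine ⟨U, h1, h2, card_mul_dvd D (x := U) ⟨h1, h2⟩ (fun g => ⟨(LinearEquiv.finrank_map_eq g.1 U).trans h1, h2.map g.2⟩)
    (fun W hW => ?_) h2 fun g => smul_eq_of_fix⟩
  obtain ⟨φ, hφ⟩ := (D.restrict h2).exists_isometry (D.restrict hW.2) (h1.trans hW.1.symm)
  exact exists_smul_eq D φ hφ

omit [Fintype F] in
theorem ti_trans (D : SD B) (h : TIs B U) (h' : TIs B U') (e : finrank F U = finrank F U') : ∃ g : UG B, g • U = U' :=
  exists_smul_eq D (.ofFinrankEq _ _ e) fun x y => by rw [h _ x.2 _ y.2, h' _ (Subtype.prop _) _ (Subtype.prop _)]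

theorem ti_count (D : SD B) {m : ℕ} (h : 2 * m ≤ finrank F V) :
    ∃ U : Submodule F V, finrank F U = 2 * m ∧ NDs B U ∧ Nat.card {W : Submodule F V // finrank F W = m ∧ TIs B W} *
      Nat.card (UG (res B (sperp B U))) ∣ Nat.card (UG B) := by
  obtain ⟨U, h1, h2⟩ := exists_nds_dim D h fun _ => even_two_mul m
  obtain ⟨W, h3, h4⟩ := (D.restrict h2).exists_ti D.ns h1.ge
  have h5 : finrank F (W.map U.subtype) = m := (Submodule.finrank_map_subtype_eq _ _).trans h3
  have h6 : TIs B (W.map U.subtype) := TIs.map h4 fun _ _ => rfl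
  exact ⟨U, h1, h2, card_mul_dvd D (x := W.map U.subtype) ⟨h5, h6⟩
    (fun g => ⟨(LinearEquiv.finrank_map_eq g.1 _).trans h5, h6.map g.2⟩)
    (fun W hW => ti_trans D h6 hW.2 (h5.trans hW.1.symm)) h2 fun g hg =>
      smul_eq_of_fix fun u hu => hg u (U.map_subtype_le W hu)⟩

theorem not_dvd_ti_count {p : ℕ} [Fact p.Prime] [CharP F p] (D : SD B) {m : ℕ} (h : 2 * m ≤ finrank F V) :
    ¬ p ∣ Nat.card {W : Submodule F V // finrank F W = m ∧ TIs B W} := by
  refine not_dvd_card_of_fixed (G := UG B) (P := fun W : Submodule F V => finrank F W = m ∧ TIs B W)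
    (fun g W hW => ⟨(LinearEquiv.finrank_map_eq g.1 _).trans hW.1, hW.2.map g.2⟩)
    (fun W W' h h' => ti_trans D h.2 h'.2 (h.1.trans h'.1.symm)) fun R hR => ?_
  let ρ : R →* End F V := (leq (UG B)).comp R.subtype
  have hρ : ∀ g, Pres B (ρ g) := fun g => g.1.2
  suffices ∃ W : Submodule F V, (finrank F W = m ∧ TIs B W) ∧ ∀ g, Iv (ρ g) W by
    obtain ⟨W, h1, h2⟩ := this
    exact ⟨W, h1, fun g hg => (h2 ⟨g, hg⟩).map_eq g.1.injective⟩
  induction m with
  | zero => exact ⟨⊥, ⟨finrank_bot _ _, fun u hu => by simp [(Submodule.mem_bot F).1 hu]⟩, fun _ => iv_bot _⟩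
  | succ m ih =>
    obtain ⟨W, ⟨rfl, h1⟩, h2⟩ := ih (by omega)
    have h3 := D.finrank_sperp W
    have h4 : ∀ g, Iv (ρ g) (sperp B W) := fun g => (h2 g).sperp D (hρ g)
    have h5 : ∀ v, v ∉ W → finrank F ↥(W ⊔ F ∙ v) = finrank F W + 1 := fun v hv => by
      rw [Submodule.finrank_sup_span_singleton hv]
    suffices ∃ v ∈ sperp B W, v ∉ W ∧ B v v = 0 ∧ ∀ g, ρ g v - v ∈ W by
      obtain ⟨v, h6, h7, h8, h9⟩ := this
      refine ⟨W ⊔ F ∙ v, ⟨h5 v h7, fun x hx y hy => ?_⟩, iv_sup_span h2 h9⟩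
      obtain ⟨x, hx₁, _, hx', rfl⟩ := Submodule.mem_sup.1 hx
      obtain ⟨y, hy₁, _, hy', rfl⟩ := Submodule.mem_sup.1 hy
      obtain ⟨s, rfl⟩ := Submodule.mem_span_singleton.1 hx'
      obtain ⟨t, rfl⟩ := Submodule.mem_span_singleton.1 hy'
      simp [h1 x hx₁ y hy₁, h6 x hx₁, D.comm0 (h6 y hy₁), h8]
    obtain ⟨v, h6, h7, h8⟩ := exists_fixed_mod hR ρ h2 h4 fun h => by have := Submodule.finrank_mono h; omega
    by_cases h9 : B v v = 0
    · exact ⟨v, h6, h7, h9, h8⟩
    obtain ⟨u, h10, h11, h12⟩ := exists_fixed_mod hR ρ (iv_sup_span h2 h8) h4 fun h => by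
      have := Submodule.finrank_mono h; have := h5 v h7; omega
    obtain ⟨w, h13, h14, h15, h16⟩ : ∃ w ∈ sperp B W, w ∉ W ⊔ F ∙ v ∧ B v w = 0 ∧ ∀ g, ρ g w - w ∈ W ⊔ F ∙ v := by
      have hv : v ∈ W ⊔ F ∙ v := Submodule.mem_sup_right (Submodule.mem_span_singleton_self v)
      refine ⟨u - (B v u / B v v) • v, sub_mem h10 (Submodule.smul_mem _ _ h6), fun h => h11 (by
        simpa using add_mem h (Submodule.smul_mem _ (B v u / B v v) hv)), by simp [h9], fun g => ?_⟩
      convert sub_mem (h12 g) (Submodule.smul_mem _ (B v u / B v v) (Submodule.mem_sup_left (h8 g))) using 1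
      simp only [map_sub, map_smul, smul_sub]; abel
    have h17 : ∀ g, ρ g w - w ∈ W := fun g => by
      obtain ⟨x, hx, _, hx', e⟩ := Submodule.mem_sup.1 (h16 g)
      obtain ⟨s, rfl⟩ := Submodule.mem_span_singleton.1 hx'
      have e1 := hρ g v w
      rw [← sub_add_cancel (ρ g v) v, map_add, LinearMap.add_apply, h4 g w h13 _ (h8 g), ← sub_add_cancel (ρ g w) w,
        ← e] at e1
      obtain rfl : s = 0 := by simpa [D.comm0 (h6 x hx), h9] using e1
      simpa [← e] using hx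
    obtain ⟨x, hx⟩ := D.ns.resolve_left (fun h => h9 (D.self_eq_zero h v)) _
      (D.σ_div_self (D.σ_map v v) (t := -B w w) (by rw [map_neg, D.σ_map]))
    refine ⟨x • v + w, add_mem (Submodule.smul_mem _ _ h6) h13, fun h => h14 (by
      simpa using sub_mem (Submodule.mem_sup_left h)
        (Submodule.mem_sup_right (Submodule.smul_mem _ x (Submodule.mem_span_singleton_self v)))), ?_, fun g => ?_⟩
    · simp only [map_add, LinearMap.add_apply, LinearMap.map_smulₛₗ, LinearMap.smul_apply,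
        smul_eq_mul, RingHom.id_apply, h15, D.comm0 h15, mul_zero, add_zero, zero_add]
      rw [← mul_assoc, mul_comm x, hx, div_mul_cancel₀ _ h9, neg_add_cancel]
    · convert add_mem (W.smul_mem x (h8 g)) (h17 g) using 1
      simp only [map_add, map_smul, smul_sub]; abel

end Cfsg.Agent.H28
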