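import Cfsg.Agent.H28.Elu5
import Cfsg.Agent.H12.MaxU

/-! Semisimple isometries of symplectic and unitary spaces: invariant subspaces. -/

set_option autoImplicit false

namespace Cfsg.Agent.H28

open Polynomial Module H12 H13

variable {F V W : Type*} [Field F] [AddCommGroup V] [Module F V] [AddCommGroup W] [Module F W] {σ : F →+* F}
  {B : V →ₛₗ[σ] V →ₗ[F] F} {B' : W →ₛₗ[σ] W →ₗ[F] F} {a : End F V} {U U' : Submodule F V}

local notation "K" => AlgebraicClosure F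
local notation "ι" => algebraMap F (AlgebraicClosure F)

/-- of finite order prime to the characteristic -/
def SS (a : End F V) : Prop := ∃ k : ℕ, (k : F) ≠ 0 ∧ a ^ k = 1

theorem SS.prodMap {b : End F W} (h : SS a) (h' : SS b) : SS (a.prodMap b : End F (V × W)) :=
  let ⟨k, h1, h2⟩ := h
  let ⟨l, h3, h4⟩ := h'
  ⟨k * l, by simpa using ⟨h1, h3⟩, by
    rw [prodMap_pow, pow_mul, h2, mul_comm, pow_mul, h4, one_pow, one_pow, LinearMap.prodMap_one]⟩

theorem SS.restrict (h : SS a) (hU : Iv a U) : SS (a.restrict hU) :=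
  let ⟨k, h1, h2⟩ := h
  ⟨k, h1, (End.pow_restrict k hU).trans (by ext v; simp [h2])⟩

theorem SS.exists_compl [FiniteDimensional F V] (h : SS a) (hU : Iv a U) : ∃ U', Iv a U' ∧ IsCompl U U' :=
  let ⟨k, h1, h2⟩ := h
  hU.exists_compl (squarefree_X_pow_sub_C h1 one_ne_zero) (aeval_X_pow_sub_C (by simp [h2]))

theorem Pres.restrict (ha : Pres B a) (hU : Iv a U) : Pres (res B U) (a.restrict hU) := fun x y => ha x y

theorem Pres.smul (ha : Pres B a) {w : F} (hw : σ w * w = 1) : Pres B (w • a) := fun x y => by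
  simp only [LinearMap.smul_apply, LinearMap.map_smulₛₗ, smul_eq_mul, RingHom.id_apply, ha x y]
  linear_combination B x y * hw

/-- totally isotropic -/
def TIs (B : V →ₛₗ[σ] V →ₗ[F] F) (U : Submodule F V) : Prop := ∀ u ∈ U, ∀ v ∈ U, B u v = 0

/-- non-degenerate -/
def NDs (B : V →ₛₗ[σ] V →ₗ[F] F) (U : Submodule F V) : Prop := Disjoint U (sperp B U)

theorem nds_iff (D : SD B) : NDs B U ↔ ∀ u ∈ U, u ≠ 0 → ∃ v ∈ U, B u v ≠ 0 := by
  rw [NDs, D.disjoint_iff]
  exact forall₂_congr fun u _ => not_imp_not.symm.trans (by simp)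

theorem TIs.map {U : Submodule F W} (h : TIs B' U) {g : W →ₗ[F] V} (hg : ∀ x y, B (g x) (g y) = B' x y) :
    TIs B (U.map g) := by
  rintro _ ⟨u, hu, rfl⟩ _ ⟨v, hv, rfl⟩
  rw [hg, h u hu v hv]

theorem NDs.map {U : Submodule F W} (h : NDs B' U) {g : W →ₗ[F] V} (hg : ∀ x y, B (g x) (g y) = B' x y) :
    NDs B (U.map g) := Submodule.disjoint_def.2 (by
  rintro _ ⟨u, hu, rfl⟩ h1
  rw [Submodule.disjoint_def.1 h u hu fun w hw => by rw [← hg, h1 _ ⟨w, hw, rfl⟩], map_zero])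

theorem nds_top (D : SD B) : NDs B ⊤ := D.disjoint_iff.2 fun u _ h => D.sep u fun v => h v trivial

/-- the hyperbolic form -/
def hypB (σ : F →+* F) (m : ℕ) : ((Fin m → F) × (Fin m → F)) →ₛₗ[σ] ((Fin m → F) × (Fin m → F)) →ₗ[F] F :=
  LinearMap.mk₂'ₛₗ σ (RingHom.id F) (fun x y => stdB σ 1 _ x.1 y.2 - stdB σ 1 _ x.2 y.1)
    (fun _ _ _ => by simp; ring) (fun _ _ _ => by simp; ring) (fun _ _ _ => by simp; ring)
    (fun _ _ _ => by simp; ring)

theorem hypB_apply {m : ℕ} (x y : (Fin m → F) × (Fin m → F)) :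
    hypB σ m x y = stdB σ 1 _ x.1 y.2 - stdB σ 1 _ x.2 y.1 := rfl

theorem std_symm (hσ : ∀ a, σ (σ a) = a) {m : ℕ} (x y : Fin m → F) : stdB σ 1 _ y x = σ (stdB σ 1 _ x y) := by
  simp [stdB_apply, hσ, mul_comm]

theorem nds_std (hσ : ∀ a, σ (σ a) = a) (m : ℕ) : NDS (stdB σ 1 (Fin m)) := ⟨hσ, fun x hx => funext fun i => by
  simpa [stdB_apply, Pi.single_apply] using hx (Pi.single i 1)⟩

theorem sd_hypB (hσ : ∀ a, σ (σ a) = a) (m : ℕ) : SD (hypB σ m) where
  invol := hσ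
  skew x y := by rw [hypB_apply, hypB_apply, map_sub, ← std_symm hσ, ← std_symm hσ, neg_sub]
  sep x hx := Prod.ext ((nds_std hσ m).sep _ fun y => by simpa [hypB_apply] using hx (0, y))
    ((nds_std hσ m).sep _ fun y => by simpa [hypB_apply] using hx (y, 0))
  trace x := ⟨_, by rw [hypB_apply, ← std_symm hσ]⟩

variable [FiniteDimensional F V] [FiniteDimensional F W]

theorem Iv.sperp (D : SD B) (ha : Pres B a) (hU : Iv a U) : Iv a (sperp B U) := fun x hx w hw => by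
  rw [← hU.map_eq ((End.isUnit_iff a).1 (D.wittData.nds.isUnit ha)).1] at hw
  obtain ⟨w, hw, rfl⟩ := hw
  rw [ha, hx w hw]

/-- roots of a multiset of prime powers -/
noncomputable def rtm (M : Multiset (PP F)) : Multiset K := M.bind fun x => (x.poly.map ι).roots

theorem rtm_add (M N : Multiset (PP F)) : rtm (M + N) = rtm M + rtm N := Multiset.add_bind _ _ _

theorem rtm_nsmul (M : Multiset (PP F)) (k : ℕ) : rtm (k • M) = k • rtm M :=
  map_nsmul (⟨⟨rtm, rfl⟩, rtm_add⟩ : _ →+ _) _ _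

theorem rtm_sum {κ : Type*} (T : Finset κ) (M : κ → Multiset (PP F)) : rtm (∑ j ∈ T, M j) = ∑ j ∈ T, rtm (M j) :=
  map_sum (⟨⟨rtm, rfl⟩, rtm_add⟩ : _ →+ _) _ _

theorem rts_eq_rtm (a : End F V) : rts a = rtm (ed a) := by
  rw [rts, charpoly_eq_prod_ed, Polynomial.map_multiset_prod, roots_multiset_prod, rtm, Multiset.map_map, Multiset.bind_map]
  · rfl
  · simpa using fun x _ => (PP.poly_monic x).ne_zero

/-- the eigenvalues on an invariant subspace -/
noncomputable def rto (a : End F V) (U : Submodule F V) : Multiset K := rtm (edOn a U)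

theorem rto_eq (h : Iv a U) : rto a U = rts (a.restrict h) := by rw [rto, edOn_eq h, rts_eq_rtm]

theorem card_rto (h : Iv a U) : (rto a U).card = finrank F U := by rw [rto_eq h, card_rts]

theorem rts_eq_add (h : Iv a U) (h' : Iv a U') (hd : IsCompl U U') : rts a = rto a U + rto a U' := by
  rw [rts_eq_rtm, ed_eq_add h h' hd, rtm_add, rto, rto]

theorem rto_range {b : End F W} (j : W →ₗ[F] V) (hj : Function.Injective j) (h : ∀ w, j (b w) = a (j w)) :
    Iv a (LinearMap.range j) ∧ rto a (LinearMap.range j) = rts b :=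
  ⟨(edOn_range j hj h).1, by rw [rto, (edOn_range j hj h).2, rts_eq_rtm]⟩

theorem SS.rto_le (h : SS a) (hU : Iv a U) (hU' : Iv a U') (hle : U ≤ U') : rto a U ≤ rto a U' := by
  obtain ⟨k, h1, h2⟩ := h
  obtain ⟨M, h3⟩ := Multiset.le_iff_exists_add.1 (edOn_le_of_ss (squarefree_X_pow_sub_C h1 one_ne_zero)
    (aeval_X_pow_sub_C (z := 1) (by simp [h2])) hU hU' hle)
  rw [rto, rto, h3, rtm_add]
  exact le_self_add

theorem rts_dual {s : V →ₛₗ[σ] W →ₗ[F] F} (hσ : ∀ a, σ (σ a) = a) (hs : ∀ x, (∀ y, s x y = 0) → x = 0)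
    (hd : finrank F W = finrank F V) {b : End F W} (ha : ∀ x y, s (a x) (b y) = s x y) (ρ : K →+* K)
    (hρ : ∀ c, ρ (ι c) = ι (σ c)) : (rts a).map (fun x => (ρ x)⁻¹) = rts b := by
  let e := Module.finBasis F V
  let e' := Module.finBasisOfFinrankEq F W hd
  set A := LinearMap.toMatrix e e a with hA
  set A' := LinearMap.toMatrix e' e' b with hA'
  let G : Matrix (Fin (finrank F V)) (Fin (finrank F V)) F := Matrix.of fun i j => s (e i) (e' j)
  have h1 : (A.map σ).transpose * G * A' = G := by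
    ext i j
    have e1 : ∀ i, a (e i) = ∑ k, A k i • e k := fun i => by simp [hA, LinearMap.toMatrix_apply]
    have e2 : ∀ i, b (e' i) = ∑ k, A' k i • e' k := fun i => by simp [hA', LinearMap.toMatrix_apply]
    rw [show G i j = s (e i) (e' j) from rfl, ← ha, e1, e2]
    simp [Matrix.mul_apply, G, Finset.sum_mul, Finset.mul_sum, mul_comm, mul_left_comm, LinearMap.sum_apply]
  have h2 : G.det ≠ 0 := fun h => by
    obtain ⟨v, hv, h⟩ := Matrix.exists_vecMul_eq_zero_iff.2 h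
    have : ∑ i, σ (v i) • e i = 0 := hs _ fun y => by
      have : s (∑ i, σ (v i) • e i) = 0 := e'.ext fun j => by
        simpa [Matrix.vecMul, dotProduct, G, hσ, LinearMap.sum_apply] using congrFun h j
      rw [this, LinearMap.zero_apply]
    exact hv (funext fun i => by simpa using Fintype.linearIndependent_iff.1 e.linearIndependent _ this i)
  have h3 : A'.det ≠ 0 := fun h => by
    have := congrArg Matrix.det h1
    rw [Matrix.det_mul, h, mul_zero] at this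
    exact h2 this.symm
  have h4 : A'⁻¹.charpoly = A.charpoly.map σ := by
    have : A'⁻¹ = G⁻¹ * ((A.map σ).transpose * G) := by
      refine Matrix.inv_eq_left_inv ?_
      rw [Matrix.mul_assoc, h1, Matrix.nonsing_inv_mul _ h2.isUnit]
    rw [this, Matrix.charpoly_mul_comm, Matrix.mul_assoc, Matrix.mul_nonsing_inv _ h2.isUnit,
      Matrix.mul_one, Matrix.charpoly_transpose, Matrix.charpoly_map]
  have h5 : (A'.map ι)⁻¹ = A'⁻¹.map ι := Matrix.inv_eq_left_inv (by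
    rw [← Matrix.map_mul, Matrix.nonsing_inv_mul _ h3.isUnit]; simp)
  have h6 := roots_charpoly_inv (A := A'.map ι) (by
    rw [← RingHom.mapMatrix_apply, ← RingHom.map_det]; simpa using h3)
  rw [h5, Matrix.charpoly_map, h4, roots_map_map _ ρ hρ, ← Matrix.charpoly_map, ← rts_eq, ← rts_eq] at h6
  have := congrArg (Multiset.map (·⁻¹)) h6
  simpa using this

theorem pow_eq_one_of_mem_rts {k : ℕ} (h : a ^ k = 1) {x : K} (hx : x ∈ rts a) : x ^ k = 1 :=
  (pow_eq_of_mem_rts (c := 1) hx (by simp [h])).trans (map_one _)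

theorem SS.pow_eq (h : SS a) {r : ℕ} {z : F} (h1 : ∀ x ∈ rts a, x ^ r = ι z) : a ^ r = z • 1 := by
  obtain ⟨k, h2, h3⟩ := h
  rw [pow_eq_smul_iff_ed]
  intro y hy
  obtain ⟨α, h4, h5⟩ := exists_root' y
  rw [PP.poly, isSS_ed h2 h3 y hy, pow_one]
  exact h5 _ (by simp [h1 α (mem_rts_of hy h4)])

variable (σ) in
/-- multisets of eigenvalues of semisimple isometries -/
def RS (M : Multiset K) : Prop :=
  ∃ (n : ℕ) (B : (Fin n → F) →ₛₗ[σ] (Fin n → F) →ₗ[F] F) (a : End F (Fin n → F)), SD B ∧ Pres B a ∧ SS a ∧ rts a = M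

theorem RS.of (D : SD B) (ha : Pres B a) (h : SS a) : RS σ (rts a) := by
  let e := (finBasis F V).equivFun
  obtain ⟨k, h1, h2⟩ := h
  have h3 : Sim a (e.conj a) := ⟨e, fun v => by simp [LinearEquiv.conj_apply]⟩
  refine ⟨_, pull B e.symm e.symm, e.conj a, ⟨D.invol, fun x y => D.skew _ _, fun x hx => ?_, fun x => D.trace _⟩,
    fun x y => by simp [LinearEquiv.conj_apply, ha _ _], ⟨k, h1, (h3.pow k).eq_one_iff.1 h2⟩, h3.rts_eq.symm⟩
  simpa using D.sep (e.symm x) fun y => by simpa using hx (e y)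

theorem RS.add {M N : Multiset K} (h : RS σ M) (h' : RS σ N) : RS σ (M + N) := by
  obtain ⟨_, B, a, D, ha, h, rfl⟩ := h
  obtain ⟨_, B', b, D', hb, h', rfl⟩ := h'
  exact rts_prodMap a b ▸ RS.of (sd_sumB D D') (ha.prodMap hb) (h.prodMap h')

theorem rs_rto (D : SD B) (ha : Pres B a) (h : SS a) (hU : Iv a U) (hU' : NDs B U) : RS σ (rto a U) :=
  rto_eq hU ▸ RS.of (D.restrict hU') (ha.restrict hU) (h.restrict hU)

variable [Fintype F]

theorem RS.st {M : Multiset K} (h : RS σ M) (ρ : K →+* K) (hρ : ∀ c, ρ (ι c) = ι (σ c)) :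
    St (· ^ Fintype.card F) M ∧ St (fun x => (ρ x)⁻¹) M ∧ (σ = RingHom.id F → Even M.card ∧ M.prod = 1) := by
  obtain ⟨_, B, a, D, ha, h, rfl⟩ := h
  refine ⟨map_rts a (FiniteField.frobeniusAlgHom F K).toRingHom (AlgHom.commutes _), map_rts_of_pres D ha ρ hρ, ?_⟩
  rintro rfl
  have := mem_SUG.1 (D.SUG_eq_top rfl ▸ Subgroup.mem_top
    (⟨.ofBijective a ((End.isUnit_iff a).1 (D.wittData.nds.isUnit ha)), ha⟩ : UG B))
  exact ⟨card_rts a ▸ D.even_finrank, (prod_rts a).trans (by rw [show LinearMap.det a = 1 from this, map_one])⟩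

theorem st_rto (h : Iv a U) : St (· ^ Fintype.card F) (rto a U) :=
  rto_eq h ▸ map_rts _ (FiniteField.frobeniusAlgHom F K).toRingHom (AlgHom.commutes _)

theorem RS.exists (D : SD B) {M : Multiset K} (h : RS σ M) (hM : M.card = finrank F V) :
    ∃ a, Pres B a ∧ SS a ∧ rts a = M := by
  obtain ⟨_, B', b, D', hb, ⟨k, h1, h2⟩, rfl⟩ := h
  obtain ⟨e, he⟩ := D'.exists_isometry D (by rw [← hM, card_rts])
  have h3 : Sim b (e.conj b) := ⟨e, fun v => by simp [LinearEquiv.conj_apply]⟩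
  refine ⟨e.conj b, fun x y => ?_, ⟨k, h1, (h3.pow k).eq_one_iff.1 h2⟩, h3.rts_eq.symm⟩
  simp [LinearEquiv.conj_apply, he, hb _ _, ← he (e.symm x)]

theorem rs_of_st (hσ : ∀ a, σ (σ a) = a) (ρ : K →+* K) (hρ : ∀ c, ρ (ι c) = ι (σ c)) {M : Multiset K}
    (h1 : St (· ^ Fintype.card F) M) (h2 : St (fun x => (ρ x)⁻¹) M) {k : ℕ} (hk : (k : F) ≠ 0) (h : ∀ x ∈ M, x ^ k = 1)
    (hθ : σ ≠ RingHom.id F ∨ ∀ x ∈ M, x ^ 2 ≠ 1) : RS σ M :=
  let ⟨B, a, D, ha, h3, h4⟩ := exists_sd_rts hσ ρ hρ h1 h2 hk h hθ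
  ⟨_, B, a, D, ha, ⟨k, hk, h3⟩, h4⟩

theorem rs_replicate (hσ : ∀ a, σ (σ a) = a) {c : F} (hc : σ c * c = 1) {e : ℕ} (he : σ = RingHom.id F → Even e) :
    RS σ (.replicate e (ι c)) := by
  obtain ⟨B, D⟩ : ∃ B : (Fin e → F) →ₛₗ[σ] (Fin e → F) →ₗ[F] F, SD B := by
    by_cases h : σ = RingHom.id F
    · obtain ⟨d, rfl⟩ := he h
      obtain ⟨_, B, a, D, -, -, h⟩ := RS.of (a := 1) (sd_hypB hσ d) (fun _ _ => rfl) ⟨1, by simp, by simp⟩
      have := congrArg Multiset.card h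
      simp only [card_rts, finrank_prod, finrank_fin_fun] at this
      subst this
      exact ⟨B, D⟩
    · obtain ⟨c, h1, h2⟩ := exists_skew h hσ
      exact ⟨_, sd_stdB h hσ h1 h2⟩
  have h0 : c ≠ 0 := by rintro rfl; simp at hc
  refine ⟨e, B, c • 1, D, Pres.smul (fun _ _ => rfl) hc, ⟨Fintype.card F - 1, ?_, by
    rw [_root_.smul_pow, FiniteField.pow_card_sub_one_eq_one c h0, one_pow, one_smul]⟩, by simp [rts_smul_one]⟩
  rw [Nat.cast_sub Fintype.card_pos, FiniteField.cast_card_eq_zero]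
  simp

theorem sd_conj (D : SD B) (D' : SD B') {b : End F W} (ha : Pres B a) (hb : Pres B' b) (h : SS a) (h' : SS b)
    (e : rts a = rts b) : ∃ g : V ≃ₗ[F] W, (∀ x y, B' (g x) (g y) = B x y) ∧ ∀ v, g (a v) = b (g v) := by
  obtain ⟨k, h1, h2⟩ := h
  obtain ⟨l, h3, h4⟩ := h'
  have h5 := sim_of_charpoly h1 h2 h3 h4 (charpoly_eq_of_rts e)
  by_cases hσ : σ = RingHom.id F
  · subst hσ
    exact sp_conj_of_sim D D' ha hb h5 h1 h2
  · exact wall_core D.wittData.nds D'.wittData.nds D.wittData.symm D'.wittData.symm ha hb h5 (.inl hσ)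

theorem exists_nds (D : SD B) (ha : Pres B a) (h : SS a) {M N : Multiset K} (hM : RS σ M) (hN : RS σ N)
    (e : rts a = M + N) : ∃ U, Iv a U ∧ NDs B U ∧ rto a U = M ∧ rto a (sperp B U) = N := by
  obtain ⟨_, B₁, b, D₁, hb, h₁, rfl⟩ := hM
  obtain ⟨_, B₂, c, D₂, hc, h₂, rfl⟩ := hN
  obtain ⟨g, h1, h2⟩ := sd_conj (sd_sumB D₁ D₂) D (hb.prodMap hc) ha (h₁.prodMap h₂) h (by rw [e, rts_prodMap])
  obtain ⟨h3, h4⟩ := rto_range (a := a) (b := b) (g.toLinearMap ∘ₗ LinearMap.inl F _ _)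
    (g.injective.comp LinearMap.inl_injective) fun w => by simp [← h2]
  have h5 : NDs B (LinearMap.range (g.toLinearMap ∘ₗ LinearMap.inl F _ _)) := by
    rw [LinearMap.range_eq_map]
    exact (nds_top D₁).map fun x y => by simp [h1, sumB_apply]
  refine ⟨_, h3, h5, h4, add_left_cancel (a := rts b) ?_⟩
  rw [← e, rts_eq_add h3 (h3.sperp D ha) (D.isCompl h5), h4]

theorem exists_tis (D : SD B) (ha : Pres B a) (h : SS a) (ρ : K →+* K) (hρ : ∀ c, ρ (ι c) = ι (σ c))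
    {M N : Multiset K} (hM : St (· ^ Fintype.card F) M) (hN : RS σ N)
    (e : rts a = M + M.map (fun x => (ρ x)⁻¹) + N) : ∃ U U', Iv a U ∧ Iv a U' ∧ TIs B U ∧ TIs B U' ∧ Disjoint U U' ∧
      finrank F U = M.card ∧ finrank F U' = M.card := by
  obtain ⟨k, h1, h2⟩ := id h
  obtain ⟨A, h3, h4⟩ := exists_rts hM (k := k) fun x hx =>
    pow_eq_one_of_mem_rts h2 (e ▸ Multiset.mem_add.2 (.inl (Multiset.mem_add.2 (.inl hx))))
  generalize M.card = m at A h3 h4
  obtain ⟨_, B₂, c, D₂, hc, h₂, rfl⟩ := hN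
  obtain ⟨k, rfl⟩ : ∃ l, k = l + 1 := Nat.exists_eq_succ_of_ne_zero (by rintro rfl; simp at h1)
  have h5 : (Matrix.toLin' A : End F _) ^ (k + 1) = 1 := by rw [← Matrix.toLin'_pow, h3, Matrix.toLin'_one]; rfl
  generalize (Matrix.toLin' A : End F _) = b at h4 h5
  subst h4
  have E := nds_std D.invol m
  have h6 : ∀ x y, stdB σ 1 _ (E.adj (b ^ k) x) (b y) = stdB σ 1 _ x y := fun x y => by
    rw [E.adj_apply, ← End.mul_apply, ← pow_succ, h5, End.one_apply]
  generalize E.adj (b ^ k) = b' at h6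
  have h7 : ∀ x y, stdB σ 1 _ (b x) (b' y) = stdB σ 1 _ x y := fun x y => by
    rw [std_symm D.invol, h6, ← std_symm D.invol]
  have h8 : ∀ j x y, stdB σ 1 _ ((b' ^ j) x) ((b ^ j) y) = stdB σ 1 _ x y := fun j => by
    induction j with
    | zero => exact fun _ _ => rfl
    | succ j ih => exact fun x y => by rw [pow_succ', pow_succ', End.mul_apply, End.mul_apply, h6, ih]
  have h9 : SS b' := ⟨k + 1, h1, LinearMap.ext fun x => E.ext fun y => by simpa [h5] using h8 (k + 1) x y⟩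
  obtain ⟨g, h10, h11⟩ := sd_conj (sd_sumB (sd_hypB D.invol m) D₂) D (Pres.prodMap (a := b.prodMap b') (fun x y => by
    simp [hypB_apply, h6, h7]) hc) ha ((SS.prodMap ⟨_, h1, h5⟩ h9).prodMap h₂) h (by
      rw [e, rts_prodMap, rts_prodMap, rts_dual D.invol E.sep rfl h7 ρ hρ])
  have i1 : Function.Injective (g.toLinearMap ∘ₗ LinearMap.inl F _ _ ∘ₗ LinearMap.inl F _ _) :=
    g.injective.comp (LinearMap.inl_injective.comp LinearMap.inl_injective)
  have i2 : Function.Injective (g.toLinearMap ∘ₗ LinearMap.inl F _ _ ∘ₗ LinearMap.inr F _ _) :=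
    g.injective.comp (LinearMap.inl_injective.comp LinearMap.inr_injective)
  refine ⟨_, _, (rto_range (b := b) _ i1 fun w => by simp [← h11]).1, (rto_range (b := b') _ i2 fun w => by simp [← h11]).1,
    ?_, ?_, Submodule.disjoint_def.2 ?_, by simp [LinearMap.finrank_range_of_inj i1, card_rts],
    by simp [LinearMap.finrank_range_of_inj i2, card_rts]⟩
  · rintro _ ⟨u, rfl⟩ _ ⟨v, rfl⟩; simp [h10, sumB_apply, hypB_apply]
  · rintro _ ⟨u, rfl⟩ _ ⟨v, rfl⟩; simp [h10, sumB_apply, hypB_apply]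
  · rintro _ ⟨u, rfl⟩ ⟨v, hv⟩
    simp only [LinearMap.comp_apply, LinearEquiv.coe_coe, g.injective.eq_iff, LinearMap.inl_apply, LinearMap.inr_apply,
      Prod.mk.injEq] at hv
    simp [← hv.1.1]

omit [Fintype F] in
theorem rto_dual (D : SD B) (ha : Pres B a) (ρ : K →+* K) (hρ : ∀ c, ρ (ι c) = ι (σ c)) (hU : Iv a U) (hU' : Iv a U')
    (h : IsCompl (sperp B U) U') : (rto a U).map (fun x => (ρ x)⁻¹) = rto a U' := by
  have h1 := D.finrank_sperp U
  have h2 := Submodule.finrank_add_eq_of_isCompl h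
  rw [rto_eq hU, rto_eq hU']
  refine rts_dual (s := B.domRestrict₁₂ U U') D.invol (fun x hx => Subtype.ext (D.sep _ fun y => ?_)) (by omega)
    (fun x y => ha x y) ρ hρ
  obtain ⟨u, hu, v, hv, rfl⟩ := Submodule.mem_sup.1 (h.sup_eq_top ▸ Submodule.mem_top (x := y))
  rw [map_add, hu _ x.2, zero_add]
  exact hx ⟨v, hv⟩

omit [Fintype F] in
theorem rto_add_le (D : SD B) (ha : Pres B a) (h : SS a) (ρ : K →+* K) (hρ : ∀ c, ρ (ι c) = ι (σ c)) (hU : Iv a U)
    (hU' : TIs B U) : rto a U + (rto a U).map (fun x => (ρ x)⁻¹) ≤ rts a := by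
  obtain ⟨C, h1, h2⟩ := h.exists_compl (hU.sperp D ha)
  rw [rto_dual D ha ρ hρ hU h1 h2, rts_eq_add (hU.sperp D ha) h1 h2]
  exact add_le_add_left (h.rto_le hU (hU.sperp D ha) fun x hx w hw => hU' w hw x hx) _

end Cfsg.Agent.H28
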