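import Cfsg.Agent.H28.BalO
import Cfsg.Agent.H13.MaxSing

/-! Local balance for the linear, unitary and symplectic groups. -/

set_option autoImplicit false

namespace Cfsg.Agent.H28

open Matrix Module Subgroup
open scoped MatrixGroups

lemma Schur.of_comp {F V N N' : Type*} [Field F] [AddCommGroup V] [Module F V] [Group N] [Group N']
    {ν : N →* (V ≃ₗ[F] V)} {ν' : N' →* (V ≃ₗ[F] V)} (h : Schur ν') (e : N' →* N)
    (he : ∀ n v, ν (e n) v = ν' n v) : Schur ν := fun S hS => h S fun n hn v => by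
  rw [← he, ← he]; exact hS _ (hn.imp fun k hk => by rw [← map_pow, hk, map_one]) v

variable {H N F F₀ : Type*} {ι : Type} [Group H] [Group N] [Fintype ι] [DecidableEq ι] [Field F]
  [Field F₀]

/-- Schur's lemma for matrix groups -/
abbrev SchurM (ν : N →* GL ι F) : Prop := Schur ((H12.glEq ι F).toMonoidHom.comp ν)

lemma SchurM.mem_center {ν : N →* GL ι F} (h : SchurM ν) {z : N} (hz : z ∈ center N) :
    ν z ∈ center (GL ι F) := by
  obtain ⟨c, hc⟩ := h (H12.glEq ι F (ν z)).toAddMonoidHom fun n _ v => by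
    change (ν z).1 *ᵥ ((ν n).1 *ᵥ v) = (ν n).1 *ᵥ ((ν z).1 *ᵥ v)
    rw [mulVec_mulVec, mulVec_mulVec, ← Units.val_mul, ← Units.val_mul, ← map_mul, ← map_mul,
      mem_center_iff.1 hz]
  exact mem_center_GL_iff'.2 ⟨c, ext_of_mulVec_single fun i => by
    rw [smul_mulVec, one_mulVec]; exact hc _⟩

lemma SchurM.center_ne_top [Nontrivial ι] {ν : N →* GL ι F} (h : SchurM ν) : center N ≠ ⊤ :=
  fun e => by
  obtain ⟨i, l, hl⟩ := exists_pair_ne ι
  obtain ⟨c, hc⟩ := h (toLin' (single i i (1 : F))).toAddMonoidHom fun n _ v => by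
    obtain ⟨c, hc⟩ := mem_center_GL_iff'.1 (h.mem_center (e ▸ mem_top n))
    change single i i 1 *ᵥ ((ν n).1 *ᵥ v) = (ν n).1 *ᵥ (single i i 1 *ᵥ v)
    simp only [hc, smul_mulVec, mulVec_smul, one_mulVec]
  have h1 := congrFun (hc (Pi.single i 1)) i
  have h2 := congrFun (hc (Pi.single l 1)) l
  simp [hl] at h1 h2
  exact zero_ne_one (h2.trans h1.symm)

/-- a conjugate of the subfield subgroup -/
def cj (j : F₀ →+* F) (k : GL ι F) : GL ι F₀ →* GL ι F :=
  (MulAut.conj k).toMonoidHom.comp (GeneralLinearGroup.map j)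

lemma cj_apply (j : F₀ →+* F) (k : GL ι F) (u : GL ι F₀) :
    cj j k u = k * GeneralLinearGroup.map j u * k⁻¹ := rfl

lemma cj_mem_center {j : F₀ →+* F} {k : GL ι F} {u : GL ι F₀} :
    cj j k u ∈ center (GL ι F) ↔ u ∈ center (GL ι F₀) := by
  rw [← map_mem_center_iff j, ← πGL_eq_one_iff, ← πGL_eq_one_iff, cj_apply]
  simp

namespace MatData

variable {D : MatData H ι F}

lemma Triv.conj_injective (h : D.Triv) :
    Function.Injective (MulAut.conj : _ →* MulAut (H ⧸ center H)) := by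
  refine (injective_iff_map_eq_one _).2 fun x hx => ?_
  induction x using QuotientGroup.induction_on with | H s => ?_
  rw [← D.d_le, h.d_eq_one_iff] at hx
  exact (QuotientGroup.eq_one_iff _).2 (mem_center_iff.2 fun t => D.inj (by
    rw [map_mul, map_mul]; exact mem_center_iff.1 hx _))

lemma Triv.d_eq_iff' (h : D.Triv) {g k : D.Δ} : D.d g = D.d k ↔ πGL ι F g = πGL ι F k := by
  rw [h.d_eq_iff, ← πGL_eq_iff, eq_comm]

lemma Triv.commute_iff (h : D.Triv) {a g : D.Δ} {σ : F ≃+* F} : Commute (D.d a) (D.d g * D.f σ) ↔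
    πGL ι F (a * g) = πGL ι F (g * fieldGL ι F σ a) := by
  rw [Commute, SemiconjBy, mul_assoc, D.f_mul_d, ← mul_assoc, ← mul_assoc, mul_left_inj, ← map_mul,
    ← map_mul, h.d_eq_iff', coe_mul, coe_mul, D.coe_fΔ]

lemma Triv.orderOf_σ (h : D.Triv) {g : D.Δ} {σ : F ≃+* F} {p : ℕ} [Fact p.Prime]
    (e : (D.d g * D.f σ) ^ p = 1) (hσ : σ ≠ 1) :
    orderOf σ = p ∧ nrm (fieldGL ι F σ) g p ∈ center (GL ι F) := by
  rw [mul_pow_eq_nrm _ (D.f_mul_d σ), ← map_pow] at e
  exact ⟨orderOf_eq_prime (h _ _ e).1 hσ, map_nrm D.Δ.subtype (D.coe_fΔ σ) g p ▸ (h _ _ e).2⟩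

theorem Triv.bal [Finite F] [Finite F₀] [Nontrivial ι] [IsSimpleGroup (H ⧸ center H)]
    (hT : D.Triv) {p : ℕ} [hp : Fact p.Prime] {x : MulAut (H ⧸ center H)} {P : Prop}
    (j : F₀ →+* F) (k : GL ι F) (ν : N →* GL ι F₀) (hν : Function.Injective ν) (hS : SchurM ν)
    (hμ : ∀ n, cj j k (ν n) ∈ D.j.range)
    (hj : ∀ τ : F ≃+* F, (∀ a, τ (j a) = j a) → τ ^ p = 1)
    (hR : ∀ n, ∀ g : D.Δ, g = cj j k (ν n) → Commute (D.d g) x)
    (h1 : (¬ P ∨ ∃ g, Commute (D.d g) x ∧ orderOf (D.d g) = p) →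
      pPrimeCore p (N ⧸ center N) = ⊥)
    (h2 : ∀ g : D.Δ, Commute (D.d g) x → ∃ (z : Fˣ) (u : GL ι F₀),
      g = GeneralLinearGroup.scalar ι z * cj j k u ∧ ∀ n, u * ν n * u⁻¹ ∈ ν.range)
    (h3 : ∀ α : MulAut (H ⧸ center H), (orderOf α).Coprime p →
      (∀ n s, D.j s = cj j k (ν n) → α s = s) → ∃ g τ, α = D.d g * D.f τ) :
    Bal p x P := by
  have : Finite H := .of_injective _ D.inj
  have : Finite N := .of_injective _ hν
  choose μ hμ using hμ
  let a : N →* D.Δ := ((cj j k).comp ν).codRestrict _ fun n => (hμ n : _ = cj j k _) ▸ D.le _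
  have ha : ∀ n, (a n : GL ι F) = cj j k (ν n) := fun _ => rfl
  have e1 : ∀ n, D.d (a n) = MulAut.conj (μ n : H ⧸ center H) := fun n =>
    (congrArg _ (Subtype.ext (hμ n).symm)).trans (D.d_le _)
  have e2 : (D.d.comp a).ker = center N := by
    ext n
    rw [MonoidHom.mem_ker, MonoidHom.comp_apply, hT.d_eq_one_iff, ha, cj_mem_center]
    exact ⟨fun h => mem_center_iff.2 fun m => hν (by
      rw [map_mul, map_mul]; exact mem_center_iff.1 h _), hS.mem_center⟩
  have e3 : ∀ y ∈ Inn (H ⧸ center H), y ∈ D.d.range := fun y hy => map_le_range _ _ (D.inn_eq ▸ hy)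
  refine bal_of (fun _ : Unit => (D.d.comp a).range) (fun _ => ?_) ⟨(), fun h => ?_⟩
    (fun H _ => ?_) (fun _ y hy h _ => ?_) fun α _ h4 h5 => ?_
  · rintro _ ⟨n, rfl⟩
    exact ⟨⟨_, (e1 n).symm⟩, mem_centralizer_singleton_iff.2 (hR n _ rfl)⟩
  · exact hS.center_ne_top (e2 ▸ eq_top_iff.2 fun n _ =>
      show D.d.comp a n ∈ (⊥ : Subgroup _) from h ▸ ⟨n, rfl⟩)
  · refine core_congr ((QuotientGroup.quotientMulEquivOfEq e2.symm).trans
      (QuotientGroup.quotientKerEquivRange _)) (h1 (H.imp_right ?_))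
    rintro ⟨y, hy, h⟩
    obtain ⟨g, rfl⟩ := e3 y hy
    exact ⟨g, h⟩
  · obtain ⟨g, rfl⟩ := e3 y hy
    obtain ⟨z, u, e, hu⟩ := h2 g h
    rintro _ ⟨n, rfl⟩
    obtain ⟨m, hm⟩ := hu n
    refine ⟨m, ?_⟩
    rw [MonoidHom.comp_apply, MonoidHom.comp_apply, ← map_inv, ← map_mul, ← map_mul]
    refine congrArg _ (Subtype.ext ?_)
    rw [coe_mul, coe_mul, coe_inv, ha, ha, hm, e, map_mul, map_mul, map_inv, _root_.mul_inv_rev,
      ← mul_assoc, mul_assoc (GeneralLinearGroup.scalar ι z), mul_assoc (GeneralLinearGroup.scalar ι z),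
      GeneralLinearGroup.scalar_commute, mul_inv_cancel_right]
  · replace h5 : ∀ n, Commute α (D.d (a n)) := fun n => h5 () _ ⟨n, rfl⟩
    obtain ⟨g, τ, rfl⟩ := h3 α h4 fun n s hs => hT.conj_injective (by
      obtain rfl := D.inj (hs.trans (hμ n).symm)
      rw [← conj_mul_conj, ← e1, (h5 n).eq, mul_inv_cancel_right])
    let E := (descStd (Q := 0) j (0 : QuadraticForm F (ι → F)) (by simp)).post (Q' := 0)
      (H13.SemiSim.ofLinear (H12.glEq ι F k) 1 one_ne_zero (by simp))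
    have hE : ∀ v, E.J v = k.1 *ᵥ (j ∘ v) := fun _ => rfl
    obtain ⟨c, hc⟩ := E.schur hS (fun n => H12.glEq ι F (a n)) (fun n v => by
      rw [hE, hE, H12.glEq_apply, ha, cj_apply, mulVec_mulVec, ← Units.val_mul,
        inv_mul_cancel_right, Units.val_mul, ← mulVec_mulVec]
      exact congrArg _ (funext fun i => (j.map_mulVec _ _ i).symm)) (semiGL g.1 τ).toAddMonoidHom
      fun n ⟨l, hl⟩ y => by
        have h6 := (h5 n).eq
        rw [mul_assoc, D.f_mul_d, ← mul_assoc, ← mul_assoc, mul_left_inj, ← map_mul, ← map_mul,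
          eq_comm, hT.d_eq_iff] at h6
        obtain ⟨u, hu⟩ := h6
        rw [coe_mul, coe_mul, D.coe_fΔ] at hu
        have h7 : ∀ y, semiGL g τ (H12.glEq ι F (a n) y) =
            (u : F) • H12.glEq ι F (a n) (semiGL g τ y) := fun y => by
          rw [H12.glEq_apply, H12.glEq_apply, semiGL_apply, semiGL_apply, map_mulVec_comp,
            mulVec_mulVec, mulVec_mulVec, ← smul_mulVec, ← Units.val_mul, ← coe_scalar_mul]
          exact congrArg (fun x : GL ι F => x.1 *ᵥ (τ ∘ y)) hu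
        have := eq_one_of_semiconj (k := l) (by
          rw [← ringChar_eq_of_hom j, ← map_pow, ← coe_pow, ← map_pow, hl]; simp) h7
          (x := 1) (by simp)
        exact (h7 y).trans (by rw [this, one_smul]; rfl)
    replace hc : ∀ v, semiGL g τ (k.1 *ᵥ (j ∘ v)) = c • k.1 *ᵥ (j ∘ v) := hc
    have h6 : ∀ i, j ∘ (Pi.single i 1 : ι → F₀) = Pi.single i 1 := fun i => by
      ext; simp [Pi.single_apply, apply_ite j]
    have h7 : g.1.1 * k.1.map τ = c • k.1 := ext_of_mulVec_single fun i => by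
      rw [smul_mulVec, ← h6, ← hc, semiGL_apply, map_mulVec_comp, mulVec_mulVec, h6]
      congr 1; ext; simp [Pi.single_apply, apply_ite τ]
    have h0 : c ≠ 0 := by
      rintro rfl
      exact (g.1 * fieldGL ι F τ k).ne_zero (h7.trans (zero_smul _ _))
    have h8 : τ ^ p = 1 := hj τ fun b => by
      have := hc (b • 1)
      rw [show j ∘ (b • 1 : ι → F₀) = j b • j ∘ (1 : ι → F₀) by ext; simp, mulVec_smul, semiGL_smul, hc,
        smul_comm c] at this
      refine smul_left_injective F (smul_ne_zero h0 fun h => ?_) this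
      have := congrArg ((k⁻¹).1 *ᵥ ·) h
      simp only [mulVec_mulVec, Units.inv_mul, one_mulVec, mulVec_zero] at this
      simpa using congrFun this (Classical.arbitrary ι)
    refine eq_one_of_coprime h4 ?_
    rw [mul_pow_eq_nrm _ (D.f_mul_d τ), ← map_pow, h8, map_one, mul_one, hT.d_eq_one_iff,
      ← D.Δ.subtype_apply, map_nrm D.Δ.subtype (D.coe_fΔ τ), D.Δ.subtype_apply,
      show g.1 = GeneralLinearGroup.scalar ι (Units.mk0 c h0) * (k * (fieldGL ι F τ k)⁻¹) by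
        rw [← mul_assoc, eq_mul_inv_iff_mul_eq]; exact Units.ext (by rw [coe_scalar_mul]; exact h7),
      nrm_mul_of_central (scalar_mem_center _), nrm_coboundary, ← map_pow, h8,
      ← map_nrm (GeneralLinearGroup.scalar ι) (fun u => (fieldGL_scalar' τ u).symm)]
    simpa using scalar_mem_center _

theorem Triv.bal_field [Finite F] [Finite F₀] [Nontrivial ι] [IsSimpleGroup (H ⧸ center H)]
    (hT : D.Triv) {p : ℕ} [hp : Fact p.Prime] {D₀ : MatData N ι F₀} (hT₀ : D₀.Triv)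
    {σ : F ≃+* F} {j : F₀ →+* F} (hj : ∀ x, x ∈ Set.range j ↔ σ x = x) (ho : orderOf σ = p)
    (hS : SchurM D₀.j) (hμ : ∀ n, GeneralLinearGroup.map j (D₀.j n) ∈ D.j.range)
    (M : D₀.Δ →* D.Δ) (hM : ∀ u, (M u : GL ι F) = GeneralLinearGroup.map j u)
    (hc : (centralizer {D.f σ}).comap D.d = D.d.ker ⊔ M.range)
    (h0 : p ∣ Nat.card (N ⧸ center N) → pPrimeCore p (N ⧸ center N) = ⊥) {e : ℕ}
    (he : ∀ u, D₀.d u ^ e ∈ Inn _) (hd : p ∣ e → p ∣ Nat.card (N ⧸ center N))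
    (h3 : ∀ α : MulAut (H ⧸ center H), (orderOf α).Coprime p → (∀ n s, D.j s =
      GeneralLinearGroup.map j (D₀.j n) → α s = s) → ∃ g τ, α = D.d g * D.f τ)
    {P : Prop} (hP : P) : Bal p (D.f σ) P := by
  have e1 : ∀ u : GL ι F₀, cj j 1 u = GeneralLinearGroup.map j u := fun u => by simp [cj_apply]
  have e2 : ∀ g, Commute (D.d g) (D.f σ) → ∃ z ∈ D.d.ker, ∃ u, z * M u = g := fun g hg => by
    obtain ⟨z, hz, _, ⟨u, rfl⟩, e⟩ := mem_sup_of_normal_left.1
      (hc.le (mem_centralizer_singleton_iff.2 hg))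
    exact ⟨z, hz, u, e⟩
  refine hT.bal j 1 D₀.j D₀.inj hS (by simpa [e1] using hμ) (fun τ h => ho ▸ pow_eq_one_of_fix
    fun x hx => by obtain ⟨a, rfl⟩ := (hj x).2 hx; exact h a) (fun n g hg =>
      mem_centralizer_singleton_iff.1 (hT.mem_comap_centralizer.2 ⟨1, by
        rw [hg, e1, fieldGL_map hj, map_one, one_mul]⟩)) (fun H => h0 ?_) (fun g hg => ?_)
    (by simpa [e1] using h3)
  · obtain ⟨g, hg, h⟩ := H.resolve_left (not_not.2 hP)
    obtain ⟨z, hz, u, rfl⟩ := e2 g hg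
    refine by_contra fun H => H ?_
    rw [map_mul, MonoidHom.mem_ker.1 hz, one_mul, orderOf_eq_orderOf_iff.2 (show ∀ k,
      D.d (M u) ^ k = 1 ↔ D₀.d u ^ k = 1 from fun k => by
        rw [← map_pow, ← map_pow, ← map_pow, hT.d_eq_one_iff, hT₀.d_eq_one_iff, hM,
          map_mem_center_iff])] at h
    rw [← hT₀.card_inn, ← h, ← Nat.Coprime.orderOf_pow (m := e)]
    · exact Subgroup.orderOf_dvd_natCard _ (he u)
    · exact h ▸ hp.out.coprime_iff_not_dvd.2 (mt hd H)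
  · obtain ⟨z, hz, u, rfl⟩ := e2 g hg
    obtain ⟨z, hz⟩ := mem_center_GL_iff.1 (hT.d_eq_one_iff.1 hz)
    exact ⟨z, u, by rw [coe_mul, hz, hM, e1], D₀.conj_mem u u.2⟩

end MatData

lemma exists_subgroup_GL (ν : N →* ((ι → F) ≃ₗ[F] (ι → F))) (hν : Function.Injective ν)
    (hS : Schur ν) {p : ℕ} (hc : pPrimeCore p (N ⧸ center N) = ⊥) :
    ∃ L : Subgroup (GL ι F), SchurM L.subtype ∧ pPrimeCore p (L ⧸ center L) = ⊥ ∧
      ∀ g, g ∈ L ↔ ∃ n, ∀ v, ν n v = g.1 *ᵥ v := by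
  let ν' := (H12.glEq ι F).symm.toMonoidHom.comp ν
  have h : ∀ n, H12.glEq ι F (ν' n) = ν n := fun n => (H12.glEq ι F).apply_symm_apply _
  refine ⟨ν'.range, hS.of_comp ν'.rangeRestrict fun n => DFunLike.congr_fun (h n), core_congr
    (H13.centerQuotEquiv (MonoidHom.ofInjective ((H12.glEq ι F).symm.injective.comp hν))) hc,
    fun g => exists_congr fun n => ?_⟩
  rw [← (H12.glEq ι F).injective.eq_iff, h, LinearEquiv.ext_iff]; rfl

section Core
variable {p : ℕ} [hp : Fact p.Prime] [Fintype F]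

lemma core_PSp {m : ℕ} (hm : 1 ≤ m) (hr : p.Coprime (ringChar F)) (h : p ∣ Nat.card (PSp m F)) :
    pPrimeCore p (PSp m F) = ⊥ :=
  ((qs_SUG H12.sd_spB (by simp; omega)).congr (H12.spEquivS _ F)).core hr h

omit hp in
lemma two_dvd_card_PSp {m : ℕ} (hm : 1 ≤ m) (h2 : (2 : F) ≠ 0) : 2 ∣ Nat.card (PSp m F) := by
  have : Nonempty (Fin m) := ⟨⟨0, hm⟩⟩
  have := card_eq_card_quotient_mul_card_subgroup (center (symplecticGroup (Fin m) F))
  rw [H12.card_sp, H12.card_center_sp, mul_comm] at this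
  exact dvd_of_mul_eq this.symm (Nat.gcd_dvd_left _ _) two_ne_zero (((four_dvd h2 1).trans
    (Finset.dvd_prod_of_mem _ (a := 0) (by simp; omega))).mul_left _)

lemma core_PSU {n q : ℕ} (hF : Fintype.card F = q ^ 2) (hn : 2 ≤ n) (hr : p.Coprime (ringChar F))
    (h : p ∣ Nat.card (PSU n F q)) : pPrimeCore p (PSU n F q) = ⊥ :=
  ((qs_SUG (H12.sd_uB hF n) (by simpa)).congr (H12.suEquiv hF n)).core hr h

omit hp in
lemma dvd_card_PSU {n q : ℕ} (hF : Fintype.card F = q ^ 2) (hn : 3 ≤ n) (h : p ∣ q + 1) :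
    p ∣ Nat.card (PSU n F q) := by
  have h2 := H12.card_PSU hF (n := n) (by omega)
  rw [← mul_assoc] at h2
  refine dvd_of_mul_eq h2 (Nat.mul_dvd_mul_right (Nat.gcd_dvd_right _ _) _) (by simp)
    ((Nat.mul_dvd_mul_left _ h).trans (Dvd.dvd.mul_left ?_ _))
  obtain ⟨k, rfl⟩ : ∃ k, n = 3 + k := ⟨n - 3, by omega⟩
  rw [Finset.prod_range_add]
  refine Dvd.dvd.mul_right ?_ _
  simp only [Finset.prod_range_succ, Finset.prod_range_zero]
  refine mul_dvd_mul (mul_dvd_mul (by simp) ?_) ?_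
  · simpa using Nat.sq_sub_sq q 1 ▸ dvd_mul_right _ _
  · simpa using Odd.nat_add_dvd_pow_add_pow q 1 (by decide : Odd 3)

omit hp in
lemma schurM_SU {n q : ℕ} (hF : Fintype.card F = q ^ 2) (hn : 3 ≤ n) : SchurM (jSU n F q) :=
  (schur_SUG (H12.sd_uB hF n) (by simpa)).of_comp (H12.suEquiv hF n).symm.toMonoidHom fun s v =>
    congrArg (·.1.1 v) ((H12.suEquiv hF n).apply_symm_apply s)

omit hp in
lemma schurM_Sp {m : ℕ} (hm : 2 ≤ m) : SchurM (jSp m F) :=
  (schur_SUG H12.sd_spB (by simp; omega)).of_comp (H12.spEquivS _ F).symm.toMonoidHom fun s v =>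
    congrArg (·.1.1 v) ((H12.spEquivS _ F).apply_symm_apply s)

omit hp in
theorem exists_form_group (h2 : (2 : F) ≠ 0) (hn : 3 ≤ Fintype.card ι) (M : GL ι F) {c : F}
    (hM : M.1ᵀ = c • M.1) : ∃ L : Subgroup (GL ι F), SchurM L.subtype ∧
      pPrimeCore 2 (L ⧸ center L) = ⊥ ∧ (∀ n ∈ L, n.1.det = 1 ∧ n.1ᵀ * M.1 * n.1 = M.1) ∧
      ∀ (u : GL ι F) (b : F), u.1ᵀ * M.1 * u.1 = b • M.1 → ∀ n ∈ L, u * n * u⁻¹ ∈ L := by
  have : Nonempty ι := Fintype.card_pos_iff.1 (by omega)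
  have hn' : 3 ≤ finrank F (ι → F) := by simpa
  let B := toBilin' M.1
  have h1 : ∀ x y, B y x = c * B x y := fun x y => by
    rw [toBilin'_apply', toBilin'_apply', dotProduct_mulVec, ← mulVec_transpose, hM, smul_mulVec,
      dotProduct_comm, dotProduct_smul, smul_eq_mul]
  have h3 : ∀ (A : Matrix ι ι F) b, Aᵀ * M.1 * A = b • M.1 ↔
      ∀ x y, B (A *ᵥ x) (A *ᵥ y) = b * B x y := fun A b => by
    simp only [B, toBilin'_apply', dot_mulVec_mulVec]
    exact ⟨fun h u v => by rw [h, smul_mulVec, dotProduct_smul, smul_eq_mul], fun h =>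
      matrix_eq_of_dot 1 fun u v => (h u v).trans (by rw [smul_mulVec, dotProduct_smul]; rfl)⟩
  have h4 : ∀ x, (∀ y, B x y = 0) → x = 0 := fun x hx => sesq_nondeg 1 M x fun y =>
    (sesq_apply _ _ _ _).trans ((toBilin'_apply' _ _ _).symm.trans (hx y))
  have h5 : ∀ (u : GL ι F) (b : F), u.1ᵀ * M.1 * u.1 = b • M.1 → b ≠ 0 := fun u b h e =>
    (trGL u * M * u).ne_zero (h.trans (by rw [e, zero_smul]))
  have h6 : ∀ (u n : GL ι F) v, (u * n * u⁻¹).1 *ᵥ v =
      H12.glEq ι F u (n.1 *ᵥ (H12.glEq ι F u).symm v) := fun u n v => by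
    obtain ⟨v, rfl⟩ := (H12.glEq ι F u).surjective v
    rw [LinearEquiv.symm_apply_apply, H12.glEq_apply, H12.glEq_apply, mulVec_mulVec, mulVec_mulVec,
      ← Units.val_mul, inv_mul_cancel_right, Units.val_mul]
  have h7 : c * c = 1 := smul_left_injective F M.ne_zero (by
    simp only [mul_smul, ← hM, ← transpose_smul, transpose_transpose, one_smul])
  rcases mul_self_eq_one_iff.1 h7 with rfl | rfl
  · simp only [one_mul] at h1
    have h8 := H13.polar_toQuadraticMap_symm (B := B) fun x y => h1 y x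
    have hQ : H13.ND (LinearMap.BilinMap.toQuadraticMap B) := fun x hx => h4 x fun y => by
      simpa [h8, h2] using hx y
    obtain ⟨L, e1, e2, e3⟩ := exists_subgroup_GL _ (Subtype.val_injective.comp
      Subtype.val_injective) (schur_Om hQ (H13.good_of_two_ne_zero h2) hn') (core_POm_two hQ h2 hn')
    refine ⟨L, e1, e2, fun n hn => ?_, fun u b hu n hn => ?_⟩ <;> obtain ⟨n', h⟩ := (e3 n).1 hn
    · refine ⟨?_, ((h3 _ 1).2 fun x y => mul_left_cancel₀ h2 ?_).trans (one_smul _ _)⟩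
      · rw [← H12.det_glEq, show H12.glEq ι F n = n'.1.1 from LinearEquiv.ext fun v => (h v).symm,
          ← LinearEquiv.coe_det, show LinearEquiv.det n'.1.1 = 1 from MonoidHom.mem_ker.1
          (Abelianization.commutator_subset_ker (LinearEquiv.det.comp (H13.OG _).subtype) n'.2),
          Units.val_one]
      · rw [← h, ← h, one_mul, ← h8, ← h8]; exact H13.OG_polar _ _ _
    · exact (e3 _).2 ⟨⟨_, H13.map_mem_commutator (H13.SemiSim.ofLinear (H12.glEq ι F u) b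
        (h5 u b hu) fun v => (h3 _ _).1 hu v v).conj.toMonoidHom n'.2⟩, fun v => by
          rw [h6, ← h]; rfl⟩
  · have D : H12.SD B := ⟨fun _ => rfl, fun x y => by simp [h1 x], h4, fun x =>
      ⟨0, mul_left_cancel₀ h2 (by rw [map_zero]; linear_combination -h1 x x)⟩⟩
    obtain ⟨m, hm⟩ := D.even_finrank
    obtain ⟨e⟩ := D.nonempty_UG_equiv_sp (m := m) (by omega)
    obtain ⟨L, e1, e2, e3⟩ := exists_subgroup_GL _ (Subtype.val_injective.comp
      Subtype.val_injective) (schur_SUG D hn') (core_congr (H13.centerQuotEquiv (e.symm.trans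
      (topEquiv.symm.trans (MulEquiv.subgroupCongr (D.SUG_eq_top rfl).symm)))) (core_PSp
      (by omega) ((Nat.coprime_primes Nat.prime_two (CharP.char_is_prime F _)).2
      (H13.ringChar_ne_two_of_two_ne_zero h2).symm) (two_dvd_card_PSp (by omega) h2)))
    refine ⟨L, e1, e2, fun n hn => ?_, fun u b hu n hn => ?_⟩ <;> obtain ⟨n', h⟩ := (e3 n).1 hn
    · refine ⟨?_, ((h3 _ 1).2 fun x y => ?_).trans (one_smul _ _)⟩
      · rw [← H12.det_glEq, show H12.glEq ι F n = n'.1.1 from LinearEquiv.ext fun v => (h v).symm]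
        exact H12.mem_SUG.1 n'.2
      · rw [← h, ← h, one_mul]; exact H12.UG_map _ _ _
    · exact (e3 _).2 ⟨H12.SUGcongr (H12.glEq ι F u) (h5 u b hu) ((h3 _ _).1 hu) n', fun v => by
        rw [h6, ← h]; rfl⟩

end Core

/-- the data for `PSL` -/
def dataSL (ι : Type*) [Fintype ι] [DecidableEq ι] (F : Type*) [Field F] :
    MatData (SpecialLinearGroup ι F) ι F where
  j := SpecialLinearGroup.toGL
  inj := SpecialLinearGroup.toGL_injective
  Δ := ⊤
  le _ := trivial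
  conj_mem g _ s := (conj_mem_stabAut_SL g _).2 ⟨s, rfl⟩
  field_mem σ s := (fieldGL_mem_stabAut_SL σ _).2 ⟨s, rfl⟩
  field_memΔ _ _ _ := trivial

lemma dataSL_d (g : (dataSL ι F).Δ) : (dataSL ι F).d g = dPSL ι F g := rfl

lemma dataSL_f (σ : F ≃+* F) : (dataSL ι F).f σ = fPSL ι F σ := rfl

lemma triv_SL [Nontrivial ι] : (dataSL ι F).Triv := fun g σ h => by
  rw [dataSL_d, dataSL_f] at h
  obtain rfl := eq_one_of_fPSL_mem (σ := σ) ⟨g.1⁻¹, by rw [map_inv, inv_eq_of_mul_eq_one_right h]⟩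
  exact ⟨rfl, dPSL_eq_one_iff.1 (by simpa using h)⟩

end Cfsg.Agent.H28
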