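import Cfsg.Agent.H28.Schur

/-! Local balance for the orthogonal groups. -/

set_option autoImplicit false

namespace Cfsg.Agent.H28

open Module QuadraticMap H13 H13.SemiSim

variable {F V F' V' K : Type*} [Field F] [AddCommGroup V] [Module F V] [Field F'] [AddCommGroup V']
  [Module F' V'] [Group K] {Q : QuadraticForm F V} {Q' : QuadraticForm F' V'}
  {A : H13.SemiSim Q Q →* MulAut K} {ι : OG Q' →* OG Q}

lemma pow_eq_one_of_fix [Finite F] {σ τ : F ≃+* F} (h : ∀ x, σ x = x → τ x = x) :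
    τ ^ orderOf σ = 1 := by
  rw [← orderOf_dvd_iff_pow_eq_one, ← finrank_fixF, ← finrank_fixF]
  exact Dvd.intro_left _ (Subfield.relfinrank_mul_finrank_top (A := fixF σ) (B := fixF τ) h)

lemma eq_one_of_coprime {G : Type*} [Group G] {x : G} {p : ℕ} (h : (orderOf x).Coprime p)
    (e : x ^ p = 1) : x = 1 :=
  orderOf_eq_one_iff.1 (h.eq_one_of_dvd (orderOf_dvd_of_pow_eq_one e))

lemma exists_sq_of_coprime {G : Type*} [Group G] {x : G} (h : (orderOf x).Coprime 2) :
    ∃ k, x = x ^ k * x ^ k := by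
  obtain ⟨k, hk⟩ := (Nat.coprime_two_right.1 h)
  exact ⟨k + 1, by rw [← pow_add, show k + 1 + (k + 1) = orderOf x + 1 by omega, pow_succ,
    pow_orderOf_eq_one, one_mul]⟩

lemma ringChar_eq_of_hom (j : F' →+* F) : ringChar F' = ringChar F :=
  have := charP_of_injective_ringHom j.injective (ringChar F')
  (ringChar.eq F _).symm

lemma two_ne_zero_of_coprime (hr : Nat.Coprime 2 (ringChar F)) : (2 : F) ≠ 0 := fun e => by
  rw [CharP.ringChar_of_prime_eq_zero Nat.prime_two (by exact_mod_cast e)] at hr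
  simp at hr

lemma pow_e_of_fix {s : H13.SemiSim Q Q} {v : V} (h : s.e v = v) (n : ℕ) : (s ^ n).e v = v := by
  induction n with
  | zero => rfl
  | succ n ih => rw [pow_succ, mul_e, h, ih]

/-- the image of `Ω(Q')` in the automorphism group -/
def omA (A : H13.SemiSim Q Q →* MulAut K) (ι : OG Q' →* OG Q) : Om Q' →* MulAut K :=
  (A.comp (ofOG Q)).comp (ι.comp (Om Q').subtype)

lemma omA_apply (n : Om Q') : omA A ι n = A (ofOG Q (ι n)) := rfl

lemma omA_le (hI : Inn K = (ZΩ Q).map A) : (omA A ι).range ≤ Inn K := by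
  rintro _ ⟨n, rfl⟩
  exact hI ▸ ⟨_, ofOG_mem_ZΩ.2 (.inl (map_mem_commutator ι n.2)), rfl⟩

lemma conj_mem_omA {h : H13.SemiSim Q Q} (θ : OG Q' →* OG Q')
    (hθ : ∀ g, h * ofOG Q (ι g) = ofOG Q (ι (θ g)) * h) :
    ∀ z ∈ (omA A ι).range, A h * z * (A h)⁻¹ ∈ (omA A ι).range := by
  rintro _ ⟨n, rfl⟩
  exact ⟨⟨_, map_mem_commutator θ n.2⟩, by
    rw [omA_apply, omA_apply, ← map_mul, hθ, map_mul, mul_inv_cancel_right]⟩

variable (hA : A.ker = (scalar Q).range)
include hA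

lemma exists_scalar {s t : H13.SemiSim Q Q} (h : Commute (A s) (A t)) :
    ∃ z : Fˣ, ∀ v, s.e (t.e v) = (z : F) • t.e (s.e v) := by
  obtain ⟨z, hz⟩ : s * t * (t * s)⁻¹ ∈ (scalar Q).range := by
    rw [← hA, MonoidHom.mem_ker, map_mul, map_inv, map_mul, map_mul, h.eq, mul_inv_cancel]
  exact ⟨z, fun v => by rw [← mul_e, ← eq_mul_inv_iff_mul_eq.1 hz]; rfl⟩

lemma A_eq_one [Nontrivial V] (hQ : ND Q) {s : H13.SemiSim Q Q} {c : F} (h : ∀ v, s.e v = c • v) :
    A s = 1 := by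
  obtain ⟨v, hv⟩ := exists_ne (0 : V)
  have h0 : c ≠ 0 := by rintro rfl; exact hv (s.e.injective (by simp [h]))
  exact show s ∈ A.ker from hA ▸ ⟨Units.mk0 c h0, ND.semiSim_ext hQ fun v => (h v).symm⟩

lemma omA_ker_le (hι : Function.Injective ι) : (omA A ι).ker ≤ Subgroup.center _ := fun n hn => by
  obtain ⟨z, hz⟩ : ofOG Q (ι n) ∈ (scalar Q).range := hA ▸ hn
  refine Subgroup.mem_center_iff.2 fun g => Subtype.ext (hι (ofOG_injective ?_))
  simp only [Subgroup.coe_mul, map_mul, ← hz]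
  exact Sim_mul_scalar (oS Q _).2 z

lemma comm_of_omA [Finite F] (hc : ringChar F' = ringChar F) {t : H13.SemiSim Q Q}
    (h : ∀ y ∈ (omA A ι).range, Commute (A t) y) (n : Om Q') (hn : ∃ k, n ^ ringChar F' ^ k = 1)
    (x : V) : t.e ((ι n).1 x) = (ι n).1 (t.e x) := by
  obtain ⟨z, hz⟩ := exists_scalar hA (h _ ⟨n, rfl⟩)
  obtain ⟨k, hk⟩ := hn
  by_cases h0 : x = 0
  · simp [h0]
  have := eq_one_of_semiconj (S := t.e) (T := (ι n).1) (k := k) (by
    rw [← hc, ← Subgroup.coe_pow, ← map_pow, ← Subgroup.coe_pow, hk]; simp) hz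
    (x := x) (by simpa using h0)
  exact (hz x).trans (by rw [this, one_smul]; rfl)

variable [FiniteDimensional F' V'] [Finite F']

lemma omA_ne_bot (hι : Function.Injective ι) (hQ : ND Q') (hG : Good Q') (hn : 3 ≤ finrank F' V') :
    (omA A ι).range ≠ ⊥ := fun h => hQ.center_Om_ne_top hG hn (eq_top_iff.2 fun n _ =>
  omA_ker_le hA hι (show omA A ι n ∈ (⊥ : Subgroup _) from h ▸ ⟨n, rfl⟩))

lemma omA_core_two (hι : Function.Injective ι) (hQ : ND Q') (h2 : (2 : F') ≠ 0)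
    (hn : 3 ≤ finrank F' V') : pPrimeCore 2 (omA A ι).range = ⊥ := by
  have : Finite V' := Module.finite_of_finite F'
  have := Fintype.ofFinite F'
  refine core_range _ (omA_ker_le hA hι) (fun z hz => ⟨1, ?_⟩) (core_POm_two hQ h2 hn)
  rw [← map_pow, show z ^ 2 ^ 1 = 1 from Subtype.ext ?_, map_one]
  rcases (hQ.mem_center_Om_iff (good_of_two_ne_zero h2) hn z).1 hz with e | e <;>
    simp [e, pow_two, negOne_mul_self]

theorem bal_O_field [Finite F] [FiniteDimensional F V] [Finite K] [IsSimpleGroup K]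
    (hS : Function.Surjective A) (hI : Inn K = (ZΩ Q).map A) (hQ : ND Q) (hn : 5 ≤ finrank F V)
    {p : ℕ} [hp : Fact p.Prime] (hr : p.Coprime (ringChar F)) (D : Desc Q' Q) {s : H13.SemiSim Q Q}
    (hs : ∀ v, s.e (D.J v) = D.J v) (hj : ∀ x, x ∈ Set.range D.j ↔ s.σ x = x)
    (ho : orderOf s.σ = p) {P : Prop} (hP : p ≠ 2 → P) : Bal p (A s) P := by
  have : Nontrivial V := nontrivial_of_finrank_pos (R := F) (by omega)
  have hn' : 5 ≤ finrank F' V' := D.dim ▸ hn
  have : Nontrivial V' := nontrivial_of_finrank_pos (R := F') (by omega)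
  have : Finite V' := Module.finite_of_finite F'
  have hc := ringChar_eq_of_hom D.j
  have hι : Function.Injective D.EO := fun g h e => OG_ext fun v => D.J_injective (by
    rw [← D.EO_J, e, D.EO_J])
  have hQ' := D.nd hQ
  have hG : Good Q' := good_of_five hn'
  have k1 : ∀ y ∈ Inn K, Commute y (A s) → ∃ u, y = A (D.E u) := fun y hy h => by
    obtain ⟨u, hu, rfl⟩ := hI ▸ hy
    obtain ⟨w, u₀, e⟩ := (D.commute_iff hQ hA hs hj ⟨u, ZΩ_le_Sim hu⟩).1 h
    exact ⟨u₀, (congrArg A e).trans (map_eq_of_scalar hA _ _)⟩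
  refine bal_of (fun _ : Unit => (omA A D.EO).range) (fun _ => le_inf (omA_le hI) ?_)
    ⟨(), omA_ne_bot hA hι hQ' hG (by omega)⟩ (fun H _ => ?_) (fun _ y hy h _ => ?_)
    fun α h1 h2 h3 => ?_
  · rintro _ ⟨n, rfl⟩
    exact Subgroup.mem_centralizer_singleton_iff.2 ((D.commute_iff hQ hA hs hj (oS Q _)).2
      ⟨1, oS Q' n, by simp [D.E_oS]⟩)
  · by_cases h2 : p = 2
    · subst h2
      exact omA_core_two hA hι hQ' (two_ne_zero_of_coprime (hc ▸ hr)) (by omega)
    obtain ⟨y, hy, h3, h4⟩ := H.resolve_left (not_not.2 (hP h2))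
    obtain ⟨u, rfl⟩ := k1 y hy h3
    obtain ⟨z, g, e⟩ := exists_of_mu (u * u).2 (by simp)
    have h5 : g * g ∈ Om Q' := (hQ'.mem_commutator_iff hG _).2 (by simp)
    have h6 : omA A D.EO ⟨_, h5⟩ = A (D.E u) ^ 4 := by
      rw [show 4 = 2 * 2 from rfl, pow_mul, pow_two (A _), ← map_mul, ← Subgroup.coe_mul, ← map_mul,
        show u * u = zS Q' z * oS Q' g from Subtype.ext e, map_mul, D.E_zS, D.E_oS,
        Subgroup.coe_mul, coe_zS, map_eq_of_scalar hA, omA_apply, map_mul, map_mul, map_mul,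
        pow_two, coe_oS]
    have h7 : (omA A D.EO).ker = Subgroup.center _ := le_antisymm (omA_ker_le hA hι) fun z hz => by
      rcases (hQ'.mem_center_Om_iff hG (by omega) z).1 hz with e | e
      · simp [MonoidHom.mem_ker, omA_apply, e]
      · refine A_eq_one hA hQ (c := -1) (D.e_ext (t := scalar Q (-1)) (fun _ => rfl) fun v => ?_)
        change (D.EO z).1 _ = _
        simp [e, negOne_apply, scalar_e]
    have := hQ'.isSimpleGroup_POm hn'
    let e := (QuotientGroup.quotientMulEquivOfEq h7.symm).trans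
      (QuotientGroup.quotientKerEquivRange (omA A D.EO))
    refine core_congr e (core_of_simple ?_)
    rw [Nat.card_congr e.toEquiv, ← h4, ← Nat.Coprime.orderOf_pow (m := 4), ← h6]
    · exact Subgroup.orderOf_dvd_natCard _ ⟨_, rfl⟩
    · exact h4 ▸ ((Nat.coprime_primes hp.out Nat.prime_two).2 h2).pow_right 2
  · obtain ⟨u, rfl⟩ := k1 y hy h
    refine conj_mem_omA u.1.conj fun g => ?_
    rw [← coe_oS, ← coe_oS, ← D.E_oS, ← D.E_oS, ← Subgroup.coe_mul, ← Subgroup.coe_mul, ← map_mul,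
      ← map_mul]
    exact congrArg (fun x => (D.E x).1) (Subtype.ext (eq_mul_of_mul_inv_eq (conj_ofOG _ _)))
  · obtain ⟨t, rfl⟩ := hS α
    obtain ⟨c, hc'⟩ := D.schur (schur_Om hQ' hG (by omega)) (fun n => (D.EO n).1)
      (fun n v => D.EO_J n v) t.e (comm_of_omA hA hc (h3 ()))
    replace hc' : ∀ v, t.e (D.J v) = c • D.J v := hc'
    obtain ⟨v, hv⟩ := exists_ne (0 : V')
    have h0 : c ≠ 0 := by rintro rfl; exact hv (D.J_eq_zero.1 (t.e.injective (by simp [hc'])))
    have h4 : t.σ ^ p = 1 := ho ▸ pow_eq_one_of_fix fun x hx => by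
      obtain ⟨a, rfl⟩ := (hj x).2 hx
      have := hc' (a • v)
      rw [D.map_smul, t.map_smul, hc', smul_comm c] at this
      exact smul_left_injective F (smul_ne_zero h0 (mt D.J_eq_zero.1 hv)) this
    refine eq_one_of_coprime h2 ?_
    rw [← map_eq_of_scalar hA (Units.mk0 c h0)⁻¹, ← map_pow]
    refine A_eq_one hA hQ (c := 1) (D.e_ext (t := scalar Q 1) (DFunLike.congr_fun
      ((map_pow (σHom Q) _ p).trans h4)) fun w => ?_)
    exact (pow_e_of_fix (by rw [mul_e, scalar_e, hc']; simp [h0]) p).trans (one_smul F _).symm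

omit [FiniteDimensional F' V'] [Finite F']

lemma sq_comm [Nontrivial V] {t g : H13.SemiSim Q Q} (hg : g ∈ OSim Q) {c : F}
    (hc : ∀ v, g.e (g.e v) = c • v) (hσ : t.σ c = c) (h : Commute (A t) (A g)) (v : V) :
    (t * t).e (g.e v) = g.e ((t * t).e v) := by
  obtain ⟨z, hz⟩ := exists_scalar hA h
  obtain ⟨x, hx⟩ := exists_ne (0 : V)
  have h0 : c • t.e x ≠ 0 := by rw [← hc]; simpa using hx
  have h1 := hz (g.e x)
  rw [hc, t.map_smul, hσ, hz, g.map_smul, mem_Sim.1 hg, hc, smul_smul] at h1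
  have h2 : (z : F) * z = 1 := smul_left_injective F h0 (h1.symm.trans (one_smul _ _).symm)
  have h3 : t.σ z = z := by rcases mul_self_eq_one_iff.1 h2 with e | e <;> simp [e]
  rw [mul_e, mul_e, hz, t.map_smul, hz, h3, smul_smul, h2, one_smul]

lemma exists_comm_inn [Nontrivial V] (hI : Inn K = (ZΩ Q).map A) {g : H13.SemiSim Q Q}
    (hg : g ∈ OSim Q) {c : F} (hc : ∀ v, g.e (g.e v) = c • v) {y : MulAut K} (hy : y ∈ Inn K)
    (h : Commute y (A g)) (ho : (orderOf y).Coprime 2) :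
    ∃ u : OG Q, y = A (ofOG Q u) ∧ ∀ v, u.1 (g.e v) = g.e (u.1 v) := by
  obtain ⟨k, hk⟩ := exists_sq_of_coprime ho
  obtain ⟨_, hu, e⟩ := hI ▸ pow_mem hy k
  obtain ⟨z, u, -, rfl⟩ := mem_ZΩ.1 hu
  rw [map_eq_of_scalar hA] at e
  exact ⟨u * u, by rw [hk, ← e, map_mul, map_mul],
    sq_comm hA (t := ofOG Q u) hg hc rfl (e ▸ h.pow_left k)⟩

lemma sq_eq_one_of_comb [Nontrivial V] (hQ : ND Q) {g : V →ₗ[F] V}
    (hg : ∀ x y, polar Q (g x) y = polar Q x (g y)) {t : H13.SemiSim Q Q} {a b : F}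
    (h : ∀ x, t.e x = a • x + b • g x) : A t ^ 2 = 1 := by
  obtain ⟨x, hx⟩ := exists_ne (0 : V)
  have h1 : ∀ c, t.σ c = c := fun c => smul_left_injective F (m := t.e x) (by simpa using hx) (by
    simp only [← t.map_smul]; simp [h, smul_comm c])
  rw [← map_pow]
  refine A_eq_one hA hQ (c := t.c) fun x => sub_eq_zero.1 (hQ _ fun y => ?_)
  have h2 : ∀ x y, polar Q (t.e x) y = polar Q x (t.e y) := fun x y => by simp [h, hg]
  rw [pow_two, mul_e, polar_sub_left, h2, t.map_polar, h1]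
  simp

variable [Finite F] [FiniteDimensional F V] [Finite K] [IsSimpleGroup K]
    (hS : Function.Surjective A) (hI : Inn K = (ZΩ Q).map A) (hQ : ND Q) (h2 : (2 : F) ≠ 0)
include hS hI hQ h2

theorem bal_O_split (hn : 5 ≤ finrank F V) (he : Even (finrank F V)) {g : OG Q} (hg : g * g = 1)
    (ho : Odd (rk g)) (P : Prop) : Bal 2 (A (ofOG Q g)) P := by
  have : Nontrivial V := nontrivial_of_finrank_pos (R := F) (by omega)
  have hG : ∀ W, Good (Q.restrict W) := fun _ => good_of_two_ne_zero h2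
  have g1 : ∀ v, g.1 (g.1 v) = v := fun v => by rw [← OG_mul_apply, hg]; rfl
  have g2 : ∀ x y, polar Q (g.1 x) y = polar Q x (g.1 y) := fun x y => by rw [← OG_polar g x, g1]
  have g3 : ∀ v, (ofOG Q g).e ((ofOG Q g).e v) = (1 : F) • v := fun v =>
    (g1 v).trans (one_smul _ _).symm
  let W : Fˣ → Submodule F V := fun ε => Module.End.eigenspace (g.1 : V →ₗ[F] V) ε
  have hW : ∀ {ε v}, v ∈ W ε ↔ g.1 v = (ε : F) • v := Module.End.mem_eigenspace_iff
  have w1 : ∀ ε : Fˣ, ε * ε = 1 → ∀ v, v + (ε : F) • g.1 v ∈ W ε := fun ε e v => hW.2 (by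
    simp [g1, smul_smul, ← Units.val_mul, e, add_comm])
  have w2 : ∀ ε, ε * ε = 1 → ND (Q.restrict (W ε)) := fun ε e x hx => Subtype.ext (hQ _ fun y => by
    have := hx ⟨_, w1 ε e y⟩
    rw [polar_restrict] at this
    simp only [polar_add_right, polar_smul_right, ← g2, hW.1 x.2, polar_smul_left, smul_eq_mul,
      ← mul_assoc, ← Units.val_mul, e] at this
    exact mul_left_cancel₀ h2 (by simpa [two_mul] using this))
  have w3 : finrank F (W 1) + rk g = finrank F V ∧ finrank F (W (-1)) = rk g := by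
    refine ⟨(rk_add_finrank_fixS g).symm ▸ ?_, congrArg (fun U : Submodule F V => finrank F U)
      (le_antisymm (fun x hx => ⟨-(2 : F)⁻¹ • x, ?_⟩) fun x hx => ?_)⟩
    · rw [add_comm]
      exact congrArg (fun U : Submodule F V => rk g + finrank F U) (Submodule.ext fun x => by
        simp [hW, fixS, subOne_apply, sub_eq_zero])
    · obtain ⟨x, rfl⟩ := hx
      simp [hW, subOne_apply, g1]
    · rw [subOne_apply, _root_.map_smul, hW.1 hx]
      simp only [Units.val_neg, Units.val_one]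
      match_scalars
      field_simp
      ring
  let ι := fun ε : {ε : Fˣ // ε * ε = 1 ∧ 3 ≤ finrank F (W ε)} => extOG (hQ.isCompl (w2 ε ε.2.1))
  have i0 : Nonempty {ε : Fˣ // ε * ε = 1 ∧ 3 ≤ finrank F (W ε)} := by
    by_cases h : 3 ≤ finrank F (W 1)
    exacts [⟨⟨1, by simp, h⟩⟩, ⟨⟨-1, by simp, by omega⟩⟩]
  obtain ⟨ε₀⟩ := i0
  have k1 : ∀ (u : OG Q), (∀ v, u.1 (g.1 v) = g.1 (u.1 v)) → ∀ ε w, u.1 w ∈ W ε ↔ w ∈ W ε :=
    fun u hu ε w => by rw [hW, hW, ← hu, ← _root_.map_smul, u.1.injective.eq_iff]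
  refine bal_of (fun ε => (omA A (ι ε)).range) (fun ε => le_inf (omA_le hI) ?_)
    ⟨ε₀, omA_ne_bot hA (extOG_injective _) (w2 _ ε₀.2.1) (hG _) ε₀.2.2⟩
    (fun _ ε => omA_core_two hA (extOG_injective _) (w2 _ ε.2.1) h2 ε.2.2)
    (fun ε y hy h h' => ?_) fun α h1 h3 h4 => ?_
  · rintro _ ⟨n, rfl⟩
    rw [Subgroup.mem_centralizer_singleton_iff, omA_apply, ← map_mul, ← map_mul, ← map_mul,
      ← map_mul]
    congr 2
    refine OG_ext_of_isCompl (fun w hw => ?_) (fun z hz => ?_) (hQ.isCompl (w2 ε ε.2.1))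
    · lift w to W ε using hw
      rw [OG_mul_apply, OG_mul_apply, hW.1 w.2, _root_.map_smul, extOG_apply_mem, hW.1 (n.1.1 w).2]
    · rw [OG_mul_apply, OG_mul_apply, extOG_apply_perp _ _ hz, extOG_apply_perp _ _ fun w hw => ?_]
      change polar Q w _ = 0
      rw [← g2, hW.1 hw, polar_smul_left, mem_perp.1 hz w hw, smul_zero]
  · obtain ⟨u, rfl, hu⟩ := exists_comm_inn hA hI (oS Q g).2 (c := 1) g3 hy h h'
    refine conj_mem_omA (MulAut.conj (resOG _ u (k1 u hu ε))).toMonoidHom fun n => ?_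
    rw [← map_mul, ← map_mul]
    refine congrArg _ (OG_ext_of_isCompl (fun w hw => ?_) (fun z hz => ?_) (hQ.isCompl (w2 ε ε.2.1)))
    · lift w to W ε using hw
      rw [OG_mul_apply, OG_mul_apply, extOG_apply_mem, ← resOG_apply _ u (k1 u hu ε),
        ← resOG_apply _ u (k1 u hu ε), extOG_apply_mem]
      simp [OG_mul_apply, OG_inv_apply_apply]
    · rw [OG_mul_apply, OG_mul_apply, extOG_apply_perp _ _ hz, extOG_apply_perp _ _ fun w hw => ?_]
      change polar Q w _ = 0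
      rw [OG_polar_right, mem_perp.1 hz _ ((k1 u hu ε _).1 (by rwa [OG_apply_inv]))]
  · obtain ⟨k, hk⟩ := exists_sq_of_coprime h3
    obtain ⟨t, ht⟩ := hS (α ^ k)
    have e1 := sq_comm hA (t := t) (oS Q g).2 (c := 1) g3 (map_one _)
      (ht ▸ h1.pow_left k)
    rw [← ht, ← map_mul] at hk
    generalize t * t = t at hk e1
    subst hk
    have e2 : ∀ {ε : Fˣ}, ε * ε = 1 → ∀ w ∈ W ε, t.e w ∈ W ε := fun {ε} e w hw => hW.2 (by
      refine (e1 w).symm.trans ?_
      rw [coe_oS, ofOG_e, hW.1 hw, t.map_smul]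
      rcases mul_self_eq_one_iff.1 (congrArg Units.val e) with e | e <;> simp [e])
    have e3 : ∀ ε : {ε : Fˣ // ε * ε = 1 ∧ 3 ≤ finrank F (W ε)}, ∃ c : F, ∀ w ∈ W ε,
        t.e w = c • w := fun ε => by
      obtain ⟨c, hc⟩ := schur_Om (w2 ε ε.2.1) (hG _) ε.2.2 ((t.e.toAddMonoidHom.comp
        (W ε).subtype.toAddMonoidHom).codRestrict (W ε) fun w => e2 ε.2.1 w w.2)
        fun n hn v => Subtype.ext (by
          have := comm_of_omA hA rfl (h4 ε) n hn v
          rw [extOG_apply_mem, extOG_apply_mem _ _ ⟨_, e2 ε.2.1 v v.2⟩] at this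
          exact this)
      exact ⟨c, fun w hw => congrArg Subtype.val (hc ⟨w, hw⟩)⟩
    have e4 : ∀ a, t.σ a = a := fun a => by
      obtain ⟨c, hc⟩ := e3 ε₀
      have : Nontrivial (W ε₀) := nontrivial_of_finrank_pos (R := F) (by have := ε₀.2.2; omega)
      obtain ⟨w, hw⟩ := exists_ne (0 : W ε₀)
      have := hc _ (a • w).2
      rw [Submodule.coe_smul, t.map_smul, smul_comm c, ← hc w w.2] at this
      exact smul_left_injective F (by simpa using hw) this
    have e5 : ∀ ε : Fˣ, ε * ε = 1 → Odd (finrank F (W ε)) → ∃ c : F, ∀ w ∈ W ε, t.e w = c • w :=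
      fun ε e h => by
        by_cases h5 : 3 ≤ finrank F (W ε)
        · exact e3 ⟨ε, e, h5⟩
        obtain ⟨v, -, hv⟩ := finrank_eq_one_iff'.1 (show finrank F (W ε) = 1 by
          obtain ⟨k, hk⟩ := h; omega)
        obtain ⟨c, hc⟩ := hv ⟨_, e2 e v v.2⟩
        refine ⟨c, fun w hw => ?_⟩
        obtain ⟨a, ha⟩ := hv ⟨w, hw⟩
        obtain rfl : a • (v : V) = w := congrArg Subtype.val ha
        rw [t.map_smul, e4, smul_comm c]
        exact congrArg (a • ·) (congrArg Subtype.val hc).symm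
    obtain ⟨a, ha⟩ := e5 1 (by simp) ((Nat.even_add'.1 (w3.1 ▸ he)).2 ho)
    obtain ⟨b, hb⟩ := e5 (-1) (by simp) (w3.2 ▸ ho)
    refine eq_one_of_coprime h3 (sq_eq_one_of_comb hA hQ (g := g.1) g2 (a := (a + b) / 2)
      (b := (a - b) / 2) fun x => smul_right_injective V h2 ?_)
    have h5 := ha _ (w1 1 (by simp) x)
    have h6 := hb _ (w1 (-1) (by simp) x)
    simp only [map_add, Units.val_one, Units.val_neg, neg_smul, one_smul, map_neg] at h5 h6
    simp only [smul_add, smul_smul, mul_div_cancel₀ _ h2, LinearEquiv.coe_coe]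
    linear_combination (norm := module) h5 + h6

theorem bal_O_ext (hn : 5 ≤ finrank F V) {s : OSim Q} {c : F} (hs : s.1.c = c)
    (hc : ∀ v, s.1.e (s.1.e v) = c • v) (hc' : ¬ IsSquare c) (P : Prop) : Bal 2 (A s) P := by
  have : Nontrivial V := nontrivial_of_finrank_pos (R := F) (by omega)
  have h0 : c ≠ 0 := hs ▸ s.1.c_ne
  obtain ⟨g, hg⟩ : ∃ g : V →ₗ[F] V, ∀ v, s.1.e v = g v := ⟨lin s, fun _ => rfl⟩
  have g2 : ∀ x y, polar Q (g x) y = polar Q x (g y) := fun x y => mul_left_cancel₀ h0 (by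
    have := s.1.map_polar x (s.1.e y)
    rwa [hc, mem_Sim.1 s.2, polar_smul_right, hs, hg, hg] at this)
  have g1 : ∀ v, g (g v) = c • v := by simpa [hg] using hc
  have : Fact (∀ r : F, r ^ 2 ≠ c + 0 * r) := ⟨fun r e => hc' ⟨r, by linear_combination -e⟩⟩
  let _ : Module (QuadraticAlgebra F c 0) V := Module.compHom V
    (QuadraticAlgebra.lift (R := F) (a := c) (b := 0) ⟨g, by ext; simp [g1]⟩).toRingHom
  have hs : ∀ (k : QuadraticAlgebra F c 0) (v : V), k • v = k.re • v + k.im • g v := fun _ _ => rfl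
  have : IsScalarTower F (QuadraticAlgebra F c 0) V := ⟨fun a k v => by simp [hs, smul_smul]⟩
  have : FiniteDimensional (QuadraticAlgebra F c 0) V := .right F _ V
  have : Finite (QuadraticAlgebra F c 0) := Module.finite_of_finite F
  have hd : 3 ≤ finrank (QuadraticAlgebra F c 0) V := by
    have := finrank_mul_finrank F (QuadraticAlgebra F c 0) V
    rw [QuadraticAlgebra.finrank_eq_two] at this
    omega
  have h2' : (2 : QuadraticAlgebra F c 0) ≠ 0 := by
    rwa [← map_ofNat (algebraMap F _), map_ne_zero]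
  let B : LinearMap.BilinForm (QuadraticAlgebra F c 0) V := LinearMap.mk₂ _
    (fun x y => ⟨polar Q x y, polar Q (g x) y / c⟩)
    (fun _ _ _ => by ext <;> simp [add_div]) (fun _ _ _ => by ext <;> simp [hs, g1] <;> field_simp)
    (fun _ _ _ => by ext <;> simp [add_div])
    (fun _ _ _ => by ext <;> simp [hs, ← g2, g1] <;> field_simp)
  let R : QuadraticForm (QuadraticAlgebra F c 0) V := B.toQuadraticMap
  have hR : ∀ v, R v = ⟨polar Q v v, polar Q (g v) v / c⟩ := fun _ => rfl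
  have hQ' : ND R := fun x hx => hQ x fun y => mul_left_cancel₀ h2 (by
    have := congrArg QuadraticAlgebra.re ((LinearMap.BilinMap.polar_toQuadraticMap x y).symm.trans (hx y))
    simpa [B, two_mul, polar_comm Q y x] using this)
  let ι : OG R →* OG Q := MonoidHom.mk' (fun n => ⟨n.1.restrictScalars F, fun v =>
    mul_left_cancel₀ h2 (by simpa [hR, polar_self'] using congrArg QuadraticAlgebra.re (n.2 v))⟩)
    fun _ _ => rfl
  have hι : Function.Injective ι := fun a b e => OG_ext fun v => congrArg (fun x => x.1 v) e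
  have hG : Good R := good_of_two_ne_zero h2'
  refine bal_of (fun _ : Unit => (omA A ι).range) (fun ε => le_inf (omA_le hI) ?_)
    ⟨(), omA_ne_bot hA hι hQ' hG hd⟩ (fun _ _ => omA_core_two hA hι hQ' h2' hd)
    (fun ε y hy h h' => ?_) fun α h1 h3 h4 => ?_
  · rintro _ ⟨n, rfl⟩
    rw [Subgroup.mem_centralizer_singleton_iff, omA_apply, ← map_mul, ← map_mul]
    refine congrArg _ (ND.semiSim_ext hQ fun v => ?_)
    rw [mul_e, mul_e, hg, hg]
    exact (by simpa [hs] using n.1.1.map_smul QuadraticAlgebra.omega v :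
      n.1.1 (g v) = g (n.1.1 v))
  · obtain ⟨u, rfl, hu⟩ := exists_comm_inn hA hI s.2 hc hy h h'
    simp only [hg] at hu
    let u' : OG R := ⟨{ u.1.toAddEquiv with map_smul' := fun k v => by simp [hs, hu] }, fun v => by
      change R (u.1 v) = _
      simp [hR, ← hu]⟩
    refine conj_mem_omA (MulAut.conj u').toMonoidHom fun n => ?_
    rw [show u = ι u' from rfl, ← map_mul, ← map_mul, ← map_mul, ← map_mul]
    simp
  · obtain ⟨t, rfl⟩ := hS α
    obtain ⟨k, hk⟩ := schur_Om hQ' hG hd t.e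
      (comm_of_omA hA (ringChar_eq_of_hom (algebraMap F _)).symm (h4 ()))
    exact eq_one_of_coprime h3 (sq_eq_one_of_comb hA hQ g2 fun x => (hk x).trans (hs _ _))

omit hA hS hI hQ [Finite K] [IsSimpleGroup K] in
lemma Ev.dk_of_anti {m : ℕ} (h : Ev Q m) {s : OSim Q} (hl : IsSquare s.1.c)
    (hc : ∀ v, s.1.e (s.1.e v) = -s.1.c • v) : h.dk s = 1 := by
  obtain ⟨l, hl⟩ := hl
  have h0 : 2 * l ≠ 0 := mul_ne_zero h2 (by rintro rfl; exact s.1.c_ne (by simp [hl]))
  have h1 : ∀ v, polar Q v (s.1.e v) = 0 := fun v => by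
    have := s.1.map_polar v (s.1.e v)
    rw [hc, mem_Sim.1 s.2, polar_smul_right, polar_comm, smul_eq_mul] at this
    exact mul_left_cancel₀ (mul_ne_zero h2 s.1.c_ne) (by linear_combination -this)
  let L : V →ₗ[F] V := l • LinearMap.id + (lin s).toLinearMap
  have h3 : ∀ v, L (L v) = (2 * l) • s.1.e v := fun v => by
    simp [L, hc, hl, s.1.map_smul, mem_Sim.1 s.2]; module
  let u : OSim Q := ⟨ofLinear (LinearEquiv.ofInjectiveEndo L ((injective_iff_map_eq_zero L).2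
    fun v e => by simpa [e, h0] using (h3 v).symm)) _ (mul_ne_zero h2 s.1.c_ne) fun v => by
      simp [L, Q_add, Q_smul, Sim_Q, h1, hl]; ring, rfl⟩
  have := h.nontrivial
  have : u * u = zS Q (Units.mk0 _ h0) * s := Subtype.ext (ND.semiSim_ext h.nd h3)
  simpa using (congrArg h.dk this).symm

omit hA hS hI hQ [Finite K] [IsSimpleGroup K] in
lemma Ev.dk_of_anti' {m : ℕ} (h : Ev Q m) [FiniteDimensional F' V'] [Finite F'] (h' : Ev Q' m)
    (D : Desc Q Q') (hr : Nat.card F' = Nat.card F ^ 2) {s : OSim Q}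
    (hc : ∀ v, s.1.e (s.1.e v) = -s.1.c • v) : h.dk s = 1 := by
  rw [← h'.dk_E h D]
  refine h'.dk_of_anti (by rwa [← map_ofNat D.j, map_ne_zero]) (sgn_eq_one_iff.1 ?_) fun x => ?_
  · rw [D.E_c, sgn_map _ hr, Int.units_sq]
  · exact D.e_ext (s := (D.E s * D.E s).1) (t := scalar Q' (-Units.mk0 _ (D.E s).1.c_ne))
      (mem_Sim.1 (Subtype.property _)) (fun v => by simp [mul_e, scalar_e, hc, D.map_smul]) x

omit hA hS hI hQ h2 [Finite K] [IsSimpleGroup K] [Finite F] in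
lemma exists_pomIso {ι : Type} [Fintype ι] [DecidableEq ι] [Nonempty ι]
    {Q R : QuadraticForm F (ι → F)} (hQ : ND Q) [FiniteDimensional F' V'] (D : Desc Q' Q)
    (D₁ : Desc Q' R) (hj : D₁.j = D.j) {s : H13.SemiSim Q Q} {u : H13.SemiSim R R}
    (hσ : ∀ a, s.σ a = u.σ a) (hs : ∀ v, s.e (D.J v) = D.J v) (hu : ∀ v, u.e (D₁.J v) = D₁.J v) :
    ∃ ψ : POmega F Q ≃* POmega F R, (ψ.symm.trans (aut Q s)).trans ψ = aut R u := by
  obtain ⟨f, f1, f2⟩ := D.exists_sim D₁ hj
  let t := ofLinear f _ (div_ne_zero D₁.b_ne D.b_ne) f2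
  obtain rfl : s = (t.trans u).trans t.symm := ND.semiSim_ext hQ (D.e_ext hσ fun v => by
    change _ = f.symm (u.e (f _))
    rw [hs, f1, hu, ← f1, f.symm_apply_apply])
  exact ⟨pomIso t, MulEquiv.ext fun y => (pomIso_aut t u _).trans (by simp)⟩

omit hQ h2 in
theorem bal_O_graph {m : ℕ} (h : Ev Q m) {p : ℕ} [hp : Fact p.Prime] (hr : p.Coprime (ringChar F))
    {s : OSim Q} (ho : A s ^ p = 1) (hs : h.dk s ≠ 1)
    (ha : (2 : F) ≠ 0 → (∀ v, s.1.e (s.1.e v) = -s.1.c • v) → h.dk s = 1) (P : Prop) :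
    Bal p (A s) P := by
  obtain ⟨z, hz⟩ : s.1 ^ p ∈ (scalar Q).range := by rwa [← hA, MonoidHom.mem_ker, map_pow]
  obtain rfl : p = 2 := hp.out.eq_two_or_odd'.resolve_right fun e => by
    have := congrArg h.dk (show zS Q z = s ^ p from Subtype.ext hz)
    rw [map_pow, units_ne_one hs, e.neg_one_pow] at this
    simp at this
  have h2 := two_ne_zero_of_coprime hr
  have h1 : ∀ v, s.1.e (s.1.e v) = (z : F) • v := fun v => by rw [← mul_e, ← pow_two, ← hz]; rfl
  have h3 : s.1.c ^ 2 = z ^ 2 := by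
    simpa [pow_two, mul_c, mem_Sim.1 s.2] using (congrArg H13.SemiSim.c hz).symm
  rcases sq_eq_sq_iff_eq_or_eq_neg.1 h3 with e | e
  swap
  · exact absurd (ha h2 (by simpa [e])) hs
  by_cases h4 : IsSquare s.1.c
  swap
  · exact bal_O_ext hA hS hI h.nd h2 h.five e h1 (e ▸ h4) P
  obtain ⟨w, g, rfl⟩ := exists_zS_oS h4
  rw [Subgroup.coe_mul, coe_zS, map_eq_of_scalar hA]
  refine bal_O_split hA hS hI h.nd h2 h.five (by simp [h.dim]) (OG_ext fun v =>
    smul_right_injective V z.ne_zero ?_) ?_ P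
  · refine Eq.trans ?_ (h1 v)
    simp [← e, mul_c, mul_e, scalar_e, ofOG_e, OG_mul_apply, smul_smul, pow_two]
  · simpa [dickson_apply, neg_one_pow_eq_one_iff_even] using hs

end Cfsg.Agent.H28
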