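import Mathlib.GroupTheory.PGroup
import Mathlib.GroupTheory.Index
import Mathlib.Algebra.Order.BigOperators.Ring.Finset
import Mathlib.Data.ZMod.Basic
import Mathlib.Tactic

/-! Fixed points of elements of two-point stabilizers in doubly transitive groups. -/

set_option autoImplicit false
set_option linter.unusedSectionVars false

namespace Cfsg.Agent.H28.Der

open Finset MulAction
open scoped Classical

variable {G Ω : Type*} [Group G] [Fintype G] [MulAction G Ω] [Fintype Ω]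

variable (Ω) in
/-- number of fixed points -/
noncomputable def fx (g : G) : ℕ := #{w : Ω | g • w = w}

variable (G) in
/-- two-point stabilizer -/
noncomputable def St (a b : Ω) : Finset G := {g | g • a = a ∧ g • b = b}

variable (G) in
/-- the fixed points of the two-point stabilizer -/
noncomputable def Ln (a b : Ω) : Finset Ω := {c | ∀ g : G, g • a = a → g • b = b → g • c = c}

variable (G Ω) in
/-- double transitivity -/
def T2 : Prop := ∀ a b c d : Ω, a ≠ b → c ≠ d → ∃ g : G, g • a = c ∧ g • b = d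

theorem mem_St {a b : Ω} {g : G} : g ∈ St G a b ↔ g • a = a ∧ g • b = b := by simp [St]

theorem mem_Ln {a b c : Ω} : c ∈ Ln G a b ↔ ∀ g : G, g • a = a → g • b = b → g • c = c := by simp [Ln]

theorem fx_conj (g x : G) : fx Ω (g * x * g⁻¹) = fx Ω x := by
  unfold fx
  symm
  refine card_bij (fun w _ => g • w) (fun w hw => ?_) (fun a _ b _ h => smul_left_cancel g h) (fun w hw => ?_)
  · simp only [mem_filter, mem_univ, true_and] at hw ⊢
    simp [mul_smul, hw]
  · simp only [mem_filter, mem_univ, true_and] at hw ⊢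
    refine ⟨g⁻¹ • w, ?_, by simp⟩
    rw [mul_smul, mul_smul] at hw
    rw [eq_inv_smul_iff, hw]

theorem sum_St (h2 : T2 G Ω) {a b c d : Ω} (hab : a ≠ b) (hcd : c ≠ d) (F : ℕ → ℚ) :
    ∑ x ∈ St G c d, F (fx Ω x) = ∑ x ∈ St G a b, F (fx Ω x) := by
  obtain ⟨g, h1, h3⟩ := h2 a b c d hab hcd
  symm
  refine sum_bij (fun x _ => g * x * g⁻¹) (fun x hx => ?_) (fun x _ y _ h => by simpa using h) (fun x hx => ?_)
    (fun x _ => by rw [fx_conj])
  · rw [mem_St] at hx ⊢
    subst h1 h3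
    simp [mul_smul, hx.1, hx.2]
  · rw [mem_St] at hx
    refine ⟨g⁻¹ * x * g, ?_, by group⟩
    subst h1 h3
    rw [mem_St]
    simp [mul_smul, hx.1, hx.2]

theorem card_St (h2 : T2 G Ω) {a b c d : Ω} (hab : a ≠ b) (hcd : c ≠ d) : #(St G c d) = #(St G a b) := by
  have := sum_St h2 hab hcd (fun _ => 1)
  simpa using this

theorem master (h2 : T2 G Ω) {a b : Ω} (hab : a ≠ b) (F : ℕ → ℚ) :
    ∑ g : G, (fx Ω g : ℚ) * (fx Ω g - 1) * F (fx Ω g) =
      (Fintype.card Ω : ℚ) * (Fintype.card Ω - 1) * ∑ x ∈ St G a b, F (fx Ω x) := by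
  have h1 : ∀ g : G, (fx Ω g : ℚ) * (fx Ω g - 1) * F (fx Ω g) =
      ∑ p ∈ (univ : Finset Ω).offDiag, if g ∈ St G p.1 p.2 then F (fx Ω g) else 0 := fun g => by
    rw [← sum_filter, sum_const, nsmul_eq_mul]
    congr 1
    have : {p ∈ (univ : Finset Ω).offDiag | g ∈ St G p.1 p.2} = ({w : Ω | g • w = w} : Finset Ω).offDiag := by
      ext p; simp [mem_St, mem_offDiag]; tauto
    rw [this, offDiag_card, Nat.cast_sub (Nat.le_mul_self _)]
    unfold fx; push_cast; ring
  simp only [h1]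
  rw [sum_comm]
  have h3 : ∀ p ∈ (univ : Finset Ω).offDiag, (∑ g : G, if g ∈ St G p.1 p.2 then F (fx Ω g) else 0) =
      ∑ x ∈ St G a b, F (fx Ω x) := fun p hp => by
    rw [← sum_filter, ← sum_St h2 hab (mem_offDiag.1 hp).2.2 F]
    congr 1; ext; simp
  rw [sum_congr rfl h3, sum_const, nsmul_eq_mul, offDiag_card, Nat.cast_sub (Nat.le_mul_self _), card_univ]
  push_cast; ring

theorem sum_fx (S : Finset G) : ∑ x ∈ S, fx Ω x = ∑ w : Ω, #{x ∈ S | x • w = w} := by
  unfold fx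
  simp only [card_filter]
  exact sum_comm

theorem orbit_card (K : Subgroup G) (b : Ω) :
    {u | ∃ c ∈ K, c • b = u}.ncard * Nat.card (K ⊓ stabilizer G b : Subgroup G) = Nat.card K := by
  have h1 := index_stabilizer K b
  have h2 := (stabilizer K b).index_mul_card
  have h3 : orbit K b = {u | ∃ c ∈ K, c • b = u} := by
    ext u; constructor
    · rintro ⟨c, rfl⟩; exact ⟨c, c.2, rfl⟩
    · rintro ⟨c, hc, rfl⟩; exact ⟨⟨c, hc⟩, rfl⟩
  rw [← h3, ← h1, ← h2]
  congr 1
  have : stabilizer K b = (K ⊓ stabilizer G b).subgroupOf K := by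
    ext x; simp [Subgroup.mem_subgroupOf, Subgroup.smul_def]
  rw [this]
  exact (Nat.card_congr (Subgroup.subgroupOfEquivOfLe inf_le_left).toEquiv).symm

theorem card_sub (K : Subgroup G) (S : Finset G) (h : ∀ x, x ∈ S ↔ x ∈ K) : Nat.card K = #S := by
  rw [← Nat.card_eq_finsetCard]
  exact Nat.card_congr (Equiv.subtypeEquivRight fun x => (h x).symm)

theorem orb (a b w : Ω) (S : Finset Ω) (hS : ∀ u ∈ S, ∃ x ∈ St G a b, x • w = u) :
    #S * #{x ∈ St G a b | x • w = w} ≤ #(St G a b) := by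
  have h := orbit_card (stabilizer G a ⊓ stabilizer G b) w
  rw [card_sub (stabilizer G a ⊓ stabilizer G b) (St G a b) (fun x => by simp [mem_St]),
    card_sub _ {x ∈ St G a b | x • w = w} (fun x => by simp [mem_St])] at h
  rw [← h]
  refine Nat.mul_le_mul_right _ ?_
  rw [← Set.ncard_coe_finset]
  refine Set.ncard_le_ncard (fun u hu => ?_) (Set.toFinite _)
  obtain ⟨x, hx, rfl⟩ := hS u hu
  exact ⟨x, by simpa [mem_St] using hx, rfl⟩

theorem left_mem_Ln (a b : Ω) : a ∈ Ln G a b := mem_Ln.2 fun _ h _ => h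
theorem right_mem_Ln (a b : Ω) : b ∈ Ln G a b := mem_Ln.2 fun _ _ h => h

theorem smul_mem_Ln (g : G) {a b c : Ω} (h : c ∈ Ln G a b) : g • c ∈ Ln G (g • a) (g • b) := by
  rw [mem_Ln] at h ⊢
  intro x h1 h2
  have := h (g⁻¹ * x * g) (by simp [mul_smul, h1]) (by simp [mul_smul, h2])
  rwa [mul_smul, mul_smul, inv_smul_eq_iff] at this

theorem card_Ln (h2 : T2 G Ω) {a b c d : Ω} (hab : a ≠ b) (hcd : c ≠ d) : #(Ln G c d) = #(Ln G a b) := by
  obtain ⟨g, rfl, rfl⟩ := h2 a b c d hab hcd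
  symm
  refine card_bij (fun w _ => g • w) (fun w hw => smul_mem_Ln g hw) (fun a _ b _ h => smul_left_cancel g h)
    (fun w hw => ⟨g⁻¹ • w, by simpa using smul_mem_Ln g⁻¹ hw, by simp⟩)

theorem Ln_eq (h2 : T2 G Ω) {a b c d : Ω} (hab : a ≠ b) (hcd : c ≠ d) (hc : c ∈ Ln G a b) (hd : d ∈ Ln G a b) :
    Ln G c d = Ln G a b := by
  refine eq_of_subset_of_card_le (fun u hu => ?_) (card_Ln h2 hab hcd).ge
  rw [mem_Ln] at *
  exact fun g h1 h3 => hu g (hc g h1 h3) (hd g h1 h3)

theorem Ln_comm (a b : Ω) : Ln G a b = Ln G b a := by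
  ext; simp only [mem_Ln]; exact ⟨fun h g h1 h2 => h g h2 h1, fun h g h1 h2 => h g h2 h1⟩

/-- the lines joining a moved point to the fixed points -/
theorem cover (h2 : T2 G Ω) {a b : Ω} (hab : a ≠ b) {x : G} {p : Ω} (hp : x • p ≠ p) :
    #(({w : Ω | x • w = w} : Finset Ω).biUnion fun c => (Ln G p c).erase p) = fx Ω x * (#(Ln G a b) - 1) := by
  rw [card_biUnion]
  · unfold fx
    rw [← smul_eq_mul, ← sum_const]
    refine sum_congr rfl fun c hc => ?_
    have hc : x • c = c := by simpa using hc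
    rw [card_erase_of_mem (left_mem_Ln _ _), card_Ln h2 hab (by rintro rfl; exact hp hc)]
  · intro c hc d hd hcd
    have hc : x • c = c := by simpa using hc
    have hd : x • d = d := by simpa using hd
    have hpc : p ≠ c := by rintro rfl; exact hp hc
    have hpd : p ≠ d := by rintro rfl; exact hp hd
    rw [Function.onFun, disjoint_left]
    intro u hu hu'
    rw [mem_erase] at hu hu'
    have e1 := Ln_eq h2 hpc hu.1.symm (left_mem_Ln _ _) hu.2
    have e2 := Ln_eq h2 hpd hu.1.symm (left_mem_Ln _ _) hu'.2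
    have e3 := Ln_eq h2 hpc hcd (right_mem_Ln _ _) (by rw [← e1, e2]; exact right_mem_Ln _ _)
    exact hp (mem_Ln.1 (e3 ▸ left_mem_Ln p c) x hc hd)

theorem fx_bound (h2 : T2 G Ω) {a b : Ω} (hab : a ≠ b) {x : G} {p : Ω} (hp : x • p ≠ p) :
    fx Ω x * (#(Ln G a b) - 1) + 1 ≤ Fintype.card Ω := by
  rw [← cover h2 hab hp, ← card_univ, ← card_erase_add_one (mem_univ p)]
  refine Nat.add_le_add_right (card_le_card fun u hu => ?_) 1
  simp only [mem_biUnion, mem_erase] at hu ⊢
  obtain ⟨c, -, h, -⟩ := hu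
  exact ⟨h, mem_univ _⟩

theorem third_fixed (h2 : T2 G Ω) {a b : Ω} (hab : a ≠ b) {x : G} (hx : fx Ω x * (#(Ln G a b) - 1) + 1 = Fintype.card Ω)
    {p q : Ω} (hp : x • p ≠ p) (hpq : p ≠ q) : ∃ c ∈ Ln G p q, x • c = c := by
  have : (({w : Ω | x • w = w} : Finset Ω).biUnion fun c => (Ln G p c).erase p) = univ.erase p := by
    refine eq_of_subset_of_card_le (fun u hu => ?_) ?_
    · simp only [mem_biUnion, mem_erase] at hu ⊢
      obtain ⟨c, -, h, -⟩ := hu
      exact ⟨h, mem_univ _⟩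
    · rw [cover h2 hab hp, card_erase_of_mem (mem_univ _), card_univ]; omega
  have hq : q ∈ univ.erase p := by simp [hpq.symm]
  rw [← this, mem_biUnion] at hq
  obtain ⟨c, hc, hq⟩ := hq
  have hc : x • c = c := by simpa using hc
  have hpc : p ≠ c := by rintro rfl; exact hp hc
  refine ⟨c, ?_, hc⟩
  rw [Ln_eq h2 hpc hpq (left_mem_Ln _ _) (mem_erase.1 hq).2]
  exact right_mem_Ln _ _

/-- Weighted bound on the total number of fixed points. -/
theorem total_le (a b : Ω) (m : ℕ) (c : Ω → ℕ)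
    (hc : ∀ w, m * #{x ∈ St G a b | x • w = w} ≤ c w * #(St G a b)) :
    m * ∑ x ∈ St G a b, fx Ω x ≤ (∑ w, c w) * #(St G a b) := by
  rw [sum_fx, mul_sum, sum_mul]
  exact sum_le_sum fun w _ => hc w

theorem st_le (a b w : Ω) : #{x ∈ St G a b | x • w = w} ≤ #(St G a b) := card_filter_le _ _

theorem two_st_le {a b w : Ω} (hw : w ∉ Ln G a b) : 2 * #{x ∈ St G a b | x • w = w} ≤ #(St G a b) := by
  rw [mem_Ln] at hw
  push Not at hw
  obtain ⟨g, h1, h2, h3⟩ := hw
  have := orb (G := G) a b w {w, g • w} (by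
    simp only [mem_insert, mem_singleton]
    rintro u (rfl | rfl)
    · exact ⟨1, by simp [mem_St], by simp⟩
    · exact ⟨g, mem_St.2 ⟨h1, h2⟩, rfl⟩)
  rwa [card_pair h3.symm] at this

end Cfsg.Agent.H28.Der
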