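import Cfsg.Agent.H28.Derang1

/-! Doubly transitive groups whose two-point stabilizers fix exactly three points, and orbit bounds. -/

set_option autoImplicit false
set_option linter.unusedSectionVars false

namespace Cfsg.Agent.H28.Der

open Finset MulAction
open scoped Classical

variable {G Ω : Type*} [Group G] [Fintype G] [MulAction G Ω] [Fintype Ω]

theorem one_mem_St (a b : Ω) : (1 : G) ∈ St G a b := by simp [mem_St]

theorem St_pos (a b : Ω) : 0 < #(St G a b) := card_pos.2 ⟨1, one_mem_St a b⟩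

theorem mul_mem_St {a b : Ω} {x y : G} (hx : x ∈ St G a b) (hy : y ∈ St G a b) : x * y ∈ St G a b := by
  rw [mem_St] at *; simp [mul_smul, hx.1, hx.2, hy.1, hy.2]

theorem inv_mem_St {a b : Ω} {x : G} (hx : x ∈ St G a b) : x⁻¹ ∈ St G a b := by
  rw [mem_St] at *; simp [inv_smul_eq_iff, hx.1, hx.2]

theorem orbA (a b w : Ω) (S : Finset Ω) (hS : ∀ u ∈ S, ∃ x ∈ St G a b, x • w = u) {v : Ω} (hv : v ∈ S) :
    #S * #{x ∈ St G a b | x • v = v} ≤ #(St G a b) := by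
  obtain ⟨y, hy, rfl⟩ := hS v hv
  refine orb a b _ S fun u hu => ?_
  obtain ⟨x, hx, rfl⟩ := hS u hu
  exact ⟨x * y⁻¹, mul_mem_St hx (inv_mem_St hy), by simp [mul_smul]⟩

theorem total_A (a b : Ω) (j : ℕ) (A : Finset Ω)
    (hA : ∀ w ∈ A, (j + 2) * #{x ∈ St G a b | x • w = w} ≤ #(St G a b)) :
    2 * (j + 2) * ∑ x ∈ St G a b, fx Ω x + j * #A * #(St G a b) ≤
      (j + 2) * (Fintype.card Ω + #(Ln G a b)) * #(St G a b) := by
  have hL : ∀ w ∈ A, w ∉ Ln G a b := fun w hw hL => by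
    have h1 := hA w hw
    have h2 : {x ∈ St G a b | x • w = w} = St G a b :=
      filter_true_of_mem fun x hx => mem_Ln.1 hL x (mem_St.1 hx).1 (mem_St.1 hx).2
    rw [h2] at h1
    have := St_pos (G := G) a b
    nlinarith
  have h1 := total_le (G := G) a b (2 * (j + 2))
    (fun w => if w ∈ Ln G a b then 2 * (j + 2) else if w ∈ A then 2 else j + 2) (fun w => by
      split_ifs with h h'
      · exact Nat.mul_le_mul_left _ (st_le a b w)
      · have := hA w h'; nlinarith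
      · have := two_st_le h; nlinarith)
  have h2 : ∑ w, (if w ∈ Ln G a b then 2 * (j + 2) else if w ∈ A then 2 else j + 2) + j * #A =
      (j + 2) * (Fintype.card Ω + #(Ln G a b)) := by
    have e1 : j * #A = ∑ w, if w ∈ A then j else 0 := by
      rw [← sum_filter]; simp [mul_comm]
    have e2 : (j + 2) * (Fintype.card Ω + #(Ln G a b)) = ∑ w, ((j + 2) + if w ∈ Ln G a b then j + 2 else 0) := by
      rw [sum_add_distrib, ← sum_filter]; simp; ring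
    rw [e1, e2, ← sum_add_distrib]
    refine sum_congr rfl fun w _ => ?_
    have := hL w
    split_ifs with h h' <;> first | omega | exact absurd h (this h')
  rw [← h2, add_mul]
  omega

variable (G) in
/-- collinear triples -/
def Col (a b c : Ω) : Prop := a ≠ b ∧ a ≠ c ∧ b ≠ c ∧ c ∈ Ln G a b

theorem Col.swap {a b c : Ω} (h : Col G a b c) : Col G b a c :=
  ⟨h.1.symm, h.2.2.1, h.2.1, Ln_comm (G := G) a b ▸ h.2.2.2⟩

theorem Col.rot (h2 : T2 G Ω) {a b c : Ω} (h : Col G a b c) : Col G a c b :=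
  ⟨h.2.1, h.1, h.2.2.1.symm, by
    rw [Ln_eq h2 h.1 h.2.1 (left_mem_Ln _ _) h.2.2.2]; exact right_mem_Ln _ _⟩

theorem Col.smul {a b c : Ω} (h : Col G a b c) (g : G) : Col G (g • a) (g • b) (g • c) :=
  ⟨fun e => h.1 (smul_left_cancel g e), fun e => h.2.1 (smul_left_cancel g e),
    fun e => h.2.2.1 (smul_left_cancel g e), smul_mem_Ln g h.2.2.2⟩

theorem Col.fix {a b c : Ω} (h : Col G a b c) {g : G} (ha : g • a = a) (hb : g • b = b) : g • c = c :=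
  mem_Ln.1 h.2.2.2 g ha hb

variable (G Ω) in
/-- all lines have three points -/
def F3 : Prop := ∀ a b : Ω, a ≠ b → #(Ln G a b) = 3

theorem Col.eq (h3 : F3 G Ω) {a b c : Ω} (h : Col G a b c) : Ln G a b = {a, b, c} := by
  symm
  refine eq_of_subset_of_card_le ?_ ?_
  · intro u hu
    simp only [mem_insert, mem_singleton] at hu
    rcases hu with rfl | rfl | rfl
    exacts [left_mem_Ln _ _, right_mem_Ln _ _, h.2.2.2]
  · rw [h3 a b h.1, card_eq_three.2 ⟨a, b, c, h.1, h.2.1, h.2.2.1, rfl⟩]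

theorem Col.uniq (h3 : F3 G Ω) {a b c d : Ω} (h : Col G a b c) (h' : Col G a b d) : c = d := by
  have := h.2.2.2
  rw [h'.eq h3] at this
  simp only [mem_insert, mem_singleton] at this
  rcases this with rfl | rfl | rfl
  exacts [absurd rfl h.2.1, absurd rfl h.2.2.1, rfl]

theorem exists_col (h3 : F3 G Ω) {a b : Ω} (hab : a ≠ b) : ∃ c, Col G a b c := by
  have : #({a, b} : Finset Ω) < #(Ln G a b) := by rw [h3 a b hab, card_pair hab]; norm_num
  obtain ⟨c, hc, hc'⟩ := exists_mem_notMem_of_card_lt_card this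
  simp only [mem_insert, mem_singleton, not_or] at hc'
  exact ⟨c, hab, Ne.symm hc'.1, Ne.symm hc'.2, hc⟩

theorem odd_card (h2 : T2 G Ω) (h3 : F3 G Ω) (p : Ω) : Fintype.card Ω % 2 = 1 := by
  have h : ∀ q ∈ (univ : Finset Ω).erase p, ∃ c, Col G p q c := fun q hq => exists_col h3 (mem_erase.1 hq).1.symm
  choose τ hτ using h
  have := sum_involution (s := (univ : Finset Ω).erase p) (f := fun _ => (1 : ZMod 2)) τ (fun _ _ => rfl)
    (fun q hq _ => (hτ q hq).2.2.1.symm) (fun q hq => mem_erase.2 ⟨(hτ q hq).2.1.symm, mem_univ _⟩)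
    (fun q hq => (hτ _ _).uniq h3 ((hτ q hq).rot h2))
  rw [sum_const, nsmul_eq_mul, mul_one, ZMod.natCast_eq_zero_iff] at this
  have h4 := card_erase_add_one (mem_univ p)
  rw [card_univ] at h4
  omega

variable (Ω) in
/-- elements fixing a hyperplane -/
def Hyp (y : G) : Prop := fx Ω y * 2 + 1 = Fintype.card Ω

theorem Hyp.conj {y : G} (h : Hyp Ω y) (g : G) : Hyp Ω (g * y * g⁻¹) := by
  unfold Hyp; rw [fx_conj]; exact h

theorem Hyp.third (h2 : T2 G Ω) (h3 : F3 G Ω) {y : G} (h : Hyp Ω y) {a b c : Ω} (hc : Col G a b c)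
    (ha : y • a ≠ a) (hb : y • b ≠ b) : y • c = c := by
  obtain ⟨d, hd, hd'⟩ := third_fixed h2 hc.1 (by rw [h3 a b hc.1]; exact h) ha hc.1
  rw [hc.eq h3] at hd
  simp only [mem_insert, mem_singleton] at hd
  rcases hd with rfl | rfl | rfl
  exacts [absurd hd' ha, absurd hd' hb, hd']

theorem Hyp.par (h2 : T2 G Ω) (h3 : F3 G Ω) {y : G} (h : Hyp Ω y) {a b c : Ω} (hc : Col G a b c) :
    y • c = c ↔ (y • a = a ↔ y • b = b) := by
  have h4 := h.third h2 h3 hc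
  have h5 := hc.fix (g := y)
  have h6 := (hc.rot h2).fix (g := y)
  have h7 := (hc.swap.rot h2).fix (g := y)
  tauto

theorem Hyp.exists_moved {y : G} (h : Hyp Ω y) : ∃ p : Ω, y • p ≠ p := by
  by_contra! h1
  unfold Hyp fx at h
  rw [filter_true_of_mem fun w _ => h1 w, card_univ] at h
  omega

theorem Hyp.exists_fixed {y : G} (h : Hyp Ω y) (hn : 2 ≤ Fintype.card Ω) : ∃ p : Ω, y • p = p := by
  unfold Hyp fx at h
  obtain ⟨p, hp⟩ := card_pos.1 (show 0 < #{w : Ω | y • w = w} by omega)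
  exact ⟨p, by simpa using hp⟩

theorem Hyp.sep (h2 : T2 G Ω) {x : G} (h : Hyp Ω x) (hn : 2 ≤ Fintype.card Ω) {a b : Ω}
    (hs : ∀ y : G, Hyp Ω y → (y • a = a ↔ y • b = b)) : a = b := by
  by_contra hab
  obtain ⟨p, hp⟩ := h.exists_moved
  obtain ⟨u, hu⟩ := h.exists_fixed hn
  obtain ⟨g, rfl, rfl⟩ := h2 u p a b (by rintro rfl; exact hp hu) hab
  have := (hs _ (h.conj g)).1 (by simp [mul_smul, hu])
  simp [mul_smul, hp] at this

variable (Ω) in
/-- transvections with centre `c` -/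
def Tv (y : G) (c : Ω) : Prop := Hyp Ω y ∧ y • c = c ∧ ∀ q, y • q ≠ q → Col G q (y • q) c

theorem Hyp.center (h2 : T2 G Ω) (h3 : F3 G Ω) {y : G} (h : Hyp Ω y) (hn : 2 ≤ Fintype.card Ω) :
    ∃ c : Ω, Tv Ω y c := by
  obtain ⟨p, hp⟩ := h.exists_moved
  obtain ⟨c, hc⟩ := exists_col h3 hp.symm
  have hyc : y • c = c := h.third h2 h3 hc hp fun e => hp (smul_left_cancel y e)
  refine ⟨c, h, hyc, fun q hq => ?_⟩
  by_cases hpq : p = q
  · exact hpq ▸ hc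
  obtain ⟨a, ha⟩ := exists_col h3 hpq
  have hya : y • a = a := h.third h2 h3 ha hp hq
  have ha' : Col G (y • p) (y • q) a := hya ▸ ha.smul y
  obtain ⟨e, he⟩ := exists_col h3 (show q ≠ c by rintro rfl; exact hq hyc)
  have : y • q = e := h.sep h2 hn fun z hz => by
    have h4 := hz.par h2 h3 he
    have h5 := hz.par h2 h3 hc
    have h6 := hz.par h2 h3 ha
    have h7 := hz.par h2 h3 ha'
    tauto
  exact this ▸ he.rot h2

theorem Hyp.exists_tv (h2 : T2 G Ω) (h3 : F3 G Ω) {x : G} (h : Hyp Ω x) (hn : 2 ≤ Fintype.card Ω) {c u : Ω}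
    (hcu : c ≠ u) : ∃ y : G, Tv Ω y c ∧ y • u ≠ u := by
  obtain ⟨d, hd⟩ := h.center h2 h3 hn
  obtain ⟨p, hp⟩ := h.exists_moved
  obtain ⟨g, rfl, rfl⟩ := h2 d p c u (by rintro rfl; exact hp hd.2.1) hcu
  refine ⟨g * x * g⁻¹, ⟨h.conj g, by simp [mul_smul, hd.2.1], fun q hq => ?_⟩, by simp [mul_smul, hp]⟩
  have h4 : x • g⁻¹ • q ≠ g⁻¹ • q := fun e => hq (by simp [mul_smul, e])
  simpa [mul_smul] using (hd.2.2 _ h4).smul g

theorem Hyp.shift (h2 : T2 G Ω) (h3 : F3 G Ω) {x : G} (h : Hyp Ω x) (hn : 2 ≤ Fintype.card Ω) {a b w : Ω}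
    (hab : a ≠ b) (hw : w ∉ Ln G a b) : ∃ y ∈ St G a b, Col G w (y • w) a := by
  have hbw : b ≠ w := by rintro rfl; exact hw (right_mem_Ln _ _)
  have haw : a ≠ w := by rintro rfl; exact hw (left_mem_Ln _ _)
  obtain ⟨u, hu⟩ := exists_col h3 hbw
  have hau : a ≠ u := by rintro rfl; exact hw (hu.rot h2).swap.2.2.2
  obtain ⟨y₁, t₁, m₁⟩ := h.exists_tv h2 h3 hn hau
  obtain ⟨y₂, t₂, m₂⟩ := h.exists_tv h2 h3 hn haw
  by_cases b₂ : y₂ • b = b
  · exact ⟨y₂, mem_St.2 ⟨t₂.2.1, b₂⟩, t₂.2.2 w m₂⟩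
  by_cases b₁ : y₁ • b = b
  · exact ⟨y₁, mem_St.2 ⟨t₁.2.1, b₁⟩, t₁.2.2 w fun e => m₁ (hu.fix b₁ e)⟩
  have w₁ : y₁ • w = w := t₁.1.third h2 h3 (hu.rot h2) b₁ m₁
  have e1 : y₂ • b = y₁ • b := ((t₂.2.2 b b₂).rot h2).uniq h3 ((t₁.2.2 b b₁).rot h2)
  have e2 : y₁ • y₁ • b = b :=
    ((t₁.2.2 _ fun e => b₁ (smul_left_cancel y₁ e)).rot h2).uniq h3 ((t₁.2.2 b b₁).swap.rot h2)
  have e3 : y₁ • y₂ • w = y₂ • w := ((t₂.2.2 w m₂).rot h2).fix w₁ t₁.2.1
  refine ⟨y₁ * y₂, mem_St.2 ⟨by rw [mul_smul, t₂.2.1, t₁.2.1], by rw [mul_smul, e1, e2]⟩, ?_⟩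
  rw [mul_smul, e3]
  exact t₂.2.2 w m₂

theorem Hyp.four (h2 : T2 G Ω) (h3 : F3 G Ω) {x : G} (h : Hyp Ω x) (hn : 2 ≤ Fintype.card Ω) {a b w : Ω}
    (hab : a ≠ b) (hw : w ∉ Ln G a b) : 4 * #{x ∈ St G a b | x • w = w} ≤ #(St G a b) := by
  obtain ⟨c, hc⟩ := exists_col h3 hab
  obtain ⟨y₁, s₁, c₁⟩ := h.shift h2 h3 hn hab hw
  obtain ⟨y₂, s₂, c₂⟩ := h.shift h2 h3 hn hab.symm (Ln_comm (G := G) a b ▸ hw)
  obtain ⟨y₃, s₃, c₃⟩ := h.shift h2 h3 hn hc.2.1.symm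
    (show w ∉ Ln G c a by rw [Ln_eq h2 hab hc.2.1.symm hc.2.2.2 (left_mem_Ln _ _)]; exact hw)
  have := orb (G := G) a b w {w, y₁ • w, y₂ • w, y₃ • w} (by
    simp only [mem_insert, mem_singleton]
    rintro u (rfl | rfl | rfl | rfl)
    · exact ⟨1, one_mem_St _ _, by simp⟩
    · exact ⟨y₁, s₁, rfl⟩
    · exact ⟨y₂, mem_St.2 (mem_St.1 s₂).symm, rfl⟩
    · exact ⟨y₃, mem_St.2 ⟨(mem_St.1 s₃).2, (hc.rot h2).fix (mem_St.1 s₃).2 (mem_St.1 s₃).1⟩, rfl⟩)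
  have n12 : y₁ • w ≠ y₂ • w := fun e => hab (c₁.uniq h3 (e ▸ c₂))
  have n13 : y₁ • w ≠ y₃ • w := fun e => hc.2.1 (c₁.uniq h3 (e ▸ c₃))
  have n23 : y₂ • w ≠ y₃ • w := fun e => hc.2.2.1 (c₂.uniq h3 (e ▸ c₃))
  rwa [card_insert_of_notMem (by simp [c₁.1, c₂.1, c₃.1]), card_insert_of_notMem (by simp [n12, n13]),
    card_pair n23] at this

end Cfsg.Agent.H28.Der
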