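import Cfsg.Agent.H28.Derang2

/-! Doubly transitive groups whose two-point stabilizers fix only two points; the final criterion. -/

set_option autoImplicit false
set_option linter.unusedSectionVars false

namespace Cfsg.Agent.H28.Der

open Finset MulAction
open scoped Classical

variable {G Ω : Type*} [Group G] [Fintype G] [MulAction G Ω] [Fintype Ω]

theorem tri_card {x : G} {w : Ω} (h : x • x • w ≠ w) : #({w, x • w, x • x • w} : Finset Ω) = 3 := by
  have h1 : x • w ≠ w := fun e => h (by rw [e, e])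
  exact card_eq_three.2 ⟨_, _, _, h1.symm, h.symm, fun e => h1 (smul_left_cancel x e).symm, rfl⟩

theorem tri_orb {a b : Ω} {x : G} (hx : x ∈ St G a b) (w : Ω) :
    ∀ u ∈ ({w, x • w, x • x • w} : Finset Ω), ∃ y ∈ St G a b, y • w = u := by
  simp only [mem_insert, mem_singleton]
  rintro u (rfl | rfl | rfl)
  exacts [⟨1, one_mem_St _ _, by simp⟩, ⟨x, hx, rfl⟩, ⟨x * x, mul_mem_St hx hx, mul_smul _ _ _⟩]

theorem big {a b : Ω} (hf : #(Ln G a b) = 2)
    (hT : Fintype.card Ω * #(St G a b) < 2 * ∑ x ∈ St G a b, fx Ω x) {x x' : G} (hx : x ∈ St G a b)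
    (hx' : x' ∈ St G a b) {w w' : Ω} (hw : x • x • w ≠ w) (hw' : x' • x' • w' ≠ w') :
    w' ∈ ({w, x • w, x • x • w} : Finset Ω) := by
  by_contra hn
  by_cases hd : Disjoint ({w, x • w, x • x • w} : Finset Ω) {w', x' • w', x' • x' • w'}
  · have := total_A (G := G) a b 1 ({w, x • w, x • x • w} ∪ {w', x' • w', x' • x' • w'}) (fun u hu => by
      rcases mem_union.1 hu with h | h
      · have := orbA a b w _ (tri_orb hx w) h
        rwa [tri_card hw] at this
      · have := orbA a b w' _ (tri_orb hx' w') h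
        rwa [tri_card hw'] at this)
    rw [card_union_of_disjoint hd, tri_card hw, tri_card hw', hf] at this
    nlinarith
  · obtain ⟨u, hu, hu'⟩ := not_disjoint_iff.1 hd
    obtain ⟨y, hy, rfl⟩ := tri_orb hx w u hu
    obtain ⟨y', hy', e⟩ := tri_orb hx' w' _ hu'
    have hc : #(insert w' ({w, x • w, x • x • w} : Finset Ω)) = 4 := by rw [card_insert_of_notMem hn, tri_card hw]
    have := total_A (G := G) a b 2 (insert w' {w, x • w, x • x • w}) (fun u hu => by
      have := orbA (G := G) a b w (insert w' {w, x • w, x • x • w}) (fun v hv => by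
        rcases mem_insert.1 hv with rfl | h
        · exact ⟨y'⁻¹ * y, mul_mem_St (inv_mem_St hy') hy, by rw [mul_smul, ← e, inv_smul_smul]⟩
        · exact tri_orb hx w v h) hu
      rwa [hc] at this)
    rw [hc, hf] at this
    nlinarith

/-- three-cycles -/
def C3 (y : G) (p q r : Ω) : Prop :=
  p ≠ q ∧ q ≠ r ∧ p ≠ r ∧ y • p = q ∧ y • q = r ∧ y • r = p ∧ ∀ u, u ≠ p → u ≠ q → u ≠ r → y • u = u

theorem C3.conj {y : G} {p q r : Ω} (h : C3 y p q r) (g : G) : C3 (g * y * g⁻¹) (g • p) (g • q) (g • r) := by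
  obtain ⟨h1, h2, h3, h4, h5, h6, h7⟩ := h
  refine ⟨by simpa using h1, by simpa using h2, by simpa using h3, by simp [mul_smul, h4], by simp [mul_smul, h5],
    by simp [mul_smul, h6], fun u a b c => ?_⟩
  rw [mul_smul, mul_smul, h7 _ (fun e => a (inv_smul_eq_iff.1 e)) (fun e => b (inv_smul_eq_iff.1 e))
    (fun e => c (inv_smul_eq_iff.1 e)), smul_inv_smul]

theorem C3.pair {σ ρ : G} {p q q' r : Ω} (h : C3 σ p q r) (h' : C3 ρ p q' r) (hq : q ≠ q') :
    (ρ⁻¹ * σ) • (ρ⁻¹ * σ) • p ≠ p ∧ ∀ u, u ≠ p → u ≠ q → u ≠ q' → (ρ⁻¹ * σ) • u = u := by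
  obtain ⟨h1, h2, h3, h4, h5, h6, h7⟩ := h
  obtain ⟨k1, k2, k3, k4, k5, k6, k7⟩ := h'
  have e1 : (ρ⁻¹ * σ) • p = q := by rw [mul_smul, h4, inv_smul_eq_iff, k7 q h1.symm hq h2]
  have e2 : (ρ⁻¹ * σ) • q = q' := by rw [mul_smul, h5, inv_smul_eq_iff, k5]
  refine ⟨by rw [e1, e2]; exact k1.symm, fun u a b c => ?_⟩
  rw [mul_smul, inv_smul_eq_iff]
  by_cases hr : u = r
  · rw [hr, h6, k6]
  · rw [h7 u a b hr, k7 u a c hr]

theorem sq_triv [FaithfulSMul G Ω] (h2 : T2 G Ω) (hn : 7 ≤ Fintype.card Ω) {a b : Ω} (hf : #(Ln G a b) = 2)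
    (hT : Fintype.card Ω * #(St G a b) < 2 * ∑ x ∈ St G a b, fx Ω x) {x : G} (hx : x ∈ St G a b) : x * x = 1 := by
  by_contra hne
  obtain ⟨w, hw⟩ : ∃ w : Ω, x • x • w ≠ w := by
    by_contra! h
    exact hne (eq_of_smul_eq_smul (α := Ω) fun w => by rw [mul_smul, h, one_smul])
  have hw1 : x • w ≠ w := fun e => hw (by rw [e, e])
  have h3 : x • x • x • w = w := by
    have := big hf hT hx hx hw (w' := x • x • x • w) (by simpa using hw)
    simp only [mem_insert, mem_singleton] at this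
    rcases this with h | h | h
    · exact h
    · exact absurd (smul_left_cancel x h) hw
    · exact absurd (smul_left_cancel x (smul_left_cancel x h)) hw1
  have hc : C3 (x * x) w (x • x • w) (x • w) := by
    refine ⟨hw.symm, fun e => hw1 (smul_left_cancel x e), hw1.symm, mul_smul _ _ _, by rw [mul_smul, h3],
      by rw [mul_smul, h3], fun u a b c => ?_⟩
    by_contra hu
    have := big hf hT hx hx hw (w' := u) (by rwa [mul_smul] at hu)
    simp only [mem_insert, mem_singleton] at this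
    tauto
  obtain ⟨p, -, hp⟩ := exists_mem_notMem_of_card_lt_card
    (show #(insert a (insert b ({w, x • w, x • x • w} : Finset Ω))) < #(univ : Finset Ω) by
      have := card_insert_le a (insert b ({w, x • w, x • x • w} : Finset Ω))
      have := card_insert_le b ({w, x • w, x • x • w} : Finset Ω)
      rw [tri_card hw] at this
      rw [card_univ]; omega)
  rw [mem_insert, mem_insert, not_or, not_or] at hp
  have key : ∀ z ∈ St G a b, z • z • p = p := fun z hz => by
    by_contra h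
    exact hp.2.2 (big hf hT hx hz hw h)
  have hq : ∀ q, q ≠ a → q ≠ b → q ≠ p → ∃ σ : G, C3 σ p q a ∨ C3 σ p q b := fun q qa qb qp => by
    obtain ⟨g, g1, g2⟩ := h2 w (x • x • w) p q hw.symm qp.symm
    have := hc.conj g
    rw [g1, g2] at this
    refine ⟨g * (x * x) * g⁻¹, ?_⟩
    by_contra! hh
    have ra : a ≠ g • x • w := fun e => hh.1 (e ▸ this)
    have rb : b ≠ g • x • w := fun e => hh.2 (e ▸ this)
    obtain ⟨-, -, k3, k4, k5, -, k7⟩ := this
    have := key _ (mem_St.2 ⟨k7 a (Ne.symm hp.1) qa.symm ra, k7 b (Ne.symm hp.2.1) qb.symm rb⟩)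
    rw [k4, k5] at this
    exact k3 this.symm
  have hpair : ∀ (q q' r : Ω) (σ ρ : G), q ≠ a → q ≠ b → q' ≠ a → q' ≠ b → q ≠ q' → C3 σ p q r → C3 ρ p q' r →
      False := fun q q' r σ ρ qa qb qa' qb' qq s1 s2 => by
    obtain ⟨k1, k2⟩ := s1.pair s2 qq
    exact k1 (key _ (mem_St.2 ⟨k2 a (Ne.symm hp.1) qa.symm qa'.symm, k2 b (Ne.symm hp.2.1) qb.symm qb'.symm⟩))
  obtain ⟨q₁, q₂, q₃, m₁, m₂, m₃, n12, n13, n23⟩ := two_lt_card_iff.1
    (show 2 < #((univ : Finset Ω) \ {a, b, p}) by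
      have := card_le_three (a := a) (b := b) (c := p)
      rw [card_sdiff_of_subset (subset_univ _), card_univ]; omega)
  simp only [mem_sdiff, mem_univ, true_and, mem_insert, mem_singleton, not_or] at m₁ m₂ m₃
  obtain ⟨σ₁, s₁⟩ := hq q₁ m₁.1 m₁.2.1 m₁.2.2
  obtain ⟨σ₂, s₂⟩ := hq q₂ m₂.1 m₂.2.1 m₂.2.2
  obtain ⟨σ₃, s₃⟩ := hq q₃ m₃.1 m₃.2.1 m₃.2.2
  have p12 := fun r => hpair q₁ q₂ r σ₁ σ₂ m₁.1 m₁.2.1 m₂.1 m₂.2.1 n12
  have p13 := fun r => hpair q₁ q₃ r σ₁ σ₃ m₁.1 m₁.2.1 m₃.1 m₃.2.1 n13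
  have p23 := fun r => hpair q₂ q₃ r σ₂ σ₃ m₂.1 m₂.2.1 m₃.1 m₃.2.1 n23
  rcases s₁ with s₁ | s₁ <;> rcases s₂ with s₂ | s₂ <;> rcases s₃ with s₃ | s₃ <;>
    first | exact p12 _ s₁ s₂ | exact p13 _ s₁ s₃ | exact p23 _ s₂ s₃

theorem card_St' (a b : Ω) : Nat.card (stabilizer G a ⊓ stabilizer G b : Subgroup G) = #(St G a b) :=
  card_sub _ _ fun x => by simp [mem_St]

theorem elem_bound [FaithfulSMul G Ω] (h2 : T2 G Ω) {a b : Ω} (hab : a ≠ b) (hf : #(Ln G a b) = 2)
    (hsq : ∀ x ∈ St G a b, x * x = 1) {x : G} (hx : x ∈ St G a b) (hx1 : x ≠ 1) :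
    3 * fx Ω x ≤ Fintype.card Ω + 2 := by
  have : Fact (Nat.Prime 2) := ⟨Nat.prime_two⟩
  have hL : Ln G a b = {a, b} := by
    symm
    refine eq_of_subset_of_card_le ?_ (by rw [hf, card_pair hab])
    intro u hu
    simp only [mem_insert, mem_singleton] at hu
    rcases hu with rfl | rfl
    exacts [left_mem_Ln _ _, right_mem_Ln _ _]
  set H : Subgroup G := stabilizer G a ⊓ stabilizer G b with hH
  have hmem : ∀ y, y ∈ H ↔ y ∈ St G a b := fun y => by simp [hH, mem_St]
  have hP : IsPGroup 2 H := fun y => ⟨1, Subtype.ext (by simpa [pow_two] using hsq y ((hmem y).1 y.2))⟩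
  have hfix : ∀ u : Ω, (∀ y : H, y • u = u) → u = a ∨ u = b := fun u hu => by
    have : u ∈ Ln G a b := mem_Ln.2 fun g g1 g2 => hu ⟨g, (hmem g).2 (mem_St.2 ⟨g1, g2⟩)⟩
    simpa [hL] using this
  have hev : Fintype.card Ω % 2 = 0 := by
    have := hP.card_modEq_card_fixedPoints Ω
    have e : fixedPoints H Ω = {a, b} := by
      ext u
      refine ⟨fun hu => hfix u hu, ?_⟩
      rintro (rfl | rfl) y
      exacts [y.2.1, y.2.2]
    rw [e, Nat.card_coe_set_eq, Set.ncard_pair hab, Nat.card_eq_fintype_card] at this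
    exact this
  have hsq' : ∀ c, c ≠ a → ∀ y ∈ St G a c, y * y = 1 := fun c hc y hy => by
    obtain ⟨g, g1, g2⟩ := h2 a b a c hab hc.symm
    have := hsq (g⁻¹ * y * g) (mem_St.2 ⟨by simp [mul_smul, g1, (mem_St.1 hy).1, inv_smul_eq_iff],
      by simp [mul_smul, g2, (mem_St.1 hy).2, inv_smul_eq_iff]⟩)
    have e : y * y = g * (g⁻¹ * y * g * (g⁻¹ * y * g)) * g⁻¹ := by group
    rw [e, this]; simp
  set C : Subgroup G := stabilizer G a ⊓ Subgroup.centralizer {x} with hC
  have hCm : ∀ y, y ∈ C ↔ y • a = a ∧ x * y = y * x := fun y => by simp [hC, Subgroup.mem_centralizer_iff]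
  have hcomm : ∀ c, c ≠ a → x • c = c → ∀ y ∈ St G a c, y ∈ C := fun c hc hxc y hy => by
    have hx' : x ∈ St G a c := mem_St.2 ⟨(mem_St.1 hx).1, hxc⟩
    refine (hCm y).2 ⟨(mem_St.1 hy).1, ?_⟩
    have e1 := hsq' c hc x hx'
    have e2 := hsq' c hc y hy
    have e3 := hsq' c hc _ (mul_mem_St hx' hy)
    calc x * y = (x * y)⁻¹ := eq_inv_of_mul_eq_one_left e3
      _ = y⁻¹ * x⁻¹ := mul_inv_rev _ _
      _ = y * x := by rw [← eq_inv_of_mul_eq_one_left e1, ← eq_inv_of_mul_eq_one_left e2]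
  have horb : ∀ c, c ≠ a → x • c = c → {u | ∃ y ∈ C, y • c = u}.ncard * #(St G a b) = Nat.card C :=
    fun c hc hxc => by
      rw [← orbit_card C c, ← card_St h2 hab hc.symm]
      congr 1
      refine (card_sub _ _ fun y => ?_).symm
      rw [Subgroup.mem_inf]
      exact ⟨fun hy => ⟨hcomm c hc hxc y hy, (mem_St.1 hy).2⟩, fun hy => mem_St.2 ⟨((hCm y).1 hy.1).1, hy.2⟩⟩
  have hGa : (Fintype.card Ω - 1) * #(St G a b) = Nat.card (stabilizer G a) := by
    rw [← orbit_card (stabilizer G a) b, card_St']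
    congr 1
    have : {u | ∃ c ∈ stabilizer G a, c • b = u} = ((univ : Finset Ω).erase a : Set Ω) := by
      ext u
      simp only [Set.mem_ofPred_eq, coe_erase, coe_univ, Set.mem_sdiff, Set.mem_univ, Set.mem_singleton_iff, true_and]
      constructor
      · rintro ⟨c, hc, rfl⟩ e
        exact hab (smul_left_cancel c (hc.trans e.symm))
      · intro hu
        obtain ⟨g, g1, g2⟩ := h2 a b a u hab (Ne.symm hu)
        exact ⟨g, g1, g2⟩
    rw [this, Set.ncard_coe_finset, card_erase_of_mem (mem_univ _), card_univ]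
  have hdvd : ∀ c, c ≠ a → x • c = c → {u | ∃ y ∈ C, y • c = u}.ncard ∣ Fintype.card Ω - 1 := fun c hc hxc => by
    refine Nat.dvd_of_mul_dvd_mul_right (St_pos (G := G) a b) ?_
    rw [horb c hc hxc, hGa]
    exact Subgroup.card_dvd_of_le inf_le_left
  have hn : 2 ≤ Fintype.card Ω := Fintype.one_lt_card_iff_nontrivial.2 ⟨a, b, hab⟩
  have htr : ∀ c, c ≠ a → x • c = c → ∃ y ∈ C, y • b = c := fun c hc hxc => by
    let O : SubMulAction H Ω :=
      { carrier := {u | ∃ y ∈ C, y • c = u}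
        smul_mem' := by
          rintro y u ⟨z, hz, rfl⟩
          exact ⟨y * z, C.mul_mem (hcomm b hab.symm (mem_St.1 hx).2 y ((hmem y).1 y.2)) hz, mul_smul _ _ _⟩ }
    obtain ⟨⟨u, z, hz, rfl⟩, hu⟩ := hP.nonempty_fixed_point_of_prime_not_dvd_card O (fun h => by
      have h' : 2 ∣ {u | ∃ y ∈ C, y • c = u}.ncard := h
      have := h'.trans (hdvd c hc hxc)
      omega)
    rcases hfix (z • c) (fun y => congrArg Subtype.val (hu y)) with h | h
    · exact absurd (smul_left_cancel z (h.trans ((hCm z).1 hz).1.symm)) hc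
    · exact ⟨z⁻¹, C.inv_mem hz, by rw [← h, inv_smul_smul]⟩
  have hset : {u | ∃ y ∈ C, y • b = u} = ((({w : Ω | x • w = w} : Finset Ω).erase a : Finset Ω) : Set Ω) := by
    ext u
    simp only [Set.mem_ofPred_eq, mem_coe, mem_erase, mem_filter, mem_univ, true_and]
    constructor
    · rintro ⟨y, hy, rfl⟩
      obtain ⟨y1, y2⟩ := (hCm y).1 hy
      exact ⟨fun e => hab (smul_left_cancel y (y1.trans e.symm)), by rw [← mul_smul, y2, mul_smul, (mem_St.1 hx).2]⟩
    · exact fun h => htr u h.1 h.2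
  obtain ⟨e, he⟩ := hdvd b hab.symm (mem_St.1 hx).2
  rw [hset, Set.ncard_coe_finset, card_erase_of_mem (by simpa using (mem_St.1 hx).1)] at he
  change _ = (fx Ω x - 1) * e at he
  have hlt : fx Ω x < Fintype.card Ω := by
    refine card_lt_card (filter_ssubset.2 ?_)
    by_contra! h
    exact hx1 (eq_of_smul_eq_smul (α := Ω) fun w => by simpa using h w (mem_univ _))
  have hpos : 0 < fx Ω x := card_pos.2 ⟨a, by simpa using (mem_St.1 hx).1⟩
  obtain ⟨s, hs⟩ : ∃ s, fx Ω x = s + 1 := ⟨fx Ω x - 1, by omega⟩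
  rw [hs, Nat.add_sub_cancel] at he
  rcases e with _ | _ | _ | e
  · omega
  · omega
  · omega
  · have : s * (e + 1 + 1 + 1) = s * e + 3 * s := by ring
    omega

/-- The criterion on the fixed point numbers in a two-point stabilizer. -/
theorem crit [FaithfulSMul G Ω] (h2 : T2 G Ω) (hn : 7 ≤ Fintype.card Ω) {a b : Ω} (hab : a ≠ b)
    (hk : 0 < #((St G a b).erase 1)) :
    (2 * #((St G a b).erase 1) + 1) * ∑ x ∈ (St G a b).erase 1, fx Ω x ≤
      #((St G a b).erase 1) ^ 2 * Fintype.card Ω := by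
  have hh : #(St G a b) = #((St G a b).erase 1) + 1 := (card_erase_add_one (one_mem_St a b)).symm
  have hT : ∑ x ∈ St G a b, fx Ω x = Fintype.card Ω + ∑ x ∈ (St G a b).erase 1, fx Ω x := by
    rw [← add_sum_erase _ _ (one_mem_St a b)]; simp [fx]
  have hM : ∀ m M : ℕ, (∀ x ∈ St G a b, x ≠ 1 → m * fx Ω x ≤ M) →
      m * ∑ x ∈ (St G a b).erase 1, fx Ω x ≤ #((St G a b).erase 1) * M := fun m M h => by
    rw [mul_sum, ← smul_eq_mul]
    exact sum_le_card_nsmul _ _ _ fun x hx => h x (mem_erase.1 hx).2 (mem_erase.1 hx).1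
  have hmv : ∀ x : G, x ≠ 1 → ∃ p : Ω, x • p ≠ p := fun x hx => by
    by_contra! h
    exact hx (eq_of_smul_eq_smul (α := Ω) fun w => by simpa using h w)
  have hB : ∀ x : G, x ≠ 1 → fx Ω x * (#(Ln G a b) - 1) + 1 ≤ Fintype.card Ω := fun x hx => by
    obtain ⟨p, hp⟩ := hmv x hx
    exact fx_bound h2 hab hp
  have hf2 : 2 ≤ #(Ln G a b) := by
    rw [← card_pair hab]
    exact card_le_card (by simp [insert_subset_iff, left_mem_Ln, right_mem_Ln])
  have hA := total_A (G := G) a b 0 ∅ (by simp)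
  by_cases hc : 2 * ∑ x ∈ St G a b, fx Ω x ≤ Fintype.card Ω * #(St G a b)
  · rw [hh, hT] at hc
    generalize #((St G a b).erase 1) = k at *
    generalize ∑ x ∈ (St G a b).erase 1, fx Ω x = t at *
    generalize Fintype.card Ω = n at *
    nlinarith [Nat.mul_le_mul_left (2 * k + 1) hc]
  rw [not_le] at hc
  rcases (show #(Ln G a b) = 2 ∨ #(Ln G a b) = 3 ∨ 4 ≤ #(Ln G a b) by omega) with hf | hf | hf
  · have hsq := fun x hx => sq_triv h2 hn hf hc (x := x) hx
    rcases (show #((St G a b).erase 1) = 1 ∨ #((St G a b).erase 1) = 2 ∨ 3 ≤ #((St G a b).erase 1) by omega)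
      with h1 | h1 | h1
    · obtain ⟨x, hx⟩ := card_eq_one.1 h1
      have e : fx Ω x = 2 := by
        rw [← hf]
        unfold fx
        congr 1
        ext u
        simp only [mem_filter, mem_univ, true_and, mem_Ln]
        have hx' : x ∈ (St G a b).erase 1 := by simp [hx]
        refine ⟨fun hu g g1 g2 => ?_, fun h => h x (mem_St.1 (mem_erase.1 hx').2).1 (mem_St.1 (mem_erase.1 hx').2).2⟩
        by_cases hg : g = 1
        · simp [hg]
        · have : g ∈ (St G a b).erase 1 := mem_erase.2 ⟨hg, mem_St.2 ⟨g1, g2⟩⟩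
          rw [hx, mem_singleton] at this
          rwa [this]
      rw [h1, hx, sum_singleton, e]
      omega
    · exfalso
      obtain ⟨x, y, hxy, e⟩ := card_eq_two.1 h1
      have hx : x ∈ (St G a b).erase 1 := by simp [e]
      have hy : y ∈ (St G a b).erase 1 := by simp [e]
      rw [mem_erase] at hx hy
      have : x * y ∈ (St G a b).erase 1 := mem_erase.2 ⟨fun h => hxy (by
        rw [← hsq x hx.2] at h; exact (mul_left_cancel h).symm), mul_mem_St hx.2 hy.2⟩
      rw [e, mem_insert, mem_singleton] at this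
      rcases this with h | h
      · exact hy.1 (by simpa using h)
      · exact hx.1 (by simpa using h)
    · have := hM 3 _ fun x hx hx1 => elem_bound h2 hab hf hsq hx hx1
      generalize #((St G a b).erase 1) = k at *
      generalize ∑ x ∈ (St G a b).erase 1, fx Ω x = t at *
      generalize Fintype.card Ω = n at *
      obtain ⟨k, rfl⟩ := Nat.exists_eq_add_of_le h1
      obtain ⟨n, rfl⟩ := Nat.exists_eq_add_of_le hn
      nlinarith [Nat.mul_le_mul_left (2 * (3 + k) + 1) this, Nat.zero_le (k * n), Nat.zero_le (k * k * n)]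
  · have h3 : F3 G Ω := fun c d hcd => (card_Ln h2 hab hcd).trans hf
    have hodd := odd_card h2 h3 a
    rw [hf] at hB hA
    have b2 := hM 2 (Fintype.card Ω - 1) fun x _ hx1 => by have := hB x hx1; omega
    by_cases hH : ∃ x : G, Hyp Ω x
    · obtain ⟨x, hx⟩ := hH
      have h4 := total_A (G := G) a b 2 (univ \ Ln G a b) fun w hw => hx.four h2 h3 (by omega) hab (mem_sdiff.1 hw).2
      rw [card_sdiff_of_subset (subset_univ _), card_univ, hf] at h4
      obtain ⟨w, -, hw⟩ := exists_mem_notMem_of_card_lt_card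
        (show #(Ln G a b) < #(univ : Finset Ω) by rw [card_univ]; omega)
      have h5 := hx.four h2 h3 (by omega) hab hw
      have h6 : 0 < #{x ∈ St G a b | x • w = w} := card_pos.2 ⟨1, by simp [one_mem_St]⟩
      have h7 : 3 ≤ #((St G a b).erase 1) := by omega
      rcases (show Fintype.card Ω = 7 ∨ 9 ≤ Fintype.card Ω by omega) with h | h
      · rw [h] at b2 ⊢
        nlinarith
      · exfalso
        obtain ⟨n, hn⟩ := Nat.exists_eq_add_of_le h
        rw [hn] at h4 hc
        rw [show 9 + n - 3 = 6 + n by omega] at h4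
        nlinarith [Nat.zero_le (n * #(St G a b))]
    · have b3 := hM 2 (Fintype.card Ω - 3) fun x _ hx1 => by
        have := hB x hx1
        have : ¬ Hyp Ω x := fun h => hH ⟨x, h⟩
        unfold Hyp at this
        omega
      rw [hh, hT] at hA
      generalize #((St G a b).erase 1) = k at *
      generalize ∑ x ∈ (St G a b).erase 1, fx Ω x = t at *
      generalize Fintype.card Ω = n at *
      obtain ⟨n, rfl⟩ := Nat.exists_eq_add_of_le hn
      rw [show 7 + n - 3 = 4 + n by omega] at b3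
      by_cases h : 3 * (2 * k + 1) ≤ 7 + n
      · nlinarith [Nat.mul_le_mul_left (2 * k + 1) hA, Nat.mul_le_mul_left (k + 1) h]
      · rw [not_le] at h
        nlinarith [Nat.mul_le_mul_left (2 * k + 1) b3, Nat.mul_le_mul_left k h.le]
  · have b3 := hM 3 (Fintype.card Ω - 1) fun x _ hx1 => by
      have := hB x hx1
      have := Nat.mul_le_mul_left (fx Ω x) (show 3 ≤ #(Ln G a b) - 1 by omega)
      omega
    generalize #((St G a b).erase 1) = k at *
    generalize ∑ x ∈ (St G a b).erase 1, fx Ω x = t at *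
    generalize Fintype.card Ω = n at *
    obtain ⟨n, rfl⟩ := Nat.exists_eq_add_of_le hn
    obtain ⟨k, rfl⟩ := Nat.exists_eq_add_of_le' hk
    rw [show 7 + n - 1 = 6 + n by omega] at b3
    nlinarith [Nat.mul_le_mul_left (2 * (k + 1) + 1) b3, Nat.zero_le (k * n), Nat.zero_le (k * k * n)]

theorem sum_inv_ge [FaithfulSMul G Ω] (h2 : T2 G Ω) (hn : 7 ≤ Fintype.card Ω) {a b : Ω} (hab : a ≠ b)
    (hk : 0 < #((St G a b).erase 1)) :
    (#(St G a b) : ℚ) ≤ ∑ x ∈ St G a b, ((Fintype.card Ω : ℚ) / fx Ω x - 1) := by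
  have h := crit h2 hn hab hk
  have hh : #(St G a b) = #((St G a b).erase 1) + 1 := (card_erase_add_one (one_mem_St a b)).symm
  have hpos : ∀ x ∈ (St G a b).erase 1, (0 : ℚ) < fx Ω x := fun x hx => by
    exact_mod_cast card_pos.2 ⟨a, by simpa using (mem_St.1 (mem_erase.1 hx).2).1⟩
  have ht := sq_sum_div_le_sum_sq_div ((St G a b).erase 1) (fun _ => (1 : ℚ)) hpos
  have hn0 : (0 : ℚ) < Fintype.card Ω := by exact_mod_cast (show 0 < Fintype.card Ω by omega)
  rw [← add_sum_erase _ _ (one_mem_St a b), hh, show fx Ω (1 : G) = Fintype.card Ω by simp [fx], div_self hn0.ne',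
    sum_sub_distrib]
  have e : ∑ x ∈ (St G a b).erase 1, (Fintype.card Ω : ℚ) / fx Ω x =
      Fintype.card Ω * ∑ x ∈ (St G a b).erase 1, (1 : ℚ) ^ 2 / fx Ω x := by
    rw [mul_sum]; exact sum_congr rfl fun x _ => by ring
  have hs : (0 : ℚ) < ∑ x ∈ (St G a b).erase 1, (fx Ω x : ℚ) := sum_pos hpos (card_pos.1 hk)
  rw [e]
  simp only [sum_const, nsmul_eq_mul, mul_one] at ht ⊢
  rw [div_le_iff₀ hs] at ht
  have h' : (2 * (#((St G a b).erase 1) : ℚ) + 1) * ∑ x ∈ (St G a b).erase 1, (fx Ω x : ℚ) ≤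
      (#((St G a b).erase 1) : ℚ) ^ 2 * Fintype.card Ω := by exact_mod_cast h
  have := mul_le_mul_of_nonneg_right ht hn0.le
  push_cast
  by_contra hcon
  rw [not_le] at hcon
  nlinarith

end Cfsg.Agent.H28.Der
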