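import Cfsg.Agent.H28.Elu19

/-! Eigenspace bounds for elements normalising groups that are abelian modulo scalars. -/

set_option autoImplicit false

namespace Cfsg.Agent.H28

open Module Polynomial

section LA

variable {F V : Type*} [Field F] [AddCommGroup V] [Module F V] [FiniteDimensional F V]

theorem finrank_le_map_add (f : End F V) (K : Submodule F V) :
    finrank F K ≤ finrank F (K.map f) + finrank F ↥(K ⊓ LinearMap.ker f) := by
  have h := (f.domRestrict K).finrank_range_add_finrank_ker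
  rw [LinearMap.range_domRestrict, LinearMap.ker_domRestrict, ← finrank_map_of_inj K.injective_subtype,
    Submodule.map_comap_subtype] at h
  exact h.ge

theorem finrank_le_sum_eig {u : End F V} {p : Submodule F V} (hp : ∀ v ∈ p, u v ∈ p) (s : Finset F) :
    finrank F ↥(p ⊓ LinearMap.ker (aeval u (∏ ε ∈ s, (X - C ε)))) ≤ ∑ ε ∈ s, finrank F ↥(p ⊓ u.eigenspace ε) := by
  classical
  induction s using Finset.induction_on with
  | empty => rw [Finset.prod_empty, map_one, End.one_eq_id, LinearMap.ker_id, inf_bot_eq, finrank_bot]; exact zero_le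
  | insert a s ha ih =>
    rw [Finset.sum_insert ha, Finset.prod_insert ha, add_comm]
    refine (finrank_le_map_add (u - a • 1) _).trans (add_le_add (le_trans (Submodule.finrank_mono ?_) ih)
      (Submodule.finrank_mono ?_))
    · rintro _ ⟨v, ⟨h1, h2⟩, rfl⟩
      refine ⟨p.sub_mem (hp v h1) (p.smul_mem _ h1), ?_⟩
      rw [mul_comm, map_mul] at h2
      simpa [Algebra.algebraMap_eq_smul_one] using h2
    · rintro v ⟨⟨h1, -⟩, h2⟩
      exact ⟨h1, End.mem_eigenspace_iff.2 (by simpa [sub_eq_zero] using h2)⟩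

theorem sum_eig_le (g : End F V) (W : Submodule F V) (t : Finset F) :
    ∑ l ∈ t, finrank F ↥(W ⊓ g.eigenspace l) ≤ finrank F W := by
  rw [← finrank_finsetSup (g.eigenspaces_iSupIndep.mono fun _ => inf_le_right)]
  exact Submodule.finrank_mono (Finset.sup_le fun _ _ => inf_le_left)

theorem pow_twist {u y : End F V} {ζ : F} (h : u * y = ζ • (y * u)) (i : ℕ) : u * y ^ i = ζ ^ i • (y ^ i * u) := by
  induction i with
  | zero => simp
  | succ i ih => rw [pow_succ, ← mul_assoc, ih, smul_mul_assoc, mul_assoc, h, mul_smul_comm, smul_smul, ← pow_succ, mul_assoc]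

theorem mul_eig_le {u y : End F V} (hy : Function.Injective y) {ζ : F} {r : ℕ} (hζ : IsPrimitiveRoot ζ r)
    (h : u * y = ζ • (y * u)) : r * finrank F (u.eigenspace 1) ≤ finrank F V := by
  classical
  have h1 := sum_eig_le u ⊤ ((Finset.range r).image (ζ ^ ·))
  rw [finrank_top, Finset.sum_image fun i hi j hj => hζ.pow_inj (by simpa using hi) (by simpa using hj)] at h1
  refine le_trans ?_ h1
  conv_lhs => rw [← Finset.card_range r, ← smul_eq_mul]
  refine Finset.card_nsmul_le_sum _ _ _ fun i _ => ?_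
  rw [← finrank_map_of_inj (a := y ^ i) (by rw [End.coe_pow]; exact hy.iterate i)]
  refine Submodule.finrank_mono ?_
  rintro _ ⟨v, hv, rfl⟩
  refine ⟨trivial, End.mem_eigenspace_iff.2 ?_⟩
  rw [← End.mul_apply, pow_twist h]
  simp [End.mem_eigenspace_iff.1 hv]

theorem two_mul_eig_le {g x u : End F V} (hx : Function.Injective x) {ζ μ c : F} {r : ℕ} (hr : r.Prime) (h5 : 5 ≤ r)
    (hζ : IsPrimitiveRoot ζ r) (h1 : g * x = u * x * g) (h2 : g * u = u * g) (h3 : u ^ r = 1) (h4 : x * u = μ • (u * x))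
    (hμ : μ ^ r = 1) (hc : c ≠ 0) (he : r * finrank F (u.eigenspace 1) ≤ finrank F V) :
    2 * finrank F (g.eigenspace c) ≤ finrank F V := by
  classical
  have a1 (i : ℕ) : x ^ i * u = μ ^ i • (u * x ^ i) := by
    induction i with
    | zero => simp
    | succ i ih => rw [pow_succ', mul_assoc, ih, mul_smul_comm, ← mul_assoc, h4, smul_mul_assoc, smul_smul, ← pow_succ, mul_assoc]
  have a2 (i : ℕ) : g * x ^ i = μ ^ i.choose 2 • (u ^ i * x ^ i * g) := by
    induction i with
    | zero => simp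
    | succ i ih =>
      rw [pow_succ, ← mul_assoc, ih, smul_mul_assoc, mul_assoc, h1, Nat.choose_succ_succ' i 1, Nat.choose_one_right, add_comm,
        pow_add, mul_smul, pow_succ u, ← mul_assoc, ← mul_assoc, mul_assoc _ _ u, a1]
      simp only [mul_assoc, mul_smul_comm, smul_mul_assoc]
  set s := nthRootsFinset r (1 : F)
  set m := fun ε l => finrank F ↥(u.eigenspace ε ⊓ g.eigenspace l)
  have a3 (i : ℕ) : finrank F (g.eigenspace c) ≤ ∑ ε ∈ s, m ε (c * (μ ^ i.choose 2 * ε ^ i)) := by
    have h := finrank_le_sum_eig (u := u) (p := LinearMap.ker (g - (c * μ ^ i.choose 2) • u ^ i)) (fun v hv => by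
      have : (g - (c * μ ^ i.choose 2) • u ^ i) * u = u * (g - (c * μ ^ i.choose 2) • u ^ i) := by
        rw [sub_mul, mul_sub, h2, smul_mul_assoc, mul_smul_comm, pow_mul_comm']
      rw [LinearMap.mem_ker, ← End.mul_apply, this, End.mul_apply, LinearMap.mem_ker.1 hv, map_zero]) s
    rw [← X_pow_sub_one_eq_prod hr.pos hζ, map_sub, map_pow, aeval_X, h3, map_one, sub_self, LinearMap.ker_zero, inf_top_eq] at h
    refine le_trans ?_ (h.trans (Finset.sum_le_sum fun ε _ => Submodule.finrank_mono ?_))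
    · rw [← finrank_map_of_inj (a := x ^ i) (by rw [End.coe_pow]; exact hx.iterate i)]
      refine Submodule.finrank_mono ?_
      rintro _ ⟨v, hv, rfl⟩
      rw [LinearMap.mem_ker, LinearMap.sub_apply, ← End.mul_apply, a2]
      simp [End.mem_eigenspace_iff.1 hv, smul_smul, mul_comm]
    · rintro v ⟨h6, h7⟩
      refine ⟨h7, End.mem_eigenspace_iff.2 ?_⟩
      have h8 : (u ^ i) v = ε ^ i • v := by
        obtain rfl | h0 := eq_or_ne v 0
        · simp
        · exact End.HasEigenvector.pow_apply ⟨h7, h0⟩ i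
      simpa [h8, sub_eq_zero, smul_smul, mul_assoc] using h6
  have a4 : ∑ ε ∈ s, finrank F (u.eigenspace ε) ≤ finrank F V := (Finset.sum_le_sum fun _ _ => Submodule.finrank_mono (le_inf le_top le_rfl)).trans ((sum_eig_le u ⊤ s).trans_eq (finrank_top _ _))
  have a5 {z : F} {k : ℕ} (hz : z ^ r = 1) (hk : 0 < k) (hk' : k < 5) (h : z ^ k = 1) : z = 1 :=
    (pow_eq_one_iff_of_coprime (Nat.coprime_of_lt_prime hk.ne' (by omega) hr)).1 ⟨hz, h⟩
  have a6 (ε) {l l' : F} (h : l ≠ l') : m ε (c * l) + m ε (c * l') ≤ finrank F (u.eigenspace ε) := by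
    simpa [Finset.sum_pair (mt (mul_left_cancel₀ hc) h)] using sum_eig_le g (u.eigenspace ε) {c * l, c * l'}
  have b0 := a3 0
  have b1 := a3 1
  have b2 := a3 2
  have b3 := a3 3
  norm_num at b0 b1 b2 b3
  obtain rfl | h6 := eq_or_ne μ 1
  · have : ∑ ε ∈ s, (m ε c + m ε (c * ε) + m ε (c * ε ^ 2)) ≤
        ∑ ε ∈ s, (finrank F (u.eigenspace ε) + if ε = 1 then 2 * finrank F (u.eigenspace 1) else 0) :=
      Finset.sum_le_sum fun ε hε => by
        have h7 := (mem_nthRootsFinset hr.pos _).1 hε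
        split_ifs with h8
        · have : m 1 c ≤ finrank F (u.eigenspace 1) := Submodule.finrank_mono inf_le_left
          subst h8
          simp only [mul_one, one_pow]
          omega
        · have h9 : ε ≠ 0 := by rintro rfl; simp [hr.ne_zero] at h7
          have h10 : ε ^ 2 ≠ 1 := fun e => h8 (a5 h7 two_pos (by norm_num) e)
          have := sum_eig_le g (u.eigenspace ε) {c, c * ε, c * ε ^ 2}
          rw [Finset.sum_insert (by simp [hc, h8, h10]), Finset.sum_pair (by
            simp [hc, sq, h9, h8])] at this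
          simpa [add_assoc] using this
    simp only [Finset.sum_add_distrib, Finset.sum_ite_eq', one_mul] at this b2
    have : 5 * finrank F (u.eigenspace 1) ≤ finrank F V := le_trans (Nat.mul_le_mul_right _ h5) he
    split_ifs at * <;> omega
  · have : ∑ ε ∈ s, (m ε c + m ε (c * ε) + m ε (c * (μ * ε ^ 2)) + m ε (c * (μ ^ 3 * ε ^ 3))) ≤
        ∑ ε ∈ s, 2 * finrank F (u.eigenspace ε) :=
      Finset.sum_le_sum fun ε hε => by
        have h7 := (mem_nthRootsFinset hr.pos _).1 hε
        have h9 : ε ≠ 0 := by rintro rfl; simp [hr.ne_zero] at h7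
        have h10 : μ ≠ 0 := by rintro rfl; simp [hr.ne_zero] at hμ
        have h11 : μ ^ 3 ≠ 1 := fun e => h6 (a5 hμ three_pos (by norm_num) e)
        by_cases h : 1 ≠ ε ∧ μ * ε ^ 2 ≠ μ ^ 3 * ε ^ 3
        · have := a6 ε h.1
          have := a6 ε h.2
          rw [mul_one] at *
          omega
        have h12 : 1 = ε ∨ μ ^ 2 * ε = 1 := by
          rw [not_and_or, not_not, not_not] at h
          exact h.imp_right fun e => mul_left_cancel₀ (mul_ne_zero h10 (pow_ne_zero 2 h9)) (by linear_combination -e)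
        have := a6 ε (l := 1) (l' := μ * ε ^ 2) fun e => by
          rcases h12 with rfl | e'
          · exact h6 (by linear_combination -e)
          · exact h11 (by linear_combination μ ^ 3 * e + (μ ^ 2 * ε + 1) * e')
        have := a6 ε (l := ε) (l' := μ ^ 3 * ε ^ 3) fun e => by
          rcases h12 with rfl | e'
          · exact h11 (by linear_combination -e)
          · exact h6 (mul_left_cancel₀ h9 (by linear_combination μ * e + ε * (μ ^ 2 * ε + 1) * e'))
        rw [mul_one] at *
        omega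
    simp only [Finset.sum_add_distrib, ← Finset.mul_sum] at this
    omega

end LA

section Grp

variable {S C : Type*} [Group S] [CommGroup C] {b : S →* S →* C} {τ : MulAut S}

/-- the twisted difference -/
def td (τ : MulAut S) (x : S) : S := τ x * x⁻¹

theorem td_pol (h1 : ∀ x y, b (τ x) (τ y) = b x y) (h2 : ∀ x y, b x y = (b y x)⁻¹)
    (h : ∀ x, b (td τ x) (τ (td τ x)) = 1) (y : S) : b (τ (td τ (td τ (td τ y)))) = (b (td τ (td τ (td τ y))))⁻¹ := by
  ext z
  have e := h (z * τ (τ y))
  have e1 := h z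
  have e2 := h (τ (τ y))
  have e3 := h2 z (τ (τ (τ (τ y))))
  have e4 := h2 z (τ (τ (τ y)))
  have e5 := h2 z (τ (τ y))
  have e6 := h2 (τ z) (τ (τ y))
  simp only [td, map_mul, map_inv, MonoidHom.mul_apply, MonoidHom.inv_apply, h1] at *
  apply Additive.ofMul.injective
  replace e := congrArg Additive.ofMul e
  replace e1 := congrArg Additive.ofMul e1
  replace e2 := congrArg Additive.ofMul e2
  replace e3 := congrArg Additive.ofMul e3
  replace e4 := congrArg Additive.ofMul e4
  replace e5 := congrArg Additive.ofMul e5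
  simp only [ofMul_mul, ofMul_inv, ofMul_one] at *
  linear_combination (norm := abel1) e - e1 - e2 + e3 - e4 - e4 + e5

theorem b_congr (h1 : ∀ x y, b (τ x) (τ y) = b x y) {x y : S} (h : b x = b y) : b (τ x) = b (τ y) := by
  ext z
  rw [← τ.apply_symm_apply z, h1, h1, h]

theorem td_pow (h1 : ∀ x y, b (τ x) (τ y) = b x y) {y : S} (h : b (td τ (td τ y)) = 1) (k : ℕ) :
    b ((τ ^ k) y) = b (td τ y) ^ k * b y := by
  have e : b (τ (td τ y)) = b (td τ y) := by rwa [td, map_mul, map_inv, mul_inv_eq_one] at h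
  have e' (k : ℕ) : b (τ (td τ y ^ k)) = b (td τ y) ^ k := by rw [map_pow, map_pow, e]
  induction k with
  | zero => simp
  | succ k ih =>
    rw [pow_succ', MulAut.mul_apply, b_congr h1 (ih.trans (by rw [← map_pow, ← map_mul])), map_mul, map_mul, e', pow_succ,
      mul_assoc, td, map_mul, map_inv, inv_mul_cancel_right]

theorem td_main {r ϖ : ℕ} (h1 : ∀ x y, b (τ x) (τ y) = b x y) (h2 : ∀ x y, b x y = (b y x)⁻¹)
    (h : ∀ x, b (td τ x) (τ (td τ x)) = 1) (h3 : ∀ x, b x ^ r = 1) (h4 : τ ^ ϖ = 1) (h5 : Odd ϖ) :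
    (ϖ.Coprime r → ∀ y, b (td τ y) = 1) ∧ (Odd r → ∀ y, b (td τ (td τ (td τ y))) = 1) := by
  have e (y) : b (td τ (td τ (td τ y))) ^ 2 = 1 := by
    set w := td τ (td τ (td τ y))
    have e1 (k : ℕ) : b ((τ ^ (2 * k + 1)) w) = (b w)⁻¹ := by
      induction k with
      | zero => simpa using td_pol h1 h2 h y
      | succ k ih =>
        rw [show 2 * (k + 1) + 1 = 1 + (1 + (2 * k + 1)) by ring, pow_add, pow_add, pow_one, MulAut.mul_apply, MulAut.mul_apply,
          b_congr h1 (y := w) ?_, td_pol h1 h2 h]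
        rw [b_congr h1 (ih.trans (map_inv b w).symm), map_inv, map_inv, td_pol h1 h2 h, inv_inv]
    obtain ⟨k, rfl⟩ := h5
    rw [sq, ← eq_inv_iff_mul_eq_one, ← e1 k, h4, MulAut.one_apply]
  have e' : Odd r → ∀ y, b (td τ (td τ (td τ y))) = 1 := fun h6 y =>
    (pow_eq_one_iff_of_coprime (Nat.coprime_two_left.2 h6)).1 ⟨e y, h3 _⟩
  refine ⟨fun h6 y => ?_, e'⟩
  have L (y) (h : b (td τ (td τ y)) = 1) : b (td τ y) = 1 := (pow_eq_one_iff_of_coprime h6).1 ⟨by
    simpa [h4] using td_pow h1 h ϖ, h3 _⟩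
  refine L _ (L _ (L _ ?_))
  rw [td, map_mul, map_inv, td_pol h1 h2 h, ← mul_inv, ← sq, e, inv_one]

end Grp

end Cfsg.Agent.H28
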