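import Cfsg.Agent.H28.Elu9

/-! Polar pairs, orthogonal decompositions, semisimple involutions. -/

set_option autoImplicit false

namespace Cfsg.Agent.H28

open Polynomial Module H12 H13
open scoped Pointwise

universe u

theorem prod_dvd_card_GL (q d : ℕ) : ∏ j ∈ Finset.range d, (q ^ (j + 1) - 1) ∣ ∏ i : Fin d, (q ^ d - q ^ (i : ℕ)) := by
  rw [Fin.prod_univ_eq_prod_range (fun i => q ^ d - q ^ i), ← Finset.prod_range_reflect (fun i => q ^ d - q ^ i)]
  refine Finset.prod_dvd_prod_of_dvd _ _ fun j hj => ⟨q ^ (d - 1 - j), ?_⟩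
  rw [Nat.sub_mul, ← pow_add, one_mul, show j + 1 + (d - 1 - j) = d by have := Finset.mem_range.1 hj; omega]

theorem exists_dvd_of_mul {f g : ℕ → ℕ} {N q b d r : ℕ} (hr : r.Prime) (h0 : ∀ j, 0 < f j) (hq : ¬ r ∣ q)
    (h : N * ∏ j ∈ Finset.range d, f j ∣ q ^ b * ∏ j ∈ Finset.range d, (f j * g j)) (hN : r ∣ N) : ∃ j < d, r ∣ g j := by
  rw [Finset.prod_mul_distrib, mul_left_comm, mul_comm] at h
  obtain ⟨j, h1, h2⟩ := (hr.prime.dvd_finsetProd_iff _).1 (((Nat.Prime.dvd_mul hr).1 (hN.trans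
    (Nat.dvd_of_mul_dvd_mul_left (Finset.prod_pos fun j _ => h0 j) h))).resolve_left fun h => hq (hr.dvd_of_dvd_pow h))
  exact ⟨j, Finset.mem_range.1 h1, h2⟩

variable {F : Type*} {V : Type u} [Field F] [AddCommGroup V] [Module F V] {σ : F →+* F} [FiniteDimensional F V]

local notation "K" => AlgebraicClosure F
local notation "ι" => algebraMap F (AlgebraicClosure F)

section Gen
variable {B : V →ₛₗ[σ] V →ₗ[F] F} {a : End F V} {U U' W W' : Submodule F V}

/-- a polar pair -/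
def PlP (B : V →ₛₗ[σ] V →ₗ[F] F) (U W : Submodule F V) : Prop := IsCompl U W ∧ TIs B U ∧ TIs B W

/-- `a` stabilises a polar pair -/
def HasPP (B : V →ₛₗ[σ] V →ₗ[F] F) (a : End F V) : Prop :=
  ∃ U W, IsCompl U W ∧ TIs B U ∧ TIs B W ∧ ((U.map a = U ∧ W.map a = W) ∨ (U.map a = W ∧ W.map a = U))

omit [FiniteDimensional F V] in
theorem HasPP.smul (h : HasPP B a) {w : F} (hw : w ≠ 0) : HasPP B (w • a) := by
  simpa only [HasPP, map_smul_eq hw] using h

theorem PlP.finrank (D : SD B) (h : PlP B U W) : 2 * finrank F U = finrank F V ∧ 2 * finrank F W = finrank F V := by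
  have := Submodule.finrank_add_eq_of_isCompl h.1
  have := D.two_mul_finrank_le h.2.1
  have := D.two_mul_finrank_le h.2.2
  omega

theorem PlP.sperp_eq (D : SD B) (h : PlP B U W) : sperp B U = U := by
  have := h.finrank D
  have := D.finrank_sperp U
  exact (Submodule.eq_of_le_of_finrank_eq (S₂ := sperp B U) (fun x hx w hw => h.2.1 w hw x hx) (by omega)).symm

theorem plp_of (h : Disjoint U W) (h1 : TIs B U) (h2 : TIs B W) (h3 : finrank F U + finrank F W = finrank F V) :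
    PlP B U W := ⟨⟨h, codisjoint_iff.2 (Submodule.eq_top_of_finrank_eq (by
  have := Submodule.finrank_sup_add_finrank_inf_eq U W
  rw [h.eq_bot, finrank_bot] at this; omega))⟩, h1, h2⟩

omit [FiniteDimensional F V] in
theorem PlP.smul (h : PlP B U W) (g : UG B) : PlP B (g • U) (g • W) :=
  ⟨(Submodule.orderIsoMapComap g.1).isCompl h.1, h.2.1.map g.2, h.2.2.map g.2⟩

theorem exists_map_plp (D : SD B) (h : PlP B U W) (h' : PlP B U' W') (φ : U ≃ₗ[F] U') :
    ∃ g : UG B, (∀ u : U, g.1 u = φ u) ∧ g • U = U' ∧ g • W = W' := by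
  let b := finBasis F U
  let c := finBasis F W
  have h1 : ∀ w : W, ∃ x ∈ W', ∀ i, B (φ (b i)) x = B (b i) w := fun w => by
    obtain ⟨x, hx⟩ := D.exists_eq_family ((b.map φ).linearIndependent.map' U'.subtype U'.ker_subtype) fun i => B (b i) w
    obtain ⟨u, hu, x, hx', rfl⟩ := Submodule.mem_sup.1 (h'.1.sup_eq_top ▸ Submodule.mem_top (x := x))
    exact ⟨x, hx', fun i => by simpa [h'.2.1 _ (φ (b i)).2 u hu] using hx i⟩
  choose f h2 h3 using h1
  let ψ : W →ₗ[F] V := c.constr F fun j => f (c j)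
  have h4 : ∀ w, ψ w ∈ W' := fun w => by
    rw [Basis.constr_apply_fintype]; exact W'.sum_mem fun j _ => W'.smul_mem _ (h2 _)
  have h5 : ∀ (u : U) (w : W), B (φ u) (ψ w) = B u w := fun u w => LinearMap.congr_fun (LinearMap.congr_fun
    (LinearMap.ext_basis b c (B := pull B (U'.subtype ∘ₗ φ.toLinearMap) ψ) (B' := pull B U.subtype W.subtype) fun i j => by
      simp [ψ, h3]) u) w
  clear_value ψ
  obtain ⟨g, g1, g2⟩ : ∃ g : End F V, (∀ u : U, g u = φ u) ∧ ∀ w : W, g w = ψ w :=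
    ⟨LinearMap.ofIsCompl h.1 (U'.subtype ∘ₗ φ.toLinearMap) ψ, LinearMap.ofIsCompl_apply_left h.1,
      LinearMap.ofIsCompl_apply_right h.1⟩
  have h6 : ∀ x y, B (g x) (g y) = B x y := fun x y => by
    obtain ⟨u, w, rfl⟩ := Submodule.existsUnique_add_of_isCompl h.1 x |>.imp fun _ h => h.imp fun _ h => h.1
    obtain ⟨u', w', rfl⟩ := Submodule.existsUnique_add_of_isCompl h.1 y |>.imp fun _ h => h.imp fun _ h => h.1
    simp only [map_add, LinearMap.add_apply, g1, g2, h5, h'.2.1 _ (φ u).2 _ (φ u').2, h'.2.2 _ (h4 w) _ (h4 w'),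
      h.2.1 _ u.2 _ u'.2, h.2.2 _ w.2 _ w'.2, D.skew (φ u') (ψ w), D.skew u' w]
  have h7 := h.finrank D
  have h8 := h'.finrank D
  obtain ⟨G, hG⟩ : ∃ G : UG B, ∀ x, G.1 x = g x := ⟨⟨equivOfPreserves B D.sep g h6, h6⟩, fun _ => rfl⟩
  refine ⟨G, fun u => (hG u).trans (g1 u),
    Submodule.eq_of_le_of_finrank_eq ?_ ((LinearEquiv.finrank_map_eq G.1 _).trans (by omega)),
    Submodule.eq_of_le_of_finrank_eq ?_ ((LinearEquiv.finrank_map_eq G.1 _).trans (by omega))⟩
  · rintro _ ⟨u, hu, rfl⟩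
    exact ((hG u).trans (g1 ⟨u, hu⟩)).symm.subst (motive := (· ∈ U')) (φ ⟨u, hu⟩).2
  · rintro _ ⟨u, hu, rfl⟩
    exact ((hG u).trans (g2 ⟨u, hu⟩)).symm.subst (motive := (· ∈ W')) (h4 ⟨u, hu⟩)

theorem rts_eq_of_plp (D : SD B) (ha : Pres B a) (ρ : K →+* K) (hρ : ∀ c, ρ (ι c) = ι (σ c)) (h : PlP B U W)
    (hU : Iv a U) (hW : Iv a W) : rts a = rto a U + (rto a U).map fun x => (ρ x)⁻¹ := by
  rw [rto_dual D ha ρ hρ hU hW ((h.sperp_eq D).symm ▸ h.1), rts_eq_add hU hW h.1]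

variable [Fintype F]

theorem plp_count (D : SD B) (h : PlP B U W) : Nat.card {P : Submodule F V × Submodule F V // PlP B P.1 P.2} *
    ∏ j ∈ Finset.range (finrank F U), (Fintype.card F ^ (j + 1) - 1) ∣ Nat.card (UG B) := by
  have h1 := h.finrank D
  rw [card_eq_index_of_trans (G := UG B) (P := fun P : Submodule F V × Submodule F V => PlP B P.1 P.2) (x := (U, W)) h
    h.smul fun P hP => by
      have := hP.finrank D
      obtain ⟨g, -, h2, h3⟩ := exists_map_plp D h hP (.ofFinrankEq _ _ (by omega))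
      exact ⟨g, Prod.ext h2 h3⟩, ← (MulAction.stabilizer (UG B) (U, W)).index_mul_card]
  refine Nat.mul_dvd_mul_left _ ((prod_dvd_card_GL _ _).trans (card_linearEquiv (F := F) (V := U) ▸
    Subgroup.card_dvd_of_surjective ((resHom B U).comp (Subgroup.inclusion fun g hg => mem_stabW_of_mapsTo fun w hw =>
      (congrArg Prod.fst hg).le ⟨w, hw, rfl⟩)) fun φ => ?_))
  obtain ⟨g, h2, h3, h4⟩ := exists_map_plp D h h φ
  exact ⟨⟨g, Prod.ext h3 h4⟩, LinearEquiv.ext fun u => Subtype.ext (h2 u)⟩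

theorem hasPP_of_rts (D : SD B) (ha : Pres B a) (h : SS a) (ρ : K →+* K) (hρ : ∀ c, ρ (ι c) = ι (σ c))
    {M : Multiset K} (hM : St (· ^ Fintype.card F) M) (e : rts a = M + M.map (fun x => (ρ x)⁻¹)) :
    ∃ U W, PlP B U W ∧ U.map a = U ∧ W.map a = W := by
  have hi := ((End.isUnit_iff a).1 (D.wittData.nds.isUnit ha)).1
  obtain ⟨U, W, h1, h2, h3, h4, h5, h6, h7⟩ := exists_tis D ha h ρ hρ hM
    (rs_replicate D.invol (c := 1) (e := 0) (by simp) fun _ => Even.zero) (by simpa using e)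
  exact ⟨U, W, plp_of h5 h3 h4 (by simp [← card_rts a, e, h6, h7]), h1.map_eq hi, h2.map_eq hi⟩

theorem exists_plp (D : SD B) {d : ℕ} (h : finrank F V = 2 * d) (ρ : K →+* K) (hρ : ∀ c, ρ (ι c) = ι (σ c)) :
    ∃ U W, PlP B U W :=
  let ⟨U, W, h, _⟩ := hasPP_of_rts D (a := 1) (fun _ _ => rfl) ⟨1, by simp, by simp⟩ ρ hρ (M := .replicate d 1)
    (st_replicate (by simp) d) (by simp [rts_one, h, two_mul, Multiset.replicate_add])
  ⟨U, W, h⟩

omit [Fintype F] in
theorem PlP.iv_of_odd (h : PlP B U W) {r : ℕ} (hr : Odd r) {z : F} (hz : z ≠ 0) (ha : a ^ r = z • 1)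
    (h1 : (U.map a = U ∧ W.map a = W) ∨ (U.map a = W ∧ W.map a = U)) : Iv a U ∧ Iv a W := by
  refine h1.elim (fun h => ⟨iv_iff.1 h.1.le, iv_iff.1 h.2.le⟩) fun ⟨h2, h3⟩ => ?_
  obtain ⟨k, rfl⟩ := hr
  have : ∀ k, U.map (a ^ (2 * k + 1) : End F V) = W := fun k => by
    induction k with
    | zero => simpa using h2
    | succ k ih => rw [mul_add, add_right_comm, pow_succ', pow_succ' a (2 * k + 1), End.mul_eq_comp, End.mul_eq_comp,
        Submodule.map_comp, Submodule.map_comp, ih, h3, h2]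
  have h4 := this k
  rw [ha, map_smul_eq hz, End.one_eq_id, Submodule.map_id] at h4
  subst h4
  exact ⟨iv_iff.1 h2.le, iv_iff.1 h2.le⟩

theorem dvd_plp_count [Nontrivial V] {r : ℕ}
    (h : r ∣ Nat.card {P : Submodule F V × Submodule F V // PlP B P.1 P.2} / 2) :
    r ∣ Nat.card {P : Submodule F V × Submodule F V // PlP B P.1 P.2} := by
  classical
  have := Module.finite_of_finite F (M := V)
  have := Fintype.ofFinite {P : Submodule F V × Submodule F V // PlP B P.1 P.2}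
  let f : Function.End {P : Submodule F V × Submodule F V // PlP B P.1 P.2} :=
    fun P => ⟨P.1.swap, P.2.1.symm, P.2.2.2, P.2.2.1⟩
  have h1 := Equiv.Perm.card_fixedPoints_modEq (f := f) (p := 2) (n := 1) rfl
  have : IsEmpty f.fixedPoints := ⟨fun P => by
    have h2 := P.1.2.1
    rw [show P.1.1.2 = P.1.1.1 from congrArg (·.1.1) P.2] at h2
    exact bot_ne_top ((disjoint_self.1 h2.1).symm.trans (codisjoint_self.1 h2.2))⟩
  rw [Fintype.card_eq_zero (α := f.fixedPoints)] at h1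
  exact h.trans (Nat.div_dvd_of_dvd (by rw [Nat.card_eq_fintype_card]; exact Nat.modEq_zero_iff_dvd.1 h1))

theorem od_count (D : SD B) {d t : ℕ} {P : (Fin t → Submodule F V) → Prop}
    (hP : ∀ E, P E ↔ (∀ i, finrank F (E i) = d) ∧ (∀ i, NDs B (E i)) ∧ (∀ i j, i ≠ j → Ort B (E i) (E j)) ∧ iSup E = ⊤)
    {E : Fin t → Submodule F V} (h : P E) : Nat.card {E // P E} * Nat.card (UG (res B (sperp B ⊤))) ∣ Nat.card (UG B) := by
  obtain ⟨h1, h2, h3, h4⟩ := (hP E).1 h
  refine card_mul_dvd D h (fun g => (hP _).2 ⟨fun i => (LinearEquiv.finrank_map_eq g.1 _).trans (h1 i),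
    fun i => (h2 i).map g.2, ?_, ?_⟩) (fun E' h' => ?_) (nds_top D) fun g hg => funext fun i => smul_eq_of_fix fun u _ => hg u trivial
  · rintro i j h _ ⟨u, hu, rfl⟩ _ ⟨v, hv, rfl⟩
    exact (g.2 u v).trans (h3 i j h u hu v hv)
  · exact (Submodule.map_iSup g.1.toLinearMap E).symm.trans (by rw [h4, Submodule.map_top, LinearEquiv.range])
  · obtain ⟨h1', h2', h3', h4'⟩ := (hP E').1 h'
    choose φ hφ using fun i => (D.restrict (h2 i)).exists_isometry (D.restrict (h2' i)) ((h1 i).trans (h1' i).symm)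
    obtain ⟨g, hg⟩ := exists_smul_eq_family D (iSupIndep_of_ort h2 h3) h4 (iSupIndep_of_ort h2' h3') h4' φ fun i j u v => by
      by_cases h : i = j
      · subst h; exact hφ i u v
      · rw [h3 i j h _ u.2 _ v.2, h3' i j h _ (φ i u).2 _ (φ j v).2]
    exact ⟨g, funext hg⟩

variable {ρ : AlgebraicClosure F →+* AlgebraicClosure F} {r c : ℕ} {z : ℤ} [hr : Fact r.Prime]

theorem Per.opd (P : Per σ ρ r z c) (D : SD B) (ha : Pres B a) (h : a ^ r = 1) {d t e : ℕ} (hd : σ = RingHom.id F → Even d)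
    {N : Multiset K} (hN : PRt r N) (h0 : St (· ^ z) N) (h1 : rts a = N + .replicate e 1) (hV : finrank F V = d * t)
    (h2 : N.card ≤ t * (d / c) * c) : OPD B a d (Fin t) := by
  induction t generalizing V N e with
  | zero => exact opd_zero hV
  | succ t ih =>
    obtain ⟨s, hs⟩ := P.dvd hN h0
    have h3 : N.card + e = d * (t + 1) := by simpa [h1, hV] using card_rts a
    have h4 := Nat.div_add_mod' d c
    obtain ⟨k, l, h5, h6, h7, h8⟩ : ∃ k l, k * c + l = d ∧ k * c ≤ N.card ∧ l ≤ e ∧ N.card ≤ k * c + t * (d / c) * c := by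
      have := Nat.mul_le_mul_left t (Nat.div_mul_le_self d c)
      simp only [add_mul, mul_add, mul_assoc, one_mul, mul_comm d t] at h2 h3 ⊢
      rcases le_total (d / c) s with h | h
      · exact ⟨_, _, h4, by rw [hs, mul_comm c]; exact Nat.mul_le_mul_right c h, by omega, by omega⟩
      · have := Nat.mul_le_mul_right c h
        rw [mul_comm] at hs
        exact ⟨s, d - s * c, by omega, by omega, by omega, by omega⟩
    obtain ⟨M, M', rfl, h9, h10, h11⟩ := P.sub hN h0 h6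
    obtain ⟨l', rfl⟩ := Nat.exists_eq_add_of_le h7
    obtain ⟨U, h12, h13, h14, h15⟩ := exists_nds D ha ⟨r, P.ne, h⟩ (P.rs D.invol (hN.of_le le_self_add) h9 (e := l)
      (by rwa [h11, h5])) (P.rs D.invol (hN.of_le le_add_self) h10 (e := l') fun h => by
        have := (hd h).mul_right (t + 1)
        rw [← h3, Multiset.card_add, h11, add_add_add_comm, h5] at this
        exact (Nat.even_add.1 this).1 (hd h)) (by rw [h1, Multiset.replicate_add, add_add_add_comm])
    have h16 : finrank F U = d := by simp [← card_rto h12, h14, h11, h5]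
    have h17 := D.finrank_sperp U
    rw [← h16]
    exact OPD.cons D ha h12 h13 (h16 ▸ ih (D.restrict (D.disjoint_sperp h13)) (ha.restrict _)
      ((restrict_pow_eq (z := 1) _ (by simp [h])).trans (one_smul _ _)) (hN.of_le le_add_self) h10 ((rto_eq _).symm.trans h15)
      (by rw [mul_add] at hV; omega) (by rw [Multiset.card_add] at h8; omega))

open Classical in
theorem Per.of_opd (P : Per σ ρ r z c) (D : SD B) (ha : Pres B a) (h : a ^ r = 1) {d t e : ℕ} (hd : 0 < d)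
    {N : Multiset K} (hN : PRt r N) (h1 : rts a = N + .replicate e 1) (h2 : OPD B a d (Fin t))
    (h3 : e < d ∨ ∃ x, (x ^ r = 1 ∧ x ≠ 1) ∧ N.count x < d) : t * (d % c) ≤ e := by
  obtain ⟨E, g1, g2, g3, g4, τ, g5⟩ := h2
  obtain ⟨s, rfl⟩ : ∃ s, r = s + 1 := ⟨r - 1, by have := hr.out.pos; omega⟩
  obtain ⟨k, h4, h5⟩ := ed_of_perm (iSupIndep_of_ort g2 g3) g4 g1 hd g5 hr.out one_ne_zero (by rw [h, one_smul])
  have h6 := congrArg rtm h5
  rw [← rts_eq_rtm, rtm_add, rtm_nsmul, rtm_sum, h1] at h6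
  have h7 : ∀ x : K, x ^ (s + 1) = 1 → k * d ≤ (N + .replicate e 1).count x := fun x hx => by
    rw [h6, Multiset.count_add, Multiset.count_nsmul]
    refine le_add_right (Nat.le_mul_of_pos_right _ (Multiset.count_pos.2 ?_))
    have h0 := monic_X_pow_sub_C (1 : F) s.succ_ne_zero
    have := finite_adjoinRoot h0.ne_zero
    rw [frE, ← rts_eq_rtm, (sim_sh_cyc s 1).rts_eq, rts, charpoly_cyc h0, mem_roots (h0.map _).ne_zero]
    simp [hx]
  have h8 : N.count 1 = 0 := Multiset.count_eq_zero.2 fun h => (hN 1 h).2 rfl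
  obtain rfl : k = 0 := by
    by_contra h8
    have := Nat.mul_le_mul_right d (Nat.one_le_iff_ne_zero.2 h8)
    obtain h3 | ⟨x, ⟨h9, h10⟩, h3⟩ := h3
    · have := h7 1 (by simp); simp at this; omega
    · have := h7 x h9; simp [Multiset.count_replicate, h10.symm] at this; omega
  have h9 := Finset.card_nsmul_le_sum (Finset.univ.filter fun j => τ j = j) (fun j => (rto a (E j)).count 1) (d % c)
    fun j hj => by
      have h10 : Iv a (E j) := iv_iff.1 (by rw [g5, (Finset.mem_filter.1 hj).2])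
      obtain ⟨M, l, h11, h12, -, ⟨m, h13⟩, h14⟩ := P.of_nds D ha h hN h10 (g2 j) (by
        rw [← h1, rts_eq_add h10 (h10.sperp D ha) (D.isCompl (g2 j))]; exact le_self_add)
      rw [h11, Multiset.count_add, Multiset.count_replicate_self, ← g1 j, ← h14, h13, Nat.mul_add_mod]
      exact le_add_left (Nat.mod_le _ _)
  have h10 := congrArg (Multiset.count 1) h6
  simp only [Multiset.count_add, h8, Multiset.count_replicate_self, zero_mul, zero_nsmul, Multiset.count_sum', zero_add,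
    Fintype.card_fin, Multiset.count_zero] at h4 h10
  rw [h4, smul_eq_mul] at h9
  exact h10 ▸ h9

end Gen

variable {B : V →ₛₗ[RingHom.id F] V →ₗ[F] F} {a : End F V} [Fintype F]

theorem sp_inv_one (D : SD B) (ha : Pres B a) (h2 : (2 : F) ≠ 0) (h : a ^ 2 = 1) :
    ∃ s t, rts a = .replicate (2 * s) 1 + .replicate (2 * t) (-1) := by
  obtain ⟨s, t, h1⟩ := eq_rep_add (M := rts a) fun x hx => sq_eq_one_iff.1 (pow_eq_one_of_mem_rts h hx)
  obtain ⟨h3, h4⟩ := ((RS.of D ha ⟨2, h2, h⟩).st (RingHom.id K) fun _ => rfl).2.2 rfl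
  rw [h1] at h3 h4 ⊢
  have h5 : (-1 : K) ≠ 1 := fun e => (map_ne_zero ι).2 h2 (by rw [map_ofNat]; linear_combination -e)
  have h6 : Even t := by simpa [neg_one_pow_eq_one_iff_even h5] using h4
  obtain ⟨s, rfl⟩ : Even s := (Nat.even_add.1 (by simpa using h3)).2 h6
  obtain ⟨t, rfl⟩ := h6
  exact ⟨s, t, by simp only [two_mul]⟩

omit [FiniteDimensional F V] [Fintype F] in
theorem ss_of_sq_neg (h2 : (2 : F) ≠ 0) (h : a ^ 2 = -1) : SS a :=
  ⟨2 * 2, by rw [Nat.cast_mul]; exact mul_ne_zero h2 h2, by rw [pow_mul, h, neg_one_sq]⟩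

omit [Fintype F] in
theorem neg_ne_of_sq (h2 : (2 : F) ≠ 0) {j : K} (hj : j ^ 2 = -1) : j ≠ -j ∧ j⁻¹ = -j ∧ j ^ 2 ≠ 1 := by
  have h3 : (2 : K) ≠ 0 := by simpa [map_ofNat] using (map_ne_zero ι).2 h2
  exact ⟨fun e => h3 (by linear_combination -j * e + 2 * hj), inv_eq_of_mul_eq_one_right (by linear_combination -hj),
    fun e => h3 (by linear_combination hj - e)⟩

theorem sp_inv_neg (D : SD B) (ha : Pres B a) (h2 : (2 : F) ≠ 0) (h : a ^ 2 = -1) {j : K} (hj : j ^ 2 = -1) {d : ℕ}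
    (hd : finrank F V = 2 * d) : rts a = .replicate d j + .replicate d (-j) := by
  classical
  obtain ⟨s, t, h1⟩ := eq_rep_add (M := rts a) (x := j) (y := -j) fun x hx => sq_eq_sq_iff_eq_or_eq_neg.1 (by
    rw [pow_eq_of_mem_rts (c := -1) hx (by simp [h]), hj]; simp)
  obtain ⟨h3, h4, -⟩ := neg_ne_of_sq h2 hj
  have h5 := congrArg (Multiset.count j) ((RS.of D ha (ss_of_sq_neg h2 h)).st (RingHom.id K) fun _ => rfl).2.1
  have h6 := card_rts a
  simp [h1, inv_neg, h4, Multiset.count_replicate, h3.symm] at h5 h6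
  rw [h1, show s = d by omega, show t = d by omega]

theorem pow_card_of_sq (h2 : (2 : F) ≠ 0) {j : K} (hj : j ^ 2 = -1) :
    (Fintype.card F % 4 = 1 ∧ j ^ Fintype.card F = j) ∨ (Fintype.card F % 4 = 3 ∧ j ^ Fintype.card F = -j) := by
  have h1 := FiniteField.odd_card_of_char_ne_two (F := F) fun h => h2 (by simpa [h] using ringChar.Nat.cast_ringChar (R := F))
  have h3 : j ^ Fintype.card F = j ^ (Fintype.card F % 4) := by
    conv_lhs => rw [← Nat.div_add_mod (Fintype.card F) 4, pow_add, pow_mul, show j ^ 4 = 1 by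
      linear_combination (j ^ 2 - 1) * hj, one_pow, one_mul]
  rcases (by omega : Fintype.card F % 4 = 1 ∨ Fintype.card F % 4 = 3) with h | h
  · exact .inl ⟨h, by rw [h3, h, pow_one]⟩
  · exact .inr ⟨h, by rw [h3, h]; linear_combination j * hj⟩

theorem st_pm (h2 : (2 : F) ≠ 0) {j : K} (hj : j ^ 2 = -1) (k : ℕ) :
    St (· ^ Fintype.card F) (.replicate k j + .replicate k (-j)) := by
  have h1 := FiniteField.odd_card_of_char_ne_two (F := F) fun h => h2 (by simpa [h] using ringChar.Nat.cast_ringChar (R := F))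
  obtain ⟨-, h⟩ | ⟨-, h⟩ := pow_card_of_sq h2 hj <;> simp [St, (Nat.odd_iff.2 h1).neg_pow, h, add_comm]

theorem rs_pm (h2 : (2 : F) ≠ 0) {j : K} (hj : j ^ 2 = -1) (k : ℕ) :
    RS (RingHom.id F) (.replicate k j + .replicate k (-j)) := by
  obtain ⟨h3, h4, h5⟩ := neg_ne_of_sq h2 hj
  have h6 : ∀ x ∈ Multiset.replicate k j + .replicate k (-j), x ^ 2 = -1 := fun x hx =>
    (Multiset.mem_add.1 hx).elim (fun h => Multiset.eq_of_mem_replicate h ▸ hj) fun h => by
      rw [Multiset.eq_of_mem_replicate h, neg_sq, hj]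
  exact rs_of_st (fun _ => rfl) (RingHom.id K) (fun _ => rfl) (st_pm h2 hj k) (by simp [St, inv_neg, h4, add_comm])
    (k := 2 * 2) (by rw [Nat.cast_mul]; exact mul_ne_zero h2 h2) (fun x hx => by rw [pow_mul, h6 x hx, neg_one_sq]) (.inr fun x hx => h6 x hx ▸ hj ▸ h5)

theorem hasPP_inv (D : SD B) (ha : Pres B a) (h2 : (2 : F) ≠ 0) {z : F} (h : a ^ 2 = z • 1) : HasPP B a := by
  obtain ⟨d, hd⟩ := D.even_finrank
  have key : a ^ 2 = 1 → HasPP B a := fun h => by
    obtain ⟨s, t, h1⟩ := sp_inv_one D ha h2 h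
    have h0 := FiniteField.odd_card_of_char_ne_two (F := F) fun h => h2 (by simpa [h] using ringChar.Nat.cast_ringChar (R := F))
    obtain ⟨U, W, h3, h4⟩ := hasPP_of_rts D ha ⟨2, h2, h⟩ (RingHom.id K) (fun _ => rfl)
      (M := .replicate s 1 + .replicate t (-1)) (by simp [St, (Nat.odd_iff.2 h0).neg_pow])
      (by simp [h1, two_mul, Multiset.replicate_add, add_add_add_comm])
    exact ⟨U, W, h3.1, h3.2.1, h3.2.2, .inl h4⟩
  rcases subsingleton_or_nontrivial V with h0 | h0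
  · exact key (Subsingleton.elim _ _)
  obtain rfl | rfl := mul_self_eq_one_iff.1 (sp_sq_eq_one D ha h)
  · exact key (by simpa using h)
  obtain ⟨j, hj⟩ := IsAlgClosed.exists_pow_nat_eq (-1 : K) two_pos
  let b : End F ((Fin d → F) × (Fin d → F)) := (-LinearMap.snd F _ _).prod (LinearMap.fst F _ _)
  have h1 : b ^ 2 = -1 := by ext <;> simp [b, sq]
  have h3 : Pres (hypB (RingHom.id F) d) b := fun x y => by simp [b, hypB_apply]; ring
  have D' := sd_hypB (σ := RingHom.id F) (fun _ => rfl) d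
  rw [neg_one_smul] at h
  obtain ⟨g, h4, h5⟩ := sd_conj D' D h3 ha (ss_of_sq_neg h2 h1) (ss_of_sq_neg h2 h) (by
    rw [sp_inv_neg D' h3 h2 h1 hj (d := d) (by simp [two_mul]), sp_inv_neg D ha h2 h hj (d := d) (by omega)])
  have h6 : ∀ T, (Submodule.map g.toLinearMap T).map a = (T.map b).map g.toLinearMap := fun T => by
    rw [← Submodule.map_comp, ← Submodule.map_comp]; congr 1; ext <;> simp [h5]
  refine ⟨_, _, (Submodule.orderIsoMapComap g).isCompl LinearMap.isCompl_range_inl_inr, TIs.map ?_ h4, TIs.map ?_ h4,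
    .inr ⟨(h6 _).trans (congrArg _ ?_), (h6 _).trans (congrArg _ ?_)⟩⟩
  · rintro _ ⟨u, rfl⟩ _ ⟨v, rfl⟩; simp [hypB_apply]
  · rintro _ ⟨u, rfl⟩ _ ⟨v, rfl⟩; simp [hypB_apply]
  · rw [← LinearMap.range_comp]; congr 1; ext <;> simp [b]
  · rw [← LinearMap.range_comp, ← LinearMap.range_neg]; congr 1; ext <;> simp [b]

end Cfsg.Agent.H28
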