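import Cfsg.Agent.H28.Elu10
import Cfsg.Agent.H28.UCent

/-! Unipotent isometries of symmetric and alternating forms. -/

set_option autoImplicit false

namespace Cfsg.Agent.H28

open Polynomial Module H12 H13

universe u v

variable {F : Type u} {V : Type v} [Field F] [AddCommGroup V] [Module F V] {B : V →ₛₗ[RingHom.id F] V →ₗ[F] F} {ε : F}
  {a N : End F V} {U : Submodule F V}

/-- the cyclic subspace -/
def cy (N : End F V) (v : V) : Submodule F V := .span F (.range fun i : ℕ => (N ^ i) v)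

theorem mem_cy (N : End F V) (v : V) : v ∈ cy N v := Submodule.subset_span ⟨0, rfl⟩

theorem iv_cy (N : End F V) (v : V) : Iv N (cy N v) := iv_iff.1 (by
  rw [cy, Submodule.map_span_le]
  rintro _ ⟨i, rfl⟩
  exact Submodule.subset_span ⟨i + 1, by simp [pow_succ']⟩)

theorem cy_decomp {v x : V} (h : x ∈ cy N v) : ∃ c : F, ∃ y ∈ cy N v, x = c • v + N y := by
  induction h using Submodule.span_induction with
  | mem x h =>
    obtain ⟨_ | i, rfl⟩ := h
    exacts [⟨1, 0, zero_mem _, by simp⟩, ⟨0, _, Submodule.subset_span ⟨i, rfl⟩, by simp [pow_succ']⟩]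
  | zero => exact ⟨0, 0, zero_mem _, by simp⟩
  | add x y _ _ h h' =>
    obtain ⟨c, x, hx, rfl⟩ := h
    obtain ⟨d, y, hy, rfl⟩ := h'
    exact ⟨c + d, x + y, add_mem hx hy, by simp only [add_smul, map_add]; abel⟩
  | smul c x _ h =>
    obtain ⟨d, x, hx, rfl⟩ := h
    exact ⟨c * d, c • x, Submodule.smul_mem _ _ hx, by simp [mul_smul]⟩

theorem finrank_cy_le {k : ℕ} (h : N ^ k = 0) (v : V) : finrank F (cy N v) ≤ k := by
  have : cy N v = .span F (.range fun i : Fin k => (N ^ (i : ℕ)) v) := le_antisymm (Submodule.span_le.2 (by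
    rintro _ ⟨i, rfl⟩
    by_cases hi : i < k
    · exact Submodule.subset_span ⟨⟨i, hi⟩, rfl⟩
    · simp [pow_eq_zero_of_le (not_lt.1 hi) h])) (Submodule.span_mono (by rintro _ ⟨i, rfl⟩; exact ⟨i, rfl⟩))
  exact this ▸ (finrank_range_le_card _).trans (Fintype.card_fin k).le

theorem cy_pair {j : ℕ} (h : N ^ (j + 1) = 0) (hU : Iv N U) {v w : V}
    (h1 : ∀ c d : F, c • (N ^ j) v + d • (N ^ j) w ∈ U → c • v = 0 ∧ d • w = 0) {x y : V} (hx : x ∈ cy N v) (hy : y ∈ cy N w)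
    (h2 : x + y ∈ U) : x = 0 ∧ y = 0 := by
  have : ∀ i ≤ j + 1, ∃ x' ∈ cy N v, ∃ y' ∈ cy N w, x = (N ^ i) x' ∧ y = (N ^ i) y' := fun i hi => by
    induction i with
    | zero => exact ⟨x, hx, y, hy, rfl, rfl⟩
    | succ i ih =>
      obtain ⟨_, h3, _, h4, rfl, rfl⟩ := ih (by omega)
      obtain ⟨c, x, h5, rfl⟩ := cy_decomp h3
      obtain ⟨d, y, h6, rfl⟩ := cy_decomp h4
      obtain ⟨l, rfl⟩ := Nat.exists_eq_add_of_le' (Nat.le_of_succ_le_succ hi)
      obtain ⟨h7, h8⟩ := h1 c d (by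
        simpa [← End.mul_apply, ← pow_add, ← pow_succ, ← add_assoc, h] using hU.pow l _ h2)
      exact ⟨x, h5, y, h6, by simp [h7, pow_succ], by simp [h8, pow_succ]⟩
  obtain ⟨x, -, y, -, rfl, rfl⟩ := this _ le_rfl
  simp [h]

theorem iv_of_sub_one (h : Iv (a - 1) U) : Iv a U := fun x hx => by simpa using add_mem (h x hx) hx

theorem Iv.sub_one (h : Iv a U) : Iv (a - 1) U := fun x hx => sub_mem (h x hx) hx

theorem restrict_sub_one_pow (h : Iv a U) (j : ℕ) (x : U) : (((a.restrict h - 1) ^ j) x : V) = ((a - 1) ^ j) x := by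
  induction j with
  | zero => rfl
  | succ j ih => rw [pow_succ', pow_succ', End.mul_apply, End.mul_apply, ← ih]; rfl

theorem pres_pow (ha : Pres B a) (j : ℕ) (x y : V) :
    B (((a - 1) ^ j) x) ((a ^ j) y) = (-1) ^ j * B x (((a - 1) ^ j) y) := by
  induction j generalizing y with
  | zero => simp
  | succ j ih =>
    have : ∀ x y, B ((a - 1) x) (a y) = -B x ((a - 1) y) := fun x y => by simp [ha x y]
    rw [pow_succ', pow_succ' a, End.mul_apply, End.mul_apply, this, ← End.mul_apply,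
      ((Commute.refl a).sub_left (Commute.one_left a)).pow_right j, End.mul_apply, ih, ← End.mul_apply, ← pow_succ, ← pow_succ']
    ring

theorem pres_fix (ha : Pres B a) {x : V} (hx : a x = x) (j : ℕ) (y : V) : B x ((a ^ j) y) = B x y := by
  rw [← ha.pow j x y, End.pow_apply a j x, Function.iterate_fixed hx]

/-- a non-degenerate `ε`-symmetric bilinear form -/
structure EB (B : V →ₛₗ[RingHom.id F] V →ₗ[F] F) (ε : F) : Prop where
  eps : ε * ε = 1
  symm : ∀ x y, B y x = ε * B x y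
  sep : ∀ x, (∀ y, B x y = 0) → x = 0

theorem eb_of_sd (D : SD B) : EB B (-1) := ⟨by simp, fun x y => by simpa using D.skew x y, D.sep⟩

theorem EB.sd (E : EB B (-1)) (h : ∀ x, B x x = 0) : SD B :=
  ⟨fun _ => rfl, fun x y => by simpa using E.symm x y, E.sep, fun x => ⟨0, by simp [h]⟩⟩

theorem EB.comm0 (E : EB B ε) {x y : V} (h : B x y = 0) : B y x = 0 := by rw [E.symm, h, mul_zero]

theorem EB.res (E : EB B ε) (hU : NDs B U) : EB (res B U) ε := ⟨E.eps, fun x y => E.symm x y, fun x hx =>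
  Subtype.ext (Submodule.disjoint_def.1 hU x x.2 fun w hw => E.comm0 (hx ⟨w, hw⟩))⟩

theorem EB.beta (E : EB B ε) (ha : Pres B a) {j : ℕ} (h : (a - 1) ^ (j + 1) = 0) (x y : V) :
    B (((a - 1) ^ j) y) x = (-1) ^ j * ε * B (((a - 1) ^ j) x) y := by
  rw [← pres_fix ha (j := j) (by simpa [pow_succ', sub_eq_zero] using LinearMap.congr_fun h y), pres_pow ha, E.symm, mul_assoc]

theorem beta_alt (ha : Pres B a) (h0 : ∀ x, B x x = 0) {j : ℕ} (h : (a - 1) ^ (j + 1) = 0) (hj : Even j) (x : V) :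
    B (((a - 1) ^ j) x) x = 0 := by
  obtain ⟨i, rfl⟩ := hj
  rw [← pres_fix ha (j := i) (by simpa [pow_succ', sub_eq_zero] using LinearMap.congr_fun h x), pow_add, End.mul_apply,
    pres_pow ha, h0, mul_zero]

variable [FiniteDimensional F V]

theorem EB.isCompl (E : EB B ε) (hU : NDs B U) : IsCompl U (sperp B U) := ⟨hU, codisjoint_iff.2 (eq_top_iff.2 fun x _ => by
  obtain ⟨b, hb⟩ := exists_repr_dual (fun _ => rfl) _ (E.res hU).sep (B x ∘ₗ U.subtype)
  exact Submodule.mem_sup.2 ⟨b, b.2, x - b, fun w hw => E.comm0 (by simpa [sub_eq_zero] using (hb ⟨w, hw⟩).symm), by simp⟩)⟩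

theorem EB.nds_sperp (E : EB B ε) (hU : NDs B U) : NDs B (sperp B U) := Submodule.disjoint_def.2 fun x hx h =>
  E.sep x fun y => by
    obtain ⟨u, hu, v, hv, rfl⟩ := Submodule.mem_sup.1 ((E.isCompl hU).sup_eq_top ▸ Submodule.mem_top (x := y))
    rw [map_add, E.comm0 (hx u hu), E.comm0 (h v hv), add_zero]

theorem EB.iv_sperp (E : EB B ε) (ha : Pres B a) (hU : Iv a U) : Iv a (sperp B U) := fun x hx w hw => by
  rw [← hU.map_eq ((End.isUnit_iff a).1 (NDS.isUnit ⟨fun _ => rfl, E.sep⟩ ha)).1] at hw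
  obtain ⟨w, hw, rfl⟩ := hw
  rw [ha, hx w hw]

theorem ed_eq_single {j : ℕ} (h : (a - 1) ^ (j + 1) = 0) (h' : (a - 1) ^ j ≠ 0) (hd : finrank F V ≤ j + 1) :
    ed a = {upp F (j + 1)} := by
  have h0 : IsNilpotent (a - 1) := ⟨_, h⟩
  obtain ⟨k, h1, h2⟩ : ∃ k ∈ jt a, j < k := by simpa using mt (pow_eq_zero_iff_jt h0 j).2 h'
  obtain ⟨M, h3⟩ := Multiset.exists_cons_of_mem h1
  have h4 := sum_jt h0
  rw [h3, Multiset.sum_cons] at h4
  obtain rfl : M = 0 := Multiset.eq_zero_of_forall_notMem fun l hl => by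
    have := jt_pos (h3 ▸ Multiset.mem_cons_of_mem hl)
    have := Multiset.le_sum_of_mem hl
    omega
  rw [ed_eq_map h0, h3, show k = j + 1 by simp at h4; omega]; rfl

theorem edOn_cy {j : ℕ} (h : (a - 1) ^ (j + 1) = 0) {v : V} (hv : ((a - 1) ^ j) v ≠ 0) :
    edOn a (cy (a - 1) v) = {upp F (j + 1)} := by
  rw [edOn_eq (iv_of_sub_one (iv_cy _ v))]
  exact ed_eq_single (LinearMap.ext fun x => Subtype.ext (by simp [restrict_sub_one_pow, h]))
    (fun e => hv (by simpa [e] using (restrict_sub_one_pow (iv_of_sub_one (a := a) (iv_cy _ v)) j ⟨v, mem_cy _ v⟩).symm))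
    (finrank_cy_le h v)

theorem EB.piece [Nontrivial V] (E : EB B ε) (ha : Pres B a) (h : IsNilpotent (a - 1)) :
    ∃ j U, Iv a U ∧ NDs B U ∧ ((edOn a U = {upp F (j + 1)} ∧ (-1) ^ j * ε = 1 ∧ ((∀ x, B x x = 0) → Odd j)) ∨
      (edOn a U = {upp F (j + 1)} + {upp F (j + 1)} ∧ ((2 : F) ≠ 0 → (-1) ^ j * ε = -1))) := by
  obtain ⟨j, h1, h2⟩ : ∃ j, (a - 1) ^ (j + 1) = 0 ∧ (a - 1) ^ j ≠ 0 :=
    ⟨_, by rw [Nat.sub_add_cancel (pos_nilpotencyClass_iff.2 h)]; exact pow_nilpotencyClass h,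
      pow_pred_nilpotencyClass h⟩
  have key : ∀ v w : V, (∀ c d : F, B v (c • ((a - 1) ^ j) v + d • ((a - 1) ^ j) w) = 0 →
      B w (c • ((a - 1) ^ j) v + d • ((a - 1) ^ j) w) = 0 → c • v = 0 ∧ d • w = 0) →
      Iv a (cy (a - 1) v ⊔ cy (a - 1) w) ∧ NDs B (cy (a - 1) v ⊔ cy (a - 1) w) ∧ Disjoint (cy (a - 1) v) (cy (a - 1) w) :=
    fun v w h3 => by
      have h4 := iv_of_sub_one ((iv_cy (a - 1) v).sup (iv_cy _ w))
      have h5 := fun x y hx hy => cy_pair h1 (E.iv_sperp ha h4).sub_one (v := v) (w := w) (x := x) (y := y) (fun c d h =>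
        h3 c d (h _ (Submodule.mem_sup_left (mem_cy _ _))) (h _ (Submodule.mem_sup_right (mem_cy _ _)))) hx hy
      refine ⟨h4, Submodule.disjoint_def.2 fun x hx h6 => ?_, Submodule.disjoint_def.2 fun x hx h6 =>
        (h5 x (-x) hx (neg_mem h6) (by simp)).1⟩
      obtain ⟨x, h7, y, hy, rfl⟩ := Submodule.mem_sup.1 hx
      simp [h5 x y h7 hy h6]
  by_cases h3 : ∃ v, B (((a - 1) ^ j) v) v ≠ 0
  · obtain ⟨v, h3⟩ := h3
    obtain ⟨h4, h5, -⟩ := key v 0 fun c d h _ => by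
      obtain rfl : c = 0 := by simpa [mt E.comm0 h3] using h
      simp
    rw [show cy (a - 1) 0 = ⊥ by simp [cy], sup_bot_eq] at h4 h5
    exact ⟨j, _, h4, h5, .inl ⟨edOn_cy h1 fun e => h3 (by simp [e]),
      mul_right_cancel₀ h3 (by rw [← E.beta ha h1, one_mul]), fun h0 =>
        Nat.not_even_iff_odd.1 fun h => h3 (beta_alt ha h0 h1 h v)⟩⟩
  push Not at h3
  obtain ⟨v, hv⟩ := DFunLike.ne_iff.1 h2
  obtain ⟨w, hw⟩ := not_forall.1 (mt (E.sep _) hv)
  have h4 := h3 (v + w)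
  simp only [map_add, LinearMap.add_apply, h3, zero_add, add_zero] at h4
  have h5 : B (((a - 1) ^ j) w) v ≠ 0 := fun e => hw (by simpa [e] using h4)
  obtain ⟨h6, h7, h8⟩ := key v w fun c d h h' => by
    simp only [map_add, map_smul, E.comm0 (h3 _), smul_eq_mul, mul_zero, zero_add, add_zero, mul_eq_zero, mt E.comm0 hw,
      mt E.comm0 h5, or_false] at h h'
    simp [h, h']
  refine ⟨j, _, h6, h7, .inr ⟨by rw [edOn_sup (iv_of_sub_one (iv_cy _ _)) (iv_of_sub_one (iv_cy _ _)) h8,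
    edOn_cy h1 hv, edOn_cy h1 fun e => h5 (by simp [e])], fun _ => mul_right_cancel₀ hw ?_⟩⟩
  rw [← E.beta ha h1]; linear_combination h4

theorem EB.decomp (E : EB B ε) (ha : Pres B a) (h : IsNilpotent (a - 1)) : ∃ M₁ M₂ : Multiset ℕ, jt a = M₁ + M₂ + M₂ ∧
    (∀ k ∈ M₁, (-1) ^ k * ε = -1 ∧ ((∀ x, B x x = 0) → Even k)) ∧ (∀ k ∈ M₂, (2 : F) ≠ 0 → (-1) ^ k * ε = 1) ∧
    ∀ N₁ ≤ M₁, ∀ N₂ ≤ M₂, HasND B a (N₁ + N₂ + N₂).sum := by
  induction hn : finrank F V using Nat.strong_induction_on generalizing V with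
  | _ n ih =>
  rcases subsingleton_or_nontrivial V with h0 | h0
  · refine ⟨0, 0, Multiset.eq_zero_of_forall_notMem fun k hk => ?_, by simp, by simp, fun N₁ h1 N₂ h2 => ⟨⊥, by
      simp [Multiset.le_zero.1 h1, Multiset.le_zero.1 h2], disjoint_bot_left, iv_bot _⟩⟩
    exact (jt_pos hk).not_ge ((pow_eq_zero_iff_jt h 0).1 (Subsingleton.elim _ _) k hk)
  obtain ⟨j, U, h1, h2, h3⟩ := E.piece ha h
  have h4 := E.iv_sperp ha h1
  have h5 := Submodule.finrank_add_eq_of_isCompl (E.isCompl h2)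
  have h6 := tdg_edOn h1
  have h7 : IsNilpotent (a.restrict h4 - 1) := h.imp fun k hk => LinearMap.ext fun x => Subtype.ext (by
    simp [restrict_sub_one_pow, hk])
  have h8 := congrArg (Multiset.map PP.k) (ed_eq_add h1 h4 (E.isCompl h2))
  rw [Multiset.map_add, edOn_eq h4, ← jt, ← jt] at h8
  have h9 : ∀ m, HasND (H12.res B (sperp B U)) (a.restrict h4) m → HasND B a (finrank F U + m) := by
    rintro _ ⟨T, rfl, g1, g2⟩
    have g3 : Ort B U (T.map (sperp B U).subtype) := by rintro u hu _ ⟨v, -, rfl⟩; exact v.2 u hu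
    refine ⟨_, ?_, Submodule.disjoint_def.2 fun x hx g4 => ?_, h1.sup (iv_map_subtype g2)⟩
    · rw [← Submodule.finrank_map_subtype_eq, ← Submodule.finrank_sup_add_finrank_inf_eq, (h2.disjoint g3).eq_bot,
        finrank_bot, add_zero]
    obtain ⟨u, hu, v, hv, rfl⟩ := Submodule.mem_sup.1 hx
    rw [Submodule.disjoint_def.1 h2 u hu fun w hw => by simpa [g3 w hw v hv] using g4 w (Submodule.mem_sup_left hw),
      Submodule.disjoint_def.1 (g1.map (B := B) (g := (sperp B U).subtype) fun _ _ => rfl) v hv fun w hw => by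
        simpa [E.comm0 (g3 u hu w hw)] using g4 w (Submodule.mem_sup_right hw), add_zero]
  have h10 : ∀ {M N : Multiset ℕ}, N ≤ (j + 1) ::ₘ M → N ≤ M ∨ ∃ N' ≤ M, N = (j + 1) ::ₘ N' := fun {M N} h => by
    by_cases h' : j + 1 ∈ N
    · obtain ⟨N', rfl⟩ := Multiset.exists_cons_of_mem h'
      exact .inr ⟨N', (Multiset.cons_le_cons_iff _).1 h, rfl⟩
    · exact .inl ((Multiset.le_cons_of_notMem h').1 h)
  obtain ⟨M₁, M₂, g1, g2, g3, g4⟩ := ih _ (by
    rcases h3 with h3 | h3 <;> simp [h3.1, upp_dg] at h6 <;> omega) (E.res (E.nds_sperp h2)) (ha.restrict h4) h7 rfl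
  obtain ⟨h3, h11, h12⟩ | ⟨h3, h11⟩ := h3
  · refine ⟨(j + 1) ::ₘ M₁, M₂, by simp [h8, h3, g1, upp], Multiset.forall_mem_cons.2 ⟨⟨by linear_combination -h11,
      fun h => (h12 h).add_one⟩, fun k hk => ⟨(g2 k hk).1, fun h => (g2 k hk).2 fun x => h x⟩⟩, g3, fun N₁ h13 N₂ h14 => ?_⟩
    obtain h15 | ⟨N₁, h15, rfl⟩ := h10 h13
    · exact (g4 _ h15 _ h14).of_restrict
    · simpa [← h6, h3, upp_dg] using h9 _ (g4 _ h15 _ h14)
  · refine ⟨M₁, (j + 1) ::ₘ M₂, by simp [h8, h3, g1, upp], fun k hk => ⟨(g2 k hk).1, fun h => (g2 k hk).2 fun x => h x⟩,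
      Multiset.forall_mem_cons.2 ⟨fun h => by linear_combination -h11 h, g3⟩, fun N₁ h13 N₂ h14 => ?_⟩
    obtain h15 | ⟨N₂, h15, rfl⟩ := h10 h14
    · exact (g4 _ h13 _ h15).of_restrict
    · simpa [← h6, h3, upp_dg, add_assoc] using h9 _ (g4 _ h13 _ h15)

/-- existence of a unipotent isometry of a given type -/
def UJ (ε : F) (M : Multiset (PP F)) : Prop :=
  ∃ (V : Type u) (_ : AddCommGroup V) (_ : Module F V) (_ : FiniteDimensional F V) (B : V →ₛₗ[RingHom.id F] V →ₗ[F] F)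
    (a : End F V), EB B ε ∧ (ε = -1 → ∀ x, B x x = 0) ∧ Pres B a ∧ ed a = M

theorem UJ.add {M M' : Multiset (PP F)} (h : UJ ε M) (h' : UJ ε M') : UJ ε (M + M') := by
  obtain ⟨V, _, _, _, B, a, E, h1, h2, rfl⟩ := h
  obtain ⟨W, _, _, _, B', b, E', h3, h4, rfl⟩ := h'
  exact ⟨V × W, _, _, inferInstance, sumB B B', _, ⟨E.eps, fun x y => by rw [sumB_apply, sumB_apply, E.symm, E'.symm, mul_add],
    fun x hx => Prod.ext (E.sep _ fun y => by simpa [sumB_apply] using hx (y, 0))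
      (E'.sep _ fun y => by simpa [sumB_apply] using hx (0, y))⟩, fun h x => by simp [sumB_apply, h1 h, h3 h],
    h2.prodMap h4, ed_prodMap _ _⟩

theorem uj_zero (h : ε * ε = 1) : UJ ε 0 :=
  ⟨_, _, _, inferInstance, 0, _, ⟨h, by simp, fun _ _ => Subsingleton.elim _ _⟩, by simp, fun _ _ => rfl, ed_model 0⟩

theorem uj_pair (h : ε * ε = 1) (j : ℕ) : UJ ε ({upp F (j + 1)} + {upp F (j + 1)}) := by
  obtain ⟨b, h1, h2⟩ := exists_jt (F := F) (V := Fin (j + 1) → F) (M := {j + 1}) (by simp) (by simp)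
  have h3 : ∀ i, (b - 1) ^ i = 0 ↔ j + 1 ≤ i := fun i => by simp [pow_eq_zero_iff_jt h1, h2]
  have E := nds_std (σ := RingHom.id F) (fun _ => rfl) (j + 1)
  have hs : ∀ x y, stdB (RingHom.id F) 1 (Fin (j + 1)) y x = stdB (RingHom.id F) 1 _ x y := std_symm fun _ => rfl
  obtain ⟨c, hc⟩ : IsUnit b := by simpa using h1.isUnit_add_one
  have h6 : ∀ x y, stdB (RingHom.id F) 1 _ (E.adj c.inv x) (b y) = stdB (RingHom.id F) 1 _ x y := fun x y => by
    rw [E.adj_apply, ← End.mul_apply, ← hc, c.inv_val, End.one_apply]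
  generalize E.adj c.inv = b' at h6
  have h7 : ∀ i x y, stdB (RingHom.id F) 1 _ (((b' - 1) ^ i) x) ((b ^ i) y) =
      (-1) ^ i * stdB (RingHom.id F) 1 _ x (((b - 1) ^ i) y) := fun i x => by
    induction i with
    | zero => simp
    | succ i ih =>
      intro y
      have : ∀ x y, stdB (RingHom.id F) 1 _ ((b' - 1) x) (b y) = -stdB (RingHom.id F) 1 _ x ((b - 1) y) := fun x y => by
        simp [h6 x y]
      rw [pow_succ', pow_succ' b, End.mul_apply, End.mul_apply, this, ← End.mul_apply,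
        ((Commute.refl b).sub_left (Commute.one_left b)).pow_right i, End.mul_apply, ih, ← End.mul_apply, ← pow_succ]
      ring
  refine ⟨(Fin (j + 1) → F) × (Fin (j + 1) → F), _, _, inferInstance, LinearMap.mk₂ F
    (fun x y => stdB (RingHom.id F) 1 _ x.1 y.2 + ε * stdB (RingHom.id F) 1 _ x.2 y.1) (fun _ _ _ => by simp; ring)
    (fun _ _ _ => by simp; ring) (fun _ _ _ => by simp; ring) (fun _ _ _ => by simp; ring), b.prodMap b',
    ⟨h, fun x y => ?_, fun x hx => Prod.ext (E.sep _ fun y => by simpa using hx (0, y)) (E.sep _ fun y => by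
      simpa [left_ne_zero_of_mul_eq_one h] using hx (y, 0))⟩, fun h x => by simp [h, hs x.1], fun x y => by
        simp [h6, hs (b' _), hs y.2], ?_⟩
  · simp only [LinearMap.mk₂_apply, hs y.1, hs y.2]
    linear_combination -stdB (RingHom.id F) 1 _ y.1 x.2 * h
  · rw [ed_prodMap, ed_eq_single (j := j) ((h3 _).2 le_rfl) (mt (h3 _).1 (by simp)) (by simp), ed_eq_single (j := j) (LinearMap.ext fun x =>
      E.sep _ fun y => ?_) (fun e => absurd ((h3 j).1 (LinearMap.ext fun y => E.sep _ fun x => ?_)) (by simp)) (by simp)]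
    · obtain ⟨y, rfl⟩ := ((End.isUnit_iff _).1 ((hc ▸ c.isUnit).pow (j + 1))).2 y
      simp [h7, (h3 _).2 le_rfl]
    · simpa [e, hs x] using h7 j x y

theorem uj_single (h : ε * ε = 1) {j : ℕ} (h1 : (ε = -1 ∧ Odd j) ∨ ((2 : F) ≠ 0 ∧ ε = 1 ∧ Even j)) :
    UJ ε {upp F (j + 1)} := by
  suffices ∃ (V : Type u) (_ : AddCommGroup V) (_ : Module F V) (_ : FiniteDimensional F V)
      (B : V →ₛₗ[RingHom.id F] V →ₗ[F] F) (a : End F V) (w : V), EB B ε ∧ (ε = -1 → ∀ x, B x x = 0) ∧ Pres B a ∧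
      finrank F V = j + 1 ∧ (a - 1) ^ (j + 1) = 0 ∧ B (((a - 1) ^ j) w) w ≠ 0 by
    obtain ⟨V, _, _, _, B, a, w, E, h2, h3, h4, h5, h6⟩ := this
    exact ⟨V, _, _, inferInstance, B, a, E, h2, h3, ed_eq_single h5 (fun e => h6 (by simp [e])) h4.le⟩
  induction j using Nat.twoStepInduction with
  | zero =>
    obtain ⟨h2, rfl, -⟩ := h1.resolve_left (by simp)
    exact ⟨F, _, _, inferInstance, LinearMap.mul F F, 1, 1, ⟨h, fun x y => by simp [mul_comm], fun x hx => by
      simpa using hx 1⟩, fun h => absurd (by linear_combination h) h2, fun _ _ => rfl, by simp, by simp, by simp⟩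
  | one =>
    obtain ⟨rfl, -⟩ := h1.resolve_right (by simp)
    exact ⟨F × F, _, _, inferInstance, LinearMap.mk₂ F (fun x y => x.1 * y.2 - x.2 * y.1) (fun _ _ _ => by simp; ring)
      (fun _ _ _ => by simp; ring) (fun _ _ _ => by simp; ring) (fun _ _ _ => by simp; ring),
      (LinearMap.fst F F F + LinearMap.snd F F F).prod (LinearMap.snd F F F), (0, 1), ⟨h, fun x y => by simp; ring,
      fun x hx => Prod.ext (by simpa using hx (0, 1)) (by simpa using hx (1, 0))⟩, fun _ x => by simp [mul_comm],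
      fun x y => by simp; ring, by simp, by ext <;> simp [pow_succ], by simp⟩
  | more j ih _ =>
    obtain ⟨V, _, _, _, B, a, w, E, h2, h3, h4, h5, h6⟩ := ih (by simpa [Nat.odd_add, Nat.even_add] using h1)
    obtain ⟨c, hc⟩ : ∃ c, c * (1 + ε) + B w w = 0 := h1.elim (fun h => ⟨0, by simp [h2 h.1]⟩) fun h =>
      ⟨-B w w / 2, by rw [h.2.1]; field_simp [h.1]; ring⟩
    let b : End F (F × V × F) :=
      { toFun := fun x => (x.1 - B (a x.2.1) w + c * x.2.2, a x.2.1 + x.2.2 • w, x.2.2)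
        map_add' := fun x y => by ext <;> simp [add_smul] <;> abel_nf <;> ring
        map_smul' := fun x y => by ext <;> simp [mul_smul]; ring }
    have h7 : ∀ (i : ℕ) (s : F) (x : V), ((b - 1) ^ (i + 1)) (s, x, 0) = (-B (a (((a - 1) ^ i) x)) w, ((a - 1) ^ (i + 1)) x, 0) := fun i s x => by
      induction i with
      | zero => simp [b]
      | succ i ih => rw [pow_succ', End.mul_apply, ih]; simp [b, pow_succ']; ring
    have h8 : ∀ x : F × V × F, (b - 1) x = (-B (a x.2.1) w + c * x.2.2, (a - 1) x.2.1 + x.2.2 • w, 0) := fun x => by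
      ext <;> simp [b] <;> abel
    have h9 : a (((a - 1) ^ j) w) = ((a - 1) ^ j) w := by simpa [pow_succ', sub_eq_zero] using LinearMap.congr_fun h5 w
    refine ⟨F × V × F, _, _, inferInstance, LinearMap.mk₂ F (fun x y => x.1 * y.2.2 + ε * (x.2.2 * y.1) + B x.2.1 y.2.1)
      (fun _ _ _ => by simp; ring) (fun _ _ _ => by simp; ring) (fun _ _ _ => by simp; ring) (fun _ _ _ => by simp; ring),
      b, (0, 0, 1), ⟨h, fun x y => ?_, fun x hx => Prod.ext (by simpa using hx (0, 0, 1)) (Prod.ext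
        (E.sep _ fun y => by simpa using hx (0, y, 0)) (by simpa [left_ne_zero_of_mul_eq_one h] using hx (1, 0, 0)))⟩,
      fun h x => by simp [h, h2 h, mul_comm], fun x y => ?_, by simp [h4]; omega, LinearMap.ext fun x => ?_, ?_⟩
    · simp only [LinearMap.mk₂_apply, E.symm x.2.1]
      linear_combination -x.2.2 * y.1 * h
    · simp only [LinearMap.mk₂_apply, b, LinearMap.coe_mk, AddHom.coe_mk, map_add, map_smul, LinearMap.add_apply,
        LinearMap.smul_apply, smul_eq_mul, h3 _ _, E.symm (a y.2.1) w]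
      linear_combination x.2.2 * y.2.2 * hc
    · rw [pow_succ, End.mul_apply, h8, h7, h5, pow_succ', h5]; simp
    · rw [pow_succ, End.mul_apply, h8, h7]; simpa [h9, h5] using h6

theorem uj_of {M : Multiset ℕ} (h : ε * ε = 1) (h0 : ∀ k ∈ M, 0 < k)
    (h1 : ∀ k, ¬ ((ε = -1 ∧ Even k) ∨ ((2 : F) ≠ 0 ∧ ε = 1 ∧ Odd k)) → 0 < k → Even (M.count k)) : UJ ε (M.map (upp F)) := by
  induction M using Multiset.strongInductionOn with
  | _ M ih =>
  rcases M.empty_or_exists_mem with rfl | ⟨k, hk⟩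
  · exact uj_zero h
  obtain ⟨M, rfl⟩ := Multiset.exists_cons_of_mem hk
  obtain ⟨j, rfl⟩ := Nat.exists_eq_add_of_lt (h0 k hk)
  rw [zero_add] at *
  by_cases h2 : (ε = -1 ∧ Even (j + 1)) ∨ ((2 : F) ≠ 0 ∧ ε = 1 ∧ Odd (j + 1))
  · simpa using (uj_single h (by simpa [Nat.even_add_one, Nat.odd_add_one] using h2)).add (ih M (Multiset.lt_cons_self _ _)
      (fun k hk => h0 k (Multiset.mem_cons_of_mem hk)) fun k h3 h4 => by
        simpa [show k ≠ j + 1 by rintro rfl; exact h3 h2] using h1 k h3 h4)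
  obtain ⟨M, rfl⟩ := Multiset.exists_cons_of_mem (s := M) (a := j + 1) (by
    by_contra h3
    simpa [Multiset.count_eq_zero.2 h3] using h1 _ h2 j.succ_pos)
  simpa using (uj_pair h j).add (ih M ((Multiset.lt_cons_self _ _).trans (Multiset.lt_cons_self _ _))
    (fun k hk => h0 k (by simp [hk])) fun k h3 h4 => by
      by_cases h5 : k = j + 1
      · simpa [h5, Nat.even_add_one] using h1 k h3 h4
      · simpa [h5] using h1 k h3 h4)

theorem sp_even_count (D : SD B) (ha : Pres B a) (h : IsNilpotent (a - 1)) {k : ℕ} (hk : Odd k) : Even ((jt a).count k) := by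
  obtain ⟨M₁, M₂, h1, h2, -⟩ := (eb_of_sd D).decomp ha h
  simp [h1, Multiset.count_eq_zero.2 fun h => Nat.not_even_iff_odd.2 hk ((h2 k h).2 (D.self_eq_zero rfl))]

theorem exists_sp_jt [Finite F] (D : SD B) {M : Multiset ℕ} (h0 : ∀ k ∈ M, 0 < k) (h1 : ∀ k, Odd k → Even (M.count k))
    (h2 : M.sum = finrank F V) : ∃ a, Pres B a ∧ ed a = M.map (upp F) := by
  obtain ⟨W, _, _, _, B', b, E, h3, h4, h5⟩ := uj_of (ε := (-1 : F)) (by simp) h0 fun k h _ =>
    h1 k (Nat.not_even_iff_odd.1 fun h' => h (.inl ⟨rfl, h'⟩))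
  obtain ⟨e, he⟩ := (E.sd (h3 rfl)).exists_isometry D (by rw [← tdg_ed b, h5, tdg_map_upp h0, h2])
  have h6 : Sim b (e.conj b) := ⟨e, fun v => by simp [LinearEquiv.conj_apply]⟩
  exact ⟨e.conj b, fun x y => by simp [LinearEquiv.conj_apply, he, h4 _ _, ← he (e.symm x)], h6.ed_eq ▸ h5⟩

theorem sp_hasND_iff (D : SD B) (h2 : (2 : F) ≠ 0) (ha : Pres B a) (h : IsNilpotent (a - 1)) (m : ℕ) :
    HasND B a m ↔ ∃ ν ≤ jt a, ν.sum = m ∧ ∀ k, Odd k → Even (ν.count k) := by
  constructor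
  · rintro ⟨U, rfl, h3, h4⟩
    have h7 : IsNilpotent (a.restrict h4 - 1) := h.imp fun k hk => LinearMap.ext fun x => Subtype.ext (by
      simp [restrict_sub_one_pow, hk])
    refine ⟨_, ?_, sum_jt h7, fun k => sp_even_count (D.restrict h3) (ha.restrict h4) h7⟩
    rw [jt, jt, ← edOn_eq, ed_eq_add h4 (h4.sperp D ha) (D.isCompl h3), Multiset.map_add]
    exact le_self_add
  · rintro ⟨ν, h3, rfl, h4⟩
    obtain ⟨M₁, M₂, h5, h6, h7, h8⟩ := (eb_of_sd D).decomp ha h
    have h9 : ∀ k ∈ M₂, Odd k := fun k hk => Nat.not_even_iff_odd.1 fun e => h2 (by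
      have := h7 k hk h2; rw [e.neg_one_pow] at this; linear_combination -this)
    have h10 : ∀ k, Odd k → M₁.count k = 0 := fun k hk => Multiset.count_eq_zero.2 fun h =>
      Nat.not_even_iff_odd.2 hk ((h6 k h).2 (D.self_eq_zero rfl))
    obtain ⟨N, N', h11, -, -, h12⟩ := St.exists_pair (ψ := id) (N := ν.filter Odd) Function.injective_id (Multiset.map_id _)
    have h13 : ∀ k, (if Odd k then ν.count k else 0) = 2 * N.count k + N'.count k := fun k => by
      rw [← Multiset.count_filter, h11]; simp [two_mul]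
    obtain rfl : N' = 0 := Multiset.ext.2 fun k => by
      have := h13 k
      have := Multiset.nodup_iff_count_le_one.1 h12 k
      by_cases h : Odd k
      · have := Nat.even_iff.1 (h4 k h)
        simp only [h, if_true, Multiset.count_zero] at *; omega
      · simp only [h, if_false, Multiset.count_zero] at *; omega
    rw [← Multiset.filter_add_not Odd ν, h11, add_zero, add_comm, ← add_assoc]
    refine h8 _ (Multiset.le_iff_count.2 fun k => ?_) _ (Multiset.le_iff_count.2 fun k => ?_)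
    all_goals
      have := Multiset.count_le_of_le k h3
      have := h13 k
      by_cases h : Odd k
      · have := h10 k h
        simp only [h5, Multiset.count_add, Multiset.count_filter, h, if_true, not_true, if_false] at *; omega
      · have := Multiset.count_eq_zero.2 (mt (h9 k) h)
        simp only [h5, Multiset.count_add, Multiset.count_filter, h, if_true, not_false_iff, if_false] at *; omega

omit [FiniteDimensional F V] in
theorem eb_polar {Q : QuadraticForm F V} (h : (QuadraticMap.polarBilin Q).Nondegenerate) :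
    EB (QuadraticMap.polarBilin Q) 1 := ⟨one_mul _, fun x y => by simp [QuadraticMap.polar_comm Q y], h.1⟩

theorem exists_O_of {n : ℕ} {Q : QuadraticForm F V} (hQ : ND Q) (ha : ∀ x, Q (a x) = Q x) (h : finrank F V = n) :
    ∃ Q' : QuadraticForm F (Fin n → F), (QuadraticMap.polarBilin Q').Nondegenerate ∧
      ∃ A : isometryGroup F Q', ed a = med ((A : GL (Fin n) F) : Matrix (Fin n) (Fin n) F) := by
  obtain ⟨e⟩ : Nonempty ((Fin n → F) ≃ₗ[F] V) := ⟨.ofFinrankEq _ _ (by simp [h])⟩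
  have h1 : ND (Q.comp e.toLinearMap) := fun x hx => e.map_eq_zero_iff.1 (hQ _ fun y => by
    simpa [QuadraticMap.polar] using hx (e.symm y))
  obtain ⟨A, hA⟩ := ((rl_O h1).range (e.symm.conj a)).2 ⟨fun x y => by
    simp [QuadraticMap.polar, LinearEquiv.conj_apply, ← map_add, ha], fun x => by simp [LinearEquiv.conj_apply, ha]⟩
  have h6 : Sim a (e.symm.conj a) := ⟨e.symm, fun v => by simp [LinearEquiv.conj_apply]⟩
  exact ⟨_, ⟨h1, fun x hx => h1 x fun y => (QuadraticMap.polar_comm _ _ _).trans (hx y)⟩, A, h6.ed_eq.trans (congrArg ed hA.symm)⟩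

theorem count_univ_map {t : ℕ} (d : Fin t → ℕ) (i : ℕ) :
    (Finset.univ.filter fun k => d k = i).card = (Finset.univ.val.map d).count i := by
  rw [Multiset.count_map]; simp [eq_comm, Finset.card, Finset.filter]

end Cfsg.Agent.H28
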