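import Cfsg.Agent.H28.Elu11

/-! Unitary groups: elements of prime order modulo scalars. -/

set_option autoImplicit false

namespace Cfsg.Agent.H28

open Polynomial Module H12 H13

section Cyc
variable {k : Type*} [Field k] {g z : k} {N r n : ℕ}

theorem exists_root_of_coprime (h : n.Coprime N) (hz : z ^ N = 1) : ∃ w, w ^ N = 1 ∧ w ^ n = z :=
  let ⟨m, hm⟩ := exists_pow_eq_self_of_coprime (h.coprime_dvd_right (orderOf_dvd_of_pow_eq_one hz))
  ⟨z ^ m, by rw [pow_right_comm, hz, one_pow], by rw [pow_right_comm, hm]⟩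

/-- non-powers among the roots of unity -/
def NP (N r : ℕ) (z : k) : Prop := z ^ N = 1 ∧ ∀ b, b ^ N = 1 → b ^ r ≠ z

theorem NP.dvd (hr : r.Prime) (h : NP N r z) : r ∣ N := by_contra fun h' =>
  let ⟨w, h1, h2⟩ := exists_root_of_coprime ((Nat.Prime.coprime_iff_not_dvd hr).2 h') h.1
  h.2 w h1 h2

theorem exists_eq_padic [Fact r.Prime] (hN : N ≠ 0) : ∃ e, ¬ r ∣ e ∧ N = e * r ^ padicValNat r N := by
  obtain ⟨e, he⟩ := pow_padicValNat_dvd (p := r) (n := N)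
  refine ⟨e, fun h => pow_succ_padicValNat_not_dvd (p := r) hN ?_, he.trans (mul_comm _ _)⟩
  conv_rhs => rw [he]
  exact pow_succ r _ ▸ Nat.mul_dvd_mul_left _ h

variable (hg : IsPrimitiveRoot g N) (hN : N ≠ 0)
include hg hN

theorem np_pow_iff (hr : r.Prime) (h : r ∣ N) (hn : n ≠ 0) :
    (∃ z : k, NP N r z ∧ z ^ n = 1) ↔ padicValNat r N ≤ padicValNat r n := by
  have := Fact.mk hr
  have := NeZero.mk hN
  rw [← padicValNat_dvd_iff_le hn]
  have h0 : ∀ j, (g ^ j) ^ N = 1 := fun j => by rw [pow_right_comm, hg.pow_eq_one, one_pow]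
  constructor
  · rintro ⟨z, ⟨h1, h2⟩, h3⟩
    obtain ⟨j, -, rfl⟩ := hg.eq_pow_of_pow_eq_one h1
    rw [← pow_mul, hg.pow_eq_one_iff_dvd] at h3
    refine (((Nat.Prime.coprime_iff_not_dvd hr).2 ?_).pow_left _).dvd_of_dvd_mul_left (pow_padicValNat_dvd.trans h3)
    rintro ⟨j, rfl⟩
    exact h2 _ (h0 j) (by rw [← pow_mul, mul_comm])
  · rintro ⟨l, rfl⟩
    obtain ⟨e, h1, h2⟩ := exists_eq_padic (r := r) hN
    refine ⟨g ^ e, ⟨h0 e, fun b hb h3 => h1 ?_⟩, by rw [pow_mul, ← pow_mul g, ← h2, hg.pow_eq_one, one_pow]⟩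
    obtain ⟨j, -, rfl⟩ := hg.eq_pow_of_pow_eq_one hb
    obtain ⟨d, hd⟩ := h
    have h4 := congrArg (· ^ d) h3
    simp only [← pow_mul, mul_assoc, ← hd] at h4
    rw [pow_mul, h0, eq_comm, hg.pow_eq_one_iff_dvd, hd] at h4
    exact Nat.dvd_of_mul_dvd_mul_right (Nat.pos_of_ne_zero (by rintro rfl; exact hN hd)) h4

theorem exists_pow_eq_neg_one_iff (h2 : (2 : k) ≠ 0) (hn : n ≠ 0) :
    (∃ w : k, w ^ N = 1 ∧ w ^ n = -1) ↔ padicValNat 2 n < padicValNat 2 N := by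
  constructor
  · rintro ⟨w, h1, h3⟩
    by_contra! h
    obtain ⟨e, h4, h5⟩ := exists_eq_padic (r := 2) hN
    obtain ⟨l, rfl⟩ := (padicValNat_dvd_iff_le hn).2 h
    have h6 := congrArg (· ^ e) h3
    simp only [(Nat.not_even_iff_odd.1 (mt Even.two_dvd h4)).neg_one_pow] at h6
    rw [pow_right_comm, pow_mul, ← pow_mul w, ← h5, h1, one_pow] at h6
    exact h2 (by linear_combination h6)
  · intro h
    obtain ⟨l, h4, h5⟩ := exists_eq_padic (r := 2) hn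
    obtain ⟨e, he⟩ := (padicValNat_dvd_iff_le hN).2 h
    refine ⟨g ^ e, by rw [pow_right_comm, hg.pow_eq_one, one_pow], ?_⟩
    rw [h5, mul_comm l, pow_mul, ← pow_mul g, (hg.pow (Nat.pos_of_ne_zero hN) (he.trans (by rw [pow_succ]; ring))).eq_neg_one_of_two_right,
      (Nat.not_even_iff_odd.1 (mt Even.two_dvd h4)).neg_one_pow]

theorem np_det_iff (hr : r.Prime) (h : r ∣ N) (h0 : (r : k) ≠ 0) (hn : n ≠ 0) :
    (∃ (z : k) (l : ℕ), NP N r z ∧ n = l * r ∧ ((-1) ^ (r + 1) * z) ^ l = 1) ↔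
      ¬ (padicValNat r n ≤ padicValNat r N ∧ (r = 2 → Even n → 4 ∣ N)) := by
  have := Fact.mk hr
  have h1 := one_le_padicValNat_of_dvd hN h
  have h9 : r = 2 → ((∃ w : k, w ^ N = 1 ∧ w ^ 2 = -1) ↔ 4 ∣ N) := by
    rintro rfl
    rw [exists_pow_eq_neg_one_iff hg hN (by simpa using h0) two_ne_zero, padicValNat_self, show 4 = 2 ^ 2 from rfl,
      padicValNat_dvd_iff_le hN]; rfl
  by_cases h2 : r = 2 ∧ ¬ 4 ∣ N
  · obtain ⟨rfl, h2⟩ := h2
    constructor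
    · rintro ⟨z, k, -, rfl, -⟩ ⟨-, h3⟩
      exact h2 (h3 rfl (by simp))
    · intro h3
      obtain ⟨l, rfl⟩ : 2 ∣ n := by
        by_contra h4
        exact h3 ⟨by rw [padicValNat.eq_zero_of_not_dvd h4]; omega, fun _ h5 => absurd h5.two_dvd h4⟩
      exact ⟨-1, l, ⟨(even_iff_two_dvd.2 h).neg_one_pow, fun b hb hb' => h2 ((h9 rfl).1 ⟨b, hb, hb'⟩)⟩, mul_comm _ _,
        by norm_num⟩
  · obtain ⟨c, hc, hc'⟩ : ∃ c : k, c ^ N = 1 ∧ c ^ r = (-1) ^ (r + 1) := by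
      rcases hr.eq_two_or_odd' with rfl | h3
      · obtain ⟨c, hc⟩ := (h9 rfl).2 (by simpa using h2)
        exact ⟨c, hc.1, by rw [hc.2]; norm_num⟩
      · exact ⟨1, one_pow _, by rw [h3.add_one.neg_one_pow, one_pow]⟩
    have h3 : ∀ z : k, NP N r z → NP N r ((-1) ^ (r + 1) * z) := fun z hz =>
      ⟨by rw [mul_pow, hz.1, ← hc', pow_right_comm, hc, one_pow, one_mul], fun b hb e => hz.2 (c * b)
        (by rw [mul_pow, hc, hb, one_mul]) (by rw [mul_pow, hc', e, ← mul_assoc, ← mul_pow]; simp)⟩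
    have h5 : ∀ k, n = k * r → padicValNat r n = padicValNat r k + 1 := by
      rintro k rfl
      rw [padicValNat.mul (left_ne_zero_of_mul hn) hr.ne_zero, padicValNat_self]
    rw [and_iff_left fun h _ => by simpa [h] using h2]
    constructor
    · rintro ⟨z, l, h6, h7, h8⟩
      have := (np_pow_iff hg hN hr h (n := l) (by rintro rfl; exact hn (by simpa using h7))).1 ⟨_, h3 z h6, h8⟩
      have := h5 l h7
      omega
    · intro h6
      obtain ⟨l, hl⟩ : r ∣ n := dvd_of_one_le_padicValNat (by omega)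
      rw [mul_comm] at hl
      have := h5 l hl
      obtain ⟨z, h7, h8⟩ := (np_pow_iff hg hN hr h (n := l) (by rintro rfl; exact hn (by simpa using hl))).2 (by omega)
      exact ⟨_, l, h3 z h7, hl, by rwa [← mul_assoc, ← mul_pow, neg_mul_neg, one_mul, one_pow, one_mul]⟩

end Cyc

variable {F V : Type*} [Field F] [Fintype F] [AddCommGroup V] [Module F V] {q : ℕ} {hF : Fintype.card F = q ^ 2}
  {B : V →ₛₗ[frobq hF] V →ₗ[F] F} {a : End F V} {r m : ℕ} {z : F}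

local notation "K" => AlgebraicClosure F
local notation "ι" => algebraMap F (AlgebraicClosure F)

theorem n1_iff {w : F} : frobq hF w * w = 1 ↔ w ^ (q + 1) = 1 := by rw [frobq_apply, pow_succ]

theorem exists_prim_n1 (hF : Fintype.card F = q ^ 2) : ∃ g : F, IsPrimitiveRoot g (q + 1) := by
  classical
  obtain ⟨g, hg⟩ := IsCyclic.exists_ofOrder_eq_natCard (α := Fˣ)
  rw [Nat.card_units, Nat.card_eq_fintype_card, hF, ← one_pow 2, Nat.sq_sub_sq, mul_comm] at hg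
  have := two_le_of_card_eq_sq hF
  exact ⟨_, (IsPrimitiveRoot.coe_units_iff.2 (.orderOf g)).pow (orderOf_pos g) hg⟩

theorem cast_q (hF : Fintype.card F = q ^ 2) : (q : F) = 0 :=
  eq_zero_of_pow_eq_zero (n := 2) (by rw [← Nat.cast_pow, ← hF, FiniteField.cast_card_eq_zero])

theorem cast_ne_of_dvd (hF : Fintype.card F = q ^ 2) (h : r ∣ q + 1) : (r : F) ≠ 0 := fun e => by
  obtain ⟨c, hc⟩ := h
  simpa [cast_q hF, e] using congrArg (Nat.cast : ℕ → F) hc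

theorem forall_SU_iff {n : ℕ} {P : End F (Fin n → F) → Prop} :
    (∀ x : Matrix.SpecialLinearGroup (Fin n) F, x ∈ SU n F q →
      (∃ c : F, ((x ^ r : Matrix.SpecialLinearGroup (Fin n) F) : Matrix (Fin n) (Fin n) F) = c • (1 : Matrix (Fin n) (Fin n) F)) →
      (∀ c : F, (x : Matrix (Fin n) (Fin n) F) ≠ c • (1 : Matrix (Fin n) (Fin n) F)) →
      P (Matrix.toLin' (x : Matrix (Fin n) (Fin n) F))) ↔
    ∀ a, Pres (uB hF n) a → LinearMap.det a = 1 → PO r a → P a := by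
  constructor
  · intro h a h0 h1 h2
    obtain ⟨A, rfl⟩ := Matrix.toLin'.surjective a
    rw [po_toLin'] at h2
    exact h ⟨A, by rwa [LinearMap.det_toLin'] at h1⟩ ((preserves_iff_uB hF _).2 h0) h2.1 h2.2
  · exact fun h x h0 h1 h2 => h _ ((preserves_iff_uB hF _).1 h0) (by rw [LinearMap.det_toLin', x.2])
      ((po_toLin' _ _).2 ⟨h1, h2⟩)

theorem po_cases_u [Nontrivial V] (D : SD B) (ha : Pres B a) (h : PO r a) :
    (∃ w : F, w ^ (q + 1) = 1 ∧ ∃ y, a = w • y ∧ Pres B y ∧ y ^ r = 1 ∧ y ≠ 1) ∨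
      ∃ z : F, NP (q + 1) r z ∧ a ^ r = z • 1 := by
  obtain ⟨⟨z, hz⟩, h⟩ := h
  have h1 := n1_iff.1 (mul_eq_one_of_pres D (hz ▸ ha.pow r))
  refine or_iff_not_imp_left.2 fun h2 => ⟨z, ⟨h1, ?_⟩, hz⟩
  rintro w h3 rfl
  have hw : w ≠ 0 := by rintro rfl; simp at h3
  exact h2 ⟨w, h3, w⁻¹ • a, by simp [smul_smul, hw], ha.smul (n1_iff.2 (by simp [h3])),
    by simp [_root_.smul_pow, hz, smul_smul, hw], fun e => h w (by simp [← e, smul_smul, hw])⟩

variable [FiniteDimensional F V]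

theorem det_n1 (D : SD B) (ha : Pres B a) : LinearMap.det a ^ (q + 1) = 1 := by
  have := mem_N1.1 (D.udet_mem_N1 ⟨.ofBijective a ((End.isUnit_iff a).1 (D.wittData.nds.isUnit ha)), ha⟩)
  rw [coe_udet] at this
  exact n1_iff.1 this

theorem forall_po_u_two [Nontrivial V] (D : SD B) (hr : r.Prime) (h : ¬ r ∣ q + 1) {P : End F V → Prop}
    (hP : ∀ w : F, w ≠ 0 → ∀ a, P a → P (w • a)) :
    (∀ a, Pres B a → LinearMap.det a = 1 → PO r a → P a) ↔ ∀ y, Pres B y → y ^ r = 1 → y ≠ 1 → P y := by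
  have h0 : ∀ z : F, z ^ (q + 1) = 1 → z ^ r = 1 → z = 1 := fun z h1 h2 => by
    rw [← orderOf_eq_one_iff, ← Nat.dvd_one, ← ((Nat.Prime.coprime_iff_not_dvd hr).2 h).gcd_eq_one]
    exact Nat.dvd_gcd (orderOf_dvd_of_pow_eq_one h2) (orderOf_dvd_of_pow_eq_one h1)
  constructor
  · refine fun H y hy h1 h2 => H y hy (h0 _ (det_n1 D hy) (by rw [← map_pow, h1, map_one])) ⟨⟨1, by simp [h1]⟩, ?_⟩
    rintro z rfl
    rw [_root_.smul_pow, one_pow] at h1
    exact h2 (by rw [h0 z (n1_iff.1 (mul_eq_one_of_pres D hy))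
      (smul_left_injective F one_ne_zero (h1.trans (one_smul _ _).symm)), one_smul])
  · intro H a ha _ h2
    obtain ⟨w, hw, y, rfl, h3, h4, h5⟩ | ⟨z, hz, -⟩ := po_cases_u D ha h2
    · exact hP w (by rintro rfl; simp at hw) y (H y h3 h4 h5)
    · exact absurd (hz.dvd hr) h

section NP
variable {ρ : AlgebraicClosure F →+* AlgebraicClosure F} (hρ : ∀ x, ρ x = x ^ q)
include hρ

omit [Fintype F] in
theorem del_fix {x : K} (h : x ^ (q + 1) = 1) : (ρ x)⁻¹ = x := inv_eq_of_mul_eq_one_right (by rw [hρ, ← pow_succ, h])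

omit hρ [Fintype F] in
theorem del_inj : Function.Injective fun x : K => (ρ x)⁻¹ := inv_injective.comp ρ.injective

include hF

theorem del_ext (c : F) : ρ (ι c) = ι (frobq hF c) := by rw [hρ, frobq_apply, map_pow]

theorem del_del : ((fun x : K => (ρ x)⁻¹) ∘ fun x : K => (ρ x)⁻¹) = (· ^ Fintype.card F) :=
  funext fun x => by simp [hρ, hF, ← pow_mul, sq]

theorem rs_of_del {M : Multiset K} (h : St (fun x => (ρ x)⁻¹) M) {k : ℕ} (hk : (k : F) ≠ 0) (h' : ∀ x ∈ M, x ^ k = 1) :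
    RS (frobq hF) M :=
  rs_of_st (frobq_frobq hF) ρ (del_ext hρ) (del_del (hF := hF) hρ ▸ h.comp h) h hk h' (.inl (frobq_ne_id hF))

variable [hr : Fact r.Prime] (hz : NP (q + 1) r z)
include hz

theorem NP.per {x : K} (hx : x ^ r = ι z) : Function.minimalPeriod (fun x => (ρ x)⁻¹) x = r := by
  have h1 : (x ^ (q + 1)) ^ r = 1 := by rw [pow_right_comm, hx, ← map_pow, hz.1, map_one]
  have h0 : x ≠ 0 := by rintro rfl; simp [hr.out.ne_zero] at h1
  obtain ⟨c, hc⟩ := hz.dvd hr.out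
  have h2 := del_fix hρ (x := (x ^ (q + 1))⁻¹) (by rw [inv_pow]; nth_rw 2 [hc]; rw [pow_mul, h1, one_pow, inv_one])
  have h3 : ∀ j, (fun x => (ρ x)⁻¹)^[j] x = (x ^ (q + 1))⁻¹ ^ j * x := fun j => by
    induction j with
    | zero => simp
    | succ j ih =>
      rw [Function.iterate_succ_apply', ih, map_mul, map_pow, mul_inv, ← inv_pow, h2, hρ, pow_succ _ j, mul_assoc, pow_succ x]
      field_simp
  refine Function.minimalPeriod_eq_prime ((h3 r).trans (by rw [inv_pow, h1, inv_one, one_mul])) fun h => ?_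
  obtain ⟨g, hg⟩ := exists_prim_n1 hF
  obtain ⟨i, -, rfl⟩ := (hg.map_of_injective (algebraMap F K).injective).eq_pow_of_pow_eq_one (ξ := x) (by
    rw [pow_succ, ← hρ]; nth_rw 2 [← h]; exact mul_inv_cancel₀ ((map_ne_zero ρ).2 h0))
  exact hz.2 (g ^ i) (by rw [pow_right_comm, hg.pow_eq_one, one_pow]) ((algebraMap F K).injective (by simpa using hx))

theorem NP.ss (h : a ^ r = z • 1) : SS a := ⟨r * (q + 1), by simpa [cast_q hF] using cast_ne_of_dvd hF (hz.dvd hr.out), by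
  rw [pow_mul, h, _root_.smul_pow, hz.1, one_pow, one_smul]⟩

open Classical in
theorem NP.orb_eq {x : K} (hx : x ^ r = ι z) : (orb (fun x => (ρ x)⁻¹) x).val = nthRoots r (ι z) := by
  refine Multiset.eq_of_le_of_card_le ((Multiset.le_iff_subset (Finset.nodup _)).2 fun y hy => ?_)
    ((card_nthRoots _ _).trans (by rw [Finset.card_val, card_orb, hz.per (hF := hF) hρ hx]))
  obtain ⟨j, rfl⟩ := (mem_orb (by rw [hz.per (hF := hF) hρ hx]; exact hr.out.pos)).1 hy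
  rw [mem_nthRoots hr.out.pos]
  clear hy
  induction j with
  | zero => exact hx
  | succ j ih => rw [Function.iterate_succ_apply', inv_pow, ← map_pow, ih, del_fix hρ (by rw [← map_pow, hz.1, map_one])]

theorem NP.roots : (nthRoots r (ι z)).card = r ∧ St (fun x => (ρ x)⁻¹) (nthRoots r (ι z)) ∧
    (nthRoots r (ι z)).prod = ι ((-1) ^ (r + 1) * z) := by
  classical
  obtain ⟨x, hx⟩ := IsAlgClosed.exists_pow_nat_eq (ι z) hr.out.pos
  have h1 := (IsAlgClosed.splits (X ^ r - C (ι z))).coeff_zero_eq_prod_roots_of_monic (monic_X_pow_sub_C _ hr.out.ne_zero)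
  refine ⟨by rw [← hz.orb_eq (hF := hF) hρ hx, Finset.card_val, card_orb, hz.per (hF := hF) hρ hx],
    hz.orb_eq (hF := hF) hρ hx ▸ st_orb del_inj (by rw [hz.per (hF := hF) hρ hx]; exact hr.out.pos), ?_⟩
  simp only [coeff_sub, coeff_X_pow, hr.out.ne_zero.symm, if_false, coeff_C_zero, natDegree_X_pow_sub_C, zero_sub] at h1
  rw [map_mul, map_pow, map_neg, map_one, pow_succ, mul_assoc, neg_one_mul, h1, ← mul_assoc, ← mul_pow]
  simp [nthRoots]

theorem NP.eq_nsmul {M : Multiset K} (h : St (fun x => (ρ x)⁻¹) M) (h' : ∀ x ∈ M, x ^ r = ι z) :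
    ∃ l : ℕ, M = l • nthRoots r (ι z) := by
  classical
  refine h.induction del_inj (P := fun M => ∃ l : ℕ, M = l • nthRoots r (ι z)) ⟨0, rfl⟩ ?_
  rintro α hα _ - - - ⟨l, rfl⟩
  exact ⟨l + 1, by rw [hz.orb_eq (hF := hF) hρ (h' α hα), succ_nsmul']⟩

theorem NP.rs (l : ℕ) : RS (frobq hF) (l • nthRoots r (ι z)) :=
  rs_of_del hρ ((hz.roots (hF := hF) hρ).2.1.nsmul l) (k := r * (q + 1))
    (by simpa [cast_q hF] using cast_ne_of_dvd hF (hz.dvd hr.out)) fun x hx => by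
      rw [pow_mul, (mem_nthRoots hr.out.pos).1 (Multiset.mem_of_mem_nsmul hx), ← map_pow, hz.1, map_one]

theorem NP.struct (D : SD B) (ha : Pres B a) (h : a ^ r = z • 1) :
    ∃ l, rts a = l • nthRoots r (ι z) ∧ finrank F V = l * r ∧ LinearMap.det a = ((-1) ^ (r + 1) * z) ^ l := by
  obtain ⟨l, hl⟩ := hz.eq_nsmul (hF := hF) hρ (map_rts_of_pres D ha ρ (del_ext hρ)) fun x hx => pow_eq_of_mem_rts hx h
  obtain ⟨h1, -, h2⟩ := hz.roots (hF := hF) hρ
  exact ⟨l, hl, by rw [← card_rts a, hl, Multiset.card_nsmul, h1], (algebraMap F K).injective (by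
    rw [← prod_rts, hl, Multiset.prod_nsmul, h2, map_pow])⟩

theorem NP.exists_end [Nontrivial V] (D : SD B) {l : ℕ} (h : finrank F V = l * r) :
    ∃ a, Pres B a ∧ a ^ r = z • 1 ∧ PO r a ∧ LinearMap.det a = ((-1) ^ (r + 1) * z) ^ l := by
  obtain ⟨a, h1, h2, h3⟩ := (hz.rs hρ l).exists D (by rw [Multiset.card_nsmul, (hz.roots (hF := hF) hρ).1, h])
  have h4 := h2.pow_eq fun x hx => (mem_nthRoots hr.out.pos).1 (Multiset.mem_of_mem_nsmul (h3 ▸ hx))
  obtain ⟨l', -, h5, h6⟩ := hz.struct hρ D h1 h4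
  refine ⟨a, h1, h4, ⟨⟨z, h4⟩, ?_⟩, Nat.eq_of_mul_eq_mul_right hr.out.pos (h5.symm.trans h) ▸ h6⟩
  rintro w rfl
  rw [_root_.smul_pow, one_pow] at h4
  exact hz.2 w (n1_iff.1 (mul_eq_one_of_pres D h1)) (smul_left_injective F one_ne_zero h4)

theorem NP.hasND_iff (D : SD B) (ha : Pres B a) (h : a ^ r = z • 1) (hm : m ≤ finrank F V) : HasND B a m ↔ r ∣ m := by
  obtain ⟨h1, -⟩ := hz.roots (hF := hF) hρ
  constructor
  · rintro ⟨U, rfl, h2, h3⟩
    obtain ⟨l, -, h4, -⟩ := hz.struct hρ (D.restrict h2) (ha.restrict h3) (restrict_pow_eq h3 h)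
    exact h4 ▸ dvd_mul_left _ _
  · rintro ⟨j, rfl⟩
    obtain ⟨l, h2, h3, -⟩ := hz.struct hρ D ha h
    obtain ⟨l, rfl⟩ := Nat.exists_eq_add_of_le (Nat.le_of_mul_le_mul_right (mul_comm r j ▸ h3 ▸ hm) hr.out.pos)
    obtain ⟨U, h4, h5, h6, -⟩ := exists_nds D ha (hz.ss (hF := hF) hρ h) (hz.rs hρ j) (hz.rs hρ l) (h2.trans (add_nsmul _ _ _))
    exact ⟨U, by rw [← card_rto h4, h6, Multiset.card_nsmul, h1, mul_comm], h5, h4⟩

theorem NP.hasTI_iff (D : SD B) (ha : Pres B a) (h : a ^ r = z • 1) (h0 : r ≠ 2) (hm : 2 * m ≤ finrank F V) :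
    HasTI B a m ↔ r ∣ m := by
  classical
  obtain ⟨h1, h1', -⟩ := hz.roots (hF := hF) hρ
  constructor
  · rintro ⟨U, rfl, -, h3⟩
    refine card_rto h3 ▸ (st_rto h3).dvd_card pow_card_inj fun x hx => ?_
    have := Function.minimalPeriod_iterate_eq_div_gcd (f := fun x => (ρ x)⁻¹) (x := x) two_ne_zero
    rwa [hz.per (hF := hF) hρ (pow_eq_of_mem_rts (rto_eq h3 ▸ hx) (restrict_pow_eq h3 h)),
      ((Nat.coprime_primes hr.out Nat.prime_two).2 h0).gcd_eq_one, Nat.div_one,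
      show (fun x => (ρ x)⁻¹)^[2] = _ from del_del (hF := hF) hρ] at this
  · rintro ⟨j, rfl⟩
    obtain ⟨l, h2, h3, -⟩ := hz.struct hρ D ha h
    obtain ⟨l, rfl⟩ := Nat.exists_eq_add_of_le (Nat.le_of_mul_le_mul_right (a := 2 * j) (b := l)
      (by rw [mul_assoc, mul_comm j, ← h3]; exact hm) hr.out.pos)
    obtain ⟨U, -, h4, -, h5, -, -, h6, -⟩ := exists_tis D ha (hz.ss (hF := hF) hρ h) ρ (del_ext hρ)
      (del_del (hF := hF) hρ ▸ (h1'.nsmul j).comp (h1'.nsmul j)) (hz.rs hρ l)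
      (by rw [h2, h1'.nsmul j, add_nsmul, two_mul, add_nsmul])
    exact ⟨U, by rw [h6, Multiset.card_nsmul, h1, mul_comm], h5, h4⟩

omit hr hz in
theorem NP.two (hz : NP (q + 1) 2 z) (D : SD B) (ha : Pres B a) (h : a ^ 2 = z • 1) :
    HasPP B a ∧ ∀ m, 2 * m ≤ finrank F V → HasTI B a m := by
  classical
  obtain ⟨h1, h1', -⟩ := hz.roots (hF := hF) hρ
  obtain ⟨M, h2, h3⟩ := h1'.exists_half del_inj fun x hx => by
    rw [hz.per (hF := hF) hρ ((mem_nthRoots two_pos).1 hx)]; exact even_two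
  rw [del_del (hF := hF) hρ] at h3
  obtain ⟨l, h4, h5, -⟩ := hz.struct hρ D ha h
  have h6 : ∀ j, j • nthRoots 2 (ι z) = j • M + (j • M).map fun x => (ρ x)⁻¹ := fun j => by
    rw [h2, nsmul_add, Multiset.map_nsmul]
  refine ⟨?_, fun m hm => ?_⟩
  · obtain ⟨U, W, h7, h8⟩ := hasPP_of_rts D ha (hz.ss (hF := hF) hρ h) ρ (del_ext hρ) (h3.nsmul l) (h4.trans (h6 l))
    exact ⟨U, W, h7.1, h7.2.1, h7.2.2, .inl h8⟩
  obtain ⟨l, rfl⟩ := Nat.exists_eq_add_of_le (show m ≤ l by omega)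
  obtain ⟨U, -, h7, -, h8, -, -, h9, -⟩ := exists_tis D ha (hz.ss (hF := hF) hρ h) ρ (del_ext hρ) (h3.nsmul m) (hz.rs hρ l)
    (by rw [h4, add_nsmul, h6])
  rw [h2, Multiset.card_add, Multiset.card_map] at h1
  exact ⟨U, by rw [h9, Multiset.card_nsmul, show M.card = 1 by omega, mul_one], h8, h7⟩

omit hz in
theorem forall_np_iff [Nontrivial V] (D : SD B) (h : r ∣ q + 1) {P : End F V → Prop} {A : Prop}
    (h2 : ∀ z : F, NP (q + 1) r z → ∀ a, Pres B a → a ^ r = z • 1 → (P a ↔ A)) :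
    (∀ a, Pres B a → LinearMap.det a = 1 → PO r a → (∃ z : F, NP (q + 1) r z ∧ a ^ r = z • 1) → P a) ↔
      A ∨ (padicValNat r (finrank F V) ≤ padicValNat r (q + 1) ∧ (r = 2 → Even (finrank F V) → 4 ∣ q + 1)) := by
  obtain ⟨g, hg⟩ := exists_prim_n1 hF
  rw [or_iff_not_imp_right, ← np_det_iff hg q.succ_ne_zero hr.out h (cast_ne_of_dvd hF h) finrank_pos.ne']
  constructor
  · rintro H ⟨z, k, hz, h3, h4⟩
    obtain ⟨a, h5, h6, h7, h8⟩ := hz.exists_end hρ D h3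
    exact (h2 z hz a h5 h6).1 (H a h5 (h8.trans h4) h7 ⟨z, hz, h6⟩)
  · rintro H a ha h3 - ⟨z, hz, h5⟩
    obtain ⟨k, -, h7, h8⟩ := hz.struct hρ D ha h5
    exact (h2 z hz a ha h5).2 (H ⟨z, k, hz, h7, h8 ▸ h3⟩)

end NP

end Cfsg.Agent.H28
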