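import Cfsg.Agent.H28.Elu12

/-! Unitary groups: unipotent elements, involutions, derangements. -/

set_option autoImplicit false

namespace Cfsg.Agent.H28

open Polynomial Module H12 H13
open scoped Pointwise

theorem part_two {n m : ℕ} (hm : 2 * m < n) :
    (∀ μ : Multiset ℕ, (∀ a ∈ μ, 0 < a ∧ a ≤ 2) → μ.sum = n → ∃ ν ≤ μ, ν.sum = m) ↔ Odd n ∨ Even m := by
  have h1 : ∀ s e b d, b ≤ s → d ≤ e → ∃ ν ≤ Multiset.replicate e 1 + .replicate s 2, ν.sum = d + 2 * b :=
    fun s e b d h1 h2 => ⟨.replicate d 1 + .replicate b 2, add_le_add ((Multiset.replicate_le_replicate _).2 h2)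
      ((Multiset.replicate_le_replicate _).2 h1), by simp [mul_comm]⟩
  constructor
  · intro H
    rcases Nat.even_or_odd n with ⟨k, hk⟩ | h
    · obtain ⟨ν, h3, rfl⟩ := H (.replicate k 2) (by simp +contextual [Multiset.mem_replicate]) (by simp; omega)
      obtain ⟨l, -, rfl⟩ := Multiset.le_replicate_iff.1 h3
      simp
    · exact .inl h
  · intro H μ h3 h4
    rw [eq_replicate_add h3] at h4 ⊢
    generalize 2 * μ.card - μ.sum = e at *
    generalize μ.sum - μ.card = s at *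
    simp only [Multiset.sum_add, Multiset.sum_replicate, smul_eq_mul] at h4
    by_cases h5 : m / 2 ≤ s
    · rw [← Nat.mod_add_div m 2]
      exact h1 _ _ _ _ h5 (by rw [Nat.odd_iff, Nat.even_iff] at H; omega)
    · rw [show m = m - 2 * s + 2 * s by omega]
      exact h1 _ _ _ _ le_rfl (by omega)

variable {F V : Type*} [Field F] [AddCommGroup V] [Module F V] [FiniteDimensional F V]

local notation "K" => AlgebraicClosure F
local notation "ι" => algebraMap F (AlgebraicClosure F)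

section Gen
variable {σ : F →+* F} {B : V →ₛₗ[σ] V →ₗ[F] F} {a : End F V} {U U' W W' : Submodule F V}

theorem not_hasPP (D : SD B) (ha : Pres B a) (h0 : a ≠ 1) {v : V} (h : ∀ x, a x - x ∈ F ∙ v) (hV : 2 < finrank F V) :
    ¬ HasPP B a := by
  rintro ⟨U, W, h1, h2, h3, ⟨h4, h5⟩ | ⟨h4, -⟩⟩
  · have key : ∀ U W, PlP B U W → Iv a U → Iv a W → v ∉ W → False := fun U W h1 h2 h3 h4 => by
      have h5 : ∀ w ∈ W, a w = w := fun w hw => by
        obtain ⟨c, hc⟩ := Submodule.mem_span_singleton.1 (h w)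
        by_contra h5
        exact h4 ((W.smul_mem_iff (by rintro rfl; exact h5 (sub_eq_zero.1 (by simpa using hc.symm)))).1
          (hc ▸ sub_mem (h3 w hw) hw))
      refine h0 (LinearMap.ext fun x => ?_)
      obtain ⟨u, hu, w, hw, rfl⟩ := Submodule.mem_sup.1 (h1.1.sup_eq_top ▸ Submodule.mem_top (x := x))
      rw [map_add, h5 w hw, D.ext_left (x := a u) (y := u) fun y => ?_, End.one_apply]
      obtain ⟨u', hu', w', hw', rfl⟩ := Submodule.mem_sup.1 (h1.1.sup_eq_top ▸ Submodule.mem_top (x := y))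
      rw [map_add, map_add, h1.2.1 _ (h2 u hu) _ hu', h1.2.1 _ hu _ hu', ← ha u w', h5 w' hw']
    by_cases h6 : v ∈ W
    · exact key W U ⟨h1.symm, h3, h2⟩ (iv_iff.1 h5.le) (iv_iff.1 h4.le) fun h7 => h0 (LinearMap.ext fun x => by
        simpa [Submodule.disjoint_def.1 h1.1 v h7 h6, sub_eq_zero] using h x)
    · exact key U W ⟨h1, h2, h3⟩ (iv_iff.1 h4.le) (iv_iff.1 h5.le) h6
  · have h6 := PlP.finrank D ⟨h1, h2, h3⟩
    have h7 := Submodule.finrank_mono (show LinearMap.range ((a - 1) ∘ₗ U.subtype) ≤ F ∙ v by rintro _ ⟨x, rfl⟩; exact h x)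
    rw [LinearMap.finrank_range_of_inj ((injective_iff_map_eq_zero _).2 fun x hx => Subtype.ext
      (Submodule.disjoint_def.1 h1.1 _ x.2 (h4 ▸ ⟨x, x.2, sub_eq_zero.1 hx⟩)))] at h7
    have := (finrank_span_le_card (R := F) ({v} : Set V)).trans (Set.toFinset_singleton v ▸ Finset.card_singleton v).le
    omega

theorem exists_su_plp [Nontrivial V] (D : SD B) (hσ : σ ≠ RingHom.id F) (h : PlP B U W) (h' : PlP B U' W') :
    ∃ g : UG B, LinearMap.det (g.1 : End F V) = 1 ∧ g • U = U' ∧ g • W = W' := by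
  have h1 := h.finrank D
  have h2 := h'.finrank D
  obtain ⟨g, -, h3, h4⟩ := exists_map_plp D h h' (.ofFinrankEq _ _ (by omega))
  obtain ⟨e, he, h5⟩ := U.exists_mem_ne_zero_of_ne_bot (by
    rintro rfl; have := finrank_pos (R := F) (M := V); simp at h1; omega)
  obtain ⟨x, hx⟩ := D.exists_eq_family (LinearIndependent.of_subsingleton (v := fun _ : Unit => e) () h5) fun _ => 1
  obtain ⟨u, hu, f, hf, rfl⟩ := Submodule.mem_sup.1 (h.1.sup_eq_top ▸ Submodule.mem_top (x := x))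
  have h6 : SP B e f := ⟨h.2.1 e he e he, h.2.2 f hf f hf, by simpa [h.2.1 e he u hu] using hx ()⟩
  obtain ⟨c, h7, h8⟩ := exists_div_conj_eq hσ D.invol (D.udet_mem_N1 g⁻¹)
  have h9 : ∀ T : Submodule F V, (∀ x ∈ T, (h6.torus D (Units.mk0 c h7)).1 x ∈ T) → h6.torus D (Units.mk0 c h7) • T = T :=
    fun T h => Iv.map_eq (LinearEquiv.injective _) h
  refine ⟨g * h6.torus D (Units.mk0 c h7), ?_, (mul_smul _ _ _).trans ((congrArg _ (h9 U fun x hx => ?_)).trans h3),
    (mul_smul _ _ _).trans ((congrArg _ (h9 W fun x hx => ?_)).trans h4)⟩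
  · rw [← coe_udet, map_mul, Units.val_mul, h6.det_torus, Units.val_mk0, h8, ← Units.val_mul, ← map_mul, mul_inv_cancel,
      map_one, Units.val_one]
  all_goals obtain ⟨s, t, w, rfl⟩ := h6.exists_eq D x
  · obtain rfl : t = 0 := by simpa [h6.ee, h6.ef, spp_left] using h.2.1 e he _ hx
    rw [h6.torus_comb]
    simpa using add_mem (U.smul_mem _ he) ((U.add_mem_iff_right (U.smul_mem s he)).1 (by simpa using hx))
  · obtain rfl : s = 0 := by simpa [h6.ff, h6.fe D, spp_right] using h.2.2 f hf _ hx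
    rw [h6.torus_comb]
    simpa using add_mem (W.smul_mem _ hf) ((W.add_mem_iff_right (W.smul_mem t hf)).1 (by simpa using hx))

variable [Fintype F]

theorem exists_u_jt (D : SD B) (hσ : σ ≠ RingHom.id F) {M : Multiset ℕ} (h0 : ∀ k ∈ M, 0 < k) (h2 : M.sum = finrank F V) :
    ∃ a, Pres B a ∧ ed a = M.map (upp F) := by
  obtain ⟨W, _, _, _, B', b, D', h4, h5⟩ := exists_sd_jt hσ D.invol M
  obtain ⟨e, he⟩ := D'.exists_isometry D (by rw [← tdg_ed b, h5, tdg_map_upp h0, h2])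
  have h6 : Sim b (e.conj b) := ⟨e, fun v => by simp [LinearEquiv.conj_apply]⟩
  exact ⟨e.conj b, fun x y => by simp [LinearEquiv.conj_apply, he, h4 _ _, ← he (e.symm x)], h6.ed_eq ▸ h5⟩

theorem u_hasND_iff (D : SD B) (hσ : σ ≠ RingHom.id F) (ha : Pres B a) (h : IsNilpotent (a - 1)) (m : ℕ) :
    HasND B a m ↔ ∃ ν ≤ jt a, ν.sum = m := by
  rw [← le_map_upp (F := F) fun k => jt_pos, ← ed_eq_map h]
  constructor
  · rintro ⟨U, rfl, h3, h4⟩
    exact ⟨_, ed_eq_add h4 (h4.sperp D ha) (D.isCompl h3) ▸ le_self_add, tdg_edOn h4⟩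
  · rintro ⟨M, h1, rfl⟩
    obtain ⟨N, h2⟩ := Multiset.le_iff_exists_add.1 h1
    obtain ⟨ν, -, rfl⟩ := exists_le_of_le_map (ed_eq_map h ▸ h1)
    obtain ⟨ν', -, rfl⟩ := exists_le_of_le_map (M := N) (ed_eq_map h ▸ h2 ▸ le_add_self)
    obtain ⟨W, _, _, _, B₁, b, D₁, hb, h3⟩ := exists_sd_jt hσ D.invol ν
    obtain ⟨W', _, _, _, B₂, c, D₂, hc, h4⟩ := exists_sd_jt hσ D.invol ν'
    have D' := sd_sumB D₁ D₂
    obtain ⟨g, h5, h6⟩ := wall_core D'.wittData.nds D.wittData.nds D'.wittData.symm D.wittData.symm (hb.prodMap hc) ha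
      (sim_iff_ed.2 (by rw [ed_prodMap, h2, h3, h4])) (.inl hσ)
    have h7 := g.injective.comp (LinearMap.inl_injective (R := F))
    refine ⟨_, ?_, ?_, (edOn_range (b := b) (g.toLinearMap ∘ₗ LinearMap.inl F _ _) h7 fun w => by simp [← h6]).1⟩
    · rw [LinearMap.finrank_range_of_inj h7, ← h3, tdg_ed]
    · rw [LinearMap.range_eq_map]
      exact (nds_top D₁).map fun x y => by simp [h5, sumB_apply]

theorem forall_unip_u (D : SD B) (hσ : σ ≠ RingHom.id F) {p : ℕ} [Fact p.Prime] [CharP F p] {m : ℕ} (hm : m ≤ finrank F V) :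
    (∀ y, Pres B y → y ^ p = 1 → y ≠ 1 → HasND B y m) ↔
      ∀ μ : Multiset ℕ, (∀ a ∈ μ, 0 < a ∧ a ≤ p) → μ.sum = finrank F V → ∃ ν ≤ μ, ν.sum = m := by
  constructor
  · intro H μ h5 h7
    obtain ⟨a, h8, h9⟩ := exists_u_jt D hσ (fun k hk => (h5 k hk).1) h7
    obtain ⟨h10, rfl⟩ := jt_of_ed (fun k hk => (h5 k hk).1) h9
    refine (u_hasND_iff D hσ h8 h10 m).1 ?_
    by_cases h11 : a = 1
    · obtain ⟨U, h1, h2⟩ := exists_nds_dim D hm fun h => absurd h hσ
      exact ⟨U, h1, h2, fun _ h => h11 ▸ h⟩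
    · exact H a h8 ((pow_char_eq_one_iff a).2 ((pow_eq_zero_iff_jt h10 p).2 fun k hk => (h5 k hk).2)) h11
  · intro H a ha h5 _
    rw [pow_char_eq_one_iff] at h5
    have h6 : IsNilpotent (a - 1) := ⟨p, h5⟩
    exact (u_hasND_iff D hσ ha h6 m).2 (H _ (fun k hk => ⟨jt_pos hk, (pow_eq_zero_iff_jt h6 p).1 h5 k hk⟩) (sum_jt h6))

end Gen

variable [Fintype F] {q : ℕ} {hF : Fintype.card F = q ^ 2} {B : V →ₛₗ[frobq hF] V →ₗ[F] F} {a : End F V} {r m : ℕ}
  {ρ : AlgebraicClosure F →+* AlgebraicClosure F} (hρ : ∀ x, ρ x = x ^ q)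
include hρ

omit [Fintype F] in
theorem st_of_dvd (h : r ∣ q + 1) {M : Multiset K} (h' : ∀ x ∈ M, x ^ r = 1) : St (fun x => (ρ x)⁻¹) M :=
  st_of_fix fun x hx => del_fix hρ (by obtain ⟨c, hc⟩ := h; rw [hc, pow_mul, h' x hx, one_pow])

theorem hasND_of_dvd (D : SD B) (ha : Pres B a) (h : r ∣ q + 1) (h1 : a ^ r = 1) (hm : m ≤ finrank F V) : HasND B a m := by
  obtain ⟨M, h2, rfl⟩ := exists_le_card (card_rts a ▸ hm)
  obtain ⟨N, h3⟩ := Multiset.le_iff_exists_add.1 h2
  have h4 : ∀ M ≤ rts a, RS (frobq hF) M := fun M hM =>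
    have := fun x hx => pow_eq_one_of_mem_rts h1 (x := x) (Multiset.mem_of_le hM hx)
    rs_of_del hρ (st_of_dvd hρ h this) (cast_ne_of_dvd hF h) this
  obtain ⟨U, h5, h6, h7, -⟩ := exists_nds D ha ⟨r, cast_ne_of_dvd hF h, h1⟩ (h4 M h2) (h4 N (h3 ▸ le_add_self)) h3
  exact ⟨U, by rw [← card_rto h5, h7], h6, h5⟩

theorem u_inv (D : SD B) (ha : Pres B a) (h0 : 2 ∣ q + 1) (h : a ^ 2 = 1) : ∃ s t, s + t = finrank F V ∧
    LinearMap.det a = (-1) ^ t ∧ (∀ k l, 2 * k ≤ s → 2 * l ≤ t → HasTI B a (k + l)) ∧ (Even s → Even t → HasPP B a) := by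
  obtain ⟨s, t, h1⟩ := eq_rep_add (M := rts a) fun x hx => sq_eq_one_iff.1 (pow_eq_one_of_mem_rts h hx)
  have h2 : ∀ s t, ∀ x ∈ Multiset.replicate s (1 : K) + .replicate t (-1), x ^ 2 = 1 := fun s t x hx =>
    (Multiset.mem_add.1 hx).elim (fun h => by simp [Multiset.eq_of_mem_replicate h]) fun h => by
      simp [Multiset.eq_of_mem_replicate h]
  have h3 := fun s t => st_of_dvd hρ h0 (h2 s t)
  have h4 : ∀ s t, St (· ^ Fintype.card F) (.replicate s (1 : K) + .replicate t (-1)) := fun s t =>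
    del_del (hF := hF) hρ ▸ (h3 s t).comp (h3 s t)
  have h5 : SS a := ⟨2, cast_ne_of_dvd hF h0, h⟩
  refine ⟨s, t, by simp [← card_rts a, h1], (algebraMap F K).injective (by simp [← prod_rts, h1]), fun k l h6 h7 => ?_, ?_⟩
  · obtain ⟨s, rfl⟩ := Nat.exists_eq_add_of_le h6
    obtain ⟨t, rfl⟩ := Nat.exists_eq_add_of_le h7
    obtain ⟨U, -, g1, -, g2, -, -, g3, -⟩ := exists_tis D ha h5 ρ (del_ext hρ) (h4 k l)
      (rs_of_del hρ (h3 s t) (cast_ne_of_dvd hF h0) (h2 s t)) (by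
        rw [h1, h3 k l]; simp only [two_mul, Multiset.replicate_add]; abel)
    exact ⟨U, by simpa using g3, g2, g1⟩
  · rintro ⟨k, rfl⟩ ⟨l, rfl⟩
    obtain ⟨U, W, h7, h8⟩ := hasPP_of_rts D ha h5 ρ (del_ext hρ) (h4 k l) (by
      rw [h1, h3 k l]; simp only [Multiset.replicate_add]; abel)
    exact ⟨U, W, h7.1, h7.2.1, h7.2.2, .inl h8⟩

omit hρ in
theorem even_of_det {w : F} {t : ℕ} (h0 : 2 ∣ q + 1) (hn : finrank F V ≠ 0)
    (h : padicValNat 2 (q + 1) ≤ padicValNat 2 (finrank F V)) (hw : w ^ (q + 1) = 1) (ha : LinearMap.det a = (-1) ^ t)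
    (h1 : LinearMap.det (w • a) = 1) (hF : Fintype.card F = q ^ 2) : Even t := by
  by_contra h2
  obtain ⟨g, hg⟩ := exists_prim_n1 hF
  rw [LinearMap.det_smul, ha, (Nat.not_even_iff_odd.1 h2).neg_one_pow] at h1
  exact ((exists_pow_eq_neg_one_iff hg q.succ_ne_zero (by simpa using cast_ne_of_dvd hF h0) hn).1
    ⟨w, hw, by linear_combination -h1⟩).not_ge h

omit hρ in
theorem exists_refl_su (D : SD B) (h0 : 2 ∣ q + 1) (hn : 2 ≤ finrank F V)
    (h : padicValNat 2 (finrank F V) < padicValNat 2 (q + 1)) : ∃ (w : F) (y : End F V) (v : V), w ≠ 0 ∧ Pres B (w • y) ∧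
      LinearMap.det (w • y) = 1 ∧ PO 2 (w • y) ∧ Pres B y ∧ y ≠ 1 ∧ B v v ≠ 0 ∧ ∀ x, y x - x = (-2 * B v x / B v v) • v := by
  have := nontrivial_of_finrank_pos (R := F) (M := V) (by omega)
  obtain ⟨g, hg⟩ := exists_prim_n1 hF
  have h2 : (2 : F) ≠ 0 := by simpa using cast_ne_of_dvd hF h0
  obtain ⟨w, h3, h4⟩ := (exists_pow_eq_neg_one_iff hg q.succ_ne_zero h2 (by omega)).2 h
  obtain ⟨v, hv⟩ := D.exists_aniso (frobq_ne_id hF)
  obtain ⟨y, h5, h6, h7⟩ := D.exists_quasiRefl hv ⟨-1, by simp [mem_N1]⟩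
  have h8 : ∀ x, y.1 x - x = (-2 * B v x / B v v) • v := fun x => by
    have := h7 (x - (B v x / B v v) • v) (by simp [hv])
    rw [map_sub, map_smul, h6] at this
    simp only [Units.val_neg, Units.val_one] at this
    linear_combination (norm := module) this
  have h9 : w ≠ 0 := by rintro rfl; simp at h3
  have h10 : v ≠ 0 := by rintro rfl; simp at hv
  refine ⟨w, y.1, v, h9, Pres.smul y.2 (n1_iff.2 h3), by rw [LinearMap.det_smul, ← coe_udet, h5, h4]; simp,
    ⟨⟨w ^ 2, ?_⟩, fun z e => ?_⟩, y.2, fun e => h10 ?_, hv, h8⟩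
  · rw [_root_.smul_pow]
    congr 1
    refine LinearMap.ext fun x => ?_
    have := congrArg y.1 (h8 x)
    rw [map_sub, map_smul, h6] at this
    simp only [Units.val_neg, Units.val_one] at this
    change y.1 (y.1 x) = x
    linear_combination (norm := module) this + h8 x
  · obtain ⟨x, h11, h12⟩ := (sperp B (F ∙ v)).exists_mem_ne_zero_of_ne_bot fun e => by
      have := D.finrank_sperp (F ∙ v)
      rw [e, finrank_span_singleton h10, finrank_bot] at this; omega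
    have h13 := LinearMap.congr_fun e x
    have h14 := LinearMap.congr_fun e v
    simp only [LinearMap.smul_apply, LinearEquiv.coe_coe, h7 x (mem_sperp_singleton.1 h11), h6, End.one_apply, smul_smul,
      Units.val_neg, Units.val_one] at h13 h14
    exact mul_ne_zero h2 h9 (by linear_combination smul_left_injective F h12 h13 - smul_left_injective F h10 h14)
  · have := LinearMap.congr_fun e v
    simp only [LinearEquiv.coe_coe, h6, End.one_apply, Units.val_neg, Units.val_one] at this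
    exact (smul_eq_zero.1 (show (2 : F) • v = 0 by linear_combination (norm := module) -this)).resolve_left h2

variable {p : ℕ} [Fact p.Prime] [CharP F p] [hr : Fact r.Prime]

omit hρ in
theorem per_u_odd (hF : Fintype.card F = q ^ 2) (h : Odd (orderOf (-q : ZMod r))) :
    orderOf (Fintype.card F : ZMod r) = orderOf (-q : ZMod r) ∧
      ∀ M : Multiset K, PRt r M → St (· ^ Fintype.card F) M → St (· ^ (-q : ℤ)) M := by
  refine ⟨by rw [hF, Nat.cast_pow, ← neg_sq, (Nat.coprime_two_right.2 h).orderOf_pow], fun M hM h1 => ?_⟩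
  obtain ⟨j, hj⟩ := exists_eq_sq_pow h
  exact St.zpow hM (z := Fintype.card F) (j := j) (by simpa using h1) (by simpa [hF] using hj)

theorem exists_not_ti_one (D : SD B) (hrp : r ≠ p) (h2 : r ≠ 2) (h : r ∣ q + 1) (hn : 2 ≤ finrank F V) (hm : 1 ≤ m)
    (h3 : finrank F V + 1 < r + 2 * m) : ∃ a, Pres B a ∧ LinearMap.det a = 1 ∧ PO r a ∧ ¬ HasTI B a m := by
  have P := per_u hrp h2 hF hρ
  have h4 : orderOf (-q : ZMod r) = 1 := orderOf_eq_one_iff.2 (by
    have := (ZMod.natCast_eq_zero_iff _ _).2 h; push_cast at this; linear_combination -this)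
  obtain ⟨h5, h6⟩ := per_u_odd hF (h4 ▸ odd_one)
  rw [h4] at P h5
  have := hr.out.two_le
  obtain ⟨y, A, O, h7, h8, h9, h10, h11, h12, -, h13⟩ := P.exists_not_ti D h5 h6 (m := m) (t := min (finrank F V) (r - 1))
    (j := 0) (e := finrank F V - min (finrank F V) (r - 1)) (by omega) (by omega) fun k hk l hl => by omega
  obtain ⟨w, h14, h15⟩ : ∃ w : F, w ^ r = 1 ∧ w ^ finrank F V = (LinearMap.det y)⁻¹ := by
    by_cases h14 : r - 1 ≤ finrank F V
    · exact ⟨1, one_pow _, by rw [(algebraMap F K).injective (a₁ := LinearMap.det y) (a₂ := 1) (by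
        simp [← prod_rts, h9, h12 (by omega)]), inv_one, one_pow]⟩
    · exact exists_root_of_coprime ((Nat.coprime_comm.1 ((Nat.Prime.coprime_iff_not_dvd hr.out).2 fun h => by
        have := Nat.le_of_dvd (by omega) h; omega))) (by rw [inv_pow, ← map_pow, h8, map_one, inv_one])
  have h16 : w ≠ 0 := by rintro rfl; simp [hr.out.ne_zero] at h14
  refine ⟨w • y, h7.smul (n1_iff.2 (by obtain ⟨c, hc⟩ := h; rw [hc, pow_mul, h14, one_pow])), by
    rw [LinearMap.det_smul, h15, inv_mul_cancel₀ fun e => by simpa [e] using det_n1 D h7], ⟨⟨1, by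
      rw [_root_.smul_pow, h14, h8]⟩, fun z e => ?_⟩, fun h => h13 (by simpa [smul_smul, h16] using h.smul (w := w⁻¹))⟩
  have h17 : y = (w⁻¹ * z) • 1 := by rw [mul_smul, ← e, smul_smul, inv_mul_cancel₀ h16, one_smul]
  rw [h17, rts_smul_one] at h9
  obtain ⟨l, -, rfl⟩ := Multiset.le_replicate_iff.1 (h9.ge.trans' (by simp : A ≤ _))
  rw [Multiset.card_replicate] at h11
  exact absurd (List.nodup_replicate.1 h10) (by omega)

end Cfsg.Agent.H28
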