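import Cfsg.Agent.H28.Elu13
import Cfsg.Agent.H7.KGL4
import Cfsg.Agent.H12.FldC

/-! Elements of prime order of the special linear group conjugate into a subgroup. -/

set_option autoImplicit false

namespace Cfsg.Agent.H28

open Polynomial Module H12 H13 Matrix

section Count

theorem relIndex_mul_card {G : Type*} [Group G] (H N : Subgroup G) :
    H.relIndex N * Nat.card ↥(H ⊓ N) = Nat.card N := by
  rw [← Subgroup.relIndex_bot_left, ← Subgroup.relIndex_bot_left, mul_comm, ← Subgroup.inf_relIndex_right H,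
    Subgroup.relIndex_mul_relIndex _ _ _ bot_le inf_le_right]

theorem card_dvd_of_le {G S : Type*} [Group G] [Group S] {H : Subgroup G} (φ : S →* G) (h : Function.Injective φ)
    (h1 : ∀ s, φ s ∈ H) : Nat.card S ∣ Nat.card H :=
  Subgroup.card_dvd_of_injective (φ.codRestrict H h1) fun _ _ e => h (congrArg Subtype.val e)

theorem relIndex_mul_dvd {G S : Type*} [Group G] [Group S] {H N : Subgroup G} (φ : S →* G) (h : Function.Injective φ)
    (h1 : ∀ s, φ s ∈ H ⊓ N) : H.relIndex N * Nat.card S ∣ Nat.card N :=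
  relIndex_mul_card H N ▸ Nat.mul_dvd_mul_left _ (card_dvd_of_le φ h h1)

theorem relIndex_mul_dvd' {G S : Type*} [Group G] [Group S] {H N : Subgroup G} [N.Normal] (φ : S →* G)
    (h : Function.Injective φ) (h1 : ∀ s, φ s ∈ H) : H.relIndex N * Nat.card S ∣ Nat.card G := by
  refine (Nat.mul_dvd_mul_left _ (card_dvd_of_le φ h h1)).trans (.trans (dvd_of_eq ?_) (H ⊔ N).card_subgroup_dvd_card)
  rw [← relIndex_mul_card N H, ← relIndex_mul_card N (H ⊔ N), Subgroup.relIndex_sup_right,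
    (inf_eq_left.2 le_sup_right : N ⊓ (H ⊔ N) = N), ← relIndex_mul_card H N, inf_comm, mul_left_comm]

theorem prod_sub_eq (q n : ℕ) : ∃ b, ∏ i : Fin n, (q ^ n - q ^ (i : ℕ)) = q ^ b * ∏ j ∈ Finset.range n, (q ^ (j + 1) - 1) := by
  refine ⟨∑ j ∈ Finset.range n, (n - 1 - j), ?_⟩
  rw [Fin.prod_univ_eq_prod_range (fun i => q ^ n - q ^ i), ← Finset.prod_range_reflect (fun i => q ^ n - q ^ i),
    ← Finset.prod_pow_eq_pow_sum, ← Finset.prod_mul_distrib]
  refine Finset.prod_congr rfl fun j hj => ?_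
  rw [Nat.mul_sub, ← pow_add, mul_one, show n - 1 - j + (j + 1) = n by have := Finset.mem_range.1 hj; omega]

variable {F : Type*} [Field F] [Fintype F]

theorem card_GL_eq (n : ℕ) : ∃ b, Nat.card (GL (Fin n) F) =
    Fintype.card F ^ b * ∏ j ∈ Finset.range n, (Fintype.card F ^ (j + 1) - 1) :=
  card_GL_fin (F := F) rfl n ▸ prod_sub_eq _ n

theorem card_SL_eq (n : ℕ) : ∃ b, Nat.card (SpecialLinearGroup (Fin (n + 1)) F) =
    Fintype.card F ^ b * ∏ j ∈ Finset.range n, (Fintype.card F ^ (j + 2) - 1) := by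
  obtain ⟨b, hb⟩ := prod_sub_eq (Fintype.card F) (n + 1)
  refine ⟨b, Nat.eq_of_mul_eq_mul_left (Nat.sub_pos_of_lt (Fintype.one_lt_card (α := F))) ?_⟩
  rw [card_SL_fin rfl _ n.succ_pos, hb, Finset.prod_range_succ', zero_add, pow_one]
  ring

theorem card_specialLinear (n : ℕ) : ∃ b, Nat.card (Geo.specialLinear (Fin (n + 1)) F) =
    Fintype.card F ^ b * ∏ j ∈ Finset.range n, (Fintype.card F ^ (j + 2) - 1) :=
  (Nat.card_congr slEquivKerDet.toEquiv : Nat.card (SpecialLinearGroup (Fin (n + 1)) F) = _) ▸ card_SL_eq n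

theorem prod_range_two_mul (f : ℕ → ℕ) (m : ℕ) :
    ∏ j ∈ Finset.range (2 * m), f j = ∏ j ∈ Finset.range m, (f (2 * j + 1) * f (2 * j)) := by
  induction m with
  | zero => rfl
  | succ m ih => rw [mul_add, mul_one, Finset.prod_range_succ, Finset.prod_range_succ, Finset.prod_range_succ, ih]; ring

theorem orderOf_dvd_iff {r j : ℕ} : orderOf (Fintype.card F : ZMod r) ∣ j ↔ r ∣ Fintype.card F ^ j - 1 := by
  rw [orderOf_dvd_iff_pow_eq_one, ← ZMod.natCast_eq_zero_iff, Nat.cast_sub (Nat.one_le_pow _ _ Fintype.card_pos),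
    sub_eq_zero, Nat.cast_pow, Nat.cast_one]

end Count

variable {F V W : Type*} [Field F] [AddCommGroup V] [Module F V] [AddCommGroup W] [Module F W]

/-- the determinants of the centralizer cover the field -/
def DC (a : End F V) : Prop := ∀ c, ∃ b, a * b = b * a ∧ LinearMap.det b = c

theorem DC.smul {a : End F V} (h : DC a) (w : F) : DC (w • a) := fun c =>
  let ⟨b, h1, h2⟩ := h c
  ⟨b, by rw [smul_mul_assoc, h1, mul_smul_comm], h2⟩

section CI
variable {κ : Type} [Fintype κ] [DecidableEq κ] {X : Subgroup (GL κ F)} {a b : End F (κ → F)} {r : ℕ}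

/-- `a` is similar to an element of `X` -/
def CI (X : Subgroup (GL κ F)) (a : End F V) : Prop := ∃ y ∈ X, Sim a (toLin' (y : Matrix κ κ F))

/-- every element of projective order `r` of the special linear group is conjugate into `X` -/
def EL (X : Subgroup (GL κ F)) (r : ℕ) : Prop :=
  ∀ x ∈ Geo.specialLinear κ F, (∃ z : F, ((x ^ r : GL κ F) : Matrix κ κ F) = z • (1 : Matrix κ κ F)) →
    (∀ z : F, (x : Matrix κ κ F) ≠ z • (1 : Matrix κ κ F)) → ∃ g ∈ Geo.specialLinear κ F, g⁻¹ * x * g ∈ X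

theorem mem_specialLinear {x : GL κ F} : x ∈ Geo.specialLinear κ F ↔ (x : Matrix κ κ F).det = 1 := Units.ext_iff

theorem el_comap : (∀ x : SpecialLinearGroup κ F,
      (∃ z : F, ((x ^ r : SpecialLinearGroup κ F) : Matrix κ κ F) = z • (1 : Matrix κ κ F)) →
      (∀ z : F, (x : Matrix κ κ F) ≠ z • (1 : Matrix κ κ F)) →
      ∃ P : SpecialLinearGroup κ F, P⁻¹ * x * P ∈ X.comap SpecialLinearGroup.toGL) ↔ EL X r := by
  simp only [EL, Geo.specialLinear, ← range_toGL_eq_ker_det, MonoidHom.mem_range, forall_exists_index,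
    forall_apply_eq_imp_iff, exists_exists_eq_and, Subgroup.mem_comap, map_mul, map_inv, ← map_pow]
  rfl

theorem index_comap_toGL : (X.comap SpecialLinearGroup.toGL).index = X.relIndex (Geo.specialLinear κ F) := by
  rw [Subgroup.index_comap, range_toGL_eq_ker_det]; rfl

theorem CI.of_sim {a : End F V} {b : End F W} (h : CI X b) (h' : Sim a b) : CI X a :=
  let ⟨y, h1, h2⟩ := h
  ⟨y, h1, h'.trans h2⟩

theorem exists_GL (h : LinearMap.det a ≠ 0) : ∃ x : GL κ F, toLin' (x : Matrix κ κ F) = a :=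
  ⟨GeneralLinearGroup.mkOfDetNeZero (LinearMap.toMatrix' a) (by rwa [LinearMap.det_toMatrix']), toLin'_toMatrix' a⟩

theorem ci_iff {x : GL κ F} : CI X (toLin' (x : Matrix κ κ F)) ↔ ∃ g : GL κ F, g⁻¹ * x * g ∈ X := by
  constructor
  · rintro ⟨y, h1, h2⟩
    obtain ⟨g, rfl⟩ := isConj_iff.1 (isConj_GL_iff.2 (isConj_iff_sim.2 h2))
    exact ⟨g⁻¹, by rwa [inv_inv]⟩
  · rintro ⟨g, h⟩
    exact ⟨_, h, isConj_iff_sim.1 (isConj_GL_iff.1 (isConj_iff.2 ⟨g⁻¹, by rw [inv_inv]⟩))⟩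

theorem CI.smul {a : End F V} (hX : Geo.scalars κ F ≤ X) (w : F) (hw : w ≠ 0) (h : CI X a) : CI X (w • a) := by
  obtain ⟨y, h1, h2⟩ := h
  refine ⟨GeneralLinearGroup.scalar κ (Units.mk0 w hw) * y, mul_mem (hX ⟨_, rfl⟩) h1, ?_⟩
  convert h2.smul w
  rw [← map_smul, Units.val_mul, smul_eq_diagonal_mul]; rfl

theorem EL.ci (h : EL X r) (a : End F (κ → F)) (h1 : LinearMap.det a = 1) (h2 : PO r a) : CI X a := by
  obtain ⟨x, rfl⟩ := exists_GL (h1 ▸ one_ne_zero)
  rw [po_toLin'] at h2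
  obtain ⟨g, -, h⟩ := h x (mem_specialLinear.2 (by rwa [LinearMap.det_toLin'] at h1)) (by simpa using h2.1) h2.2
  exact ci_iff.2 ⟨g, h⟩

theorem el_of (h : ∀ x : GL κ F, LinearMap.det (toLin' (x : Matrix κ κ F)) = 1 → PO r (toLin' (x : Matrix κ κ F)) →
    ∃ g : GL κ F, g⁻¹ * x * g ∈ X ∧ ∃ b, toLin' (x : Matrix κ κ F) * b = b * toLin' (x : Matrix κ κ F) ∧
      LinearMap.det b * (g : Matrix κ κ F).det = 1) : EL X r := fun x hx h1 h2 => by
  obtain ⟨g, h3, b, h4, h5⟩ := h x (by rw [LinearMap.det_toLin', mem_specialLinear.1 hx])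
    ((po_toLin' _ _).2 ⟨by simpa using h1, h2⟩)
  obtain ⟨b, rfl⟩ := exists_GL (left_ne_zero_of_mul_eq_one h5)
  have h6 : x * b = b * x := Units.ext (toLin'.injective (by simpa [toLin'_mul, End.mul_eq_comp] using h4))
  refine ⟨b * g, mem_specialLinear.2 (by simpa using h5), ?_⟩
  rwa [_root_.mul_inv_rev, mul_assoc, mul_assoc, ← mul_assoc x, h6, mul_assoc, inv_mul_cancel_left, ← mul_assoc]

theorem el_of_dc (h : ∀ a : End F (κ → F), LinearMap.det a = 1 → PO r a → CI X a ∧ DC a) : EL X r :=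
  el_of fun x h1 h2 => by
    obtain ⟨g, hg⟩ := ci_iff.1 (h _ h1 h2).1
    obtain ⟨b, h3, h4⟩ := (h _ h1 h2).2 (g : Matrix κ κ F).det⁻¹
    exact ⟨g, hg, b, h3, h4 ▸ inv_mul_cancel₀ g.det_ne_zero⟩

end CI

variable [FiniteDimensional F V] [FiniteDimensional F W] {a y : End F V} {r : ℕ}

local notation "K" => AlgebraicClosure F
local notation "ι" => algebraMap F (AlgebraicClosure F)

theorem exists_mem_ed [Nontrivial V] (a : End F V) : ∃ x, x ∈ ed a :=
  Multiset.exists_mem_of_ne_zero fun h => by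
    have := tdg_ed a
    rw [h] at this
    exact (finrank_pos (R := F) (M := V)).ne this

theorem PO.nontrivial (h : PO r a) : Nontrivial V :=
  not_subsingleton_iff_nontrivial.1 fun _ => h.2 0 (Subsingleton.elim _ _)

theorem PO.smul (h : PO r a) {w : F} (hw : w ≠ 0) : PO r (w • a) :=
  let ⟨⟨z, hz⟩, h⟩ := h
  ⟨⟨w ^ r * z, by rw [_root_.smul_pow, hz, smul_smul]⟩, fun c hc => h (w⁻¹ * c) (by rw [← smul_smul, ← hc, inv_smul_smul₀ hw])⟩

theorem rts_smul {c : F} (hc : c ≠ 0) (a : End F V) : rts (c • a) = (rts a).map (ι c * ·) := by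
  have h : ι c ≠ 0 := by simpa
  rw [rts_eq (finBasis F V), rts_eq (finBasis F V), ← roots_scaleRoots _ h.isUnit, map_smul,
    Matrix.map_smul' _ _ _ (map_mul ι)]
  generalize (LinearMap.toMatrix (finBasis F V) (finBasis F V) a).map ι = A
  refine congrArg _ (Polynomial.funext fun t => ?_)
  rw [← mul_inv_cancel_left₀ h t, scaleRoots_eval_mul, eval_charpoly, eval_charpoly, charpoly_natDegree_eq_dim,
    ← det_smul, smul_sub, map_mul, scalar_apply, ← smul_eq_diagonal_mul]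

theorem po_of_rts {z : F} (h : a ^ r = z • 1) {x x' : K} (hx : x ∈ rts a) (hx' : x' ∈ rts a) (h1 : x ≠ x') : PO r a :=
  ⟨⟨z, h⟩, fun c hc => by
    rw [hc, rts_smul_one] at hx hx'
    exact h1 ((Multiset.eq_of_mem_replicate hx).trans (Multiset.eq_of_mem_replicate hx').symm)⟩

theorem sim_of_rts {b : End F W} (hr : (r : F) ≠ 0) (h1 : a ^ r = 1) (h2 : b ^ r = 1) (h : rts a = rts b) : Sim a b :=
  sim_of_charpoly hr h1 hr h2 (charpoly_eq_of_rts h)

theorem sim_of_nonpow {b : End F W} (hr : r.Prime) {z : F} (hz : ∀ c, c ^ r ≠ z) (h1 : a ^ r = z • 1) (h2 : b ^ r = z • 1)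
    (h : finrank F V = finrank F W) : Sim a b := by
  obtain ⟨k, h3, h4, -⟩ := ed_of_nonpow hr hz h1
  obtain ⟨l, h5, h6, -⟩ := ed_of_nonpow hr hz h2
  rw [sim_iff_ed, h3, h5, Nat.eq_of_mul_eq_mul_right hr.pos (h4.symm.trans (h.trans h6))]

variable [Fintype F]

theorem dc_of_ed {x : PP F} (hx : x ∈ ed a) (h : ∀ c : F, ∃ d, d ^ x.k = c) : DC a := fun c =>
  let ⟨d, hd⟩ := h c
  hd ▸ H7.KG.exists_commute_det a hx d

theorem dc_of_po {p : ℕ} [hp : Fact p.Prime] [CharP F p] (hr : r.Prime) (h : r = 2 ∨ r ≠ p) (h1 : LinearMap.det a ≠ 0)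
    (h2 : PO r a) : DC a := by
  have := h2.nontrivial
  by_cases h3 : r = p
  · subst h3
    obtain ⟨w, -, y, rfl, h4, -⟩ | ⟨z, h4, -⟩ := po_cases hr.ne_zero (inj_of_det h1) h2
    · obtain ⟨μ, h5, -, h6⟩ := ed_of_pow_char h4
      obtain ⟨x, hx⟩ := exists_mem_ed y
      obtain ⟨k, hk, rfl⟩ := Multiset.mem_map.1 (h6 ▸ hx)
      obtain rfl : r = 2 := h.resolve_right fun h => h rfl
      refine (dc_of_ed hx fun c => ?_).smul w
      obtain rfl | rfl : k = 1 ∨ k = 2 := by have := h5 k hk; omega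
      exacts [⟨c, pow_one c⟩, exists_pow_eq_of_not_dvd hr not_dvd_card_sub_one c]
    · exact absurd (exists_pow_eq_of_not_dvd hr not_dvd_card_sub_one z) (by simpa using h4)
  · obtain ⟨z, hz⟩ := h2.1
    obtain ⟨x, hx⟩ := exists_mem_ed a
    have h4 : z ≠ 0 := by
      rintro rfl
      have := congrArg LinearMap.det hz
      rw [map_pow, zero_smul, LinearMap.det_zero, zero_pow finrank_pos.ne'] at this
      exact h1 (pow_eq_zero_iff hr.ne_zero |>.1 this)
    have h5 := isSS_of_squarefree (A := LinearMap.toMatrix (finBasis F V) (finBasis F V) a)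
      (squarefree_X_pow_sub_C (cast_ne_zero_of_ne hr h3) h4) ((aeval_eq_zero_iff_med _ _).2 (by
        rw [med_toMatrix, ← aeval_eq_zero_iff_ed]; exact aeval_X_pow_sub_C hz))
    rw [med_toMatrix] at h5
    exact dc_of_ed hx fun c => ⟨c, by rw [h5 x hx, pow_one]⟩

theorem el_iff {κ : Type} [Fintype κ] [DecidableEq κ] {X : Subgroup (GL κ F)} {p : ℕ} [Fact p.Prime] [CharP F p]
    (hr : r.Prime) (h : r = 2 ∨ r ≠ p) : EL X r ↔ ∀ a : End F (κ → F), LinearMap.det a = 1 → PO r a → CI X a :=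
  ⟨EL.ci, fun H => el_of_dc fun a h1 h2 => ⟨H a h1 h2, dc_of_po hr h (h1 ▸ one_ne_zero) h2⟩⟩

theorem exists_fix {M : Multiset K} (hM : St (· ^ Fintype.card F) M) {k e : ℕ} (h : ∀ x ∈ M, x ^ k = 1)
    (hV : M.card + e = finrank F V) :
    ∃ a : End F V, a ^ k = 1 ∧ rts a = M + .replicate e 1 ∧ e ≤ finrank F (LinearMap.ker (a - 1)) := by
  obtain ⟨A, h1, h2⟩ := exists_rts hM h
  let b : End F ((Fin M.card → F) × (Fin e → F)) := (toLin' A).prodMap 1
  have h3 := sim_conj b (LinearEquiv.ofFinrankEq (R := F) _ V (by simpa))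
  refine ⟨_, (h3.pow k).eq_one_iff.1 ?_, by rw [← h3.rts_eq, rts_prodMap, h2, rts_one]; simp, ?_⟩
  · rw [prodMap_pow, ← toLin'_pow, h1, toLin'_one, one_pow]; exact LinearMap.prodMap_one
  · have h4 := (h3.aeval (Polynomial.X - 1)).finrank_ker
    rw [map_sub, map_sub, aeval_X, aeval_X, map_one, map_one] at h4
    rw [← h4]
    refine le_trans (by simp [LinearMap.finrank_range_of_inj LinearMap.inr_injective]) (Submodule.finrank_mono
      (s := LinearMap.range (LinearMap.inr F _ _)) ?_)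
    rintro _ ⟨v, rfl⟩
    simp [b]

theorem exists_end_rts {M : Multiset K} (hM : St (· ^ Fintype.card F) M) {k : ℕ} (h : ∀ x ∈ M, x ^ k = 1)
    (hV : M.card = finrank F V) : ∃ a : End F V, a ^ k = 1 ∧ rts a = M := by
  simpa using (exists_fix (V := V) (e := 0) hM h hV).imp fun _ h => And.intro h.1 h.2.1

theorem dvd_of_st {k : Type*} [Field k] [hr : Fact r.Prime] {A : Multiset k} {e : ℕ} (hA : PRt r A) {ψ : k → k}
    (h : St ψ (A + .replicate e 1)) (h1 : Function.Injective ψ) {z : ℤ} (h2 : ∀ x, x ^ r = 1 → ψ x = x ^ z) :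
    orderOf (z : ZMod r) ∣ A.card := by
  classical
  rw [add_comm] at h
  refine (h.of_add (st_replicate (by rw [h2 1 (one_pow r), _root_.one_zpow]) e)).dvd_card h1 fun x hx => ?_
  rw [← minimalPeriod_zpow (hA x hx)]
  have h3 : ∀ j, ψ^[j] x = (· ^ z)^[j] x := fun j => by
    induction j with
    | zero => rfl
    | succ j ih =>
      rw [Function.iterate_succ_apply', Function.iterate_succ_apply', ih, h2]
      rw [iterate_zpow, ← zpow_natCast, ← _root_.zpow_mul, mul_comm, _root_.zpow_mul, zpow_natCast, (hA x hx).1, _root_.one_zpow]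
  refine Nat.dvd_antisymm ?_ ?_ <;> refine Function.IsPeriodicPt.minimalPeriod_dvd ?_
  exacts [(h3 _).trans (Function.isPeriodicPt_minimalPeriod _ x), (h3 _).symm.trans (Function.isPeriodicPt_minimalPeriod _ x)]

variable {p : ℕ} [Fact p.Prime] [CharP F p] [hr : Fact r.Prime]

theorem exists_orb (hrp : r ≠ p) : ∃ A : Multiset K, PRt r A ∧ A.Nodup ∧ A.card = orderOf (Fintype.card F : ZMod r) ∧
    St (· ^ Fintype.card F) A := by
  classical
  have : NeZero (r : K) := ⟨by simpa using (map_ne_zero ι).2 (cast_ne_zero_of_ne (F := F) hr.out hrp)⟩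
  obtain ⟨x, hx⟩ := HasEnoughRootsOfUnity.exists_primitiveRoot K r
  have h1 : PRt r {x} := by simpa [PRt] using ⟨hx.pow_eq_one, hx.ne_one hr.out.one_lt⟩
  have h2 := per_card h1 x (by simp)
  have h3 := st_orb pow_card_inj (h2 ▸ orderOf_card_pos hrp)
  refine ⟨_, fun y hy => ?_, Finset.nodup _, (card_orb x).trans h2, h3⟩
  obtain ⟨j, -, rfl⟩ := Finset.mem_image.1 (show y ∈ orb _ x from hy)
  rw [pow_iterate]
  refine ⟨by rw [← pow_mul, mul_comm, pow_mul, hx.pow_eq_one, one_pow], fun h => ?_⟩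
  exact not_dvd_card_of_ne hr.out hrp (hr.out.dvd_of_dvd_pow ((hx.pow_eq_one_iff_dvd _).1 h))

theorem exists_orb_end (hrp : r ≠ p) (h : ¬ r ∣ Fintype.card F - 1) {l e : ℕ} (hl : 0 < l)
    (hV : l * orderOf (Fintype.card F : ZMod r) + e = finrank F V) :
    ∃ (y : End F V) (A : Multiset K), y ^ r = 1 ∧ LinearMap.det y = 1 ∧ PO r y ∧ rts y = l • A + .replicate e 1 ∧ PRt r A ∧
      A.Nodup ∧ A.card = orderOf (Fintype.card F : ZMod r) ∧ e ≤ finrank F (LinearMap.ker (y - 1)) := by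
  obtain ⟨A, h1, h2, h3, h4⟩ := exists_orb (F := F) hrp
  obtain ⟨y, h5, h6, h7⟩ := exists_fix (V := V) (h4.nsmul l) (fun x hx => (h1 x (Multiset.mem_of_mem_nsmul hx)).1)
    (e := e) (by rw [Multiset.card_nsmul, h3, hV])
  refine ⟨y, A, h5, eq_one_of_pow_of_not_dvd hr.out h (by rw [← map_pow, h5, map_one]), po_of_pow hr.out h h5 ?_, h6, h1, h2,
    h3, h7⟩
  rintro rfl
  obtain ⟨x, hx⟩ := Multiset.card_pos_iff_exists_mem.1 (h3 ▸ orderOf_card_pos hrp)
  refine (h1 x hx).2 (Multiset.eq_of_mem_replicate (n := finrank F V) ?_)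
  rw [← rts_one, h6]
  exact Multiset.mem_add.2 (.inl ((Multiset.mem_nsmul).2 ⟨hl.ne', hx⟩))

/-- roots of unity of order `r` lying in `F`, indexed by exponents -/
structure Chi (F : Type*) [Field F] (r : ℕ) (χ : AddChar (ZMod r) (AlgebraicClosure F)) : Prop where
  inj : Function.Injective χ
  surj : ∀ x : AlgebraicClosure F, x ^ r = 1 → ∃ c, χ c = x
  mem : ∀ c, ∃ w : F, algebraMap F _ w = χ c

theorem exists_chi (h : r ∣ Fintype.card F - 1) : ∃ χ, Chi F r χ := by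
  obtain ⟨g, hg⟩ := IsCyclic.exists_ofOrder_eq_natCard (α := Fˣ)
  rw [Nat.card_units, Nat.card_eq_fintype_card] at hg
  have h1 : IsPrimitiveRoot (ι (g ^ ((Fintype.card F - 1) / r) : Fˣ)) r :=
    (IsPrimitiveRoot.coe_units_iff.2 ((hg ▸ IsPrimitiveRoot.orderOf g).pow
      (Nat.sub_pos_of_lt Fintype.one_lt_card) (Nat.div_mul_cancel h).symm)).map_of_injective (ι).injective
  refine ⟨AddChar.zmodChar r h1.pow_eq_one, fun c d e => ZMod.val_injective r (h1.pow_inj (ZMod.val_lt c) (ZMod.val_lt d) e),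
    fun x hx => ?_, fun c => ⟨_, map_pow _ _ _⟩⟩
  obtain ⟨i, -, rfl⟩ := h1.eq_pow_of_pow_eq_one hx
  exact ⟨i, AddChar.zmodChar_apply' _ i⟩

section Chi
variable {χ : AddChar (ZMod r) (AlgebraicClosure F)} (C : Chi F r χ)

omit [Fintype F] in
theorem chi_pow (c : ZMod r) : χ c ^ r = 1 := by rw [← AddChar.map_nsmul_eq_pow, nsmul_eq_mul, ZMod.natCast_self, zero_mul,
  AddChar.map_zero_eq_one]

omit [Fintype F] in
theorem chi_prod (E : Multiset (ZMod r)) : (E.map χ).prod = χ E.sum := by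
  induction E using Multiset.induction_on with
  | empty => simp
  | cons x E ih => simp [ih, AddChar.map_add_eq_mul]

include C

omit [Fintype F] in
theorem Chi.exists_map (h : y ^ r = 1) : ∃ E : Multiset (ZMod r), rts y = E.map χ ∧ E.card = finrank F V := by
  have : CanLift K (ZMod r) χ (· ^ r = 1) := ⟨C.surj⟩
  obtain ⟨E, hE⟩ := (Multiset.canLift χ (· ^ r = 1)).prf (rts y) fun x hx => pow_eq_one_of_mem_rts h hx
  exact ⟨E, hE.symm, by rw [← card_rts y, ← hE, Multiset.card_map]⟩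

theorem Chi.exists_fix (E : Multiset (ZMod r)) {e : ℕ} (hV : E.card + e = finrank F V) :
    ∃ y : End F V, y ^ r = 1 ∧ rts y = (E + .replicate e 0).map χ ∧ ι (LinearMap.det y) = χ E.sum ∧
      e ≤ finrank F (LinearMap.ker (y - 1)) ∧ ∀ c ∈ E + .replicate e 0, ∀ d ∈ E + .replicate e 0, c ≠ d → PO r y := by
  obtain ⟨y, h1, h2, h3⟩ := H28.exists_fix (V := V) (M := E.map χ) (k := r) (e := e) (st_of_fix fun x hx => by
    obtain ⟨c, -, rfl⟩ := Multiset.mem_map.1 hx
    obtain ⟨w, hw⟩ := C.mem c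
    rw [← hw, ← map_pow, FiniteField.pow_card]) (by simpa using fun c _ => chi_pow c) (by simpa)
  have h4 : rts y = (E + .replicate e 0).map χ := by simpa using h2
  refine ⟨y, h1, h4, by rw [← prod_rts, h4, chi_prod]; simp, h3, fun c hc d hd h => po_of_rts (z := 1) (by simp [h1])
    (h4 ▸ Multiset.mem_map_of_mem χ hc) (h4 ▸ Multiset.mem_map_of_mem χ hd) (C.inj.ne h)⟩

omit [Fintype F] in
theorem Chi.st {E : Multiset (ZMod r)} (hE : E ≠ 0) {μ : K} {u : ℤ} (h : St (fun x => μ * x ^ u) (E.map χ)) :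
    ∃ m : ZMod r, St (fun x => m + u * x) E := by
  obtain ⟨c, hc⟩ := Multiset.exists_mem_of_ne_zero hE
  obtain ⟨d, -, hd⟩ := Multiset.mem_map.1 (h.mem (Multiset.mem_map_of_mem χ hc))
  have h1 : ∀ x : ZMod r, χ x ^ u = χ (u * x) := fun x => by rw [← AddChar.map_zsmul_eq_zpow, zsmul_eq_mul]
  refine ⟨d - u * c, Multiset.map_injective C.inj (.trans ?_ h)⟩
  rw [Multiset.map_map, Multiset.map_map]
  refine Multiset.map_congr rfl fun x _ => ?_
  simp only [Function.comp, AddChar.map_add_eq_mul, AddChar.map_sub_eq_div, hd, h1]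
  rw [mul_div_cancel_right₀ _ (χ.val_isUnit _).ne_zero]

end Chi

theorem sym_three : ∀ a b : ZMod 3, ∃ s, ({a, b, -(a + b)} : Multiset (ZMod 3)).map (2 * s - ·) = {a, b, -(a + b)} := by
  decide +kernel

theorem sym_five : ∀ a b c d : ZMod 5, ∃ s, ({a, b, c, d, -(a + b + c + d)} : Multiset (ZMod 5)).map (2 * s - ·) =
    {a, b, c, d, -(a + b + c + d)} := by
  decide +kernel

theorem sym_of (h : r = 3 ∨ r = 5) {E : Multiset (ZMod r)} (h1 : E.card = r) (h2 : E.sum = 0) :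
    ∃ s, St (2 * s - ·) E := by
  rcases h with rfl | rfl
  · obtain ⟨a, b, c, rfl⟩ := Multiset.card_eq_three.1 h1
    obtain rfl : c = -(a + b) := by simp at h2; linear_combination h2
    exact sym_three a b
  · induction E using Quotient.inductionOn with | _ l =>
    rcases l with _ | ⟨a, _ | ⟨b, _ | ⟨c, _ | ⟨d, _ | ⟨e, _ | _⟩⟩⟩⟩⟩ <;> simp at h1
    obtain rfl : e = -(a + b + c + d) := by simp at h2; linear_combination h2
    exact sym_five a b c d

theorem not_sym (h2 : r ≠ 2) {e : ℕ} {m : ZMod r} (h : St (fun x => m + (-1 : ℤ) * x) ({1, 1, -2} + .replicate e 0)) :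
    (r = 3 ∨ r = 5) ∧ 3 + e = r ∨ 3 + e = 6 ∧ r = 3 := by
  have h0 : (2 : ZMod r) ≠ 0 := Ring.two_ne_zero (by rwa [ZMod.ringChar_zmod_n])
  have h1 := congrArg Multiset.sum h
  have h3 : m ≠ 0 := by
    rintro rfl
    have := h.mem (x := 1) (by simp)
    simp only [Multiset.mem_add, Multiset.insert_eq_cons, Multiset.mem_cons, Multiset.mem_singleton, Multiset.mem_replicate] at this
    grind
  have h4 : r ∣ 3 + e := (ZMod.natCast_eq_zero_iff _ r).1 (mul_right_cancel₀ h3 (by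
    simp at h1; push_cast; linear_combination h1))
  have h5 := Multiset.count_map_eq_count' (fun x : ZMod r => m + (-1 : ℤ) * x) ({1, 1, -2} + .replicate e 0)
    (fun x y e => by simpa using e) 0
  rw [h] at h5
  have h6 : e ≤ 3 := by
    simp [Multiset.count_replicate, h3.symm, h0.symm, h0, Multiset.count_cons, Multiset.count_singleton] at h5
    split_ifs at h5 <;> omega
  have := Nat.le_of_dvd (by omega) h4
  have h7 := hr.out
  interval_cases e <;> interval_cases r <;> simp_all (decide := true)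

theorem inv_case (h2 : r ≠ 2) (h : r ∣ Fintype.card F - 1) (hn : 3 ≤ finrank F V) (hg : ¬ (finrank F V = 6 ∧ r = 3))
    {P : End F V → Prop} (h0 : ∀ w : F, w ≠ 0 → ∀ a, P a → P (w • a))
    (h1 : finrank F V = r → ∀ y, y ^ r = 1 → St (·⁻¹) (rts y) → P y)
    (h3 : ∀ y, y ^ r = 1 → P y → ∃ μ : K, St (fun x => μ * x ^ (-1 : ℤ)) (rts y)) :
    (∀ a, LinearMap.det a = 1 → PO r a → P a) ↔
      (r = 3 ∨ r = 5) ∧ finrank F V = r ∧ padicValNat r (Fintype.card F - 1) = 1 := by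
  obtain ⟨χ, C⟩ := exists_chi h
  have hq := Nat.sub_pos_of_lt (Fintype.one_lt_card (α := F))
  have h4 := one_le_padicValNat_of_dvd hq.ne' h
  constructor
  · intro H
    obtain ⟨e, he⟩ := Nat.exists_eq_add_of_le hn
    obtain ⟨y, h5, h6, h7, -, h8⟩ := C.exists_fix (V := V) {1, 1, -2} (e := e) (by simp [he])
    have h9 : (r = 3 ∨ r = 5) ∧ finrank F V = r := by
      by_cases h9 : r = 3 ∧ e = 0
      · omega
      obtain ⟨μ, h10⟩ := h3 y h5 (H y ((ι).injective (by simpa [one_add_one_eq_two, ← add_assoc] using h7)) (by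
        rcases not_and_or.1 h9 with h9 | h9
        · refine h8 1 (by simp) (-2) (by simp) fun h => h9 ((Nat.prime_dvd_prime_iff_eq hr.out Nat.prime_three).1
            ((ZMod.natCast_eq_zero_iff 3 r).1 (by push_cast; linear_combination h)))
        · exact h8 1 (by simp) 0 (by simp [Multiset.mem_replicate, h9]) one_ne_zero))
      obtain ⟨m, hm⟩ := C.st (by simp) (h6 ▸ h10)
      have := not_sym h2 hm
      omega
    refine ⟨h9.1, h9.2, by_contra fun h10 => ?_⟩
    obtain ⟨y, h5, h6, h7, -, h8⟩ := C.exists_fix (V := V) {1} (e := 2 + e) (by simp [he]; ring)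
    have h11 : LinearMap.det y ^ r = 1 := by rw [← map_pow, h5, map_one]
    obtain ⟨k, hk⟩ : r ^ 2 ∣ Fintype.card F - 1 := (padicValNat_dvd_iff_le hq.ne').2 (by omega)
    obtain ⟨w, hw⟩ := (exists_pow_eq_iff h (inv_ne_zero (ne_zero_pow hr.out.ne_zero (h11 ▸ one_ne_zero)))).2 (by
      rw [hk, pow_two, mul_assoc, Nat.mul_div_cancel_left _ hr.out.pos, pow_mul, inv_pow, h11]; simp)
    have h12 : w ^ r * LinearMap.det y = 1 := hw ▸ inv_mul_cancel₀ (ne_zero_pow hr.out.ne_zero (h11 ▸ one_ne_zero))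
    have h13 := ne_zero_pow hr.out.ne_zero (left_ne_zero_of_mul_eq_one h12)
    obtain ⟨μ, h10⟩ := h3 y h5 (inv_smul_smul₀ h13 y ▸ h0 _ (inv_ne_zero h13) _ (H _ (by rw [LinearMap.det_smul, h9.2, h12])
      ((h8 1 (by simp) 0 (by simp [Multiset.mem_replicate]) one_ne_zero).smul h13)))
    obtain ⟨m, hm⟩ := C.st (by simp) (h6 ▸ h10)
    have h14 := congrArg Multiset.sum hm
    have h15 : ((3 + e : ℕ) : ZMod r) = 0 := by rw [← he, h9.2, ZMod.natCast_self]
    refine Ring.two_ne_zero (R := ZMod r) (by rwa [ZMod.ringChar_zmod_n]) ?_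
    simp at h14 h15
    linear_combination m * h15 - h14
  · rintro ⟨h5, h6, h7⟩ a h8 h9
    obtain ⟨w, hw, y, rfl, h10, -⟩ | ⟨z, hz, h10⟩ := po_cases hr.out.ne_zero (inj_of_det (h8 ▸ one_ne_zero)) h9
    · obtain ⟨E, h11, h12⟩ := C.exists_map h10
      rw [LinearMap.det_smul, h6] at h8
      have h13 : w ^ r = 1 := by
        have h13 : w ^ r ^ 2 = 1 := by
          simpa [mul_pow, ← pow_mul, ← map_pow, h10, pow_two] using congrArg (· ^ r) h8
        obtain ⟨j, h14, h15⟩ := (Nat.dvd_prime_pow hr.out).1 (orderOf_dvd_of_pow_eq_one h13)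
        have h16 := (padicValNat_dvd_iff_le hq.ne').1 (h15 ▸ orderOf_dvd_of_pow_eq_one (FiniteField.pow_card_sub_one_eq_one w hw))
        exact orderOf_dvd_iff_pow_eq_one.1 (h15 ▸ (pow_dvd_pow r (h7 ▸ h16)).trans (pow_one r).dvd)
      rw [h13, one_mul] at h8
      obtain ⟨s, hs⟩ := sym_of h5 (h12.trans h6) (C.inj (by rw [← chi_prod, ← h11, prod_rts, h8]; simp))
      obtain ⟨c, hc⟩ := C.mem (-s)
      have h14 : c ≠ 0 := fun h => (χ.val_isUnit _).ne_zero (by rw [← hc, h, map_zero])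
      refine h0 w hw _ (inv_smul_smul₀ h14 y ▸ h0 _ (inv_ne_zero h14) _ (h1 h6 _ ?_ ?_))
      · rw [_root_.smul_pow, h10, (ι).injective (by rw [map_pow, hc, chi_pow, map_one] : ι (c ^ r) = ι 1), one_smul]
      · rw [St, rts_smul h14, h11, hc]
        conv_rhs => rw [← hs]
        simp only [Multiset.map_map, Function.comp, ← AddChar.map_add_eq_mul, ← AddChar.map_neg_eq_inv]
        exact Multiset.map_congr rfl fun x _ => congrArg χ (by ring)
    · obtain ⟨k, -, h11, h12⟩ := ed_of_nonpow hr.out hz h10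
      exact absurd ((exists_nonpow_det_iff hr.out h (by omega)).1 ⟨z, k, hz, h11, h12 ▸ h8⟩)
        (not_not.2 ⟨by rw [h6, h7, padicValNat_self], fun h => absurd h h2⟩)

theorem exists_two (h2 : r ≠ 2) (h : r ∣ Fintype.card F - 1) {e : ℕ} (hn : 2 + e = finrank F V) :
    ∃ (y : End F V) (ζ : K), y ^ r = 1 ∧ LinearMap.det y = 1 ∧ PO r y ∧ rts y = {ζ, ζ⁻¹} + .replicate e 1 ∧ ζ ≠ 1 ∧ ζ ≠ ζ⁻¹ ∧
      e ≤ finrank F (LinearMap.ker (y - 1)) ∧
      ∀ (μ : K) (u : ℤ), (u : ZMod r) ≠ 0 → St (fun x => μ * x ^ u) (rts y) → (u : ZMod r) ^ 2 = 1 := by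
  obtain ⟨χ, C⟩ := exists_chi h
  have h0 : (2 : ZMod r) ≠ 0 := Ring.two_ne_zero (by rwa [ZMod.ringChar_zmod_n])
  have h1 : (1 : ZMod r) ≠ -1 := fun h => h0 (by linear_combination h)
  obtain ⟨y, h5, h6, h7, h8, h9⟩ := C.exists_fix (V := V) {1, -1} (e := e) (by simp [← hn])
  refine ⟨y, χ 1, h5, (ι).injective (by simpa using h7), h9 1 (by simp) (-1) (by simp) h1,
    by simp [h6, AddChar.map_neg_eq_inv], fun h => one_ne_zero (C.inj (h.trans χ.map_zero_eq_one.symm)),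
    fun h => h1 (C.inj (h.trans (χ.map_neg_eq_inv 1).symm)), h8, fun μ u hu h10 => ?_⟩
  obtain ⟨m, hm⟩ := C.st (by simp) (h6 ▸ h10)
  have h11 := hm.mem (x := 1) (by simp)
  have h12 := hm.mem (x := -1) (by simp)
  have h13 := fun h => hm.mem (x := 0) h
  simp only [Multiset.mem_add, Multiset.insert_eq_cons, Multiset.mem_cons, Multiset.mem_singleton,
    Multiset.mem_replicate] at h11 h12 h13
  generalize (u : ZMod r) = v at *
  grind

omit [CharP F p] hr in
theorem exists_refl (h2 : (2 : F) ≠ 0) {e : ℕ} (hn : 2 + e = finrank F V)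
    (h : padicValNat 2 (finrank F V) < padicValNat 2 (Fintype.card F - 1)) : ∃ (w : F) (y : End F V), w ≠ 0 ∧ y ^ 2 = 1 ∧
      LinearMap.det (w • y) = 1 ∧ PO 2 (w • y) ∧ rts y = {-1} + .replicate (e + 1) 1 ∧
      e + 1 ≤ finrank F (LinearMap.ker (y - 1)) := by
  obtain ⟨y, h3, h4, h5⟩ := exists_fix (V := V) (M := {-1}) (k := 2) (e := e + 1) (st_of_fix fun x hx => by
    rw [Multiset.mem_singleton.1 hx, ← map_one ι, ← map_neg, ← map_pow, FiniteField.pow_card]) (by simp) (by simp [← hn]; ring)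
  obtain ⟨g, hg⟩ := IsCyclic.exists_ofOrder_eq_natCard (α := Fˣ)
  rw [Nat.card_units, Nat.card_eq_fintype_card] at hg
  obtain ⟨w, h6, h7⟩ := (exists_pow_eq_neg_one_iff (IsPrimitiveRoot.coe_units_iff.2 (hg ▸ IsPrimitiveRoot.orderOf g))
    (Nat.sub_pos_of_lt Fintype.one_lt_card).ne' h2 (by omega)).2 h
  have h8 : w ≠ 0 := ne_zero_pow (n := finrank F V) (by omega) (by simp [h7])
  refine ⟨w, y, h8, h3, ?_, (po_of_rts (z := 1) (x := 1) (x' := -1) (by simp [h3]) (by simp [h4]) (by simp [h4])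
    fun h => (map_ne_zero ι).2 h2 (by rw [map_ofNat]; linear_combination h)).smul h8, h4, h5⟩
  rw [LinearMap.det_smul, h7, (ι).injective (by rw [← prod_rts, h4]; simp : ι (LinearMap.det y) = ι (-1))]
  simp

omit [CharP F p] hr [Fintype F] in
theorem rts_inv (h : y ^ 2 = 1) : ∃ s t, rts y = .replicate s 1 + .replicate t (-1) ∧ s + t = finrank F V ∧
    LinearMap.det y = (-1) ^ t := by
  obtain ⟨s, t, h1⟩ := eq_rep_add (M := rts y) fun x hx => sq_eq_one_iff.1 (pow_eq_one_of_mem_rts h hx)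
  exact ⟨s, t, h1, by rw [← card_rts y, h1]; simp, (ι).injective (by rw [← prod_rts, h1]; simp)⟩

omit [CharP F p] hr in
theorem even_of_det' (h2 : (2 : F) ≠ 0) (hn : finrank F V ≠ 0)
    (h : padicValNat 2 (Fintype.card F - 1) ≤ padicValNat 2 (finrank F V)) {w : F} {t : ℕ} (h1 : LinearMap.det y = (-1) ^ t)
    (h3 : LinearMap.det (w • y) = 1) : Even t := by
  by_contra h4
  rw [LinearMap.det_smul, h1, (Nat.not_even_iff_odd.1 h4).neg_one_pow, mul_neg_one, neg_eq_iff_eq_neg] at h3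
  obtain ⟨g, hg⟩ := IsCyclic.exists_ofOrder_eq_natCard (α := Fˣ)
  rw [Nat.card_units, Nat.card_eq_fintype_card] at hg
  exact ((exists_pow_eq_neg_one_iff (IsPrimitiveRoot.coe_units_iff.2 (hg ▸ IsPrimitiveRoot.orderOf g))
    (Nat.sub_pos_of_lt Fintype.one_lt_card).ne' h2 hn).1 ⟨w, FiniteField.pow_card_sub_one_eq_one w
      (ne_zero_pow hn (by simp [h3])), h3⟩).not_ge h

omit hr in
theorem exists_unip {μ : Multiset ℕ} (h1 : ∀ k ∈ μ, 0 < k ∧ k ≤ p) (h2 : μ.sum = finrank F V) (h3 : ∃ k ∈ μ, 1 < k) :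
    ∃ u : End F V, u ^ p = 1 ∧ LinearMap.det u = 1 ∧ PO p u ∧ IsNilpotent (u - 1) ∧ jt u = μ := by
  obtain ⟨u, h4, h5, h6⟩ := exists_unip_pow h1 h2 h3
  exact ⟨u, h4, eq_one_of_pow_of_not_dvd Fact.out (not_dvd_card_sub_one (p := p)) (by rw [← map_pow, h4, map_one]),
    po_of_pow Fact.out not_dvd_card_sub_one h4 h5, jt_of_ed (fun k hk => (h1 k hk).1) h6⟩

omit hr in
theorem exists_tv {e : ℕ} (hn : 2 + e = finrank F V) : ∃ u : End F V, u ^ p = 1 ∧ LinearMap.det u = 1 ∧ PO p u ∧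
    IsNilpotent (u - 1) ∧ jt u = 2 ::ₘ .replicate e 1 ∧ e + 1 ≤ finrank F (LinearMap.ker (u - 1)) := by
  have := (Fact.out : p.Prime).two_le
  obtain ⟨u, h1, h2, h3, h4, h5⟩ := exists_unip (p := p) (V := V) (μ := 2 ::ₘ .replicate e 1)
    (by simp +contextual [Multiset.mem_replicate]; omega) (by simpa) ⟨2, by simp, one_lt_two⟩
  exact ⟨u, h1, h2, h3, h4, h5, by simp [finrank_ker_sub_one h4, h5]⟩

end Cfsg.Agent.H28
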