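import Cfsg.Agent.H28.Elu14
import Cfsg.Agent.H13.EO2

/-! Elements of prime order of the special linear group and similarity groups of forms. -/

set_option autoImplicit false

namespace Cfsg.Agent.H28

open Polynomial Module H12 H13 Matrix

variable {F V W : Type*} [Field F] [AddCommGroup V] [Module F V] [AddCommGroup W] [Module F W] {σ : F →+* F}

local notation "K" => AlgebraicClosure F
local notation "ι" => algebraMap F (AlgebraicClosure F)

/-- similarity with multiplier `c` -/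
def Sml (B : V →ₛₗ[σ] V →ₗ[F] F) (c : F) (a : End F V) : Prop := ∀ x y, B (a x) (a y) = c * B x y

section Sml
variable {B : V →ₛₗ[σ] V →ₗ[F] F} {a : End F V} {c : F} {r : ℕ}

theorem Pres.sml (h : Pres B a) : Sml B 1 a := fun x y => by rw [h, one_mul]

theorem Sml.pres (h : Sml B 1 a) : Pres B a := fun x y => by rw [h, one_mul]

theorem Sml.pow (h : Sml B c a) (k : ℕ) : Sml B (c ^ k) (a ^ k) := fun x y => by
  induction k with
  | zero => simp
  | succ k ih => rw [pow_succ', pow_succ', End.mul_apply, End.mul_apply, h, ih, mul_assoc]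

theorem Sml.pow_eq [Nontrivial V] (D : NDS B) (h : Sml B c a) {z : F} (h1 : a ^ r = z • 1) : c ^ r = σ z * z := by
  obtain ⟨x, hx⟩ := exists_ne (0 : V)
  obtain ⟨y, hy⟩ := not_forall.1 (mt (D.sep x) hx)
  refine mul_right_cancel₀ hy ((h.pow r x y).symm.trans ?_)
  simp [h1, mul_assoc, mul_left_comm]

theorem Sml.conj {B' : W →ₛₗ[σ] W →ₗ[F] F} (h : Sml B c a) (e : V ≃ₗ[F] W) (he : ∀ x y, B' (e x) (e y) = B x y) :
    Sml B' c (e.conj a) := fun x y => by simp [LinearEquiv.conj_apply, he, h _ _, ← he (e.symm x)]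

theorem Sml.st [FiniteDimensional F V] (D : NDS B) (h : Sml B c a) (hc : c ≠ 0) {ρ : K →+* K}
    (hρ : ∀ c, ρ (ι c) = ι (σ c)) : St (fun x => ι c * (ρ x)⁻¹) (rts a) := by
  have h1 := rts_dual D.invol D.sep rfl (a := a) (b := c⁻¹ • a) (fun x y => by simp [h x y, hc]) ρ hρ
  have h2 := congrArg (Multiset.map (ι c * ·)) h1
  rwa [← rts_smul hc, smul_inv_smul₀ hc, Multiset.map_map] at h2

end Sml

variable {κ : Type} [Fintype κ] [DecidableEq κ] {X : Subgroup (GL κ F)} {B : (κ → F) →ₛₗ[σ] (κ → F) →ₗ[F] F}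
  {a y : End F (κ → F)} {r : ℕ}

/-- `X` is the similarity group of `B` -/
structure SG (X : Subgroup (GL κ F)) (B : (κ → F) →ₛₗ[σ] (κ → F) →ₗ[F] F) : Prop where
  nds : NDS B
  iff : ∀ g : GL κ F, g ∈ X ↔ ∃ c, c ≠ 0 ∧ Sml B c (toLin' (g : Matrix κ κ F))

theorem exists_sg_sp {f : (κ → F) → (κ → F) → F} (hf : Geo.IsSymplecticForm f) :
    ∃ B : (κ → F) →ₛₗ[RingHom.id F] (κ → F) →ₗ[F] F, SD B ∧ SG (Geo.similarityGroup f) B := by
  have D : SD (σ := RingHom.id F) (LinearMap.mk₂ F f hf.bilinear.add_left hf.bilinear.smul_left hf.bilinear.add_right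
      hf.bilinear.smul_right) := ⟨fun _ => rfl, fun x y => hf.skew y x, fun x hx => by_contra fun h =>
    (hf.nondegenerate x h).2.elim fun y hy => hy (hx y), fun x => ⟨0, by simp [hf.alternating]⟩⟩
  exact ⟨_, D, D.wittData.nds, fun g => ⟨fun ⟨c, h⟩ => ⟨c, c.ne_zero, h⟩, fun ⟨c, h, h'⟩ => ⟨.mk0 c h, h'⟩⟩⟩

theorem exists_sg_u [Fintype F] {q : ℕ} (hF : Fintype.card F = q ^ 2) {f : (κ → F) → (κ → F) → F}
    (hf : Geo.IsUnitaryFormPow q f) (hn : 2 ≤ Fintype.card κ) :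
    ∃ B : (κ → F) →ₛₗ[frobq hF] (κ → F) →ₗ[F] F, SD B ∧ SG (Geo.similarityGroup f) B := by
  have h1 : ∀ v w, f v w = frobq hF (f w v) := hf.herm
  obtain ⟨a, ha⟩ := H18.HForm.tvF_herm (σ := frobq hF) (f := f) ⟨⟨hf.add_left, hf.smul_left, fun v x y => by
    rw [h1, hf.add_left, map_add, ← h1, ← h1], fun c v x => by rw [h1, hf.smul_left, map_mul, ← h1]⟩, frobq_frobq hF, by simp,
    by simpa using h1, fun v hv => by_contra fun h => (hf.nondegenerate v h).1.elim fun y hy => hy (hv y)⟩ (frobq_ne_id hF) hn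
  exact ⟨_, sd_tB ha, (sd_tB ha).wittData.nds, sim_iff ha⟩

theorem sg_o (h2 : (2 : F) ≠ 0) {Q : QuadraticForm F (κ → F)} (hQ : ND Q) :
    SG (σ := RingHom.id F) (Geo.quadSimilarityGroup Q) (QuadraticMap.polarBilin Q) :=
  ⟨⟨fun _ => rfl, hQ⟩, fun g => ⟨fun ⟨c, h⟩ => ⟨c, c.ne_zero, fun x y => by
    simp only [QuadraticMap.polarBilin_apply_apply, QuadraticMap.polar, toLin'_apply, ← mulVec_add, h]; ring⟩,
    fun ⟨c, h, h'⟩ => ⟨.mk0 c h, fun v => mul_left_cancel₀ h2 (by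
      simpa [QuadraticMap.polar_self, mul_left_comm] using h' v v)⟩⟩⟩

namespace SG
variable (S : SG X B)
include S

theorem scalars : Geo.scalars κ F ≤ X := fun g hg =>
  let ⟨c, hc⟩ := (Geo.mem_scalars_iff g).1 hg
  (S.iff g).2 ⟨σ c * c, by simp, fun x y => by simp [hc, mul_assoc, mul_left_comm]⟩

theorem smul (w : F) (hw : w ≠ 0) (a : End F (κ → F)) (h : CI X a) : CI X (w • a) := h.smul S.scalars w hw

theorem ci {b : End F (κ → F)} {c : F} (h : Sml B c b) (hc : c ≠ 0) {a : End F V} (h1 : Sim a b) : CI X a := by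
  obtain ⟨g, rfl⟩ := exists_GL (a := b) ((LinearMap.isUnit_iff_isUnit_det b).1 ((LinearMap.isUnit_iff_ker_eq_bot b).2
    (LinearMap.ker_eq_bot'.2 fun x hx => S.nds.sep x fun y => mul_left_cancel₀ hc (by rw [← h, hx]; simp)))).ne_zero
  exact ⟨g, (S.iff g).2 ⟨c, hc, h⟩, h1⟩

theorem of_ci {a : End F V} (h : CI X a) : ∃ b c, c ≠ 0 ∧ Sml B c b ∧ Sim a b :=
  let ⟨g, h1, h2⟩ := h
  let ⟨c, h3, h4⟩ := (S.iff g).1 h1
  ⟨_, c, h3, h4, h2⟩

theorem dvd : X.relIndex (Geo.specialLinear κ F) * Nat.card (UG B) ∣ Nat.card (GL κ F) :=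
  have : (Geo.specialLinear κ F).Normal := MonoidHom.normal_ker _
  relIndex_mul_dvd' (toGL B) ((glEq κ F).symm.injective.comp Subtype.val_injective) fun g =>
    (S.iff _).2 ⟨1, one_ne_zero, fun x y => by simp [toGL_mulVec, UG_map]⟩

theorem st {ρ : K →+* K} (hρ : ∀ c, ρ (ι c) = ι (σ c)) (h : CI X a) : ∃ μ : K, St (fun x => μ * (ρ x)⁻¹) (rts a) :=
  let ⟨_, _, h1, h2, h3⟩ := S.of_ci h
  ⟨_, h3.rts_eq ▸ h2.st S.nds h1 hρ⟩

variable [Fintype F]

theorem pres [Nonempty κ] (hr : r.Prime) (h : ¬ r ∣ Fintype.card F - 1) (h1 : y ^ r = 1) (h2 : CI X y) :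
    ∃ b, Pres B b ∧ Sim y b := by
  obtain ⟨b, c, -, h3, h4⟩ := S.of_ci h2
  obtain rfl := eq_one_of_pow_of_not_dvd hr h ((h3.pow_eq S.nds (z := 1)
    (by rw [(h4.pow r).eq_one_iff.1 h1, one_smul])).trans (by simp))
  exact ⟨b, h3.pres, h4⟩

theorem ci_of_rs (D : SD B) (h0 : (r : F) ≠ 0) (h1 : y ^ r = 1) (h : RS σ (rts y)) : CI X y :=
  let ⟨_, h2, ⟨_, h3, h4⟩, h5⟩ := h.exists D (card_rts y)
  S.ci h2.sml one_ne_zero (sim_of_charpoly h0 h1 h3 h4 (charpoly_eq_of_rts h5.symm))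

variable {p : ℕ} [Fact p.Prime] [CharP F p]

theorem not_el [hr : Fact r.Prime] (hrp : r ≠ p) (h : ¬ r ∣ Fintype.card F - 1)
    (hn : orderOf (Fintype.card F : ZMod r) ≤ Fintype.card κ) {ρ : K →+* K} (hρ : ∀ c, ρ (ι c) = ι (σ c)) {z : ℤ}
    (h1 : ∀ x, x ^ r = 1 → (ρ x)⁻¹ = x ^ z) (h2 : ¬ orderOf (z : ZMod r) ∣ orderOf (Fintype.card F : ZMod r)) : ¬ EL X r :=
  fun H => by
    obtain ⟨e, he⟩ := Nat.exists_eq_add_of_le hn
    obtain ⟨y, A, h3, h4, h5, h6, h7, -, h8, -⟩ := exists_orb_end (V := κ → F) hrp h one_pos (e := e) (by simp [he])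
    have : Nonempty κ := Fintype.card_pos_iff.1 ((orderOf_card_pos hrp).trans_le hn)
    obtain ⟨b, h9, h10⟩ := S.pres hr.out h h3 (H.ci y h4 h5)
    have h11 := rts_dual S.nds.invol S.nds.sep rfl h9 ρ hρ
    rw [← h10.rts_eq, h6, one_nsmul] at h11
    exact h2 (h8 ▸ dvd_of_st h7 h11 del_inj h1)

theorem el_inv [hr : Fact r.Prime] (h2 : r ≠ 2) (hrp : r ≠ p) (h : r ∣ Fintype.card F - 1) (hn : 3 ≤ Fintype.card κ)
    (hg : ¬ (Fintype.card κ = 6 ∧ r = 3)) {ρ : K →+* K} (hρ : ∀ c, ρ (ι c) = ι (σ c)) (h0 : ∀ x, x ^ r = 1 → ρ x = x)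
    (h1 : Fintype.card κ = r → ∀ y : End F (κ → F), y ^ r = 1 → St (·⁻¹) (rts y) → CI X y) :
    EL X r ↔ (r = 3 ∨ r = 5) ∧ Fintype.card κ = r ∧ padicValNat r (Fintype.card F - 1) = 1 := by
  rw [el_iff hr.out (.inr hrp)]
  rw [← finrank_fintype_fun_eq_card F (η := κ)] at *
  refine inv_case h2 h hn hg S.smul h1 fun y h3 h4 => (S.st hρ h4).imp fun μ h5 => .trans (Multiset.map_congr rfl ?_) h5
  exact fun x hx => by rw [h0 x (pow_eq_one_of_mem_rts h3 hx), _root_.zpow_neg_one]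

omit S in
theorem not_el_odd [hr : Fact r.Prime] {B : (κ → F) →ₛₗ[RingHom.id F] (κ → F) →ₗ[F] F} (S : SG X B) (h2 : r ≠ 2)
    (hrp : r ≠ p) (h : ¬ r ∣ Fintype.card F - 1) {j : ℕ} (hj : Odd j) (hn : j ≤ Fintype.card κ)
    (h1 : r ∣ Fintype.card F ^ j - 1) : ¬ EL X r := by
  rw [← orderOf_dvd_iff] at h1
  refine S.not_el hrp h ((Nat.le_of_dvd hj.pos h1).trans hn) (ρ := .id _) (fun _ => rfl) (z := -1) (fun x _ => by simp)
    fun h3 => ?_
  rw [Int.cast_neg, Int.cast_one, orderOf_neg_one, if_neg (by rwa [ZMod.ringChar_zmod_n])] at h3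
  exact Nat.not_even_iff_odd.2 hj (even_iff_two_dvd.2 (h3.trans h1))

omit S [Fintype F] in
theorem not_el_unip [Finite F] [Nonempty κ] (S : SG X B) {μ : Multiset ℕ} (h1 : ∀ k ∈ μ, 0 < k ∧ k ≤ p)
    (h2 : μ.sum = Fintype.card κ) (h3 : ∃ k ∈ μ, 1 < k) (h : ∀ b, Pres B b → IsNilpotent (b - 1) → jt b ≠ μ) : ¬ EL X p :=
  fun H => by
    have := Fintype.ofFinite F
    obtain ⟨u, h4, h5, h6, h7, h10⟩ := exists_unip (F := F) (V := κ → F) h1 (by simpa) h3
    obtain ⟨b, h8, h9⟩ := S.pres Fact.out (not_dvd_card_sub_one (p := p)) h4 (H.ci u h5 h6)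
    exact h b h8 (h9.isNilpotent h7) (((sim_iff_jt h7 (h9.isNilpotent h7)).1 h9).symm.trans h10)

end SG

variable [FiniteDimensional F V]

theorem exists_sml_sp [Finite F] {B : V →ₛₗ[RingHom.id F] V →ₗ[F] F} (D : SD B) (z : F) :
    ∃ b, Sml B (-z) b ∧ b ^ 2 = z • 1 := by
  obtain ⟨m, hm⟩ := D.even_finrank
  obtain ⟨e, he⟩ := (sd_hypB (σ := .id F) (fun _ => rfl) m).exists_isometry D (by simp [hm])
  let b : End F ((Fin m → F) × (Fin m → F)) := (z • LinearMap.snd F _ _).prod (.fst F _ _)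
  refine ⟨_, Sml.conj (a := b) (fun x y => by simp [hypB_apply, b]; ring) e he, ?_⟩
  exact LinearMap.ext fun v => by simp [LinearEquiv.conj_apply, b, pow_two, ← map_smul, ← Prod.smul_mk]

theorem rts_diag (f : Basis κ F V) (d : κ → F) : rts (f.constr F fun i => d i • f i) = Finset.univ.val.map fun i => ι (d i) := by
  rw [rts_eq f, show LinearMap.toMatrix f f (f.constr F fun i => d i • f i) = diagonal d by
    ext i j; simp [LinearMap.toMatrix_apply, diagonal_apply, Finsupp.single_apply, eq_comm]; aesop,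
    diagonal_map (map_zero _), charpoly_diagonal, ← roots_multiset_prod_X_sub_C (Finset.univ.val.map _), Multiset.map_map]
  rfl

section Orth
open QuadraticMap
variable {Q : QuadraticForm F V}

omit [FiniteDimensional F V] in
theorem sml_of_adj {B : V →ₛₗ[σ] V →ₗ[F] F} {b : End F V} {z : F} (h : ∀ x y, B (b x) y = B x (b y)) (h1 : b ^ 2 = z • 1) :
    Sml B z b := fun x y => by rw [h, ← End.mul_apply, ← pow_two, h1]; simp

theorem exists_sml_o [Fintype F] (h2 : (2 : F) ≠ 0) (hQ : ND Q) {m : ℕ} (hm : finrank F V = m + m) (z : F) :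
    ∃ b, Sml (σ := .id F) (polarBilin Q) z b ∧ b ^ 2 = z • 1 := by
  obtain ⟨e, h3, h4⟩ := hQ.exists_orthogonal_basis h2
  let f := e.reindex ((finCongr hm).trans finSumFinEquiv.symm)
  have h5 : ∀ i j, i ≠ j → polar Q (f i) (f j) = 0 := fun i j h => by simpa [f] using h3 _ _ (by simpa [Fin.ext_iff, Fin.val_inj] using h)
  have h6 : ∀ i, Q (f i) ≠ 0 := fun i => by simpa [f] using h4 _
  have : ∀ j, ∃ α β : F, α ^ 2 + β ^ 2 * (Q (f (.inl j)) * Q (f (.inr j))) = z := fun j => by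
    obtain ⟨α, β, h⟩ := FiniteField.exists_root_sum_quadratic (f := Polynomial.X ^ 2 - C z)
      (g := C (Q (f (.inl j)) * Q (f (.inr j))) * Polynomial.X ^ 2) (degree_X_pow_sub_C two_pos _)
      (degree_C_mul_X_pow 2 (mul_ne_zero (h6 _) (h6 _))) (Nat.odd_iff.1 (H13.odd_card_of_two_ne_zero h2))
    exact ⟨α, β, by simp at h; linear_combination h⟩
  choose α β h using this
  let b : End F V := f.constr F (Sum.elim (fun j => α j • f (.inl j) + (β j * Q (f (.inl j))) • f (.inr j))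
    fun j => (β j * Q (f (.inr j))) • f (.inl j) - α j • f (.inr j))
  have h7 : b ^ 2 = z • 1 := f.ext fun i => by
    rcases i with j | j <;> simp only [pow_two, End.mul_apply, b, Basis.constr_basis, Sum.elim_inl, Sum.elim_inr, map_add,
      map_sub, map_smul, LinearMap.smul_apply, End.one_apply, ← h j] <;> module
  refine ⟨b, sml_of_adj (fun x y => ?_) h7, h7⟩
  have : (polarBilin Q).compl₁₂ b .id = (polarBilin Q).compl₁₂ .id b := LinearMap.ext_basis f f fun i j => by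
    rcases i with i | i <;> rcases j with j | j <;> rcases eq_or_ne i j with rfl | h <;>
      simp [b, *, polar_self] <;> ring
  exact LinearMap.congr_fun₂ this x y

theorem exists_inv_o (h2 : (2 : F) ≠ 0) (hQ : ND Q) {s t : ℕ} (h : s + t = finrank F V) :
    ∃ b, Pres (σ := .id F) (polarBilin Q) b ∧ b ^ 2 = 1 ∧ rts b = .replicate s 1 + .replicate t (-1) := by
  obtain ⟨e, h3, -⟩ := hQ.exists_orthogonal_basis h2
  let f := e.reindex ((finCongr h.symm).trans finSumFinEquiv.symm)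
  have h5 : ∀ i j, i ≠ j → polar Q (f i) (f j) = 0 := fun i j h => by
    simpa [f] using h3 _ _ (by simpa [Fin.ext_iff, Fin.val_inj] using h)
  let d : Fin s ⊕ Fin t → F := Sum.elim 1 (-1)
  have h6 : ∀ i, d i * d i = 1 := fun i => by cases i <;> simp [d]
  have h7 : f.constr F (fun i => d i • f i) ^ 2 = 1 := f.ext fun i => by simp [pow_two, smul_smul, h6]
  refine ⟨_, (sml_of_adj (fun x y => ?_) (h7.trans (one_smul F _).symm)).pres, h7, by
    rw [rts_diag, ← Finset.univ_disjSum_univ, Finset.val_disjSum, Multiset.disjSum, Multiset.map_add, Multiset.map_map,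
      Multiset.map_map]; simp [d, Function.comp_def]⟩
  have : (polarBilin Q).compl₁₂ (f.constr F fun i => d i • f i) .id = (polarBilin Q).compl₁₂ .id
      (f.constr F fun i => d i • f i) := LinearMap.ext_basis f f fun i j => by
    rcases eq_or_ne i j with rfl | h <;> simp [*]
  exact LinearMap.congr_fun₂ this x y

theorem exists_o_rts [Fintype F] (h2 : (2 : F) ≠ 0) (hQ : ND Q) (hr : r.Prime) (hr2 : r ≠ 2) (h0 : (r : F) ≠ 0)
    (hV : Odd (finrank F V)) {y : End F V} (h1 : y ^ r = 1) (h : St (·⁻¹) (rts y)) :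
    ∃ b, Pres (σ := .id F) (polarBilin Q) b ∧ Sim y b := by
  classical
  have := Fact.mk hr
  have h8 : PRt r (nr y) := fun x hx => ⟨pow_eq_one_of_mem_rts h1 (Multiset.mem_filter.1 hx).1, (Multiset.mem_filter.1 hx).2⟩
  have h9 : St (·⁻¹) (nr y) := h.filter _ fun x => by simp
  obtain ⟨S, a, h3, h4⟩ := exists_fp hr hr2 h0 (M := nr y) ⟨h8, St.filter (map_rts y (FiniteField.frobeniusAlgHom F K).toRingHom
      (FiniteField.frobeniusAlgHom F K).commutes) _ fun x => (pow_card_eq_one x).not⟩ h9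
  have h10 := dvd_of_st h8 (e := 0) (by simpa using h9) inv_injective (z := -1) fun x _ => by simp
  rw [Int.cast_neg, Int.cast_one, orderOf_neg_one, if_neg (by rwa [ZMod.ringChar_zmod_n])] at h10
  rw [Nat.odd_iff] at hV
  have h5 := card_nr_le y
  obtain ⟨T, h6, h7⟩ := exists_ty (F := F) (V := Fin (finrank F V - (nr y).card) → F)
    (δ := kap F (nr y).card (finrank F V - (nr y).card) * ty S * ty Q) (.inr h2) fun h => by simp at h; omega
  obtain ⟨e, he⟩ := (h3.nd.prod h6).iso_of_ty hQ (by simp; omega) (by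
    rw [h3.nd.ty_prod h6, h7, finrank_fin_fun, finrank_fin_fun, ← mul_assoc, Int.units_mul_self, one_mul])
  refine ⟨e.conj (a.prodMap 1), polar_map fun x => ?_, .trans (sim_of_rts h0 h1 ?_ ?_) (sim_conj _ e)⟩
  · rw [LinearEquiv.conj_apply_apply, he, ← e.apply_symm_apply x, he]
    simp [h3.map]
  · rw [prodMap_pow, h3.pow, one_pow]; exact LinearMap.prodMap_one
  · rw [rts_prodMap, h4, rts_one, finrank_fin_fun, ← rts_eq_nr]

end Orth

end Cfsg.Agent.H28
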