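import Cfsg.Agent.H28.Elu15
import Cfsg.Agent.H28.UCent

/-! Elements of prime order of the special linear group and subfield groups. -/

set_option autoImplicit false

namespace Cfsg.Agent.H28

open Polynomial Module H12 H13 Matrix

variable {F V : Type*} [Field F] [AddCommGroup V] [Module F V] [FiniteDimensional F V]

local notation "K" => AlgebraicClosure F
local notation "ι" => algebraMap F (AlgebraicClosure F)

theorem det_sq_of_comm {N b : End F V} (h : N * N = 0) (h1 : finrank F V = 2 * finrank F (LinearMap.range N))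
    (h2 : N * b = b * N) : IsSquare (LinearMap.det b) := by
  have h3 : LinearMap.range N = LinearMap.ker N := Submodule.eq_of_le_of_finrank_eq (LinearMap.range_le_ker_iff.2 h)
    (by have := N.finrank_range_add_finrank_ker; omega)
  have h4 : ∀ v, N (b v) = b (N v) := LinearMap.congr_fun h2
  have h5 : LinearMap.ker N ≤ (LinearMap.ker N).comap b := fun v hv => by
    rw [Submodule.mem_comap, LinearMap.mem_ker, h4, hv, map_zero]
  refine ⟨_, (b.det_eq_det_mul_det _ h5).trans (congrArg _ (Sim.det_eq ⟨N.quotKerEquivRange.trans (.ofEq _ _ h3), fun v => ?_⟩))⟩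
  induction v using Submodule.Quotient.induction_on
  exact Subtype.ext (h4 _)

variable {κ : Type} [Fintype κ] [DecidableEq κ] {F₀ : Subfield F} {a y : End F (κ → F)} {r : ℕ}

local notation "XX" => Geo.subfieldSubgroup F₀ (1 : GL κ F)

/-- extension of scalars -/
abbrev xm (A : Matrix κ κ F₀) : End F (κ → F) := toLin' (A.map F₀.subtype)

theorem mem_sub {g : GL κ F} : g ∈ XX ↔ ∃ c : F, c ≠ 0 ∧ ∃ A : Matrix κ κ F₀, (g : Matrix κ κ F) = c • A.map F₀.subtype := by
  rw [H18.mem_subfieldSubgroup_iff, inv_one]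
  have : H18.cj 1 (g : Matrix κ κ F) = g := (H18.cj_eq_iff _ _ _).2 (by simp)
  rw [this]
  refine ⟨fun ⟨c, h, h'⟩ => ⟨c⁻¹, inv_ne_zero h, .of fun i j => ⟨_, h' i j⟩, by ext; simp [h]⟩,
    fun ⟨c, h, A, h'⟩ => ⟨c⁻¹, inv_ne_zero h, fun i j => by simp [h', h]⟩⟩

theorem smul_sub (w : F) (hw : w ≠ 0) (a : End F (κ → F)) (h : CI XX a) : CI XX (w • a) :=
  h.smul (fun g hg => let ⟨c, hc⟩ := (Geo.mem_scalars_iff g).1 hg; mem_sub.2 ⟨c, c.ne_zero, 1, by simpa⟩) w hw

theorem xm_pow (A : Matrix κ κ F₀) (k : ℕ) : xm A ^ k = xm (A ^ k) := by rw [xm, xm, Matrix.map_pow, toLin'_pow]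

theorem xm_eq_smul [Nonempty κ] {A : Matrix κ κ F₀} {z : F} (h : xm A = z • 1) : ∃ z₀ : F₀, z₀ = z ∧ A = z₀ • 1 := by
  have h1 : ∀ i j, (A i j : F) = (z • 1 : Matrix κ κ F) i j := fun i j =>
    congrFun (congrFun (toLin'.injective (h.trans (by simp [End.one_eq_id]))) i) j
  obtain ⟨i⟩ := ‹Nonempty κ›
  have h2 : (A i i : F) = z := by simpa using h1 i i
  refine ⟨A i i, h2, Matrix.ext fun k l => Subtype.ext ?_⟩
  rcases eq_or_ne k l with rfl | h3 <;> simp [*]

theorem ci_sub {A : Matrix κ κ F₀} (h : LinearMap.det a ≠ 0) (h1 : Sim a (xm A)) : CI XX a := by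
  obtain ⟨g, hg⟩ := exists_GL (h1.det_eq ▸ h)
  exact ⟨g, mem_sub.2 ⟨1, one_ne_zero, A, by simpa using toLin'.injective hg⟩, hg ▸ h1⟩

theorem of_ci_sub (h : CI XX a) : ∃ c : F, c ≠ 0 ∧ ∃ A : Matrix κ κ F₀, Sim a (c • xm A) :=
  let ⟨_, h1, h2⟩ := h
  let ⟨c, h3, A, h4⟩ := mem_sub.1 h1
  ⟨c, h3, A, by rwa [h4, map_smul] at h2⟩

theorem exists_jordan {μ : Multiset ℕ} (h : ∀ k ∈ μ, 0 < k) (h1 : μ.sum = Fintype.card κ) :
    ∃ J : Matrix κ κ F₀, med J = μ.map (upp F₀) ∧ ed (xm J) = μ.map (upp F) := by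
  induction μ using Quotient.inductionOn with | _ l =>
  have h2 : Finset.univ.val.map l.get = (l : Multiset ℕ) := by simp [Fin.univ_val_map]
  have h3 : ∀ k, 1 ≤ l.get k := fun k => h _ (l.get_mem k)
  let e : (Σ k, Fin (l.get k)) ≃ κ := Fintype.equivOfCardEq (by simpa using h1)
  refine ⟨reindex e e (jordanTypeMatrix l.get F₀), by rw [med_reindex, med_jordanTypeMatrix _ h3, h2]; rfl, ?_⟩
  have : (reindex e e (jordanTypeMatrix l.get F₀)).map F₀.subtype = reindex e e (jordanTypeMatrix l.get F) := by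
    rw [reindex_apply, reindex_apply, ← submatrix_map, jordanTypeMatrix, blockDiagonal'_map _ _ (map_zero _)]
    congr 2
    ext k i j
    simp only [jordanBlock, map_apply, of_apply]
    split_ifs <;> simp
  rw [xm, this]
  exact (med_reindex _ _).trans (by rw [med_jordanTypeMatrix _ h3, h2]; rfl)

theorem ci_sub_unip {p : ℕ} [Fact p.Prime] [CharP F p] (h : y ^ p = 1) : CI XX y := by
  obtain ⟨μ, h1, h2, h3⟩ := ed_of_pow_char h
  obtain ⟨J, -, h4⟩ := exists_jordan (κ := κ) (F₀ := F₀) (fun k hk => (h1 k hk).1) (by simpa using h2)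
  exact ci_sub (ne_zero_pow (Fact.out : p.Prime).ne_zero (by rw [← map_pow, h]; simp)) (sim_iff_ed.2 (h3.trans h4.symm))

theorem sim_xm {A B : Matrix κ κ F₀} (h : IsConj A B) : Sim (xm A) (xm B) :=
  isConj_iff_sim.1 (F₀.subtype.mapMatrix.toMonoidHom.map_isConj h)

variable [Fintype F]

theorem rts_xm (τ : AlgebraicClosure F₀ ≃ₐ[F₀] K) (A : Matrix κ κ F₀) : rts (xm A) = (rts (toLin' A)).map τ := by
  rw [rts, rts, charpoly_toLin', charpoly_toLin', charpoly_map, Polynomial.map_map]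
  refine .trans ?_ ((IsAlgClosed.splits _).roots_map (τ : AlgebraicClosure F₀ →+* K))
  rw [Polynomial.map_map]
  exact congrArg (fun f => (A.charpoly.map f).roots) (RingHom.ext fun c => (τ.commutes c).symm)

theorem st_xm (A : Matrix κ κ F₀) : St (· ^ Nat.card F₀) (rts (xm A)) := by
  have := Fintype.ofFinite F₀
  have := IsAlgClosure.ofAlgebraic F₀ F K
  have h := map_rts (toLin' A) (FiniteField.frobeniusAlgHom F₀ _).toRingHom (FiniteField.frobeniusAlgHom F₀ _).commutes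
  rw [St, rts_xm (IsAlgClosure.equiv F₀ _ K)]
  conv_rhs => rw [← h]
  simp [Multiset.map_map]

theorem ci_sub_of_st (h0 : (r : F) ≠ 0) (h : y ^ r = 1) (h1 : St (· ^ Nat.card F₀) (rts y)) : CI XX y := by
  have := Fintype.ofFinite F₀
  have := IsAlgClosure.ofAlgebraic F₀ F K
  let τ := IsAlgClosure.equiv F₀ (AlgebraicClosure F₀) K
  obtain ⟨b, h2, h3⟩ := exists_end_rts (F := F₀) (V := κ → F₀) (M := (rts y).map τ.symm) (k := r) (by
    rw [St]
    conv_rhs => rw [← h1]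
    simp [Multiset.map_map]) (fun x hx => by
      obtain ⟨x, hx', rfl⟩ := Multiset.mem_map.1 hx
      rw [← map_pow, pow_eq_one_of_mem_rts h hx', map_one]) (by simp [card_rts])
  obtain ⟨A, rfl⟩ := toLin'.surjective b
  refine ci_sub (A := A) (ne_zero_pow (show r ≠ 0 by rintro rfl; simp at h0) (by rw [← map_pow, h]; simp))
    (sim_of_rts h0 h ?_ (by simp [rts_xm τ, h3]))
  rw [xm_pow, toLin'.injective (by rw [toLin'_pow, h2, toLin'_one]; rfl : toLin' (A ^ r) = toLin' 1)]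
  simp [xm, End.one_eq_id]

theorem st_of_ci_sub [Nonempty κ] (h : y ^ r = 1) (h1 : CI XX y) :
    ∃ μ : F, μ ^ r = 1 ∧ St (fun x => ι μ * x ^ Nat.card F₀) (rts y) := by
  obtain ⟨c, h2, A, h3⟩ := of_ci_sub h1
  have h4 : St (fun x => ι (c / c ^ Nat.card F₀) * x ^ Nat.card F₀) (rts y) := by
    rw [St, h3.rts_eq, rts_smul h2]
    conv_rhs => rw [← st_xm A]
    rw [Multiset.map_map, Multiset.map_map]
    exact Multiset.map_congr rfl fun x _ => by
      have := (map_ne_zero ι).2 h2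
      simp [mul_pow]; field_simp
  obtain ⟨x, hx⟩ := Multiset.card_pos_iff_exists_mem.1 (card_rts y ▸ finrank_pos)
  refine ⟨_, (ι).injective ?_, h4⟩
  have := pow_eq_one_of_mem_rts h (h4.mem hx)
  rwa [mul_pow, pow_right_comm, pow_eq_one_of_mem_rts h hx, one_pow, mul_one, ← map_pow, ← map_one ι] at this

theorem sub_count {p : ℕ} [Fact p.Prime] [CharP F p] (hr : r.Prime) (hrp : r ≠ p) {k n : ℕ} (hn : 0 < n)
    (hq : Fintype.card F = Nat.card F₀ ^ k)
    (h : r ∣ (Geo.subfieldSubgroup F₀ 1).relIndex (Geo.specialLinear (Fin n) F)) :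
    ∃ j, 2 ≤ j ∧ j ≤ n ∧ r ∣ ∑ i ∈ Finset.range k, (Nat.card F₀ ^ j) ^ i := by
  obtain ⟨n, rfl⟩ := Nat.exists_eq_add_one_of_ne_zero hn.ne'
  have := Fintype.ofFinite F₀
  have h1 := relIndex_mul_dvd (H := Geo.subfieldSubgroup F₀ 1) (N := Geo.specialLinear (Fin (n + 1)) F)
    (SpecialLinearGroup.toGL.comp (SpecialLinearGroup.map F₀.subtype)) (fun x y e => Subtype.ext
      (map_injective F₀.subtype.injective (congrArg Units.val e :))) fun s =>
    ⟨mem_sub.2 ⟨1, one_ne_zero, s, (one_smul _ _).symm⟩, mem_specialLinear.2 (SpecialLinearGroup.map F₀.subtype s).2⟩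
  obtain ⟨b, hb⟩ := card_specialLinear (F := F) n
  obtain ⟨c, hc⟩ := card_SL_eq (F := F₀) n
  have h2 : 1 < Nat.card F₀ := Finite.one_lt_card
  rw [hb, hc, ← Nat.card_eq_fintype_card (α := F₀), mul_left_comm] at h1
  obtain ⟨j, h3, h4⟩ := exists_dvd_of_mul (g := fun j => ∑ i ∈ Finset.range k, (Nat.card F₀ ^ (j + 2)) ^ i) hr
    (fun j => Nat.sub_pos_of_lt (Nat.one_lt_pow (by omega) h2)) (not_dvd_card_of_ne hr hrp)
    (((dvd_mul_left _ _).trans h1).trans (dvd_of_eq (congrArg _ (Finset.prod_congr rfl fun j _ => by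
      rw [mul_comm, geom_sum_mul_of_one_le (Nat.one_le_pow _ _ (by omega)), hq, ← pow_mul, pow_mul'])))) h
  exact ⟨j + 2, by omega, by omega, h4⟩

theorem isSquare_sub (hq : Fintype.card F = Nat.card F₀ ^ 2) (x : F₀) : ∃ b : F, b ^ 2 = x := by
  by_cases h : 2 ∣ Fintype.card F - 1
  swap
  · exact exists_pow_eq_of_not_dvd Nat.prime_two h _
  obtain rfl | h1 := eq_or_ne x 0
  · exact ⟨0, by simp⟩
  have := Fintype.ofFinite F₀
  have h2 : 1 < Nat.card F₀ := Finite.one_lt_card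
  obtain ⟨k, hk⟩ : Odd (Nat.card F₀) := (Nat.odd_pow_iff two_ne_zero).1 (hq ▸ Nat.odd_iff.2 (by
    have := Fintype.one_lt_card (α := F); omega))
  refine (exists_pow_eq_iff h (by simpa)).2 ?_
  rw [hq, ← one_pow 2, Nat.sq_sub_sq, show Nat.card F₀ + 1 = 2 * (k + 1) by omega, mul_assoc, Nat.mul_div_cancel_left _ two_pos,
    pow_mul', Nat.card_eq_fintype_card, ← SubmonoidClass.coe_pow, FiniteField.pow_card_sub_one_eq_one x h1]
  simp

theorem exists_sq_mul (h2 : (2 : F) ≠ 0) {k : ℕ} (hk : Odd k) (hq : Fintype.card F = Nat.card F₀ ^ k) {t : F} (ht : t ≠ 0) :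
    ∃ d ∈ F₀, ∃ s : F, s ^ 2 * (t * d) = 1 := by
  have h1 : Odd (Nat.card F₀) := (Nat.odd_pow_iff hk.pos.ne').1 (hq ▸ H13.odd_card_of_two_ne_zero h2)
  obtain ⟨l, hl⟩ : Odd (∑ i ∈ Finset.range k, Nat.card F₀ ^ i) := by
    rw [Finset.odd_sum_iff_odd_card_odd, Finset.filter_true_of_mem fun _ _ => h1.pow, Finset.card_range]
    exact hk
  refine ⟨(t ^ (2 * l + 1))⁻¹, inv_mem ((H18.mem_subfield_iff_pow _ _).2 ?_), t ^ l, by field_simp; ring⟩
  rw [← Nat.sub_add_cancel (show 1 ≤ _ from h1.pos), pow_succ, ← pow_mul, ← hl, geom_sum_mul_of_one_le h1.pos, ← hq,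
    FiniteField.pow_card_sub_one_eq_one t ht, one_mul]

end Cfsg.Agent.H28
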