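import Cfsg.Agent.H28.Elu16

/-! Elements of prime order of the special linear group: field extension and tensor product subgroups. -/

set_option autoImplicit false

namespace Cfsg.Agent.H28

open Polynomial Module H12 H13 Matrix
open scoped Kronecker

variable {F V W : Type*} [Field F] [AddCommGroup V] [Module F V] [AddCommGroup W] [Module F W] {r : ℕ}

local notation "K" => AlgebraicClosure F
local notation "ι" => algebraMap F (AlgebraicClosure F)

theorem Sim.finrank_ker_sub {a : End F V} {b : End F W} (h : Sim a b) :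
    finrank F (LinearMap.ker (a - 1)) = finrank F (LinearMap.ker (b - 1)) := by
  have h4 := (h.aeval (Polynomial.X - 1)).finrank_ker
  rwa [map_sub, map_sub, aeval_X, aeval_X, map_one, map_one] at h4

theorem eq_nthRoots {k : Type*} [Field k] {M : Multiset k} (hr : 0 < r) (h : M.Nodup) (h1 : ∀ x ∈ M, x ^ r = 1)
    (h2 : M.card = r) : M = nthRoots r 1 :=
  Multiset.eq_of_le_of_card_le ((Multiset.le_iff_subset h).2 fun x hx => (mem_nthRoots hr).2 (h1 x hx))
    ((card_nthRoots r 1).trans h2.ge)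

theorem rts_piEnd {κ : Type*} [Fintype κ] [FiniteDimensional F V] (a : κ → End F V) :
    rts (piEnd a : End F (κ → V)) = ∑ i, rts (a i) := by
  simp only [rts_eq_rtm, ed_piEnd, rtm_sum]

section Abs
variable (L : Type*) [Field L] [Algebra F L] [Module L V] [IsScalarTower F L V]

/-- `b` is semilinear over `L` -/
def SmL (b : End F V) : Prop := ∀ k : L, ∃ k' : L, ∀ v, b (k • v) = k' • b v

variable {L}

theorem SmL.eq_one {b : End F V} (h : SmL L b) (h1 : finrank L V = 1) (h2 : (finrank F L).Prime)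
    (h3 : 2 ≤ finrank F (LinearMap.ker (b - 1))) : b = 1 := by
  have := nontrivial_of_finrank_pos (zero_lt_two.trans_le h3)
  obtain ⟨⟨v, h4⟩, h5⟩ := exists_ne (0 : LinearMap.ker (b - 1))
  have h6 : v ≠ 0 := fun h => h5 (Subtype.ext h)
  have h7 := (finrank_eq_one_iff_of_nonzero' v h6).1 h1
  obtain ⟨w, h8, h9⟩ := SetLike.not_le_iff_exists.1 fun h : LinearMap.ker (b - 1) ≤ F ∙ v => by
    have := (Submodule.finrank_mono h).trans (finrank_span_singleton h6).le
    omega
  obtain ⟨k, rfl⟩ := h7 w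
  let C : Subalgebra F L :=
    { carrier := {k | ∀ v, b (k • v) = k • b v}
      mul_mem' := fun h h' v => by rw [mul_smul, h, h', mul_smul]
      add_mem' := fun h h' v => by rw [add_smul, map_add, h, h', add_smul]
      algebraMap_mem' := fun c v => by simp }
  rw [LinearMap.mem_ker, LinearMap.sub_apply, sub_eq_zero, End.one_apply] at h4 h8
  have h10 : k ∈ C := by
    obtain ⟨k', hk⟩ := h k
    rwa [← smul_left_injective L h6 (show k • v = k' • v by rw [← h8, hk, h4])] at hk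
  rcases (Subalgebra.isSimpleOrder_of_finrank_prime F L h2).eq_bot_or_eq_top C with h11 | h11
  · obtain ⟨c, rfl⟩ := Algebra.mem_bot.1 (h11 ▸ h10)
    exact absurd (Submodule.mem_span_singleton.2 ⟨c, by simp⟩) h9
  · ext x
    obtain ⟨k, rfl⟩ := h7 x
    exact ((h11.ge trivial : k ∈ C) v).trans (by rw [h4, End.one_apply])

variable [FiniteDimensional F V] [Fintype F] [Finite L]

theorem exists_frobL (h1 : finrank L V = 1) : ∃ b : End F V, SmL L b ∧ b ^ finrank F L = 1 ∧
    rts b = nthRoots (finrank F L) 1 ∧ (1 < finrank F L → b ≠ 1) := by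
  have := Module.finite_of_finrank_eq_succ h1
  let e := LinearEquiv.ofFinrankEq (R := L) L V (by simp [h1])
  let φ := (FiniteField.frobeniusAlgHom F L).toLinearMap
  have h2 := sim_conj φ (e.restrictScalars F)
  have h3 : φ.charpoly = X ^ finrank F L - 1 := (eq_of_monic_of_dvd_of_natDegree_le (monic_X_pow_sub_C _ finrank_pos.ne')
    φ.charpoly_monic (by simpa [← FiniteField.minpoly_frobeniusAlgHom] using φ.minpoly_dvd_charpoly) (by
      rw [φ.charpoly_natDegree, ← C_1, natDegree_X_pow_sub_C]))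
  refine ⟨_, fun k => ⟨k ^ Fintype.card F, fun v => ?_⟩, (h2.pow _).eq_one_iff.1 ?_, ?_, fun h h4 => ?_⟩
  · simp only [LinearEquiv.conj_apply_apply, LinearEquiv.restrictScalars_apply, LinearEquiv.restrictScalars_symm_apply,
      map_smul e.symm]
    rw [← map_smul e]
    simp [φ, mul_pow]
  · simpa [h3, sub_eq_zero] using φ.aeval_self_charpoly
  · rw [← h2.rts_eq, rts, h3, nthRoots]; simp
  · have := congrArg natDegree (FiniteField.minpoly_frobeniusAlgHom F L)
    rw [show (FiniteField.frobeniusAlgHom F L).toLinearMap = 1 from h2.eq_one_iff.2 h4, minpoly.one, ← C_1, natDegree_X_pow_sub_C, natDegree_X_sub_C] at this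
    omega

omit [Fintype F] in
theorem exists_inv_sml {s t : ℕ} (h : finrank L V = s + t) : ∃ b : End F V, SmL L b ∧ b ^ 2 = 1 ∧
    rts b = .replicate (s * finrank F L) 1 + .replicate (t * finrank F L) (-1) := by
  have := Module.Finite.of_restrictScalars_finite F L V
  let e := LinearEquiv.ofFinrankEq (R := L) (Fin s ⊕ Fin t → L) V (by simp [h])
  let d : Fin s ⊕ Fin t → F := Sum.elim 1 (-1)
  let φ : End F (Fin s ⊕ Fin t → L) := piEnd fun i => d i • 1
  have h2 := sim_conj φ (e.restrictScalars F)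
  refine ⟨_, fun k => ⟨k, fun v => ?_⟩, (h2.pow 2).eq_one_iff.1 ?_, ?_⟩
  · simp only [LinearEquiv.conj_apply_apply, LinearEquiv.restrictScalars_apply, LinearEquiv.restrictScalars_symm_apply,
      map_smul e.symm]
    rw [← map_smul e]
    exact congrArg e (funext fun i => by simp [φ])
  · exact LinearMap.ext fun v => funext fun i => by cases i <;> simp [φ, d, pow_two]
  · simp [← h2.rts_eq, φ, rts_piEnd, rts_smul_one, rts_one, d, Multiset.nsmul_replicate]

theorem exists_sq_alg (h : finrank F L = 2) (z : F) : ∃ k : L, k ^ 2 = algebraMap F L z := by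
  have := Fintype.ofFinite L
  exact isSquare_sub (F₀ := (algebraMap F L).fieldRange) (by
    rw [← Nat.card_congr (algebraMap F L).rangeRestrictFieldEquiv.toEquiv, @card_eq_pow_finrank F L, h,
      Nat.card_eq_fintype_card]) ⟨_, z, rfl⟩

end Abs

variable {κ : Type} [Fintype κ] [DecidableEq κ] {a y : End F (κ → F)} {X : Subgroup (GL κ F)}

theorem CI.small (h : CI X y) : ∃ g ∈ X, Sim y (toLin' g.1) ∧ ∃ U : Submodule F (κ → F), (∀ v, g.1 *ᵥ v - v ∈ U) ∧
    finrank F U + finrank F (LinearMap.ker (y - 1)) = Fintype.card κ :=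
  let ⟨g, h1, h2⟩ := h
  ⟨g, h1, h2, LinearMap.range (toLin' g.1 - 1), fun v => ⟨v, rfl⟩, by
    rw [h2.finrank_ker_sub, LinearMap.finrank_range_add_finrank_ker, finrank_fintype_fun_eq_card]⟩

section Fld
variable {L : Subalgebra F (Matrix κ κ F)} {k : ℕ}

local notation "XX" => Geo.subalgebraNormalizer L

theorem smul_fld (w : F) (hw : w ≠ 0) (a : End F (κ → F)) (h : CI XX a) : CI XX (w • a) :=
  h.smul (fun g hg => let ⟨c, hc⟩ := (Geo.mem_scalars_iff g).1 hg; mem_normalizer_iff.2 fun k => ⟨k, fun v => by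
    simp [glEq_apply, hc, fld_smul, mulVec_smul, smul_mulVec]⟩) w hw

theorem ci_fld {b : End F (κ → F)} (h : ∀ k : L, ∃ k' : L, ∀ v, b (k • v) = k' • b v) (h0 : LinearMap.det a ≠ 0)
    (h1 : Sim a b) : CI XX a := by
  obtain ⟨g, rfl⟩ := exists_GL (h1.det_eq ▸ h0)
  exact ⟨g, mem_normalizer_iff.2 h, h1⟩

theorem not_ci_fld (hK : Geo.IsFieldSubalgebra k L) (hk : 2 ≤ k) (hn : 3 ≤ Fintype.card κ) (h : y ≠ 1)
    (h1 : Fintype.card κ ≤ finrank F (LinearMap.ker (y - 1)) + 1) : ¬ CI XX y := fun H =>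
  let ⟨_, h2, h3, _, h4, h5⟩ := H.small
  H18.not_mem_normalizer_of_small hn (by omega) h4 (not_forall.1 fun e => h (h3.eq_one_iff.2 (LinearMap.ext e))) hk hK h2

theorem eq_one_fld (hK : Geo.IsFieldSubalgebra (Fintype.card κ) L) (hn : (Fintype.card κ).Prime) (h : CI XX y)
    (h1 : 2 ≤ finrank F (LinearMap.ker (y - 1))) : y = 1 := by
  have : Nonempty κ := Fintype.card_pos_iff.1 hn.pos
  let := (H18.isField_of_inv L hK.comm hK.inv).toField
  have h2 := finrank_mul_finrank F L (κ → F)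
  rw [hK.finrank_eq, finrank_fintype_fun_eq_card] at h2
  obtain ⟨g, h3, h4⟩ := h
  exact h4.eq_one_iff.2 (SmL.eq_one (L := L) (mem_normalizer_iff.1 h3) (by simpa [hn.ne_zero] using h2)
    (hK.finrank_eq ▸ hn) (h4.finrank_ker_sub ▸ h1))

variable [Fintype F]

theorem exists_frob_fld [Nonempty κ] (hK : Geo.IsFieldSubalgebra (Fintype.card κ) L) : ∃ b : End F (κ → F), CI XX b ∧
    b ^ Fintype.card κ = 1 ∧ rts b = nthRoots (Fintype.card κ) 1 ∧ (1 < Fintype.card κ → b ≠ 1) := by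
  let := (H18.isField_of_inv L hK.comm hK.inv).toField
  have h2 := finrank_mul_finrank F L (κ → F)
  rw [hK.finrank_eq, finrank_fintype_fun_eq_card] at h2
  obtain ⟨b, h3, h4⟩ := exists_frobL (F := F) (L := L) (V := κ → F) (by simpa using h2)
  rw [hK.finrank_eq] at h4
  exact ⟨b, ci_fld h3 (ne_zero_pow Fintype.card_ne_zero (by rw [← map_pow, h4.1]; simp)) (.refl b), h4⟩

theorem ci_fld_inv [Nonempty κ] (hK : Geo.IsFieldSubalgebra k L) (h2 : (2 : F) ≠ 0) (h : y ^ 2 = 1) {s t : ℕ}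
    (h1 : rts y = .replicate (s * k) 1 + .replicate (t * k) (-1)) : CI XX y := by
  let := (H18.isField_of_inv L hK.comm hK.inv).toField
  have h3 := finrank_mul_finrank F L (κ → F)
  obtain ⟨b, h4, h5, h6⟩ := exists_inv_sml (F := F) (L := L) (V := κ → F) (s := s) (t := t)
    (Nat.eq_of_mul_eq_mul_left (finrank_pos (R := F) (M := L)) (by rw [h3, ← card_rts y, h1, hK.finrank_eq]; simp; ring))
  exact ci_fld h4 (ne_zero_pow two_ne_zero (by rw [← map_pow, h]; simp)) (sim_of_rts h2 h h5 (by rw [h1, h6, hK.finrank_eq]))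

theorem ci_fld_sq [Nonempty κ] (hK : Geo.IsFieldSubalgebra 2 L) {z : F} (hz : ∀ b, b ^ 2 ≠ z) (h : a ^ 2 = z • 1)
    (h0 : LinearMap.det a ≠ 0) : CI XX a := by
  let := (H18.isField_of_inv L hK.comm hK.inv).toField
  obtain ⟨k, hk⟩ := exists_sq_alg (L := L) hK.finrank_eq z
  refine ci_fld (b := toLin' k.1) (fun l => ⟨l, fun v => (mul_smul k l v).symm.trans (mul_comm k l ▸ mul_smul l k v)⟩) h0
    (sim_of_nonpow Nat.prime_two hz h ((toLin'_pow_eq_smul _ _ _).2 ?_) rfl)
  simpa [Algebra.algebraMap_eq_smul_one] using congrArg Subtype.val hk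

end Fld

section Ss
variable [Fintype F] [FiniteDimensional F V] {p : ℕ} [Fact p.Prime] [CharP F p] [hr : Fact r.Prime] {y : End F V}

theorem split_nr (hrp : r ≠ p) (h : y ^ r = 1) : PRt r (nr y) ∧ St (· ^ Fintype.card F) (nr y) ∧
    orderOf (Fintype.card F : ZMod r) ∣ (nr y).card ∧ (y ≠ 1 → nr y ≠ 0) := by
  classical
  have h1 : PRt r (nr y) := fun x hx => ⟨pow_eq_one_of_mem_rts h (Multiset.mem_filter.1 hx).1, (Multiset.mem_filter.1 hx).2⟩
  have h2 : St (· ^ Fintype.card F) (nr y) := St.filter (map_rts y (FiniteField.frobeniusAlgHom F K).toRingHom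
    (FiniteField.frobeniusAlgHom F K).commutes) _ fun x => (pow_card_eq_one x).not
  refine ⟨h1, h2, h2.dvd_card pow_card_inj (per_card h1), fun h4 h5 => h4 ?_⟩
  simpa using SS.pow_eq ⟨r, cast_ne_zero_of_ne hr.out hrp, h⟩ (r := 1) (z := 1) fun x hx => by
    rw [rts_eq_nr, h5, zero_add] at hx
    simp [Multiset.eq_of_mem_replicate hx]

theorem eq_one_of_lt (hrp : r ≠ p) (h : y ^ r = 1) (h1 : finrank F V < orderOf (Fintype.card F : ZMod r)) : y = 1 :=
  let ⟨_, _, h2, h3⟩ := split_nr hrp h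
  by_contra fun e => ((Nat.le_of_dvd (Multiset.card_pos.2 (h3 e)) h2).trans (card_nr_le y)).not_gt h1

theorem rts_eq_nthRoots (hrp : r ≠ p) (h2 : r ≠ 2) (h : y ^ r = 1) (h0 : y ≠ 1) (hV : finrank F V = r)
    (h1 : orderOf (Fintype.card F : ZMod r) = r - 1) : rts y = nthRoots r 1 := by
  classical
  obtain ⟨h3, h4, ⟨c, h5⟩, h6⟩ := split_nr hrp h
  obtain ⟨x, hx⟩ := Multiset.exists_mem_of_ne_zero (h6 h0)
  have h7 := card_nr_le y
  have h8 := hr.out.two_le
  have h9 : (nr y).card = r - 1 := by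
    have := Multiset.card_pos.2 (h6 h0)
    rw [h1] at h5
    rcases c with _ | _ | c
    · omega
    · omega
    · rw [mul_add, mul_add] at h5; omega
  have h10 := Multiset.eq_of_le_of_card_le (h4.orb_le pow_card_inj (Multiset.one_le_count_iff_mem.2 hx)) (by
    rw [one_nsmul, h9, ← h1, ← per_card h3 x hx, ← card_orb]; rfl)
  refine eq_nthRoots hr.out.pos ?_ (fun x hx => pow_eq_one_of_mem_rts h hx) ((card_rts y).trans hV)
  rw [rts_eq_nr, hV, h9, Nat.sub_sub_self (by omega), add_comm, Multiset.replicate_one, Multiset.singleton_add,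
    Multiset.nodup_cons]
  exact ⟨fun h => (h3 1 h).2 rfl, h10 ▸ by simpa using Finset.nodup _⟩

omit [CharP F p] [FiniteDimensional F V] in
theorem ord_le_of_dvd {n : ℕ} (hn : 0 < n) (hq : ¬ r ∣ Fintype.card F) {X : Subgroup (GL (Fin n) F)}
    (h : r ∣ X.relIndex (Geo.specialLinear (Fin n) F)) : orderOf (Fintype.card F : ZMod r) ≤ n := by
  obtain ⟨n, rfl⟩ := Nat.exists_eq_add_one_of_ne_zero hn.ne'
  obtain ⟨b, hb⟩ := card_specialLinear (F := F) n
  obtain ⟨j, h1, h2⟩ := (hr.out.prime.dvd_finsetProd_iff _).1 ((hr.out.dvd_mul.1 (hb ▸ h.trans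
    (Subgroup.relIndex_dvd_card _ _))).resolve_left fun h => hq (hr.out.dvd_of_dvd_pow h))
  exact (Nat.le_of_dvd (by omega) (orderOf_dvd_iff.2 h2)).trans (by simp at h1; omega)

end Ss

section Ten
variable {m l : ℕ} {e : κ ≃ Fin m × Fin l} {P : GL κ F}

local notation "XX" => Geo.tensorProductSubgroup m l e P

theorem sim_trans {μ : Type} [Fintype μ] [DecidableEq μ] (e : κ ≃ μ) (M : Matrix μ μ F) :
    Sim (toLin' M) (toLin' (H18.trans e P M)) :=
  ⟨(LinearEquiv.funCongrLeft F F e).trans (glEq κ F P), fun v => (H18.trans_mulVec e P M v).symm⟩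

theorem ci_ten {A : Matrix (Fin m) (Fin m) F} {B : Matrix (Fin l) (Fin l) F} (hA : A.det ≠ 0) (hB : B.det ≠ 0)
    (h : Sim a (toLin' (A ⊗ₖ B))) : CI XX a := by
  have h1 := h.trans (sim_trans (P := P) e _)
  obtain ⟨g, hg⟩ := exists_GL (a := toLin' (H18.trans e P (A ⊗ₖ B))) (by simp [← h1.det_eq, h.det_eq, det_kronecker, hA, hB])
  exact ⟨g, H18.mem_tensorProductSubgroup.2 ⟨.mkOfDetNeZero A hA, .mkOfDetNeZero B hB, toLin'.injective hg⟩, hg ▸ h1⟩

theorem smul_ten (w : F) (hw : w ≠ 0) (a : End F (κ → F)) (h : CI XX a) : CI XX (w • a) :=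
  h.smul (fun g hg => let ⟨c, hc⟩ := (Geo.mem_scalars_iff g).1 hg; H18.mem_tensorProductSubgroup.2
    ⟨GeneralLinearGroup.scalar _ c, 1, by simp [hc, ← smul_one_eq_diagonal, smul_kronecker]⟩) w hw

theorem rts_one_kron (B : Matrix (Fin l) (Fin l) F) : rts (toLin' ((1 : Matrix (Fin m) (Fin m) F) ⊗ₖ B)) = m • rts (toLin' B) := by
  have : Sim (toLin' ((1 : Matrix (Fin m) (Fin m) F) ⊗ₖ B)) (piEnd fun _ : Fin m => toLin' B) :=
    ⟨LinearEquiv.curry F F _ _, fun v => by ext i j; simp [mulVec, dotProduct, Fintype.sum_prod_type, one_apply]⟩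
  simp [this.rts_eq, rts_piEnd]

theorem ten_small (h : CI XX y) (h1 : Fintype.card κ < finrank F (LinearMap.ker (y - 1)) + l) : ∃ M, rts y = m • M := by
  obtain ⟨g, h2, h3, U, h4, h5⟩ := h.small
  obtain ⟨A, B, h6⟩ := H18.mem_tensorProductSubgroup.1 h2
  obtain ⟨c, hc⟩ := H18.scalar_of_small_kron h6 h4 (by simp; omega)
  exact ⟨_, by rw [h3.rts_eq, h6, ← (sim_trans e _).rts_eq, hc, smul_kronecker, ← kronecker_smul, rts_one_kron]⟩

theorem kron_pow (A : Matrix (Fin m) (Fin m) F) (B : Matrix (Fin l) (Fin l) F) (k : ℕ) : (A ⊗ₖ B) ^ k = (A ^ k) ⊗ₖ (B ^ k) := by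
  induction k with
  | zero => simp
  | succ k ih => rw [pow_succ, ih, pow_succ, pow_succ, mul_kronecker_mul]

theorem ten_big [Fintype F] {p : ℕ} [Fact p.Prime] [CharP F p] [hr : Fact r.Prime] (hrp : r ≠ p) (hl : 0 < l)
    (h0 : ¬ r ∣ Fintype.card F - 1) (h : CI XX y) (h1 : y ^ r = 1) (h2 : m < orderOf (Fintype.card F : ZMod r)) :
    ∃ M, rts y = m • M := by
  obtain ⟨g, h3, h4⟩ := h
  obtain ⟨A, B, h5⟩ := H18.mem_tensorProductSubgroup.1 h3
  rw [h5] at h4
  have h6 := h4.trans (sim_trans e _).symm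
  have h7 : (A.1 ^ r) ⊗ₖ (B.1 ^ r) = 1 := by
    rw [← kron_pow]
    simpa using (toLin'_pow_eq_smul _ r (1 : F)).1 (by rw [(h6.pow r).eq_one_iff.1 h1, one_smul])
  obtain ⟨w, hw⟩ := exists_pow_eq_of_not_dvd hr.out h0 ((B.1 ^ r) ⟨0, hl⟩ ⟨0, hl⟩)
  have h8 : (w • A.1) ^ r = 1 := by
    ext i j
    simpa [_root_.smul_pow, hw, one_apply, mul_comm] using congrFun (congrFun h7 (i, ⟨0, hl⟩)) (j, ⟨0, hl⟩)
  have h9 : w • A.1 = 1 := toLin'.injective ((eq_one_of_lt hrp (((toLin'_pow_eq_smul _ r (1 : F)).2 (by simpa using h8)).trans (one_smul _ _))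
    (by simpa)).trans toLin'_one.symm)
  obtain rfl | hm := m.eq_zero_or_pos
  · exact ⟨0, by rw [zero_nsmul, ← Multiset.card_eq_zero, h6.rts_eq, card_rts]; simp⟩
  have h10 : w ≠ 0 := by
    rintro rfl
    simpa using congrFun (congrFun h9 ⟨0, hm⟩) ⟨0, hm⟩
  exact ⟨_, by rw [h6.rts_eq, ← inv_smul_smul₀ h10 A.1, h9, smul_kronecker, ← kronecker_smul, rts_one_kron]⟩

end Ten

end Cfsg.Agent.H28
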