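import Cfsg.Agent.H28.Elu17
import Cfsg.Agent.H12.CfA
import Cfsg.Agent.H12.TfI

/-! Elements of prime order of isometry groups: field extension subgroups. -/

set_option autoImplicit false

namespace Cfsg.Agent.H28

open Polynomial Module H12 H13 Matrix
open scoped Kronecker

variable {F V W : Type*} [Field F] [AddCommGroup V] [Module F V] [AddCommGroup W] [Module F W] {r : ℕ} {σ : F →+* F}

local notation "K" => AlgebraicClosure F
local notation "ι" => algebraMap F (AlgebraicClosure F)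

section ELG
variable {κ : Type} [Fintype κ] [DecidableEq κ] {G X : Subgroup (GL κ F)} {B : (κ → F) →ₛₗ[σ] (κ → F) →ₗ[F] F}
  {a : End F (κ → F)}

/-- every element of projective order `r` of `G` is conjugate into `X` -/
def ELG (G X : Subgroup (GL κ F)) (r : ℕ) : Prop :=
  ∀ x ∈ G, (∃ z : F, ((x ^ r : GL κ F) : Matrix κ κ F) = z • (1 : Matrix κ κ F)) →
    (∀ z : F, (x : Matrix κ κ F) ≠ z • (1 : Matrix κ κ F)) → ∃ g ∈ G, g⁻¹ * x * g ∈ X

theorem ELG.ci (h : ELG G X r) {x : GL κ F} (hx : x ∈ G) (h2 : PO r (toLin' x.1)) : CI (X ⊓ G) (toLin' x.1) := by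
  rw [po_toLin'] at h2
  obtain ⟨g, h1, h⟩ := h x hx (by simpa using h2.1) h2.2
  exact ci_iff.2 ⟨g, h, G.mul_mem (G.mul_mem (G.inv_mem h1) hx) h1⟩

theorem Pres.inj {B : V →ₛₗ[σ] V →ₗ[F] F} {a : End F V} (D : SD B) (h : Pres B a) : Function.Injective a :=
  (injective_iff_map_eq_zero a).2 fun x hx => D.sep x fun y => by rw [← h, hx]; simp

theorem Pres.exists_GL (D : SD B) (h : Pres B a) : ∃ x : GL κ F, toLin' x.1 = a :=
  H28.exists_GL ((LinearMap.isUnit_iff_isUnit_det a).1 ((End.isUnit_iff a).2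
    ⟨h.inj D, LinearMap.injective_iff_surjective.1 (h.inj D)⟩)).ne_zero

/-- `G` is the isometry group of `B` -/
structure IG (G : Subgroup (GL κ F)) (B : (κ → F) →ₛₗ[σ] (κ → F) →ₗ[F] F) : Prop where
  sd : SD B
  iff : ∀ x, x ∈ G ↔ Pres B (toLin' x.1)

theorem ig_sp (d : ℕ) : IG (spGL d F) (spB (Fin d) F) := ⟨sd_spB, fun _ => by simp only [Pres, spB_eq]; rfl⟩

variable (I : IG G B)
include I

theorem IG.ci (h : ELG G X r) (h1 : Pres B a) (h2 : PO r a) : ∃ g ∈ X, Pres B (toLin' g.1) ∧ Sim a (toLin' g.1) := by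
  obtain ⟨x, rfl⟩ := h1.exists_GL I.sd
  obtain ⟨g, h3, h4⟩ := h.ci ((I.iff x).2 h1) h2
  exact ⟨g, h3.1, (I.iff g).1 h3.2, h4⟩

theorem IG.card : Nat.card G = Nat.card (UG B) :=
  (Nat.card_congr (.ofBijective (fun g => ⟨toGL B g, (I.iff _).2 fun x y => by simp [toGL_mulVec, UG_map]⟩)
    ⟨fun _ _ h => Subtype.ext ((glEq κ F).symm.injective (congrArg Subtype.val h)), fun g =>
      ⟨⟨glEq κ F g, (I.iff _).1 g.2⟩, Subtype.ext ((glEq κ F).symm_apply_apply _)⟩⟩)).symm

theorem IG.dvd {S : Type*} [Group S] (φ : S →* UG B) (h : Function.Injective φ) (h1 : ∀ s, toGL B (φ s) ∈ X) :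
    X.relIndex G * Nat.card S ∣ Nat.card (UG B) :=
  I.card ▸ relIndex_mul_dvd ((toGL B).comp φ) (((glEq κ F).symm.injective.comp Subtype.val_injective).comp h)
    fun s => ⟨h1 s, (I.iff _).2 fun x y => by simp [toGL_mulVec, UG_map]⟩

theorem IG.el [Fintype F] (h : ∀ a, Pres B a → PO r a → SS a ∧ ∃ g ∈ X, Pres B (toLin' g.1) ∧ SS (toLin' g.1) ∧
    rts a = rts (toLin' g.1)) : ELG G X r := fun x hx h1 h2 => by
  obtain ⟨h3, g, h4, h5, h6, h7⟩ := h _ ((I.iff x).1 hx) ((po_toLin' _ _).2 ⟨by simpa using h1, h2⟩)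
  obtain ⟨e, h8, h9⟩ := sd_conj I.sd I.sd h5 ((I.iff x).1 hx) h6 h3 h7.symm
  obtain ⟨e, rfl⟩ := (glEq κ F).surjective e
  refine ⟨e, (I.iff e).2 h8, ?_⟩
  rwa [mul_assoc, show x * e = e * g from Units.ext (mat_ext_mulVec fun v => by simpa [glEq_apply] using (h9 v).symm),
    inv_mul_cancel_left]

end ELG

variable [FiniteDimensional F V] [FiniteDimensional F W] {y : End F V}

theorem st_rts [Fintype F] (y : End F V) : St (· ^ Fintype.card F) (rts y) :=
  map_rts y (FiniteField.frobeniusAlgHom F K).toRingHom (FiniteField.frobeniusAlgHom F K).commutes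

theorem finrank_range_eq [Fintype F] (h0 : (r : F) ≠ 0) (h : y ^ r = 1) {N : Multiset K} {e : ℕ} (hN : PRt r N)
    (h1 : rts y = N + .replicate e 1) : finrank F (LinearMap.range (y - 1)) = N.card := by
  classical
  have h2 : N.card + e = finrank F V := by simp [← card_rts y, h1]
  obtain ⟨a, h3, h4, h5⟩ := exists_fix (St.of_add (M := .replicate e 1) (by
    rw [add_comm, ← h1]; exact st_rts y) (st_replicate (by simp) e)) (fun x hx => (hN x hx).1) h2
  have h6 : Iv y (LinearMap.ker (y - 1)) := fun v hv => by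
    rw [LinearMap.mem_ker, ← End.mul_apply, sub_mul, one_mul, ← mul_sub_one, End.mul_apply, hv, map_zero]
  have h7 := Multiset.count_le_of_le 1 (SS.rto_le ⟨r, h0, h⟩ h6 (iv_top y) le_top)
  rw [rto_eq h6, show y.restrict h6 = 1 from LinearMap.ext fun v => Subtype.ext (sub_eq_zero.1 v.2), rts_one, rto,
    edOn_top, ← rts_eq_rtm, h1, Multiset.count_add, Multiset.count_eq_zero.2 fun h => (hN 1 h).2 rfl] at h7
  have := (y - 1).finrank_range_add_finrank_ker
  have := (sim_of_rts h0 h h3 (h1.trans h4.symm)).finrank_ker_sub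
  simp only [Multiset.count_replicate_self] at h7
  omega

theorem Sim.finrank_range_sub {a : End F V} {b : End F W} (h : Sim a b) :
    finrank F (LinearMap.range (a - 1)) = finrank F (LinearMap.range (b - 1)) := by
  have := h.finrank_ker_sub
  have := (a - 1).finrank_range_add_finrank_ker
  have := (b - 1).finrank_range_add_finrank_ker
  have := h.choose.finrank_eq
  omega

omit [FiniteDimensional F V] [FiniteDimensional F W] in
theorem Sim.eq_smul_iff {a : End F V} {b : End F W} (h : Sim a b) {z : F} : a = z • 1 ↔ b = z • 1 := by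
  obtain ⟨e, h⟩ := h
  exact ⟨fun h1 => LinearMap.ext fun w => by obtain ⟨v, rfl⟩ := e.surjective w; simp [← h, h1],
    fun h1 => LinearMap.ext fun v => e.injective (by simp [h, h1])⟩

omit [FiniteDimensional F V] [FiniteDimensional F W] in
theorem Sim.po {a : End F V} {b : End F W} (h : Sim a b) (h1 : PO r a) : PO r b :=
  ⟨h1.1.imp fun _ => (h.pow r).eq_smul_iff.1, fun z e => h1.2 z (h.eq_smul_iff.2 e)⟩

theorem neg_one_ne_one_cl (h2 : (2 : F) ≠ 0) : (-1 : K) ≠ 1 := fun h => (map_ne_zero ι).2 h2 (by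
  rw [map_ofNat]; linear_combination -h)

theorem rts_inv' [Fintype F] (h2 : (2 : F) ≠ 0) (h : y ^ 2 = 1) : rts y = .replicate (finrank F (LinearMap.range (y - 1))) (-1) +
    .replicate (finrank F V - finrank F (LinearMap.range (y - 1))) 1 := by
  obtain ⟨s, t, h3, h4, -⟩ := rts_inv h
  rw [finrank_range_eq h2 h (N := .replicate t (-1)) (fun x hx => by
    simp [Multiset.eq_of_mem_replicate hx, neg_one_ne_one_cl h2]) (h3.trans (add_comm _ _)), h3, add_comm, ← h4]
  simp

theorem even_range {B : V →ₛₗ[RingHom.id F] V →ₗ[F] F} (D : SD B) (h : Pres B y) (h1 : SS y) :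
    Even (finrank F (LinearMap.range (y - 1))) := by
  refine (D.restrict (Submodule.disjoint_def.2 ?_)).even_finrank
  rintro _ ⟨w, rfl⟩ h2
  obtain ⟨k, h3, h4⟩ := h1
  have h5 : y ((y - 1) w) = (y - 1) w := (D.ext_right fun v => by
    obtain ⟨v, rfl⟩ := LinearMap.injective_iff_surjective.1 (h.inj D) v
    rw [h, ← sub_eq_zero, ← LinearMap.sub_apply, ← map_sub]; exact h2 _ ⟨v, rfl⟩).symm
  have h6 : ∀ j : ℕ, (y ^ j) w = w + (j : F) • (y - 1) w := fun j => by
    induction j with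
    | zero => simp
    | succ j ih => rw [pow_succ', End.mul_apply, ih, map_add, map_smul, h5]; simp [add_smul]; abel
  simpa [h4, h3] using h6 k

section Ext
variable {L : Type*} [Field L] [Algebra F L] [Module L V] [IsScalarTower F L V] {b : End F V}

theorem SmL.lin_of_small (h : SmL L b) (hb : Function.Injective b)
    (h1 : 2 * finrank F (LinearMap.range (b - 1)) < finrank F V) (k : L) (v : V) : b (k • v) = k • b v := by
  obtain ⟨k', h2⟩ := h k
  obtain rfl | h3 := eq_or_ne k' k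
  · exact h2 v
  let c : End F V := (LinearMap.lsmul L V k).restrictScalars F
  have h4 : ⊤ ≤ LinearMap.range (b - 1) ⊔ (LinearMap.range (b - 1)).map c := fun v _ => by
    obtain ⟨u, hu⟩ := LinearMap.injective_iff_surjective.1 hb ((k' - k)⁻¹ • v)
    rw [show v = (b - 1) (k • u) - c ((b - 1) u) by
      rw [← smul_inv_smul₀ (sub_ne_zero.2 h3) v, ← hu]; simp [c, h2]; module]
    exact sub_mem (Submodule.mem_sup_left ⟨_, rfl⟩) (Submodule.mem_sup_right ⟨_, ⟨_, rfl⟩, rfl⟩)
  have := Submodule.finrank_mono h4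
  have := Submodule.finrank_add_le_finrank_add_finrank (LinearMap.range (b - 1)) ((LinearMap.range (b - 1)).map c)
  have := Submodule.finrank_map_le c (LinearMap.range (b - 1))
  rw [finrank_top] at *
  omega

theorem SmL.lin_of_coprime [Fintype F] [Finite L] (h : SmL L b) (hr : r.Coprime (finrank F L)) (h0 : r ≠ 0) (h1 : b ^ r = 1)
    (k : L) (v : V) : b (k • v) = k • b v := by
  obtain rfl | hv := eq_or_ne v 0
  · simp
  choose θ hθ using h
  have h2 : b v ≠ 0 := fun h => hv (by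
    obtain ⟨r, rfl⟩ := Nat.exists_eq_add_one_of_ne_zero h0
    rw [← End.one_apply (R := F) v, ← h1, pow_succ, End.mul_apply, h, map_zero])
  have h3 : ∀ {s t : L}, s • b v = t • b v → s = t := fun h => smul_left_injective L h2 h
  let φ : L →ₐ[F] L :=
    { toFun := θ
      map_one' := h3 (by simp [← hθ])
      map_mul' := fun s t => h3 (by rw [← hθ, mul_smul, mul_smul, hθ, hθ])
      map_zero' := h3 (by simp [← hθ])
      map_add' := fun s t => h3 (by simp [← hθ, add_smul])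
      commutes' := fun c => h3 (by simp [← hθ]) }
  have h4 : ∀ (j : ℕ) (k : L), (b ^ j) (k • v) = (φ ^ j) k • (b ^ j) v := fun j k => by
    induction j with
    | zero => rfl
    | succ j ih => rw [pow_succ', End.mul_apply, ih, hθ, pow_succ']; rfl
  obtain ⟨j, hj⟩ := (FiniteField.bijective_frobeniusAlgHom_pow F L).2 φ
  have h5 : φ = 1 := by
    simpa [hr] using (pow_gcd_eq_one (a := φ) (m := r) (n := finrank F L)).2 ⟨AlgHom.ext fun k => smul_left_injective L hv (by
      simpa [h1] using (h4 r k).symm), by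
        rw [← hj, ← pow_mul, mul_comm, pow_mul, orderOf_dvd_iff_pow_eq_one.1 (FiniteField.orderOf_frobeniusAlgHom F L).dvd,
          one_pow]⟩
  simpa [h5] using h4 1 k

omit [FiniteDimensional F V] in
theorem exists_semi {κ : Type*} (e : V ≃ₗ[L] (κ → L)) (θ : L →ₐ[F] L) : ∃ φ : End F V, (∀ v i, e (φ v) i = θ (e v i)) ∧
    (∀ (k : L) v, φ (k • v) = θ k • φ v) ∧ ((∀ k, θ (θ k) = k) → φ ^ 2 = 1) := by
  have h : ∀ v i, e ((e.restrictScalars F).symm.conj (piEnd fun _ => θ.toLinearMap) v) i = θ (e v i) := fun v i => by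
    simp [LinearEquiv.conj_apply_apply]
  exact ⟨_, h, fun k v => e.injective (funext fun i => by simp [h]),
    fun h' => LinearMap.ext fun v => e.injective (funext fun i => by simp [pow_two, h, h'])⟩

omit [FiniteDimensional F V] in
theorem finrank_range_res (c : End L V) : finrank F (LinearMap.range (c.restrictScalars F - 1 : End F V)) =
    finrank F L * finrank L (LinearMap.range (c - 1)) := by
  rw [finrank_mul_finrank, show c.restrictScalars F - 1 = (c - 1).restrictScalars F from rfl, LinearMap.range_restrictScalars]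
  rfl

theorem exists_adj_frob [Fintype F] [Finite L] [Nontrivial V] {B : V →ₛₗ[RingHom.id F] V →ₗ[F] F} (D : SD B)
    (h2 : finrank F L = 2) (h : ∀ k : L, ∃ k' : L, ∀ u v, B (k • u) v = B u (k' • v))
    (h' : ¬ ∀ (k : L) u v, B (k • u) v = B u (k • v)) (k : L) (u v : V) : B (k • u) v = B u (k ^ Fintype.card F • v) := by
  choose θ hθ using h
  obtain ⟨w, hw⟩ := exists_ne (0 : V)
  have h3 : ∀ {s t : L}, (∀ u, B u (s • w) = B u (t • w)) → s = t := fun h => smul_left_injective L hw (D.ext_right h)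
  let φ : L →ₐ[F] L :=
    { toFun := θ
      map_one' := h3 (by simp [← hθ])
      map_mul' := fun s t => h3 fun u => by rw [← hθ, mul_comm s, mul_smul, mul_smul, hθ, hθ]
      map_zero' := h3 (by simp [← hθ])
      map_add' := fun s t => h3 (by simp [← hθ, add_smul])
      commutes' := fun c => h3 (by simp [← hθ]) }
  obtain ⟨⟨j, h4⟩, hj⟩ := (FiniteField.bijective_frobeniusAlgHom_pow F L).2 φ
  obtain rfl | rfl : j = 0 ∨ j = 1 := by omega
  · exact absurd (fun k u v => (hθ k u v).trans (by rw [show θ k = k from (DFunLike.congr_fun hj k).symm])) h'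
  · rw [hθ, show θ k = _ from (DFunLike.congr_fun hj k).symm]; simp

variable {τ : L →+* L} {B : V →ₛₗ[RingHom.id F] V →ₗ[F] F} {β : V →ₛₗ[τ] V →ₗ[L] L} {l : Dual F L} (C : CF B β l)
include C

omit [FiniteDimensional F V] in
theorem cf_pres {c : End L V} (h : Pres β c) : Pres B (c.restrictScalars F) := fun x y => by
  rw [C.map, C.map]; exact congrArg l (h x y)

omit [FiniteDimensional F V] in
theorem cf_lift (h : Pres B b) (h1 : ∀ (k : L) v, b (k • v) = k • b v) : ∃ c : End L V, c.restrictScalars F = b ∧ Pres β c :=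
  ⟨⟨b.toAddHom, h1⟩, rfl, fun x y => by_contra fun h2 => by
    obtain ⟨k, hk⟩ := C.exists_eq (sub_ne_zero.2 h2) 1
    have := h x (k • y)
    rw [h1, C.smul_right, C.smul_right, ← sub_eq_zero, ← map_sub, ← mul_sub] at this
    exact one_ne_zero (hk.symm.trans this)⟩

omit [FiniteDimensional F V] in
theorem cf_tau (x y : V) : l (τ (β x y)) = B x y := by
  rw [← neg_inj, ← map_neg, ← C.sdK.skew, ← C.map, C.sd.skew]; rfl

end Ext

section Sp
variable [Fintype F] {B : V →ₛₗ[RingHom.id F] V →ₗ[F] F} (D : SD B) {p : ℕ} [hp : Fact p.Prime] [CharP F p]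
include D

theorem exists_sp_tv (h : 2 ≤ finrank F V) : ∃ u, Pres B u ∧ PO p u ∧ u ≠ 1 ∧
    finrank F V ≤ finrank F (LinearMap.ker (u - 1)) + 1 := by
  obtain ⟨e, he⟩ := Nat.exists_eq_add_of_le h
  obtain ⟨u, -, -, h1, h2, h3, h4⟩ := exists_tv (p := p) he.symm
  obtain ⟨m, hm⟩ := D.even_finrank
  obtain ⟨a, h5, h6⟩ := exists_sp_jt D (M := jt u) (fun k => jt_pos) (fun k hk => by
    rw [h3, Multiset.count_cons_of_ne (by rintro rfl; contradiction), Multiset.count_replicate]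
    split_ifs <;> grind) (sum_jt h2)
  have h7 : Sim u a := sim_iff_ed.2 ((ed_eq_map h2).trans h6.symm)
  exact ⟨a, h5, h7.po h1, by simpa using (h7.po h1).2 1, by rw [← h7.finrank_ker_sub]; omega⟩

theorem exists_sp_inv (h2 : (2 : F) ≠ 0) {t : ℕ} (ht : 0 < t) (h : 2 * t < finrank F V) : ∃ y, Pres B y ∧ y ^ 2 = 1 ∧ PO 2 y ∧
    finrank F (LinearMap.range (y - 1)) = 2 * t := by
  obtain ⟨m, hm⟩ := D.even_finrank
  obtain ⟨y, h3, h4, h5⟩ := RS.exists D ((rs_replicate D.invol (c := -1) (by simp) fun _ => even_two_mul t).add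
    (rs_replicate D.invol (c := 1) (e := finrank F V - 2 * t) (by simp) fun _ => by grind)) (by simp; omega)
  rw [map_neg, map_one] at h5
  have h6 : y ^ 2 = (1 : F) • 1 := h4.pow_eq (by simp +contextual [h5, Multiset.mem_replicate, or_imp])
  have h7 := neg_one_ne_one_cl h2
  exact ⟨y, h3, by simpa using h6, po_of_rts h6 (x := -1) (x' := 1) (by simp [h5, Multiset.mem_replicate]; omega)
    (by simp [h5, Multiset.mem_replicate]; omega) h7, (finrank_range_eq h2 (by simpa using h6) (fun x hx => by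
      simp [Multiset.eq_of_mem_replicate hx, h7]) h5).trans (by simp)⟩

theorem exists_sp_ord [hr : Fact r.Prime] (hrp : r ≠ p) (h2 : r ≠ 2) : ∃ c, c < r ∧
    (∀ j, r ∣ Fintype.card F ^ (2 * j) - 1 → c ∣ 2 * j) ∧
    (Even (orderOf (-Fintype.card F : ZMod r)) → c = orderOf (-Fintype.card F : ZMod r)) ∧
    (c = orderOf (Fintype.card F : ZMod r) ∧ Even c ∨ c = 2 * orderOf (Fintype.card F : ZMod r) ∧
      Odd (orderOf (Fintype.card F : ZMod r))) ∧ (c ≤ finrank F V → ∃ y, Pres B y ∧ y ^ r = 1 ∧ PO r y ∧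
        finrank F (LinearMap.range (y - 1)) = c ∧ ∀ (M : Multiset K) (k : ℕ), rts y = k • M → k = 1) := by
  classical
  have h0 := orderOf_card_pos (F := F) hrp
  obtain ⟨z, c, P, h3⟩ : ∃ z c, Per (RingHom.id F) (RingHom.id K) r z c ∧ (c = orderOf (Fintype.card F : ZMod r) ∧ Even c ∨
      c = 2 * orderOf (Fintype.card F : ZMod r) ∧ Odd (orderOf (Fintype.card F : ZMod r))) :=
    (Nat.even_or_odd _).elim (fun h => ⟨_, _, per_sp_even hrp h2 h, .inl ⟨rfl, h⟩⟩)
      fun h => ⟨_, _, per_sp_odd hrp h2 h, .inr ⟨rfl, h⟩⟩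
  have h4 := (Nat.le_div_iff_mul_le P.pos).1 P.one_le
  have := P.pos
  refine ⟨c, by omega, fun j hj => ?_, fun h => ?_, h3, fun h => ?_⟩
  · rw [← orderOf_dvd_iff] at hj
    obtain ⟨rfl, -⟩ | ⟨rfl, h3⟩ := h3
    exacts [hj, mul_dvd_mul_left 2 (h3.coprime_two_right.dvd_of_dvd_mul_left hj)]
  · rw [orderOf_neg_eq h2 h0] at h ⊢
    split_ifs at h ⊢ <;> grind
  obtain ⟨A, h5, h6, h7, h8, -⟩ := P.exists_nodup P.one_le
  obtain ⟨y, h9, h10, h11, h12⟩ := P.exists_end D h5 h8 (e := finrank F V - c) (by omega)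
  obtain ⟨x, hx⟩ := Multiset.card_pos_iff_exists_mem.1 (show 0 < A.card by omega)
  have := nontrivial_of_finrank_pos (this.trans_le h)
  refine ⟨y, h9, h10, ⟨⟨1, by simpa⟩, fun w hw => h12 (by omega) ?_⟩, (finrank_range_eq P.ne h10 h5 h11).trans (by omega),
    fun M k h => ?_⟩
  · have h13 := sp_sq_eq_one D h9 (r := 1) (by simpa)
    obtain ⟨j, rfl⟩ := hr.out.odd_of_ne_two h2
    rw [hw, _root_.smul_pow, pow_succ, pow_mul, pow_two, h13, one_pow, one_mul, one_pow] at h10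
    rw [hw, h10]
  · have := congrArg (Multiset.count x) (h11.symm.trans h)
    simp [Multiset.count_eq_one_of_mem h6 hx, Multiset.count_replicate, (h5 x hx).2.symm] at this
    exact Nat.eq_one_of_mul_eq_one_right this.symm

theorem le_of_dvd_sp (hr : r.Prime) (hrp : r ≠ p) (h : r ∣ Nat.card (UG B)) :
    ∃ j, 0 < j ∧ 2 * j ≤ finrank F V ∧ r ∣ Fintype.card F ^ (2 * j) - 1 := by
  obtain ⟨m, hm⟩ := D.even_finrank
  rw [card_UG_sp m D (by omega), spOrd, Nat.card_eq_fintype_card] at h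
  obtain ⟨j, h1, h2⟩ := (hr.prime.dvd_finsetProd_iff _).1 ((hr.dvd_mul.1 h).resolve_left
    fun h => not_dvd_card_of_ne hr hrp (hr.dvd_of_dvd_pow h))
  exact ⟨j + 1, by omega, by simp at h1; omega, h2⟩

end Sp

theorem IG.el_two [Fintype F] {κ : Type} [Fintype κ] [DecidableEq κ] {G X : Subgroup (GL κ F)}
    {B : (κ → F) →ₛₗ[RingHom.id F] (κ → F) →ₗ[F] F} (I : IG G B) (h2 : (2 : F) ≠ 0)
    (h1 : ∀ t, 0 < t → 2 * t < Fintype.card κ → ∃ g ∈ X, Pres B (toLin' g.1) ∧ toLin' g.1 ^ 2 = 1 ∧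
      finrank F (LinearMap.range (toLin' g.1 - 1 : End F (κ → F))) = 2 * t)
    (h3 : ∃ g ∈ X, Pres B (toLin' g.1) ∧ toLin' g.1 ^ 2 = -1) : ELG G X 2 := I.el fun a h4 h5 => by
  have := h5.nontrivial
  obtain ⟨⟨z, h6⟩, h7⟩ := h5
  obtain rfl | rfl := mul_self_eq_one_iff.1 (sp_sq_eq_one I.sd h4 h6)
  · rw [one_smul] at h6
    obtain ⟨t, ht⟩ := even_range I.sd h4 ⟨2, h2, h6⟩
    have h8 := rts_inv' h2 h6
    have h9 : ∀ c : F, ¬ ∀ x ∈ rts a, x = ι c := fun c h =>
      h7 c (by simpa using SS.pow_eq ⟨2, h2, h6⟩ (r := 1) (z := c) (by simpa))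
    have h10 := Submodule.finrank_le (LinearMap.range (a - 1))
    obtain ⟨g, h11, h12, h13, h14⟩ := h1 t (Nat.pos_of_ne_zero fun h => h9 1 (by
      simp +contextual [h8, ht, h, Multiset.mem_replicate])) (by_contra fun h => h9 (-1) (by
        rw [h8, show finrank F (κ → F) - _ = 0 by simp at h10 ⊢; omega]; simp +contextual [Multiset.mem_replicate]))
    exact ⟨⟨2, h2, h6⟩, g, h11, h12, ⟨2, h2, h13⟩, by rw [h8, rts_inv' h2 h13, h14, ht, two_mul]⟩
  · replace h6 : a ^ 2 = -1 := by rw [h6]; ext; simp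
    obtain ⟨g, h8, h9, h10⟩ := h3
    obtain ⟨j, hj⟩ := IsAlgClosed.exists_pow_nat_eq (-1 : K) two_pos
    obtain ⟨d, hd⟩ := I.sd.even_finrank
    exact ⟨ss_of_sq_neg h2 h6, g, h8, h9, ss_of_sq_neg h2 h10,
      (sp_inv_neg I.sd h4 h2 h6 hj (hd.trans (two_mul d).symm)).trans (sp_inv_neg I.sd h9 h2 h10 hj (hd.trans (two_mul d).symm)).symm⟩

section Ten
variable {m l : ℕ} {A : Matrix (Fin m) (Fin m) F} {B : Matrix (Fin l) (Fin l) F}

theorem rts_kron_one (A : Matrix (Fin m) (Fin m) F) :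
    rts (toLin' (A ⊗ₖ (1 : Matrix (Fin l) (Fin l) F))) = l • rts (toLin' A) := by
  rw [← rts_one_kron]
  exact Sim.rts_eq ⟨LinearEquiv.funCongrLeft F F (Equiv.prodComm _ _), fun v => by
    ext ⟨i, j⟩; simp [mulVec, dotProduct, Fintype.sum_prod_type, one_apply]⟩

variable [Fintype F] {p : ℕ} [Fact p.Prime] [CharP F p] [hr : Fact r.Prime]

theorem kron_norm (hm : 0 < m) (hl : 0 < l) (h0 : ¬ r ∣ Fintype.card F - 1) (h : toLin' (A ⊗ₖ B) ^ r = 1) :
    ∃ A' B', A ⊗ₖ B = A' ⊗ₖ B' ∧ toLin' A' ^ r = 1 ∧ toLin' B' ^ r = 1 := by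
  have h7 : (A ^ r) ⊗ₖ (B ^ r) = 1 := by
    rw [← kron_pow]
    simpa using (toLin'_pow_eq_smul _ r (1 : F)).1 (by rw [h, one_smul])
  obtain ⟨w, hw⟩ := exists_pow_eq_of_not_dvd hr.out h0 ((B ^ r) ⟨0, hl⟩ ⟨0, hl⟩)
  have h8 : (w • A) ^ r = 1 := by
    ext i j
    simpa [_root_.smul_pow, hw, one_apply, mul_comm] using congrFun (congrFun h7 (i, ⟨0, hl⟩)) (j, ⟨0, hl⟩)
  have h9 : w ≠ 0 := by
    rintro rfl
    simpa [hr.out.ne_zero] using congrFun (congrFun h8 ⟨0, hm⟩) ⟨0, hm⟩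
  have h10 : A ⊗ₖ B = (w • A) ⊗ₖ (w⁻¹ • B) := by rw [smul_kronecker, kronecker_smul, smul_inv_smul₀ h9]
  refine ⟨_, _, h10, ((toLin'_pow_eq_smul _ r (1 : F)).2 (by simpa using h8)).trans (one_smul _ _),
    ((toLin'_pow_eq_smul _ r (1 : F)).2 ?_).trans (one_smul _ _)⟩
  rw [← kron_pow, h10, kron_pow, h8] at h7
  ext i j
  simpa [one_apply] using congrFun (congrFun h7 (⟨0, hm⟩, i)) (⟨0, hm⟩, j)

theorem kron_rank (hrp : r ≠ p) (h : toLin' B ^ r = 1) (h1 : toLin' B ≠ 1) (h2 : 2 < orderOf (Fintype.card F : ZMod r)) :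
    2 * m ≤ finrank F (LinearMap.range (toLin' (A ⊗ₖ B) - 1 : End F (Fin m × Fin l → F))) := by
  classical
  obtain ⟨h3, -, h4, h5⟩ := split_nr hrp h
  obtain ⟨U, hU⟩ := (LinearMap.ker (toLin' B - 1 : End F (Fin l → F))).exists_isCompl
  obtain ⟨H, h6, h7⟩ := exists_le_finrank (U := U) (m := 2) (by
    have := Submodule.finrank_add_eq_of_isCompl hU
    have := (toLin' B - 1 : End F (Fin l → F)).finrank_range_add_finrank_ker
    have := finrank_range_eq (cast_ne_zero_of_ne hr.out hrp) h h3 (rts_eq_nr _)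
    have := Nat.le_of_dvd (Multiset.card_pos.2 (h5 h1)) h4
    omega)
  let j : (Fin m → H) →ₗ[F] (Fin m × Fin l → F) := (LinearEquiv.curry F F _ _).symm.toLinearMap ∘ₗ H.subtype.compLeft _
  have h8 := LinearMap.finrank_le_finrank_of_injective (f := (toLin' (A ⊗ₖ B) - 1 : End F _).rangeRestrict ∘ₗ j)
    ((injective_iff_map_eq_zero _).2 fun x hx => ?_)
  · simpa [finrank_pi_fintype, h7, mul_comm] using h8
  let R := Submodule.span F (Set.range fun i => (x i).1)
  have h9 : R ≤ H := Submodule.span_le.2 (by rintro _ ⟨i, rfl⟩; exact (x i).2)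
  have h10 : R = R.map (toLin' B) := Submodule.eq_of_le_of_finrank_le (Submodule.span_le.2 (by
    rintro _ ⟨i, rfl⟩
    refine ⟨∑ k, A i k • (x k).1, sum_mem fun k _ => R.smul_mem _ (Submodule.subset_span ⟨k, rfl⟩), funext fun t => ?_⟩
    simpa [j, mulVec, dotProduct, Fintype.sum_prod_type, sub_eq_zero, Finset.mul_sum, mul_assoc, mul_left_comm,
      Finset.sum_comm (s := (Finset.univ : Finset (Fin l)))] using congrFun (congrArg Subtype.val hx) (i, t)))
    (Submodule.finrank_map_le _ _)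
  have h11 : Iv (toLin' B) R := iv_iff.1 h10.ge
  have h12 := eq_one_of_lt hrp (y := (toLin' B).restrict h11) (by simpa using restrict_pow_eq h11 (z := 1) (by simpa))
    ((Submodule.finrank_mono h9).trans_lt (by omega))
  exact funext fun i => Subtype.ext (Submodule.disjoint_def.1 hU.disjoint _ (sub_eq_zero.2 (congrArg Subtype.val
    (LinearMap.congr_fun h12 ⟨_, Submodule.subset_span ⟨i, rfl⟩⟩))) (h6 (x i).2))

end Ten

end Cfsg.Agent.H28
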