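import Cfsg.Agent.H28.Elu18
import Cfsg.Agent.H13.Wall4
import Cfsg.Agent.H18.TvF

/-! Elements of prime order normalising a group of symplectic type: general tools. -/

set_option autoImplicit false

namespace Cfsg.Agent.H28

open Polynomial Module H12 H13 Matrix

section Grp
variable {G : Type*} [Group G] [Finite G] {H L : Subgroup G} {y : G} {r : ℕ}

theorem two_mul_card_le (h : H < L) : 2 * Nat.card H ≤ Nat.card L := by
  obtain ⟨c, hc⟩ := Subgroup.card_dvd_of_le h.le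
  have h1 := Nat.card_pos (α := L)
  rcases c with _ | _ | c
  · omega
  · exact absurd (Subgroup.eq_of_le_of_card_ge h.le (by omega)) h.ne
  · rw [hc]; nlinarith

theorem card_fix [Fact r.Prime] (hy : y ^ r = 1) (h : ∀ g ∈ H, y * g * y⁻¹ ∈ H) :
    Nat.card H ≡ Nat.card ↥(H ⊓ Subgroup.centralizer {y}) [MOD r] := by
  classical
  have := Fintype.ofFinite H
  let f : Function.End H := fun g => ⟨_, h g g.2⟩
  have h1 (k : ℕ) (g : H) : ((f ^ k) g).1 = y ^ k * g * (y ^ k)⁻¹ := by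
    induction k with
    | zero => simp; rfl
    | succ k ih => rw [pow_succ', pow_succ']; exact (congrArg (y * · * y⁻¹) ih).trans (by group)
  have h2 := Equiv.Perm.card_fixedPoints_modEq (f := f) (p := r) (n := 1) (funext fun g => Subtype.ext (by
    rw [h1, pow_one, hy]; simp; rfl))
  rw [← Nat.card_eq_fintype_card, ← Nat.card_eq_fintype_card] at h2
  rwa [Nat.card_congr (β := ↥(H ⊓ Subgroup.centralizer {y})) ⟨fun g : Function.fixedPoints f => ⟨g.1, g.1.2,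
    Subgroup.mem_centralizer_singleton_iff.2 (mul_inv_eq_iff_eq_mul.1 (congrArg Subtype.val g.2)).symm⟩,
    fun g => ⟨⟨g, g.2.1⟩, Subtype.ext (mul_inv_eq_iff_eq_mul.2 (Subgroup.mem_centralizer_singleton_iff.1 g.2.2).symm)⟩,
    fun _ => rfl, fun _ => rfl⟩] at h2

theorem card_fix_pow [Fact r.Prime] (hy : y ^ r = 1) (h : ∀ g ∈ H, y * g * y⁻¹ ∈ H) {l a : ℕ} (hl : l.Prime)
    (h1 : Nat.card H = l ^ a) (h2 : ¬ ∀ g ∈ H, g * y = y * g) :
    ∃ c < a, Nat.card ↥(H ⊓ Subgroup.centralizer {y}) = l ^ c ∧ r ∣ l ^ a - l ^ c := by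
  obtain ⟨c, h3, h4⟩ := (Nat.dvd_prime_pow hl).1 (h1 ▸ Subgroup.card_dvd_of_le (inf_le_left (b := Subgroup.centralizer {y})))
  refine ⟨c, h3.lt_of_ne fun e => h2 fun g hg => ?_, h4, ?_⟩
  · rw [← Subgroup.eq_of_le_of_card_ge (inf_le_left (a := H) (b := Subgroup.centralizer {y})) (by rw [h1, h4, e])] at hg
    exact Subgroup.mem_centralizer_singleton_iff.1 hg.2
  · exact (Nat.modEq_iff_dvd' (Nat.pow_le_pow_right hl.pos h3)).1 (h1 ▸ h4 ▸ (card_fix hy h).symm)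

theorem exists_pow_order [hr : Fact r.Prime] {s x : G} (h : s ^ r * x = x * s ^ r) (h' : s * x ≠ x * s) :
    ∃ k, (s ^ k) ^ r = 1 ∧ s ^ k ≠ 1 := by
  have h1 : r ∣ orderOf s := by_contra fun h1 => h' <| by
    obtain ⟨k, hk⟩ := exists_pow_eq_self_of_coprime ((Nat.Prime.coprime_iff_not_dvd hr.out).2 h1)
    exact hk ▸ (Commute.pow_left h k).eq
  have h2 := orderOf_pow_orderOf_div (orderOf_pos s).ne' h1
  exact ⟨_, h2 ▸ pow_orderOf_eq_one _, fun e => hr.out.one_lt.ne' (by rw [← h2, e, orderOf_one])⟩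

end Grp

variable {F : Type*} [Field F] {r : ℕ} {σ : F →+* F} {κ : Type} [Fintype κ] [DecidableEq κ] {G X R : Subgroup (GL κ F)}
  {B : (κ → F) →ₛₗ[σ] (κ → F) →ₗ[F] F} {a y : End F (κ → F)}

local notation "K" => AlgebraicClosure F
local notation "ι" => algebraMap F (AlgebraicClosure F)
local notation "NR" => Geo.subgroupNormalizer R

theorem toLin'_mul' (M M' : Matrix κ κ F) : (toLin' (M * M') : End F (κ → F)) = toLin' M * toLin' M' := toLin'_mul _ _

theorem toLin'_pow_one {g : GL κ F} : toLin' g.1 ^ r = 1 ↔ g ^ r = 1 := by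
  rw [← one_smul F (1 : End F (κ → F)), toLin'_pow_eq_smul, one_smul, ← Units.val_pow_eq_pow_val, Units.val_eq_one]

/-- the spectrum of `y` is that of an element of `X` preserving `B` -/
def RT (X : Subgroup (GL κ F)) (B : (κ → F) →ₛₗ[σ] (κ → F) →ₗ[F] F) (r : ℕ) (y : End F (κ → F)) : Prop :=
  ∃ g ∈ X, Pres B (toLin' g.1) ∧ toLin' g.1 ^ r = 1 ∧ rts (toLin' g.1) = rts y

theorem scalars_le_norm : Geo.scalars κ F ≤ NR := fun x hx => Subgroup.mem_normalizer_iff.2 fun g => by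
  rw [H18.scalars_comm hx, mul_inv_cancel_right]

variable [Fintype F] {p : ℕ} [hp : Fact p.Prime] [CharP F p] [hr : Fact r.Prime]

theorem el_lin (hrp : r ≠ p) (h : ∀ y, y ^ r = 1 → PO r y → RT NR (0 : _ →ₛₗ[RingHom.id F] _) r y)
    (h' : ∀ (z : F) k, (∀ b, b ^ r ≠ z) → Fintype.card κ = k * r → ((-1) ^ (r + 1) * z) ^ k ≠ 1) :
    ELG (Geo.specialLinear κ F) NR r := (el_iff hr.out (.inr hrp)).2 fun a h1 h2 => by
  obtain ⟨w, hw, y, rfl, h3, -⟩ | ⟨z, h3, h4⟩ := po_cases hr.out.ne_zero (inj_of_det (h1 ▸ one_ne_zero)) h2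
  · obtain ⟨g, h4, -, h5, h6⟩ := h y h3 (by simpa [hw] using h2.smul (inv_ne_zero hw))
    exact CI.smul scalars_le_norm w hw ⟨g, h4, sim_of_rts (cast_ne_zero_of_ne hr.out hrp) h3 h5 h6.symm⟩
  · obtain ⟨k, -, h5, h6⟩ := ed_of_nonpow hr.out h3 h4
    exact absurd (h6 ▸ h1) (h' z k h3 (by simpa using h5))

theorem exists_cauchy (h : r ∣ X.relIndex G) {n : ℕ} (h1 : r.Coprime n) (h2 : ∀ x ∈ G, ∀ z : F, x.1 = z • 1 → z ^ n = 1) :
    ∃ x ∈ G, toLin' x.1 ^ r = 1 ∧ PO r (toLin' x.1) := by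
  obtain ⟨⟨x, hx⟩, h3⟩ := exists_prime_orderOf_dvd_card' (G := G) r (h.trans ⟨_, (relIndex_mul_card X G).symm⟩)
  have h4 : x ^ r = 1 := congrArg Subtype.val (h3 ▸ pow_orderOf_eq_one (⟨x, hx⟩ : G))
  have h5 : x ≠ 1 := fun e => hr.out.one_lt.ne' (h3 ▸ orderOf_eq_one_iff.2 (Subtype.ext e))
  refine ⟨x, hx, toLin'_pow_one.2 h4, (po_toLin' _ _).2 ⟨⟨1, by simpa using congrArg Units.val h4⟩, fun z hz => h5 ?_⟩⟩
  cases isEmpty_or_nonempty κ
  · exact Units.ext (Subsingleton.elim _ _)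
  have h6 := congrArg Units.val h4
  rw [Units.val_pow_eq_pow_val, hz, _root_.smul_pow, one_pow, Units.val_one, ← one_smul F (1 : Matrix κ κ F), smul_smul,
    mul_one] at h6
  refine Units.ext (hz.trans ?_)
  rw [(pow_eq_one_iff_of_coprime h1).1 ⟨smul_left_injective F one_ne_zero h6, h2 x hx z hz⟩, one_smul, Units.val_one]

omit [Fintype F] hr in
theorem CI.ex (h : CI X y) (h1 : y ^ r = 1) (h2 : PO r y) :
    ∃ g ∈ X, g ^ r = 1 ∧ (∀ z : F, g.1 ≠ z • 1) ∧ Sim y (toLin' g.1) := by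
  obtain ⟨g, h3, h4⟩ := h
  refine ⟨g, h3, toLin'_pow_one.1 ?_, ((po_toLin' _ _).1 (h4.po h2)).2, h4⟩
  simpa using ((h4.pow r).eq_smul_iff (z := 1)).1 (by simpa)

section U
variable {q n : ℕ} {hF : Fintype.card F = q ^ 2} {R X : Subgroup (GL (Fin n) F)} {y : End F (Fin n → F)}

omit hp hr in
theorem ig_u (hF : Fintype.card F = q ^ 2) (n : ℕ) : IG (GU n F q) (uB hF n) :=
  ⟨sd_uB hF n, fun g => preserves_iff_uB hF (g.1 *ᵥ ·)⟩

omit hr in
theorem ELG.ci_su (h : ELG (GU n F q ⊓ Geo.specialLinear _ F) X r) (h1 : Pres (uB hF n) y) (h2 : LinearMap.det y = 1)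
    (h3 : PO r y) : CI X y := by
  obtain ⟨x, rfl⟩ := h1.exists_GL (sd_uB hF n)
  obtain ⟨g, h4, h5⟩ := h.ci ⟨((ig_u hF n).iff x).2 h1, mem_specialLinear.2 (by rwa [LinearMap.det_toLin'] at h2)⟩ h3
  exact ⟨g, h4.1, h5⟩

theorem el_su (hrp : r ≠ p) (h : ∀ y, Pres (uB hF n) y → y ^ r = 1 → PO r y → RT (Geo.subgroupNormalizer R) (uB hF n) r y)
    (h' : ∀ (z : F) k, NP (q + 1) r z → n = k * r → ((-1) ^ (r + 1) * z) ^ k ≠ 1) :
    ELG (GU n F q ⊓ Geo.specialLinear _ F) (Geo.subgroupNormalizer R) r := fun x hx h1 h2 => by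
  have I := ig_u hF n
  have h3 : PO r (toLin' x.1) := (po_toLin' _ _).2 ⟨by simpa using h1, h2⟩
  have := h3.nontrivial
  obtain ⟨ρ, hρ⟩ := exists_frob_pow hF
  obtain ⟨w, hw, y, h4, h5, h6, -⟩ | ⟨z, h4, h5⟩ := po_cases_u I.sd ((I.iff x).1 hx.1) h3
  · have hw' : w ≠ 0 := by rintro rfl; simp at hw
    have h0 := cast_ne_zero_of_ne (F := F) hr.out hrp
    obtain ⟨g, h7, h8, h9, h10⟩ := h y h5 h6 (by simpa [hw', h4] using h3.smul (inv_ne_zero hw'))
    obtain ⟨e, h11, h12⟩ := sd_conj I.sd I.sd h8 h5 ⟨r, h0, h9⟩ ⟨r, h0, h6⟩ h10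
    obtain ⟨t, t1, t2, t3⟩ := exists_comm_det I.sd (frobq_ne_id hF) ρ hρ.2 h5 h0 h6
      (c := (LinearMap.det (e : End F (Fin n → F)))⁻¹) (n1_iff.2 (by rw [inv_pow, det_n1 I.sd h11, inv_one]))
    obtain ⟨e, rfl⟩ := (glEq _ F).surjective e
    obtain ⟨t, rfl⟩ := t1.exists_GL I.sd
    have h13 : x * t = t * x := Units.ext (toLin'.injective (by
      rw [Units.val_mul, Units.val_mul, toLin'_mul', toLin'_mul', h4, smul_mul_assoc, t2, mul_smul_comm]))
    refine ⟨t * e, ⟨mul_mem ((I.iff t).2 t1) ((I.iff e).2 h11), mem_specialLinear.2 ?_⟩, ?_⟩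
    · rw [Units.val_mul, det_mul, ← LinearMap.det_toLin', t3, det_glEq, inv_mul_cancel₀ e.det_ne_zero]
    · rw [mul_assoc, ← mul_assoc x, h13, show t * x * e = t * e * (H18.sc _ (.mk0 w hw') * g) from
        Units.ext (mat_ext_mulVec fun v => ?_), inv_mul_cancel_left]
      · exact mul_mem (scalars_le_norm (H18.sc_mem _)) h7
      have := h12 v
      simp only [glEq_apply, toLin'_apply] at this
      simp [← mulVec_mulVec, H18.sc_coe, smul_mulVec, mulVec_smul, this, ← toLin'_apply x.1, h4]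
  · obtain ⟨k, -, h6, h7⟩ := NP.struct hρ.1 h4 I.sd ((I.iff x).1 hx.1) h5
    exact absurd (by rw [← h7, LinearMap.det_toLin', mem_specialLinear.1 hx.2]) (h' z k h4 (by simpa using h6))

end U

theorem IG.el_odd {B : (κ → F) →ₛₗ[RingHom.id F] (κ → F) →ₗ[F] F} (I : IG G B) (hrp : r ≠ p) (h2 : r ≠ 2) (h1 : (2 : F) ≠ 0)
    (h : ∀ y, Pres B y → y ^ r = 1 → PO r y → RT NR B r y) : ELG G NR r := I.el fun a h3 h4 => by
  obtain ⟨z, hz⟩ := h4.1
  have := h4.nontrivial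
  have h5 : z * z = 1 := mul_eq_one_of_pres I.sd (hz ▸ h3.pow r)
  have h6 := left_ne_zero_of_mul_eq_one h5
  have h7 : z ^ r = z := by
    obtain ⟨k, rfl⟩ := hr.out.odd_of_ne_two h2
    rw [pow_succ, pow_mul, sq, h5, one_pow, one_mul]
  have h8 : ∀ b : End F (κ → F), b ^ r = 1 → SS (z • b) := fun b hb => ⟨r * 2,
    by simp [h1, cast_ne_zero_of_ne (F := F) hr.out hrp], by rw [pow_mul, _root_.smul_pow, hb, h7, sq]; simp [smul_smul, h5]⟩
  have h9 : (z • a) ^ r = 1 := by rw [_root_.smul_pow, hz, h7, smul_smul, h5, one_smul]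
  have h10 : z • z • a = a := by rw [smul_smul, h5, one_smul]
  obtain ⟨g, e1, e2, e3, e4⟩ := h _ (h3.smul h5) h9 (h4.smul h6)
  have e5 : toLin' (H18.sc κ (.mk0 z h6) * g).1 = z • toLin' g.1 := by simp [H18.sc_coe]
  exact ⟨h10 ▸ h8 _ h9, _, mul_mem (scalars_le_norm (H18.sc_mem _)) e1, e5 ▸ e2.smul h5, e5 ▸ h8 _ e3, by
    rw [e5, rts_smul h6, e4, ← rts_smul h6, h10]⟩

section NS
omit [Fintype F] hp hr
variable {M M' : Matrix κ κ F} {c c' : F} {g h x : GL κ F}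

/-- `M` normalises `R` and is a similarity of `B` with multiplier `c` -/
def NS (R : Subgroup (GL κ F)) (B : (κ → F) →ₛₗ[σ] (κ → F) →ₗ[F] F) (c : F) (M : Matrix κ κ F) : Prop :=
  (∀ g ∈ R, ∃ h ∈ R, M * g.1 = h.1 * M) ∧ Sml B c (toLin' M)

theorem NS.mul (h : NS R B c M) (h' : NS R B c' M') : NS R B (c * c') (M * M') := ⟨fun g hg => by
  obtain ⟨g, h1, h2⟩ := h'.1 g hg
  obtain ⟨g, h3, h4⟩ := h.1 g h1
  exact ⟨g, h3, by rw [mul_assoc, h2, ← mul_assoc, h4, mul_assoc]⟩, fun u v => by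
    rw [toLin'_mul', End.mul_apply, End.mul_apply, h.2, h'.2, mul_assoc]⟩

theorem NS.smul (h : NS R B c M) {w : F} (hw : σ w = w) (h1 : w * w * c = 1) : NS R B 1 (w • M) := ⟨fun g hg => by
  simpa using (h.1 g hg).imp fun g h => h.imp_right (congrArg (w • ·)), fun u v => by
    simp only [map_smul, LinearMap.smul_apply, map_smulₛₗ, hw, smul_eq_mul, h.2 u v, ← mul_assoc, h1]⟩

theorem NS.of_mem (hB : ∀ g ∈ R, Pres B (toLin' g.1)) (h : g ∈ R) : NS R B 1 g.1 :=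
  ⟨fun x hx => ⟨g * x * g⁻¹, mul_mem (mul_mem h hx) (inv_mem h), by simp⟩, (hB g h).sml⟩

theorem NS.pow (h : NS R B 1 M) (k : ℕ) : NS R B 1 (M ^ k) := by
  induction k with
  | zero => exact ⟨fun g hg => ⟨g, hg, by simp⟩, fun u v => by simp⟩
  | succ k ih => simpa [pow_succ] using ih.mul h

theorem NS.mem [Finite F] (h : NS R B c g.1) : g ∈ NR := Subgroup.mem_normalizer_fintype fun x hx => by
  obtain ⟨y, h1, h2⟩ := h.1 x hx
  rwa [show g * x = y * g from Units.ext h2, mul_inv_cancel_right]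

theorem NS.rt [Finite F] (h : NS R B 1 M) (hr : r ≠ 0) (h1 : M ^ r = 1) (h2 : rts (toLin' M) = rts y) : RT NR B r y := by
  obtain ⟨g, rfl⟩ := IsUnit.of_pow_eq_one h1 hr
  exact ⟨g, h.mem, h.2.pres, toLin'_pow_one.2 (Units.ext h1), h2⟩

theorem NS.ci [Finite F] (h : NS R B c M) (hr : r ≠ 0) (h1 : M ^ r = 1) : CI NR (toLin' M) := by
  obtain ⟨g, rfl⟩ := IsUnit.of_pow_eq_one h1 hr
  exact ⟨g, h.mem, .refl _⟩

theorem trace_eq_zero_of (hc : c ≠ 1) (h : M * g.1 = c • (g.1 * M)) : M.trace = 0 := by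
  have h1 := congrArg (fun N => trace (N * (g⁻¹).1)) h
  simp only [Units.mul_inv_cancel_right, smul_mul_assoc, trace_smul, trace_units_conj, smul_eq_mul] at h1
  exact (mul_eq_zero.1 (show (1 - c) * M.trace = 0 by linear_combination h1)).resolve_left (sub_ne_zero.2 hc.symm)

theorem ne_neg_one (h2 : (2 : F) ≠ 0) : (-1 : F) ≠ 1 := fun e => h2 (by linear_combination -e)

theorem tr_zero (h2 : (2 : F) ≠ 0) (h : M * g.1 = -(g.1 * M)) : M.trace = 0 :=
  trace_eq_zero_of (ne_neg_one h2) (by rwa [neg_one_smul])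

theorem sum_rts (M : Matrix κ κ F) : (rts (toLin' M)).sum = ι M.trace := by
  rw [rts_eq (Pi.basisFun F κ), ← trace_eq_sum_roots_charpoly, LinearMap.toMatrix_eq_toMatrix', LinearMap.toMatrix'_toLin',
    AddMonoidHom.map_trace (algebraMap F K)]

theorem rts_GL_inv (g : GL κ F) : rts (toLin' (g⁻¹).1) = (rts (toLin' g.1)).map (·⁻¹) := by
  simp only [rts_eq (Pi.basisFun F κ), LinearMap.toMatrix_eq_toMatrix', LinearMap.toMatrix'_toLin']
  rw [← roots_charpoly_inv (by rw [← RingHom.mapMatrix_apply, ← RingHom.map_det]; simp [g.det_ne_zero])]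
  congr 2
  exact (inv_eq_right_inv (by rw [← Matrix.map_mul]; simp)).symm

/-- the elements of `R` commute up to a sign, and `R` is absolutely irreducible of exponent `4` -/
structure X2 (R : Subgroup (GL κ F)) : Prop where
  two : (2 : F) ≠ 0
  pm : ∀ g ∈ R, ∀ h ∈ R, g.1 * h.1 = h.1 * g.1 ∨ g.1 * h.1 = -(h.1 * g.1)
  cen : ∀ M : Matrix κ κ F, (∀ g ∈ R, M * g.1 = g.1 * M) → ∃ c : F, M = c • 1
  four : ∀ g ∈ R, g ^ 4 = 1

theorem not_comm (h2 : (2 : F) ≠ 0) [Nonempty κ] (h : g.1 * x.1 = -(x.1 * g.1)) : g * x ≠ x * g := fun e => by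
  have h1 : (2 : F) • (x * g).1 = 0 := by
    rw [two_smul]; nth_rw 1 [← e]; rw [Units.val_mul, h, Units.val_mul, neg_add_cancel]
  exact (x * g).ne_zero ((smul_eq_zero.1 h1).resolve_left h2)

/-- the element of order three normalising a quaternion group -/
def qs (a b : Matrix κ κ F) : Matrix κ κ F := (-2⁻¹ : F) • ((1 + a) * (1 + b))

theorem qs_sq (h2 : (2 : F) ≠ 0) (h : M * M = -1) (h' : M' * M' = -1) (e : M * M' = -(M' * M)) :
    qs M M' * qs M M' + qs M M' + 1 = 0 := by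
  have e1 : M' * M = -(M * M') := by rw [e, neg_neg]
  have e2 (N) : M' * (M * N) = -(M * (M' * N)) := by rw [← mul_assoc, e1, neg_mul, mul_assoc]
  have e3 (N) : M * (M * N) = -N := by rw [← mul_assoc, h, neg_one_mul]
  simp only [qs, mul_add, add_mul, mul_assoc, smul_mul_assoc, mul_smul_comm, mul_one, one_mul, mul_neg, neg_neg, e1, e2, e3,
    h, h']
  match_scalars <;> field_simp <;> ring

theorem qs_cube (h2 : (2 : F) ≠ 0) (h : M * M = -1) (h' : M' * M' = -1) (e : M * M' = -(M' * M)) : qs M M' ^ 3 = 1 := by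
  linear_combination (norm := noncomm_ring) (qs M M' - 1) * qs_sq h2 h h' e

theorem qs_trace (h2 : (2 : F) ≠ 0) (e : g.1 * x.1 = -(x.1 * g.1)) (h : g.1 * M = M * g.1) (h' : x.1 * M = M * x.1) :
    (qs g.1 x.1 * M).trace = -2⁻¹ * M.trace := by
  have e1 : (g.1 * M).trace = 0 := tr_zero h2 (g := x) (by rw [mul_assoc, ← h', ← mul_assoc, e, neg_mul, mul_assoc])
  have e2 : (x.1 * M).trace = 0 := tr_zero h2 (g := g) (by rw [mul_assoc, ← h, ← mul_assoc, ← mul_assoc, e, neg_mul, neg_neg])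
  have e3 : (g.1 * (x.1 * M)).trace = 0 := tr_zero h2 (g := x) (by
    rw [mul_assoc, mul_assoc, ← h', ← mul_assoc, e, neg_mul, mul_assoc])
  simp [qs, mul_add, add_mul, mul_assoc, e1, e2, e3]

variable (E : X2 R) [Nonempty κ]
include E

omit [Nonempty κ] in
theorem X2.ns (hB : ∀ g ∈ R, Pres B (toLin' g.1)) (h : x ∈ R) (h1 : x.1 * x.1 = -1) : NS R B 2 (1 + x.1) := by
  refine ⟨fun g hg => (E.pm x h g hg).elim (fun e => ⟨g, hg, by rw [add_mul, mul_add, e, one_mul, mul_one]⟩) fun e =>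
    ⟨x * g, mul_mem h hg, ?_⟩, fun u v => ?_⟩
  · rw [Units.val_mul, mul_add, mul_one, e, neg_mul, mul_assoc, h1, ← e, add_mul, mul_neg, neg_neg, one_mul, mul_one, add_comm]
  · have h2 := hB x h (toLin' x.1 u) v
    rw [← End.mul_apply, ← toLin'_mul', h1] at h2
    simp only [map_add, toLin'_one, LinearMap.add_apply, LinearMap.id_apply, hB x h u v, map_neg, LinearMap.neg_apply] at h2 ⊢
    linear_combination -h2

omit [Nonempty κ] in
theorem X2.ns_qs (hB : ∀ g ∈ R, Pres B (toLin' g.1)) (hg : g ∈ R) (hx : x ∈ R) (h : g.1 * g.1 = -1) (h' : x.1 * x.1 = -1) :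
    NS R B 1 (qs g.1 x.1) :=
  ((E.ns hB hg h).mul (E.ns hB hx h')).smul (by simp [map_ofNat]) (by field_simp [E.two])

theorem X2.anti (hg : g ∈ R) (h : g ∉ Geo.scalars κ F) : ∃ x ∈ R, g.1 * x.1 = -(x.1 * g.1) := by_contra fun h' => by
  obtain ⟨c, hc⟩ := E.cen g.1 fun x hx => (E.pm g hg x hx).resolve_right fun e => h' ⟨x, hx, e⟩
  exact h (H18.mem_scalars_of_eq_smul hc)

theorem X2.sq (hg : g ∈ R) : g.1 * g.1 = 1 ∨ g.1 * g.1 = -1 := by
  obtain ⟨c, hc⟩ := E.cen (g.1 * g.1) fun x hx => by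
    obtain e | e := E.pm g hg x hx <;> simp [mul_assoc, e, ← mul_assoc g.1 x.1]
  have h1 : (c * c) • (1 : Matrix κ κ F) = (1 : F) • 1 := by
    have := congrArg Units.val (E.four g hg)
    rw [show 4 = 2 + 2 from rfl, pow_add, Units.val_mul, _root_.sq, Units.val_mul, hc] at this
    simpa [smul_smul] using this
  exact (mul_self_eq_one_iff.1 (smul_left_injective F one_ne_zero h1)).imp (fun e => by simp [hc, e]) fun e => by simp [hc, e]

variable [Finite F]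

theorem X2.relIndex (hx : x ∈ R) (h : x ∉ Geo.scalars κ F) : (Subgroup.centralizer {x}).relIndex R = 2 := by
  obtain ⟨b, h1, h2⟩ := E.anti hx h
  refine Subgroup.index_eq_two_iff.2 ⟨⟨b, h1⟩, fun g => ?_⟩
  simp only [Subgroup.mem_subgroupOf, Subgroup.mem_centralizer_singleton_iff, Subgroup.coe_mul]
  obtain e | e := E.pm x hx g g.2
  · exact .inr ⟨Units.ext e.symm, (not_comm E.two (by rw [Units.val_mul, ← mul_assoc, e, mul_assoc, h2]; simp [mul_assoc])).symm⟩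
  · exact .inl ⟨Units.ext (by simp [mul_assoc, ← mul_assoc x.1, e, h2]), (not_comm E.two e).symm⟩

theorem X2.trace_formula (hr : Odd r) (hy : g ∈ NR) (h : g ^ r = 1) :
    (Fintype.card κ : F) ^ 2 * Nat.card ↥(R ⊓ Subgroup.centralizer {g}) = Nat.card R * (g.1.trace * (g⁻¹).1.trace) := by
  classical
  have := Fintype.ofFinite R
  obtain ⟨c, hc⟩ := E.cen (∑ x : R, (x.1 * g * x.1⁻¹).1) fun y hy => by
    rw [Finset.sum_mul, Finset.mul_sum]
    exact Fintype.sum_equiv (Equiv.mulLeft (⟨y, hy⟩ : R)⁻¹) _ _ fun x => by simp [mul_assoc]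
  have h1 := congrArg trace hc
  have h2 := congrArg (fun N => trace (N * (g⁻¹).1)) hc
  have h3 (x : R) : trace ((x.1 * g * x.1⁻¹).1 * (g⁻¹).1) = if x.1 * g = g * x.1 then (Fintype.card κ : F) else 0 := by
    split_ifs with e
    · simp [e]
    have h4 : x.1 * g * x.1⁻¹ * g⁻¹ ∈ R := by
      simpa [mul_assoc] using mul_mem x.2 ((Subgroup.mem_normalizer_iff.1 hy _).1 (inv_mem x.2))
    by_cases h5 : x.1 * g * x.1⁻¹ * g⁻¹ ∈ Geo.scalars κ F
    · have h6 := (Commute.mul_pow (H18.scalars_comm h5 g) r).symm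
      rw [inv_mul_cancel_right, conj_pow, h, mul_one, mul_one, mul_inv_cancel] at h6
      have h7 := (pow_eq_one_iff_of_coprime (hr.coprime_two_right.pow_right 2)).1 ⟨h6, E.four _ h4⟩
      exact absurd (mul_inv_eq_iff_eq_mul.1 (mul_inv_eq_one.1 h7)) e
    · obtain ⟨y, -, h6⟩ := E.anti h4 h5
      exact tr_zero E.two h6
  simp only [trace_sum, Units.val_mul, trace_units_conj, Finset.sum_const, Finset.card_univ, trace_smul, trace_one] at h1
  simp only [Finset.sum_mul, trace_sum, h3, smul_mul_assoc, one_mul, trace_smul, ← Finset.sum_filter, Finset.sum_const] at h2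
  rw [Nat.card_congr (α := ↥(R ⊓ Subgroup.centralizer {g})) (β := {x : R // (x : GL κ F) * g = g * x}) ⟨fun x => ⟨⟨x, x.2.1⟩,
    Subgroup.mem_centralizer_singleton_iff.1 x.2.2⟩, fun x => ⟨x.1, x.1.2, Subgroup.mem_centralizer_singleton_iff.2 x.2⟩,
    fun _ => rfl, fun _ => rfl⟩, Nat.card_eq_fintype_card, Nat.card_eq_fintype_card, Fintype.card_subtype]
  simp only [nsmul_eq_mul, smul_eq_mul] at h1 h2
  linear_combination (Fintype.card κ : F) * h2 - (g⁻¹).1.trace * h1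

end NS

omit hp in
theorem two_or_three {l : ℕ} (hl : l = 2 ∨ l = 3) (h1 : Nat.card R = l ^ 3) (hn : Fintype.card κ = l)
    (h2 : ∀ M : Matrix κ κ F, (∀ g ∈ R, M * g.1 = g.1 * M) → ∃ c : F, M = c • 1) {z : GL κ F} (h3 : z ∈ R) (h4 : z ≠ 1)
    (h5 : z ∈ Geo.scalars κ F) (hG : G ≤ Geo.specialLinear κ F) (hΩ : r ∣ (NR).relIndex G) (h : ELG G NR r) :
    r = 2 ∨ r = 3 := by_contra fun h0 => by
  have hl' : l.Prime := by rcases hl with rfl | rfl <;> decide
  obtain ⟨x, e1, e2, e3⟩ := exists_cauchy hΩ ((Nat.coprime_primes hr.out hl').2 (by omega)) fun x hx c hc => by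
    simpa [hc, hn] using mem_specialLinear.1 (hG hx)
  obtain ⟨g, e4, e5, e6, -⟩ := (h.ci e1 e3).ex e2 e3
  obtain ⟨c, e7, e8, e9⟩ := card_fix_pow e5 (fun x => (Subgroup.mem_normalizer_iff.1 e4.1 x).1) hl' h1 fun e =>
    (h2 g.1 fun x hx => congrArg Units.val (e x hx).symm).elim e6
  have := (R ⊓ Subgroup.centralizer {g}).one_lt_card_iff_ne_bot.2 fun e => h4 ((Subgroup.eq_bot_iff_forall _).1 e z
    ⟨h3, Subgroup.mem_centralizer_singleton_iff.2 (H18.scalars_comm h5 g)⟩)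
  have e10 : r ∣ 2 ^ 3 * 3 ^ 2 := by
    rw [e8] at this
    rcases hl with rfl | rfl <;> interval_cases c <;> first | omega | exact e9.trans (by decide)
  exact h0 (((Nat.Prime.dvd_mul hr.out).1 e10).imp (Nat.prime_eq_prime_of_dvd_pow hr.out Nat.prime_two)
    (Nat.prime_eq_prime_of_dvd_pow hr.out Nat.prime_three))

section Two
omit [Fintype F] hp hr
variable {A A' : Matrix (Fin 2) (Fin 2) F}

theorem ch_two (A : Matrix (Fin 2) (Fin 2) F) : A * A = A.trace • A - A.det • 1 := by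
  ext i j; fin_cases i <;> fin_cases j <;> simp [Matrix.mul_apply, trace_fin_two, det_fin_two] <;> ring

theorem ch_two' (A A' : Matrix (Fin 2) (Fin 2) F) :
    A * A' + A' * A = A.trace • A' + A'.trace • A + ((A * A').trace - A.trace * A'.trace) • 1 := by
  ext i j; fin_cases i <;> fin_cases j <;> simp [Matrix.mul_apply, trace_fin_two] <;> ring

theorem sim_two {k : ℕ} (hk : (k : F) ≠ 0) (h : A ^ k = 1) (h' : A' ^ k = 1) (h1 : A.trace = A'.trace) (h2 : A.det = A'.det) :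
    Sim (toLin' A) (toLin' A') := sim_of_charpoly hk (by rw [← toLin'_pow, h, toLin'_one]; rfl) hk
  (by rw [← toLin'_pow, h', toLin'_one]; rfl) (by rw [charpoly_toLin', charpoly_toLin', charpoly_fin_two, charpoly_fin_two, h1, h2])

end Two

end Cfsg.Agent.H28
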