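import Cfsg.Agent.H28.Elu19

/-! Elements of prime order normalising an extraspecial group of order `27`. -/

set_option autoImplicit false

namespace Cfsg.Agent.H28

open Module H12 H13 Matrix

theorem comm_of_dvd_sq {G : Type*} [Group G] {l : ℕ} [Fact l.Prime] (h : Nat.card G ∣ l ^ 2) : IsMulCommutative G := by
  obtain ⟨k, h1, h2⟩ := (Nat.dvd_prime_pow Fact.out).1 h
  interval_cases k
  · have := (Nat.card_eq_one_iff_unique.1 h2).1
    exact ⟨⟨fun _ _ => Subsingleton.elim _ _⟩⟩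
  · exact (isCyclic_of_prime_card (h2.trans (pow_one l))).isMulCommutative
  · exact IsPGroup.isMulCommutative_of_card_eq_prime_sq h2

variable {F V : Type*} [Field F] [AddCommGroup V] [Module F V] [FiniteDimensional F V] {a b z y : End F V} {ω : F}

local notation "K" => AlgebraicClosure F
local notation "ι" => algebraMap F (AlgebraicClosure F)

theorem scalar_of_comm (ha : Function.Injective a) (hb : Function.Injective b) (h : a * b = z * (b * a)) (h1 : z * a = a * z)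
    (h2 : z * b = b * z) (hω : IsPrimitiveRoot ω (finrank F V)) (h0 : LinearMap.ker (z - ω • 1) ≠ ⊥) : z = ω • 1 := by
  set U := LinearMap.ker (z - ω • 1)
  have hU (v) : v ∈ U ↔ z v = ω • v := by simp [U, sub_eq_zero]
  have iv {c : End F V} (h : z * c = c * z) : Iv c U := fun v hv => by
    rw [hU] at hv ⊢; rw [← End.mul_apply, h, End.mul_apply, hv, map_smul]
  have h3 : a.restrict (iv h1) * b.restrict (iv h2) = ω • (b.restrict (iv h2) * a.restrict (iv h1)) :=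
    LinearMap.ext fun v => Subtype.ext ((LinearMap.congr_fun h v).trans ((hU _).1 (iv h2 _ (iv h1 _ v.2))))
  have h4 {c : End F V} (hc : Function.Injective c) (h : Iv c U) : LinearMap.det (c.restrict h) ≠ 0 :=
    ((LinearMap.isUnit_iff_isUnit_det _).1 ((LinearMap.isUnit_iff_ker_eq_bot _).2 (LinearMap.ker_eq_bot.2
      fun x y e => Subtype.ext (hc (congrArg Subtype.val e))))).ne_zero
  have h5 := congrArg LinearMap.det h3
  rw [LinearMap.det_smul, map_mul, map_mul, mul_comm, right_eq_mul₀ (mul_ne_zero (h4 hb _) (h4 ha _))] at h5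
  have h6 := Submodule.eq_top_of_finrank_eq ((Submodule.finrank_le U).antisymm
    (Nat.le_of_dvd (finrank_pos_iff.2 (Submodule.nontrivial_iff_ne_bot.2 h0)) (hω.dvd_of_pow_eq_one _ h5)))
  exact LinearMap.ext fun v => (hU v).1 (h6.ge trivial)

theorem inv_struct (h2 : (2 : F) ≠ 0) (h : y ^ 2 = 1) (h' : PO 2 y) : ∃ s t, 0 < s ∧ 0 < t ∧ s + t = finrank F V ∧
    rts y = .replicate s 1 + .replicate t (-1) ∧ rts (-y) = .replicate t 1 + .replicate s (-1) := by
  obtain ⟨s, t, h3, h4, -⟩ := rts_inv h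
  have h5 (c : F) : ¬ ∀ x ∈ rts y, x ^ 1 = ι c := fun e => h'.2 c (by simpa using SS.pow_eq ⟨2, h2, h⟩ e)
  refine ⟨s, t, Nat.pos_of_ne_zero ?_, Nat.pos_of_ne_zero ?_, h4, h3, ?_⟩
  · rintro rfl; exact h5 (-1) (by simp +contextual [h3, Multiset.mem_replicate])
  · rintro rfl; exact h5 1 (by simp +contextual [h3, Multiset.mem_replicate])
  · rw [← neg_one_smul F y, rts_smul (by simp), h3]; simp [add_comm]

variable {σ : F →+* F} {κ : Type} [Fintype κ] [DecidableEq κ] {R : Subgroup (GL κ F)}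
  {B : (κ → F) →ₛₗ[σ] (κ → F) →ₗ[F] F} {a b : GL κ F} {y : End F (κ → F)}

local notation "NR" => Geo.subgroupNormalizer R

theorem exists_basis3 (hn : Fintype.card κ = 3) (hω : IsPrimitiveRoot ω 3) (ha : a ^ 3 = 1)
    (h : a.1 * b.1 = ω • (b.1 * a.1)) : ∃ f : Basis (Fin 3) F (κ → F), (∀ i, a.1 *ᵥ f i = ω ^ (i : ℕ) • f i) ∧
      ∀ i, f i = (b ^ (i : ℕ)).1 *ᵥ f 0 := by
  have h1 := hω.ne_one (by decide)
  have h3 : (3 : F) ≠ 0 := hω.neZero'.out
  have h4 : (1 + a.1 + a.1 * a.1).trace = 3 := by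
    rw [trace_add, trace_add, trace_eq_zero_of h1 h, trace_eq_zero_of (M := a.1 * a.1) (g := b) ((hω.pow_of_coprime 2 (by decide)).ne_one
      (by decide)) (by rw [mul_assoc, h, mul_smul_comm, ← mul_assoc, h, smul_mul_assoc, smul_smul, sq, mul_assoc])]
    simp [hn]
  obtain ⟨w, hw⟩ : ∃ w, (1 + a.1 + a.1 * a.1) *ᵥ w ≠ 0 := by_contra fun e => h3 <| by
    rw [← h4, mat_ext_mulVec (A := 1 + a.1 + a.1 * a.1) (A' := 0) fun v => by simpa using not_exists.1 e v, trace_zero]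
  set v := (1 + a.1 + a.1 * a.1) *ᵥ w
  have h5 : a.1 *ᵥ v = v := by
    have := congrArg Units.val ha
    rw [pow_three, Units.val_mul, Units.val_mul, Units.val_one] at this
    rw [mulVec_mulVec, mul_add, mul_add, this, mul_one, ← add_rotate]
  have h6 (k : ℕ) : a.1 *ᵥ ((b ^ k).1 *ᵥ v) = ω ^ k • (b ^ k).1 *ᵥ v := by
    induction k with
    | zero => simpa
    | succ k ih => rw [pow_succ' b, Units.val_mul, ← mulVec_mulVec, mulVec_mulVec, h, smul_mulVec, ← mulVec_mulVec, ih,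
        mulVec_smul, smul_smul, pow_succ']
  exact ⟨basisOfLinearIndependentOfCardEqFinrank (End.eigenvectors_linearIndependent' (toLin' a.1) (fun i : Fin 3 => ω ^ (i : ℕ))
    (fun i j e => Fin.ext (hω.pow_inj i.2 j.2 e)) (fun i => (b ^ (i : ℕ)).1 *ᵥ v) fun i =>
      ⟨End.mem_eigenspace_iff.2 (h6 i), (H18.mulVec_eq_zero_iff _ _).not.2 hw⟩) (by simp [hn]), fun i => by simpa using h6 i,
    by simp⟩

theorem det_eq_one3 (hn : Fintype.card κ = 3) (hω : IsPrimitiveRoot ω 3) (ha : a ^ 3 = 1)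
    (h : a.1 * b.1 = ω • (b.1 * a.1)) : a ∈ Geo.specialLinear κ F := by
  obtain ⟨f, h1, -⟩ := exists_basis3 hn hω ha h
  refine mem_specialLinear.2 ((ι).injective ?_)
  rw [← LinearMap.det_toLin', ← prod_rts, show toLin' a.1 = f.constr F fun i => ω ^ (i : ℕ) • f i from f.ext (by simpa),
    rts_diag, ← hω.pow_eq_one]
  simp [Fin.prod_univ_three, pow_succ, mul_assoc]

/-- generators of an extraspecial group of order `27` and exponent `3` -/
structure X3 (R : Subgroup (GL κ F)) (a b : GL κ F) (ω : F) : Prop where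
  dim : Fintype.card κ = 3
  prim : IsPrimitiveRoot ω 3
  ha : a ^ 3 = 1
  hb : b ^ 3 = 1
  rel : a.1 * b.1 = ω • (b.1 * a.1)
  gen : Subgroup.closure {a, b} = R

theorem exists_x3 (hn : Fintype.card κ = 3) (hω : IsPrimitiveRoot ω 3) (hR : Nat.card R = 27) (he : Monoid.exponent R = 3)
    (hc : ¬ IsMulCommutative R) : ∃ a b ω, X3 R a b ω := by
  have : Finite R := Nat.finite_of_card_ne_zero (by omega)
  have := Fact.mk Nat.prime_three
  obtain ⟨a, b, h1⟩ : ∃ a b : R, a * b ≠ b * a := by_contra fun h => hc ⟨⟨by simpa using h⟩⟩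
  obtain ⟨k, h2, h3⟩ := IsPGroup.card_center_eq_prime_pow (p := 3) (n := 3) hR (by decide)
  have h4 : IsMulCommutative (R ⧸ Subgroup.center R) := comm_of_dvd_sq (l := 3) (Nat.dvd_of_mul_dvd_mul_right three_pos
    ((mul_dvd_mul_left _ (h3 ▸ dvd_pow_self 3 h2.ne')).trans (by rw [← Subgroup.card_eq_card_quotient_mul_card_subgroup, hR]; rfl)))
  have h5 : ∀ g : R, g.1 ^ 3 = 1 := fun g => congrArg Subtype.val (he ▸ Monoid.pow_exponent_eq_one g)
  obtain ⟨z, h6, h7⟩ : ∃ z ∈ Subgroup.center R, a * b = z * (b * a) := ⟨a * b * (b * a)⁻¹, (QuotientGroup.eq_one_iff _).1 (by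
    rw [QuotientGroup.mk_mul, QuotientGroup.mk_inv, mul_inv_eq_one, QuotientGroup.mk_mul, QuotientGroup.mk_mul,
      h4.is_comm.comm]), (inv_mul_cancel_right _ _).symm⟩
  let φ : R →* End F (κ → F) := (toLinAlgEquiv' : Matrix κ κ F ≃ₐ[F] _).toMonoidHom.comp ((Units.coeHom _).comp R.subtype)
  have hφ : Function.Injective φ := toLin'.injective.comp (Units.val_injective.comp Subtype.val_injective)
  have h8 (c : F) (hc : IsPrimitiveRoot c 3) (h : LinearMap.ker (φ z - c • 1) ≠ ⊥) : ∃ a b ω, X3 R a b ω := by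
    have inj (g : R) : Function.Injective (φ g) := ((End.isUnit_iff _).1 ((Group.isUnit g).map φ)).1
    have h9 := scalar_of_comm (inj a) (inj b) (by rw [← map_mul, h7, map_mul, map_mul])
      (by rw [← map_mul, ← map_mul, Subgroup.mem_center_iff.1 h6]) (by rw [← map_mul, ← map_mul, Subgroup.mem_center_iff.1 h6])
      (by simpa [hn]) h
    have h10 : z.1.1 = c • 1 := toLin'.injective (h9.trans (by simp [End.one_eq_id]))
    have h11 : Subgroup.closure {a.1, b.1} ≤ R := (Subgroup.closure_le _).2 (by simp [Set.insert_subset_iff])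
    refine ⟨a, b, c, hn, hc, h5 a, h5 b, by simpa [h10] using congrArg (fun g : R => g.1.1) h7,
      Subgroup.eq_of_le_of_card_ge h11 ?_⟩
    obtain ⟨j, h12, h13⟩ := (Nat.dvd_prime_pow (m := 3) Nat.prime_three).1 (hR ▸ Subgroup.card_dvd_of_le h11)
    obtain rfl | h14 := h12.eq_or_lt
    · rw [hR, h13]; rfl
    refine (h1 (Subtype.ext ?_)).elim
    exact congrArg (fun g : Subgroup.closure {a.1, b.1} => g.1) ((comm_of_dvd_sq (G := Subgroup.closure {a.1, b.1}) (l := 3)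
      (by rw [h13]; exact pow_dvd_pow 3 (by omega))).is_comm.comm
      ⟨a.1, Subgroup.subset_closure (by simp)⟩ ⟨b.1, Subgroup.subset_closure (by simp)⟩)
  by_contra h9
  have h10 (c : F) (hc : IsPrimitiveRoot c 3) : IsUnit (φ z - c • 1) :=
    (LinearMap.isUnit_iff_ker_eq_bot _).2 (by_contra fun e => h9 (h8 c hc e))
  have h11 : (φ z - 1) * ((φ z - ω • 1) * (φ z - ω ^ 2 • 1)) = 0 := by
    have h12 : φ z * (φ z * φ z) = 1 := by rw [← pow_three, ← map_pow, show z ^ 3 = 1 from Subtype.ext (h5 z), map_one]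
    have h13 := hω.geom_sum_eq_zero (by decide)
    simp only [Finset.sum_range_succ, Finset.range_zero, Finset.sum_empty] at h13
    simp only [mul_sub, sub_mul, smul_mul_assoc, mul_smul_comm, one_mul, mul_one, h12]
    match_scalars <;> grind
  rw [((h10 _ hω).mul (h10 _ (hω.pow_of_coprime 2 (by decide)))).mul_left_eq_zero, sub_eq_zero, ← map_one φ] at h11
  exact h1 (by rw [h7, hφ h11, one_mul])

theorem pres_of_basis {ν : Type*} (f : Basis ν F V) {B : V →ₛₗ[σ] V →ₗ[F] F} {t : End F V}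
    (h : ∀ i j, B (t (f i)) (t (f j)) = B (f i) (f j)) : Pres B t :=
  fun x y => LinearMap.congr_fun₂ (LinearMap.ext_basis f f (B := (B ∘ₛₗ t).compl₂ t) (B' := B) h) x y

theorem mat_ext_basis {ν : Type*} (f : Basis ν F (κ → F)) {M M' : Matrix κ κ F} (h : ∀ i, M *ᵥ f i = M' *ᵥ f i) : M = M' :=
  toLin'.injective (f.ext h)

namespace X3
variable (E : X3 R a b ω)
include E

theorem mem_a : a ∈ R := E.gen ▸ Subgroup.subset_closure (by simp)

theorem mem_b : b ∈ R := E.gen ▸ Subgroup.subset_closure (by simp)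

theorem nonempty : Nonempty κ := Fintype.card_pos_iff.1 (E.dim ▸ three_pos)

theorem exists_sc {c : F} (hc : c ^ 3 = 1) : ∃ z ∈ R, z.1 = c • 1 := by
  obtain ⟨k, -, rfl⟩ := E.prim.eq_pow_of_pow_eq_one hc
  exact ⟨(a * b * (b * a)⁻¹) ^ k, pow_mem (mul_mem (mul_mem E.mem_a E.mem_b) (inv_mem (mul_mem E.mem_b E.mem_a))) k, by
    rw [Units.val_pow_eq_pow_val, Units.val_mul, Units.val_mul, E.rel, smul_mul_assoc, ← Units.val_mul, Units.mul_inv,
      _root_.smul_pow, one_pow]⟩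

theorem le_sl : R ≤ Geo.specialLinear κ F := E.gen ▸ (Subgroup.closure_le _).2 (Set.pair_subset
  (det_eq_one3 E.dim E.prim E.ha E.rel) (det_eq_one3 E.dim (E.prim.pow_of_coprime 2 (by decide)) E.hb (by
    rw [E.rel, smul_smul, ← pow_succ, E.prim.pow_eq_one, one_smul])))

theorem ns {M : Matrix κ κ F} (h1 : ∃ h ∈ R, M * a.1 = h.1 * M) (h2 : ∃ h ∈ R, M * b.1 = h.1 * M) :
    ∀ g ∈ R, ∃ h ∈ R, M * g.1 = h.1 * M := fun g hg => by
  rw [← E.gen] at hg
  induction hg using Subgroup.closure_induction with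
  | mem x hx => rcases hx with rfl | rfl <;> assumption
  | one => exact ⟨1, one_mem _, by simp⟩
  | mul x y _ _ hx hy =>
    obtain ⟨g, e1, e2⟩ := hx
    obtain ⟨h, e3, e4⟩ := hy
    exact ⟨g * h, mul_mem e1 e3, by rw [Units.val_mul, ← mul_assoc, e2, mul_assoc, e4, Units.val_mul, mul_assoc]⟩
  | inv x _ hx =>
    obtain ⟨g, e1, e2⟩ := hx
    exact ⟨g⁻¹, inv_mem e1, by rw [Units.eq_inv_mul_iff_mul_eq, ← mul_assoc, ← e2, Units.mul_inv_cancel_right]⟩

theorem basis : ∃ f : Basis (Fin 3) F (κ → F), (∀ i, a.1 *ᵥ f i = ω ^ (i : ℕ) • f i) ∧ b.1 *ᵥ f 0 = f 1 ∧ b.1 *ᵥ f 1 = f 2 ∧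
    b.1 *ᵥ f 2 = f 0 := by
  obtain ⟨f, h1, h2⟩ := exists_basis3 E.dim E.prim E.ha E.rel
  refine ⟨f, h1, by simpa using (h2 1).symm, ?_, ?_⟩
  · rw [h2 1, h2 2, mulVec_mulVec]; simp [sq]
  · rw [h2 2, mulVec_mulVec, ← Units.val_mul, ← pow_succ']; simp [E.hb]

theorem cen (M : Matrix κ κ F) (h : ∀ g ∈ R, M * g.1 = g.1 * M) : ∃ c : F, M = c • 1 := by
  obtain ⟨f, h1, h2, h3, -⟩ := E.basis
  have h4 := E.prim.geom_sum_eq_zero (by decide)
  have h5 := E.prim.pow_eq_one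
  simp only [Finset.sum_range_succ, Finset.range_zero, Finset.sum_empty] at h4
  have h6 : toLin' (1 + a.1 + a.1 * a.1) = (3 : F) • (f.coord 0).smulRight (f 0) := f.ext fun i => by
    simp only [toLin'_apply, add_mulVec, ← mulVec_mulVec, h1, mulVec_smul, one_mulVec]
    fin_cases i <;> simp <;> match_scalars <;> grind
  have h7 : M *ᵥ f 0 = f.coord 0 (M *ᵥ f 0) • f 0 := smul_right_injective _ E.prim.neZero'.out <| by
    have h8 := LinearMap.congr_fun h6 (M *ᵥ f 0)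
    have h9 := LinearMap.congr_fun h6 (f 0)
    simp only [toLin'_apply, LinearMap.smul_apply, LinearMap.smulRight_apply] at h8 h9
    simp only [Nat.cast_ofNat]
    rw [← h8, mulVec_mulVec, show (1 + a.1 + a.1 * a.1) * M = M * (1 + a.1 + a.1 * a.1) by
      simp [add_mul, mul_add, mul_assoc, ← h a E.mem_a, ← mul_assoc a.1 M], ← mulVec_mulVec, h9]
    simp [mulVec_smul]
  have h8 {c : F} {v} (e : M *ᵥ v = c • v) : M *ᵥ (b.1 *ᵥ v) = c • b.1 *ᵥ v := by
    rw [mulVec_mulVec, h b E.mem_b, ← mulVec_mulVec, e, mulVec_smul]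
  exact ⟨_, mat_ext_basis f fun i => by
    rw [smul_mulVec, one_mulVec]
    fin_cases i
    exacts [h7, h2 ▸ h8 h7, h3 ▸ h2 ▸ h8 (h8 h7)]⟩

variable [Finite F] (hB : ∀ g ∈ R, Pres B (toLin' g.1))
include hB

omit [Finite F] in
theorem orth {f : Basis (Fin 3) F (κ → F)} (h1 : ∀ i, a.1 *ᵥ f i = ω ^ (i : ℕ) • f i) :
    (∀ c : F, c ^ 3 = 1 → ∀ u v, B (c • u) (c • v) = B u v) ∧ ∀ i j, i ≠ j → B (f i) (f j) = 0 := by
  have h2 (c : F) (hc : c ^ 3 = 1) (u v) : B (c • u) (c • v) = B u v := by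
    obtain ⟨z, h3, h4⟩ := E.exists_sc hc
    simpa [h4] using hB z h3 u v
  refine ⟨h2, fun i j h => ?_⟩
  have h3 := hB a E.mem_a (f i) (f j)
  have h4 := h2 (ω ^ (i : ℕ)) (by rw [← pow_mul, mul_comm, pow_mul, E.prim.pow_eq_one, one_pow]) (f i) (f j)
  simp only [toLin'_apply, h1, map_smul, smul_eq_mul] at h3 h4
  exact (mul_eq_zero.1 (by linear_combination ω ^ (j : ℕ) * h4 - ω ^ (i : ℕ) * h3 :
    (ω ^ (i : ℕ) - ω ^ (j : ℕ)) * B (f i) (f j) = 0)).resolve_left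
    (sub_ne_zero.2 fun e => h (Fin.ext (E.prim.pow_inj i.2 j.2 e)))

theorem rt_three (h : y ^ 3 = 1) : RT NR B 3 y := by
  obtain ⟨f, h1, h2, h3, h4⟩ := E.basis
  obtain ⟨h5, h6⟩ := E.orth hB h1
  obtain ⟨d, h7, h8⟩ : ∃ d : Fin 3 → F, (∀ i, d i ^ 3 = 1) ∧ (Finset.univ.val.map fun i => ι (d i)) = rts y := by
    obtain ⟨x0, x1, x2, h7⟩ := Multiset.card_eq_three.1 ((card_rts y).trans (by simp [E.dim]))
    have h8 (x) (hx : x ∈ rts y) : ∃ c : F, c ^ 3 = 1 ∧ ι c = x := by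
      obtain ⟨k, -, rfl⟩ := (E.prim.map_of_injective (ι).injective).eq_pow_of_pow_eq_one (pow_eq_one_of_mem_rts h hx)
      exact ⟨ω ^ k, by rw [← pow_mul, mul_comm, pow_mul, E.prim.pow_eq_one, one_pow], map_pow _ _ _⟩
    obtain ⟨c0, e0, rfl⟩ := h8 x0 (by simp [h7])
    obtain ⟨c1, e1, rfl⟩ := h8 x1 (by simp [h7])
    obtain ⟨c2, e2, rfl⟩ := h8 x2 (by simp [h7])
    exact ⟨![c0, c1, c2], fun i => by fin_cases i <;> assumption, h7 ▸ rfl⟩
  obtain ⟨M, hM⟩ := toLin'.surjective (f.constr F fun i => d i • f i)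
  have h9 (i) : M *ᵥ f i = d i • f i := by simpa using LinearMap.congr_fun hM (f i)
  have h10 (k : ℕ) (i) : (a ^ k).1 *ᵥ f i = (ω ^ k) ^ (i : ℕ) • f i := by
    induction k with
    | zero => simp
    | succ k ih => rw [pow_succ' a, Units.val_mul, ← mulVec_mulVec, ih, mulVec_smul, h1, smul_smul, ← mul_pow, pow_succ]
  obtain ⟨k, -, hk⟩ := E.prim.eq_pow_of_pow_eq_one (ξ := d 0 * d 1 * d 2) (by simp [mul_pow, h7])
  obtain ⟨z, e1, e2⟩ := E.exists_sc (c := d 1 * d 0 ^ 2) (by rw [mul_pow, h7, ← pow_mul, mul_comm 2, pow_mul, h7]; simp)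
  refine NS.rt (M := M) ⟨E.ns ⟨a, E.mem_a, mat_ext_basis f fun i => ?_⟩ ⟨z * b * a ^ k,
    mul_mem (mul_mem e1 E.mem_b) (pow_mem E.mem_a k), mat_ext_basis f fun i => ?_⟩,
    (pres_of_basis f fun i j => ?_).sml⟩ three_ne_zero (mat_ext_basis f fun i => ?_) (by rw [hM, rts_diag, h8])
  · simp only [← mulVec_mulVec, h1, h9, mulVec_smul, smul_comm (d i)]
  · have := h7 0
    have := h7 1
    have := h7 2
    simp only [Units.val_mul, ← mulVec_mulVec, h9, mulVec_smul, h10, hk, e2, smul_mulVec, one_mulVec]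
    fin_cases i <;> simp [h2, h3, h4, h9, smul_smul] <;> congr 1 <;> grind
  · obtain rfl | e := eq_or_ne i j
    · simp only [toLin'_apply, h9, h5 _ (h7 i)]
    · simp [h9, h6 i j e]
  · simp [pow_three, ← mulVec_mulVec, h9, mulVec_smul, smul_smul, ← pow_three', h7]

theorem rt_two (h2 : (2 : F) ≠ 0) (h : y ^ 2 = 1) (h' : PO 2 y) : RT NR B 2 y := by
  obtain ⟨f, h1, e0, e1, e2⟩ := E.basis
  obtain ⟨-, h6⟩ := E.orth hB h1
  obtain ⟨M, hM⟩ := toLin'.surjective (f.constr F ![f 0, f 2, f 1])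
  have h3 (i) : M *ᵥ f i = ![f 0, f 2, f 1] i := by simpa using LinearMap.congr_fun hM (f i)
  have h4 := E.prim.pow_eq_one
  have h5 := hB b E.mem_b (f 1) (f 1)
  have h7 : M ^ 2 = 1 := mat_ext_basis f fun i => by fin_cases i <;> simp [sq, ← mulVec_mulVec, h3]
  have h8 : NS R B 1 M := ⟨E.ns ⟨a * a, mul_mem E.mem_a E.mem_a, mat_ext_basis f fun i => by
      fin_cases i <;> simp [← mulVec_mulVec, h1, h3, mulVec_smul, smul_smul] <;> congr 1 <;> grind⟩
    ⟨b * b, mul_mem E.mem_b E.mem_b, mat_ext_basis f fun i => by fin_cases i <;> simp [← mulVec_mulVec, h3, e0, e1, e2]⟩,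
    (pres_of_basis f fun i j => by
      rw [toLin'_apply, e1] at h5
      fin_cases i <;> fin_cases j <;> simp [h3, h6, h5]).sml⟩
  obtain ⟨s, t, _, _, h9, h10, -⟩ := inv_struct h2 h h'
  obtain ⟨s', t', _, _, h11, h12, h13⟩ := inv_struct (y := toLin' M) h2 (by rw [← toLin'_pow, h7, toLin'_one]; rfl)
    ((po_toLin' _ _).2 ⟨⟨1, by simpa⟩, fun c hc => by simpa [hc, smul_mulVec] using congrArg (f.repr · 2) (h3 1)⟩)
  rw [finrank_fintype_fun_eq_card, E.dim] at h9 h11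
  obtain ⟨rfl, rfl⟩ | ⟨rfl, rfl⟩ : s = s' ∧ t = t' ∨ s = t' ∧ t = s' := by omega
  · exact h8.rt two_ne_zero h7 (h12.trans h10.symm)
  · exact (h8.smul (w := -1) (by simp) (by simp)).rt two_ne_zero (by simpa) (by simpa [h10] using h13)

omit hB in
theorem dvd {G : Subgroup (GL κ F)} (hG : R ≤ G) (hR : Nat.card R = 27) (h : 3 ∣ (NR).relIndex G) : 81 ∣ Nat.card G :=
  (mul_dvd_mul h (hR ▸ dvd_rfl : 27 ∣ Nat.card R)).trans (relIndex_mul_dvd R.subtype R.subtype_injective fun g =>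
    ⟨R.le_normalizer g.2, hG g.2⟩)

omit hB in
theorem two_or_three [Fintype F] {G : Subgroup (GL κ F)} {r : ℕ} [Fact r.Prime] (hR : Nat.card R = 27)
    (hG : G ≤ Geo.specialLinear κ F) (hΩ : r ∣ (NR).relIndex G) (h : ELG G NR r) : r = 2 ∨ r = 3 := by
  obtain ⟨z, h1, h2⟩ := E.exists_sc E.prim.pow_eq_one
  have := E.nonempty
  exact H28.two_or_three (.inr rfl) hR E.dim E.cen h1 (fun e => E.prim.ne_one (by decide) (smul_left_injective F one_ne_zero
    (h2.symm.trans (by simp [e])))) (H18.mem_scalars_of_eq_smul h2) hG hΩ h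

end X3

theorem exists_prim [Fintype F] {r : ℕ} (h : r ∣ Fintype.card F - 1) : ∃ ω : F, IsPrimitiveRoot ω r := by
  obtain ⟨g, hg⟩ := IsCyclic.exists_ofOrder_eq_natCard (α := Fˣ)
  rw [Nat.card_units, Nat.card_eq_fintype_card] at hg
  obtain ⟨k, hk⟩ := h
  exact ⟨_, (IsPrimitiveRoot.coe_units_iff.2 (hg ▸ IsPrimitiveRoot.orderOf g)).pow (Nat.sub_pos_of_lt Fintype.one_lt_card)
    (hk.trans (mul_comm _ _))⟩

theorem card_su [Fintype F] {q n : ℕ} (hF : Fintype.card F = q ^ 2) (hn : 1 ≤ n) :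
    (q + 1) * Nat.card ↥(GU n F q ⊓ Geo.specialLinear _ F) = guOrd q n := by
  rw [← card_SU hF hn, ← Subgroup.card_map_of_injective SpecialLinearGroup.toGL_injective]
  congr 4
  ext g
  exact ⟨fun h => ⟨⟨g.1, mem_specialLinear.1 h.2⟩, h.1, Units.ext rfl⟩, by
    rintro ⟨g, h, rfl⟩; exact ⟨h, mem_specialLinear.2 g.2⟩⟩

end Cfsg.Agent.H28
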