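import Cfsg.Agent.H28.Elu20
import Cfsg.Agent.H22.Sp1

/-! Elements of prime order normalising a `2`-group of symplectic type in dimension four. -/

set_option autoImplicit false

namespace Cfsg.Agent.H28

open Module H12 H13 Matrix
open scoped commutatorElement

theorem hall_comm {G : Type*} [Group G] [Finite G] (hG : IsPGroup 2 G)
    (h : ∀ A : Subgroup G, A.Characteristic → IsMulCommutative A → IsCyclic A) (h4 : ∀ g : G, g ^ 4 = 1) (g g' : G) :
    ∃ w ∈ Subgroup.center G, w * w = 1 ∧ g * g' = w * (g' * g) := by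
  obtain ⟨E, C, h1, h2, h3, h5⟩ := H22.Sp.hall hG h
  have h6 {H : Type} [Group H] (φ : C ≃* H) (x : H) : orderOf x ∣ 4 := orderOf_dvd_of_pow_eq_one (by
    rw [← φ.apply_symm_apply x, ← map_pow, show φ.symm x ^ 4 = 1 from Subtype.ext (h4 _), map_one])
  have h7 : IsCyclic C := h5.resolve_right <| by
    rintro ⟨-, h7, ⟨m, ⟨φ⟩⟩ | ⟨m, ⟨φ⟩⟩ | ⟨n, h8, -, x, -, h9, -⟩⟩
    · have := Nat.le_of_dvd (by decide) (h6 φ (.r 1))
      rw [Nat.card_congr φ.toEquiv, DihedralGroup.nat_card] at h7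
      rw [DihedralGroup.orderOf_r_one] at this
      omega
    · have h8 := h6 φ (.a 1)
      rw [QuaternionGroup.orderOf_a_one] at h8
      have : NeZero m := ⟨by rintro rfl; omega⟩
      have := Nat.le_of_dvd four_pos h8
      rw [Nat.card_congr φ.toEquiv, Nat.card_eq_fintype_card, QuaternionGroup.card] at h7
      omega
    · have := Nat.le_of_dvd (by decide) (h9 ▸ orderOf_dvd_of_pow_eq_one (Subtype.ext (h4 x.1) : x ^ 4 = 1))
      have := Nat.pow_le_pow_right two_pos h8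
      omega
  have h8 {w : G} (e1 : ∀ x ∈ E, x * w = w * x) (e2 : ∀ x ∈ C, x * w = w * x) : w ∈ Subgroup.center G :=
    Subgroup.mem_center_iff.2 fun x => Subgroup.mem_centralizer_singleton_iff.1 ((h2.ge.trans (sup_le
      (fun x hx => Subgroup.mem_centralizer_singleton_iff.2 (e1 x hx))
      fun x hx => Subgroup.mem_centralizer_singleton_iff.2 (e2 x hx))) trivial)
  have h9 : C ≤ Subgroup.center G := fun c hc => h8 (fun x hx => h1 x hx c hc) fun x hx =>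
    congrArg Subtype.val (h7.isMulCommutative.is_comm.comm ⟨x, hx⟩ ⟨c, hc⟩)
  have : C.Normal := ⟨fun c hc x => by rwa [Subgroup.mem_center_iff.1 (h9 hc), mul_inv_cancel_right]⟩
  obtain ⟨e, he, c, hc, rfl⟩ := Subgroup.mem_sup_of_normal_right.1 (h2.ge (Subgroup.mem_top g))
  obtain ⟨e', he', c', hc', rfl⟩ := Subgroup.mem_sup_of_normal_right.1 (h2.ge (Subgroup.mem_top g'))
  obtain ⟨w, h10, h11, h12⟩ : ∃ w ∈ Subgroup.center G, w * w = 1 ∧ e * e' = w * (e' * e) := by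
    obtain rfl | ⟨⟨-, -, h10⟩, h11⟩ := h3
    · exact ⟨1, one_mem _, one_mul _, by simp [Subgroup.mem_bot.1 he]⟩
    have h12 : ⁅(⟨e, he⟩ : E), (⟨e', he'⟩ : E)⁆ ∈ Subgroup.center E := h10 ▸ 
      Subgroup.commutator_mem_commutator (Subgroup.mem_top _) (Subgroup.mem_top _)
    refine ⟨_, h8 (fun x hx => congrArg Subtype.val (Subgroup.mem_center_iff.1 h12 ⟨x, hx⟩))
      fun x hx => (h1 _ (Subtype.prop _) x hx).symm, ?_, by simp [commutatorElement_def]⟩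
    simpa [h11, sq] using congrArg (fun x : Subgroup.center E => x.1.1) (pow_card_eq_one' (x := ⟨_, h12⟩))
  have h13 := Subgroup.mem_center_iff.1 (h9 hc)
  have h14 := Subgroup.mem_center_iff.1 (h9 hc')
  exact ⟨w, h10, h11, by rw [mul_assoc, ← mul_assoc c, ← h13 e', ← mul_assoc, ← mul_assoc, h12, mul_assoc e' c', ← mul_assoc c',
    ← h14 e, mul_assoc e, ← h14 c]; simp only [mul_assoc]⟩

theorem eight_le {G : Type*} [Group G] [Finite G] {m u v x y : G} (h1 : m * m = 1) (h2 : u * u = 1) (h3 : v * v = 1)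
    (h4 : m ≠ 1) (h5 : m ∈ Subgroup.center G) (h6 : u * v = v * u) (h7 : v * x = x * v) (h8 : u * x ≠ x * u)
    (h9 : v * y ≠ y * v) : ∃ A : Subgroup G, IsMulCommutative A ∧ (∀ g ∈ A, g * g = 1) ∧ 8 ≤ Nat.card A := by
  have h0 := Subgroup.mem_center_iff.1 h5
  have hc := Subgroup.isMulCommutative_closure (k := {m, u, v}) (by simp [h0, h6])
  set A := Subgroup.closure {m, u, v}
  have e1 : m ∈ A := Subgroup.subset_closure (by simp)
  have e2 : u ∈ A := Subgroup.subset_closure (by simp)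
  have e3 : v ∈ A := Subgroup.subset_closure (by simp)
  refine ⟨A, hc, fun g hg => ?_, ?_⟩
  · induction hg using Subgroup.closure_induction with
    | mem x hx => rcases hx with rfl | rfl | rfl <;> assumption
    | one => exact one_mul 1
    | mul x y hx hy h h' =>
      rw [(show Commute y x from congrArg Subtype.val (hc.is_comm.comm ⟨y, hy⟩ ⟨x, hx⟩)).mul_mul_mul_comm, h, h', one_mul]
    | inv x _ h => rw [← _root_.mul_inv_rev, h, inv_one]
  have a1 := two_mul_card_le (H := ⊥) (L := A ⊓ Subgroup.center G) (bot_lt_iff_ne_bot.2 fun e =>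
    h4 ((Subgroup.eq_bot_iff_forall _).1 e m ⟨e1, h5⟩))
  have a2 := two_mul_card_le (H := A ⊓ Subgroup.center G) (L := A ⊓ Subgroup.centralizer {x}) (lt_of_le_not_ge
    (inf_le_inf_left _ (Subgroup.center_le_centralizer _)) fun e =>
      h9 (Subgroup.mem_center_iff.1 (e ⟨e3, Subgroup.mem_centralizer_singleton_iff.2 h7⟩).2 y).symm)
  have a3 := two_mul_card_le (H := A ⊓ Subgroup.centralizer {x}) (L := A) (lt_of_le_not_ge inf_le_left fun e =>
    h8 (Subgroup.mem_centralizer_singleton_iff.1 (e e2).2))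
  rw [Subgroup.card_bot] at a1
  omega

variable {F : Type*} [Field F] {r m : ℕ} {σ : F →+* F} {κ : Type} [Fintype κ] [DecidableEq κ] {R : Subgroup (GL κ F)}
  {B : (κ → F) →ₛₗ[σ] (κ → F) →ₗ[F] F} {y : End F (κ → F)} {a b c d g u v x : GL κ F}

local notation "K" => AlgebraicClosure F
local notation "ι" => algebraMap F (AlgebraicClosure F)
local notation "NR" => Geo.subgroupNormalizer R
local notation "ZZ" => Geo.scalars κ F

/-- a group of symplectic type in dimension four with centre of order `2 ^ m` -/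
structure X4 (R : Subgroup (GL κ F)) (m : ℕ) : Prop extends X2 R where
  dim : Fintype.card κ = 4
  cz : Nat.card ↥(R ⊓ ZZ) = 2 ^ m
  card : Nat.card R = 2 ^ (m + 4)
  irr : Geo.ActsAbsolutelyIrreducibly (Geo.matrixSet R)

theorem x4_of [Finite F] (h2 : (2 : F) ≠ 0) (h : Geo.IsSymplecticTypeGroup 2 R)
    (h' : Geo.ActsAbsolutelyIrreducibly (Geo.matrixSet R)) (hn : Fintype.card κ = 4)
    (hZ : Nat.card (Subgroup.center R) = 2 ^ m) (hR : Nat.card R = 2 ^ (m + 4)) : X4 R m := by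
  have : Nonempty κ := Fintype.card_pos_iff.1 (hn ▸ four_pos)
  have h4 (g : R) : g ^ 4 = 1 := (show 4 = Monoid.exponent R from h.exponent_eq.symm) ▸ Monoid.pow_exponent_eq_one g
  have h5 {w : R} (hw : w ∈ Subgroup.center R) : ∃ c : F, w.1.1 = c • 1 := H18.scalar_of_absIrr h' fun z hz =>
    congrArg Subtype.val (Subgroup.mem_center_iff.1 hw ⟨z, hz⟩)
  refine ⟨⟨h2, fun g hg x hx => ?_, fun M hM => h'.2 M (by rintro _ ⟨z, hz, rfl⟩; exact hM z hz),
    fun g hg => congrArg Subtype.val (h4 ⟨g, hg⟩)⟩, hn, ?_, hR, h'⟩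
  · obtain ⟨w, e1, e2, e3⟩ := hall_comm h.pGroup h.cyclic_of_characteristic h4 ⟨g, hg⟩ ⟨x, hx⟩
    obtain ⟨c, hc⟩ := h5 e1
    have e4 : (c * c) • (1 : Matrix κ κ F) = (1 : F) • 1 := by simpa [hc, smul_smul] using congrArg (fun g : R => g.1.1) e2
    have e5 := congrArg (fun g : R => g.1.1) e3
    exact (mul_self_eq_one_iff.1 (smul_left_injective F one_ne_zero e4)).imp (fun e => by simpa [hc, e] using e5)
      fun e => by simpa [hc, e] using e5
  · rw [← hZ, ← Subgroup.card_map_of_injective R.subtype_injective]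
    congr 3
    ext g
    exact ⟨fun h => ⟨⟨g, h.1⟩, Subgroup.mem_center_iff.2 fun x => Subtype.ext (H18.scalars_comm h.2 _).symm, rfl⟩, by
      rintro ⟨g, h, rfl⟩; exact ⟨g.2, (h5 h).elim fun c => H18.mem_scalars_of_eq_smul⟩⟩

theorem not_sc (h2 : (2 : F) ≠ 0) [Nonempty κ] (h : g.1 * x.1 = -(x.1 * g.1)) : g ∉ ZZ :=
  fun e => not_comm h2 h (H18.scalars_comm e x)

/-- two commuting anticommuting pairs -/
structure P4 (R : Subgroup (GL κ F)) (a b c d : GL κ F) : Prop where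
  ha : a ∈ R
  hb : b ∈ R
  hc : c ∈ R
  hd : d ∈ R
  ab : a.1 * b.1 = -(b.1 * a.1)
  cd : c.1 * d.1 = -(d.1 * c.1)
  ac : a.1 * c.1 = c.1 * a.1
  ad : a.1 * d.1 = d.1 * a.1
  bc : b.1 * c.1 = c.1 * b.1
  bd : b.1 * d.1 = d.1 * b.1

theorem P4.swap (h : P4 R a b c d) : P4 R c d a b :=
  ⟨h.hc, h.hd, h.ha, h.hb, h.cd, h.ab, h.ac.symm, h.bc.symm, h.ad.symm, h.bd.symm⟩

theorem P4.sc (h : P4 R a b c d) (hx : x ∈ R) {i : F} (e : x.1 = i • 1) : P4 R (x * a) b c d :=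
  ⟨mul_mem hx h.ha, h.hb, h.hc, h.hd, by simp [e, h.ab], h.cd, by simp [e, h.ac], by simp [e, h.ad], h.bc, h.bd⟩

/-- generators of an extraspecial group of order `32` of minus type -/
structure M4 (R : Subgroup (GL κ F)) (a b c d : GL κ F) : Prop extends P4 R a b c d where
  aa : a.1 * a.1 = -1
  bb : b.1 * b.1 = -1
  cc : c.1 * c.1 = 1
  dd : d.1 * d.1 = -1

theorem M4.rl (h : M4 R a b c d) : (∀ z, a.1 * (b.1 * z) = -(b.1 * (a.1 * z))) ∧ (∀ z, c.1 * (d.1 * z) = -(d.1 * (c.1 * z))) ∧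
    (∀ z, a.1 * (c.1 * z) = c.1 * (a.1 * z)) ∧ (∀ z, a.1 * (d.1 * z) = d.1 * (a.1 * z)) ∧
    (∀ z, b.1 * (c.1 * z) = c.1 * (b.1 * z)) ∧ (∀ z, b.1 * (d.1 * z) = d.1 * (b.1 * z)) ∧ (∀ z, a.1 * (a.1 * z) = -z) ∧
    (∀ z, b.1 * (b.1 * z) = -z) ∧ (∀ z, c.1 * (c.1 * z) = z) ∧ (∀ z, d.1 * (d.1 * z) = -z) ∧
    a.1 * b.1 = -(b.1 * a.1) ∧ c.1 * d.1 = -(d.1 * c.1) ∧ a.1 * c.1 = c.1 * a.1 ∧ a.1 * d.1 = d.1 * a.1 ∧
    b.1 * c.1 = c.1 * b.1 ∧ b.1 * d.1 = d.1 * b.1 ∧ a.1 * a.1 = -1 ∧ b.1 * b.1 = -1 ∧ c.1 * c.1 = 1 ∧ d.1 * d.1 = -1 := by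
  simp [← mul_assoc, h.ab, h.cd, h.ac, h.ad, h.bc, h.bd, h.aa, h.bb, h.cc, h.dd]

/-- the trace of `y` times the trace of its inverse -/
noncomputable def tau {k : Type*} [Field k] (M : Multiset k) : k := M.sum * (M.map (·⁻¹)).sum

theorem tau_three {k : Type*} [Field k] {ω : k} (h : ω ^ 3 = 1 ∧ ω ≠ 1) :
    tau ({ω, ω, ω} + .replicate 1 1) = 7 ∧ tau ({ω, ω⁻¹} + .replicate 2 1) = 1 := by
  have : ω⁻¹ = ω ^ 2 := inv_eq_of_mul_eq_one_right (by grind)
  have : ω ^ 2 + ω + 1 = 0 := mul_left_cancel₀ (sub_ne_zero.2 h.2) (by grind)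
  simp [tau]; grind

theorem tau_five {k : Type*} [Field k] {ω : k} (h : ω ^ 5 = 1 ∧ ω ≠ 1) (h5 : (5 : k) ≠ 0) :
    tau ({ω, ω⁻¹} + .replicate 2 1) ≠ 1 := by
  have : ω⁻¹ = ω ^ 4 := inv_eq_of_mul_eq_one_right (by grind)
  have : ω ^ 4 + ω ^ 3 + ω ^ 2 + ω + 1 = 0 := mul_left_cancel₀ (sub_ne_zero.2 h.2) (by grind)
  simp [tau]; grind

/-- the nontrivial `r`-th roots of unity occur equally often as eigenvalues of an isometry -/
structure Fl (B : (κ → F) →ₛₗ[σ] (κ → F) →ₗ[F] F) (r : ℕ) (z : ℤ) : Prop where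
  ne : (r : F) ≠ 0
  inj : Function.Injective fun x : K => x ^ z
  ord : orderOf (z : ZMod r) = r - 1
  st : ∀ y, Pres B y → St (· ^ z) (rts y)

theorem fl_card [Fintype F] (h : (r : F) ≠ 0) (h' : orderOf (Fintype.card F : ZMod r) = r - 1) : Fl B r (Fintype.card F) :=
  ⟨h, by simpa using pow_card_inj, by simpa, fun y _ => by simpa using st_rts y⟩

theorem fl_u [Fintype F] {q n : ℕ} (hF : Fintype.card F = q ^ 2) (h : (r : F) ≠ 0) (h' : orderOf (-q : ZMod r) = r - 1) :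
    Fl (uB hF n) r (-q) := by
  obtain ⟨ρ, h1, h2⟩ := exists_frob_pow hF
  exact ⟨h, by simpa [← h1, Function.comp_def] using inv_injective.comp ρ.injective, by simpa,
    fun y hy => by simpa [h1, St] using map_rts_of_pres (sd_uB hF n) hy ρ h2⟩

theorem Fl.full [hr : Fact r.Prime] {z : ℤ} (L : Fl B r z) : ∃ A : Multiset K, A.sum = -1 ∧ ∀ y, Pres B y → y ^ r = 1 →
    ∃ j e, rts y = j • A + .replicate e 1 ∧ j * (r - 1) + e = Fintype.card κ ∧ (y ≠ 1 → j ≠ 0) := by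
  classical
  have h0 : (r : K) ≠ 0 := by simpa using (map_ne_zero ι).2 L.ne
  obtain ⟨A, h1, h2, h3, -⟩ := exists_all_roots h0
  have h4 {O : Multiset K} (e1 : PRt r O) (e2 : O.Nodup) (e3 : O.card + 1 = r) : 1 ::ₘ O = Polynomial.nthRoots r 1 :=
    eq_nthRoots hr.out.pos (Multiset.nodup_cons.2 ⟨fun h => (e1 1 h).2 rfl, e2⟩)
      (by simpa using fun x hx => (e1 x hx).1) (by simpa)
  refine ⟨A, ?_, fun y h5 h6 => ?_⟩
  · obtain ⟨x, hx⟩ := Multiset.card_pos_iff_exists_mem.1 (show 0 < A.card by have := hr.out.two_le; omega)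
    have h5 := isPrimitiveRoot_of (h1 x hx)
    have h6 := congrArg Multiset.sum (h4 h1 h2 h3)
    rw [h5.nthRoots_eq (one_pow _), Multiset.sum_cons] at h6
    have h7 := h5.geom_sum_eq_zero hr.out.one_lt
    simp only [mul_one, Finset.sum, Finset.range_val] at h6 h7
    linear_combination h6 + h7
  have h7 : PRt r (nr y) := fun x hx => ⟨pow_eq_one_of_mem_rts h6 (Multiset.mem_filter.1 hx).1, (Multiset.mem_filter.1 hx).2⟩
  have h8 : St (· ^ z) (nr y) := (L.st y h5).filter _ fun x => not_congr ⟨fun e => L.inj (by simpa), fun e => by simp [e]⟩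
  obtain ⟨j, hj⟩ : ∃ j, nr y = j • A := h8.induction L.inj (P := fun N => ∃ j, N = j • A) ⟨0, rfl⟩ fun α hα N _ _ _ ⟨j, hj⟩ =>
    ⟨j + 1, by
      rw [hj, succ_nsmul', (Multiset.cons_inj_right 1).1 ((h4 (h7.of_le (by
        simpa using h8.orb_le L.inj (Multiset.one_le_count_iff_mem.2 hα))) (Finset.nodup _) (by
          rw [Finset.card_val, card_orb, minimalPeriod_zpow (h7 α hα), L.ord, Nat.sub_add_cancel hr.out.pos])).trans
            (h4 h1 h2 h3).symm)]⟩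
  have h9 := card_nr_le y
  refine ⟨j, _, hj ▸ rts_eq_nr y, ?_, fun e e' => e ?_⟩
  · rw [hj] at h9
    rw [Multiset.card_nsmul, Nat.eq_sub_of_add_eq h3] at h9 ⊢
    simpa using Nat.add_sub_cancel' h9
  · simpa using SS.pow_eq ⟨r, L.ne, h6⟩ (r := 1) (z := 1) fun x hx => by
      rw [rts_eq_nr, hj, e', zero_nsmul, zero_add] at hx
      simp [Multiset.eq_of_mem_replicate hx]

namespace X4
variable (E : X4 R m) [Finite F]
include E

omit [Finite F] in
theorem nonempty : Nonempty κ := Fintype.card_pos_iff.1 (E.dim ▸ four_pos)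

theorem card_cen (hx : x ∈ R) (h : x ∉ ZZ) : Nat.card ↥(Subgroup.centralizer {x} ⊓ R) = 2 ^ (m + 3) := by
  have := E.nonempty
  have h1 := relIndex_mul_card (Subgroup.centralizer {x}) R
  rw [E.relIndex hx h, E.card, pow_succ'] at h1
  omega

theorem fix [hr : Fact r.Prime] (h2 : r ≠ 2) (hg : g ∈ NR) (h : g ^ r = 1) (h0 : ∀ z : F, g.1 ≠ z • 1) :
    ((r = 3 ∨ r = 5) ∧ g.1.trace * (g⁻¹).1.trace = 1 ∧ ∀ x ∈ R, x * g = g * x → x ∈ ZZ) ∨
      r = 3 ∧ g.1.trace * (g⁻¹).1.trace = 4 := by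
  have := E.nonempty
  have hN := fun x => (Subgroup.mem_normalizer_iff.1 hg x).1
  obtain ⟨k, h1, h3, h4⟩ := card_fix_pow h hN Nat.prime_two E.card fun e =>
    (E.cen g.1 fun x hx => congrArg Units.val (e x hx).symm).elim h0
  have h5 := E.trace_formula (hr.out.odd_of_ne_two h2) hg h
  have h6 : R ⊓ ZZ ≤ R ⊓ Subgroup.centralizer {g} := fun x hx =>
    ⟨hx.1, Subgroup.mem_centralizer_singleton_iff.2 (H18.scalars_comm hx.2 g)⟩
  have h7 {j l : ℕ} (e : r ∣ 2 ^ j * l) : r ∣ l := ((Nat.Prime.dvd_mul hr.out).1 e).resolve_left fun e =>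
    h2 (Nat.prime_eq_prime_of_dvd_pow hr.out Nat.prime_two e)
  have h8 : (2 : F) ^ (m + 4) ≠ 0 := pow_ne_zero _ E.two
  rw [h3, E.card, E.dim] at h5
  simp only [Nat.cast_pow, Nat.cast_ofNat] at h5
  by_cases h9 : ∀ x ∈ R, x * g = g * x → x ∈ ZZ
  · obtain rfl : k = m := Nat.pow_right_injective le_rfl (show 2 ^ k = 2 ^ m by
      rw [← h3, ← E.cz, le_antisymm h6 fun x hx => ⟨hx.1, h9 x hx.1 (Subgroup.mem_centralizer_singleton_iff.1 hx.2)⟩])
    refine .inl ⟨((Nat.Prime.dvd_mul hr.out).1 (h7 (j := k) (l := 3 * 5) (by convert h4 using 1; simp only [pow_add]; omega))).imp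
      (Nat.prime_dvd_prime_iff_eq hr.out Nat.prime_three).1 (Nat.prime_dvd_prime_iff_eq hr.out Nat.prime_five).1,
      mul_left_cancel₀ h8 (by linear_combination -h5), h9⟩
  push Not at h9
  obtain ⟨x, e1, e2, e3⟩ := h9
  have e4 := card_fix h (H := Subgroup.centralizer {x} ⊓ R) fun z hz => ⟨Subgroup.mem_centralizer_singleton_iff.2
    (((Commute.symm e2).mul_left (Subgroup.mem_centralizer_singleton_iff.1 hz.1)).mul_left (Commute.symm e2).inv_left), hN z hz.2⟩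
  have a1 := two_mul_card_le (H := R ⊓ ZZ) (L := Subgroup.centralizer {x} ⊓ R ⊓ Subgroup.centralizer {g}) (lt_of_le_not_ge
    (fun z hz => ⟨⟨Subgroup.mem_centralizer_singleton_iff.2 (H18.scalars_comm hz.2 x), hz.1⟩, (h6 hz).2⟩) fun e =>
      e3 (e ⟨⟨Subgroup.mem_centralizer_singleton_iff.2 rfl, e1⟩, Subgroup.mem_centralizer_singleton_iff.2 e2⟩).2)
  have a2 := two_mul_card_le (H := Subgroup.centralizer {x} ⊓ R ⊓ Subgroup.centralizer {g}) (L := R ⊓ Subgroup.centralizer {g})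
    (lt_of_le_of_ne (inf_le_inf_right _ inf_le_right) fun e => by
      rw [e, h3, E.card_cen e1 e3] at e4
      have := (Nat.modEq_iff_dvd' (Nat.pow_le_pow_right two_pos h1.le)).2 h4
      exact hr.out.not_dvd_one (h7 (j := m + 3) (by
        convert (Nat.modEq_iff_dvd' (Nat.pow_le_pow_right two_pos (by omega))).1 (e4.trans this) using 1; simp only [pow_add]; omega)))
  rw [E.cz] at a1
  have a3 : m + 2 ≤ k := (Nat.pow_le_pow_iff_right one_lt_two).1 (by rw [pow_add]; omega)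
  obtain rfl | rfl : k = m + 2 ∨ k = m + 3 := by omega
  · exact .inr ⟨(Nat.prime_dvd_prime_iff_eq hr.out Nat.prime_three).1 (h7 (j := m + 2) (by convert h4 using 1; simp only [pow_add]; omega)),
      mul_left_cancel₀ h8 (by linear_combination -h5)⟩
  · exact (hr.out.not_dvd_one (h7 (j := m + 3) (by convert h4 using 1; simp only [pow_add]; omega))).elim

theorem exists_p4 : ∃ a b c d, P4 R a b c d := by
  have := E.nonempty
  have h0 {H : Subgroup (GL κ F)} (h : 2 ^ (m + 2) ≤ Nat.card ↥(H ⊓ R)) : ∃ x ∈ H ⊓ R, x ∉ ZZ := by_contra fun e => by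
    have := Subgroup.card_le_of_le (show H ⊓ R ≤ R ⊓ ZZ from fun x hx => ⟨hx.2, by_contra fun e' => e ⟨x, hx, e'⟩⟩)
    have := Nat.two_pow_pos m
    rw [E.cz] at *
    rw [pow_add] at h
    omega
  obtain ⟨a, ⟨-, h1⟩, h2⟩ := h0 (H := ⊤) (by rw [top_inf_eq, E.card]; simp only [pow_add]; omega)
  obtain ⟨b, h3, h4⟩ := E.anti h1 h2
  have h5 : b.1 * a.1 = -(a.1 * b.1) := by rw [h4, neg_neg]
  obtain ⟨c, ⟨⟨h6, h7⟩, h8⟩, h9⟩ := h0 (H := Subgroup.centralizer {a} ⊓ Subgroup.centralizer {b}) (by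
    have e1 := relIndex_mul_card (Subgroup.centralizer {a} ⊓ Subgroup.centralizer {b}) R
    have e2 : (Subgroup.centralizer {a} ⊓ Subgroup.centralizer {b}).relIndex R ≤ _ := Subgroup.relIndex_inf_le
    rw [E.relIndex h1 h2, E.relIndex h3 (not_sc E.two h5)] at e2
    have := Nat.mul_le_mul_right (Nat.card ↥(Subgroup.centralizer {a} ⊓ Subgroup.centralizer {b} ⊓ R)) e2
    rw [e1, E.card] at this
    simp only [pow_add] at this ⊢
    omega)
  replace h6 := congrArg Units.val (Subgroup.mem_centralizer_singleton_iff.1 h6)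
  replace h7 := congrArg Units.val (Subgroup.mem_centralizer_singleton_iff.1 h7)
  simp only [Units.val_mul] at h6 h7
  obtain ⟨d, e1, e2⟩ := E.anti h8 h9
  obtain ⟨d, e1, e2, e3⟩ : ∃ d ∈ R, c.1 * d.1 = -(d.1 * c.1) ∧ a.1 * d.1 = d.1 * a.1 := (E.pm a h1 d e1).elim
    (fun e => ⟨d, e1, e2, e⟩) fun e => ⟨d * b, mul_mem e1 h3, by simp [← mul_assoc c.1, e2, mul_assoc, h7],
      by simp [← mul_assoc a.1, e, mul_assoc, h4]⟩
  obtain ⟨d, e1, e2, e3, e4⟩ : ∃ d ∈ R, c.1 * d.1 = -(d.1 * c.1) ∧ a.1 * d.1 = d.1 * a.1 ∧ b.1 * d.1 = d.1 * b.1 :=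
    (E.pm b h3 d e1).elim (fun e => ⟨d, e1, e2, e3, e⟩) fun e => ⟨d * a, mul_mem e1 h1,
      by simp [← mul_assoc c.1, e2, mul_assoc, h6], by simp [← mul_assoc a.1, e3, mul_assoc],
      by simp [← mul_assoc b.1, e, mul_assoc, h4]⟩
  exact ⟨a, b, c, d, h1, h3, h8, e1, h4, e2, h6.symm, e3, h7.symm, e4⟩

omit [Finite F] in
theorem norm (h : P4 R a b c d) : ∃ a b, P4 R a b c d ∧ b.1 * b.1 = -1 := by
  have := E.nonempty
  obtain e | e := E.sq h.hb
  · obtain e' | e' := E.sq h.ha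
    · exact ⟨a, a * b, ⟨h.ha, mul_mem h.ha h.hb, h.hc, h.hd, by simp [mul_assoc, h.ab, ← mul_assoc a.1 b.1], h.cd, h.ac, h.ad,
        Commute.mul_left h.ac h.bc, Commute.mul_left h.ad h.bd⟩, by
          rw [Units.val_mul, mul_assoc, ← mul_assoc b.1, ← neg_neg (b.1 * a.1), ← h.ab]; simp [mul_assoc, e, e']⟩
    · exact ⟨b, a, ⟨h.hb, h.ha, h.hc, h.hd, by simp [h.ab], h.cd, h.bc, h.bd, h.ac, h.ad⟩, e'⟩
  · exact ⟨a, b, h, e⟩

theorem exists_norm : ∃ a b c d, P4 R a b c d ∧ b.1 * b.1 = -1 ∧ d.1 * d.1 = -1 := by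
  obtain ⟨a, b, c, d, h⟩ := E.exists_p4
  obtain ⟨a, b, h, h1⟩ := E.norm h
  obtain ⟨c, d, h, h2⟩ := E.norm h.swap
  exact ⟨a, b, c, d, h.swap, h1, h2⟩

theorem not_minus (hu : u ∈ R) (hv : v ∈ R) (h1 : u.1 * u.1 = 1) (h2 : v.1 * v.1 = 1) (h3 : u.1 * v.1 = v.1 * u.1)
    (h4 : u ∉ ZZ) (h5 : v ∉ ZZ) (h6 : u * v ∉ ZZ) : ¬ Geo.IsOfMinusType 2 R := fun h => by
  have := E.nonempty
  obtain ⟨x, hx, e⟩ := E.anti hu h4
  have key {v : GL κ F} (hv : v ∈ R) (h2 : v.1 * v.1 = 1) (h3 : u.1 * v.1 = v.1 * u.1) (h5 : v ∉ ZZ)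
      (h6 : v.1 * x.1 = x.1 * v.1) : False := by
    obtain ⟨y, hy, e'⟩ := E.anti hv h5
    have e1 : (-1 : GL κ F) ∈ R := by
      convert mul_mem (mul_mem hu hx) (inv_mem (mul_mem hx hu))
      rw [eq_mul_inv_iff_mul_eq]; exact Units.ext (by simp [e])
    obtain ⟨A, a1, a2, a3⟩ := eight_le (G := R) (m := ⟨-1, e1⟩) (u := ⟨u, hu⟩) (v := ⟨v, hv⟩) (x := ⟨x, hx⟩) (y := ⟨y, hy⟩)
      (by simp) (Subtype.ext (Units.ext h1)) (Subtype.ext (Units.ext h2))
      (fun e => not_comm (g := 1) (x := 1) E.two (by simpa using (congrArg (fun g : R => g.1.1) e).symm) rfl)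
      (Subgroup.mem_center_iff.2 fun g => Subtype.ext (by simp)) (Subtype.ext (Units.ext h3)) (Subtype.ext (Units.ext h6))
      (fun e1 => not_comm E.two e (congrArg Subtype.val e1)) fun e1 => not_comm E.two e' (congrArg Subtype.val e1)
    exact (h A a1 a2).not_ge a3
  obtain e' | e' := E.pm v hv x hx
  · exact key hv h2 h3 h5 e'
  · exact key (mul_mem hu hv) (by rw [Units.val_mul, (Commute.symm h3).mul_mul_mul_comm, h1, h2, one_mul])
      (by rw [Units.val_mul, mul_assoc, h3]) h6 (by simp [mul_assoc, e', ← mul_assoc u.1, e])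

omit [Finite F] in
theorem adj (h : P4 R a b c d) (hx : x ∈ R) {i : F} (e : x.1 = i • 1) (hi : i * i = -1) {s : Matrix κ κ F} (hs : s = 1 ∨ s = -1) :
    ∃ a, P4 R a b c d ∧ a.1 * a.1 = s := by
  have := E.nonempty
  by_cases h1 : a.1 * a.1 = s
  · exact ⟨a, h, h1⟩
  refine ⟨_, h.sc hx e, ?_⟩
  obtain h2 | h2 := E.sq h.ha <;> obtain rfl | rfl := hs <;> first | contradiction | simp [e, smul_smul, hi, h2]

theorem exists_m4 (E : X4 R 2) : ∃ x ∈ R, ∃ i : F, x.1 = i • 1 ∧ i * i = -1 ∧ ∃ a b c d, M4 R a b c d := by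
  have := E.nonempty
  obtain ⟨x, ⟨h1, h0⟩, h2⟩ : ∃ x ∈ R ⊓ ZZ, x ∉ Subgroup.zpowers (-1) := by_contra fun e => by
    have := Subgroup.card_le_of_le (show R ⊓ ZZ ≤ Subgroup.zpowers (-1) from fun x hx => by_contra fun e' => e ⟨x, hx, e'⟩)
    have := orderOf_le_of_pow_eq_one two_pos (neg_one_sq (R := GL κ F))
    rw [E.cz, Nat.card_zpowers] at *
    omega
  obtain ⟨i, h3⟩ := H18.mem_scalars_sc.1 h0
  replace h3 := h3 ▸ H18.sc_coe i
  have h4 : (i : F) * i = -1 := by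
    obtain e | e := E.sq h1
    · replace e : ((i : F) * i) • (1 : Matrix κ κ F) = (1 : F) • 1 := by simpa [h3, smul_smul] using e
      obtain e | e := mul_self_eq_one_iff.1 (smul_left_injective F one_ne_zero e)
      · exact absurd ((show x = 1 from Units.ext (h3.trans (by simp [e]))).symm ▸ one_mem _) h2
      · exact absurd ((show x = -1 from Units.ext (h3.trans (by simp [e]))) ▸ Subgroup.mem_zpowers _) h2
    · exact smul_left_injective F (one_ne_zero (α := Matrix κ κ F)) (by simpa [h3, smul_smul] using e)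
  obtain ⟨a, b, c, d, h, e1, e2⟩ := E.exists_norm
  obtain ⟨a, h, e3⟩ := E.adj h h1 h3 h4 (.inr rfl)
  obtain ⟨c, h, e4⟩ := E.adj h.swap h1 h3 h4 (.inl rfl)
  exact ⟨_, h1, i, h3, h4, a, b, c, d, h.swap, e3, e1, e4, e2⟩

theorem exists_m4' (hm : Geo.IsOfMinusType 2 R) : ∃ a b c d, M4 R a b c d := by
  have := E.nonempty
  obtain ⟨a, b, c, d, h, e1, e2⟩ := E.exists_norm
  obtain e3 | e3 := E.sq h.ha <;> obtain e4 | e4 := E.sq h.hc
  · exact absurd hm (E.not_minus h.ha h.hc e3 e4 h.ac (not_sc E.two h.ab) (not_sc E.two h.cd)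
      (not_sc E.two (x := b) (by simp [mul_assoc, ← h.bc, ← mul_assoc a.1, h.ab])))
  · exact ⟨c, d, a, b, h.swap, e4, e2, e3, e1⟩
  · exact ⟨a, b, c, d, h, e3, e1, e4, e2⟩
  · refine absurd hm (E.not_minus (mul_mem h.ha h.hc) (mul_mem h.hb h.hd) ?_ ?_ ?_
      (not_sc E.two (x := b) (by simp [mul_assoc, ← h.bc, ← mul_assoc a.1, h.ab]))
      (not_sc E.two (x := a) (by simp [mul_assoc, ← h.ad, ← mul_assoc a.1, h.ab]))
      (not_sc E.two (x := a) (by
        simp only [Units.val_mul, mul_assoc, ← h.ad]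
        rw [← mul_assoc b.1, ← mul_assoc a.1 c.1 (b.1 * d.1), h.ac, mul_assoc c.1, ← mul_assoc a.1 b.1, h.ab]; simp)))
    · rw [Units.val_mul, (Commute.symm h.ac).mul_mul_mul_comm, e3, e4, neg_mul_neg, one_mul]
    · rw [Units.val_mul, (Commute.symm h.bd).mul_mul_mul_comm, e1, e2, neg_mul_neg, one_mul]
    · rw [Units.val_mul, Units.val_mul, (Commute.symm h.bc).mul_mul_mul_comm, (Commute.symm h.ad).mul_mul_mul_comm, h.ab, h.cd,
        neg_mul_neg]

theorem tau_eq [Fact r.Prime] (h2 : r ≠ 2) (h : CI NR y) (h1 : y ^ r = 1) (h3 : PO r y) :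
    ((r = 3 ∨ r = 5) ∧ tau (rts y) = 1 ∧ (Geo.IsOfMinusType 2 R → m = 1 → r ≠ 3)) ∨ r = 3 ∧ tau (rts y) = 4 := by
  have := E.nonempty
  obtain ⟨g, e1, e2, e3, e4⟩ := h.ex h1 h3
  have e5 : tau (rts y) = ι (g.1.trace * (g⁻¹).1.trace) := by rw [e4.rts_eq, tau, ← rts_GL_inv, sum_rts, sum_rts, map_mul]
  refine (E.fix h2 e1 e2 e3).imp (fun h => ⟨h.1, by rw [e5, h.2.1, map_one], ?_⟩) fun h => ⟨h.1, by rw [e5, h.2, map_ofNat]⟩
  rintro hm rfl rfl
  obtain ⟨a, b, u, d, h4⟩ := E.exists_m4' hm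
  have hN := fun x => (Subgroup.mem_normalizer_iff.1 e1 x).1
  have h5 {x} (hx : x ∉ ZZ) : g * x * g⁻¹ ∉ ZZ := fun e => hx (by
    rwa [← mul_left_cancel (a := g) ((H18.scalars_comm e g).symm.trans (inv_mul_cancel_right _ _))])
  have h6 {x : GL κ F} (hx : x * x = 1) : g * x * g⁻¹ * (g * x * g⁻¹) = 1 := by rw [conj_mul, hx, mul_one, mul_inv_cancel]
  have u1 : u * u = 1 := Units.ext h4.cc
  have u2 := not_sc E.two h4.cd
  set v := g * u * g⁻¹
  set w := g * v * g⁻¹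
  have v1 := hN u h4.hc
  have w1 := hN v v1
  have h7 : g * (u * (v * w)) = v * w * u * g := by
    have : g * w * g⁻¹ = g ^ 3 * u * (g ^ 3)⁻¹ := by simp only [v, w, pow_three]; group
    rw [e2, one_mul, inv_one, mul_one] at this
    nth_rw 2 [← this]; simp only [w, v]; group
  have h8 := mul_mem h4.hc (mul_mem v1 w1)
  have h9 : u * (v * w) ∈ ZZ := (E.pm u h4.hc _ (mul_mem v1 w1)).elim
    (fun e => h.2.2 _ h8 (by rw [h7, show u * (v * w) = v * w * u from Units.ext e])) fun e => by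
      replace h7 := congrArg Units.val h7
      rw [Units.val_mul, Units.val_mul _ g, Units.val_mul (v * w), ← neg_neg (_ * u.1), ← e, ← Units.val_mul u, neg_mul] at h7
      refine (not_comm E.two (g := g ^ 3) (x := u * (v * w)) ?_ (by simp [e2])).elim
      generalize u * (v * w) = t at h7
      simp only [pow_three, Units.val_mul, mul_assoc, h7, mul_neg, ← mul_assoc g.1 t.1, neg_mul, neg_neg]
  have h10 : u * (v * w) * (u * (v * w)) = 1 := by
    have := congrArg Subtype.val (pow_card_eq_one' (G := ↥(R ⊓ ZZ)) (x := ⟨_, h8, h9⟩))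
    rwa [E.cz, pow_one, _root_.sq] at this
  have h11 : u * v * (u * v) = 1 := by
    have h11 : w * w = 1 := h6 (h6 u1)
    rw [← h10, ← mul_assoc u v w, mul_assoc (u * v) w, ← H18.scalars_comm (mul_assoc u v w ▸ h9) w, mul_assoc _ w, h11, mul_one]
  exact E.not_minus h4.hc v1 h4.cc (congrArg Units.val (h6 u1)) (congrArg Units.val (show u * v = v * u by
    rw [eq_inv_of_mul_eq_one_left h11, _root_.mul_inv_rev, inv_eq_of_mul_eq_one_left u1, inv_eq_of_mul_eq_one_left (h6 u1)]))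
    u2 (h5 u2) (fun e => h5 (h5 u2) (by
      have := mul_mem (inv_mem e) h9
      rwa [← mul_assoc u v w, inv_mul_cancel_left] at this)) hm

theorem not_tv {p : ℕ} [hp : Fact p.Prime] [CharP F p] (h : PO p y) (h1 : 4 ≤ finrank F (LinearMap.ker (y - 1)) + 1) :
    ¬ CI NR y := fun h2 => by
  have := E.nonempty
  obtain ⟨g, e1, e2, U, e3, e4⟩ := h2.small
  obtain ⟨⟨z, h3⟩, h4⟩ := e2.po h
  rw [E.dim] at e4
  obtain ⟨v, h5, h6⟩ := Submodule.exists_mem_ne_zero_of_ne_bot (p := LinearMap.ker (toLin' g.1 - 1)) fun e => by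
    rw [e2.finrank_ker_sub, e, finrank_bot] at h1; omega
  have h7 {v} {c : F} (hv : toLin' g.1 v = c • v) (h0 : v ≠ 0) : c ^ p = z := smul_left_injective F h0 <| by
    simpa [h3] using ((End.HasEigenvector.pow_apply ⟨End.mem_eigenspace_iff.2 hv, h0⟩ p)).symm
  obtain rfl := h7 (c := 1) (by simpa [sub_eq_zero] using h5) h6
  have h8 : (g.1 - 1) * (g.1 - 1) = 0 := mat_ext_mulVec fun v => by
    obtain ⟨⟨w, hw⟩, h8⟩ := finrank_le_one_iff.1 (by omega : finrank F U ≤ 1)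
    obtain ⟨c, h9⟩ := h8 ⟨_, e3 w⟩
    obtain ⟨d, h10⟩ := h8 ⟨_, e3 v⟩
    simp only [SetLike.mk_smul_mk, Subtype.mk.injEq] at h9 h10
    rw [← mulVec_mulVec, sub_mulVec, sub_mulVec, one_mulVec, one_mulVec, ← h10, mulVec_smul, ← _root_.smul_sub, ← h9, zero_mulVec]
    obtain rfl | h11 := eq_or_ne w 0
    · simp
    have := h7 (c := c + 1) (by rw [add_smul, h9]; simp) h11
    rw [add_pow_char, add_eq_right] at this
    simp [pow_eq_zero_iff hp.out.ne_zero |>.1 this]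
  obtain ⟨c, hc⟩ := E.cen g.1 fun x hx => congrArg Units.val (H18.comm_of_normalizes E.irr h8 e3 e1 (r := 2)
    (.inl ⟨rfl, E.two, by rw [E.dim]; omega⟩) ⟨hx, fun z hz => (E.pm z hz x hx).elim (fun e => ⟨1, by simp, Units.ext (by simp [e])⟩)
      fun e => ⟨-1, by simp, Units.ext (by simp [H18.sc_coe, e])⟩⟩)
  exact h4 c (by rw [hc]; ext; simp)

omit [Finite F] in
theorem three_five [Fintype F] [hr : Fact r.Prime] {G : Subgroup (GL κ F)} (h2 : r ≠ 2) (hΩ : r ∣ (NR).relIndex G)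
    (h : ELG G NR r) (hG : ∀ x ∈ G, ∀ z : F, x.1 = z • 1 → z ^ 4 = 1) : r = 3 ∨ r = 5 := by
  obtain ⟨x, e1, e2, e3⟩ := exists_cauchy hΩ ((hr.out.odd_of_ne_two h2).coprime_two_right.pow_right 2) hG
  obtain ⟨g, e4, e5⟩ := h.ci e1 e3
  exact (E.tau_eq h2 ⟨g, e4.1, e5⟩ e2 e3).elim (·.1) fun h => .inl h.1

theorem not_three (h3 : (3 : F) ≠ 0) {ω : K} (hω : ω ^ 3 = 1 ∧ ω ≠ 1) (h1 : y ^ 3 = 1)
    (h : rts y = {ω, ω, ω} + .replicate 1 1) : LinearMap.det y = 1 ∧ PO 3 y ∧ ¬ CI NR y := by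
  have := Fact.mk Nat.prime_three
  have h4 : PO 3 y := po_of_rts (z := 1) (by simpa) (by simp [h]) (by simp [h]) hω.2
  have h5 : (2 : K) ≠ 0 := map_ofNat ι 2 ▸ (map_ne_zero ι).2 E.two
  have h6 : (3 : K) ≠ 0 := map_ofNat ι 3 ▸ (map_ne_zero ι).2 h3
  refine ⟨(ι).injective (by simp [← prod_rts, h, ← pow_three, hω.1]), h4, fun e => ?_⟩
  obtain ⟨-, e, -⟩ | ⟨-, e⟩ := E.tau_eq (by decide) e h1 h4 <;> rw [h, (tau_three hω).1] at e
  · exact mul_ne_zero h5 h6 (by linear_combination e)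
  · exact h6 (by linear_combination e)

theorem not_five (h5 : (5 : F) ≠ 0) {ω : K} (hω : ω ^ 5 = 1 ∧ ω ≠ 1) (h1 : y ^ 5 = 1)
    (h : rts y = {ω, ω⁻¹} + .replicate 2 1) : LinearMap.det y = 1 ∧ PO 5 y ∧ ¬ CI NR y := by
  have := Fact.mk Nat.prime_five
  have h4 : PO 5 y := po_of_rts (z := 1) (by simpa) (by simp [h]) (by simp [h]) hω.2
  have h6 : ω ≠ 0 := by rintro rfl; simp at hω
  refine ⟨(ι).injective (by simp [← prod_rts, h, h6]), h4, fun e => ?_⟩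
  obtain ⟨-, e, -⟩ | ⟨e, -⟩ := E.tau_eq (by decide) e h1 h4
  · exact tau_five hω (map_ofNat ι 5 ▸ (map_ne_zero ι).2 h5) (h ▸ e)
  · omega

variable (hB : ∀ g ∈ R, Pres B (toLin' g.1)) (h : M4 R a b c d)
include hB h

theorem rt_five {z : ℤ} (L : Fl B 5 z) (h1 : Pres B y) (h2 : y ^ 5 = 1) (h3 : y ≠ 1) : RT NR B 5 y := by
  have := E.nonempty
  have := Fact.mk Nat.prime_five
  have h4 : (a * c).1 * (a * c).1 = -1 := by simp [mul_assoc, h.rl]
  have h5 := ((((E.ns hB h.ha h.aa).mul (E.ns hB h.hb h.bb)).mul (E.ns hB (mul_mem h.ha h.hc) h4)).mul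
    (E.ns hB h.hd h.dd)).smul (w := (2 * 2)⁻¹) (by simp [map_ofNat]) (by field_simp [E.two])
  have h6 {x : GL κ F} (e : x.1 * x.1 = -1) : IsUnit (1 + x.1) := IsUnit.of_mul_eq_one ((2 : F)⁻¹ • (1 - x.1)) (by
    rw [mul_smul_comm, inv_smul_eq_iff₀ E.two]; simp only [mul_sub, add_mul, e, two_smul, one_mul, mul_one]; abel)
  obtain ⟨s, hs⟩ := ((((h6 h.aa).mul (h6 h.bb)).mul (h6 h4)).mul (h6 h.dd)).smul
    (Units.mk0 ((2 : F) * 2)⁻¹ (by simp [E.two]))
  rw [Units.smul_mk0] at hs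
  have h7 : s * a = b * s ∧ s * b = a * c * s ∧ s * (a * c) = d * s ∧ s * d = a * b * (a * c) * d * s ∧
      s * (a * b * (a * c) * d) = a * s := by
    simp only [Units.ext_iff, Units.val_mul, hs, mul_add, add_mul, mul_assoc, smul_mul_assoc, mul_smul_comm, h.rl, mul_one,
      one_mul, mul_neg, neg_mul, neg_neg]
    refine ⟨?_, ?_, ?_, ?_, ?_⟩ <;> module
  obtain ⟨k, h8, h9⟩ := exists_pow_order (r := 5) (s := s) (x := a) (by
    exact ((((SemiconjBy.mul_left h7.2.2.2.2 h7.2.2.2.1).mul_left h7.2.2.1).mul_left h7.2.1).mul_left h7.1 :)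
      |> fun e => by simpa [pow_succ, SemiconjBy] using e) fun e => not_comm E.two h.ab (by rw [mul_right_cancel (h7.1.symm.trans e)])
  obtain ⟨A, -, hA⟩ := L.full
  have h10 := (hs ▸ h5).pow k
  rw [← Units.val_pow_eq_pow_val] at h10
  obtain ⟨j, e, e1, e2, e3⟩ := hA y h1 h2
  obtain ⟨j', e', e4, e5, e6⟩ := hA _ h10.2.pres (toLin'_pow_one.2 h8)
  have := e3 h3
  have := e6 fun e => h9 (Units.ext (toLin'.injective (e.trans toLin'_one.symm)))
  rw [E.dim] at e2 e5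
  obtain ⟨rfl, rfl⟩ : j = j' ∧ e = e' := by omega
  exact h10.rt (by decide) (congrArg Units.val h8) (e4.trans e1.symm)

theorem inv_c : ∃ g ∈ NR, Pres B (toLin' g.1) ∧ toLin' g.1 ^ 2 = 1 ∧
    rts (toLin' g.1) = .replicate 2 1 + .replicate 2 (-1) := by
  have := E.nonempty
  have h1 : toLin' c.1 ^ 2 = 1 := toLin'_pow_one.2 (Units.ext (by simp [_root_.sq, h.cc]))
  obtain ⟨s, t, _, _, h2, h3, -⟩ := inv_struct E.two h1 ((po_toLin' _ _).2 ⟨⟨1, by simp [_root_.sq, h.cc]⟩,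
    fun z hz => not_sc E.two h.cd (H18.mem_scalars_of_eq_smul hz)⟩)
  have h4 := sum_rts c.1
  have h5 : (2 : K) ≠ 0 := map_ofNat ι 2 ▸ (map_ne_zero ι).2 E.two
  rw [finrank_fintype_fun_eq_card, E.dim] at h2
  rw [tr_zero E.two h.cd, h3] at h4
  refine ⟨c, R.le_normalizer h.hc, hB c h.hc, h1, ?_⟩
  obtain ⟨rfl, rfl⟩ | ⟨rfl, rfl⟩ | ⟨rfl, rfl⟩ : s = 1 ∧ t = 3 ∨ s = 2 ∧ t = 2 ∨ s = 3 ∧ t = 1 := by omega
  · simp at h4; grind
  · exact h3
  · simp at h4; grind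

variable (hx : x ∈ R) {i : F} (e : x.1 = i • 1) (hi : i * i = -1)
include hx e hi

theorem rt_two (h1 : y ^ 2 = 1) (h2 : PO 2 y) : RT NR B 2 y := by
  have := E.nonempty
  have h0 := E.two
  obtain ⟨s, t, _, _, h3, h4, -⟩ := inv_struct E.two h1 h2
  rw [finrank_fintype_fun_eq_card, E.dim] at h3
  by_cases h5 : s = 2
  · obtain ⟨g, e1, e2, e3, e4⟩ := E.inv_c hB h
    exact ⟨g, e1, e2, e3, by rw [e4, h4, h5, show t = 2 by omega]⟩
  have h6 := ((((E.ns hB (x := x * x * x) (mul_mem (mul_mem hx hx) hx) (by simp [e, smul_smul, hi])).mul (E.ns hB h.ha h.aa)).mul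
    (E.ns hB (mul_mem hx h.hc) (by simp [e, smul_smul, hi, h.cc]))).mul (E.ns hB (x := x * x * a * c)
      (mul_mem (mul_mem (mul_mem hx hx) h.ha) h.hc) (by simp [e, smul_smul, hi, mul_assoc, h.rl]))).smul (w := 2⁻¹ * 2⁻¹)
        (by simp [map_ofNat]) (by field_simp)
  obtain ⟨M, hM, h7⟩ : ∃ M, M = (2⁻¹ : F) • (1 - i • a.1 + c.1 + i • (c.1 * a.1)) ∧ NS R B 1 M := ⟨_, rfl, by
    convert h6 using 1
    simp only [Units.val_mul, e, mul_add, add_mul, mul_assoc, smul_mul_assoc, mul_smul_comm, h.rl, mul_one, one_mul, mul_neg,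
      neg_mul, neg_neg]
    match_scalars <;> grind⟩
  have h8 : M ^ 2 = 1 := by
    simp only [hM, _root_.sq, mul_add, add_mul, mul_sub, sub_mul, mul_assoc, smul_mul_assoc, mul_smul_comm, h.rl, mul_one, one_mul,
      mul_neg, neg_mul, neg_neg]
    match_scalars <;> grind
  have t1 := tr_zero E.two h.ab
  have t2 := tr_zero E.two h.cd
  have t3 : (c.1 * a.1).trace = 0 := tr_zero E.two (g := b) (by simp [mul_assoc, h.rl])
  have t4 : M.trace = 2 := by simp [hM, t1, t2, t3, E.dim]; grind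
  obtain ⟨s', t', _, _, e1, e2, e3⟩ := inv_struct (y := toLin' M) E.two (by rw [← toLin'_pow, h8, toLin'_one]; rfl)
    ((po_toLin' _ _).2 ⟨⟨1, by simpa⟩, fun z hz => by
      have t5 : (c.1 * M).trace = 2 := by simp [hM, mul_add, mul_sub, h.rl, t1, t2, t3, E.dim]; grind
      simp [hz, t2, h0.symm] at t5⟩)
  rw [finrank_fintype_fun_eq_card, E.dim] at e1
  have e4 : s' ≠ 2 := by
    rintro rfl
    have := sum_rts M
    rw [e2, t4, show t' = 2 by omega] at this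
    exact (map_ne_zero ι).2 h0 (by simpa using this.symm)
  obtain ⟨rfl, rfl⟩ | ⟨rfl, rfl⟩ : s = s' ∧ t = t' ∨ s = t' ∧ t = s' := by omega
  · exact h7.rt two_ne_zero h8 (e2.trans h4.symm)
  · exact (h7.smul (w := -1) (by simp) (by simp)).rt two_ne_zero (by simpa) (by simpa [h4] using e3)

theorem rt_three {z : ℤ} (L : Fl B 3 z) (h1 : Pres B y) (h2 : y ^ 3 = 1) (h3 : y ≠ 1) : RT NR B 3 y := by
  have := E.nonempty
  have := Fact.mk Nat.prime_three
  have h0 := E.two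
  have h4 : (x * c).1 * (x * c).1 = -1 := by simp [e, smul_smul, hi, h.cc]
  have h5 : (x * c).1 * d.1 = -(d.1 * (x * c).1) := by simp [e, h.cd]
  have s1 := E.ns_qs hB h.ha h.hb h.aa h.bb
  have s2 := E.ns_qs hB (mul_mem hx h.hc) h.hd h4 h.dd
  have c1 : a.1 * qs (x * c).1 d.1 = qs (x * c).1 d.1 * a.1 := by simp [qs, e, mul_add, add_mul, mul_assoc, h.rl]
  have c2 : b.1 * qs (x * c).1 d.1 = qs (x * c).1 d.1 * b.1 := by simp [qs, e, mul_add, add_mul, mul_assoc, h.rl]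
  have c3 : Commute (qs a.1 b.1) (qs (x * c).1 d.1) :=
    (((Commute.one_left _).add_left c1).mul_left ((Commute.one_left _).add_left c2)).smul_left _
  have t1 := qs_trace h0 h.ab (M := 1) (by simp) (by simp)
  have t2 := qs_trace h0 h5 (M := 1) (by simp) (by simp)
  have t3 := qs_trace h0 h.ab c1 c2
  rw [mul_one, trace_one, E.dim, show -2⁻¹ * ((4 : ℕ) : F) = -2 by grind] at t1 t2
  rw [t2, neg_mul_neg, inv_mul_cancel₀ h0] at t3
  obtain ⟨A, hA, hA'⟩ := L.full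
  have key {M} (h6 : NS R B 1 M) (h7 : M ^ 3 = 1) : ∃ j k : ℕ, rts (toLin' M) = j • A + .replicate k 1 ∧ j * 2 + k = 4 ∧
      M.trace = k - j := by
    obtain ⟨j, k, e1, e2, -⟩ := hA' _ h6.2.pres (by rw [← toLin'_pow, h7, toLin'_one]; rfl)
    exact ⟨j, k, e1, E.dim ▸ e2, (ι).injective (by rw [← sum_rts, e1]; simp [Multiset.sum_nsmul, hA, neg_add_eq_sub])⟩
  have h6 := qs_cube h0 h.aa h.bb h.ab
  have h7 : (qs a.1 b.1 * qs (x * c).1 d.1) ^ 3 = 1 := by rw [c3.mul_pow, h6, qs_cube h0 h4 h.dd h5, one_mul]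
  have s3 := s1.mul s2
  rw [one_mul] at s3
  obtain ⟨j, k, e1, e2, e3⟩ := hA' y h1 h2
  obtain ⟨j1, k1, a1, a2, a3⟩ := key s1 h6
  obtain ⟨j2, k2, b1, b2, b3⟩ := key s3 h7
  have h8 : (3 : F) ≠ 0 := L.ne
  have := e3 h3
  rw [E.dim] at e2
  obtain ⟨rfl, rfl⟩ : j1 = 2 ∧ k1 = 0 := by
    obtain ⟨rfl, rfl⟩ | ⟨rfl, rfl⟩ | h : j1 = 0 ∧ k1 = 4 ∨ j1 = 1 ∧ k1 = 2 ∨ j1 = 2 ∧ k1 = 0 := by omega
    · exact absurd (by push_cast at a3; linear_combination t1 - a3) (mul_ne_zero h0 h8)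
    · exact absurd (by push_cast at a3; linear_combination t1 - a3) h8
    · exact h
  obtain ⟨rfl, rfl⟩ : j2 = 1 ∧ k2 = 2 := by
    obtain ⟨rfl, rfl⟩ | ⟨rfl, rfl⟩ | h : j2 = 0 ∧ k2 = 4 ∨ j2 = 2 ∧ k2 = 0 ∨ j2 = 1 ∧ k2 = 2 := by omega
    · exact absurd (by push_cast at b3; linear_combination t3 - b3) h8
    · exact absurd (by push_cast at b3; linear_combination b3 - t3) h8
    · exact h
  obtain ⟨rfl, rfl⟩ | ⟨rfl, rfl⟩ : j = 2 ∧ k = 0 ∨ j = 1 ∧ k = 2 := by omega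
  · exact s1.rt three_ne_zero h6 (a1.trans e1.symm)
  · exact s3.rt three_ne_zero h7 (b1.trans e1.symm)

end X4

theorem ord_five {x : ZMod 5} : orderOf x = 4 ↔ x ≠ 0 ∧ x ^ 2 ≠ 1 := by
  have := Fact.mk Nat.prime_five
  refine ⟨fun h => ⟨by rintro rfl; simp at h, fun e => absurd (h ▸ orderOf_dvd_of_pow_eq_one e) (by decide)⟩, fun h => ?_⟩
  exact orderOf_eq_prime_pow (p := 2) (n := 1) h.2 (ZMod.pow_card_sub_one_eq_one h.1)

theorem ord_three {x : ZMod 3} (h : x = 2) : orderOf x = 3 - 1 := h ▸ orderOf_eq_prime (p := 2) (by decide) (by decide)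

theorem st_pair {k : Type*} [Field k] [Fact r.Prime] {ω : k} (h : ω ^ r = 1 ∧ ω ≠ 1) {z : ℤ} (hz : (z : ZMod r) ^ 2 = 1) :
    St (· ^ z) {ω, ω⁻¹} := by
  obtain e | e := sq_eq_one_iff.1 hz
  · simp [St, (zpow_eq_zpow_iff h (w := 1)).2 (by simpa)]
  · simp [St, (zpow_eq_zpow_iff h (w := -1)).2 (by simpa), Multiset.cons_swap, ← Multiset.cons_zero]

theorem exists_root_cl [Fact r.Prime] (h : (r : F) ≠ 0) : ∃ ω : K, ω ^ r = 1 ∧ ω ≠ 1 := by
  obtain ⟨A, h1, -, h2, -⟩ := exists_all_roots (k := K) (r := r) (by simpa using (map_ne_zero ι).2 h)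
  obtain ⟨x, hx⟩ := Multiset.card_pos_iff_exists_mem.1 (show 0 < A.card by have := (Fact.out : r.Prime).two_le; omega)
  exact ⟨x, h1 x hx⟩

end Cfsg.Agent.H28
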