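import Cfsg.Agent.H28.Elu3

/-! Elements permuting the summands of a direct decomposition. -/

set_option autoImplicit false

namespace Cfsg.Agent.H28

open Polynomial Module
open scoped Pointwise

variable {F V W : Type*} [Field F] [AddCommGroup V] [Module F V] [AddCommGroup W] [Module F W]

variable (W) in
/-- the twisted cyclic shift -/
def sh (s : ℕ) (z : F) : End F (Fin (s + 1) → W) :=
  LinearMap.pi fun i => Fin.cases (z • LinearMap.proj (Fin.last s)) (fun j => LinearMap.proj j.castSucc) i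

@[simp] theorem sh_zero (s : ℕ) (z : F) (v : Fin (s + 1) → W) : sh W s z v 0 = z • v (Fin.last s) := rfl

@[simp] theorem sh_succ (s : ℕ) (z : F) (v : Fin (s + 1) → W) (j : Fin s) : sh W s z v j.succ = v j.castSucc := rfl

theorem sh_single (s : ℕ) (z : F) (t : Fin (s + 1)) (w : W) :
    sh W s z (Pi.single t w) = Pi.single (finRotate _ t) (if t = Fin.last s then z • w else w) := by
  ext i
  induction t using Fin.lastCases with
  | last => induction i using Fin.cases with
    | zero => simp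
    | succ i => simp
  | cast t =>
    rw [show finRotate _ t.castSucc = t.succ by simp]
    induction i using Fin.cases with
    | zero => simp [(Fin.succ_ne_zero t).symm]
    | succ i => simp [Pi.single_apply]

/-- the map `v ↦ ∑ a ^ i (j (v i))` -/
def orbMap (a : End F V) (s : ℕ) (j : W →ₗ[F] V) : (Fin (s + 1) → W) →ₗ[F] V :=
  ∑ i : Fin (s + 1), (a ^ (i : ℕ)) ∘ₗ j ∘ₗ LinearMap.proj i

theorem orbMap_apply (a : End F V) (s : ℕ) (j : W →ₗ[F] V) (v : Fin (s + 1) → W) :
    orbMap a s j v = ∑ i : Fin (s + 1), (a ^ (i : ℕ)) (j (v i)) := by simp [orbMap]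

theorem orbMap_sh {a : End F V} {s : ℕ} {z : F} (h : a ^ (s + 1) = z • 1) (j : W →ₗ[F] V) (v : Fin (s + 1) → W) :
    orbMap a s j (sh W s z v) = a (orbMap a s j v) := by
  rw [orbMap_apply, orbMap_apply, Fin.sum_univ_succ, map_sum, Fin.sum_univ_castSucc, add_comm]
  simp only [← End.mul_apply, ← pow_succ', Fin.val_last, h]
  simp

theorem orbMap_single (a : End F V) (s : ℕ) (j : W →ₗ[F] V) (i : Fin (s + 1)) (w : W) :
    orbMap a s j (Pi.single i w) = (a ^ (i : ℕ)) (j w) := by
  rw [orbMap_apply, Finset.sum_eq_single i (fun k _ hk => by simp [hk]) (by simp), Pi.single_eq_same]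

theorem range_orbMap (a : End F V) (s : ℕ) (j : W →ₗ[F] V) :
    LinearMap.range (orbMap a s j) = ⨆ i : Fin (s + 1), (LinearMap.range j).map (a ^ (i : ℕ) : End F V) := by
  refine le_antisymm ?_ (iSup_le ?_)
  · rintro _ ⟨v, rfl⟩
    rw [orbMap_apply]
    exact Submodule.sum_mem _ fun i _ => Submodule.mem_iSup_of_mem i ⟨_, ⟨_, rfl⟩, rfl⟩
  · rintro i _ ⟨_, ⟨w, rfl⟩, rfl⟩
    exact ⟨_, orbMap_single a s j i w⟩

theorem sim_sh_cyc (s : ℕ) (z : F) : Sim (sh F s z) (cyc (X ^ (s + 1) - C z)) := by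
  have h0 := monic_X_pow_sub_C z s.succ_ne_zero
  have := finite_adjoinRoot h0.ne_zero
  have h1 : cyc (X ^ (s + 1) - C z) ^ (s + 1) = z • 1 := by
    have := (aeval_cyc_eq_zero_iff (X ^ (s + 1) - C z) _).2 dvd_rfl
    rwa [map_sub, map_pow, aeval_X, aeval_C, sub_eq_zero, Algebra.algebraMap_eq_smul_one] at this
  have h2 : Function.Surjective (orbMap (cyc (X ^ (s + 1) - C z)) s (Algebra.linearMap F _)) := fun x => by
    obtain ⟨g, rfl⟩ := AdjoinRoot.mk_surjective x
    refine ⟨fun i => (g %ₘ (X ^ (s + 1) - C z)).coeff i, ?_⟩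
    have h3 : (g %ₘ (X ^ (s + 1) - C z)).natDegree < s + 1 := by
      simpa using natDegree_modByMonic_lt g h0 (fun e => by simpa using congrArg natDegree e)
    rw [← AdjoinRoot.mk_leftInverse h0 (AdjoinRoot.mk _ g), AdjoinRoot.modByMonicHom_mk, ← AdjoinRoot.aeval_eq,
      aeval_eq_sum_range' h3, orbMap_apply, Finset.sum_range]
    refine Finset.sum_congr rfl fun i _ => ?_
    rw [cyc, ← map_pow, Algebra.smul_def, mul_comm]; rfl
  exact ⟨.ofBijective _ ⟨(LinearMap.injective_iff_surjective_of_finrank_eq_finrank (by simp [finrank_adjoinRoot])).2 h2, h2⟩,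
    orbMap_sh h1 _⟩

/-- the elementary divisors of the companion matrix of `X ^ (s + 1) - z` -/
noncomputable def frE (s : ℕ) (z : F) : Multiset (PP F) := ed (sh F s z)

theorem tdg_frE (s : ℕ) (z : F) : tdg (frE s z) = s + 1 := by simp [frE, tdg_ed]

theorem frE_eq {s : ℕ} {z : F} {x : PP F} (h : x.poly = X ^ (s + 1) - C z) : frE s z = {x} := by
  rw [frE, ← ed_cyc]
  exact Sim.ed_eq (h ▸ sim_sh_cyc s z)

theorem dvd_iff_frE (s : ℕ) (z : F) (g : F[X]) : X ^ (s + 1) - C z ∣ g ↔ ∀ x ∈ frE s z, x.poly ∣ g := by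
  rw [frE, ← aeval_eq_zero_iff_ed, (sim_sh_cyc s z).aeval_eq_zero_iff, aeval_cyc_eq_zero_iff]

theorem exists_mem_frE {s : ℕ} {z : F} {f : F[X]} (hm : f.Monic) (hf : Irreducible f) (h : f ∣ X ^ (s + 1) - C z) :
    ∃ x ∈ frE s z, x.f = f := by
  have h0 := monic_X_pow_sub_C z s.succ_ne_zero
  have := finite_adjoinRoot h0.ne_zero
  rwa [frE, ← irreducible_dvd_charpoly_iff _ hm hf, (sim_sh_cyc s z).charpoly_eq, charpoly_cyc h0]

variable [FiniteDimensional F V] [FiniteDimensional F W]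

theorem ed_sh (s : ℕ) (z : F) : ed (sh W s z) = finrank F W • frE s z := by
  let e := (Module.finBasis F W).equivFun
  have : Sim (sh W s z) (piEnd fun _ : Fin (finrank F W) => sh F s z) :=
    ⟨{ toFun := fun v j i => e (v i) j
       invFun := fun v i => e.symm fun j => v j i
       map_add' := fun _ _ => by ext; simp
       map_smul' := fun _ _ => by ext; simp
       left_inv := fun _ => by ext; simp
       right_inv := fun _ => by ext; simp }, fun v => by
      ext j i
      induction i using Fin.cases <;> simp⟩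
  rw [this.ed_eq, ed_piEnd]
  simp [frE]

theorem iSupIndep_of_finrank {ι : Type*} [Fintype ι] {D : ι → Submodule F V} (h : iSup D = ⊤)
    (h1 : ∑ i, finrank F (D i) = finrank F V) : iSupIndep D := by
  classical
  have h2 : Function.Surjective (DirectSum.coeLinearMap D) := by
    rw [← LinearMap.range_eq_top, DirectSum.range_coeLinearMap, h]
  exact DirectSum.IsInternal.submodule_iSupIndep ⟨(LinearMap.injective_iff_surjective_of_finrank_eq_finrank
    (by rw [Module.finrank_directSum, h1])).2 h2, h2⟩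

theorem finrank_finsetSup {ι : Type*} {D : ι → Submodule F V} (hD : iSupIndep D) (T : Finset ι) :
    finrank F ↥(T.sup D) = ∑ i ∈ T, finrank F (D i) := by
  have h : ∀ U : Submodule F V, Iv 1 U := fun _ _ h => h
  rw [← tdg_edOn (h _), edOn_finsetSup hD fun _ _ => h _, tdg_sum]
  exact Finset.sum_congr rfl fun i _ => tdg_edOn (h _)

theorem edOn_orbit {a : End F V} {s : ℕ} {z : F} (h : a ^ (s + 1) = z • 1) {U : Submodule F V}
    (h1 : finrank F ↥(⨆ i : Fin (s + 1), U.map (a ^ (i : ℕ) : End F V)) = (s + 1) * finrank F U) :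
    edOn a (⨆ i : Fin (s + 1), U.map (a ^ (i : ℕ) : End F V)) = finrank F U • frE s z := by
  have h2 := range_orbMap a s U.subtype
  rw [Submodule.range_subtype] at h2
  rw [← h2] at h1 ⊢
  have h3 := (orbMap a s U.subtype).finrank_range_add_finrank_ker
  rw [h1, Module.finrank_pi_fintype] at h3
  rw [(edOn_range _ (LinearMap.ker_eq_bot.1 (by simpa using h3)) (orbMap_sh h _)).2, ed_sh]

section Perm
variable {ι : Type*} {D : ι → Submodule F V} {a : End F V} {σ : Equiv.Perm ι} {d s : ℕ} {z : F}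

omit [FiniteDimensional F V] in
theorem disjoint_finsetSup (hD : iSupIndep D) {S T : Finset ι} (h : Disjoint S T) : Disjoint (S.sup D) (T.sup D) := by
  rw [Finset.sup_eq_iSup, Finset.sup_eq_iSup]
  exact hD.disjoint_biSup_biSup (Finset.disjoint_coe.2 h)

omit [FiniteDimensional F V] in
theorem map_pow_eq (h : ∀ j, (D j).map a = D (σ j)) (k : ℕ) (j : ι) : (D j).map (a ^ k : End F V) = D ((σ ^ k) j) := by
  induction k with
  | zero => exact Submodule.map_id _
  | succ k ih => rw [pow_succ', End.mul_eq_comp, Submodule.map_comp, ih, h, pow_succ', Equiv.Perm.mul_apply]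

theorem perm_pow_eq_one (hD : iSupIndep D) (hd : ∀ j, finrank F (D j) = d) (h0 : 0 < d) (h : ∀ j, (D j).map a = D (σ j))
    {r : ℕ} (hz : z ≠ 0) (ha : a ^ r = z • 1) : σ ^ r = 1 := Equiv.ext fun j => by
  have := map_pow_eq h r j
  rw [ha, map_smul_eq hz, End.one_eq_id, Submodule.map_id] at this
  have h1 : ∀ i, D i ≠ ⊥ := fun i e => h0.ne (by rw [← hd i, e, finrank_bot])
  exact (hD.injOn (h1 _) (h1 _) this).symm

theorem edOn_nonfix (hD : iSupIndep D) (hd : ∀ j, finrank F (D j) = d) (h : ∀ j, (D j).map a = D (σ j))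
    (hs : (s + 1).Prime) (hσ : σ ^ (s + 1) = 1) (ha : a ^ (s + 1) = z • 1) (T : Finset ι) (hT : ∀ j ∈ T, σ j ∈ T ∧ σ j ≠ j) :
    ∃ k, k * (s + 1) = T.card ∧ edOn a (T.sup D) = (k * d) • frE s z := by
  classical
  have hI : ∀ T : Finset ι, (∀ j ∈ T, σ j ∈ T) → Iv a (T.sup D) := fun T hT => iv_iff.1 (by
    rw [Finset.sup_eq_iSup, Submodule.map_iSup]
    refine iSup_le fun j => ?_
    rw [Submodule.map_iSup]
    exact iSup_le fun hj => (h j).le.trans (le_iSup₂_of_le (σ j) (hT j hj) le_rfl))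
  induction T using Finset.strongInduction with
  | H T ih =>
  obtain rfl | ⟨j, hj⟩ := T.eq_empty_or_nonempty
  · exact ⟨0, by simp, by simp [edOn_bot]⟩
  let O : Finset ι := Finset.univ.image fun i : Fin (s + 1) => (σ ^ (i : ℕ)) j
  have h1 : ∀ k, (σ ^ k) j ∈ O := fun k => Finset.mem_image.2 ⟨⟨k % (s + 1), Nat.mod_lt _ s.succ_pos⟩, Finset.mem_univ _, by
    rw [← pow_eq_pow_mod k hσ]⟩
  have h2 : ∀ i ∈ O, ∀ k, (σ ^ k) i ∈ O := fun i hi k => by
    obtain ⟨l, -, rfl⟩ := Finset.mem_image.1 hi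
    rw [← Equiv.Perm.mul_apply, ← pow_add]; exact h1 _
  have h3 : O ⊆ T := fun i hi => by
    obtain ⟨l, -, rfl⟩ := Finset.mem_image.1 hi
    generalize (l : ℕ) = l
    induction l with
    | zero => exact hj
    | succ l ih => rw [pow_succ', Equiv.Perm.mul_apply]; exact (hT _ ih).1
  have h4 : O.card = s + 1 := by
    have := Fact.mk hs
    have h5 : Function.minimalPeriod σ j = s + 1 := Function.minimalPeriod_eq_prime
      (by rw [Function.IsPeriodicPt, ← Equiv.Perm.coe_pow, hσ]; rfl) (hT j hj).2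
    rw [Finset.card_image_of_injective, Finset.card_univ, Fintype.card_fin]
    exact fun k l e => Fin.ext (Function.iterate_injOn_Iio_minimalPeriod (f := σ) (x := j) (by rw [h5]; exact k.2)
      (by rw [h5]; exact l.2) e)
  have h5 : ∀ i ∈ T \ O, σ i ∈ T \ O ∧ σ i ≠ i := fun i hi => by
    obtain ⟨h6, h7⟩ := Finset.mem_sdiff.1 hi
    refine ⟨Finset.mem_sdiff.2 ⟨(hT i h6).1, fun h8 => h7 ?_⟩, (hT i h6).2⟩
    have := h2 _ h8 s
    rwa [← Equiv.Perm.mul_apply, ← pow_succ, hσ] at this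
  obtain ⟨k, h6, h7⟩ := ih (T \ O) (Finset.sdiff_ssubset h3 ⟨j, h1 0⟩) h5
  have h8 : O.sup D = ⨆ i : Fin (s + 1), (D j).map (a ^ (i : ℕ) : End F V) := by
    simp only [map_pow_eq h, O, Finset.sup_image, Finset.sup_univ_eq_iSup]; rfl
  have h9 := edOn_orbit ha (U := D j) (by rw [← h8, finrank_finsetSup hD]; simp [hd, h4])
  refine ⟨k + 1, by rw [add_mul, h6, one_mul, ← h4, Finset.card_sdiff_add_card_eq_card h3], ?_⟩
  rw [← Finset.sdiff_union_of_subset h3, Finset.sup_union, edOn_sup (hI _ fun i hi => (h5 i hi).1)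
    (hI _ fun i hi => h2 i hi 1), h7, h8, h9, hd, add_mul, add_nsmul, one_mul]
  exact disjoint_finsetSup hD Finset.sdiff_disjoint

theorem ed_of_perm [Fintype ι] [DecidableEq ι] (hD : iSupIndep D) (hD' : iSup D = ⊤) (hd : ∀ j, finrank F (D j) = d)
    (h0 : 0 < d) (h : ∀ j, (D j).map a = D (σ j)) (hs : (s + 1).Prime) (hz : z ≠ 0) (ha : a ^ (s + 1) = z • 1) :
    ∃ k, k * (s + 1) + (Finset.univ.filter fun j => σ j = j).card = Fintype.card ι ∧
      ed a = (k * d) • frE s z + ∑ j with σ j = j, edOn a (D j) := by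
  obtain ⟨k, h1, h2⟩ := edOn_nonfix hD hd h hs (perm_pow_eq_one hD hd h0 h hz ha) ha
    (Finset.univ.filter fun j => ¬ σ j = j) fun j hj => by simpa using hj
  have h3 : ∀ j ∈ Finset.univ.filter fun j => σ j = j, Iv a (D j) := fun j hj =>
    iv_iff.1 (by rw [h, (Finset.mem_filter.1 hj).2])
  refine ⟨k, by rw [h1, add_comm, Finset.card_filter_add_card_filter_not, Finset.card_univ], ?_⟩
  rw [← h2, ← edOn_finsetSup hD h3, ← edOn_sup _ (Iv.finsetSup h3), ← Finset.sup_union, Finset.union_comm,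
    Finset.filter_union_filter_not_eq, Finset.sup_univ_eq_iSup, hD', edOn_top]
  · exact disjoint_finsetSup hD (Finset.disjoint_filter_filter_not Finset.univ Finset.univ fun j => σ j = j).symm
  · refine iv_iff.1 ?_
    rw [Finset.sup_eq_iSup, Submodule.map_iSup]
    refine iSup_le fun j => ?_
    rw [Submodule.map_iSup]
    exact iSup_le fun hj => (h j).le.trans (le_iSup₂_of_le (σ j) (by simpa using hj) le_rfl)

end Perm

/-- `a` permutes the summands of a decomposition into `d`-dimensional subspaces -/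
def PD (a : End F V) (d : ℕ) (ι : Type*) : Prop := ∃ D : ι → Submodule F V, (∀ i, finrank F (D i) = d) ∧ iSupIndep D ∧
  iSup D = ⊤ ∧ ∃ σ : Equiv.Perm ι, ∀ j, (D j).map a = D (σ j)

omit [FiniteDimensional F V] in
theorem PD.smul {a : End F V} {d : ℕ} {ι : Type*} (h : PD a d ι) {w : F} (hw : w ≠ 0) : PD (w • a) d ι := by
  simpa only [PD, map_smul_eq hw] using h

omit [FiniteDimensional F V] in
theorem PD.of_equiv {a : End F V} {d : ℕ} {ι κ : Type*} (h : PD a d ι) (e : κ ≃ ι) : PD a d κ :=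
  let ⟨D, h1, h2, h3, σ, h4⟩ := h
  ⟨D ∘ e, fun _ => h1 _, h2.comp e.injective, (e.iSup_comp (g := D)).trans h3, e.symm.permCongr σ, fun j => by simp [h4]⟩

theorem pd_of_ed {a : End F V} (ha : Function.Injective a) {s d k l : ℕ} {z : F} (ν : Fin l → Multiset (PP F))
    (hν : ∀ j, tdg (ν j) = d) (h : ed a = (k * d) • frE s z + ∑ j, ν j) {ι : Type*} [Fintype ι]
    (hι : k * (s + 1) + l = Fintype.card ι) : PD a d ι := by
  refine PD.of_equiv (ι := (Fin k × Fin (s + 1)) ⊕ Fin l) ?_ (Fintype.equivOfCardEq (by simp [hι]))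
  obtain ⟨C, -, h1, h2⟩ := exists_decomp (a := a) (Sum.elim (fun _ : Fin k => d • frE s z) ν) (by
    simp [h, mul_nsmul'])
  have h3 : ∀ i : Fin k, ∃ j : (Fin (s + 1) → Fin d → F) →ₗ[F] V, Function.Injective j ∧ LinearMap.range j = C (.inl i) ∧
      ∀ v, j (sh _ s z v) = a (j v) := fun i => by
    obtain ⟨e, he⟩ : Sim (sh (Fin d → F) s z) (a.restrict (h2 (.inl i)).1) :=
      sim_iff_ed.2 (by rw [← edOn_eq, (h2 _).2, ed_sh]; simp)
    exact ⟨(C _).subtype ∘ₗ e.toLinearMap, (C _).injective_subtype.comp e.injective, by simp [LinearMap.range_comp],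
      fun v => congrArg Subtype.val (he v)⟩
  choose j h3 h4 h5 using h3
  let D : (Fin k × Fin (s + 1)) ⊕ Fin l → Submodule F V :=
    Sum.elim (fun x => LinearMap.range (j x.1 ∘ₗ LinearMap.single F _ x.2)) fun i => C (.inr i)
  have h6 : ∀ i, finrank F (D i) = d := by
    rintro (x | i)
    · exact (LinearMap.finrank_range_of_inj (f := j x.1 ∘ₗ LinearMap.single F _ x.2)
        ((h3 _).comp (Pi.single_injective (M := fun _ => Fin d → F) x.2))).trans (by simp)
    · exact (tdg_edOn (h2 _).1).symm.trans (by rw [(h2 _).2]; exact hν i)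
  have h7 : iSup D = ⊤ := by
    rw [eq_top_iff, ← h1, iSup_le_iff]
    rintro (i | i)
    · rw [← h4, LinearMap.range_eq_map, ← LinearMap.iSup_range_single, Submodule.map_iSup]
      exact iSup_le fun t => le_iSup_of_le (.inl (i, t)) (LinearMap.range_comp _ _).ge
    · exact le_iSup D (.inr i)
  refine ⟨D, h6, iSupIndep_of_finrank h7 ?_, h7, .sumCongr (.prodCongr (.refl _) (finRotate _)) (.refl _), fun x =>
    Submodule.eq_of_le_of_finrank_eq ?_ (by rw [finrank_map_of_inj ha, h6, h6])⟩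
  · simp [h6, ← tdg_ed a, h, tdg_sum, hν, tdg_frE]; ring
  · rcases x with x | i
    · rintro _ ⟨_, ⟨w, rfl⟩, rfl⟩
      exact ⟨_, by rw [LinearMap.comp_apply, LinearMap.comp_apply, ← h5, LinearMap.coe_single, LinearMap.coe_single,
        sh_single]; rfl⟩
    · exact iv_iff.2 (h2 _).1

/-- distributing `B` blocks of size `c` and `e` blocks of size one over `l` boxes of size `d` -/
theorem exists_boxes {N : Multiset (PP F)} {c e d l : ℕ} (hN : ∀ x ∈ N, x.dg = c) (h : N.card * c + e = l * d)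
    (h1 : N.card ≤ l * (d / c)) : ∃ ν : Fin l → Multiset (PP F), (∀ j, tdg (ν j) = d) ∧
      N + .replicate e (H13.upp F 1) = ∑ j, ν j := by
  induction l generalizing N e with
  | zero =>
    obtain rfl : N = 0 := Multiset.card_eq_zero.1 (by omega)
    obtain rfl : e = 0 := by simpa using h
    exact ⟨Fin.elim0, fun j => j.elim0, by simp⟩
  | succ l ih =>
    obtain ⟨M, h2, h3⟩ := exists_le_card (N := N) (min_le_left _ (d / c))
    obtain ⟨N, rfl⟩ := Multiset.le_iff_exists_add.1 h2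
    rw [Multiset.card_add] at h h1 h3
    have h4 : M.card * c ≤ d := (Nat.mul_le_mul_right c (h3 ▸ min_le_right _ _)).trans (Nat.div_mul_le_self d c)
    have h5 : N.card ≤ l * (d / c) := by rw [add_mul l] at h1; omega
    have h6 : N.card * c ≤ l * d := (Nat.mul_le_mul_right c h5).trans (by
      rw [mul_assoc]; exact Nat.mul_le_mul_left l (Nat.div_mul_le_self d c))
    rw [add_mul, add_mul l] at h
    obtain ⟨ν, h7, h8⟩ := ih (N := N) (e := e - (d - M.card * c)) (fun x hx => hN x (Multiset.mem_add.2 (.inr hx)))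
      (by omega) h5
    refine ⟨Fin.cons (M + .replicate (d - M.card * c) (H13.upp F 1)) ν, fun j => ?_, ?_⟩
    · induction j using Fin.cases with
      | zero => simp [tdg_of_const fun x hx => hN x (Multiset.mem_add.2 (.inl hx)), upp_dg, h4]
      | succ j => exact h7 j
    · rw [Fin.sum_univ_succ, Fin.cons_zero]
      simp only [Fin.cons_succ, ← h8]
      rw [add_add_add_comm, ← Multiset.replicate_add, Nat.add_sub_cancel' (by omega)]

omit [FiniteDimensional F V] in
theorem dvd_card_of_dvd_div {t r : ℕ}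
    {P : (Fin t → Submodule F V) → Prop} (hP : ∀ D, P D → Function.Injective D)
    (hσ : ∀ D (σ : Equiv.Perm (Fin t)), P D → P (D ∘ σ)) (h : r ∣ Nat.card {D // P D} / t.factorial) :
    r ∣ Nat.card {D // P D} := by
  let _ : MulAction (Equiv.Perm (Fin t)) {D // P D} :=
    { smul σ D := ⟨D.1 ∘ σ.symm, hσ _ _ D.2⟩
      one_smul _ := rfl
      mul_smul _ _ _ := rfl }
  have : t.factorial ∣ Nat.card {D // P D} := by
    rw [Nat.card_congr (MulAction.selfEquivOrbitsQuotientProd (G := Equiv.Perm (Fin t)) (X := {D // P D}) fun D =>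
      eq_bot_iff.2 fun σ h => inv_eq_one.1 (Equiv.ext fun j => hP _ D.2 (congrFun (congrArg Subtype.val h) j))),
      Nat.card_prod, Nat.card_perm, Nat.card_fin]
    exact dvd_mul_left _ _
  exact h.trans (Nat.div_dvd_of_dvd this)

theorem injective_of_iSupIndep {ι : Type*} {D : ι → Submodule F V} {d : ℕ} (hD : iSupIndep D) (hd : ∀ j, finrank F (D j) = d)
    (h0 : 0 < d) : Function.Injective D := fun i j e =>
  have h1 : ∀ i, D i ≠ ⊥ := fun i e => h0.ne (by rw [← hd i, e, finrank_bot])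
  hD.injOn (h1 i) (h1 j) e

theorem pd_two {a : End F V} (ha : Function.Injective a) {z : F} {x : PP F} (hx : frE 1 z = {x}) {s e d t : ℕ}
    (h : ed a = .replicate s x + .replicate e (H13.upp F 1)) (hd : 0 < d) (hV : finrank F V = d * t) : PD a d (Fin t) := by
  have h1 : x.dg = 2 := by rw [← tdg_singleton, ← hx, tdg_frE]
  have h2 : s * 2 + e = d * t := by simp [← hV, ← tdg_ed a, h, h1, upp_dg]
  have h3 := Nat.div_add_mod s d
  have h4 := Nat.mod_lt s hd
  obtain ⟨l, rfl⟩ : ∃ l, t = s / d * 2 + l := Nat.exists_eq_add_of_le (Nat.le_of_mul_le_mul_left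
    (by rw [← mul_assoc]; omega) hd)
  rw [mul_add, ← mul_assoc] at h2
  obtain ⟨ν, h5, h6⟩ := exists_boxes (N := .replicate (s % d) x) (c := 2) (e := e) (d := d) (l := l)
    (fun y hy => Multiset.eq_of_mem_replicate hy ▸ h1) (by rw [Multiset.card_replicate, mul_comm l]; omega) (by
      rw [Multiset.card_replicate]
      rcases l with _ | _ | l
      · omega
      · omega
      · rw [add_mul, add_mul]; omega)
  refine pd_of_ed ha (k := s / d) (s := 1) (z := z) ν h5 ?_ (by simp)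
  rw [h, ← h6, hx, Multiset.nsmul_singleton, ← add_assoc, ← Multiset.replicate_add, Nat.div_add_mod']

theorem pd_one {a : End F V} (ha : Function.Injective a) (h : ∀ x ∈ ed a, x.dg = 1) {d t : ℕ} (hV : finrank F V = d * t) :
    PD a d (Fin t) := by
  have h1 := tdg_of_const h
  rw [tdg_ed, hV, mul_comm d] at h1
  obtain ⟨ν, h5, h6⟩ := exists_boxes (e := 0) (d := d) (l := t) h (by omega) (by simp; omega)
  exact pd_of_ed ha (k := 0) (s := 0) (z := 0) ν h5 (by simpa using h6) (by simp)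

omit [FiniteDimensional F V] in
theorem pow_char_eq_one_iff {p : ℕ} [Fact p.Prime] [CharP F p] (u : End F V) : u ^ p = 1 ↔ (u - 1) ^ p = 0 := by
  have := H13.sub_one_pow_char (F := F) p u 1
  rw [pow_one] at this
  rw [this, sub_eq_zero]

theorem exists_unip_pow {p : ℕ} [Fact p.Prime] [CharP F p] {μ : Multiset ℕ} (h1 : ∀ k ∈ μ, 0 < k ∧ k ≤ p)
    (h2 : μ.sum = finrank F V) (h3 : ∃ k ∈ μ, 1 < k) : ∃ u : End F V, u ^ p = 1 ∧ u ≠ 1 ∧ ed u = μ.map (H13.upp F) := by
  obtain ⟨k, h3, h4⟩ := h3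
  obtain ⟨u, h5, rfl⟩ := H13.exists_jt (F := F) (V := V) (fun k hk => (h1 k hk).1) h2
  exact ⟨u, (pow_char_eq_one_iff u).2 ((H13.pow_eq_zero_iff_jt h5 p).2 fun k hk => (h1 k hk).2),
    fun e => h4.not_ge ((H13.pow_eq_zero_iff_jt h5 1).1 (by simp [e]) k h3), H13.ed_eq_map h5⟩

theorem ed_of_pow_char {p : ℕ} [Fact p.Prime] [CharP F p] {u : End F V} (h : u ^ p = 1) :
    ∃ μ : Multiset ℕ, (∀ k ∈ μ, 0 < k ∧ k ≤ p) ∧ μ.sum = finrank F V ∧ ed u = μ.map (H13.upp F) :=
  have h5 : IsNilpotent (u - 1) := ⟨p, (pow_char_eq_one_iff u).1 h⟩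
  ⟨_, fun k hk => ⟨H13.jt_pos hk, (H13.pow_eq_zero_iff_jt h5 p).1 ((pow_char_eq_one_iff u).1 h) k hk⟩, H13.sum_jt h5,
    H13.ed_eq_map h5⟩

theorem frE_char {s : ℕ} [Fact (s + 1).Prime] [CharP F (s + 1)] : frE s (1 : F) = {H13.upp F (s + 1)} :=
  frE_eq (by simp [H13.upp, PP.poly, sub_pow_char])

theorem eq_replicate_one {μ : Multiset ℕ} (h : ∀ k ∈ μ, 0 < k) (h1 : ¬ ∃ k ∈ μ, 1 < k) : μ = .replicate μ.sum 1 := by
  have h6 : μ = .replicate μ.card 1 := Multiset.eq_replicate_card.2 fun k hk => by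
    have := h k hk; have := mt (fun h => ⟨k, hk, h⟩) h1; omega
  rw [h6]; simp

theorem upp_inj {k l : ℕ} (hk : 0 < k) (hl : 0 < l) (h : H13.upp F k = H13.upp F l) : k = l := by
  rw [← upp_dg (F := F) hk, h, upp_dg hl]

theorem count_map_upp {μ : Multiset ℕ} (h : ∀ k ∈ μ, 0 < k) {k : ℕ} (hk : 0 < k) :
    (μ.map (H13.upp F)).count (H13.upp F k) = μ.count k := by
  rw [Multiset.count_map, Multiset.count_eq_card_filter_eq]
  exact congrArg _ (Multiset.filter_congr fun l hl => ⟨upp_inj hk (h l hl), congrArg _⟩)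

end Cfsg.Agent.H28
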