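import Cfsg.Agent.H28.Elu4
import Cfsg.Agent.H28.Spec5
import Cfsg.Agent.H13.Wall4

/-! Multisets stable under an injective map. -/

set_option autoImplicit false

namespace Cfsg.Agent.H28

open Function

section Orb
variable {k : Type*} {ψ φ : k → k} {M N : Multiset k} {c : ℕ}

/-- stable multisets -/
def St (ψ : k → k) (M : Multiset k) : Prop := M.map ψ = M

theorem st_zero (ψ : k → k) : St ψ 0 := rfl

theorem St.add (h : St ψ M) (h' : St ψ N) : St ψ (M + N) := by rw [St, Multiset.map_add, h, h']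

theorem St.of_add (h : St ψ (M + N)) (h' : St ψ M) : St ψ N := by
  rw [St, Multiset.map_add, h'] at h
  exact add_left_cancel h

theorem St.nsmul (h : St ψ M) (e : ℕ) : St ψ (e • M) := by rw [St, Multiset.map_nsmul, h]

theorem St.comp (h : St ψ M) (h' : St φ M) : St (ψ ∘ φ) M := by rw [St, ← Multiset.map_map, h', h]

theorem st_of_fix (h : ∀ x ∈ M, ψ x = x) : St ψ M := (Multiset.map_congr rfl h).trans (Multiset.map_id _)

theorem st_replicate {x : k} (h : ψ x = x) (e : ℕ) : St ψ (.replicate e x) :=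
  st_of_fix fun _ hy => Multiset.eq_of_mem_replicate hy ▸ h

theorem St.filter (h : St ψ M) (P : k → Prop) [DecidablePred P] (hP : ∀ x, P (ψ x) ↔ P x) : St ψ (M.filter P) := by
  rw [St]
  conv_rhs => rw [← h, Multiset.filter_map]
  exact congrArg _ (Multiset.filter_congr fun x _ => (hP x).symm)

theorem St.mem (h : St ψ M) {x : k} (hx : x ∈ M) : ψ x ∈ M := h ▸ Multiset.mem_map_of_mem _ hx

variable [DecidableEq k] (hψ : Injective ψ)
include hψ

theorem st_orb {α : k} (h : 0 < minimalPeriod ψ α) : St ψ (orb ψ α).val :=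
  map_val_eq hψ fun x hx => by
    obtain ⟨j, rfl⟩ := (mem_orb h).1 hx
    exact (mem_orb h).2 ⟨j + 1, iterate_succ_apply' _ _ _⟩

theorem St.orb_le (h : St ψ N) {α : k} {e : ℕ} (he : e ≤ N.count α) : e • (orb ψ α).val ≤ N :=
  Multiset.le_iff_count.2 fun x => by
    rw [Multiset.count_nsmul]
    by_cases hx : x ∈ orb ψ α
    · rwa [Multiset.count_eq_one_of_mem (Finset.nodup _) hx, count_of_mem_orb hψ h hx, mul_one]
    · rw [Multiset.count_eq_zero_of_notMem (s := (orb ψ α).val) hx]; exact zero_le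

theorem St.exists_orb (h : St ψ N) {α : k} {e : ℕ} (h0 : 0 < e) (he : e ≤ N.count α) :
    ∃ N', N = e • (orb ψ α).val + N' ∧ St ψ N' ∧ St ψ (orb ψ α).val ∧ N'.card < N.card := by
  obtain ⟨N', h1⟩ := Multiset.le_iff_exists_add.1 (h.orb_le hψ he)
  have h2 := minimalPeriod_pos hψ h (Multiset.count_pos.1 (h0.trans_le he))
  refine ⟨N', h1, St.of_add (h1 ▸ h) ((st_orb hψ h2).nsmul e), st_orb hψ h2, ?_⟩
  rw [h1, Multiset.card_add, Multiset.card_nsmul, Finset.card_val, card_orb]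
  exact Nat.lt_add_of_pos_left (Nat.mul_pos h0 h2)

theorem St.induction (h : St ψ N) {P : Multiset k → Prop} (h0 : P 0)
    (h1 : ∀ α ∈ N, ∀ N' ≤ N, St ψ N' → St ψ (orb ψ α).val → P N' → P ((orb ψ α).val + N')) : P N := by
  induction N using Multiset.strongInductionOn with
  | _ N ih =>
    rcases N.empty_or_exists_mem with rfl | ⟨α, hα⟩
    · exact h0
    obtain ⟨N', h2, h3, h4, h5⟩ := h.exists_orb hψ one_pos (Multiset.one_le_count_iff_mem.2 hα)
    rw [one_nsmul] at h2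
    have h6 : N' ≤ N := h2 ▸ le_add_self
    exact h2 ▸ h1 α hα N' h6 h3 h4 (ih N' (lt_of_le_of_ne h6 (by rintro rfl; exact h5.false)) h3
      fun β hβ M hM => h1 β (Multiset.mem_of_le h6 hβ) M (hM.trans h6))

theorem St.dvd_card (h : St ψ N) (hc : ∀ x ∈ N, minimalPeriod ψ x = c) : c ∣ N.card :=
  h.induction hψ (P := fun M => c ∣ M.card) (dvd_zero c) fun α hα N' _ _ _ h => by
    rwa [Multiset.card_add, Finset.card_val, card_orb, hc α hα, Nat.dvd_add_right dvd_rfl]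

theorem St.exists_sub (h : St ψ N) (hc : ∀ x ∈ N, minimalPeriod ψ x = c) {j : ℕ} (hj : j * c ≤ N.card) :
    ∃ M M', N = M + M' ∧ St ψ M ∧ St ψ M' ∧ M.card = j * c := by
  induction j with
  | zero => exact ⟨0, N, by simp, rfl, h, by simp⟩
  | succ j ih =>
    obtain ⟨M, M', rfl, h1, h2, h3⟩ := ih (le_trans (by simp [add_mul]) hj)
    rcases M'.empty_or_exists_mem with rfl | ⟨α, hα⟩
    · exact ⟨M, 0, rfl, h1, h2, le_antisymm (by simp [h3, add_mul]) (by simpa using hj)⟩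
    obtain ⟨N', rfl, h4, h5, -⟩ := h2.exists_orb hψ one_pos (Multiset.one_le_count_iff_mem.2 hα)
    refine ⟨M + _, N', (add_assoc _ _ _).symm, h1.add (h5.nsmul 1), h4, ?_⟩
    rw [one_nsmul, Multiset.card_add, h3, Finset.card_val, card_orb, hc α (Multiset.mem_add.2 (.inr hα)), add_mul, one_mul]

theorem St.exists_pair (h : St ψ N) : ∃ M N', N = M + M + N' ∧ St ψ M ∧ St ψ N' ∧ N'.Nodup := by
  induction N using Multiset.strongInductionOn with
  | _ N ih =>
    by_cases h1 : N.Nodup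
    · exact ⟨0, N, by simp, rfl, h, h1⟩
    obtain ⟨α, hα⟩ : ∃ α, 1 < N.count α := by simpa [Multiset.nodup_iff_count_le_one] using h1
    obtain ⟨N', h2, h3, h4, h5⟩ := h.exists_orb hψ two_pos hα
    obtain ⟨M, N₁, rfl, h6, h7, h8⟩ := ih N' (lt_of_le_of_ne (h2 ▸ le_add_self) (by rintro rfl; exact h5.false)) h3
    exact ⟨_ + M, N₁, by rw [h2]; abel, h4.add h6, h7, h8⟩

theorem St.exists_half (h : St ψ N) (hc : ∀ x ∈ N, Even (minimalPeriod ψ x)) :
    ∃ M, N = M + M.map ψ ∧ St (ψ ∘ ψ) M := by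
  refine h.induction hψ (P := fun N => ∃ M, N = M + M.map ψ ∧ St (ψ ∘ ψ) M) ⟨0, rfl, rfl⟩ ?_
  rintro α hα _ - - - ⟨M, rfl, h1⟩
  have h2 := minimalPeriod_pos hψ h hα
  have h3 : minimalPeriod (ψ ∘ ψ) α = minimalPeriod ψ α / 2 := by
    have := minimalPeriod_iterate_eq_div_gcd' (f := ψ) (n := 2) (minimalPeriod_pos_iff_mem_periodicPts.1 h2)
    rwa [Nat.gcd_eq_right (hc α hα).two_dvd] at this
  obtain ⟨b, hb⟩ := hc α hα
  have h4 : 0 < minimalPeriod (ψ ∘ ψ) α := by omega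
  have h5 : ∀ j, (ψ ∘ ψ)^[j] α = ψ^[2 * j] α := fun j => by rw [iterate_mul]; rfl
  refine ⟨(orb (ψ ∘ ψ) α).val + M, ?_, (st_orb (hψ.comp hψ) h4).add h1⟩
  rw [Multiset.map_add, add_add_add_comm]
  congr 1
  refine Multiset.eq_of_le_of_card_le ((Multiset.le_iff_subset (Finset.nodup _)).2 fun x hx => ?_) (by
    simp only [Multiset.card_add, Multiset.card_map, Finset.card_val, card_orb]; omega)
  obtain ⟨j, rfl⟩ := (mem_orb h2).1 hx
  obtain ⟨j, rfl | rfl⟩ := Nat.even_or_odd' j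
  · exact Multiset.mem_add.2 (.inl ((mem_orb h4).2 ⟨j, h5 j⟩))
  · exact Multiset.mem_add.2 (.inr (Multiset.mem_map.2 ⟨_, (mem_orb h4).2 ⟨j, h5 j⟩, (iterate_succ_apply' _ _ _).symm⟩))

end Orb

section Pow
variable {k : Type*} [Field k] {r : ℕ}

/-- primitive roots of prime order -/
def PRt (r : ℕ) (M : Multiset k) : Prop := ∀ x ∈ M, x ^ r = 1 ∧ x ≠ 1

theorem PRt.of_le {M N : Multiset k} (h : PRt r N) (hl : M ≤ N) : PRt r M := fun x hx => h x (Multiset.mem_of_le hl hx)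

theorem PRt.card_le (hr : 0 < r) {M : Multiset k} (h : PRt r M) (hM : M.Nodup) : M.card + 1 ≤ r := by
  have := Multiset.card_le_card ((Multiset.le_iff_subset (s := 1 ::ₘ M) (t := Polynomial.nthRoots r (1 : k))
    (Multiset.nodup_cons.2 ⟨fun h1 => (h 1 h1).2 rfl, hM⟩)).2 fun x hx => (Polynomial.mem_nthRoots hr).2
      ((Multiset.mem_cons.1 hx).elim (fun h => by simp [h]) fun hx => (h x hx).1))
  exact (Multiset.card_cons _ _).symm.le.trans (this.trans (Polynomial.card_nthRoots _ _))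

theorem iterate_zpow (x : k) (z : ℤ) (j : ℕ) : (· ^ z)^[j] x = x ^ z ^ j := by
  induction j with
  | zero => simp
  | succ j ih => rw [iterate_succ_apply', ih, ← zpow_mul, pow_succ]

theorem isPrimitiveRoot_of [Fact r.Prime] {x : k} (h : x ^ r = 1 ∧ x ≠ 1) : IsPrimitiveRoot x r :=
  orderOf_eq_prime h.1 h.2 ▸ IsPrimitiveRoot.orderOf x

theorem zpow_eq_zpow_iff [hr : Fact r.Prime] {x : k} (h : x ^ r = 1 ∧ x ≠ 1) {z w : ℤ} :
    x ^ z = x ^ w ↔ (z : ZMod r) = w := by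
  have h2 := isPrimitiveRoot_of h
  have h0 := h2.ne_zero hr.out.ne_zero
  rw [ZMod.intCast_eq_intCast_iff_dvd_sub, ← h2.zpow_eq_one_iff_dvd, zpow_sub₀ h0, div_eq_one_iff_eq (zpow_ne_zero _ h0), eq_comm]

theorem minimalPeriod_zpow [Fact r.Prime] {x : k} (h : x ^ r = 1 ∧ x ≠ 1) (z : ℤ) :
    minimalPeriod (· ^ z) x = orderOf (z : ZMod r) := by
  have key : ∀ j, minimalPeriod (· ^ z) x ∣ j ↔ orderOf (z : ZMod r) ∣ j := fun j => by
    rw [← isPeriodicPt_iff_minimalPeriod_dvd, orderOf_dvd_iff_pow_eq_one, IsPeriodicPt, IsFixedPt, iterate_zpow]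
    conv_lhs => rw [← zpow_one x, ← zpow_mul, one_mul, zpow_eq_zpow_iff h]
    simp
  exact Nat.dvd_antisymm ((key _).2 dvd_rfl) ((key _).1 dvd_rfl)

theorem exists_all_roots [hr : Fact r.Prime] [IsAlgClosed k] (h0 : (r : k) ≠ 0) : ∃ A : Multiset k, PRt r A ∧ A.Nodup ∧
    A.card + 1 = r ∧ (r ≠ 2 → A.prod = 1) ∧ ∀ z : ℤ, Injective (fun x : k => x ^ z) → St (· ^ z) A := by
  have := NeZero.mk h0
  obtain ⟨ζ, hζ⟩ := HasEnoughRootsOfUnity.exists_primitiveRoot k r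
  have h1 : ∀ x, x ∈ primitiveRoots r k ↔ x ^ r = 1 ∧ x ≠ 1 := fun x => by
    rw [mem_primitiveRoots hr.out.pos]
    exact ⟨fun h => ⟨h.1, h.ne_one hr.out.one_lt⟩, isPrimitiveRoot_of⟩
  refine ⟨(primitiveRoots r k).val, fun x hx => (h1 x).1 hx, Finset.nodup _, ?_, fun h2 => ?_, fun z hz => map_val_eq hz
    fun x hx => (h1 _).2 ⟨?_, fun e => ((h1 x).1 hx).2 (hz (by simpa using e))⟩⟩
  · rw [Finset.card_val, hζ.card_primitiveRoots, Nat.totient_prime hr.out, Nat.sub_add_cancel hr.out.pos]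
  · rw [Finset.prod_val]
    refine Finset.prod_involution (fun x _ => x⁻¹) (fun x hx => mul_inv_cancel₀
      ((isPrimitiveRoot_of ((h1 x).1 hx)).ne_zero hr.out.ne_zero)) (fun x hx _ e => h2 ?_)
      (fun x hx => (h1 _).2 (by simpa using (h1 x).1 hx)) fun x _ => inv_inv x
    have h3 := isPrimitiveRoot_of ((h1 x).1 hx)
    refine (Nat.prime_dvd_prime_iff_eq hr.out Nat.prime_two).1 (h3.dvd_of_pow_eq_one 2 ?_)
    rw [sq]; nth_rw 1 [← e]; exact inv_mul_cancel₀ (h3.ne_zero hr.out.ne_zero)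
  · rw [← zpow_natCast, ← zpow_mul, mul_comm, zpow_mul, zpow_natCast, ((h1 x).1 hx).1, one_zpow]

end Pow

end Cfsg.Agent.H28
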