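import Cfsg.Agent.H28.Elu6

/-! Isometries of odd prime order of symplectic and unitary spaces. -/

set_option autoImplicit false

namespace Cfsg.Agent.H28

open Polynomial Module H12 H13

variable {F V : Type*} [Field F] [AddCommGroup V] [Module F V] {σ : F →+* F}
  {B : V →ₛₗ[σ] V →ₗ[F] F} {a : End F V} {U U' : Submodule F V} [FiniteDimensional F V] [Fintype F]

local notation "K" => AlgebraicClosure F
local notation "ι" => algebraMap F (AlgebraicClosure F)

theorem le_add_rep {k : Type*} [Field k] {r e : ℕ} {M N : Multiset k} (hN : PRt r N) (h : M ≤ N + .replicate e 1) :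
    ∃ M' l, M = M' + .replicate l 1 ∧ M' ≤ N ∧ l ≤ e ∧ ∀ ψ : k → k, (∀ x, ψ x = 1 ↔ x = 1) → St ψ M → St ψ M' := by
  classical
  refine ⟨M.filter (¬ 1 = ·), M.count 1, by rw [← Multiset.filter_eq, add_comm, Multiset.filter_add_not], ?_, ?_,
    fun ψ h1 h2 => h2.filter _ fun x => by simp [eq_comm, h1]⟩
  · simpa [Multiset.filter_eq_self.2 fun x hx => (hN x hx).2.symm,
      Multiset.filter_eq_nil.2 fun x (hx : x ∈ Multiset.replicate e (1 : k)) => not_not.2 (Multiset.eq_of_mem_replicate hx).symm]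
      using Multiset.filter_le_filter (¬ 1 = ·) h
  · simpa [Multiset.count_eq_zero.2 fun h => (hN 1 h).2 rfl] using Multiset.count_le_of_le 1 h

/-- has an invariant non-degenerate subspace -/
def HasND (B : V →ₛₗ[σ] V →ₗ[F] F) (a : End F V) (m : ℕ) : Prop :=
  ∃ U : Submodule F V, finrank F U = m ∧ NDs B U ∧ Iv a U

/-- has an invariant totally isotropic subspace -/
def HasTI (B : V →ₛₗ[σ] V →ₗ[F] F) (a : End F V) (m : ℕ) : Prop :=
  ∃ U : Submodule F V, finrank F U = m ∧ TIs B U ∧ Iv a U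

theorem inv_map_eq_one {k : Type*} [Field k] (ρ : k →+* k) (x : k) : (ρ x)⁻¹ = 1 ↔ x = 1 := by
  rw [inv_eq_one, map_eq_one_iff _ ρ.injective]

variable (σ) in
/-- the power map `x ↦ x ^ z` generates the symmetries of eigenvalues of order `r` -/
structure Per (ρ : K →+* K) (r : ℕ) (z : ℤ) (c : ℕ) : Prop where
  ext : ∀ c, ρ (ι c) = ι (σ c)
  ne : (r : F) ≠ 0
  odd : r ≠ 2
  ord : orderOf (z : ZMod r) = c
  inj : Function.Injective fun x : K => x ^ z
  iff : ∀ M : Multiset K, PRt r M → (St (· ^ z) M ↔ St (· ^ Fintype.card F) M ∧ St (fun x => (ρ x)⁻¹) M)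
  even : σ = RingHom.id F → Even c

variable {ρ : AlgebraicClosure F →+* AlgebraicClosure F} {r c : ℕ} {z : ℤ} [hr : Fact r.Prime]
  {N : Multiset (AlgebraicClosure F)} {e m : ℕ}

theorem pow_card_inj : Function.Injective fun x : K => x ^ Fintype.card F := (FiniteField.frobeniusAlgHom F K).injective

theorem pow_card_eq_one (x : K) : x ^ Fintype.card F = 1 ↔ x = 1 :=
  ⟨fun h => pow_card_inj (by simpa using h), fun h => by simp [h]⟩

theorem per_card (h : PRt r N) : ∀ x ∈ N, Function.minimalPeriod (· ^ Fintype.card F) x = orderOf (Fintype.card F : ZMod r) :=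
  fun x hx => by simpa using minimalPeriod_zpow (h x hx) (Fintype.card F)

namespace Per
variable (P : Per σ ρ r z c)
include P

theorem per (h : PRt r N) : ∀ x ∈ N, Function.minimalPeriod (· ^ z) x = c := fun x hx =>
  P.ord ▸ minimalPeriod_zpow (h x hx) z

theorem dvd (h : PRt r N) (h' : St (· ^ z) N) : c ∣ N.card := by classical exact h'.dvd_card P.inj (P.per h)

theorem sub (h : PRt r N) (h' : St (· ^ z) N) {j : ℕ} (hj : j * c ≤ N.card) :
    ∃ M M', N = M + M' ∧ St (· ^ z) M ∧ St (· ^ z) M' ∧ M.card = j * c := by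
  classical exact h'.exists_sub P.inj (P.per h) hj

theorem exists_all : ∃ A : Multiset K, PRt r A ∧ A.Nodup ∧ A.card + 1 = r ∧ A.prod = 1 ∧ St (· ^ z) A :=
  let ⟨A, h1, h2, h3, h4, h5⟩ := exists_all_roots (k := K) (r := r) (by simpa using (map_ne_zero ι).2 P.ne)
  ⟨A, h1, h2, h3, h4 P.odd, h5 z P.inj⟩

theorem pos : 0 < c := by
  obtain ⟨A, h1, -, h2, -, h3⟩ := P.exists_all
  have := hr.out.two_le
  exact Nat.pos_of_dvd_of_pos (P.dvd h1 h3) (by omega)

theorem exists_nodup {j : ℕ} (hj : j ≤ (r - 1) / c) :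
    ∃ A : Multiset K, PRt r A ∧ A.Nodup ∧ A.card = j * c ∧ St (· ^ z) A ∧ (j * c + 1 = r → A.prod = 1) := by
  obtain ⟨A, h1, h2, h3, h4, h5⟩ := P.exists_all
  obtain ⟨M, M', rfl, h6, -, h7⟩ := P.sub h1 h5 (j := j) (by have := (Nat.le_div_iff_mul_le P.pos).1 hj; omega)
  refine ⟨M, h1.of_le le_self_add, Multiset.nodup_of_le le_self_add h2, h7, h6, fun h => ?_⟩
  obtain rfl : M' = 0 := Multiset.card_eq_zero.1 (by rw [Multiset.card_add] at h3; omega)
  simpa using h4

theorem one_le : 1 ≤ (r - 1) / c := by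
  obtain ⟨A, h1, -, h2, -, h3⟩ := P.exists_all
  have := hr.out.two_le
  have := Nat.le_of_dvd (by omega) (P.dvd h1 h3)
  exact (Nat.le_div_iff_mul_le P.pos).2 (by omega)

theorem rs (hσ : ∀ a, σ (σ a) = a) (h : PRt r N) (h' : St (· ^ z) N) (he : σ = RingHom.id F → Even (N.card + e)) :
    RS σ (N + .replicate e 1) := by
  refine (rs_of_st hσ ρ P.ext ((P.iff N h).1 h').1 ((P.iff N h).1 h').2 P.ne (fun x hx => (h x hx).1) (.inr fun x hx e =>
    P.odd ((Nat.prime_dvd_prime_iff_eq hr.out Nat.prime_two).1 ((isPrimitiveRoot_of (h x hx)).dvd_of_pow_eq_one 2 e)))).add ?_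
  simpa using rs_replicate hσ (c := 1) (by simp) fun h1 =>
    (Nat.even_add.1 (he h1)).1 ((P.even h1).trans_dvd (P.dvd h h'))

theorem split (D : SD B) (ha : Pres B a) (h : a ^ r = 1) :
    ∃ N e, rts a = N + .replicate e 1 ∧ PRt r N ∧ St (· ^ z) N ∧ N.card + e = finrank F V ∧ (a ≠ 1 → 0 < N.card) := by
  classical
  have h1 : PRt r (nr a) := fun x hx =>
    ⟨pow_eq_one_of_mem_rts h (Multiset.mem_filter.1 hx).1, (Multiset.mem_filter.1 hx).2⟩
  obtain ⟨h2, h3, -⟩ := (RS.of D ha ⟨r, P.ne, h⟩).st ρ P.ext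
  refine ⟨nr a, _, rts_eq_nr a, h1, (P.iff _ h1).2 ⟨h2.filter _ fun x => by simp [pow_card_eq_one],
    h3.filter _ fun x => (inv_map_eq_one ρ x).not⟩, Nat.add_sub_cancel' (card_nr_le a), fun h4 => Nat.pos_of_ne_zero fun h5 => h4 ?_⟩
  simpa using SS.pow_eq ⟨r, P.ne, h⟩ (r := 1) (z := 1) fun x hx => by
    rw [rts_eq_nr, Multiset.card_eq_zero.1 h5, zero_add] at hx
    simp [Multiset.eq_of_mem_replicate hx]

theorem exists_end (D : SD B) (h : PRt r N) (h' : St (· ^ z) N) (he : N.card + e = finrank F V) :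
    ∃ a, Pres B a ∧ a ^ r = 1 ∧ rts a = N + .replicate e 1 ∧ (0 < N.card → a ≠ 1) := by
  obtain ⟨a, h1, h2, h3⟩ := (P.rs D.invol h h' (e := e) (by rintro rfl; exact he ▸ D.even_finrank)).exists D (by simpa)
  refine ⟨a, h1, (h2.pow_eq (r := r) (z := 1) fun x hx => ?_).trans (one_smul _ _), h3, fun h4 h5 => ?_⟩
  · rw [h3, Multiset.mem_add] at hx
    exact hx.elim (fun hx => (h x hx).1.trans (map_one _).symm) fun hx => by simp [Multiset.eq_of_mem_replicate hx]
  · obtain ⟨x, hx⟩ := Multiset.card_pos_iff_exists_mem.1 h4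
    exact (h x hx).2 (by simpa using pow_eq_one_of_mem_rts (k := 1) (by simp [h5]) (h3 ▸ Multiset.mem_add.2 (.inl hx)))

theorem of_nds (D : SD B) (ha : Pres B a) (h : a ^ r = 1) (hN : PRt r N) (hU : Iv a U) (hU' : NDs B U)
    (h1 : rto a U ≤ N + .replicate e 1) :
    ∃ M l, rto a U = M + .replicate l 1 ∧ M ≤ N ∧ l ≤ e ∧ c ∣ M.card ∧ M.card + l = finrank F U := by
  obtain ⟨M, l, h2, h3, h4, h5⟩ := le_add_rep hN h1
  obtain ⟨h6, h7, -⟩ := (rs_rto D ha ⟨r, P.ne, h⟩ hU hU').st ρ P.ext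
  exact ⟨M, l, h2, h3, h4, P.dvd (hN.of_le h3) ((P.iff _ (hN.of_le h3)).2 ⟨h5 _ pow_card_eq_one h6,
    h5 _ (inv_map_eq_one ρ) h7⟩), by simp [← card_rto hU, h2]⟩

theorem nd_iff (D : SD B) (hm : σ = RingHom.id F → Even m) (h1 : m ≤ finrank F V) (h2 : finrank F V % c < m) :
    (∀ a, Pres B a → a ^ r = 1 → a ≠ 1 → HasND B a m) ↔
      c ≤ m ∧ m % c ≤ finrank F V % c := by
  have h0 := P.pos
  have h3 := Nat.div_add_mod' (finrank F V) c
  have h4 := Nat.div_add_mod' m c
  constructor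
  · intro H
    obtain ⟨A, h5, -, h6, h7, -⟩ := P.exists_nodup P.one_le
    have h8 : PRt r ((finrank F V / c) • A) := fun x hx => h5 x (Multiset.mem_of_mem_nsmul hx)
    obtain ⟨a, h9, h10, h11, h12⟩ := P.exists_end D h8 (h7.nsmul _) (e := finrank F V % c) (by simpa [h6])
    obtain ⟨U, rfl, h13, h14⟩ := H a h9 h10 (h12 (by simp only [Multiset.card_nsmul, h6, one_mul]; omega))
    obtain ⟨M, l, -, -, h15, ⟨k, h16⟩, h17⟩ := P.of_nds D h9 h10 h8 h14 h13 (by
      rw [← h11, rts_eq_add h14 (h14.sperp D h9) (D.isCompl h13)]; exact le_self_add)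
    have h18 : finrank F U % c ≤ finrank F V % c := by
      rw [← h17, h16, Nat.mul_add_mod]; exact (Nat.mod_le _ _).trans h15
    exact ⟨by_contra fun h => by rw [Nat.mod_eq_of_lt (not_le.1 h)] at h18; omega, h18⟩
  · rintro ⟨-, H⟩ a ha h -
    obtain ⟨N, e, h5, h6, h7, h8, -⟩ := P.split D ha h
    obtain ⟨s, hs⟩ := P.dvd h6 h7
    have h9 : finrank F V % c ≤ e := by rw [← h8, hs, Nat.mul_add_mod]; exact Nat.mod_le _ _
    obtain ⟨k, l, h10, h11, h12⟩ : ∃ k l, k * c + l = m ∧ k * c ≤ N.card ∧ l ≤ e := by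
      rcases le_total (m / c) s with h | h
      · exact ⟨_, _, h4, by rw [hs, mul_comm c]; exact Nat.mul_le_mul_right c h, by omega⟩
      · have := Nat.mul_le_mul_right c h
        exact ⟨s, m - s * c, by omega, by rw [hs, mul_comm], by rw [mul_comm] at hs; omega⟩
    obtain ⟨M, M', rfl, h13, h14, h15⟩ := P.sub h6 h7 h11
    obtain ⟨l', rfl⟩ := Nat.exists_eq_add_of_le h12
    obtain ⟨U, h16, h17, h18, -⟩ := exists_nds D ha ⟨r, P.ne, h⟩ (P.rs D.invol (h6.of_le le_self_add) h13 (e := l)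
      (by rwa [h15, h10])) (P.rs D.invol (h6.of_le le_add_self) h14 (e := l') (by
        rintro rfl
        have := D.even_finrank
        rw [← h8, Multiset.card_add, h15, add_add_add_comm, h10] at this
        exact (Nat.even_add.1 this).1 (hm rfl))) (by rw [h5, Multiset.replicate_add, add_add_add_comm])
    exact ⟨U, by simp [← card_rto h16, h18, h15, h10], h17, h16⟩

theorem of_tis (D : SD B) (ha : Pres B a) (h : a ^ r = 1) (hN : PRt r N) (h1 : rts a = N + .replicate e 1) (hU : Iv a U)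
    (hU' : TIs B U) : ∃ M l, PRt r M ∧ St (· ^ Fintype.card F) M ∧ M + M.map (fun x => (ρ x)⁻¹) ≤ N ∧ 2 * l ≤ e ∧
      M.card + l = finrank F U := by
  have h2 := rto_add_le D ha ⟨r, P.ne, h⟩ ρ P.ext hU hU'
  rw [h1] at h2
  obtain ⟨M, l, h3, h4, -, h5⟩ := le_add_rep hN (le_self_add.trans h2)
  have h6 := hN.of_le h4
  rw [h3, Multiset.map_add, Multiset.map_replicate, map_one, inv_one, add_add_add_comm, ← Multiset.replicate_add] at h2
  obtain ⟨M', l', h7, h8, h9, -⟩ := le_add_rep hN h2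
  classical
  have h10 : (1 : K) ∉ M + M.map (fun x => (ρ x)⁻¹) := fun hx => (Multiset.mem_add.1 hx).elim
    (fun hx => (h6 1 hx).2 rfl) fun hx => by
      obtain ⟨x, hx, e⟩ := Multiset.mem_map.1 hx
      exact (h6 x hx).2 ((inv_map_eq_one ρ x).1 e)
  have h11 := congrArg (Multiset.count 1) h7
  rw [Multiset.count_add, Multiset.count_add (s := M'), Multiset.count_eq_zero.2 h10,
    Multiset.count_eq_zero.2 fun h => (hN.of_le h8 1 h).2 rfl, Multiset.count_replicate_self,
    Multiset.count_replicate_self] at h11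
  obtain rfl : l' = l + l := by omega
  exact ⟨M, l, h6, h5 _ pow_card_eq_one (st_rto hU), add_right_cancel h7 ▸ h8, by omega,
    by simp [← card_rto hU, h3]⟩

theorem exists_tis' (D : SD B) (ha : Pres B a) (h : a ^ r = 1) {M N' : Multiset K} {l : ℕ}
    (hN : PRt r N') (h1 : rts a = M + M.map (fun x => (ρ x)⁻¹) + N' + .replicate e 1) (h2 : St (· ^ Fintype.card F) M)
    (h3 : St (· ^ z) N') (hl : 2 * l ≤ e) : HasTI B a (M.card + l) := by
  obtain ⟨l', rfl⟩ := Nat.exists_eq_add_of_le hl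
  obtain ⟨U, -, h4, -, h5, -, -, h6, -⟩ := exists_tis D ha ⟨r, P.ne, h⟩ ρ P.ext (M := M + .replicate l 1)
    (h2.add (st_replicate (by simp) l)) (P.rs D.invol hN h3 (e := l') (by
      rintro rfl
      have := D.even_finrank
      simp only [← card_rts a, h1, Multiset.card_add, Multiset.card_map, Multiset.card_replicate] at this
      rw [Nat.even_iff] at *; omega)) (by simp only [h1, two_mul, Multiset.replicate_add, Multiset.map_add,
        Multiset.map_replicate, map_one, inv_one]; abel)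
  exact ⟨U, by simpa using h6, h5, h4⟩

theorem ti_split (D : SD B) {b : ℕ} (hb : orderOf (Fintype.card F : ZMod r) = b) (hc : c = 2 * b)
    (e1 : ∀ M : Multiset K, PRt r M → St ((· ^ z) ∘ (· ^ z)) M → St (· ^ Fintype.card F) M)
    (e2 : ∀ M : Multiset K, St (· ^ Fintype.card F) M → M.map (fun x => (ρ x)⁻¹) = M.map (· ^ z))
    (h1 : 2 * m ≤ finrank F V) (h2 : finrank F V % c < 2 * m) :
    (∀ a, Pres B a → a ^ r = 1 → a ≠ 1 → HasTI B a m) ↔
      b ≤ m ∧ 2 * (m % b) ≤ finrank F V % c := by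
  classical
  have h0 := P.pos
  have h3 := Nat.div_add_mod' (finrank F V) c
  have h4 := Nat.div_add_mod' m b
  constructor
  · intro H
    obtain ⟨A, h5, -, h6, h7, -⟩ := P.exists_nodup P.one_le
    have h8 : PRt r ((finrank F V / c) • A) := fun x hx => h5 x (Multiset.mem_of_mem_nsmul hx)
    obtain ⟨a, h9, h10, h11, h12⟩ := P.exists_end D h8 (h7.nsmul _) (e := finrank F V % c) (by simpa [h6])
    obtain ⟨U, rfl, h13, h14⟩ := H a h9 h10 (h12 (by simp only [Multiset.card_nsmul, h6, one_mul]; omega))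
    obtain ⟨M, l, h15, h16, -, h17, h18⟩ := P.of_tis D h9 h10 h8 h11 h14 h13
    obtain ⟨k, hk⟩ := h16.dvd_card pow_card_inj (per_card h15)
    have h19 : finrank F U % b ≤ l := by rw [← h18, hk, hb, Nat.mul_add_mod]; exact Nat.mod_le _ _
    exact ⟨by_contra fun h => by rw [Nat.mod_eq_of_lt (not_le.1 h)] at h19; omega, by omega⟩
  · rintro ⟨-, H⟩ a ha h -
    obtain ⟨N, e, h5, h6, h7, h8, -⟩ := P.split D ha h
    obtain ⟨s, hs⟩ := P.dvd h6 h7
    have h9 : finrank F V % c ≤ e := by rw [← h8, hs, Nat.mul_add_mod]; exact Nat.mod_le _ _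
    obtain ⟨k, l, h10, h11, h12⟩ : ∃ k l, k * b + l = m ∧ k * c ≤ N.card ∧ 2 * l ≤ e := by
      rcases le_total (m / b) s with h | h
      · exact ⟨_, _, h4, by rw [hs, mul_comm c]; exact Nat.mul_le_mul_right c h, by omega⟩
      · have := Nat.mul_le_mul_right b h
        exact ⟨s, m - s * b, by omega, by rw [hs, mul_comm], by rw [hc, mul_assoc, mul_comm b] at hs; omega⟩
    obtain ⟨M, M', rfl, h13, h14, h15⟩ := P.sub h6 h7 h11
    obtain ⟨M, rfl, h16⟩ := h13.exists_half P.inj fun x hx => by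
      rw [P.per (h6.of_le le_self_add) x hx, hc]; exact even_two_mul b
    have h17 := e1 M (h6.of_le (le_self_add.trans le_self_add)) h16
    obtain ⟨U, h18, h19⟩ := P.exists_tis' D ha h (h6.of_le le_add_self) (by rw [h5, e2 M h17]) h17 h14 h12
    exact ⟨U, by rw [Multiset.card_add, Multiset.card_map, hc, mul_left_comm] at h15; omega, h19⟩

theorem ti_self_of (D : SD B) (e1 : ∀ M : Multiset K, PRt r M → St (· ^ Fintype.card F) M → St (· ^ z) M)
    (h1 : 2 * (m % c) ≤ finrank F V % c) (h2 : (r - 1) / c + 2 * (m / c) ≤ finrank F V / c) (ha : Pres B a) (h : a ^ r = 1) :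
    HasTI B a m := by
  classical
  have h3 := Nat.div_add_mod' (finrank F V) c
  have h4 := Nat.div_add_mod' m c
  obtain ⟨N, e, h5, h6, h7, h8, -⟩ := P.split D ha h
  obtain ⟨s, hs⟩ := P.dvd h6 h7
  have h9 : finrank F V % c ≤ e := by rw [← h8, hs, Nat.mul_add_mod]; exact Nat.mod_le _ _
  obtain ⟨M, N', rfl, h10, h11, h12⟩ := h7.exists_pair P.inj
  have h13 := h6.of_le (le_self_add.trans le_self_add)
  have h14 := h6.of_le le_add_self
  obtain ⟨j, hj⟩ := P.dvd h13 h10
  obtain ⟨k, l, h15, h16, h17⟩ : ∃ k l, k * c + l = m ∧ k * c ≤ M.card ∧ 2 * l ≤ e := by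
    rcases le_total (m / c) j with h | h
    · exact ⟨_, _, h4, by rw [hj, mul_comm c]; exact Nat.mul_le_mul_right c h, by omega⟩
    · have := Nat.mul_le_mul_right c h
      obtain ⟨t, ht⟩ := P.dvd h14 h11
      have := h14.card_le hr.out.pos h12
      have : t ≤ (r - 1) / c := (Nat.le_div_iff_mul_le P.pos).2 (by rw [mul_comm]; omega)
      have := Nat.mul_le_mul_right c ((Nat.add_le_add_right this _).trans h2)
      simp only [Multiset.card_add, add_mul, mul_assoc, mul_comm c] at *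
      exact ⟨j, m - j * c, by omega, by omega, by omega⟩
  obtain ⟨M, M', rfl, h18, h19, h20⟩ := P.sub h13 h10 h16
  obtain ⟨h21, h22⟩ := (P.iff M (h13.of_le le_self_add)).1 h18
  obtain ⟨U, h23, h24⟩ := P.exists_tis' D ha h (M := M) (N' := M' + M' + N') (h6.of_le (by gcongr <;> exact le_add_self))
    (by rw [h5, h22]; abel) h21 ((h19.add h19).add h11) h17
  exact ⟨U, by omega, h24⟩

theorem exists_not_ti (D : SD B) (hc : orderOf (Fintype.card F : ZMod r) = c)
    (e1 : ∀ M : Multiset K, PRt r M → St (· ^ Fintype.card F) M → St (· ^ z) M) {t j : ℕ} (ht : t ≤ (r - 1) / c)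
    (h1 : (t + 2 * j) * c + e = finrank F V) (h2 : ∀ k ≤ j, ∀ l, 2 * l ≤ e → k * c + l ≠ m) :
    ∃ a A O, Pres B a ∧ a ^ r = 1 ∧ rts a = A + j • O + j • O + .replicate e 1 ∧ A.Nodup ∧ A.card = t * c ∧
      (t * c + 1 = r → A.prod = 1) ∧ (0 < t + 2 * j → a ≠ 1) ∧ ¬ HasTI B a m := by
  classical
  obtain ⟨O, h3, -, h4, h5, -⟩ := P.exists_nodup P.one_le
  obtain ⟨A, h6, h7, h8, h9, h10⟩ := P.exists_nodup ht
  have h11 : PRt r (A + j • O + j • O) := fun x hx => by
    simp only [Multiset.mem_add, or_assoc, or_self] at hx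
    exact hx.elim (h6 x) fun hx => h3 x (Multiset.mem_of_mem_nsmul hx)
  have h12 : (A + j • O + j • O).card = (t + 2 * j) * c := by simp [h4, h8]; ring
  obtain ⟨a, h13, h14, h15, h16⟩ := P.exists_end D h11 ((h9.add (h5.nsmul j)).add (h5.nsmul j)) (h12 ▸ h1)
  refine ⟨a, A, O, h13, h14, h15, h7, h8, h10, fun h => h16 (h12 ▸ Nat.mul_pos h P.pos), ?_⟩
  rintro ⟨U, rfl, h17, h18⟩
  obtain ⟨M, l, h19, h20, h21, h22, h23⟩ := P.of_tis D h13 h14 h11 h15 h18 h17
  rw [((P.iff M h19).1 (e1 M h19 h20)).2] at h21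
  obtain ⟨k, hk⟩ := P.dvd h19 (e1 M h19 h20)
  have := Multiset.card_le_card (show M ≤ j • O from Multiset.le_iff_count.2 fun x => by
    have := Multiset.count_le_of_le x h21
    have := Multiset.nodup_iff_count_le_one.1 h7 x
    simp only [Multiset.count_add] at *
    omega)
  rw [Multiset.card_nsmul, h4, hk, one_mul, mul_comm] at this
  exact h2 k (Nat.le_of_mul_le_mul_right this P.pos) l h22 (by rw [← h23, hk, mul_comm])

theorem ti_self (D : SD B) (hc : orderOf (Fintype.card F : ZMod r) = c)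
    (e1 : ∀ M : Multiset K, PRt r M → St (· ^ Fintype.card F) M → St (· ^ z) M) (h1 : 2 * m ≤ finrank F V)
    (h2 : finrank F V % c < 2 * m) : (∀ a, Pres B a → a ^ r = 1 → a ≠ 1 → HasTI B a m) ↔
      c ≤ m ∧ 2 * (m % c) ≤ finrank F V % c ∧ (r - 1) / c + 2 * (m / c) ≤ finrank F V / c := by
  refine ⟨fun H => ?_, fun H a ha h _ => P.ti_self_of D e1 H.2.1 H.2.2 ha h⟩
  have h0 := P.pos
  have h3 := Nat.div_add_mod' (finrank F V) c
  have h4 := Nat.mod_lt (finrank F V) h0
  have h5 : 0 < finrank F V / c := Nat.pos_of_ne_zero fun h => by rw [h] at h3; omega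
  have h6 := P.one_le
  have h7 : 2 * (m % c) ≤ finrank F V % c := by
    by_contra h
    obtain ⟨a, -, -, h8, h9, -, -, -, -, h10, h11⟩ := P.exists_not_ti D hc e1 (m := m) (t := finrank F V / c % 2)
      (j := finrank F V / c / 2) (by omega) (by rwa [Nat.mod_add_div]) (by
        rintro k - l h8 rfl
        have := Nat.mod_le l c
        rw [Nat.mul_add_mod'] at h
        omega)
    exact h11 (H a h8 h9 (h10 (by omega)))
  have h8 : c ≤ m := by_contra fun h => by rw [Nat.mod_eq_of_lt (not_le.1 h)] at h7; omega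
  refine ⟨h8, h7, by_contra fun h => ?_⟩
  have h9 := Nat.div_pos h8 h0
  obtain ⟨t, j, h10, h11, h12, h13⟩ : ∃ t j, t ≤ (r - 1) / c ∧ j + 1 ≤ m / c ∧ t + 2 * j ≤ finrank F V / c ∧
      finrank F V / c ≤ t + 2 * j + 1 ∧ 0 < t :=
    ⟨min (finrank F V / c) ((r - 1) / c), (finrank F V / c - (r - 1) / c) / 2, by omega⟩
  have h14 := Nat.mul_le_mul_right c h12
  have h15 := Nat.mul_le_mul_right c h13.1
  obtain ⟨a, -, -, h8, h9, -, -, -, -, h10, h11⟩ := P.exists_not_ti D hc e1 (m := m) (j := j) h10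
    (e := finrank F V - (t + 2 * j) * c) (by omega) fun k hk l h16 h17 => by
      have := Nat.mul_le_mul_right c ((Nat.succ_le_succ hk).trans h11)
      have := Nat.div_mul_le_self m c
      rw [add_mul _ 1] at h15
      rw [Nat.succ_mul k] at *
      omega
  exact h11 (H a h8 h9 (h10 (by omega)))

end Per

end Cfsg.Agent.H28
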