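import Cfsg.Agent.H28.Elu8

/-! Symplectic groups: reductions, involutions, orthogonal decompositions. -/

set_option autoImplicit false

namespace Cfsg.Agent.H28

open Polynomial Module H12 H13

universe u

theorem eq_rep_add {k : Type*} {M : Multiset k} {x y : k} (h : ∀ w ∈ M, w = x ∨ w = y) :
    ∃ s t, M = .replicate s x + .replicate t y := by
  classical
  have : M.filter (¬ x = ·) = .replicate _ y := Multiset.eq_replicate_card.2 fun w hw =>
    (h w (Multiset.mem_filter.1 hw).1).resolve_left (Ne.symm (Multiset.mem_filter.1 hw).2)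
  exact ⟨M.count x, _, by rw [← Multiset.filter_eq, ← this, Multiset.filter_add_not]⟩

variable {F : Type*} {V : Type u} [Field F] [AddCommGroup V] [Module F V] {σ : F →+* F}

local notation "K" => AlgebraicClosure F
local notation "ι" => algebraMap F (AlgebraicClosure F)

theorem forall_Sp_iff {l : Type} [Fintype l] [DecidableEq l] {r : ℕ} {P : End F (l ⊕ l → F) → Prop} :
    (∀ x : Matrix.symplecticGroup l F,
      (∃ c : F, ((x ^ r : Matrix.symplecticGroup l F) : Matrix (l ⊕ l) (l ⊕ l) F) = c • (1 : Matrix (l ⊕ l) (l ⊕ l) F)) →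
      (∀ c : F, (x : Matrix (l ⊕ l) (l ⊕ l) F) ≠ c • (1 : Matrix (l ⊕ l) (l ⊕ l) F)) →
      P (Matrix.toLin' (x : Matrix (l ⊕ l) (l ⊕ l) F))) ↔ ∀ a, Pres (spB l F) a → PO r a → P a := by
  constructor
  · intro h a h1 h2
    obtain ⟨A, rfl⟩ := (rl_sp.range a).2 ⟨h1, fun _ => rfl⟩
    exact h A ((po_toLin' _ _).1 h2).1 ((po_toLin' _ _).1 h2).2
  · exact fun h x h1 h2 => h _ (rl_sp.pres x) ((po_toLin' _ _).2 ⟨h1, h2⟩)

section Gen
variable {B : V →ₛₗ[σ] V →ₗ[F] F} {a : End F V} {U U' : Submodule F V}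

theorem HasND.smul {m : ℕ} {w : F} (h : HasND B a m) : HasND B (w • a) m :=
  let ⟨U, h1, h2, h3⟩ := h; ⟨U, h1, h2, h3.smul w⟩

theorem HasTI.smul {m : ℕ} {w : F} (h : HasTI B a m) : HasTI B (w • a) m :=
  let ⟨U, h1, h2, h3⟩ := h; ⟨U, h1, h2, h3.smul w⟩

/-- orthogonal subspaces -/
def Ort (B : V →ₛₗ[σ] V →ₗ[F] F) (U U' : Submodule F V) : Prop := ∀ u ∈ U, ∀ v ∈ U', B u v = 0

theorem Ort.symm (D : SD B) (h : Ort B U U') : Ort B U' U := fun u hu v hv => D.comm0 (h v hv u hu)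

theorem NDs.disjoint (h : NDs B U) (h' : Ort B U U') : Disjoint U U' :=
  Disjoint.mono_right (c := sperp B U) (fun v hv u hu => h' u hu v hv) h

theorem NDs.sup (D : SD B) (h : NDs B U) (h' : NDs B U') (ho : Ort B U U') : NDs B (U ⊔ U') :=
  Submodule.disjoint_def.2 fun x hx h1 => by
    obtain ⟨u, hu, v, hv, rfl⟩ := Submodule.mem_sup.1 hx
    rw [Submodule.disjoint_def.1 h u hu fun w hw => by simpa [ho w hw v hv] using h1 w (Submodule.mem_sup_left hw),
      Submodule.disjoint_def.1 h' v hv fun w hw => by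
        simpa [ho.symm D w hw u hu] using h1 w (Submodule.mem_sup_right hw), add_zero]

theorem iv_map_subtype {h : Iv a U} {T : Submodule F U} (hT : Iv (a.restrict h) T) : Iv a (T.map U.subtype) := by
  rintro _ ⟨v, hv, rfl⟩
  exact ⟨_, hT v hv, rfl⟩

theorem map_map_subtype (h : Iv a U) (T : Submodule F U) :
    (T.map U.subtype).map a = (T.map (a.restrict h)).map U.subtype := by
  rw [← Submodule.map_comp, ← Submodule.map_comp]; rfl

theorem restrict_pow_eq (h : Iv a U) {r : ℕ} {z : F} (h1 : a ^ r = z • 1) : a.restrict h ^ r = z • 1 :=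
  (End.pow_restrict r h).trans (by ext v; simp [h1])

/-- an orthogonal decomposition permuted by `a` -/
def OPD (B : V →ₛₗ[σ] V →ₗ[F] F) (a : End F V) (d : ℕ) (κ : Type) : Prop :=
  ∃ E : κ → Submodule F V, (∀ i, finrank F (E i) = d) ∧ (∀ i, NDs B (E i)) ∧ (∀ i j, i ≠ j → Ort B (E i) (E j)) ∧
    iSup E = ⊤ ∧ ∃ τ : Equiv.Perm κ, ∀ j, (E j).map a = E (τ j)

theorem OPD.of_equiv {d : ℕ} {κ κ' : Type} (h : OPD B a d κ) (e : κ' ≃ κ) : OPD B a d κ' :=
  let ⟨E, h1, h2, h3, h4, τ, h5⟩ := h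
  ⟨E ∘ e, fun _ => h1 _, fun _ => h2 _, fun _ _ h => h3 _ _ (e.injective.ne h), (e.iSup_comp (g := E)).trans h4,
    e.symm.permCongr τ, fun j => by simp [h5]⟩

theorem OPD.smul {d : ℕ} {κ : Type} (h : OPD B a d κ) {w : F} (hw : w ≠ 0) : OPD B (w • a) d κ := by
  simpa only [OPD, map_smul_eq hw] using h

theorem iSupIndep_of_ort {κ : Type*} {E : κ → Submodule F V} (h : ∀ i, NDs B (E i))
    (h' : ∀ i j, i ≠ j → Ort B (E i) (E j)) : iSupIndep E := fun i =>
  Disjoint.mono_right (c := sperp B (E i)) (iSup₂_le fun j hj v hv u hu => h' i j hj.symm u hu v hv) (h i)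

variable [FiniteDimensional F V]

theorem OPD.sum (D : SD B) (ha : Pres B a) (hU : Iv a U) (hU' : NDs B U) {d : ℕ} {κ κ' : Type}
    (h : OPD (res B U) (a.restrict hU) d κ) (h' : OPD (res B (sperp B U)) (a.restrict (hU.sperp D ha)) d κ') :
    OPD B a d (κ ⊕ κ') := by
  obtain ⟨E, h1, h2, h3, h4, τ, h5⟩ := h
  obtain ⟨E', h1', h2', h3', h4', τ', h5'⟩ := h'
  refine ⟨Sum.elim (fun i => (E i).map U.subtype) fun i => (E' i).map (sperp B U).subtype, ?_, ?_, ?_, ?_, τ.sumCongr τ', ?_⟩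
  · rintro (i | i)
    exacts [(Submodule.finrank_map_subtype_eq _ _).trans (h1 i), (Submodule.finrank_map_subtype_eq _ _).trans (h1' i)]
  · rintro (i | i)
    exacts [(h2 i).map fun _ _ => rfl, (h2' i).map fun _ _ => rfl]
  · rintro (i | i) (j | j) h _ ⟨u, hu, rfl⟩ _ ⟨v, hv, rfl⟩
    exacts [h3 i j (by simpa using h) u hu v hv, v.2 _ u.2, D.comm0 (u.2 _ v.2), h3' i j (by simpa using h) u hu v hv]
  · simp [iSup_sum, ← Submodule.map_iSup, h4, h4', (D.isCompl hU').sup_eq_top]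
  · rintro (i | i)
    exacts [(map_map_subtype hU _).trans (congrArg _ (h5 i)), (map_map_subtype (hU.sperp D ha) _).trans (congrArg _ (h5' i))]

theorem opd_unit (D : SD B) (ha : Pres B a) : OPD B a (finrank F V) Unit :=
  ⟨fun _ => ⊤, fun _ => finrank_top _ _, fun _ => nds_top D, fun _ _ h => absurd rfl h, iSup_const, 1, fun _ => by
    rw [Submodule.map_top, LinearMap.range_eq_top.2 (D.wittData.nds.surj ha)]⟩

theorem opd_zero {d : ℕ} (h : finrank F V = 0) : OPD B a d (Fin 0) :=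
  ⟨Fin.elim0, fun i => i.elim0, fun i => i.elim0, fun i => i.elim0, Submodule.eq_top_of_finrank_eq (by
    have := Submodule.finrank_le (iSup (Fin.elim0 : Fin 0 → Submodule F V)); omega), 1, fun i => i.elim0⟩

theorem OPD.cons (D : SD B) (ha : Pres B a) (hU : Iv a U) (hU' : NDs B U) {t : ℕ}
    (h' : OPD (res B (sperp B U)) (a.restrict (hU.sperp D ha)) (finrank F U) (Fin t)) : OPD B a (finrank F U) (Fin (t + 1)) :=
  (OPD.sum D ha hU hU' (opd_unit (D.restrict hU') (ha.restrict hU)) h').of_equiv (Fintype.equivOfCardEq (by simp [add_comm]))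

theorem HasND.add (D : SD B) (ha : Pres B a) (hU : Iv a U) (hU' : NDs B U) {m : ℕ}
    (h : HasND (res B (sperp B U)) (a.restrict (hU.sperp D ha)) m) : HasND B a (finrank F U + m) := by
  obtain ⟨T, rfl, h1, h2⟩ := h
  have h3 : Ort B U (T.map (sperp B U).subtype) := by rintro u hu _ ⟨v, -, rfl⟩; exact v.2 u hu
  refine ⟨_, ?_, hU'.sup D (h1.map fun _ _ => rfl) h3, hU.sup (iv_map_subtype h2)⟩
  rw [← Submodule.finrank_map_subtype_eq, ← Submodule.finrank_sup_add_finrank_inf_eq, (hU'.disjoint h3).eq_bot,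
    finrank_bot, add_zero]

theorem HasND.of_restrict (hU : Iv a U) {m : ℕ} (h : HasND (res B U) (a.restrict hU) m) : HasND B a m :=
  let ⟨_, h1, h2, h3⟩ := h
  ⟨_, (Submodule.finrank_map_subtype_eq _ _).trans h1, h2.map fun _ _ => rfl, iv_map_subtype h3⟩

theorem exists_smul_eq_family [Fintype F] (D : SD B) {κ : Type*} [Fintype κ] {E E' : κ → Submodule F V}
    (h1 : iSupIndep E) (h2 : iSup E = ⊤) (h1' : iSupIndep E') (h2' : iSup E' = ⊤) (φ : ∀ i, E i ≃ₗ[F] E' i)
    (h : ∀ i j u v, B (φ i u) (φ j v) = B u v) : ∃ g : UG B, ∀ i, (E i).map (g.1 : V →ₗ[F] V) = E' i := by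
  obtain ⟨g, h3, h4⟩ := exists_map_family h1 h2 h1' h2' φ
  refine ⟨⟨g, fun x y => ?_⟩, h4⟩
  refine Submodule.iSup_induction E (motive := fun x => B (g x) (g y) = B x y) (h2 ▸ Submodule.mem_top)
    (fun i x hx => ?_) (by simp) fun _ _ h h' => by simp [h, h']
  refine Submodule.iSup_induction E (motive := fun y => B (g x) (g y) = B x y) (h2 ▸ Submodule.mem_top)
    (fun j y hy => ?_) (by simp) fun _ _ h h' => by simp [h, h']
  exact (congrArg₂ (B · ·) (h3 i ⟨x, hx⟩) (h3 j ⟨y, hy⟩)).trans (h i j _ _)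

end Gen

variable {B : V →ₛₗ[RingHom.id F] V →ₗ[F] F} {a : End F V} {U U' : Submodule F V}

theorem sp_sq_eq_one [Nontrivial V] (D : SD B) (ha : Pres B a) {r : ℕ} {z : F} (h : a ^ r = z • 1) : z * z = 1 :=
  mul_eq_one_of_pres D (h ▸ ha.pow r)

theorem forall_po_sp [Nontrivial V] (D : SD B) {r : ℕ} (hr : Odd r) {P : End F V → Prop}
    (hP : ∀ w : F, w ≠ 0 → ∀ a, P a → P (w • a)) :
    (∀ a, Pres B a → PO r a → P a) ↔ ∀ a, Pres B a → a ^ r = 1 → a ≠ 1 → P a := by
  obtain ⟨k, rfl⟩ := hr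
  have h1 : ∀ z : F, z * z = 1 → z ^ (2 * k + 1) = z := fun z hz => by rw [pow_succ, pow_mul, sq, hz, one_pow, one_mul]
  constructor
  · refine fun H a ha h2 h3 => H a ha ⟨⟨1, by simp [h2]⟩, ?_⟩
    rintro z rfl
    rw [_root_.smul_pow, one_pow, h1 z (mul_eq_one_of_pres D ha)] at h2
    exact h3 h2
  · rintro H a ha ⟨⟨z, h2⟩, h3⟩
    have h4 := sp_sq_eq_one D ha h2
    simpa [smul_smul, h4] using hP z (left_ne_zero_of_mul_eq_one h4) _ (H (z • a) (ha.smul h4) (by
      rw [_root_.smul_pow, h1 z h4, h2, smul_smul, h4, one_smul]) fun e => h3 z (by rw [← e, smul_smul, h4, one_smul]))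

theorem sp_skew (D : SD B) (x y : V) : B y x = -B x y := D.skew x y

theorem plane (D : SD B) {v w : V} (h : B v w ≠ 0) :
    finrank F (Submodule.span F {v, w}) = 2 ∧ NDs B (Submodule.span F {v, w}) := by
  have h0 := D.self_eq_zero rfl
  constructor
  · have : LinearIndependent F ![v, w] := LinearIndependent.pair_iff.2 fun s t e => by
      have h1 := congrArg (B v) e
      have h2 := congrArg (B · w) e
      simp [h0, h] at h1 h2
      exact ⟨h2, h1⟩
    have h1 := finrank_span_eq_card this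
    rwa [Matrix.range_cons_cons_empty, Fintype.card_fin] at h1
  · refine Submodule.disjoint_def.2 fun x hx h1 => ?_
    obtain ⟨s, t, rfl⟩ := Submodule.mem_span_pair.1 hx
    obtain ⟨h2, h3⟩ := mem_sperp_pair.1 h1
    simp [h0, h, sp_skew D v w] at h2 h3
    simp [h2, h3]

theorem iv_span_pair {v w : V} (hv : a v ∈ Submodule.span F {v, w}) (hw : a w ∈ Submodule.span F {v, w}) :
    Iv a (Submodule.span F {v, w}) := iv_iff.1 (by
  rw [Submodule.map_span_le]
  rintro _ (rfl | rfl)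
  exacts [hv, hw])

/-- `a` swaps two orthogonal halves -/
def SW (B : V →ₛₗ[RingHom.id F] V →ₗ[F] F) (a : End F V) : Prop :=
  ∃ P, NDs B P ∧ Ort B P (P.map a) ∧ P ⊔ P.map a = ⊤

theorem inv_step [Nontrivial V] (D : SD B) (ha : Pres B a) {z : F} (h : a ^ 2 = z • 1) : HasND B a 2 ∨
    ((2 : F) = 0 ∧ ∃ P : Submodule F V, finrank F P = 2 ∧ NDs B P ∧ Ort B P (P.map a)) := by
  have h0 := D.self_eq_zero rfl
  have h1 : ∀ v, a (a v) = z • v := fun v => by simpa [sq] using LinearMap.congr_fun h v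
  have h2 := sp_sq_eq_one D ha h
  have m1 : ∀ v w : V, v ∈ Submodule.span F {v, w} := fun v w => Submodule.subset_span (by simp)
  have m2 : ∀ v w : V, w ∈ Submodule.span F {v, w} := fun v w => Submodule.subset_span (by simp)
  by_cases h3 : ∃ v, B v (a v) ≠ 0
  · obtain ⟨v, h3⟩ := h3
    exact .inl ⟨_, (plane D h3).1, (plane D h3).2, iv_span_pair (m2 _ _) (h1 v ▸ Submodule.smul_mem _ _ (m1 _ _))⟩
  push Not at h3
  have h4 : ∀ u v, B (a u) v = B u (a v) := fun u v => by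
    have := h3 (u + v)
    simp only [map_add, LinearMap.add_apply, h3, sp_skew D (a u) v] at this
    linear_combination -this
  have h5 : ∀ v, a (a v) = v := fun v => D.ext_left fun w => by rw [h4, ha]
  have h6 : ∀ c : F, c * c = 1 → ∀ v w, a v = c • v → a w = c • w → B v w ≠ 0 → HasND B a 2 := fun c hc v w hv hw h =>
    ⟨_, (plane D h).1, (plane D h).2, iv_span_pair (hv ▸ Submodule.smul_mem _ _ (m1 _ _))
      (hw ▸ Submodule.smul_mem _ _ (m2 _ _))⟩
  by_cases h7 : ∀ v, a v = v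
  · obtain ⟨v, hv⟩ := exists_ne (0 : V)
    obtain ⟨w, hw⟩ := D.exists_ne hv
    exact .inl (h6 1 (by simp) v w (by simp [h7]) (by simp [h7]) hw)
  push Not at h7
  obtain ⟨v, h7⟩ := h7
  obtain ⟨w, hw⟩ := D.exists_ne (sub_ne_zero.2 h7)
  by_cases h8 : (2 : F) = 0
  · obtain ⟨w', h9, h10⟩ : ∃ w', B v w' ≠ 0 ∧ B v (a w') = 0 := by
      rw [map_sub, LinearMap.sub_apply, h4] at hw
      have := div_mul_cancel₀ (B v (a w)) hw
      refine ⟨w + (B v (a w) / (B v (a w) - B v w)) • (a w - w), fun e => hw ?_, ?_⟩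
      · simp only [map_add, map_smul, map_sub, smul_eq_mul] at e
        linear_combination e - this - B v w * h8
      · simp only [map_add, map_smul, map_sub, smul_eq_mul, h5]
        linear_combination -this
    refine .inr ⟨h8, _, (plane D h9).1, (plane D h9).2, ?_⟩
    rintro x hx _ ⟨y, hy, rfl⟩
    obtain ⟨s, t, rfl⟩ := Submodule.mem_span_pair.1 hx
    obtain ⟨s', t', rfl⟩ := Submodule.mem_span_pair.1 hy
    simp [h3, h10, sp_skew D (a v) w', h4]
  · refine .inl (h6 (-1) (by simp) (a v - v) (a w - w) (by simp [h5]) (by simp [h5]) fun e => hw ?_)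
    simp only [map_sub, LinearMap.sub_apply, h4, h5] at e ⊢
    exact mul_left_cancel₀ h8 (by linear_combination -e)

theorem iv_sup_map {z : F} (h : a ^ 2 = z • 1) (P : Submodule F V) : Iv a (P ⊔ P.map a) := iv_iff.1 (by
  rw [Submodule.map_sup]
  refine sup_le le_sup_right ?_
  rintro _ ⟨_, ⟨v, hv, rfl⟩, rfl⟩
  rw [show a (a v) = z • v by simpa [sq] using LinearMap.congr_fun h v]
  exact Submodule.mem_sup_left (P.smul_mem _ hv))

variable [FiniteDimensional F V]

theorem finrank_sup_map (D : SD B) (ha : Pres B a) {P : Submodule F V} (h1 : NDs B P) (h2 : Ort B P (P.map a)) :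
    finrank F ↥(P ⊔ P.map a) = 2 * finrank F P := by
  have := Submodule.finrank_sup_add_finrank_inf_eq P (P.map a)
  rw [(h1.disjoint h2).eq_bot, finrank_bot, finrank_map_of_inj ((End.isUnit_iff a).1 (D.wittData.nds.isUnit ha)).1] at this
  omega

theorem sw_or (D : SD B) (ha : Pres B a) {z : F} (h : a ^ 2 = z • 1) :
    HasND B a 2 ∨ (SW B a ∧ ((2 : F) = 0 ∨ finrank F V = 0)) := by
  induction hn : finrank F V using Nat.strong_induction_on generalizing V with
  | _ n ih =>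
  rcases subsingleton_or_nontrivial V with h0 | h0
  · exact .inr ⟨⟨⊥, disjoint_bot_left, by simp [Ort], Subsingleton.elim _ _⟩, .inr (hn ▸ finrank_zero_of_subsingleton)⟩
  obtain h1 | ⟨h1, P, h2, h3, h4⟩ := inv_step D ha h
  · exact .inl h1
  have h5 := iv_sup_map h P
  have h6 := h3.sup D (h3.map ha) h4
  have h7 := D.finrank_sperp (P ⊔ P.map a)
  rw [finrank_sup_map D ha h3 h4] at h7
  obtain h8 | ⟨⟨Q, h8, h9, h10⟩, -⟩ := ih _ (by omega) (D.restrict (D.disjoint_sperp h6)) (ha.restrict (h5.sperp D ha))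
    (restrict_pow_eq _ h) rfl
  · exact .inl (h8.of_restrict _)
  have h11 := map_map_subtype (h5.sperp D ha) Q
  have h12 : ∀ T : Submodule F (sperp B (P ⊔ P.map a)), Ort B (P ⊔ P.map a) (T.map (Submodule.subtype _)) := by
    rintro T u hu _ ⟨v, -, rfl⟩; exact v.2 u hu
  refine .inr ⟨⟨P ⊔ Q.map (Submodule.subtype _), h3.sup D (h8.map fun _ _ => rfl)
    fun u hu => h12 Q u (Submodule.mem_sup_left hu), fun u hu v hv => ?_, ?_⟩, .inl h1⟩
  · rw [Submodule.map_sup, h11] at hv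
    obtain ⟨u, hu₁, _, ⟨u', hu', rfl⟩, rfl⟩ := Submodule.mem_sup.1 hu
    obtain ⟨v, hv₁, _, ⟨v', hv', rfl⟩, rfl⟩ := Submodule.mem_sup.1 hv
    simp [h4 u hu₁ v hv₁, v'.2 u (Submodule.mem_sup_left hu₁), D.comm0 (u'.2 v (Submodule.mem_sup_right hv₁)),
      show B u' v' = 0 from h9 u' hu' v' hv']
  · rw [Submodule.map_sup, h11, sup_sup_sup_comm, ← Submodule.map_sup, h10, Submodule.map_subtype_top,
      (D.isCompl h6).sup_eq_top]

variable [Fintype F]

theorem SW.exists_le (D : SD B) (ha : Pres B a) (h : SW B a) : 4 ∣ finrank F V ∧ ∀ k, 4 * k ≤ finrank F V →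
    ∃ P : Submodule F V, finrank F P = 2 * k ∧ NDs B P ∧ Ort B P (P.map a) := by
  obtain ⟨P, h1, h2, h3⟩ := h
  have h4 := finrank_sup_map D ha h1 h2
  rw [h3, finrank_top] at h4
  obtain ⟨s, hs⟩ := (D.restrict h1).even_finrank
  refine ⟨⟨s, by omega⟩, fun k hk => ?_⟩
  obtain ⟨T, h5, h6⟩ := exists_nds_dim (D.restrict h1) (m := 2 * k) (by omega) fun _ => even_two_mul k
  exact ⟨T.map P.subtype, (Submodule.finrank_map_subtype_eq _ _).trans h5, h6.map fun _ _ => rfl, fun u hu v hv =>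
    h2 u (P.map_subtype_le T hu) v (Submodule.map_mono (P.map_subtype_le T) hv)⟩

theorem hasND_inv (D : SD B) (ha : Pres B a) {z : F} (h : a ^ 2 = z • 1) {m : ℕ} (hm : 2 * m ≤ finrank F V) :
    HasND B a (2 * m) ∨ (SW B a ∧ Odd m ∧ (2 : F) = 0) := by
  induction m generalizing V with
  | zero => exact .inl ⟨⊥, finrank_bot _ _, disjoint_bot_left, iv_bot _⟩
  | succ m ih =>
    have key : ∀ {V : Type u} [AddCommGroup V] [Module F V] [FiniteDimensional F V] {B : V →ₛₗ[RingHom.id F] V →ₗ[F] F}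
        {a : End F V}, SD B → Pres B a → a ^ 2 = z • 1 → SW B a → Odd m → 2 * (m + 1) ≤ finrank F V →
        HasND B a (2 * (m + 1)) := fun D ha h h1 ⟨k, hk⟩ h2 => by
      obtain ⟨P, h3, h4, h5⟩ := (h1.exists_le D ha).2 (k + 1) (by omega)
      exact ⟨_, by rw [finrank_sup_map D ha h4 h5]; omega, h4.sup D (h4.map ha) h5, iv_sup_map h P⟩
    obtain ⟨E, h1, h2, h3⟩ | ⟨h1, h2⟩ := sw_or D ha h
    · have h4 := D.finrank_sperp E
      have D' := D.restrict (D.disjoint_sperp h2)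
      obtain h5 | ⟨h5, h6, -⟩ := ih D' (ha.restrict (h3.sperp D ha)) (restrict_pow_eq _ h) (by omega)
      · exact .inl (by simpa [h1, mul_add, add_comm] using HasND.add D ha h3 h2 h5)
      rcases hm.eq_or_lt with h7 | h7
      · exact .inl ⟨⊤, (finrank_top _ _).trans h7.symm, nds_top D, iv_top _⟩
      · obtain ⟨s, hs⟩ := D.even_finrank
        exact .inl ((key D' (ha.restrict (h3.sperp D ha)) (restrict_pow_eq _ h) h5 h6 (by omega)).of_restrict _)
    · rcases Nat.even_or_odd m with h3 | h3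
      · exact .inr ⟨h1, h3.add_one, h2.resolve_right (by omega)⟩
      · exact .inl (key D ha h h1 h3 hm)

theorem opd_inv (D : SD B) (ha : Pres B a) {z : F} (h : a ^ 2 = z • 1) {d t : ℕ} (hV : finrank F V = 2 * d * t) :
    OPD B a (2 * d) (Fin t) := by
  induction t using Nat.strong_induction_on generalizing V with
  | _ t ih =>
  obtain _ | t := t
  · exact opd_zero hV
  obtain ⟨U, h1, h2, h3⟩ | ⟨h1, h2, -⟩ := hasND_inv D ha h (m := d) (by rw [hV, mul_add]; omega)
  · have := D.finrank_sperp U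
    rw [← h1]
    exact OPD.cons D ha h3 h2 (h1 ▸ ih t t.lt_succ_self (D.restrict (D.disjoint_sperp h2)) (ha.restrict _)
      (restrict_pow_eq _ h) (by rw [mul_add] at hV; omega))
  obtain ⟨h3, h4⟩ := h1.exists_le D ha
  obtain _ | t := t
  · obtain ⟨k, rfl⟩ := h2; omega
  obtain ⟨P, h5, h6, h7⟩ := h4 d (by rw [hV, mul_add, mul_add]; omega)
  have h8 := iv_sup_map h P
  have h9 := h6.sup D (h6.map ha) h7
  have h10 := D.finrank_sperp (P ⊔ P.map a)
  rw [finrank_sup_map D ha h6 h7] at h10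
  have hi := ((End.isUnit_iff a).1 (D.wittData.nds.isUnit ha)).1
  obtain ⟨E, g1, g2, g3, g4, τ, g5⟩ := ih t (by omega) (D.restrict (D.disjoint_sperp h9)) (ha.restrict (h8.sperp D ha))
    (restrict_pow_eq _ h) (by rw [mul_add, mul_add] at hV; omega)
  have h11 : (P.map a).map a = P := Submodule.eq_of_le_of_finrank_eq (by
    rintro _ ⟨_, ⟨v, hv, rfl⟩, rfl⟩
    rw [show a (a v) = z • v by simpa [sq] using LinearMap.congr_fun h v]
    exact P.smul_mem _ hv) (by rw [finrank_map_of_inj hi, finrank_map_of_inj hi])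
  have h12 : ∀ b : Bool, cond b P (P.map a) ≤ P ⊔ P.map a := by rintro (_ | _); exacts [le_sup_right, le_sup_left]
  refine OPD.of_equiv (κ := Bool ⊕ Fin t) ⟨Sum.elim (cond · P (P.map a)) fun i => (E i).map (Submodule.subtype _), ?_, ?_,
    ?_, ?_, (Equiv.swap true false).sumCongr τ, ?_⟩ (Fintype.equivOfCardEq (by simp; omega))
  · rintro ((_ | _) | i)
    exacts [(finrank_map_of_inj hi P).trans h5, h5, (Submodule.finrank_map_subtype_eq _ _).trans (g1 i)]
  · rintro ((_ | _) | i)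
    exacts [h6.map ha, h6, (g2 i).map fun _ _ => rfl]
  · rintro (i | i) (j | j) h
    · cases i <;> cases j
      exacts [absurd rfl h, h7.symm D, h7, absurd rfl h]
    · rintro u hu _ ⟨v, -, rfl⟩; exact v.2 u (h12 i hu)
    · rintro _ ⟨v, -, rfl⟩ u hu; exact D.comm0 (v.2 u (h12 j hu))
    · rintro _ ⟨u, hu, rfl⟩ _ ⟨v, hv, rfl⟩; exact g3 i j (by simpa using h) u hu v hv
  · simp [iSup_sum, iSup_bool_eq, ← Submodule.map_iSup, g4, (D.isCompl h9).sup_eq_top]
  · rintro ((_ | _) | i)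
    exacts [h11, rfl, (map_map_subtype (h8.sperp D ha) _).trans (congrArg _ (g5 i))]

theorem SW.not_hasND (D : SD B) (ha : Pres B a) (h : a ^ 2 = 1) (h2 : (2 : F) = 0) (hs : SW B a) {m : ℕ} (hm : Odd m) :
    ¬ HasND B a (2 * m) := by
  rintro ⟨U, h1, h3, h4⟩
  obtain h5 | ⟨h5, -⟩ := sw_or (D.restrict h3) (ha.restrict h4) (restrict_pow_eq (z := 1) h4 (by simp [h]))
  swap
  · have := (h5.exists_le (D.restrict h3) (ha.restrict h4)).1
    obtain ⟨k, rfl⟩ := hm; omega
  obtain ⟨E, h6, h7, h8⟩ := h5.of_restrict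
  obtain ⟨P, h9, h10, h11⟩ := hs
  have h12 : ∀ v, a (a v) = v := fun v => by simpa [sq] using LinearMap.congr_fun h v
  have h13 : ∀ v, ∃ x ∈ P, ∃ y ∈ P, v = x + a y := fun v => by
    obtain ⟨x, hx, _, ⟨y, hy, rfl⟩, rfl⟩ := Submodule.mem_sup.1 (h11 ▸ Submodule.mem_top (x := v))
    exact ⟨x, hx, y, hy, rfl⟩
  have h14 : ∀ x ∈ P, ∀ y ∈ P, B x (a y) = 0 ∧ B (a y) x = 0 := fun x hx y hy =>
    ⟨h10 x hx _ ⟨y, hy, rfl⟩, D.comm0 (h10 x hx _ ⟨y, hy, rfl⟩)⟩
  refine absurd (h6.symm.trans (Submodule.finrank_eq_zero.2 (h7.eq_bot_of_le fun v hv w hw => ?_))) two_ne_zero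
  by_cases h15 : ∀ v ∈ E, a v = v
  · have key : ∀ v ∈ E, ∃ x ∈ P, v = x + a x := fun v hv => by
      obtain ⟨x, hx, y, hy, rfl⟩ := h13 v
      have h16 := h15 _ hv
      rw [map_add, h12] at h16
      have h17 : x - y = a (x - y) := by rw [map_sub]; linear_combination (norm := module) -h16
      rw [sub_eq_zero.1 (Submodule.disjoint_def.1 (h9.disjoint h10) _ (sub_mem hx hy) ⟨_, sub_mem hx hy, h17.symm⟩)]
      exact ⟨y, hy, rfl⟩
    obtain ⟨x, hx, rfl⟩ := key v hv
    obtain ⟨y, hy, rfl⟩ := key w hw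
    simp only [map_add, LinearMap.add_apply, h14 x hx y hy, h14 y hy x hx, ha y x]
    linear_combination B y x * h2
  · push Not at h15
    obtain ⟨u, hu, h15⟩ := h15
    have h16 : B u (a u) = 0 := by
      obtain ⟨x, hx, y, hy, rfl⟩ := h13 u
      simp [h12, h14 x hx x hx, h14 y hy y hy, ha y x, sp_skew D x y]
    have h17 : LinearIndependent F ![u, a u] := by
      rw [LinearIndependent.pair_iff' (by rintro rfl; simp at h15)]
      intro c hc
      have h18 := h12 u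
      rw [← hc, map_smul, ← hc, smul_smul] at h18
      have h19 : (c * c - 1) • u = 0 := by rw [sub_smul, h18, one_smul, sub_self]
      rw [smul_eq_zero, show c * c - 1 = (c - 1) ^ 2 by linear_combination (c - 1) * h2] at h19
      exact h15 (h19.elim (fun h => by rw [← hc, sub_eq_zero.1 (eq_zero_of_pow_eq_zero h), one_smul]) fun h => by simp [h])
    have h18 := finrank_span_eq_card h17
    rw [Matrix.range_cons_cons_empty, Fintype.card_fin] at h18
    rw [← Submodule.eq_of_le_of_finrank_eq (Submodule.span_le.2 (Set.pair_subset hu (h8 u hu))) (h18.trans h6.symm)] at hv hw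
    obtain ⟨s, t, rfl⟩ := Submodule.mem_span_pair.1 hv
    obtain ⟨s', t', rfl⟩ := Submodule.mem_span_pair.1 hw
    simp [h16, D.comm0 h16, D.self_eq_zero rfl]

theorem exists_sw (D : SD B) {k : ℕ} (h : finrank F V = 4 * k) : ∃ a, Pres B a ∧ a ^ 2 = 1 ∧ SW B a := by
  obtain ⟨g, hg⟩ := (sd_sumB (sd_hypB (σ := RingHom.id F) (fun _ => rfl) k) (sd_hypB (fun _ => rfl) k)).exists_isometry D
    (by simp [h]; ring)
  refine ⟨g.conj (LinearEquiv.prodComm F _ _).toLinearMap, fun x y => ?_, by ext; simp [sq, LinearEquiv.conj_apply],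
    LinearMap.range (g.toLinearMap ∘ₗ LinearMap.inl F _ _), ?_, ?_, eq_top_iff.2 fun v _ => ?_⟩
  · obtain ⟨x, rfl⟩ := g.surjective x
    obtain ⟨y, rfl⟩ := g.surjective y
    simp [LinearEquiv.conj_apply, hg, sumB_apply, add_comm]
  · rw [LinearMap.range_eq_map]
    exact (nds_top (sd_hypB (fun _ => rfl) k)).map fun x y => by simp [hg, sumB_apply]
  · rintro _ ⟨x, rfl⟩ _ ⟨_, ⟨y, rfl⟩, rfl⟩
    simp [LinearEquiv.conj_apply, hg, sumB_apply]
  · obtain ⟨⟨x, y⟩, rfl⟩ := g.surjective v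
    exact Submodule.mem_sup.2 ⟨_, ⟨x, rfl⟩, _, ⟨_, ⟨y, rfl⟩, rfl⟩, by simp [LinearEquiv.conj_apply, ← map_add]⟩

end Cfsg.Agent.H28
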