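import Cfsg.Agent.H28.Pron2
import Cfsg.Agent.H8.Wr4
import Cfsg.Prelude.Def_Transfer

/-! Normal 2-ranks of Sylow 2-subgroups of general linear groups. -/

set_option autoImplicit false

namespace Cfsg.Agent.H28

open Cfsg.Agent.H27 Cfsg.Agent.H8 Matrix Subgroup Equiv SemidirectProduct Module

/-- The normal 2-rank is exactly `k`. -/
def NR (k : ℕ) (G : Type*) [Group G] : Prop :=
  (∃ E : Subgroup G, E.Normal ∧ IsElementaryAbelian 2 E ∧ 2 ^ k ≤ Nat.card E) ∧
    ∀ E : Subgroup G, E.Normal → IsElementaryAbelian 2 E → Nat.card E ≤ 2 ^ k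

section general

variable {G X : Type*} [Group G] [Group X] {k : ℕ}

theorem nr_ea {E : Subgroup G} :
    IsElementaryAbelian 2 E ↔ (∀ a ∈ E, ∀ b ∈ E, a * b = b * a) ∧ ∀ a ∈ E, a * a = 1 := by
  simp only [IsElementaryAbelian, sq]
  exact and_congr_left' ⟨fun h a ha b hb => congrArg Subtype.val (h.1.1 ⟨a, ha⟩ ⟨b, hb⟩),
    fun h => ⟨⟨fun a b => Subtype.ext (h a a.2 b b.2)⟩⟩⟩

theorem nr_ea_map {E : Subgroup G} (h : IsElementaryAbelian 2 E) (f : G →* X) :
    IsElementaryAbelian 2 (E.map f) := by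
  rw [nr_ea] at h ⊢
  refine ⟨?_, ?_⟩
  · rintro _ ⟨a, ha, rfl⟩ _ ⟨b, hb, rfl⟩
    rw [← map_mul, h.1 a ha b hb, map_mul]
  · rintro _ ⟨a, ha, rfl⟩
    rw [← map_mul, h.2 a ha, map_one]

theorem NR.congr (e : G ≃* X) (h : NR k G) : NR k X := by
  obtain ⟨⟨E, h1, h2, h3⟩, h4⟩ := h
  refine ⟨⟨E.map e.toMonoidHom, h1.map _ e.surjective, nr_ea_map h2 _, ?_⟩, fun E h1 h2 => ?_⟩
  · rwa [← Nat.card_congr (E.equivMapOfInjective e.toMonoidHom e.injective).toEquiv]
  · rw [Nat.card_congr (E.equivMapOfInjective e.symm.toMonoidHom e.symm.injective).toEquiv]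
    exact h4 _ (h1.map _ e.symm.surjective) (nr_ea_map h2 _)

theorem nr_of {P E0 : Subgroup X} (h0 : E0 ≤ P) (hn : ∀ g ∈ P, ∀ x ∈ E0, g * x * g⁻¹ ∈ E0)
    (he : IsElementaryAbelian 2 E0) (hk : 2 ^ k ≤ Nat.card E0)
    (hub : ∀ E ≤ P, (∀ g ∈ P, ∀ x ∈ E, g * x * g⁻¹ ∈ E) → IsElementaryAbelian 2 E → Nat.card E ≤ 2 ^ k) :
    NR k P := by
  refine ⟨⟨E0.subgroupOf P, ⟨fun x hx g => hn g g.2 x hx⟩, ?_, ?_⟩, fun E h1 h2 => ?_⟩
  · rw [nr_ea] at he ⊢
    exact ⟨fun a ha b hb => Subtype.ext (he.1 a ha b hb), fun a ha => Subtype.ext (he.2 a ha)⟩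
  · rwa [Nat.card_congr (subgroupOfEquivOfLe h0).toEquiv]
  · rw [Nat.card_congr (E.equivMapOfInjective P.subtype P.subtype_injective).toEquiv]
    refine hub _ (map_subtype_le _) ?_ (nr_ea_map h2 _)
    rintro g hg _ ⟨x, hx, rfl⟩
    exact ⟨_, h1.conj_mem x hx ⟨g, hg⟩, rfl⟩

theorem nr_sylow [Finite G] (f : X →* G) (hf : Function.Injective f) {P : Subgroup X} (hP : IsPGroup 2 P)
    (hc : (Nat.card G).factorization 2 ≤ (Nat.card P).factorization 2) (h : NR k P) (S : Sylow 2 G) :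
    NR k (S : Subgroup G) := by
  obtain ⟨g, hg⟩ := exists_map_eq_sylow f hf hP hc S
  exact hg ▸ h.congr (P.equivMapOfInjective _ ((MulAut.conj g).injective.comp hf))

end general

section wr

variable {D I κ : Type*} [Group D] [Finite D] [Fintype I] [DecidableEq I] [Fintype κ] {D0 Z : Subgroup D}
  {T : Subgroup (Perm I)}

theorem nr_wr (hZ : Z ≤ D0) (hc : Z ≤ center D) (hs : ∀ z ∈ Z, z * z = 1) (h2 : Nat.card Z = 2) {k : ℕ}
    (hk : k = Fintype.card I + Fintype.card κ)
    (hub : (∀ E : Subgroup (Wr D I × (κ → ℤˣ)), IsElementaryAbelian 2 E → Nat.card E ≤ 2 ^ k) ∨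
      ((∃ g ∈ D0, g * g ≠ 1) ∧
        ∀ a ∈ D0, a * a = 1 → (∀ d ∈ D0, d * a * d⁻¹ * a = a * (d * a * d⁻¹)) → a ∈ Z)) :
    NR k ((wsub D0 T).prod (⊤ : Subgroup (κ → ℤˣ))) := by
  have h1 : Nat.card ((wsub Z (⊥ : Subgroup (Perm I))).prod (⊤ : Subgroup (κ → ℤˣ))) = 2 ^ k := by
    rw [Nat.card_congr (prodEquiv _ _).toEquiv, Nat.card_prod, card_wsub, h2, card_bot, card_top, card_signs,
      Nat.card_eq_fintype_card, hk, pow_add, mul_one]
  refine nr_of (E0 := (wsub Z ⊥).prod ⊤) (fun x hx => ⟨⟨fun i => hZ (hx.1.1 i), ?_⟩, trivial⟩)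
    (fun g _ x hx => ⟨⟨fun i => ?_, ?_⟩, trivial⟩) (nr_ea.2 ⟨fun a ha b hb => ?_, fun a ha => ?_⟩) h1.ge
    fun E e1 e2 e3 => ?_
  · rw [mem_bot.1 hx.1.2]; exact one_mem _
  · have := hx.1.1 (g.1.right⁻¹ i)
    simp only [Prod.fst_mul, Prod.fst_inv, wr_mul_left, wr_inv_left, mul_right, mem_bot.1 hx.1.2, mul_one,
      Perm.coe_inv, Equiv.apply_symm_apply] at this ⊢
    rwa [mem_center_iff.1 (hc this), mul_inv_cancel_right]
  · simp [mem_bot.1 hx.1.2]
  · refine Prod.ext (SemidirectProduct.ext (funext fun i => ?_) ?_) (mul_comm _ _)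
    · simp only [Prod.fst_mul, wr_mul_left, mem_bot.1 ha.1.2, mem_bot.1 hb.1.2, inv_one, Perm.one_apply]
      exact mem_center_iff.1 (hc (hb.1.1 i)) _
    · simp [mem_bot.1 ha.1.2, mem_bot.1 hb.1.2]
  · refine Prod.ext (SemidirectProduct.ext (funext fun i => ?_) ?_) (funext fun _ => Int.units_mul_self _)
    · simp only [Prod.fst_mul, wr_mul_left, mem_bot.1 ha.1.2, inv_one, Perm.one_apply]
      exact hs _ (ha.1.1 i)
    · simp [mem_bot.1 ha.1.2]
  rcases hub with hub | ⟨⟨g, hg, g2⟩, hub⟩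
  · exact hub E e3
  rw [nr_ea] at e3
  refine h1 ▸ card_le_of_le fun x hx => ?_
  have a1 : ∀ i, ∀ d ∈ D0, (sg i d, 1) * x * (sg i d, 1)⁻¹ ∈ E := fun i d hd =>
    e2 _ ⟨sg_mem_wsub i hd, trivial⟩ x hx
  have a2 : x.1.right = 1 := by
    by_contra h
    obtain ⟨i, hi⟩ : ∃ i, x.1.right i ≠ i := by
      by_contra! h0
      exact h (Equiv.ext h0)
    have b1 := congrArg (fun y => y.1.left i) (e3.2 _ (mul_mem (a1 i g hg) (inv_mem hx)))
    have b2 : ((sg i g, 1) * x * (sg i g, 1)⁻¹ * x⁻¹ : Wr D I × (κ → ℤˣ)).1 =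
        sg i g * (x.1 * sg i g⁻¹ * x.1⁻¹) := by simp [mul_assoc]
    simp only [Prod.fst_mul ((sg i g, 1) * x * (sg i g, 1)⁻¹ * x⁻¹ : Wr D I × (κ → ℤˣ)), b2, conj_sg, wr_mul_left,
      mul_right, sg_right, sg_left, mul_one, inv_one, Perm.one_apply, Pi.mulSingle_eq_same,
      Pi.mulSingle_eq_of_ne hi.symm] at b1
    exact g2 b1
  refine ⟨⟨fun i => hub _ ((e1 hx).1.1 i) ?_ fun d hd => ?_, a2⟩, trivial⟩
  · simpa [wr_mul_left, a2] using congrArg (fun y => y.1.left i) (e3.2 x hx)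
  · simpa [wr_mul_left, wr_inv_left, a2, sg_left, sg_right] using
      congrArg (fun y => y.1.left i) (e3.1 _ (a1 i d hd) x hx)

end wr

section lin

variable {F V : Type*} [Field F] [AddCommGroup V] [Module F V]

theorem nr_span (h2 : (2 : F) ≠ 0) {A : Type*} [Finite A] {g : A → End F V}
    (hc : ∀ a b x, g a (g b x) = g b (g a x)) (hs : ∀ a x, g a (g a x) = x) (x : V) :
    x ∈ Submodule.span F {v | ∀ a, ∃ ε : ℤˣ, g a v = ε • v} := by
  classical
  have := Fintype.ofFinite A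
  have key : ∀ s : Finset A, x ∈ Submodule.span F {v | ∀ a ∈ s, ∃ ε : ℤˣ, g a v = ε • v} := by
    intro s
    induction s using Finset.induction_on with
    | empty => exact Submodule.subset_span (by simp)
    | insert a s _ ih =>
      refine Submodule.span_le.2 (fun v hv => ?_) ih
      have h3 : ∀ ε : ℤˣ, v + ε • g a v ∈ Submodule.span F
          {v | ∀ b ∈ insert a s, ∃ ε : ℤˣ, g b v = ε • v} := fun ε =>
        Submodule.subset_span fun b hb => by
          rcases Finset.mem_insert.1 hb with rfl | hb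
          · exact ⟨ε, by rw [map_add, LinearMap.map_smul_of_tower, hs, smul_add, smul_smul,
              Int.units_mul_self, one_smul, add_comm]⟩
          · obtain ⟨δ, hδ⟩ := hv b hb
            exact ⟨δ, by rw [map_add, LinearMap.map_smul_of_tower, hc, hδ,
              LinearMap.map_smul_of_tower, smul_add, smul_comm]⟩
      have := Submodule.smul_mem _ (2 : F)⁻¹ (Submodule.add_mem _ (h3 1) (h3 (-1)))
      rwa [show v + (1 : ℤˣ) • g a v + (v + (-1 : ℤˣ) • g a v) = (2 : F) • v by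
        rw [one_smul, Units.neg_smul, one_smul, two_smul]; abel, inv_smul_smul₀ h2] at this
  simpa using key Finset.univ

theorem nr_card_le [FiniteDimensional F V] (h2 : (2 : F) ≠ 0) {X : Type*} [Group X] [Finite X]
    (f : X →* (V ≃ₗ[F] V)) (hf : Function.Injective f) (E : Subgroup X) (hE : IsElementaryAbelian 2 E) :
    Nat.card E ≤ 2 ^ finrank F V := by
  classical
  rw [nr_ea] at hE
  let g : E → End F V := fun a => (f a : V →ₗ[F] V)
  obtain ⟨s, hs1, hs2, hs3⟩ := exists_linearIndependent F {v | ∀ a, ∃ ε : ℤˣ, g a v = ε • v}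
  let b := Basis.mk hs3 (by
    rw [Subtype.range_coe, hs2]
    exact fun x _ => nr_span h2 (fun a b x => by
      simpa [g] using LinearEquiv.congr_fun (congrArg f (hE.1 a a.2 b b.2)) x) (fun a x => by
      simpa [g] using LinearEquiv.congr_fun (congrArg f (hE.2 a a.2)) x) x)
  have := FiniteDimensional.fintypeBasisIndex b
  choose ε hε using fun a (i : s) => hs1 i.2 a
  rw [finrank_eq_card_basis b, ← card_signs]
  refine Nat.card_le_card_of_injective ε fun a a' h => Subtype.ext (hf (LinearEquiv.toLinearMap_injective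
    (b.ext fun i => ?_)))
  have h4 : b i = i.1 := Basis.mk_apply _ _ _
  rw [h4]
  exact (hε a i).trans (h ▸ (hε a' i).symm)

end lin

variable {F : Type*} [Field F] [Fintype F]

theorem nr_g2 (hq : Fintype.card F % 4 = 3) (D : Sylow 2 (G2 F)) {a : G2 F} (a2 : a * a = 1)
    (h : ∀ d ∈ D.1, d * a * d⁻¹ * a = a * (d * a * d⁻¹)) : a ∈ zpowers (-1 : G2 F) := by
  have hF : Odd (Fintype.card F) := Nat.odd_iff.2 (by omega)
  have h2 := H12.two_ne_zero_of_odd_card hF
  have h1 := Fintype.one_lt_card (α := F)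
  have a3 : (a : M2 F) * a = 1 := congrArg Units.val a2
  have a4 : (a : M2 F).det = 1 ∨ (a : M2 F).det = -1 :=
    mul_self_eq_one_iff.1 (by rw [← det_mul, a3, det_one])
  have pm : a = 1 ∨ a = -1 → a ∈ zpowers (-1 : G2 F) := by
    rintro (rfl | rfl)
    exacts [one_mem _, mem_zpowers _]
  refine a4.elim (fun e => pm (g2_inv h2 a2 e)) fun a4 => ?_
  by_cases hs : Scal (a : M2 F)
  · obtain ⟨c, hc⟩ := scal_iff.1 hs
    have : c * c = 1 := by simpa [hc] using congrFun (congrFun a3 0) 0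
    exact pm ((mul_self_eq_one_iff.1 this).imp (fun e => Units.ext (by simp [hc, e])) fun e =>
      Units.ext (by simp [hc, e]))
  exfalso
  have a5 : Spl (a : M2 F) := by
    refine ⟨1, -1, fun e => h2 (by linear_combination e), ?_, by rw [a4]; ring⟩
    have e0 := congrFun (congrFun a3 0) 0
    have e1 := congrFun (congrFun a3 1) 1
    rw [det_fin_two] at a4
    rw [trace_fin_two]
    simp only [m2mul, one_apply_eq] at e0 e1
    exact (add_neg_cancel (1 : F)).symm ▸ mul_self_eq_zero.1 (by linear_combination e0 + e1 + 2 * a4)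
  have a6 := g2_relIndex (D := D) (a := a) fun d hd => by
    obtain ⟨α, β, e⟩ := exists_of_comm hs (congrArg Units.val (h d hd))
    have b1 : ¬ Scal ((d * a * d⁻¹ : G2 F) : M2 F) := fun e => hs (mem_center_g2.1 (by
      simpa [mul_assoc] using (inferInstance : (center (G2 F)).Normal).conj_mem' _ (mem_center_g2.2 e) d))
    have c1 : Scal ((d * a * d⁻¹ * (d * a * d⁻¹) : G2 F) : M2 F) := by
      rw [conj_mul, a2]; simpa using scal_one
    rw [Units.val_mul, e, show (α • (1 : M2 F) + β • (a : M2 F)) * (α • (1 : M2 F) + β • (a : M2 F)) =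
      (α * α + β * β) • (1 : M2 F) + (2 * α * β) • (a : M2 F) by
        simp only [add_mul, mul_add, smul_mul_assoc, mul_smul_comm, one_mul, mul_one, a3]; module, scal_lin hs] at c1
    rw [e, scal_lin hs] at b1
    rw [show α = 0 by simpa [h2, b1] using c1, zero_smul, zero_add] at e
    exact g2_conj_pm (a2 ▸ one_mem _) e
  have a7 : Nat.card ↥(centralizer {a} ⊓ D.1) * (centralizer {a}).relIndex D = Nat.card D.1 := by
    rw [← inf_relIndex_right, ← relIndex_bot_left, ← relIndex_bot_left,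
      relIndex_mul_relIndex _ _ _ bot_le inf_le_right]
  have a8 := card_dvd_of_le (inf_le_left : centralizer {a} ⊓ D.1 ≤ _)
  have a9 := factorization_card_sylow D
  have f1 : (Fintype.card F - 1).factorization 2 = 1 := fac2_eq_one (by omega)
  have n1 : Fintype.card F - 1 ≠ 0 := by omega
  have n2 := pow_sub_one_ne_zero h1 two_ne_zero
  rw [card_G2, Nat.card_eq_fintype_card (α := F), fac2_mul n1 (by positivity), fac2_mul (by positivity) n2,
    fac2_odd hF, fac2_sq_sub_one h1, f1] at a9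
  have f2 : 2 ≤ (Fintype.card F + 1).factorization 2 :=
    (Nat.prime_two.pow_dvd_iff_le_factorization (by omega)).1 (by omega)
  rw [card_cent_spl a5, Nat.card_eq_fintype_card (α := F)] at a8
  have f3 := (Nat.factorization_le_iff_dvd Nat.card_pos.ne' (pow_ne_zero _ n1)).2 a8 2
  rw [sq, fac2_mul n1 n1, f1] at f3
  have n3 : (centralizer {a}).relIndex D ≠ 0 := index_ne_zero_of_finite
  rw [← a7, fac2_mul Nat.card_pos.ne' n3] at a9
  have f4 : ((centralizer {a}).relIndex D.1).factorization 2 ≤ 1 := by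
    generalize (centralizer {a}).relIndex D.1 = t at a6 n3
    interval_cases t
    exacts [absurd rfl n3, by simp, Nat.prime_two.factorization_self.le]
  omega

theorem nr_gl {D : Type*} [Group D] [Finite D] {W : Type*} [AddCommGroup W] [Module F W] [Nontrivial W]
    [FiniteDimensional F W] (ρ : D →* (W ≃ₗ[F] W)) (hρ : Function.Injective ρ) (h2 : (2 : F) ≠ 0) {m r n k : ℕ}
    (hn : n = m * finrank F W + r) (D0 : Sylow 2 D) (T : Sylow 2 (Perm (Fin m)))
    (hc : ∑ i ∈ Finset.range n, (Fintype.card F ^ (i + 1) - 1).factorization 2 ≤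
      m * (Nat.card D).factorization 2 + m.factorial.factorization 2 + r)
    (h : (∀ E : Subgroup (Wr D (Fin m) × (Fin r → ℤˣ)), IsElementaryAbelian 2 E → Nat.card E ≤ 2 ^ n) →
      NR k ((wsub D0.1 T.1).prod (⊤ : Subgroup (Fin r → ℤˣ)))) (S : Sylow 2 (GL (Fin n) F)) : NR k S.1 := by
  classical
  have hV : finrank F ((Fin m → W) × (Fin r → F)) = n := by simp [finrank_pi_fintype, hn]
  have hF := two_ne_zero_iff_odd.1 h2
  have h3 := wrL_injective (I := Fin m) hρ (sgnL_injective (κ := Fin r) h2)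
  let e := ((GeneralLinearGroup.toLin' (finBasisOfFinrankEq F _ hV)).trans
    (LinearMap.GeneralLinearGroup.generalLinearEquiv F _)).symm
  refine nr_sylow (e.toMonoidHom.comp (wrL ρ (sgnL F (Fin r)))) (e.injective.comp h3)
    (isPGroup_prod_top (isPGroup_wsub D0.isPGroup' T.isPGroup') (isPGroup_signs _)) ?_
    (h fun E hE => hV ▸ nr_card_le h2 _ h3 E hE) S
  rw [← Nat.card_congr e.toEquiv, fac2_card_gl hF hV, factorization_card_prod_top, factorization_card_wsub,
    factorization_card_sylow, factorization_card_sylow_perm, card_signs, Nat.factorization_pow_self Nat.prime_two]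
  simpa using hc

end Cfsg.Agent.H28
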