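import Cfsg.Agent.H28.FieldAut
import Mathlib.GroupTheory.Sylow

/-! A finite group acting on `F × F` and containing the natural `SL₂(F)` with normalizer of `p'`-index. -/

set_option autoImplicit false
set_option linter.unusedSectionVars false

namespace Cfsg.Agent.H28.NS

open Subgroup

variable {F : Type*} [Field F] [Finite F] (Γ : Type*) [Group Γ] [Finite Γ] [DistribMulAction Γ (F × F)]

variable (F) in
/-- the stabilizer of the line `F × 0` -/
def B : Subgroup Γ where
  carrier := {g | ∀ v : F × F, v.2 = 0 → (g • v).2 = 0}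
  mul_mem' := fun ha hb v hv => by rw [mul_smul]; exact ha _ (hb v hv)
  one_mem' := fun v hv => by simpa using hv
  inv_mem' := fun {g} hg => by
    obtain ⟨n, hn⟩ := (isOfFinOrder_of_finite g).mem_powers_iff_mem_zpowers.2 (inv_mem (mem_zpowers g))
    rw [← hn]
    clear hn
    induction n with
    | zero => intro v hv; simpa using hv
    | succ n ih => intro v hv; simp only [pow_succ, mul_smul]; exact ih _ (hg v hv)

variable (F) in
/-- the upper unitriangular group -/
def Q : Subgroup Γ where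
  carrier := {g | ∃ a : F, ∀ v : F × F, g • v = (v.1 + a * v.2, v.2)}
  mul_mem' := by
    rintro g h ⟨a, ha⟩ ⟨b, hb⟩
    exact ⟨a + b, fun v => by rw [mul_smul, hb, ha]; ext <;> simp; ring⟩
  one_mem' := ⟨0, fun v => by simp⟩
  inv_mem' := by
    rintro g ⟨a, ha⟩
    exact ⟨-a, fun v => by rw [inv_smul_eq_iff, ha]; ext <;> simp⟩

variable (F) in
/-- the elements acting trivially on the line and on the quotient -/
def K : Subgroup Γ where
  carrier := {g | (∀ v : F × F, (g • v).2 = v.2) ∧ ∀ v : F × F, v.2 = 0 → g • v = v}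
  mul_mem' := fun ha hb => ⟨fun v => by rw [mul_smul, ha.1, hb.1], fun v hv => by rw [mul_smul, hb.2 v hv, ha.2 v hv]⟩
  one_mem' := ⟨fun v => by simp, fun v _ => by simp⟩
  inv_mem' := fun {g} hg => ⟨fun v => by rw [← hg.1 (g⁻¹ • v), smul_inv_smul],
    fun v hv => by rw [inv_smul_eq_iff, hg.2 v hv]⟩

variable {Γ}

theorem Q_le_K : Q F Γ ≤ K F Γ := by
  rintro g ⟨a, ha⟩
  exact ⟨fun v => by rw [ha], fun v hv => by rw [ha, hv]; ext <;> simp [hv]⟩

theorem K_le_B : K F Γ ≤ B F Γ := fun _ hg v hv => (hg.1 v).trans hv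

theorem K_conj {h g : Γ} (hh : h ∈ B F Γ) (hg : g ∈ K F Γ) : h * g * h⁻¹ ∈ K F Γ := by
  refine ⟨fun v => ?_, fun v hv => ?_⟩
  · have := hh (g • h⁻¹ • v - h⁻¹ • v) (by rw [Prod.snd_sub, hg.1, sub_self])
    rwa [smul_sub, smul_inv_smul, Prod.snd_sub, sub_eq_zero, ← mul_smul, ← mul_smul] at this
  · rw [mul_smul, mul_smul, hg.2 _ (inv_mem hh v hv), smul_inv_smul]

variable [FaithfulSMul Γ (F × F)]

theorem eq_of {g h : Γ} (e : ∀ v : F × F, g • v = h • v) : g = h := eq_of_smul_eq_smul e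

theorem Q_fix {x : Γ} (hx : x ∈ Q F Γ) (h1 : x ≠ 1) {v : F × F} (hv : x • v = v) : v.2 = 0 := by
  obtain ⟨a, ha⟩ := hx
  have h0 : a ≠ 0 := by
    rintro rfl
    exact h1 (eq_of (F := F) fun v => by simp [ha])
  have := congrArg Prod.fst (ha v ▸ hv)
  simpa [h0] using this

theorem fixB {x g : Γ} (hx : x ∈ Q F Γ) (h1 : x ≠ 1) (h : g * x * g⁻¹ ∈ Q F Γ) : g ∈ B F Γ := fun v hv =>
  Q_fix h (by simpa using h1) (by rw [mul_smul, mul_smul, inv_smul_smul, (Q_le_K hx).2 v hv])

theorem K_pow (p : ℕ) [CharP F p] {g : Γ} (hg : g ∈ K F Γ) : g ^ p = 1 := by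
  have h : ∀ (n : ℕ) (v : F × F), g ^ n • v = v + n • (g • v - v) := fun n v => by
    induction n with
    | zero => simp
    | succ n ih =>
      rw [pow_succ', mul_smul, ih, smul_add, hg.2 (n • (g • v - v)) (by simp [hg.1]), succ_nsmul]
      abel
  refine eq_of (F := F) fun v => ?_
  rw [h, ← Nat.cast_smul_eq_nsmul F, CharP.cast_eq_zero, zero_smul, add_zero, one_smul]

theorem K_pgroup (p : ℕ) [CharP F p] : IsPGroup p (K F Γ) := fun g =>
  ⟨1, Subtype.ext (by simpa using K_pow p g.2)⟩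

/-- the hypotheses -/
structure Hyp (p : ℕ) (L : Subgroup Γ) (X Y : F → Γ) (T : Sylow p Γ) (a₀ : F) : Prop where
  lin : ∀ l ∈ L, ∀ (c : F) (v : F × F), l • c • v = c • l • v
  X_mem : ∀ a, X a ∈ L
  Y_mem : ∀ a, Y a ∈ L
  X_smul : ∀ a (v : F × F), X a • v = (v.1 + a * v.2, v.2)
  Y_smul : ∀ a (v : F × F), Y a • v = (v.1, a * v.1 + v.2)
  fix : ∀ l ∈ L, l • ((1, 0) : F × F) = (1, 0) → l ∈ Q F Γ
  QT : Q F Γ ≤ T
  TN : (T : Subgroup Γ) ≤ normalizer (L : Set Γ)
  a0 : a₀ ≠ 0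
  Ta : ∀ t ∈ (T : Subgroup Γ), t • ((a₀, 0) : F × F) = (a₀, 0)

namespace Hyp

variable {p : ℕ} [Fact p.Prime] [CharP F p] {L : Subgroup Γ} {X Y : F → Γ} {T : Sylow p Γ} {a₀ : F}
  (H : Hyp p L X Y T a₀)
include H

theorem XQ (a : F) : X a ∈ Q F Γ := ⟨a, H.X_smul a⟩

theorem Q_eq {x : Γ} (hx : x ∈ Q F Γ) : ∃ a, x = X a := hx.imp fun a ha => eq_of (F := F) fun v => by
  rw [ha, H.X_smul]

theorem QL : Q F Γ ≤ L := fun x hx => by
  obtain ⟨a, rfl⟩ := H.Q_eq hx
  exact H.X_mem a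

theorem X_add (a b : F) : X (a + b) = X a * X b := eq_of (F := F) fun v => by
  rw [mul_smul, H.X_smul, H.X_smul, H.X_smul]; ext <;> simp; ring

theorem X_inj {a b : F} (h : X a = X b) : a = b := by
  have := H.X_smul a (0, 1)
  rw [h, H.X_smul] at this
  simpa using this.symm

theorem X_zero : X 0 = 1 := eq_of (F := F) fun v => by simp [H.X_smul]

theorem X_ne {a : F} (h : a ≠ 0) : X a ≠ 1 := fun e => h (H.X_inj (e.trans H.X_zero.symm))

theorem scalar (f : F × F →+ F × F) (hf : ∀ l ∈ L, ∀ v, f (l • v) = l • f v) : ∃ c : F, ∀ v, f v = c • v := by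
  have h1 : ∀ a b, f (a * b, 0) = (a * (f (0, b)).2, 0) := fun a b => by
    have := hf _ (H.X_mem a) (0, b)
    rw [H.X_smul, H.X_smul, show ((0 + a * b, b) : F × F) = (a * b, 0) + (0, b) by simp, map_add] at this
    rw [eq_sub_of_add_eq this]; ext <;> simp
  have h2 : ∀ b, f (0, b) = (0, (f (b, 0)).1) := fun b => by
    have := hf _ (H.Y_mem 1) (b, 0)
    rw [H.Y_smul, H.Y_smul, show ((b, 1 * b + 0) : F × F) = (0, b) + (b, 0) by simp, map_add] at this
    rw [eq_sub_of_add_eq this]; ext <;> simp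
  refine ⟨(f (0, 1)).2, fun v => ?_⟩
  have h3 : ∀ a, f (a, 0) = (a * (f (0, 1)).2, 0) := fun a => by simpa using h1 a 1
  rw [show v = (v.1, 0) + (0, v.2) by simp, map_add, h2 v.2, h3, h3]
  ext <;> simp [mul_comm]

theorem sem {t : Γ} (ht : t ∈ (T : Subgroup Γ)) :
    ∃ s : F ≃+* F, ∀ (c : F) (v : F × F), t • c • v = s c • t • v := by
  have h : ∀ c : F, ∃ d : F, ∀ v : F × F, t • c • v = d • t • v := fun c => by
    obtain ⟨d, hd⟩ := H.scalar (AddMonoidHom.mk' (fun v => t • c • t⁻¹ • v) (by simp)) fun l hl v => by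
      have := H.lin _ ((mem_normalizer_iff''.1 (H.TN ht) l).1 hl) c (t⁻¹ • v)
      simp only [mul_smul, smul_inv_smul, inv_smul_eq_iff] at this
      simp only [AddMonoidHom.mk'_apply, this]
    exact ⟨d, fun v => by simpa using hd (t • v)⟩
  choose s hs using h
  have e : ∀ c, t • ((c * a₀, 0) : F × F) = (s c * a₀, 0) := fun c => by
    simpa [H.Ta t ht] using hs c (a₀, 0)
  have u : ∀ {c d : F}, t • ((c * a₀, 0) : F × F) = (d * a₀, 0) → s c = d := fun h => by
    rw [e] at h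
    exact mul_right_cancel₀ H.a0 (congrArg Prod.fst h)
  let r : F →+* F :=
    { toFun := s
      map_one' := u (by simpa using H.Ta t ht)
      map_mul' := fun a b => u (by simpa [e, mul_assoc] using hs a (b * a₀, 0))
      map_zero' := u (by simp [Prod.mk_zero_zero])
      map_add' := fun a b => u (by
        rw [show (((a + b) * a₀, 0) : F × F) = (a * a₀, 0) + (b * a₀, 0) by simp [add_mul], smul_add, e, e]
        simp [add_mul]) }
  exact ⟨RingEquiv.ofBijective r (Finite.injective_iff_bijective.1 r.injective), hs⟩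

theorem sem_W {t : Γ} (ht : t ∈ (T : Subgroup Γ)) {s : F ≃+* F}
    (hs : ∀ (c : F) (v : F × F), t • c • v = s c • t • v) (c : F) : t • ((c * a₀, 0) : F × F) = (s c * a₀, 0) := by
  simpa [H.Ta t ht] using hs c (a₀, 0)

theorem TB : (T : Subgroup Γ) ≤ B F Γ := fun t ht v hv => by
  obtain ⟨s, hs⟩ := H.sem ht
  rw [show v = (v.1 / a₀ * a₀, 0) by ext <;> simp [H.a0, hv], H.sem_W ht hs]

theorem factK {t : Γ} (ht : t ∈ (T : Subgroup Γ)) (h : ∀ c : F, t • ((c * a₀, 0) : F × F) = (c * a₀, 0)) :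
    t ∈ Q F Γ := by
  obtain ⟨s, hs⟩ := H.sem ht
  have h1 : ∀ c, s c = c := fun c => by
    have := h c
    rw [H.sem_W ht hs] at this
    exact mul_right_cancel₀ H.a0 (congrArg Prod.fst this)
  have h2 : ∀ v : F × F, t • v = (v.1 + (t • ((0, 1) : F × F)).1 * v.2, (t • ((0, 1) : F × F)).2 * v.2) := fun v => by
    conv_lhs => rw [show v = (v.1 / a₀ * a₀, 0) + v.2 • (0, 1) by ext <;> simp [H.a0], smul_add, h, hs, h1]
    rw [div_mul_cancel₀ _ H.a0]
    ext <;> simp [mul_comm]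
  set d := (t • ((0, 1) : F × F)).2
  have h3 : ∀ (n : ℕ) (v : F × F), (t ^ n • v).2 = d ^ n * v.2 := fun n => by
    induction n with
    | zero => simp
    | succ n ih => intro v; rw [pow_succ, mul_smul, ih, h2, pow_succ, mul_assoc]
  obtain ⟨k, hk⟩ := T.isPGroup' ⟨t, ht⟩
  have h4 := h3 (p ^ k) (0, 1)
  rw [show t ^ p ^ k = 1 from congrArg Subtype.val hk, one_smul, mul_one] at h4
  have h5 : d = 1 := by
    have : (d - 1) ^ p ^ k = 0 := by rw [sub_pow_char_pow, ← h4, one_pow, sub_self]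
    exact sub_eq_zero.1 (pow_eq_zero_iff (pow_ne_zero k (Fact.out : p.Prime).ne_zero) |>.1 this)
  exact ⟨(t • ((0, 1) : F × F)).1, fun v => by rw [h2, h5, one_mul]⟩

theorem quad (hp : p ≠ 2) {x g : Γ} (hx : x ∈ Q F Γ) (ht : g * x * g⁻¹ ∈ (T : Subgroup Γ)) :
    g * x * g⁻¹ ∈ Q F Γ := by
  obtain ⟨s, hs⟩ := H.sem ht
  have h1 : ∀ c, s (s c - c) = s c - c := fun c => by
    have := (Q_le_K hx).2 (x • g⁻¹ • ((c * a₀, 0) : F × F) - g⁻¹ • (c * a₀, 0)) (by simp [(Q_le_K hx).1])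
    have h : (g * x * g⁻¹) • ((g * x * g⁻¹) • ((c * a₀, 0) : F × F) - (c * a₀, 0)) =
        (g * x * g⁻¹) • ((c * a₀, 0) : F × F) - (c * a₀, 0) := by
      simp only [mul_smul, smul_sub, inv_smul_smul] at this ⊢
      rw [← smul_sub, this, smul_sub, smul_inv_smul]
    rw [H.sem_W ht hs, Prod.mk_sub_mk, ← sub_mul, sub_zero, H.sem_W ht hs] at h
    exact mul_right_cancel₀ H.a0 (congrArg Prod.fst h)
  have h2 : (2 : F) ≠ 0 := fun h => hp ((Nat.prime_dvd_prime_iff_eq Fact.out Nat.prime_two).1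
    ((CharP.cast_eq_zero_iff F p 2).1 (by exact_mod_cast h)))
  refine H.factK ht fun c => ?_
  have a := h1 c
  have b := h1 (c * c)
  simp only [map_sub, map_mul] at a b
  have : 2 * (s c - c) ^ 2 = 0 := by linear_combination b - (s (s c) + 2 * s c - c) * a
  rw [H.sem_W ht hs, sub_eq_zero.1 (pow_eq_zero_iff two_ne_zero |>.1 ((mul_eq_zero.1 this).resolve_left h2))]

theorem three {y z : Γ} (hy : y ∈ (T : Subgroup Γ)) (hz : z ∈ (T : Subgroup Γ))
    (h : (y * y = 1 ∧ z * z = 1) ∨ Nat.card F = 4) : y ∈ Q F Γ ∨ z ∈ Q F Γ ∨ y * z ∈ Q F Γ := by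
  classical
  obtain ⟨s, hs⟩ := H.sem hy
  obtain ⟨r, hr⟩ := H.sem hz
  have sq : ∀ {y : Γ}, y ∈ (T : Subgroup Γ) → ∀ {s : F ≃+* F}, (∀ (c : F) (v : F × F), y • c • v = s c • y • v) →
      (y * y = 1 ∨ Nat.card F = 4) → s ^ 2 = 1 := by
    intro y hy s hs h
    ext c
    rcases h with h | h
    · have := congrArg (· • ((c * a₀, 0) : F × F)) h
      simp only [mul_smul, H.sem_W hy hs, one_smul] at this
      exact mul_right_cancel₀ H.a0 (congrArg Prod.fst this)
    · have := Fintype.ofFinite F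
      have e : ∀ a : F, a ^ 4 = a := fun a => by
        have := FiniteField.pow_card a
        rwa [← Nat.card_eq_fintype_card, h] at this
      have h2 : (2 : F) = 0 := by
        have := FiniteField.cast_card_eq_zero F
        rw [← Nat.card_eq_fintype_card, h] at this
        exact pow_eq_zero_iff two_ne_zero |>.1 (by rw [← this]; norm_num)
      change s (s c) = c
      have f : c * ((c - 1) * (c ^ 2 + c + 1)) = 0 := by linear_combination e c
      rcases mul_eq_zero.1 f with f | f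
      · simp [f]
      rcases mul_eq_zero.1 f with f | f
      · simp [sub_eq_zero.1 f]
      have f' := congrArg s f
      simp only [map_add, map_pow, map_one, map_zero] at f'
      have : (s c - c) * (s c - (c + 1)) = 0 := by linear_combination f' - f + (c - s c - c * s c + c ^ 2) * h2
      rcases mul_eq_zero.1 this with g | g
      · rw [sub_eq_zero.1 g, sub_eq_zero.1 g]
      · rw [sub_eq_zero.1 g, map_add, map_one, sub_eq_zero.1 g]; linear_combination h2
  have s2 := sq hy hs (h.imp_left And.left)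
  have r2 := sq hz hr (h.imp_left And.right)
  by_cases h1 : s = 1
  · exact .inl (H.factK hy fun c => by rw [H.sem_W hy hs, h1]; rfl)
  by_cases h2 : r = 1
  · exact .inr (.inl (H.factK hz fun c => by rw [H.sem_W hz hr, h2]; rfl))
  have h3 : s = r := by
    by_contra h3
    have := Fintype.ofFinite (F ≃+* F)
    have := (Finset.card_le_card (s := {1, s, r}) (by simp [Finset.insert_subset_iff, s2, r2])).trans
      (IsCyclic.card_pow_eq_one_le (α := F ≃+* F) two_pos)
    rw [Finset.card_eq_three.2 ⟨1, s, r, Ne.symm h1, Ne.symm h2, h3, rfl⟩] at this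
    omega
  refine .inr (.inr (H.factK (mul_mem hy hz) fun c => ?_))
  rw [mul_smul, H.sem_W hz hr, H.sem_W hy hs, ← h3, show s (s c) = (s ^ 2) c from rfl, s2]; rfl

end Hyp

end Cfsg.Agent.H28.NS
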