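import Cfsg.Agent.H28.NatSL1

/-! Weak and strong closure of the root group; normality of the natural `SL₂`. -/

set_option autoImplicit false
set_option linter.unusedSectionVars false

namespace Cfsg.Agent.H28.NS.Hyp

open Subgroup

variable {F : Type*} [Field F] [Finite F] {Γ : Type*} [Group Γ] [Finite Γ] [DistribMulAction Γ (F × F)]
  [FaithfulSMul Γ (F × F)] {p : ℕ} [Fact p.Prime] [CharP F p] {L : Subgroup Γ} {X Y : F → Γ} {T : Sylow p Γ}
  {a₀ : F} (H : Hyp p L X Y T a₀)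
include H

theorem small (h : ∀ c : F, c ≠ 0 → c = 1) {t : Γ} (ht : t ∈ (T : Subgroup Γ)) : t ∈ Q F Γ :=
  H.factK ht fun c => by
    by_cases h0 : c = 0
    · simp [h0, Prod.mk_zero_zero]
    · simpa [h c h0] using H.Ta t ht

theorem Q_sq (hp : p = 2) {x : Γ} (hx : x ∈ Q F Γ) (g : Γ) : g * x * g⁻¹ * (g * x * g⁻¹) = 1 := by
  subst hp
  rw [← pow_two, conj_pow, K_pow 2 (Q_le_K hx)]; simp

theorem wc {g : Γ} (h : ∀ x ∈ Q F Γ, g * x * g⁻¹ ∈ (T : Subgroup Γ)) : g ∈ B F Γ := by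
  by_contra hg
  have n : ∀ a : F, a ≠ 0 → g * X a * g⁻¹ ∉ Q F Γ := fun a ha e => hg (fixB (H.XQ a) (H.X_ne ha) e)
  by_cases hp : p = 2
  · refine n 1 one_ne_zero (H.small (fun c hc => ?_) (h _ (H.XQ 1)))
    by_contra h1
    have h2 : c + 1 ≠ 0 := by
      subst hp
      rwa [← CharTwo.sub_eq_add, sub_ne_zero]
    rcases H.three (h _ (H.XQ c)) (h _ (H.XQ 1)) (.inl ⟨H.Q_sq hp (H.XQ _) g, H.Q_sq hp (H.XQ _) g⟩) with e | e | e
    · exact n c hc e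
    · exact n 1 one_ne_zero e
    · exact n _ h2 (by rw [H.X_add]; simpa [mul_assoc] using e)
  · exact n 1 one_ne_zero (H.quad hp (H.XQ 1) (h _ (H.XQ 1)))

omit H in
theorem exists_conj {R : Subgroup Γ} (hR : IsPGroup p R) : ∃ h : Γ, ∀ r ∈ R, h * r * h⁻¹ ∈ (T : Subgroup Γ) := by
  obtain ⟨S, hS⟩ := hR.exists_le_sylow
  obtain ⟨h, e⟩ := MulAction.exists_smul_eq Γ S T
  refine ⟨h, fun r hr => ?_⟩
  rw [← e, Sylow.coe_subgroup_smul, mem_pointwise_smul_iff_inv_smul_mem]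
  simpa [mul_assoc] using hS hr

theorem KQ : K F Γ ≤ Q F Γ := fun γ hγ => by
  obtain ⟨h, hh⟩ := exists_conj (T := T) (K_pgroup (F := F) (Γ := Γ) p)
  have hB := H.wc fun x hx => hh x (Q_le_K hx)
  have := hh _ (K_conj (inv_mem hB) hγ)
  exact H.factK (by simpa [mul_assoc] using this) fun c => hγ.2 _ rfl

theorem Qconj {h x : Γ} (hh : h ∈ B F Γ) (hx : x ∈ Q F Γ) : h * x * h⁻¹ ∈ Q F Γ := H.KQ (K_conj hh (Q_le_K hx))

theorem conjT {R : Subgroup Γ} (hR : IsPGroup p R) (hB : R ≤ B F Γ) :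
    ∃ h ∈ B F Γ, ∀ r ∈ R, h * r * h⁻¹ ∈ (T : Subgroup Γ) := by
  obtain ⟨h, hh⟩ := exists_conj (T := T) (hR.to_sup_of_normal_right' (K_pgroup (F := F) (Γ := Γ) p)
    fun r hr => mem_normalizer_iff.2 fun k => ⟨K_conj (hB hr), fun e => by
      simpa [mul_assoc] using K_conj (inv_mem (hB hr)) e⟩)
  exact ⟨h, H.wc fun x hx => hh x (mem_sup_right (Q_le_K hx)), fun r hr => hh r (mem_sup_left hr)⟩

theorem sc (h4 : Nat.card F ≠ 4) {x g : Γ} (hx : x ∈ Q F Γ) (ht : g * x * g⁻¹ ∈ (T : Subgroup Γ)) :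
    g * x * g⁻¹ ∈ Q F Γ := by
  by_cases hp : p = 2
  swap
  · exact H.quad hp hx ht
  by_contra hy
  have x1 : x ≠ 1 := by rintro rfl; exact hy (by simp)
  have gB : g ∉ B F Γ := fun h => hy (H.Qconj h hx)
  have yy := H.Q_sq hp hx g
  set y := g * x * g⁻¹ with e
  have h : ∀ a, ∃ b, y * X a * y⁻¹ = X b := fun a => H.Q_eq (H.Qconj (H.TB ht) (H.XQ a))
  choose γ hγ using h
  subst hp
  let δ : F →+ F := AddMonoidHom.mk' (fun a => a + γ a) fun a b => by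
    have : γ (a + b) = γ a + γ b := H.X_inj (by rw [H.X_add, ← hγ, ← hγ, ← hγ, H.X_add]; group)
    rw [this]; ring
  have yi : y⁻¹ = y := inv_eq_of_mul_eq_one_right yy
  have γγ : ∀ a, γ (γ a) = a := fun a => H.X_inj (by
    rw [← hγ, ← hγ, yi]
    calc y * (y * X a * y) * y = y * y * X a * (y * y) := by simp only [mul_assoc]
      _ = X a := by rw [yy, one_mul, mul_one])
  have rk : δ.range ≤ δ.ker := by
    rintro _ ⟨a, rfl⟩
    change δ (a + γ a) = 0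
    rw [map_add]
    change a + γ a + (γ a + γ (γ a)) = 0
    rw [γγ, add_comm (γ a), CharTwo.add_self_eq_zero]
  let R : Subgroup Γ := (Q F Γ ⊓ centralizer {y}).comap (MulAut.conj g).toMonoidHom
  have RB : R ≤ B F Γ := fun r hr => fixB hx x1 (by
    have : g * r * g⁻¹ * y = y * (g * r * g⁻¹) := mem_centralizer_singleton_iff.1 hr.2
    have : r * x * r⁻¹ = x := by
      calc r * x * r⁻¹ = g⁻¹ * (g * r * g⁻¹ * y) * g * r⁻¹ := by rw [e]; group
        _ = x := by rw [this, e]; group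
    rwa [this])
  obtain ⟨h, hB, hh⟩ := H.conjT (R := R) ((((K_pgroup (F := F) (Γ := Γ) 2).to_le Q_le_K).to_le
    inf_le_left).comap_of_injective _ (MulAut.conj g).injective) RB
  have kT : ∀ a ∈ δ.ker, h * g⁻¹ * X a * (h * g⁻¹)⁻¹ ∈ (T : Subgroup Γ) := fun a ha => by
    have e1 : γ a = a := by
      have : a + γ a = 0 := ha
      rwa [← CharTwo.sub_eq_add, sub_eq_zero, eq_comm] at this
    have := hh (g⁻¹ * X a * g) ⟨by simpa [mul_assoc] using H.XQ a, by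
      have := hγ a
      rw [e1, mul_inv_eq_iff_eq_mul] at this
      simpa [mul_assoc, mem_centralizer_singleton_iff] using this.symm⟩
    simpa [mul_assoc] using this
  have n : ∀ a : F, a ≠ 0 → h * g⁻¹ * X a * (h * g⁻¹)⁻¹ ∉ Q F Γ := fun a ha e => gB (by
    simpa using inv_mem (mul_mem (inv_mem hB) (fixB (H.XQ a) (H.X_ne ha) e)))
  have k2 : Nat.card δ.ker ≤ 2 := by
    by_contra hk
    have := Fintype.ofFinite δ.ker
    rw [Nat.card_eq_fintype_card, not_le, Fintype.two_lt_card_iff] at hk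
    obtain ⟨a, b, c, h1, h2, h3⟩ := hk
    have ne : ∀ {u v : δ.ker}, u ≠ v → u.1 + v.1 ≠ 0 := fun h => by
      rwa [← CharTwo.sub_eq_add, sub_ne_zero, Ne, Subtype.coe_inj]
    rcases H.three (kT _ (add_mem a.2 b.2)) (kT _ (add_mem a.2 c.2))
      (.inl ⟨H.Q_sq rfl (H.XQ _) _, H.Q_sq rfl (H.XQ _) _⟩) with e | e | e
    · exact n _ (ne h1) e
    · exact n _ (ne h2) e
    · refine n _ (ne h3) ?_
      rw [show b.1 + c.1 = (a.1 + b.1) + (a.1 + c.1) by linear_combination -CharTwo.add_self_eq_zero a.1, H.X_add]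
      simpa [mul_assoc] using e
  have c4 : Nat.card F ≤ 4 := by
    rw [← δ.ker.card_mul_index, AddSubgroup.index_ker]
    have := AddSubgroup.card_le_of_le rk
    nlinarith
  have := Fintype.ofFinite F
  obtain ⟨m, -, hm⟩ := FiniteField.card F 2
  rw [← Nat.card_eq_fintype_card] at hm
  have m1 : (m : ℕ) = 1 := by
    have := m.pos
    have := (Nat.pow_le_pow_iff_right one_lt_two).1 (hm ▸ c4 : 2 ^ (m : ℕ) ≤ 2 ^ 2)
    have : (m : ℕ) ≠ 2 := fun e => h4 (by rw [hm, e]; rfl)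
    omega
  rw [m1, pow_one, Nat.card_eq_two_iff' (0 : F)] at hm
  exact hy (H.small (fun c hc => hm.unique hc one_ne_zero) ht)

theorem trans {M : Subgroup Γ} (hX : ∀ a, X a ∈ M) (hY : ∀ a, Y a ∈ M) {w : F × F} (hw : w ≠ 0) :
    ∃ m ∈ M, m • w = (1, 0) := by
  have h : ∀ w : F × F, w.2 ≠ 0 → ∃ m ∈ M, m • w = (1, 0) := fun w h =>
    ⟨Y (-w.2) * X ((1 - w.1) / w.2), mul_mem (hY _) (hX _), by
      rw [mul_smul, H.X_smul, H.Y_smul]; ext <;> simp [h]⟩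
  by_cases h2 : w.2 = 0
  · obtain ⟨m, hm, e⟩ := h (Y 1 • w) (by
      rw [H.Y_smul]; simpa [h2] using fun h1 => hw (Prod.ext h1 h2))
    exact ⟨m * Y 1, mul_mem hm (hY 1), by rw [mul_smul, e]⟩
  · exact h w h2

variable (S : ∀ g : Γ, ∀ x ∈ Q F Γ, g * x * g⁻¹ ∈ (T : Subgroup Γ) → g * x * g⁻¹ ∈ Q F Γ)
include S

theorem scB {g x : Γ} (hx : x ∈ Q F Γ) (h : g * x * g⁻¹ ∈ B F Γ) : g * x * g⁻¹ ∈ Q F Γ := by
  obtain ⟨k, hk, hh⟩ := H.conjT (R := zpowers (g * x * g⁻¹)) (by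
    rintro ⟨_, n, rfl⟩
    refine ⟨1, Subtype.ext ?_⟩
    simp only [SubgroupClass.coe_pow, coe_one, pow_one]
    rw [← zpow_natCast, ← zpow_mul, mul_comm, zpow_mul, zpow_natCast, conj_pow, K_pow p (Q_le_K hx)]
    simp) (zpowers_le.2 h)
  have := S (k * g) x hx (by simpa [mul_assoc] using hh _ (mem_zpowers _))
  simpa [mul_assoc] using H.Qconj (inv_mem hk) this

theorem memB {g : Γ} {δ : F × F} (h0 : δ ≠ 0) (h1 : δ.2 = 0) (h2 : (g • δ).2 = 0) : g ∈ B F Γ := by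
  by_contra hg
  let D : Γ → Set (F × F) := fun g => {v | v.2 = 0 ∧ (g • v).2 = 0}
  obtain ⟨g, ⟨hg, δ, h0, h1, h2⟩, hm⟩ := Set.exists_max_image {g | g ∉ B F Γ ∧ ∃ δ ≠ 0, δ ∈ D g}
    (fun g => (D g).ncard) (Set.toFinite _) ⟨g, hg, δ, h0, h1, h2⟩
  obtain ⟨v, hv, hu⟩ : ∃ v : F × F, v.2 = 0 ∧ (g⁻¹ • v).2 ≠ 0 := by
    by_contra! h
    exact hg (inv_mem_iff.1 h)
  set u := g⁻¹ • v with eu
  have a0 : δ.1 / u.2 ≠ 0 := div_ne_zero (fun e => h0 (Prod.ext e h1)) hu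
  set x := X (δ.1 / u.2)
  have xQ : x ∈ Q F Γ := H.XQ _
  have xu : x • u = u + δ := by rw [H.X_smul]; ext <;> simp [hu, h1]
  have s1 : (g • ·) '' D g ⊆ D (g * x⁻¹ * g⁻¹) := by
    rintro _ ⟨w, hw, rfl⟩
    refine ⟨hw.2, ?_⟩
    rw [mul_smul, mul_smul, inv_smul_smul, (Q_le_K (inv_mem xQ)).2 w hw.1]
    exact hw.2
  have s2 : g • (u + δ) ∈ D (g * x⁻¹ * g⁻¹) := ⟨by rw [smul_add, eu, smul_inv_smul, Prod.snd_add, hv, h2, add_zero], by
    rw [mul_smul, mul_smul, inv_smul_smul, ← xu, inv_smul_smul, eu, smul_inv_smul, hv]⟩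
  have s3 : g • (u + δ) ∉ (g • ·) '' D g := by
    rintro ⟨w, hw, e⟩
    have := hw.1
    rw [smul_left_cancel g e, Prod.snd_add, h1, add_zero] at this
    exact hu this
  have lt := Set.ncard_lt_ncard ((Set.ssubset_iff_of_subset s1).2 ⟨_, s2, s3⟩)
  rw [Set.ncard_image_of_injective _ (MulAction.injective g)] at lt
  have hB : g * x⁻¹ * g⁻¹ ∈ B F Γ := by
    by_contra hB
    exact lt.not_ge (hm _ ⟨hB, g • δ, by rwa [Ne, smul_eq_zero_iff_eq], s1 ⟨δ, ⟨h1, h2⟩, rfl⟩⟩)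
  exact hg (fixB (inv_mem xQ) (inv_ne_one.2 (H.X_ne a0)) (H.scB S (inv_mem xQ) hB))

theorem normal : L.Normal := by
  have c : ∀ g : Γ, ∀ x ∈ Q F Γ, g * x * g⁻¹ ∈ L := fun g x hx => by
    obtain ⟨l, hl, e⟩ := H.trans H.X_mem H.Y_mem (w := g • ((1, 0) : F × F)) (by simp [smul_eq_zero_iff_eq])
    have := H.QL (H.Qconj (H.memB S (g := l * g) (δ := (1, 0)) (by simp) rfl (by rw [mul_smul, e])) hx)
    simpa [mul_assoc] using mul_mem (mul_mem (inv_mem hl) this) hl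
  have hX : ∀ a, X a ∈ normalClosure (Q F Γ : Set Γ) := fun a => subset_normalClosure (H.XQ a)
  have hY : ∀ a, Y a ∈ normalClosure (Q F Γ : Set Γ) := fun a => by
    obtain ⟨l, hl, e⟩ := H.trans H.X_mem H.Y_mem (w := ((0, 1) : F × F)) (by simp)
    have := H.fix _ (mul_mem (mul_mem hl (H.Y_mem a)) (inv_mem hl)) (by
      rw [mul_smul, mul_smul, ← e, inv_smul_smul, H.Y_smul]; simp)
    simpa [mul_assoc] using normalClosure_normal.conj_mem _ (subset_normalClosure this) l⁻¹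
  have : L = normalClosure (Q F Γ : Set Γ) := by
    refine le_antisymm (fun l hl => ?_) ((closure_le _).2 fun y hy => ?_)
    · obtain ⟨m, hm, e⟩ := H.trans (M := L ⊓ normalClosure (Q F Γ : Set Γ)) (fun a => ⟨H.X_mem a, hX a⟩)
        (fun a => ⟨H.Y_mem a, hY a⟩) (w := l • ((1, 0) : F × F)) (by simp [smul_eq_zero_iff_eq])
      have := subset_normalClosure (H.fix _ (mul_mem hm.1 hl) (by rw [mul_smul, e]))
      simpa using mul_mem (inv_mem (mem_inf.1 hm).2) this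
    · obtain ⟨x, hx, e⟩ := Group.mem_conjugatesOfSet_iff.1 hy
      obtain ⟨g, rfl⟩ := isConj_iff.1 e
      exact c g x hx
  rw [this]; infer_instance

end Cfsg.Agent.H28.NS.Hyp
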