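import Cfsg.Agent.H13.EO8
import Cfsg.Agent.H28.Eig

/-! Quadratic field extension subgroups of orthogonal groups. -/

set_option autoImplicit false

namespace Cfsg.Agent.H28

open Module H13 QuadraticMap QuadraticAlgebra

universe u

variable {F : Type u} {V : Type*} [Field F] [AddCommGroup V] [Module F V] {Q : QuadraticForm F V} {δ : F}

/-- self-adjoint square roots of `δ` -/
structure JS (Q : QuadraticForm F V) (δ : F) (J : End F V) : Prop where
  sq : ∀ v, J (J v) = δ • v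
  adj : ∀ u v, polar Q (J u) v = polar Q u (J v)

section Ext

variable [hδ : Fact (∀ r : F, r ^ 2 ≠ δ + 0 * r)]

local notation "L" => QuadraticAlgebra F δ 0

theorem qa_ne : δ ≠ 0 := fun h => hδ.out 0 (by simp [h])

theorem qa_two (h2 : (2 : F) ≠ 0) : (2 : L) ≠ 0 := fun h => h2 (congrArg QuadraticAlgebra.re h)

instance [Fintype F] : Fintype L := .ofEquiv _ (equivProd δ 0).symm

theorem qa_card [Fintype F] : Fintype.card L = Fintype.card F ^ 2 := by
  rw [Fintype.card_congr (equivProd δ 0), Fintype.card_prod, pow_two]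

theorem qa_sgn [Fintype F] : sgn δ = -1 := sgn_eq_neg_one_iff.2 fun ⟨r, h⟩ => hδ.out r (by simp [h, pow_two])

theorem sgn_qnorm [Fintype F] (h2 : (2 : F) ≠ 0) {z : L} (hz : z ≠ 0) : sgn (norm z) = sgn z := by
  have h0 {z : L} (hz : z ≠ 0) : norm z ≠ 0 := mt norm_eq_zero_iff_eq_zero.1 hz
  have h1 {z : L} (h : sgn z = 1) : sgn (norm z) = 1 :=
    let ⟨c, h⟩ := sgn_eq_one_iff.1 h; sgn_eq_one_iff.2 ⟨norm c, by rw [h, map_mul]⟩
  rcases Int.units_eq_one_or (sgn z) with h | h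
  · rw [h, h1 h]
  obtain ⟨a, b, h3⟩ := FiniteField.exists_root_sum_quadratic (f := Polynomial.X ^ 2 - Polynomial.C δ)
    (g := Polynomial.C (-δ) * Polynomial.X ^ 2) (by compute_degree!) (by compute_degree!; exact qa_ne)
    (Nat.odd_iff.1 (odd_card_of_two_ne_zero h2))
  have h4 : norm (⟨a, b⟩ : L) = δ := by simp [norm_def] at h3 ⊢; linear_combination h3
  have h5 : (⟨a, b⟩ : L) ≠ 0 := fun e => qa_ne (δ := δ) (by rw [← h4, e, QuadraticAlgebra.norm_zero])
  obtain ⟨c, h6, rfl⟩ := exists_eq_sq_mul_of_sgn_eq h5 hz (((Int.units_eq_one_or _).resolve_left fun e => by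
    simpa [h4, qa_sgn] using h1 e).trans h.symm)
  rw [h, map_mul, map_pow, sgn_sq_mul (h0 h6) (h0 h5), h4, qa_sgn]

section Re

variable [Module (QuadraticAlgebra F δ 0) V] [IsScalarTower F (QuadraticAlgebra F δ 0) V]
  {R : QuadraticForm (QuadraticAlgebra F δ 0) V} (h : ∀ v, Q v = (R v).re)
include h

omit [IsScalarTower F (QuadraticAlgebra F δ 0) V] in
theorem polar_re (u v : V) : polar Q u v = (polar R u v).re := by simp [polar, h]

omit [IsScalarTower F (QuadraticAlgebra F δ 0) V] in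
theorem polar_im (u v : V) : polar Q u ((ω : L) • v) = δ * (polar R u v).im := by
  simp [polar_re h, polar_smul_right]

omit [IsScalarTower F (QuadraticAlgebra F δ 0) V] in
theorem nd_re : ND Q ↔ ND R := by
  refine ⟨fun H x hx => H x fun y => by simp [polar_re h, hx], fun H x hx => H x fun y => ?_⟩
  ext
  · simpa [polar_re h] using hx y
  · simpa [polar_im h, qa_ne] using hx ((ω : L) • y)

theorem js_re : JS Q δ ((LinearMap.lsmul L V ω).restrictScalars F) where
  sq v := by simp [smul_smul, omega_mul_omega_eq_algebraMap]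
  adj u v := by simp [polar_re h, polar_smul_left, polar_smul_right]

/-- restriction of scalars -/
def reO : OG R →* OG Q where
  toFun g := ⟨g.1.restrictScalars F, fun v => by simp [h]⟩
  map_one' := rfl
  map_mul' _ _ := rfl

theorem reO_apply (g : OG R) (v : V) : (reO h g).1 v = g.1 v := rfl

theorem exists_reO (h2 : (2 : F) ≠ 0) {g : OG Q} (hg : ∀ v, g.1 ((ω : L) • v) = (ω : L) • g.1 v) : ∃ g', reO h g' = g := by
  refine ⟨⟨{ g.1 with map_smul' := fun ⟨x, y⟩ v => ?_ }, fun v => ?_⟩, rfl⟩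
  · simp [mk_eq_add_smul_omega, add_smul, hg]
  · change R (g.1 v) = R v
    ext
    · rw [← h, ← h, OG_map]
    · have := OG_polar g v ((ω : L) • v)
      rw [hg, polar_im h, polar_im h, polar_self', polar_self'] at this
      simpa [qa_ne, h2] using this

omit h in
theorem finrank_re : finrank F V = 2 * finrank L V := by rw [← finrank_mul_finrank F L V, finrank_eq_two]

theorem disc_re [Fintype F] [FiniteDimensional F V] [FiniteDimensional L V] (h2 : (2 : F) ≠ 0) (hR : ND R) :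
    disc Q = (-1) ^ finrank L V * disc R := by
  obtain ⟨b, h3, h4⟩ := hR.exists_orthogonal_basis (qa_two h2)
  have h5 (i) : polarBilin R (b i) (b i) ≠ 0 := by
    rw [polarBilin_apply_apply, polar_self']; exact mul_ne_zero (qa_two h2) (h4 i)
  rw [((nd_re h).2 hR).disc_eq ((basis δ 0).smulTower b), hR.disc_eq b, gdet_of_orthogonal (polarBilin R) _ h3, ← sgn_qnorm h2
    (Finset.prod_ne_zero_iff.2 fun i _ => h5 i), gdet, show Matrix.of _ = Matrix.blockDiagonal fun k =>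
      !![(polar R (b k) (b k)).re, δ * (polar R (b k) (b k)).im; δ * (polar R (b k) (b k)).im, δ * (polar R (b k) (b k)).re] from ?_,
    Matrix.det_blockDiagonal, ← qa_sgn (δ := δ), ← sgn_pow qa_ne, ← sgn_mul (pow_ne_zero _ qa_ne)
      (mt norm_eq_zero_iff_eq_zero.1 (Finset.prod_ne_zero_iff.2 fun i _ => h5 i)), map_prod]
  · congr 1
    rw [← Fin.prod_const, ← Finset.prod_mul_distrib]
    exact Finset.prod_congr rfl fun k _ => by simp [norm_def, -polar_self]; ring
  · ext ⟨i, k⟩ ⟨j, l⟩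
    rw [Matrix.blockDiagonal_apply]
    split_ifs with e
    · obtain rfl : k = l := e
      fin_cases i <;> fin_cases j <;> simp [polar_re h, polar_smul_left, polar_smul_right, basis, -polar_self]
    · simp [polar_re h, polar_smul_left, polar_smul_right, h3 k l e]

end Re

variable {J J' : End F V}

theorem JS.exists_mod (h : JS Q δ J) (h2 : (2 : F) ≠ 0) : ∃ (_ : Module L V) (_ : IsScalarTower F L V)
    (R : QuadraticForm L V), (∀ v, Q v = (R v).re) ∧ ∀ v, (ω : L) • v = J v := by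
  have := qa_ne (δ := δ)
  let _ : Module L V :=
    Module.compHom V ((lift ⟨J, LinearMap.ext fun v => by simp [h.sq]⟩ : L →ₐ[F] End F V) : L →+* End F V)
  have e (a : L) (v : V) : a • v = a.re • v + a.im • J v := by
    change (lift _ : L →ₐ[F] End F V) a v = _
    simp [lift]
  let B : LinearMap.BilinMap L V L := LinearMap.mk₂ L (fun u v : V => ⟨polar Q u v / 2, polar Q u (J v) / (2 * δ)⟩)
    (fun u u' v => by ext <;> simp [polar_add_left, add_div])
    (fun a u v => by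
      ext <;> simp [e, polar_add_left, polar_smul_left, polar_smul_right, h.adj, h.sq] <;> field_simp)
    (fun u v v' => by ext <;> simp [polar_add_right, add_div])
    (fun a u v => by
      ext <;> simp [e, polar_add_right, polar_smul_right, h.sq] <;> field_simp)
  exact ⟨_, ⟨fun c a v => by simp [e, mul_smul]⟩, B.toQuadraticMap, fun v => by simp [B, h2], fun v => by simp [e]⟩

variable [Fintype F] [FiniteDimensional F V]

theorem JS.conj_aux {W : Type*} [AddCommGroup W] [Module F W] [FiniteDimensional F W] [Module L W] [IsScalarTower F L W]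
    {Q' : QuadraticForm F W} {R' : QuadraticForm L W} (h' : ∀ v, Q' v = (R' v).re) (h : JS Q δ J) (h2 : (2 : F) ≠ 0)
    (hQ : ND Q) (e : Iso Q Q') : ∃ e : V ≃ₗ[F] W, (∀ v, Q' (e v) = Q v) ∧ ∀ v, e (J v) = (ω : L) • e v := by
  obtain ⟨_, _, R, h3, h4⟩ := h.exists_mod h2
  have := Module.Finite.of_restrictScalars_finite F L V
  have := Module.Finite.of_restrictScalars_finite F L W
  have h5 := (nd_re h3).1 hQ
  have h6 := (nd_re h').1 (e.nd hQ)
  have h7 : finrank L V = finrank L W := by have := e.finrank_eq; rw [finrank_re (δ := δ), finrank_re (δ := δ)] at this; omega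
  obtain ⟨e, he⟩ := e
  have h8 := hQ.disc_of_isometry e he
  rw [disc_re h3 h2 h5, disc_re h' h2 h6, h7, mul_right_inj] at h8
  obtain ⟨f, hf⟩ := h5.iso_of_ty h6 h7 (by rw [h5.ty_eq (qa_two h2), h6.ty_eq (qa_two h2), h7, h8])
  exact ⟨f.restrictScalars F, fun v => by simp [h', hf, h3], fun v => by simp [← h4]⟩

theorem JS.conj (h : JS Q δ J) (h' : JS Q δ J') (h2 : (2 : F) ≠ 0) (hQ : ND Q) : ∃ g : OG Q, ∀ v, g.1 (J v) = J' (g.1 v) := by
  obtain ⟨_, _, R, h3, h4⟩ := h'.exists_mod h2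
  obtain ⟨e, h5, h6⟩ := h.conj_aux h3 h2 hQ ⟨.refl _ _, fun _ => rfl⟩
  exact ⟨⟨e, h5⟩, fun v => (h6 v).trans (h4 _)⟩

theorem exists_js (h2 : (2 : F) ≠ 0) (hQ : ND Q) (h : Even (finrank F V)) : ∃ J, JS Q δ J := by
  obtain ⟨d, hd⟩ := h
  obtain ⟨R, h3, h4⟩ := exists_ty (F := L) (V := Fin d → L) (δ := (-1) ^ d * disc Q * sgn (-1 : L) ^ (d / 2)) (.inr (qa_two h2)) fun e => by
    obtain rfl : d = 0 := by simpa using e
    have := (hd ▸ hQ.ns_top : H13.NS Q ⊤ 0 _).eq_one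
    rw [hQ.ty_eq h2, hd] at this
    simpa using this
  have h5 : ∀ v, (reₗ δ 0).compQuadraticMap' R v = (R v).re := fun _ => rfl
  have h6 := (nd_re h5).2 h3
  have h7 : finrank F (Fin d → L) = finrank F V := by rw [finrank_re (δ := δ), hd]; simp [two_mul]
  rw [h3.ty_eq (qa_two h2), finrank_fin_fun, mul_left_inj] at h4
  obtain ⟨e, he⟩ := hQ.iso_of_ty h6 h7.symm (by
    rw [hQ.ty_eq h2, h6.ty_eq h2, h7, disc_re h5 h2 h3, h4, finrank_fin_fun, ← mul_assoc, ← mul_pow]; simp)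
  have h8 (u v) : polar Q u v = polar ((reₗ δ 0).compQuadraticMap' R) (e u) (e v) := by simp only [polar, ← map_add, he]
  exact ⟨e.symm.conj ((LinearMap.lsmul L _ ω).restrictScalars F), fun v => by simp [smul_smul, omega_mul_omega_eq_algebraMap],
    fun u v => by simpa [h8] using (js_re h5).adj (e u) (e v)⟩

omit hδ [Fintype F] [FiniteDimensional F V] in
/-- isometries normalising the span of `1` and `J` -/
def NJ (Q : QuadraticForm F V) (J : End F V) : Subgroup (OG Q) where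
  carrier := {g | ∃ s : F, s * s = 1 ∧ ∀ v, g.1 (J v) = s • J (g.1 v)}
  mul_mem' := fun ⟨s, h1, h2⟩ ⟨t, h3, h4⟩ => ⟨t * s, by linear_combination s * s * h3 + h1, fun v => by
    simp [OG_mul_apply, h2, h4, smul_smul]⟩
  one_mem' := ⟨1, by simp, fun v => by simp [OG_one_apply]⟩
  inv_mem' := fun {g} ⟨s, h1, h2⟩ => ⟨s, h1, fun v => g.1.injective (by
    simp [h2, OG_apply_inv, smul_smul, h1])⟩

omit hδ [Fintype F] [FiniteDimensional F V] in
theorem nj_conj {g x : OG Q} (h : ∀ v, g.1 (J v) = J' (g.1 v)) : g⁻¹ * x * g ∈ NJ Q J ↔ x ∈ NJ Q J' :=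
  exists_congr fun s => and_congr_right fun _ => ⟨fun e v => by
    simpa [OG_mul_apply, OG_apply_inv, h] using congrArg g.1 (e (g⁻¹.1 v)), fun e v => g.1.injective (by
      simp [OG_mul_apply, OG_apply_inv, h, e])⟩

theorem JS.to_om (h : JS Q δ J) (h' : JS Q δ J') (h2 : (2 : F) ≠ 0) (hQ : ND Q) (hV : 4 ≤ finrank F V) {x ρ : OG Q}
    (h3 : x ∈ NJ Q J') (h4 : ρ⁻¹ * x * ρ ∈ NJ Q J') (h5 : dickson hQ (good_of_two_ne_zero h2) ρ = -1) :
    ∃ g ∈ Om Q, g⁻¹ * x * g ∈ NJ Q J := by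
  obtain ⟨g, h6, h7⟩ : ∃ g, dickson hQ (good_of_two_ne_zero h2) g = 1 ∧ g⁻¹ * x * g ∈ NJ Q J := by
    obtain ⟨g, h6⟩ := h.conj h' h2 hQ
    rcases Int.units_eq_one_or (dickson hQ (good_of_two_ne_zero h2) g) with e | e
    · exact ⟨g, e, (nj_conj h6).2 h3⟩
    · exact ⟨ρ * g, by simp [e, h5], by simpa [mul_assoc] using (nj_conj h6).2 h4⟩
  rcases Int.units_eq_one_or (spinor hQ (good_of_two_ne_zero h2) g) with e | e
  · exact ⟨g, (hQ.mem_commutator_iff _ g).2 ⟨h6, e⟩, h7⟩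
  obtain ⟨_, _, R, h8, h9⟩ := h.exists_mod h2
  have := Module.Finite.of_restrictScalars_finite F L V
  obtain ⟨v, hv⟩ := ((nd_re h8).1 hQ).exists_eq (by rw [finrank_re (δ := δ)] at hV; omega) 1
  have e1 : Q v = 1 := by simp [h8, hv]
  have e2 : Q (J v) = δ := by simp [h8, ← h9, Q_smul, hv, pow_two]
  have e3 : polar Q v (J v) = 0 := by simp [← h9, polar_im h8, hv]
  have e4 := qa_ne (δ := δ)
  have e5 : refl Q v * refl Q (J v) ∈ NJ Q J := ⟨1, by simp, fun u => by
    simp only [OG_mul_apply, refl_apply, e1, e2, map_sub, map_smul, polar_sub_right, polar_smul_right, e3, h.adj, h.sq]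
    match_scalars <;> field_simp <;> ring⟩
  refine ⟨g * (refl Q v * refl Q (J v)), (hQ.mem_commutator_iff (good_of_two_ne_zero h2) _).2 ?_, by
    simpa only [mul_inv_rev, mul_assoc] using mul_mem (mul_mem (inv_mem e5) h7) e5⟩
  simp [h6, e, dickson_refl, spinor_refl, e1, e2, e4, sgn_one, qa_sgn]

omit hδ [Fintype F] in
theorem js_glue (hQ : ND Q) {U : Submodule F V} (hU : ND (Q.restrict U)) {J₁ : End F U} {J₂ : End F (perp Q U)}
    (h1 : JS (Q.restrict U) δ J₁) (h2 : JS (Q.restrict (perp Q U)) δ J₂) :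
    ∃ J, JS Q δ J ∧ (∀ u : U, J u = J₁ u) ∧ ∀ w : perp Q U, J w = J₂ w := by
  have h := hQ.isCompl hU
  let J := LinearMap.ofIsCompl h (U.subtype ∘ₗ J₁) ((perp Q U).subtype ∘ₗ J₂)
  have h3 (u : U) : J u = J₁ u := LinearMap.ofIsCompl_apply_left ..
  have h4 (u : perp Q U) : J u = J₂ u := LinearMap.ofIsCompl_apply_right ..
  have h5 (u : U) (w : perp Q U) : polar Q u w = 0 ∧ polar Q w u = 0 := ⟨w.2 u u.2, polar_comm Q _ _ ▸ w.2 u u.2⟩
  refine ⟨J, ⟨fun v => ?_, fun v v' => ?_⟩, h3, h4⟩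
  · obtain ⟨u, w, rfl⟩ := exists_add_of_isCompl h v
    simp [h3, h4, h1.sq, h2.sq]
  · obtain ⟨u, w, rfl⟩ := exists_add_of_isCompl h v
    obtain ⟨u', w', rfl⟩ := exists_add_of_isCompl h v'
    simp only [map_add, h3, h4, polar_add_left, polar_add_right, h5]
    rw [← polar_restrict, ← polar_restrict, h1.adj, h2.adj, polar_restrict, polar_restrict]

omit hδ in
theorem exists_inverter (h2 : (2 : F) ≠ 0) (hQ : ND Q) {g : OG Q} (hg : g ^ 2 = negOne Q) (j : ℕ) (hj : 2 * j ≤ finrank F V) :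
    ∃ U ε, H13.NS Q U (2 * j) ε ∧ Fx g U ∧ ∃ t : OG Q, t * t = 1 ∧ (∀ z ∈ perp Q U, t.1 z = z) ∧
      ∀ u ∈ U, t.1 (g.1 u) = -g.1 (t.1 u) := by
  induction j with
  | zero => exact ⟨⊥, 1, ns_bot, fun _ h => by simp_all, 1, mul_one _, fun _ _ => rfl, fun _ h => by simp_all⟩
  | succ j ih =>
    obtain ⟨U, ε, h1, h3, t, h4, h5, h6⟩ := ih (by omega)
    have h8 := h1.orth hQ
    have : Nontrivial (perp Q U) := Module.nontrivial_of_finrank_pos (R := F) (by rw [h8.rk]; omega)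
    obtain ⟨⟨v, hv⟩, h9⟩ := h8.nd.exists_ne_zero
    replace h9 : Q v ≠ 0 := h9
    obtain ⟨h10, h11⟩ := polar_of_sq h2 hg v
    have h12 : g.1 v ∈ perp Q U := h3.perp v hv
    have h13 : F ∙ g.1 v ≤ perp Q (F ∙ v) := by
      rw [Submodule.span_singleton_le_iff_mem, mem_perp_singleton, h11]
    have h14 := (ns_line h2 h9).sup' (ns_line h2 ((OG_map g v).trans_ne h9)) h13
    have h7 {u} (hu : u ∈ U) : (refl Q (g.1 v)).1 u = u := refl_apply_of_perp (polar_comm Q _ _ ▸ mem_perp.1 h12 u hu)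
    refine ⟨_, _, h1.sup h14 (by simp [hv, h12]) (.inl (even_two_mul j)), h3.sup fun x hx => ?_, t * refl Q (g.1 v), ?_,
      fun z hz => ?_, fun x hx => ?_⟩
    · obtain ⟨_, ⟨a, rfl⟩, _, ⟨b, rfl⟩, rfl⟩ := by
        simpa only [Submodule.mem_sup, Submodule.mem_span_singleton] using hx
      change g.1 _ ∈ _
      rw [map_add, map_smul, map_smul, h10, add_comm]
      exact Submodule.add_mem_sup (Submodule.smul_mem _ _ (neg_mem (Submodule.mem_span_singleton_self _)))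
        (Submodule.smul_mem _ _ (Submodule.mem_span_singleton_self _))
    · have := conj_refl t (g.1 v)
      rw [h5 _ h12, mul_inv_eq_iff_eq_mul] at this
      rw [mul_assoc, ← mul_assoc _ t, ← this, mul_assoc, refl_mul_self, mul_one, h4]
    · rw [perp_sup, perp_sup] at hz
      rw [OG_mul_apply, refl_apply_of_perp (mem_perp_singleton.1 hz.2.2), h5 z hz.1]
    · obtain ⟨u, hu, _, ⟨_, ⟨a, rfl⟩, _, ⟨b, rfl⟩, rfl⟩, rfl⟩ := by
        simpa only [Submodule.mem_sup, Submodule.mem_span_singleton] using hx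
      simp only [OG_mul_apply, map_add, map_smul, h10, refl_apply_self ((OG_map g v).trans_ne h9), map_neg, h5 _ hv, h5 _ h12,
        refl_apply_of_perp ((polar_comm Q _ _).trans h11), h7 hu, h7 (u := g.1 u) (h3 u hu), h6 u hu]
      module

theorem JS.el_two (h : JS Q δ J) (h2 : (2 : F) ≠ 0) (hQ : ND Q) (hV : 4 ≤ finrank F V) {x : OG Q} (hx : x ∈ Om Q)
    (h3 : x ^ 2 = 1 ∨ x ^ 2 = negOne Q) (h4 : x ≠ negOne Q) : ∃ g ∈ Om Q, g⁻¹ * x * g ∈ NJ Q J := by
  have hV' : Even (finrank F V) := by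
    obtain ⟨_, _, -⟩ := h.exists_mod h2
    simp [finrank_re (δ := δ) (V := V)]
  rcases h3 with h3 | h3
  · obtain ⟨j, h5, h6, -, h7⟩ := hQ.inv_ns h2 h3 hx
    obtain ⟨J₁, e1⟩ := exists_js (δ := δ) h2 h6.nd (by rw [h6.rk]; grind)
    obtain ⟨J₂, e2⟩ := exists_js (δ := δ) h2 h5.nd (by simp [h5.rk])
    obtain ⟨J', e3, e4, e5⟩ := js_glue hQ h6.nd e1 e2
    have : Nontrivial (fixS x) := Module.nontrivial_of_finrank_pos (R := F) (by have := h7 h4; rw [h6.rk]; omega)
    obtain ⟨⟨v, hv⟩, h9⟩ := h6.nd.exists_ne_zero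
    have e6 : x ∈ NJ Q J' := ⟨1, by simp, fun v => by
      obtain ⟨u, w, rfl⟩ := exists_add_of_isCompl (hQ.isCompl h6.nd) v
      simp [e4, e5, mem_fixS.1 u.2, mem_fixS.1 (J₁ u).2, hQ.neg_of_perp h3 w.2, hQ.neg_of_perp h3 (J₂ w).2]⟩
    refine h.to_om e3 h2 hQ hV e6 (ρ := refl Q v) ?_ (dickson_refl _ _ h9)
    have := conj_refl x v
    rw [mem_fixS.1 hv, mul_inv_eq_iff_eq_mul] at this
    rwa [mul_assoc, this, inv_mul_cancel_left]
  obtain ⟨d, hd⟩ := hV'
  obtain ⟨U, ε, h5, -, t, h6, -, h7⟩ := exists_inverter h2 hQ h3 d (by omega)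
  obtain rfl : U = ⊤ := Submodule.eq_top_of_finrank_eq (by rw [h5.rk]; omega)
  replace h7 := fun u => h7 u trivial
  have h8 (u) : t.1 (t.1 u) = u := by rw [← OG_mul_apply, h6]; rfl
  have h9 u := (polar_of_sq h2 h3 u).1
  have h10 (u v) : polar Q (t.1 u) v = polar Q u (t.1 v) := by rw [← OG_polar t, h8]
  have h11 (u v) : polar Q (x.1 u) v = -polar Q u (x.1 v) := by rw [← OG_polar x, h9, polar_neg_left]
  obtain ⟨a, b, e⟩ := FiniteField.exists_root_sum_quadratic (f := Polynomial.X ^ 2 - Polynomial.C δ)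
    (g := Polynomial.X ^ 2) (by compute_degree!) (by compute_degree!) (Nat.odd_iff.1 (odd_card_of_two_ne_zero h2))
  replace e : δ = a ^ 2 + b ^ 2 := by simp at e; linear_combination -e
  let J' : End F V := a • t.1.toLinearMap + b • (t.1.toLinearMap ∘ₗ x.1.toLinearMap)
  have e1 (u) : J' u = a • t.1 u - b • x.1 (t.1 u) := by simp [J', h7, sub_eq_add_neg]
  have e2 : JS Q δ J' := ⟨fun u => by simp only [e1, map_sub, map_smul, h7, h8, map_neg, h9, e]; module, fun u v => by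
    simp [e1, polar_sub_left, polar_sub_right, polar_smul_left, polar_smul_right, h10, h11, h7]⟩
  have e3 : x ∈ NJ Q J' := ⟨-1, by simp, fun u => by simp only [e1, map_sub, map_smul, h7, map_neg, h9]; module⟩
  have : Nontrivial (fixS t) := Submodule.nontrivial_iff_ne_bot.2 fun e => by
    have e4 (u) : t.1 u = -u := eq_neg_of_add_eq_zero_left ((Submodule.mem_bot F).1 (e ▸ mem_fixS.2 (by simp [h8, add_comm])))
    have := Module.nontrivial_of_finrank_pos (R := F) (M := V) (by omega)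
    obtain ⟨u, hu⟩ := exists_ne (α := V) 0
    have := h7 u
    rw [e4, e4, map_neg, neg_neg, neg_eq_iff_add_eq_zero, ← two_smul F] at this
    simp [h2, hu] at this
  obtain ⟨⟨v, hv⟩, h12⟩ := (hQ.nd_fixS h2 ((pow_two t).trans h6)).exists_ne_zero
  replace h12 : Q v ≠ 0 := h12
  rw [mem_fixS] at hv
  refine h.to_om e2 h2 hQ hV e3 (ρ := refl Q v) ?_ (dickson_refl _ _ h12)
  have e5 {g : OG Q} {w} (h : refl Q (g.1 w) = refl Q w) : Commute g (refl Q w) := mul_inv_eq_iff_eq_mul.1 ((conj_refl g w).trans h)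
  have e6 := (e5 (by rw [hv])).mul_right (e5 (g := t) (w := x.1 v) (by rw [h7, hv, refl_neg]))
  have e7 : x * (refl Q v * refl Q (x.1 v)) = refl Q v * refl Q (x.1 v) * x := by
    rw [← mul_assoc, mul_inv_eq_iff_eq_mul.1 (conj_refl x v), mul_assoc, mul_inv_eq_iff_eq_mul.1 (conj_refl x _), h9, refl_neg,
      ← mul_assoc, (e5 (by rw [refl_apply_of_perp ((polar_comm Q _ _).trans (polar_of_sq h2 h3 v).2)])).eq]
  have e4 : refl Q v * refl Q (x.1 v) ∈ NJ Q J' := ⟨1, by simp, fun u => by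
    simp only [e1, map_sub, map_smul, one_smul, ← OG_mul_apply, ← e6.eq, ← mul_assoc _ x, ← e7, mul_assoc]⟩
  simpa [← conj_refl, refl_inv, mul_assoc] using mul_mem e4 e3

omit hδ [Fintype F] [FiniteDimensional F V] in
theorem JS.map (h : JS Q δ J) (g : OG Q) : JS Q δ (g.1.conj J) :=
  ⟨fun v => by simp [h.sq], fun u v => by
    rw [LinearEquiv.conj_apply_apply, LinearEquiv.conj_apply_apply, OG_polar_left, OG_polar_right g u]; exact h.adj _ _⟩

omit [Fintype F] in
theorem JS.comm_of_odd [Nontrivial V] (h : JS Q δ J) (h2 : (2 : F) ≠ 0) {r : ℕ} (hr : Odd r) {x : OG Q} (h3 : x ^ r = 1)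
    (h4 : x ∈ NJ Q J) (v : V) : x.1 (J v) = J (x.1 v) := by
  obtain ⟨s, h5, h6⟩ := h4
  rcases mul_self_eq_one_iff.1 h5 with rfl | rfl
  · simpa using h6 v
  have h7 := pow_twist (u := J) (y := x.1) (ζ := -1) (LinearMap.ext fun v => by simp [h6]) r
  obtain ⟨u, hu⟩ := exists_ne (0 : V)
  have h8 := LinearMap.congr_fun h7 (J u)
  rw [og_pow h3, hr.neg_one_pow] at h8
  simp [h.sq, eq_neg_iff_add_eq_zero, ← two_smul F, h2, hu, qa_ne] at h8

theorem exists_not_comm_char {p : ℕ} [Fact p.Prime] [CharP F p] (h2 : (2 : F) ≠ 0) (hQ : ND Q) (hV : 5 ≤ finrank F V) :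
    ∃ x : OG Q, x ^ p = 1 ∧ x ≠ 1 ∧ ∀ J, JS Q δ J → ¬ ∀ v, x.1 (J v) = J (x.1 v) := by
  obtain ⟨T, -, h3, h4⟩ := (hQ.ns_top.exists_ts_iff 2).2 ⟨by omega, by omega⟩
  let b := finBasisOfFinrankEq F T h3
  have h5 := h4 _ (b 0).2
  have h6 : polar Q (b 0) (b 1) = 0 := le_perp_of_singular h4 (b 1).2 _ (b 0).2
  obtain ⟨y, hy⟩ := hQ.exists_polar_eq (b.linearIndependent.map' T.subtype T.ker_subtype) ![0, 1]
  have h7 : polar Q (b 0) y = 0 := (polar_comm ..).trans (hy 0)
  have h8 : polar Q (b 1) y = 1 := (polar_comm ..).trans (hy 1)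
  have h9 : (b 0 : V) ≠ 0 := fun e => b.ne_zero 0 (Subtype.ext e)
  have h10 (k : ℕ) : sieg Q (b 0) (b 1) ^ k = sieg Q (b 0) ((k : F) • b 1) := by
    induction k with
    | zero => simp [sieg_zero]
    | succ k ih => rw [pow_succ, ih, ← sieg_add h5 (by simp [h6]) h6, Nat.cast_succ, add_smul, one_smul]
  refine ⟨sieg Q (b 0) (b 1), by simp [h10, sieg_zero], fun e => h9 ?_, fun J h H => ?_⟩
  · simpa [e, h7, h8, OG_one_apply] using sieg_apply h5 h6 y
  have e := H y
  simp only [sieg_apply h5 h6, h7, h8, h4 _ (b 1).2, zero_smul, one_smul, add_zero, sub_zero, map_add, add_sub_assoc,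
    add_right_inj] at e
  have e1 := h.adj (b 0) y
  rw [← e, polar_sub_left, polar_smul_left, polar_smul_left, h7, h8, smul_zero, zero_sub, smul_eq_mul, mul_one,
    neg_eq_iff_add_eq_zero, ← two_mul, mul_eq_zero_iff_left h2] at e1
  rw [e1, zero_smul, sub_zero] at e
  have e2 := h.sq (b 0)
  rw [← e, map_smul, ← e, smul_smul] at e2
  exact hδ.out _ (by simpa [pow_two] using smul_left_injective F h9 e2)

/-- a factor in the order of an orthogonal group -/
def nn (q m : ℕ) (ε : ℤˣ) : ℕ := if ε = 1 then q ^ m - 1 else q ^ m + 1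

omit hδ in
theorem card_OG_even (hQ : ND Q) {m : ℕ} (hV : finrank F V = 2 * (m + 1)) : Nat.card (OG Q) = 2 * Fintype.card F ^ ((m + 1) * m) *
    nn (Fintype.card F) (m + 1) (ty Q) * ∏ i ∈ Finset.range m, (Fintype.card F ^ (2 * (i + 1)) - 1) := by
  rw [nn, ← Nat.card_eq_fintype_card]
  split_ifs with h <;> rw [← isPlus_iff_ty (by simp [hV])] at h
  exacts [hQ.card_OG_plus h (by omega) hV, hQ.card_OG_minus h (by omega) hV]

theorem prod_two_mul (f : ℕ → ℕ) (m : ℕ) : ∏ i ∈ Finset.range (2 * m), f (i + 1) =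
    (∏ i ∈ Finset.range m, f (2 * (i + 1))) * ∏ i ∈ Finset.range m, f (2 * i + 1) := by
  induction m with
  | zero => simp
  | succ m ih => rw [mul_add_one 2, Finset.prod_range_succ, Finset.prod_range_succ, ih, Finset.prod_range_succ,
      Finset.prod_range_succ, mul_add_one 2]; ring

theorem JS.dvd_factor (h : JS Q δ J) (h2 : (2 : F) ≠ 0) (hQ : ND Q) {d r : ℕ} (hV : finrank F V = 2 * d) (hd : 2 ≤ d) (hr : r.Prime)
    (hr2 : r ≠ 2) (hq : ¬ r ∣ Fintype.card F) (hΩ : r ∣ (NJ Q J).relIndex (Om Q)) :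
    (∃ k < d, Odd k ∧ r ∣ Fintype.card F ^ (2 * k) - 1) ∨ Odd d ∧ r ∣ nn (Fintype.card F) d (ty Q) := by
  obtain ⟨_, _, R, h3, h4⟩ := h.exists_mod h2
  have := Module.Finite.of_restrictScalars_finite F L V
  have h5 := (nd_re h3).1 hQ
  have h6 : finrank L V = d := by rw [finrank_re (δ := δ)] at hV; omega
  have h7 : Nat.card (OG R) * r ∣ Nat.card (OG Q) := by
    rw [← (Om R).card_mul_index, ← (Om Q).card_mul_index, h5.index_commutator_odd (qa_two h2) (by omega),
      hQ.index_commutator_odd h2 (by omega), mul_right_comm, ← Subgroup.card_map_of_injective (f := reO h3) fun a b e =>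
        OG_ext fun v => by rw [← reO_apply h3, e, reO_apply], ← Subgroup.relIndex_bot_left, ← Subgroup.relIndex_bot_left,
      ← Subgroup.relIndex_mul_relIndex ⊥ ((Om R).map (reO h3)) (Om Q) bot_le (by
        rintro _ ⟨g, hg, rfl⟩; exact map_mem_commutator _ hg)]
    refine mul_dvd_mul_right (mul_dvd_mul_left _ (hΩ.trans (Subgroup.relIndex_dvd_of_le_left _ ?_))) _
    rintro _ ⟨g, -, rfl⟩
    exact ⟨1, by simp, fun v => by simp [reO_apply, ← h4]⟩
  have h0 := Fintype.one_lt_card (α := F)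
  have h8 (m) : 0 < ∏ i ∈ Finset.range m, (Fintype.card F ^ (2 * (2 * (i + 1))) - 1) :=
    Finset.prod_pos fun j _ => Nat.sub_pos_of_lt (Nat.one_lt_pow (by omega) h0)
  have h9 {a b c} (e : r ∣ 2 * Fintype.card F ^ a * b * c) : r ∣ b ∨ r ∣ c := by
    simpa [hr.dvd_mul, (Nat.prime_dvd_prime_iff_eq hr Nat.prime_two).not.2 hr2, mt hr.dvd_of_dvd_pow hq] using e
  have h10 {m} (e : r ∣ ∏ i ∈ Finset.range m, (Fintype.card F ^ (2 * (2 * i + 1)) - 1)) (hm : 2 * m ≤ d) :
      ∃ k < d, Odd k ∧ r ∣ Fintype.card F ^ (2 * k) - 1 :=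
    let ⟨j, e1, e2⟩ := (hr.prime.dvd_finsetProd_iff _).1 e
    ⟨_, by have := Finset.mem_range.1 e1; omega, by simp, e2⟩
  obtain ⟨m, rfl | rfl⟩ := d.even_or_odd'
  · obtain ⟨m, rfl⟩ : ∃ k, m = k + 1 := ⟨m - 1, by omega⟩
    have e : ty Q = ty R := by
      simp [hQ.ty_eq h2, h5.ty_eq (qa_two h2), disc_re h3 h2 h5, hV, h6, ← sgn_qnorm h2 (z := (-1 : L)) (by simp), sgn_one, pow_mul]
    rw [card_OG_even h5 h6, card_OG_even hQ (m := 2 * m + 1) hV, Finset.prod_range_succ, prod_two_mul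
      (fun k => Fintype.card F ^ (2 * k) - 1), qa_card, e, mul_assoc (∏ _ ∈ _, _), ← Finset.prod_range_succ
        (fun k => Fintype.card F ^ (2 * (2 * k + 1)) - 1)] at h7
    simp only [nn, ← pow_mul] at h7
    refine .inl (h10 (m := m + 1) ((h9 (a := (2 * m + 1 + 1) * (2 * m + 1)) (b := 1)
      (c := ∏ x ∈ Finset.range (m + 1), (Fintype.card F ^ (2 * (2 * x + 1)) - 1)) (Nat.dvd_of_mul_dvd_mul_left
      (Nat.mul_pos (h8 m) (?_ : 0 < nn (Fintype.card F) (2 * (m + 1)) (ty R))) (((Dvd.intro_left (2 * Fintype.card F ^ (2 * ((m + 1) * m))) ?_).trans h7).trans (dvd_of_eq ?_)))).resolve_left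
        hr.not_dvd_one) le_rfl)
    · have := Nat.one_lt_pow (n := 2 * (m + 1)) (by omega) h0
      rw [nn]; split_ifs <;> omega
    · rw [nn]; ring
    · rw [nn, mul_add_one 2 m]; ring
  · rw [h5.card_OG_odd h6, card_OG_even hQ (m := 2 * m) hV, prod_two_mul (fun k => Fintype.card F ^ (2 * k) - 1),
      Nat.card_eq_fintype_card, qa_card] at h7
    simp only [← pow_mul] at h7
    refine (h9 (a := (2 * m + 1) * (2 * m)) (Nat.dvd_of_mul_dvd_mul_left (h8 m) (((Dvd.intro_left (2 * Fintype.card F ^ (2 * m ^ 2)) ?_).trans h7).trans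
      (dvd_of_eq ?_)))).symm.imp (h10 (m := m) · (by omega)) fun e => ⟨by simp, e⟩
    · ring
    · ring

theorem JS.exists_not_comm (h : JS Q δ J) (h2 : (2 : F) ≠ 0) (hQ : ND Q) {d r : ℕ} [hr : Fact r.Prime] (hV : finrank F V = 2 * d)
    (hd : 2 ≤ d) (hr2 : r ≠ 2) (hq : ¬ r ∣ Fintype.card F) (hΩ : r ∣ (NJ Q J).relIndex (Om Q)) :
    ∃ x : OG Q, x ^ r = 1 ∧ x ≠ 1 ∧ ∀ J, JS Q δ J → ¬ ∀ v, x.1 (J v) = J (x.1 v) := by
  have hq' : (Fintype.card F : ZMod r) ≠ 0 := mt (ZMod.natCast_eq_zero_iff _ _).1 hq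
  set i := orderOf (Fintype.card F : ZMod r) with hi
  have h0 := orderOf_pos_zmod hq'
  have h1 (k) : r ∣ Fintype.card F ^ k - 1 ↔ i ∣ k := by
    rw [orderOf_dvd_iff_pow_eq_one, ← ZMod.natCast_eq_zero_iff, Nat.cast_sub (Nat.one_le_pow _ _ Fintype.card_pos), sub_eq_zero]
    simp
  obtain ⟨k, h3, h4, h5, h6⟩ : ∃ k ≤ d, Odd k ∧ i ∣ 2 * k ∧ (k = d → (i ∣ d ↔ ty Q = 1)) := by
    obtain ⟨k, e1, e2, e3⟩ | ⟨e1, e2⟩ := h.dvd_factor h2 hQ hV hd hr.out hr2 hq hΩ
    · exact ⟨k, e1.le, e2, (h1 _).1 e3, by omega⟩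
    rw [nn] at e2
    split_ifs at e2 with e
    · exact ⟨d, le_rfl, e1, ((h1 _).1 e2).mul_left _, fun _ => iff_of_true ((h1 _).1 e2) e⟩
    refine ⟨d, le_rfl, e1, (h1 _).1 ?_, fun _ => iff_of_false (fun e3 => hr2 ((Nat.prime_dvd_prime_iff_eq hr.out Nat.prime_two).1 ?_)) e⟩
    · rw [mul_comm, pow_mul, ← one_pow 2, Nat.sq_sub_sq]
      exact e2.mul_right _
    · have := Nat.dvd_sub e2 ((h1 _).2 e3)
      have := Nat.one_le_pow d _ (Fintype.card_pos (α := F))
      rwa [show _ + 1 - (_ - 1) = 2 by omega] at *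
  have h7 := h4.pos
  obtain ⟨x, e1, e2, e3, -⟩ := hQ.exists_prof hr2 hq' hi (β := if Odd i then 1 else 0) (o := if Odd i then 0 else 1)
    (by split_ifs; exacts [le_rfl, Nat.div_pos (Nat.le_of_dvd (Nat.sub_pos_of_lt hr.out.one_lt) (ZMod.orderOf_dvd_card_sub_one hq')) h0])
    (by split_ifs <;> simp) (by
      rw [hV]
      split_ifs with e
      · have e' := e.coprime_two_right.dvd_of_dvd_mul_left h5
        have := Nat.le_of_dvd h7 e'
        exact ⟨by omega, by omega, fun _ => ((h6 (by omega)).1 (by rwa [← show k = d by omega])).symm⟩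
      · have := Nat.le_of_dvd (by omega) h5
        exact ⟨by omega, by omega, fun _ => ((Int.units_eq_one_or _).resolve_left fun e' => by
          have := Nat.le_of_dvd (by omega) ((h6 (by omega)).2 e'); omega).symm⟩)
  refine ⟨x, e1, e2, fun J h H => ?_⟩
  obtain ⟨_, _, R, h8, h9⟩ := h.exists_mod h2
  have := Module.Finite.of_restrictScalars_finite F L V
  have h10 := (nd_re h8).1 hQ
  obtain ⟨y, rfl⟩ := exists_reO h8 h2 (g := x) fun v => by simp [h9, H]
  obtain ⟨α, e4, -, e5⟩ := h10.exists_ns_fixS hr2 (by simpa [qa_card] using hq') rfl (g := y)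
    (OG_ext fun v => by rw [← reO_apply h8, map_pow, e1]; rfl)
  have e6 := e5 fun e => e2 (by rw [e, map_one])
  have e7 := hQ.finrank_perp (fixS (reO h8 y))
  have e8 := h10.finrank_perp (fixS y)
  have e9 : finrank F (fixS (reO h8 y)) = 2 * finrank L (fixS y) := by
    rw [← finrank_re, show fixS (reO h8 y) = (fixS y).restrictScalars F from Submodule.ext fun v => by simp [mem_fixS, reO_apply]]
    rfl
  rw [e4.rk, qa_card, Nat.cast_pow, orderOf_pow' _ two_ne_zero, ← hi, cc] at e8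
  rw [e3, e9, finrank_re (δ := δ) (V := V), ← e8] at e7
  by_cases e : Odd i
  · simp [e, Nat.Coprime.gcd_eq_one e.coprime_two_right, Nat.not_even_iff_odd.2 e] at e7
    nlinarith
  · obtain ⟨l, hl⟩ := Nat.not_odd_iff_even.1 e
    have : Odd l := h4.of_dvd_nat (Nat.dvd_of_mul_dvd_mul_left two_pos (by rwa [two_mul, ← hl]))
    rw [if_neg e, if_neg e] at e7
    simp [hl, ← two_mul, Nat.not_even_iff_odd.2 this] at e7
    nlinarith

end Ext

theorem el_quad_fld {ι : Type} [Fintype ι] [DecidableEq ι] [Fintype F] {p r d : ℕ} [Fact p.Prime] [CharP F p] [hr : Fact r.Prime]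
    {Q : QuadraticForm F (ι → F)} (hQ : ND Q) (hodd : Odd (Fintype.card F)) (hd : 3 ≤ d) (hι : Fintype.card ι = 2 * d)
    {K : Subalgebra F (Matrix ι ι F)} (hK : Geo.IsFieldSubalgebra 2 K) (hKf : Geo.IsSelfAdjointFor (polar Q) K)
    (hΩ : r ∣ (Geo.subalgebraNormalizer K).relIndex (Geo.omegaGL Q)) :
    ELG (Geo.omegaGL Q) (Geo.subalgebraNormalizer K) r ↔ r = 2 := by
  have h2 := two_ne_zero_of_odd_card hodd
  have hV : finrank F (ι → F) = 2 * d := by simp [hι]
  have : Nonempty ι := Fintype.card_pos_iff.1 (by omega)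
  let := (H18.isField_of_inv K hK.comm hK.inv).toField
  have := Module.Finite.of_restrictScalars_finite F F K
  obtain ⟨δ, hδ⟩ := FiniteField.exists_nonsquare (F := F) fun e => h2 (by simpa [e] using ringChar.Nat.cast_ringChar (R := F))
  have : Fact (∀ r : F, r ^ 2 ≠ δ + 0 * r) := ⟨fun r h => hδ ⟨r, by linear_combination -h⟩⟩
  obtain ⟨k, hk⟩ := exists_sq_alg hK.finrank_eq δ
  have h3 (v : ι → F) : k • k • v = δ • v := by rw [smul_smul, ← pow_two, hk, algebraMap_smul]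
  have h : JS Q δ (Matrix.toLin' k.1) := ⟨h3, hKf k k.2⟩
  have h4 (l : K) : ∃ a b : F, a • (1 : K) + b • k = l := by
    have := (LinearIndependent.pair_iff' (K := F) (y := k) (one_ne_zero (α := K)) |>.2 fun a e => hδ ⟨a, (algebraMap F K).injective (by
      rw [← hk, ← e, map_mul, Algebra.algebraMap_eq_smul_one, pow_two])⟩).span_eq_top_of_card_eq_finrank' (by simp [hK.finrank_eq])
    rw [Matrix.range_cons_cons_empty] at this
    exact Submodule.mem_span_pair.1 (this ▸ Submodule.mem_top)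
  let ψ : OG Q →* GL ι F := (isometryGroup F Q).subtype.comp (toOG Q).symm.toMonoidHom
  have h5 (g : OG Q) (v) : H12.glEq ι F (ψ g) v = g.1 v := mat_symm_mulVec g v
  have h6 : Geo.omegaGL Q = (Om Q).map ψ := by
    rw [← Subgroup.map_map]
    exact congrArg _ (Subgroup.ext fun g => by rw [Subgroup.mem_map_equiv]; exact mem_Omega_iff g)
  have h7 : (Geo.subalgebraNormalizer K).comap ψ = NJ Q (Matrix.toLin' k.1) := Subgroup.ext fun g => by
    simp only [Subgroup.mem_comap, H12.mem_normalizer_iff, h5]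
    refine ⟨fun H => ?_, fun ⟨s, _, e⟩ l => ?_⟩
    · obtain ⟨l, e⟩ := H k
      obtain ⟨a, b, rfl⟩ := h4 l
      obtain ⟨v, hv⟩ := exists_ne (0 : ι → F)
      have e1 := e (k • v)
      rw [h3, map_smul, e, smul_smul, ← algebraMap_smul K, ← hk] at e1
      have e2 := smul_left_injective K (g.1.map_ne_zero_iff.2 hv) e1
      obtain e3 | e3 := sq_eq_sq_iff_eq_or_eq_neg.1 (e2.trans (pow_two _).symm)
      · exact ⟨1, by simp, fun v => (e v).trans (by rw [← e3, one_smul]; rfl)⟩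
      · exact ⟨-1, by simp, fun v => (e v).trans (by rw [← neg_eq_iff_eq_neg.2 e3, neg_smul, neg_one_smul]; rfl)⟩
    · obtain ⟨a, b, rfl⟩ := h4 l
      exact ⟨a • 1 + (b * s) • k, fun v => by simpa [add_smul, mul_smul, H12.fld_smul] using congrArg (b • ·) (e v)⟩
  rw [h6, ← Subgroup.relIndex_comap, h7] at hΩ
  have h8 (g : OG Q) : (∃ z : F, (ψ g).1 = z • 1) ↔ g = 1 ∨ g = negOne Q := by
    rw [← hQ.smul_iff, ← toLin'_symm]
    exact exists_congr fun z => by rw [← Matrix.toLin'.injective.eq_iff, map_smul, Matrix.toLin'_one]; rfl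
  simp only [ELG, h6, ← SetLike.mem_coe (p := Subgroup.map _ _), Subgroup.coe_map, Set.forall_mem_image, Set.exists_mem_image,
    ← map_pow, ← map_inv, ← map_mul, ← not_exists, h8, ← Subgroup.mem_comap, h7]
  refine ⟨fun H => by_contra fun hr2 => ?_, ?_⟩
  · have h9 := hr.out.odd_of_ne_two hr2
    obtain ⟨x, e1, e2, e3⟩ : ∃ x : OG Q, x ^ r = 1 ∧ x ≠ 1 ∧ ∀ J, JS Q δ J → ¬ ∀ v, x.1 (J v) = J (x.1 v) := by
      obtain rfl | e := eq_or_ne r p
      exacts [exists_not_comm_char h2 hQ (by omega), h.exists_not_comm h2 hQ hV (by omega) hr2 (not_dvd_card_of_ne hr.out e) hΩ]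
    obtain ⟨g, -, e4⟩ := H (hQ.mem_Om_of_odd (good_of_two_ne_zero h2) h9 e1) (.inl e1) (not_or.2 ⟨e2, fun e => e2 (by
      obtain ⟨k, rfl⟩ := h9
      rwa [pow_succ, pow_mul, e, pow_two, negOne_mul_self, one_pow, one_mul, ← e] at e1)⟩)
    exact e3 _ (h.map g) ((h.map g).comm_of_odd h2 h9 e1 ((nj_conj fun v => by simp).1 e4))
  · rintro rfl x e1 e2 e3
    exact h.el_two h2 hQ (by omega) e1 e2 (not_or.1 e3).2

end Cfsg.Agent.H28
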