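import Cfsg.Agent.H28.Sbn5
import Cfsg.Agent.H14.Lang2
import Cfsg.Agent.L0.SymSyl

/-! Overgroups of a Sylow subgroup in the defining characteristic are normalized by the Borel subgroup. -/

set_option autoImplicit false

namespace Cfsg.Agent.H28

open Cfsg.Agent.H15 Cfsg.Agent.H15.BN Cfsg.Agent.H14 Matrix

/-- split (B, N)-pairs with commutative torus -/
def SBNc (p : ℕ) (G : Type*) [Group G] : Prop :=
  ∃ X : SBN p G, ∀ a ∈ X.P.B, a ∈ X.P.N → ∀ b ∈ X.P.B, b ∈ X.P.N → a * b = b * a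

section abstract

variable {p : ℕ} [hp : Fact p.Prime] {G G' : Type*} [Group G] [Group G']

theorem SBN.overU (X : SBN p G) {M : Subgroup G} (hM : X.U ≤ M) :
    M ≤ parG X.P {i | ∃ m ∈ M, m ∈ C X.P (sW X.P i)} ∧
      ∀ g ∈ parG X.P {i | ∃ m ∈ M, m ∈ C X.P (sW X.P i)}, ∃ m ∈ M, m⁻¹ * g ∈ X.P.B :=
  X.overgrp (K := ⊤) (inf_le_left.trans hM) (fun i => let ⟨d, hd, h⟩ := X.exists_Xr_ne i
    ⟨d, hd, trivial, fun e => h (e ▸ one_mem _)⟩) (fun i u hu => ⟨u, ⟨hu, trivial⟩, by simp⟩)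

theorem SBN.B_conj_mem (X : SBN p G) (hc : ∀ a ∈ X.P.B, a ∈ X.P.N → ∀ b ∈ X.P.B, b ∈ X.P.N → a * b = b * a)
    {M : Subgroup G} (hM : X.U ≤ M) {t h : G} (ht : t ∈ X.P.B) (hh : h ∈ M) : t * h * t⁻¹ ∈ M := by
  obtain ⟨h1, h2⟩ := X.overU hM
  generalize {i | ∃ m ∈ M, m ∈ C X.P (sW X.P i)} = J at h1 h2
  set K := Subgroup.closure {x | ∃ g ∈ parG X.P J, ∃ u ∈ X.U, x = g * u * g⁻¹} with hK
  have a1 : K ≤ M := (Subgroup.closure_le _).2 (by
    rintro _ ⟨g, hg, u, hu, rfl⟩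
    obtain ⟨m, hm, hb⟩ := h2 g hg
    simpa [mul_assoc] using mul_mem (mul_mem hm (hM (X.conjU _ hb u hu))) (inv_mem hm))
  have a2 : X.U ≤ K := fun u hu => Subgroup.subset_closure ⟨1, one_mem _, u, hu, by simp⟩
  have a3 : ∀ k ∈ K, t * k * t⁻¹ ∈ K := fun k hk => by
    have : K ≤ K.comap (MulAut.conj t).toMonoidHom := (Subgroup.closure_le _).2 (by
      rintro _ ⟨g, hg, u, hu, rfl⟩
      exact Subgroup.subset_closure ⟨t * g, mul_mem (B_le_parG J ht) hg, u, hu, by simp [mul_assoc]⟩)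
    exact this hk
  obtain ⟨k, hk, hb⟩ := (X.overU a2).2 h (parG_le_iff.2 (fun i hi => by
    obtain ⟨u, hu, hu'⟩ := X.exists_not_mem i
    exact ⟨_, Subgroup.subset_closure ⟨i, s_mem_parG_iff.2 hi, u, hu, rfl⟩,
      conj_s_mem' (X.U_le hu) fun h => hu' (mem_Bw_s'.2 h)⟩) (h1 hh))
  have hb' : k⁻¹ * h ∈ M := mul_mem (inv_mem (a1 hk)) hh
  obtain ⟨u, hu, y, hy, hy', e⟩ := X.dec _ hb
  obtain ⟨v, hv, z, hz, hz', rfl⟩ := X.dec _ ht
  have a4 : z * y * z⁻¹ = y := by rw [hc z hz hz' y hy hy', mul_inv_cancel_right]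
  have a5 : y ∈ M := by
    have := mul_mem (inv_mem (hM hu)) hb'
    rwa [e, inv_mul_cancel_left] at this
  have a6 : v * z * h * (v * z)⁻¹ = (v * z * k * (v * z)⁻¹) * (v * (z * u * z⁻¹) * (z * y * z⁻¹) * v⁻¹) := by
    rw [show h = k * (u * y) by rw [← e]; simp]; group
  rw [a6, a4]
  exact mul_mem (a1 (a3 k hk)) (mul_mem (mul_mem (mul_mem (hM hv) (hM (X.conjU z hz u hu))) a5) (inv_mem (hM hv)))

variable [Finite G]

theorem SBNc.of_surj (h : SBNc p G) (f : G →* G') (hf : Function.Surjective f) (hk : f.ker ≤ Subgroup.center G) :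
    SBNc p G' := by
  obtain ⟨X, hX⟩ := h
  refine ⟨X.map f hf (hk.trans X.center_le), ?_⟩
  rintro _ h1 ⟨a, ha, rfl⟩ _ h2 ⟨b, hb, rfl⟩
  rw [← map_mul, ← map_mul, hX a ((map_mem_B _ f (hk.trans X.center_le)).1 h1) ha b
    ((map_mem_B _ f (hk.trans X.center_le)).1 h2) hb]

theorem SBNc.of_equiv (h : SBNc p G) (e : G ≃* G') : SBNc p G' :=
  h.of_surj e.toMonoidHom e.surjective (by rw [(MonoidHom.ker_eq_bot_iff _).2 e.injective]; exact bot_le)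

theorem SBNc.quot (h : SBNc p G) : SBNc p (G ⧸ Subgroup.center G) :=
  h.of_surj (QuotientGroup.mk' _) (QuotientGroup.mk'_surjective _) (QuotientGroup.ker_mk' _).le

theorem SBNc.norm_le (h : SBNc p G) (P : Sylow p G) {H : Subgroup G} (hP : (P : Subgroup G) ≤ H) :
    Subgroup.normalizer ((P : Subgroup G) : Set G) ≤ Subgroup.normalizer (H : Set G) := by
  obtain ⟨X, hX⟩ := h
  obtain ⟨T, hT⟩ := X.exists_sylow
  obtain ⟨a, ha⟩ := MulAction.exists_smul_eq G T P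
  obtain ⟨Y, hY, hU⟩ : ∃ Y : SBN p G, (∀ a ∈ Y.P.B, a ∈ Y.P.N → ∀ b ∈ Y.P.B, b ∈ Y.P.N → a * b = b * a) ∧
      Y.U = P := by
    have hk : (MulAut.conj a).toMonoidHom.ker ≤ X.P.B := by
      rw [(MonoidHom.ker_eq_bot_iff _).2 (MulAut.conj a).injective]; exact bot_le
    refine ⟨X.map (MulAut.conj a).toMonoidHom (MulAut.conj a).surjective hk, ?_, by
      rw [← ha, Sylow.coe_subgroup_smul, hT]; rfl⟩
    rintro _ h1 ⟨a, ha, rfl⟩ _ h2 ⟨b, hb, rfl⟩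
    rw [← map_mul, ← map_mul, hX a ((map_mem_B _ _ hk).1 h1) ha b ((map_mem_B _ _ hk).1 h2) hb]
  rw [← hU] at hP ⊢
  rw [Y.normalizer_U]
  exact fun t ht => Subgroup.mem_normalizer_iff.2 fun h => ⟨Y.B_conj_mem hY hP ht, fun h1 => by
    simpa [mul_assoc] using Y.B_conj_mem hY hP (inv_mem ht) h1⟩

theorem SBNc.pron (h : SBNc 2 G) (H : Subgroup G) (hH : Odd H.index) : IsPronormal H := by
  obtain ⟨P, hP⟩ := L0.SymSyl.exists_sylow_le_of_odd H hH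
  exact L0.SymSyl.pron_of_norm_le P hP (h.norm_le P hP)

end abstract

theorem two_sbnc {ι Φ : Type} [Fintype ι] [DecidableEq ι] {R : RS ι Φ} {K : Type*} [Field K] {G : Type*} [Group G]
    {X : RG R K G} {κ : Type} (S : TwO X κ) [Finite Φ] [Finite K] (p : ℕ) [Fact p.Prime] [CharP K p] : SBNc p S.T :=
  ⟨twoSBN S p, fun _ h1 h2 _ h3 h4 => Subtype.ext
    (X.commute_H X.hmul_of_finite (X.mem_H_of_mem_B_N h1 h2) (X.mem_H_of_mem_B_N h3 h4)).eq⟩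

variable {K : Type*} [Field K]

theorem sbnc_SL [Finite K] (p : ℕ) [Fact p.Prime] [CharP K p] {n : ℕ} (hn : 2 ≤ n) :
    SBNc p (SpecialLinearGroup (Fin n) K) := by
  obtain ⟨m, rfl⟩ := Nat.exists_eq_add_of_le' hn
  exact (two_sbnc (idTwO (rgA (m + 1) K)) p).of_equiv
    ((MulEquiv.subgroupCongr (idTwO_T.trans (rgA_grp _ K))).trans Subgroup.topEquiv)

theorem sbnc_SUG {m : ℕ} {σ : K →+* K} (hσ : ∀ x, σ (σ x) = x) {c : K} (hc0 : c ≠ 0) (hc : σ c = (-1) ^ (m + 1) * c)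
    [Finite K] (p : ℕ) [Fact p.Prime] [CharP K p] (h : Odd m ∨ σ ≠ RingHom.id K) :
    SBNc p (H12.SUG (fB m σ c)) := by
  have D := sd_fB hσ hc0 hc h
  let ψ : H12.SUG (fB m σ c) →* SpecialLinearGroup (Fin (m + 1)) K :=
    { toFun g := ⟨(H12.glEq _ K).symm g.1.1, by
        rw [← H12.det_glEq, MulEquiv.apply_symm_apply]; exact H12.mem_SUG.1 g.2⟩
      map_one' := Subtype.ext (by simp)
      map_mul' a b := Subtype.ext (congrArg Units.val (map_mul (H12.glEq _ K).symm a.1.1 b.1.1)) }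
  have h1 : ∀ g x, (ψ g).1 *ᵥ x = g.1.1 x := fun g x => by
    change ((H12.glEq _ K).symm g.1.1).1 *ᵥ x = _
    rw [← H12.glEq_apply, MulEquiv.apply_symm_apply]
  have h2 : Function.Injective ψ := fun a b h => Subtype.ext (H12.UG_ext fun x => by rw [← h1, ← h1, h])
  have h3 : ∀ g, ψ g ∈ (twA m σ).Fix := fun g => (mem_twA_Fix σ).2 ((fB_iff hc0).1 fun x y => by rw [h1, h1, H12.UG_map])
  have h4 : ψ.range = (twoA hσ hc0 hc).T := by
    refine le_antisymm ?_ fun g hg => ⟨⟨⟨H12.glEq _ K (SpecialLinearGroup.toGL g),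
      (fB_iff hc0).2 ((mem_twA_Fix σ).1 ((twoA hσ hc0 hc).T_le_Fix hg))⟩, H12.mem_SUG.2 ((H12.det_glEq _).trans g.2)⟩,
      Subtype.ext (congrArg Units.val ((H12.glEq _ K).symm_apply_apply _))⟩
    rintro _ ⟨⟨g, hg⟩, rfl⟩
    have h5 := (D.EG_eq_SUG D.ns).ge hg
    have : H12.EG (fB m σ c) ≤ ((twoA hσ hc0 hc).T.comap ψ).map (H12.SUG _).subtype := (Subgroup.closure_le _).2 (by
      rintro _ ⟨e, u, d, rfl⟩
      exact ⟨⟨_, H12.rho_mem_SUG D e u d⟩, mem_T_of_pow _ p (k := 2) (h3 _) (by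
        rw [← map_pow, ← map_one ψ]; exact congrArg ψ (Subtype.ext (rho_pow_sq D p e u d))), rfl⟩)
    obtain ⟨g', h6, rfl⟩ := this h5
    exact h6
  exact (two_sbnc (twoA hσ hc0 hc) p).of_equiv ((MulEquiv.subgroupCongr h4.symm).trans (MonoidHom.ofInjective h2).symm)

theorem sbnc_SU [Fintype K] (p : ℕ) [Fact p.Prime] [CharP K p] {n q : ℕ} (hK : Fintype.card K = q ^ 2) (hn : 1 ≤ n) :
    SBNc p (SU n K q) := by
  obtain ⟨m, rfl⟩ := Nat.exists_eq_add_of_le' hn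
  obtain ⟨c, hc0, hc⟩ : ∃ c : K, c ≠ 0 ∧ H12.frobq hK c = (-1) ^ (m + 1) * c := by
    rcases neg_one_pow_eq_or K (m + 1) with h | h <;> rw [h]
    exacts [⟨1, by simp⟩, ⟨_, H12.skw_ne hK, by simp [H12.frobq_skw]⟩]
  obtain ⟨e⟩ := (sd_fB (H12.frobq_frobq hK) hc0 hc (Or.inr (H12.frobq_ne_id hK))).nonempty_SUG_equiv_SU hK (n := m + 1)
    (by simp)
  have := Finite.of_equiv _ e.symm.toEquiv
  exact (sbnc_SUG (H12.frobq_frobq hK) hc0 hc p (Or.inr (H12.frobq_ne_id hK))).of_equiv e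

end Cfsg.Agent.H28
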