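import Cfsg.Agent.H28.Pron2
import Cfsg.Agent.H8.Wr4
import Cfsg.Agent.L0.SymSyl

/-! Normalizers of Sylow 2-subgroups of imprimitive type. -/

set_option autoImplicit false

namespace Cfsg.Agent.H28

open Cfsg.Agent.H27 Cfsg.Agent.H8 Matrix Subgroup Equiv SemidirectProduct Module

variable {K : Type*} [Field K] {I : Type}

variable (K I) in
/-- block monomial transformations -/
def wrG : Wr (G2 K) I →* ((I → Fin 2 → K) ≃ₗ[K] (I → Fin 2 → K)) where
  toFun x :=
    { toFun := fun v i => H12.glEq _ K (x.left i) (v (x.right⁻¹ i))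
      invFun := fun v i => (H12.glEq _ K (x.left (x.right i))).symm (v (x.right i))
      map_add' := fun v w => by ext; simp
      map_smul' := fun c v => by ext; simp
      left_inv := fun v => by ext; simp
      right_inv := fun v => by ext; simp }
  map_one' := by ext v; simp
  map_mul' a b := by ext v; simp [wr_mul_left]

theorem wrG_apply (x : Wr (G2 K) I) (v : I → Fin 2 → K) (i : I) :
    wrG K I x v i = H12.glEq _ K (x.left i) (v (x.right⁻¹ i)) := rfl

theorem glEq_neg_one (w : Fin 2 → K) : H12.glEq (Fin 2) K (-1) w = -w := by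
  rw [H12.glEq_apply, Units.val_neg, Units.val_one, neg_mulVec, one_mulVec]

variable [DecidableEq I]

theorem wrG_single (x : Wr (G2 K) I) (i : I) (w : Fin 2 → K) :
    wrG K I x (Pi.single i w) = Pi.single (x.right i) (H12.glEq _ K (x.left (x.right i)) w) := by
  ext1 j
  rw [wrG_apply]
  obtain ⟨j, rfl⟩ := x.right.surjective j
  by_cases h : j = i
  · simp [h]
  · simp [h, x.right.injective.ne h]

theorem g2_ext {a b : G2 K} (h : ∀ w, H12.glEq _ K a w = H12.glEq _ K b w) : a = b :=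
  (H12.glEq _ K).injective (LinearEquiv.ext h)

theorem wrG_injective : Function.Injective (wrG K I) := by
  rw [injective_iff_map_eq_one]
  intro x hx
  have h1 : ∀ i w, Pi.single (M := fun _ => Fin 2 → K) (x.right i) (H12.glEq _ K (x.left (x.right i)) w) = Pi.single i w :=
    fun i w => by rw [← wrG_single, hx]; rfl
  have h2 : x.right = 1 := Equiv.ext fun i => by_contra fun h => by
    have := congrFun (h1 i 1) i
    rw [Pi.single_eq_of_ne' (show x.right i ≠ i from h), Pi.single_eq_same] at this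
    exact zero_ne_one this
  exact SemidirectProduct.ext (funext fun i => g2_ext fun w => by
    have := congrFun (h1 i w) i
    rw [h2] at this
    simpa using this) h2

theorem wrG_sg_sub (i : I) (d : G2 K) (v : I → Fin 2 → K) :
    wrG K I (sg i d) v - v = Pi.single i (H12.glEq _ K d (v i) - v i) := by
  ext1 j
  rw [Pi.sub_apply, wrG_apply, sg_left, sg_right]
  by_cases h : j = i
  · simp [h]
  · simp [h]

theorem g2_neg_ne (h2 : (2 : K) ≠ 0) : (-1 : G2 K) ≠ 1 := fun h => h2 (by
  have := congrFun (congrFun (congrArg (fun x : G2 K => (x : M2 K)) h) 0) 0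
  simp at this; linear_combination -this)

theorem range_eq_of_two {W : Submodule K (I → Fin 2 → K)} [FiniteDimensional K W] (hW : finrank K W ≤ 2)
    (L : (Fin 2 → K) →ₗ[K] (I → Fin 2 → K)) (hL : Function.Injective L) (h : ∀ w, L w ∈ W) {v : I → Fin 2 → K}
    (hv : v ∈ W) : ∃ w, L w = v := by
  have : LinearMap.range L = W := Submodule.eq_of_le_of_finrank_le (by rintro _ ⟨w, rfl⟩; exact h w) (by
    rw [LinearMap.finrank_range_of_inj hL]; simpa using hW)
  rwa [← this] at hv

theorem right_eq_one {W : Submodule K (I → Fin 2 → K)} [FiniteDimensional K W] (hW : finrank K W ≤ 2) {a : Wr (G2 K) I}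
    (h : ∀ v, wrG K I a v - v ∈ W) (ha : a * a ≠ 1) : a.right = 1 := by
  refine Equiv.ext fun j => by_contra fun hj => ha (wrG_injective ?_)
  replace hj : a.right j ≠ j := hj
  let L : (Fin 2 → K) →ₗ[K] (I → Fin 2 → K) :=
    ((wrG K I a).toLinearMap - LinearMap.id) ∘ₗ LinearMap.single K (fun _ => Fin 2 → K) j
  have hL : ∀ w, L w = wrG K I a (Pi.single j w) - Pi.single j w := fun _ => rfl
  have h1 : Function.Injective L := (injective_iff_map_eq_zero _).2 fun w hw => by
    simpa [hL, wrG_single, hj.symm] using congrFun hw j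
  have h2 : ∀ w, wrG K I a (L w) = - L w := fun w => by
    obtain ⟨w', e⟩ := range_eq_of_two hW L h1 (fun w => h _) (h (L w))
    have e1 := congrFun e (a.right j)
    simp only [hL, map_sub, wrG_single, Pi.sub_apply, Pi.single_eq_same, Pi.single_eq_of_ne hj,
      Pi.single_eq_of_ne (a.right.injective.ne hj).symm, sub_zero, zero_sub] at e1
    have e2 : w' = -w - w := (H12.glEq _ K (a.left (a.right j))).injective (by
      rw [map_sub, map_neg]; exact e1)
    rw [e2, map_sub, map_neg] at e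
    exact (sub_left_inj.1 e).symm
  rw [map_mul, map_one]
  refine LinearEquiv.ext fun v => ?_
  obtain ⟨w, e⟩ := range_eq_of_two hW L h1 (fun w => h _) (h v)
  have := h2 w
  rw [e, map_sub, neg_sub] at this
  exact sub_left_inj.1 this

theorem exists_sg_neg (h2 : (2 : K) ≠ 0) {W : Submodule K (I → Fin 2 → K)} [FiniteDimensional K W] (hW : finrank K W ≤ 2)
    {a b c : Wr (G2 K) I} (ha : a.right = 1) (hb : b.right = 1) (hc : c.right = 1) (h1 : c * c = 1)
    (h3 : a * b = c * (b * a)) (h4 : c ≠ 1) (h : ∀ v, wrG K I c v - v ∈ W) : ∃ k, c = sg k (-1) := by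
  have a1 : ∀ k, c.left k = 1 ∨ c.left k = -1 := fun k => g2_inv h2
    (by simpa [wr_mul_left, hc] using congrFun (congrArg SemidirectProduct.left h1) k) (by
      have := congrArg GeneralLinearGroup.det (congrFun (congrArg SemidirectProduct.left h3) k)
      simp only [wr_mul_left, ha, hb, hc, inv_one, Perm.coe_one, id_eq, map_mul] at this
      rw [mul_comm, eq_comm, mul_eq_right] at this
      exact congrArg Units.val this)
  have a2 : ∀ k, c.left k = -1 → ∀ w, Pi.single k w ∈ W := fun k hk w => by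
    have := W.smul_mem (-2)⁻¹ (h (Pi.single k w))
    rwa [wrG_single, hc, Perm.one_apply, hk, ← Pi.single_sub, glEq_neg_one,
      show -w - w = (-2 : K) • w by module, Pi.single_smul, inv_smul_smul₀ (neg_ne_zero.2 h2)] at this
  obtain ⟨k, hk⟩ : ∃ k, c.left k = -1 := by_contra fun e => h4
    (SemidirectProduct.ext (funext fun k => (a1 k).resolve_right fun e' => e ⟨k, e'⟩) hc)
  refine ⟨k, SemidirectProduct.ext (funext fun l => ?_) hc⟩
  rw [sg_left]
  by_cases e : l = k
  · rw [e, hk, Pi.mulSingle_eq_same]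
  · rw [Pi.mulSingle_eq_of_ne e]
    refine (a1 l).resolve_right fun e' => ?_
    obtain ⟨w, e1⟩ := range_eq_of_two hW (LinearMap.single K (fun _ => Fin 2 → K) k) (fun _ _ e => Pi.single_injective k e)
      (a2 k hk) (a2 l e' 1)
    simpa [e] using congrFun e1 l

theorem single_of_commute (h2 : (2 : K) ≠ 0) {x : (I → Fin 2 → K) ≃ₗ[K] (I → Fin 2 → K)} {i : I}
    (h : Commute x (wrG K I (sg i (-1)))) (w : Fin 2 → K) : x (Pi.single i w) = Pi.single i (x (Pi.single i w) i) := by
  ext1 k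
  by_cases e : k = i
  · rw [e, Pi.single_eq_same]
  · have := congrFun (LinearEquiv.congr_fun h.eq (Pi.single i w)) k
    simp only [LinearEquiv.mul_apply, wrG_single, wrG_apply, sg_left, sg_right, Pi.mulSingle_eq_of_ne e] at this
    simp only [Perm.coe_one, id_eq, Pi.mulSingle_eq_same, glEq_neg_one,
      Pi.single_neg, map_neg, Pi.neg_apply, inv_one, map_one, LinearEquiv.coe_one] at this
    rw [Pi.single_eq_of_ne e]
    exact (smul_eq_zero.1 (show (2 : K) • x (Pi.single i w) k = 0 by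
      rw [two_smul]; nth_rw 1 [← this]; simp)).resolve_left h2

variable [Fintype I]

theorem exists_inl (h2 : (2 : K) ≠ 0) {x : (I → Fin 2 → K) ≃ₗ[K] (I → Fin 2 → K)}
    (h : ∀ i, Commute x (wrG K I (sg i (-1)))) : ∃ β, x = wrG K I (inl β) := by
  refine ⟨fun i => (H12.glEq _ K).symm (LinearEquiv.ofLinearMap
    (LinearMap.proj i ∘ₗ x.toLinearMap ∘ₗ LinearMap.single K (fun _ => Fin 2 → K) i)
    (LinearMap.proj i ∘ₗ x⁻¹.toLinearMap ∘ₗ LinearMap.single K (fun _ => Fin 2 → K) i)
    (LinearMap.ext fun w => ?_) (LinearMap.ext fun w => ?_)),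
    LinearEquiv.toLinearMap_injective (LinearMap.pi_ext fun i w => ?_)⟩
  · change x (Pi.single i (x⁻¹ (Pi.single i w) i)) i = w
    rw [← single_of_commute h2 (h i).inv_left]; simp
  · change x⁻¹ (Pi.single i (x (Pi.single i w) i)) i = w
    rw [← single_of_commute h2 (h i)]; simp
  · rw [LinearEquiv.coe_coe, LinearEquiv.coe_coe, wrG_single, left_inl, MulEquiv.apply_symm_apply]
    exact single_of_commute h2 (h i) w

theorem det_wrG_inl (β : I → G2 K) : LinearEquiv.det (wrG K I (inl β)) = ∏ i, GeneralLinearGroup.det (β i) := by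
  ext
  have h1 : (wrG K I (inl β) : (I → Fin 2 → K) →ₗ[K] (I → Fin 2 → K)) =
      LinearMap.pi fun i => (H12.glEq _ K (β i) : (Fin 2 → K) →ₗ[K] (Fin 2 → K)).comp (LinearMap.proj i) :=
    LinearMap.ext fun _ => rfl
  simp only [LinearEquiv.coe_det, Units.coe_prod]
  rw [h1, LinearMap.det_pi]
  simp [H12.det_glEq]

theorem det_wrG_sg (i : I) (d : G2 K) : LinearEquiv.det (wrG K I (sg i d)) = GeneralLinearGroup.det d := by
  refine (det_wrG_inl (Pi.mulSingle i d)).trans ?_
  rw [Finset.prod_eq_single i (fun j _ h => by rw [Pi.mulSingle_eq_of_ne h, map_one]) (by simp), Pi.mulSingle_eq_same]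

theorem det_wrG_inr (t : Perm I) : LinearEquiv.det (wrG K I (inr t)) = 1 := by
  let pm : Perm (I × Fin 2) →* ((I → Fin 2 → K) ≃ₗ[K] (I → Fin 2 → K)) :=
    { toFun := fun σ =>
        { toFun := fun v i j => v (σ⁻¹ (i, j)).1 (σ⁻¹ (i, j)).2
          invFun := fun v i j => v (σ (i, j)).1 (σ (i, j)).2
          map_add' := fun _ _ => rfl
          map_smul' := fun _ _ => rfl
          left_inv := fun v => by ext; simp
          right_inv := fun v => by ext; simp }
      map_one' := rfl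
      map_mul' := fun _ _ => rfl }
  have : wrG K I (inr t) = pm (prodCongrLeft fun _ : Fin 2 => t) := by
    ext v i j
    rw [wrG_apply]; simp; rfl
  rw [this]
  exact map_eq_one_of_sign (LinearEquiv.det.comp pm) (sign_prodCongrLeft_two (by simp) t)

variable (K) in
/-- the block monomial 2-subgroup of determinant one -/
noncomputable def wrS (D : Subgroup (G2 K)) (T : Subgroup (Perm I)) : Subgroup (Wr (G2 K) I) :=
  wsub D T ⊓ (LinearEquiv.det.comp (wrG K I)).ker

theorem sg_mem_wrS {D : Subgroup (G2 K)} {T : Subgroup (Perm I)} (i : I) {d : G2 K} (hd : d ∈ D)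
    (h : GeneralLinearGroup.det d = 1) : sg i d ∈ wrS K D T := ⟨sg_mem_wsub i hd, (det_wrG_sg i d).trans h⟩

theorem inr_mem_wrS {D : Subgroup (G2 K)} {T : Subgroup (Perm I)} {t : Perm I} (ht : t ∈ T) :
    inr t ∈ wrS K D T := ⟨inr_mem_wsub ht, det_wrG_inr t⟩

theorem exists_wr (h2 : (2 : K) ≠ 0) {D : Subgroup (G2 K)} {T : Subgroup (Perm I)} {g h : G2 K} (hg : g ∈ D) (hh : h ∈ D)
    (dg : GeneralLinearGroup.det g = 1) (dh : GeneralLinearGroup.det h = 1) (g2 : g * g = -1) (h2' : h * h = -1)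
    (gh : g * h = -(h * g)) {x : (I → Fin 2 → K) ≃ₗ[K] (I → Fin 2 → K)}
    (hx : ∀ s ∈ wrS K D T, ∃ s' ∈ wrS K D T, wrG K I s' = x * wrG K I s * x⁻¹) : ∃ b, x = wrG K I b := by
  have a0 : ∀ i : I, sg i (-1 : G2 K) ≠ 1 := fun i e => g2_neg_ne h2 (by
    simpa [sg_left] using congrFun (congrArg SemidirectProduct.left e) i)
  have a1 : ∀ i, ∃ k, x * wrG K I (sg i (-1)) * x⁻¹ = wrG K I (sg k (-1)) := fun i => by
    let L := x.toLinearMap ∘ₗ LinearMap.single K (fun _ => Fin 2 → K) i
    have hW : finrank K (LinearMap.range L) ≤ 2 := (LinearMap.finrank_range_le L).trans (by simp)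
    have b1 : ∀ {s : Wr (G2 K) I} {d : G2 K}, wrG K I s = x * wrG K I (sg i d) * x⁻¹ →
        ∀ v, wrG K I s v - v ∈ LinearMap.range L := fun {s d} e v =>
      ⟨H12.glEq _ K d (x⁻¹ v i) - x⁻¹ v i, by
        change x (Pi.single i _) = _
        rw [← wrG_sg_sub, e, map_sub]; simp⟩
    obtain ⟨a, -, ea⟩ := hx _ (sg_mem_wrS i hg dg)
    obtain ⟨b, -, eb⟩ := hx _ (sg_mem_wrS i hh dh)
    have e1 : wrG K I (a * a) = x * wrG K I (sg i (-1)) * x⁻¹ := by rw [map_mul, ea, conj_mul, ← map_mul, ← map_mul, g2]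
    have e2 : b * b = a * a := wrG_injective (by rw [e1, map_mul, eb, conj_mul, ← map_mul, ← map_mul, h2'])
    have e3 : a * a ≠ 1 := fun e => a0 i (wrG_injective (by rwa [e, map_one, eq_comm, conj_eq_one_iff, ← map_one (wrG K I)] at e1))
    have ha := right_eq_one hW (b1 ea) e3
    obtain ⟨k, hk⟩ := exists_sg_neg h2 hW ha (right_eq_one hW (b1 eb) (e2 ▸ e3)) (c := a * a) (by simp [ha])
      (wrG_injective (by rw [map_mul, e1, conj_mul, ← map_mul, ← map_mul]; simp))
      (wrG_injective (by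
        rw [map_mul (wrG K I) (a * a), e1, map_mul, map_mul, ea, eb, conj_mul, conj_mul, conj_mul, ← map_mul, ← map_mul,
          ← map_mul, ← map_mul, ← map_mul, ← map_mul, gh, neg_one_mul])) e3 (b1 e1)
    exact ⟨k, by rw [← e1, hk]⟩
  choose σ hσ using a1
  have a2 : Function.Injective σ := fun i j e => by_contra fun hij => by
    have := hσ i
    rw [e, ← hσ j, mul_left_inj, mul_right_inj] at this
    have := congrFun (congrArg SemidirectProduct.left (wrG_injective this)) i
    rw [sg_left, sg_left, Pi.mulSingle_eq_same, Pi.mulSingle_eq_of_ne hij] at this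
    exact g2_neg_ne h2 this
  let τ : Perm I := Equiv.ofBijective σ (Finite.injective_iff_bijective.1 a2)
  obtain ⟨β, e⟩ := exists_inl h2 (x := (wrG K I (inr τ))⁻¹ * x) fun i => by
    refine mul_inv_eq_iff_eq_mul.1 ?_
    rw [show (wrG K I (inr τ))⁻¹ * x * wrG K I (sg i (-1)) * ((wrG K I (inr τ))⁻¹ * x)⁻¹ =
      (wrG K I (inr τ))⁻¹ * (x * wrG K I (sg i (-1)) * x⁻¹) * wrG K I (inr τ) by group, hσ,
      show σ i = τ i from rfl, ← inr_conj_sg]
    simp [mul_assoc]
  exact ⟨inr τ * inl β, by rw [map_mul, ← e, mul_inv_cancel_left]⟩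

theorem wr_eq_one (h2 : (2 : K) ≠ 0) {D : Subgroup (G2 K)} [Finite D] (hD : IsPGroup 2 D)
    (h8 : 4 < (center (G2 K)).relIndex D) {g h : G2 K} (hg : g ∈ D) (hh : h ∈ D)
    (dg : GeneralLinearGroup.det g = 1) (dh : GeneralLinearGroup.det h = 1) (g2 : g * g = -1) (h2' : h * h = -1)
    (gh : g * h = -(h * g)) (T : Sylow 2 (Perm I)) (hT : ∀ i j, ∃ t ∈ T, t i = j) [Nontrivial I] {k : ℕ}
    (hI : Fintype.card I = 2 ^ k) {x : (I → Fin 2 → K) ≃ₗ[K] (I → Fin 2 → K)} {N : ℕ} (hN : Odd N) (hxN : x ^ N = 1)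
    (hd : LinearEquiv.det x = 1) (hx : x ∈ normalizer (((wrS K D T.1).map (wrG K I) : Subgroup _) : Set _)) : x = 1 := by
  obtain ⟨b, rfl⟩ := exists_wr h2 hg hh dg dh g2 h2' gh (T := T.1) (x := x) fun s hs =>
    (mem_normalizer_iff.1 hx _).1 ⟨s, hs, rfl⟩
  have a1 : b ∈ normalizer ((wrS K D T.1 : Subgroup _) : Set _) := mem_normalizer_iff.2 fun s => by
    rw [← mem_map_iff_mem wrG_injective, mem_normalizer_iff.1 hx, ← map_inv, ← map_mul, ← map_mul,
      mem_map_iff_mem wrG_injective]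
  have a2 : b ^ N = 1 := wrG_injective (by rw [map_pow, hxN, map_one])
  have a3 : b.right = 1 := L0.SymSyl.sym_odd _ I rfl T _ (hN.of_dvd_nat (orderOf_dvd_of_pow_eq_one (by
    rw [← rightHom_eq_right, ← map_pow, a2, map_one]))) fun t ht => by
      have := ((mem_normalizer_iff.1 a1 _).1 (inr_mem_wrS ht)).1.2
      simp only [mul_right, right_inr, inv_right] at this
      exact this
  have a4 : ∀ c : Wr (G2 K) I, c ∈ normalizer (wrS K D T.1 : Set (Wr (G2 K) I)) → c.right = 1 → ∀ i, ∀ d ∈ D,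
      c.left i * d * (c.left i)⁻¹ ∈ D := fun c hc e i d hd => by
    obtain ⟨j, hj⟩ := exists_ne i
    have := ((mem_normalizer_iff.1 hc (sg i d * sg j d⁻¹)).1 ⟨mul_mem (sg_mem_wsub i hd) (sg_mem_wsub j (inv_mem hd)), by
      simp [MonoidHom.mem_ker, det_wrG_sg]⟩).1.1 i
    simpa [wr_mul_left, wr_inv_left, e, sg_left, sg_right, hj.symm] using this
  obtain ⟨β, rfl⟩ : ∃ β, b = inl β := ⟨b.left, SemidirectProduct.ext rfl a3⟩
  have a5 : ∀ i, β i ^ N = 1 := fun i => congrFun (inl_injective ((map_pow _ _ _).trans a2)) i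
  have a6 : ∀ i, β i ∈ center (G2 K) := fun i => mem_center_g2.2 (g2_scal h2 hD h8
    ⟨g, hg, h, hh, fun e => g2_neg_ne h2 (by rw [gh, ← neg_one_mul] at e; exact mul_eq_right.1 e)⟩ hN (a5 i) fun d =>
      ⟨a4 _ a1 rfl i d, fun e => by simpa [mul_assoc] using a4 _ (inv_mem a1) (by simp) i _ e⟩)
  obtain ⟨i⟩ : Nonempty I := inferInstance
  have a7 : ∀ j, β j = β i := fun j => by
    obtain ⟨t, ht, rfl⟩ := hT i j
    have := ((mem_normalizer_iff.1 a1 _).1 (inr_mem_wrS ht)).1.1 (t i)
    refine mul_inv_eq_one.1 (pr_eq_one hD (by simpa [wr_mul_left, wr_inv_left] using this) hN ?_)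
    rw [(Commute.inv_right (mem_center_iff.1 (a6 i) _)).mul_pow, inv_pow, a5, a5]; simp
  rw [det_wrG_inl, Finset.prod_congr rfl fun j _ => by rw [a7 j], Finset.prod_const, Finset.card_univ, hI] at hd
  have a8 : GeneralLinearGroup.det (β i) = 1 := orderOf_eq_one_iff.1 (Nat.eq_one_of_dvd_coprimes
    ((Nat.coprime_two_right.2 hN).pow_right k) (orderOf_dvd_of_pow_eq_one (by rw [← map_pow, a5, map_one]))
    (orderOf_dvd_of_pow_eq_one hd))
  obtain ⟨c, hc⟩ := scal_iff.1 (mem_center_g2.1 (a6 i))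
  have a9 : β i ^ 2 = 1 := Units.ext (by
    have := congrArg Units.val a8
    rw [GeneralLinearGroup.val_det_apply, hc, det_smul] at this
    rw [Units.val_pow_eq_pow_val, hc, smul_pow, show c ^ 2 = 1 by simpa using this]; simp)
  have a10 : β i = 1 := orderOf_eq_one_iff.1 (Nat.eq_one_of_dvd_coprimes (Nat.coprime_two_right.2 hN)
    (orderOf_dvd_of_pow_eq_one (a5 i)) (orderOf_dvd_of_pow_eq_one a9))
  rw [show β = 1 from funext fun j => (a7 j).trans a10, map_one, map_one]

end Cfsg.Agent.H28
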