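import Cfsg.Agent.H28.Pron3
import Cfsg.Agent.H23.GL2S
import Cfsg.Agent.H29.StSL2

/-! Sylow 2-subgroups of `SL` and `SU` in dimension `2 ^ w ≥ 4` and odd characteristic are self-normalizing. -/

set_option autoImplicit false

namespace Cfsg.Agent.H28

open Cfsg.Agent.H27 Cfsg.Agent.H8 Matrix Subgroup Equiv SemidirectProduct Module

section general

variable {G : Type*} [Group G]

theorem pr_card_inf (H L : Subgroup G) : Nat.card ↥(L ⊓ H) * H.relIndex L = Nat.card L := by
  rw [← (H.subgroupOf L).card_mul_index, ← inf_subgroupOf_left,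
    Nat.card_congr (subgroupOfEquivOfLe (inf_le_left : L ⊓ H ≤ L)).toEquiv, inf_subgroupOf_left]; rfl

theorem pr_card_dvd {K : Type*} [Field K] [Finite K] {A : Subgroup Kˣ} {r : ℕ} (h : ∀ a ∈ A, a ^ r = 1) :
    Nat.card A ∣ r := by
  rw [← IsCyclic.exponent_eq_card]
  exact Monoid.exponent_dvd_of_forall_pow_eq_one fun a => Subtype.ext (h a a.2)

variable [Finite G]

theorem norm_le_all {P : Sylow 2 G} (h : normalizer ((P : Subgroup G) : Set G) ≤ P) (Q : Sylow 2 G) :
    normalizer ((Q : Subgroup G) : Set G) ≤ Q := by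
  obtain ⟨a, rfl⟩ := MulAction.exists_smul_eq G P Q
  intro x hx
  have := h (Sylow.smul_eq_iff_mem_normalizer.1 (show (a⁻¹ * x * a) • P = P by
    rw [mul_smul, mul_smul, Sylow.smul_eq_iff_mem_normalizer.2 hx, inv_smul_smul]))
  exact ⟨_, this, by simp [mul_assoc]⟩

theorem norm_le_quot (h : ∀ P : Sylow 2 G, normalizer ((P : Subgroup G) : Set G) ≤ P) (Q : Sylow 2 (G ⧸ center G)) :
    normalizer ((Q : Subgroup (G ⧸ center G)) : Set (G ⧸ center G)) ≤ Q := by
  obtain ⟨P⟩ : Nonempty (Sylow 2 G) := inferInstance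
  intro x hx
  obtain ⟨x, rfl⟩ := QuotientGroup.mk'_surjective _ x
  exact h (Q.comapOfKerIsPGroup (QuotientGroup.mk' _) (by
    rw [QuotientGroup.ker_mk']; exact P.isPGroup'.to_le ((center_le_normalizer _).trans (h P)))
    (by rw [QuotientGroup.range_mk']; exact le_top)) (le_normalizer_comap _ hx)

theorem pron_quot (h : ∀ P : Sylow 2 G, normalizer ((P : Subgroup G) : Set G) ≤ P) (H : Subgroup (G ⧸ center G))
    (hH : Odd H.index) : IsPronormal H := by
  obtain ⟨P, hP⟩ := L0.SymSyl.exists_sylow_le_of_odd H hH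
  exact L0.SymSyl.pron_of_norm_le P hP ((norm_le_quot h P).trans (hP.trans le_normalizer))

end general

variable {K : Type*} [Field K]

theorem norm_le_of_wr [Finite K] (h2 : (2 : K) ≠ 0) {I : Type} [Group I] [Fintype I] [DecidableEq I] {k : ℕ}
    (hI : Fintype.card I = 2 ^ (k + 1)) {G : Type*} [Group G] [Finite G]
    (φ : G →* ((I → Fin 2 → K) ≃ₗ[K] (I → Fin 2 → K))) (hφ : Function.Injective φ) (hd : ∀ g, LinearEquiv.det (φ g) = 1)
    {A : Subgroup (G2 K)} {r e : ℕ} (hr : r ≠ 0) (he : 3 ≤ e) (h1 : ∀ d ∈ A, GeneralLinearGroup.det d ^ r = 1)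
    (h3 : ∀ c, GeneralLinearGroup.scalar (Fin 2) c ∈ A → c ^ r = 1)
    (h4 : (Nat.card A).factorization 2 = r.factorization 2 + e) {g h : G2 K} (hg : g ∈ A) (hh : h ∈ A)
    (dg : GeneralLinearGroup.det g = 1) (dh : GeneralLinearGroup.det h = 1) (g2 : g * g = -1) (h2' : h * h = -1)
    (gh : g * h = -(h * g)) (h5 : ∀ s ∈ wsub A ⊤, LinearEquiv.det (wrG K I s) = 1 → wrG K I s ∈ φ.range)
    (h6 : (Nat.card G).factorization 2 + r.factorization 2 ≤
      2 ^ (k + 1) * (r.factorization 2 + e) + (2 ^ (k + 1)).factorial.factorization 2) (P : Sylow 2 G) :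
    normalizer ((P : Subgroup G) : Set G) ≤ P := by
  have o4 : ∀ {x : G2 K}, x * x = -1 → IsPGroup 2 (zpowers x) := fun {x} e => IsPGroup.iff_card.2
    ((Nat.dvd_prime_pow Nat.prime_two (m := 2)).1 (by
      rw [Nat.card_zpowers]
      exact orderOf_dvd_of_pow_eq_one (by rw [sq 2, pow_mul, sq x, e]; simp)) |>.imp fun _ h => h.2)
  obtain ⟨D0, hD0⟩ := ((IsPGroup.to_sup_of_normal_right' (o4 h2') (o4 g2) (zpowers_le.2 (H23.mem_normalizer_zpowers (by
    rw [show h * g * h⁻¹ = g⁻¹ by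
      rw [← neg_neg (h * g), ← gh, neg_mul, mul_inv_cancel_right, eq_inv_iff_mul_eq_one, neg_mul, g2, neg_neg]]
    exact inv_mem (mem_zpowers g))))).comap_subtype (K := A)).exists_le_sylow
  set D := D0.1.map A.subtype with hD
  have d1 : IsPGroup 2 D := D0.isPGroup'.map _
  have d2 : D ≤ A := map_subtype_le _
  have d3 : (Nat.card D).factorization 2 = r.factorization 2 + e := by
    rw [hD, card_map_of_injective A.subtype_injective, factorization_card_sylow, h4]
  have d4 : 4 < (center (G2 K)).relIndex D := by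
    have a1 : Nat.card ↥(D ⊓ center (G2 K)) ∣ r := by
      rw [GeneralLinearGroup.center_eq_range_scalar, inf_comm, ← map_comap_eq]
      exact (card_map_dvd _ _).trans (pr_card_dvd fun c hc => h3 c (d2 hc))
    have a2 := pr_card_inf (center (G2 K)) D
    have a3 : (center (G2 K)).relIndex D ≠ 0 := index_ne_zero_of_finite
    rw [← a2, fac2_mul Nat.card_pos.ne' a3] at d3
    have := (Nat.factorization_le_iff_dvd Nat.card_pos.ne' hr).2 a1 2
    have := Nat.le_of_dvd (Nat.pos_of_ne_zero a3) ((Nat.prime_two.pow_dvd_iff_le_factorization a3 (k := 3)).2 (by omega))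
    omega
  obtain ⟨T, hT⟩ := ((IsPGroup.of_card (p := 2) (G := I) (n := k + 1) (by
    rw [Nat.card_eq_fintype_card, hI])).of_surjective _
    (MulAction.toPermHom I I).rangeRestrict_surjective).exists_le_sylow
  have : Nontrivial I := Fintype.one_lt_card_iff_nontrivial.1 (by rw [hI]; exact Nat.one_lt_two_pow (by omega))
  have p1 : (wrS K D T.1).map (wrG K I) ≤ φ.range := by
    rintro _ ⟨s, hs, rfl⟩
    exact h5 s ⟨fun i => d2 (hs.1.1 i), trivial⟩ hs.2
  have p2 : IsPGroup 2 (((wrS K D T.1).map (wrG K I)).comap φ) :=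
    (((isPGroup_wsub d1 T.isPGroup').to_le inf_le_left).map _).comap_of_injective φ hφ
  obtain ⟨Q, hQ⟩ := p2.exists_le_sylow
  have p3 : ((wrS K D T.1).map (wrG K I)).comap φ = Q := by
    refine eq_of_le_of_card_ge hQ ?_
    have a1 := pr_card_inf (LinearEquiv.det.comp (wrG K I)).ker (wsub D T.1)
    have a2 : (LinearEquiv.det.comp (wrG K I)).ker.relIndex (wsub D T.1) ∣ r := by
      rw [relIndex_ker]
      refine pr_card_dvd ?_
      rintro _ ⟨s, hs, rfl⟩
      rw [← inl_left_mul_inr_right s, map_mul, MonoidHom.comp_apply, MonoidHom.comp_apply, det_wrG_inr, det_wrG_inl,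
        mul_one, ← Finset.prod_pow]
      exact Finset.prod_eq_one fun i _ => h1 _ (d2 (hs.1 i))
    have a3 := factorization_card_wsub (D0 := D) (T := T.1) 2
    have a5 : (LinearEquiv.det.comp (wrG K I)).ker.relIndex (wsub D T.1) ≠ 0 := index_ne_zero_of_finite
    rw [← a1, fac2_mul Nat.card_pos.ne' a5, factorization_card_sylow_perm, d3,
      Nat.card_eq_fintype_card (α := I), hI] at a3
    have a4 := (Nat.factorization_le_iff_dvd a5 hr).2 a2 2
    rw [← card_map_of_injective (K := comap φ _) hφ, map_comap_eq_self p1, card_map_of_injective wrG_injective,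
      Q.card_eq_multiplicity]
    exact Nat.le_of_dvd Nat.card_pos ((Nat.prime_two.pow_dvd_iff_le_factorization Nat.card_pos.ne').2 (by
      change _ ≤ (Nat.card ↥(wsub D T.1 ⊓ _)).factorization 2
      change _ ≤ r.factorization 2 at a4
      omega))
  refine norm_le_all (P := Q) (L0.SymSyl.norm_le_of_odd Q fun x hx ho => hφ ?_) P
  rw [map_one]
  refine wr_eq_one h2 d1 d4 (g := g) (h := h) ⟨⟨g, hg⟩, hD0 (mem_sup_right (mem_zpowers g)), rfl⟩
    ⟨⟨h, hh⟩, hD0 (mem_sup_left (mem_zpowers h)), rfl⟩ dg dh g2 h2' gh T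
    (fun i j => ⟨_, hT ⟨j * i⁻¹, rfl⟩, by simp⟩) hI ho (by rw [← map_pow, pow_orderOf_eq_one, map_one]) (hd x) ?_
  rw [← map_comap_eq_self p1, p3]
  exact le_normalizer_map φ ⟨x, hx, rfl⟩

theorem exists_quat {a b : K} (hab : a ^ 2 + b ^ 2 = -1) : ∃ g h : G2 K, (g : M2 K) = !![0, 1; -1, 0] ∧
    (h : M2 K) = !![a, b; b, -a] ∧ GeneralLinearGroup.det g = 1 ∧ GeneralLinearGroup.det h = 1 ∧ g * g = -1 ∧
      h * h = -1 ∧ g * h = -(h * g) := by
  have e : a * -a - b * b = 1 := by linear_combination -hab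
  refine ⟨H12.mkGL2 0 1 (-1) 0 (by simp), H12.mkGL2 a b b (-a) (by rw [e]; simp), rfl, rfl, Units.ext (by simp),
    Units.ext (by simpa using e), Units.ext (m2ext ?_ ?_ ?_ ?_), Units.ext (m2ext ?_ ?_ ?_ ?_),
    Units.ext (m2ext ?_ ?_ ?_ ?_)⟩ <;> simp [m2mul]
  · linear_combination hab
  · ring
  · ring
  · linear_combination hab

theorem three_le_fac {q : ℕ} (hq : Odd q) (h1 : 1 < q) : 3 ≤ (q ^ 2 - 1).factorization 2 :=
  (Nat.prime_two.pow_dvd_iff_le_factorization (pow_sub_one_ne_zero h1 two_ne_zero)).1 (by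
    obtain ⟨k, rfl⟩ := hq
    obtain ⟨j, hj⟩ := Nat.even_mul_succ_self k
    exact ⟨j, by rw [Nat.sub_eq_iff_eq_add (Nat.one_le_pow _ _ (by omega))]; nlinarith⟩)

theorem fac2_guOrd {q : ℕ} (hq : Odd q) (h1 : 1 < q) (m : ℕ) : (H12.guOrd q (2 * m)).factorization 2 =
    m * ((q + 1).factorization 2 + (q ^ 2 - 1).factorization 2) + m.factorial.factorization 2 := by
  have a0 : ∀ n, ∏ i ∈ Finset.range n, (if Even i then q ^ (i + 1) + 1 else q ^ (i + 1) - 1) ≠ 0 := fun n =>
    Finset.prod_ne_zero_iff.2 fun i _ => by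
      split_ifs
      exacts [by positivity, pow_sub_one_ne_zero h1 i.succ_ne_zero]
  rw [H12.guOrd, fac2_mul (by positivity) (a0 _), fac2_odd hq.pow, zero_add]
  induction m with
  | zero => simp
  | succ m ih =>
    have a1 := fac2_pow_two_mul h1 (m := 2 * m + 1) (by omega)
    rw [fac2_even_pow hq h1 (by omega), fac2_odd_pow hq h1, fac2_odd (odd_two_mul_add_one m), fac2_sq_sub_one h1] at a1
    rw [show 2 * (m + 1) = 2 * m + 1 + 1 by ring, Finset.prod_range_succ, Finset.prod_range_succ,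
      if_pos (even_two_mul m), if_neg (Nat.not_even_iff_odd.2 (odd_two_mul_add_one m)),
      fac2_mul (mul_ne_zero (a0 _) (by positivity)) (pow_sub_one_ne_zero h1 (by omega)), fac2_mul (a0 _) (by positivity), ih,
      show 2 * m + 1 + 1 = 2 * (m + 1) by ring, fac2_even_pow hq h1 m.succ_ne_zero, Nat.factorial_succ,
      fac2_mul m.succ_ne_zero m.factorial_ne_zero, show (q ^ (2 * m + 1) + 1).factorization 2 = (q + 1).factorization 2 by omega]
    ring

theorem exists_blk (K : Type*) [Field K] (k : ℕ) : ∃ (I : Type) (_ : Group I) (_ : Fintype I) (_ : DecidableEq I)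
    (E : (I → Fin 2 → K) ≃ₗ[K] (Fin (2 ^ (k + 2)) → K))
    (φ : SpecialLinearGroup (Fin (2 ^ (k + 2))) K →* ((I → Fin 2 → K) ≃ₗ[K] (I → Fin 2 → K))),
    Fintype.card I = 2 ^ (k + 1) ∧ Function.Injective φ ∧ φ.range = LinearEquiv.det.ker ∧
      (∀ g v, g.1 *ᵥ E v = E (φ g v)) ∧ ∀ q v w, hermForm _ K q (E v) (E w) = ∑ i, hermForm 2 K q (v i) (w i) := by
  let I := Multiplicative (ZMod (2 ^ (k + 1)))
  let e : Fin (2 ^ (k + 2)) ≃ I × Fin 2 := Fintype.equivOfCardEq (by simp [I, pow_succ])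
  let E : (I → Fin 2 → K) ≃ₗ[K] (Fin (2 ^ (k + 2)) → K) :=
    (LinearEquiv.curry K K I (Fin 2)).symm ≪≫ₗ LinearEquiv.funCongrLeft K K e
  refine ⟨I, inferInstance, inferInstance, inferInstance, E,
    (Subgroup.subtype _).comp (slKer (Basis.ofEquivFun E)).toMonoidHom, by simp [I],
    (subtype_injective _).comp (slKer _).injective, ?_, fun g v => ?_, fun q v w => ?_⟩
  · rw [MonoidHom.range_comp, MonoidHom.range_eq_top.2 (slKer _).surjective, ← MonoidHom.range_eq_map, range_subtype]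
  · exact (Matrix.repr_toLin (Basis.ofEquivFun E) (Basis.ofEquivFun E) g.1 v).symm
  · simp only [hermForm]
    rw [← Fintype.sum_prod_type']
    exact e.sum_comp fun x => v x.1 x.2 * w x.1 x.2 ^ q

variable [Fintype K]

theorem sl_norm_le (ho : Odd (Fintype.card K)) (k : ℕ) (P : Sylow 2 (SpecialLinearGroup (Fin (2 ^ (k + 2))) K)) :
    normalizer (P.1 : Set (SpecialLinearGroup (Fin (2 ^ (k + 2))) K)) ≤ P := by
  obtain ⟨I, _, _, _, E, φ, hI, h1, h2, -, -⟩ := exists_blk K k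
  obtain ⟨a, b, hab⟩ := H29.StData.exists_sq_add_sq (-1 : K)
  obtain ⟨g, h, -, -, a1, a2, a3, a4, a5⟩ := exists_quat hab
  have hq : 1 < Fintype.card K := Fintype.one_lt_card
  have b1 : ∀ c : Kˣ, c ^ (Fintype.card K - 1) = 1 := fun c => by
    classical rw [← Fintype.card_units, pow_card_eq_one]
  have b2 := fun m hm => congrArg (fun n : ℕ => n.factorization 2) (H12.card_SL_fin (F := K) rfl (2 * m) hm)
  simp only [fac2_mul (show Fintype.card K - 1 ≠ 0 by omega) Nat.card_pos.ne', fac2_gl_prod ho hq, fac2_gl_even ho hq] at b2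
  refine norm_le_of_wr (H12.two_ne_zero_of_odd_card ho) hI φ h1 (fun g => h2.le ⟨g, rfl⟩) (A := ⊤)
    (r := Fintype.card K - 1) (by omega) (three_le_fac ho hq) (fun _ _ => b1 _) (fun _ _ => b1 _) ?_ trivial trivial
    a1 a2 a3 a4 a5 (fun s _ hs => h2.ge hs) ?_ P
  · rw [card_top, H12.card_GL_fin rfl (1 * 2), fac2_gl_prod ho hq, mul_comm, fac2_gl_even ho hq]; simp
  · rw [← b2 _ (by have := Nat.one_le_two_pow (n := k + 1); omega), ← pow_succ', add_comm]

theorem su_norm_le {q : ℕ} (hK : Fintype.card K = q ^ 2) (ho : Odd q) (k : ℕ) (P : Sylow 2 (SU (2 ^ (k + 2)) K q)) :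
    normalizer (P.1 : Set (SU (2 ^ (k + 2)) K q)) ≤ P := by
  obtain ⟨I, _, _, _, E, φ, hI, h1, h2, h3, h4⟩ := exists_blk K k
  obtain ⟨σ, hσ, -⟩ := exists_frob_two hK
  have hq : 1 < q := H12.two_le_of_card_eq_sq hK
  obtain ⟨a, b, hab⟩ := H29.StData.exists_sq_add_sq (F := (H12.frobq hK).eqLocusField (RingHom.id K))
    ⟨-(H12.skw hK ^ 2)⁻¹, by simp [H12.frobq_skw]⟩
  have c0 : ∀ x : (H12.frobq hK).eqLocusField (RingHom.id K), σ (H12.skw hK * x) = -(H12.skw hK * x) := fun x => by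
    rw [hσ, ← H12.frobq_apply hK, map_mul, H12.frobq_skw, show H12.frobq hK x = x from x.2, neg_mul]
  have c1 : (H12.skw hK * a) ^ 2 + (H12.skw hK * b) ^ 2 = -1 := by
    have := congrArg Subtype.val hab
    have h0 := H12.skw_ne hK
    push_cast at this
    rw [mul_pow, mul_pow, ← mul_add, this]; field_simp
  obtain ⟨g, h, e1, e2, a1, a2, a3, a4, a5⟩ := exists_quat c1
  have b2 := congrArg (fun n : ℕ => n.factorization 2) (H12.card_SU hK (n := 2 ^ (k + 2)) Nat.one_le_two_pow)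
  simp only [fac2_mul (show q + 1 ≠ 0 by omega) Nat.card_pos.ne'] at b2
  refine norm_le_of_wr (H12.two_ne_zero_of_odd_card (hK ▸ ho.pow)) hI (φ.comp (Subgroup.subtype _))
    (h1.comp (subtype_injective _)) (fun g => h2.le ⟨g, rfl⟩) (A := GU 2 K q)
    (r := q + 1) (by omega) (three_le_fac ho hq) (fun d hd => (map_det_GU hK one_le_two).le ⟨d, hd, rfl⟩)
    (fun c hc => ?_) ?_ (g := g) (h := h) ?_ ?_ a1 a2 a3 a4 a5 (fun s hs hs' => ?_) ?_ P
  · have := congrFun (congrFun ((mem_GU_iff hσ).1 hc) 0) 0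
    exact Units.ext (by simpa [cT, m2mul, hσ, pow_succ] using this)
  · rw [H12.card_GU hK (2 * 1), fac2_guOrd ho hq]; simp
  · rw [mem_GU_iff hσ, e1]; apply m2ext <;> simp [cT, m2mul]
  · rw [mem_GU_iff hσ, e2]
    apply m2ext <;> simp only [cT, m2mul] <;> simp [-map_mul, c0]
    · linear_combination -c1
    · ring
    · ring
    · linear_combination -c1
  · obtain ⟨x, hx⟩ := h2.ge hs'
    refine ⟨⟨x, fun u v => ?_⟩, hx⟩
    obtain ⟨u, rfl⟩ := E.surjective u
    obtain ⟨v, rfl⟩ := E.surjective v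
    change hermForm _ K q (x.1 *ᵥ _) (x.1 *ᵥ _) = _
    rw [h3, h3, h4, h4, hx, ← Equiv.sum_comp s.right⁻¹ fun i => hermForm 2 K q (u i) (v i)]
    exact Finset.sum_congr rfl fun i _ => hs.1 i _ _
  · rw [add_comm, b2, pow_succ' 2 (k + 1), fac2_guOrd ho hq]

end Cfsg.Agent.H28
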