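import Cfsg.Agent.H28.Sbn3
import Cfsg.Agent.H14.Stb7
import Cfsg.Agent.H6.Second
import Cfsg.Agent.S0953

/-! The number of blocks in the defining characteristic. -/

set_option autoImplicit false

namespace Cfsg.Agent.H28

open Cfsg.Agent.H14 Cfsg.Agent.H4 Cfsg.Agent.H6

theorem isDefectGroup_sylow_iff {G : Type*} [Group G] [Fintype G] {p : ℕ} [hp : Fact p.Prime] {M : Ideal AlgInt}
    (hM : IsPModular p M) {B : Set (IrrCharacter G)} (hB : IsPBlock M B) (P : Sylow p G) :
    IsDefectGroup p M B P ↔ blockDefect p B = (Nat.card G).factorization p := by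
  have := hM.2.1
  refine ⟨fun h => Nat.pow_right_injective hp.out.two_le
    ((card_defectGroup hM hB h).symm.trans P.card_eq_multiplicity), fun h => ?_⟩
  obtain ⟨D, hD⟩ := exists_isDefectGroup p hB
  have h1 := card_defectGroup hM hB hD
  rw [h] at h1
  obtain ⟨a, ha⟩ := MulAction.exists_smul_eq G (Sylow.ofCard D h1) P
  obtain ⟨g, hg, S, rfl⟩ := hD
  have h2 : (P : Subgroup G) ≤ Subgroup.centralizer {a * g * a⁻¹} := by
    rw [← ha]
    rintro _ ⟨_, ⟨x, -, rfl⟩, rfl⟩
    have : (x : G) * g = g * x := Subgroup.mem_centralizer_singleton_iff.1 x.2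
    refine Subgroup.mem_centralizer_singleton_iff.2 ?_
    change a * x * a⁻¹ * _ = _ * (a * x * a⁻¹)
    calc _ = a * (x * g) * a⁻¹ := by group
      _ = _ := by rw [this]; group
  exact ⟨_, IsDefectClass.conj hB hg a, P.subtype h2, by rw [Sylow.coe_subtype, Subgroup.map_subgroupOf_eq_of_le h2]⟩

variable {ι Φ : Type} [Fintype ι] [DecidableEq ι] {R : RS ι Φ} {K : Type*} [Field K] {G : Type*} [Group G]
  [Fintype G] [Finite Φ] [Finite K] (X : RG R K G) (htop : X.grp = ⊤) (p : ℕ) [hp : Fact p.Prime] [CharP K p]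
  {M : Ideal AlgInt} (hM : IsPModular p M)

include htop hM

theorem rg_card_defect_zero : Nat.card {B : Set (IrrCharacter G) // IsPBlock M B ∧ blockDefect p B = 0} = 1 := by
  classical
  have := hM.2.1
  have hm := X.hmul_of_finite
  set S : IrrCharacter G := ⟨_, X.isIrr_stX_univ htop⟩
  have hS : charDegree (S : G → ℂ) = _ :=
    charDegree_eq_of ((X.stX_univ_one htop).trans (congrArg _ (X.card_U_eq htop hm p)))
  have hS' := blockOf_eq_singleton_of_defect_zero hM (χ := S) (by simp [hS, hp.out.factorization_pow])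
  refine Nat.card_eq_one_iff_exists.2 ⟨⟨_, isPBlock_blockOf S, ?_⟩, ?_⟩
  · obtain ⟨χ, hχ, h2⟩ := exists_minExp (p := p) (block_nonempty (isPBlock_blockOf (M := M) S))
    rw [H6.blockDefect_eq, ← h2, (hS'.le hχ : χ = S), hS]
    simp [hp.out.factorization_pow]
  · rintro ⟨B, hB, h0⟩
    obtain ⟨χ, hχ, h2⟩ := exists_minExp (p := p) (block_nonempty hB)
    rw [H6.blockDefect_eq] at h0
    obtain rfl : χ = S := Subtype.ext (X.eq_stX_of_defect_zero htop hm p χ.2 (by omega))
    exact Subtype.ext (block_eq_blockOf hB hχ)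

omit hM in
theorem rg_mem_center_iff [Nonempty ι] (hc : R.Conn) {g : G} :
    g ∈ Subgroup.center G ↔ ¬ p ∣ orderOf g ∧ g ∈ Subgroup.centralizer (X.U : Set G) := by
  refine ⟨fun h => ⟨not_dvd_orderOf_H p (X.central_of_mem_core (g := g) fun y _ => ?_).1, Subgroup.center_le_centralizer _ h⟩,
    fun ⟨h1, h2⟩ => ?_⟩
  · rw [Subgroup.mem_center_iff.1 h, mul_inv_cancel_right]
    obtain ⟨u, hu, y, hy, -, rfl⟩ := X.centralizer_UJ hc (J := ∅) (g := g) (by simp) (htop ▸ trivial) fun y _ => by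
      rw [← Subgroup.mem_center_iff.1 h, mul_inv_cancel_right]
    exact mul_mem (X.U_le_B (X.UJ_empty ▸ hu)) (X.H_le_B hy)
  · obtain ⟨u, hu, y, hy, h3, rfl⟩ := X.centralizer_UJ hc (J := ∅) (g := g) (by simp) (htop ▸ trivial) fun y hy => by
      rw [← h2 y (X.UJ_empty ▸ hy), mul_inv_cancel_right]
    have h4 : y ∈ Subgroup.center G := Subgroup.mem_center_iff.2 fun z => by
      have : X.grp ≤ Subgroup.centralizer {y} := X.gen_le.2 fun r _ t =>
        Subgroup.mem_centralizer_singleton_iff.2 (mul_inv_eq_iff_eq_mul.1 (h3 r t)).symm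
      exact Subgroup.mem_centralizer_singleton_iff.1 (this (htop ▸ trivial))
    obtain ⟨k, hk⟩ := IsPGroup.iff_orderOf.1 (X.isPGroup_UJ p ∅) ⟨u, hu⟩
    rw [Subgroup.orderOf_mk] at hk
    have h5 : Commute (u * y) y⁻¹ := Subgroup.mem_center_iff.1 (inv_mem h4) _
    have h6 := h5.orderOf_mul_dvd_mul_orderOf
    rw [mul_inv_cancel_right, hk, orderOf_inv] at h6
    rcases k with _ | k
    · rw [pow_zero, orderOf_eq_one_iff] at hk
      rwa [hk, one_mul]
    · exact absurd (hp.out.dvd_mul.1 ((dvd_pow_self p k.succ_ne_zero).trans h6)) (not_or.2 ⟨h1, not_dvd_orderOf_H p hy⟩)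

theorem rg_card_full [Nonempty ι] (hc : R.Conn) :
    Nat.card {B : Set (IrrCharacter G) // IsPBlock M B ∧ blockDefect p B = (Nat.card G).factorization p} =
      Nat.card (Subgroup.center G) := by
  obtain ⟨P, hP⟩ := X.exists_sylow htop X.hmul_of_finite p
  rw [Nat.card_congr (Equiv.subtypeEquivRight fun B => and_congr_right fun hB => (isDefectGroup_sylow_iff hM hB P).symm),
    S0953.result p M hM P, hP]
  have key : ∀ z : Subgroup.center G, ∀ n : Subgroup.normalizer (X.U : Set G),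
      ConjClasses.mk n = ConjClasses.mk ⟨z, Subgroup.center_le_normalizer _ z.2⟩ → (n : G) = z := fun z n h => by
    obtain ⟨c, hc⟩ := isConj_iff.1 (ConjClasses.mk_eq_mk_iff_isConj.1 h.symm)
    rw [← hc]
    exact mul_inv_eq_iff_eq_mul.2 (Subgroup.mem_center_iff.1 z.2 _)
  refine (Nat.card_congr (Equiv.ofBijective (fun z => ⟨ConjClasses.mk ⟨z, Subgroup.center_le_normalizer _ z.2⟩, fun n h => by
    rw [← Subgroup.orderOf_coe, key z n h]
    exact (rg_mem_center_iff X htop p hc).1 z.2⟩) ⟨fun a b h => ?_, ?_⟩)).symm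
  · exact Subtype.ext (key b ⟨a, Subgroup.center_le_normalizer _ a.2⟩ (congrArg Subtype.val h))
  · rintro ⟨C, hC⟩
    obtain ⟨n, rfl⟩ := ConjClasses.mk_surjective C
    have := hC n rfl
    rw [← Subgroup.orderOf_coe] at this
    exact ⟨⟨n, (rg_mem_center_iff X htop p hc).2 this⟩, rfl⟩

theorem rg_card_blocks [Nonempty ι] (hc : R.Conn) :
    Nat.card {B : Set (IrrCharacter G) // IsPBlock M B} = Nat.card (Subgroup.center G) + 1 := by
  obtain ⟨Y, h1, h2, -⟩ := (rg_isSBN X p hc).of_equiv ((MulEquiv.subgroupCongr htop).trans Subgroup.topEquiv)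
  have h3 : (Nat.card G).factorization p ≠ 0 := fun h => h2 (by rw [← Subgroup.card_eq_one, Y.card_U, h, pow_zero])
  have := Fintype.ofFinite (IrrCharacter G)
  rw [← rg_card_full X htop p hM hc, ← rg_card_defect_zero X htop p hM]
  change Set.ncard {B | IsPBlock M B} = Set.ncard {B | IsPBlock M B ∧ _} + Set.ncard {B | IsPBlock M B ∧ _}
  rw [← Set.ncard_union_eq (Set.disjoint_left.2 fun B a b => h3 (a.2.symm.trans b.2))]
  congr 1
  ext B
  exact ⟨fun h => (Y.blockDefect_eq h1 hM h).symm.imp (⟨h, ·⟩) (⟨h, ·⟩), fun h => h.elim (·.1) (·.1)⟩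

end Cfsg.Agent.H28
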