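import Cfsg.Agent.H12.Lin

/-! Generating `SL` by a root subgroup and a Coxeter element. -/

set_option autoImplicit false

namespace Cfsg.Agent.H28

open Matrix SpecialLinearGroup

variable {K : Type*} [Field K] {n : ℕ}

theorem SL_eq_top_of_cox {H : Subgroup (SpecialLinearGroup (Fin (n + 1)) K)} {w : SpecialLinearGroup (Fin (n + 1)) K}
    (hw : (w : Matrix (Fin (n + 1)) (Fin (n + 1)) K) =
      Matrix.of (fun i j => if j.val = i.val + 1 then 1 else if i.val = n ∧ j.val = 0 then (-1) ^ n else 0))
    (hwH : w ∈ H) (h : ∀ (h : (0 : Fin (n + 1)) ≠ 1) c, SpecialLinearGroup.transvection h c ∈ H) : H = ⊤ := by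
  obtain ⟨ε, hε, h1⟩ : ∃ ε : Fin (n + 1) → K, (∀ i, ε i * ε i = 1) ∧ ∀ i j, w.1 i j = if j = i + 1 then ε i else 0 := by
    refine ⟨fun i => if i = Fin.last n then (-1) ^ n else 1, fun i => by dsimp only; split_ifs <;> simp [← mul_pow], fun i j => ?_⟩
    rw [hw, of_apply]
    have := j.2
    simp only [Fin.ext_iff, Fin.val_add_one, Fin.val_last]
    split_ifs <;> first | rfl | omega
  let R : Fin (n + 1) → Fin (n + 1) → Prop := fun i j => ∀ (h : i ≠ j) c, SpecialLinearGroup.transvection h c ∈ H
  have h2 : ∀ i j, R i j → R (i + 1) (j + 1) := fun i j a hij c => by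
    have e : SpecialLinearGroup.transvection (show i ≠ j from fun e => hij (by rw [e])) (ε i * c * ε j) * w =
        w * SpecialLinearGroup.transvection hij c := Subtype.ext (by
      change (1 + single i j _) * w.1 = w.1 * (1 + single _ _ c)
      simp only [add_mul, mul_add, one_mul, mul_one, add_right_inj]
      ext k l
      by_cases a1 : k = i <;> by_cases a2 : l = j + 1 <;> simp [a1, a2, h1, mul_assoc, hε, eq_comm (a := i)])
    rw [← H.mul_mem_cancel_left hwH, ← e]
    exact mul_mem (a _ _) hwH
  have h3 : ∀ i, R i (i + 1) := fun i => by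
    induction i using Fin.induction with
    | zero => rwa [zero_add]
    | succ i ih => simpa using h2 _ _ ih
  have h4 : ∀ k i, R i (i + k) := fun k i => by
    induction k using Fin.induction with
    | zero => exact fun a => absurd (add_zero i).symm a
    | succ k ih =>
      rw [← Fin.coeSucc_eq_succ, ← add_assoc]
      by_cases a : i = i + k.castSucc
      · rw [← a]; exact h3 i
      intro b c
      have a1 : i + k.castSucc ≠ i + k.castSucc + 1 := fun e => b (by
        have := Fin.one_eq_zero_iff.1 (left_eq_add.1 e)
        obtain rfl : n = 0 := by omega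
        exact Subsingleton.elim (α := Fin 1) _ _)
      rw [← mul_one c, ← H12.commutator_transvection a a1, commutatorElement_def]
      exact mul_mem (mul_mem (mul_mem (ih _ _) (h3 _ _ _)) (inv_mem (ih _ _))) (inv_mem (h3 _ _ _))
  exact H12.SL_eq_top_of_transvection_mem fun i j => by simpa using h4 (j - i) i

end Cfsg.Agent.H28
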