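import Cfsg.Agent.H28.BalM

/-! Automorphisms preserving the class of transvections, and the automorphisms of `Sp₄(2^f)`. -/

set_option autoImplicit false

namespace Cfsg.Agent.H28

open Module

section SH
variable {F V : Type*} [Field F] [AddCommGroup V] [Module F V] {θ : F →+* F}
  {B : V →ₛₗ[θ] V →ₗ[F] F} [FiniteDimensional F V]

namespace SH

variable (h : SH B)
include h

/-- automorphisms preserving the set of transvections -/
def stabD : Subgroup (MulAut (PS B)) where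
  carrier := {α | ∀ x, α x ∈ h.D ↔ x ∈ h.D}
  one_mem' _ := Iff.rfl
  mul_mem' {a b} ha hb g := by rw [MulAut.mul_apply, ha, hb]
  inv_mem' {a} ha g := by rw [← ha, MulAut.apply_inv_self]

lemma conj_mem_D (k : PS B) {x : PS B} (hx : x ∈ h.D) : k * x * k⁻¹ ∈ h.D := by
  obtain ⟨g, rfl⟩ := QuotientGroup.mk'_surjective _ k
  obtain ⟨v, c, iv, hc, rfl⟩ := hx
  exact ⟨g.1 v, c, by rw [SI_map, iv], hc, by
    rw [← map_inv, ← map_mul, ← map_mul, h.E_conj g (EV_zero iv hc), map_zero]⟩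

lemma conj_mem_stabD (k : PS B) : MulAut.conj k ∈ h.stabD := fun x =>
  ⟨fun hx => by simpa [mul_assoc] using h.conj_mem_D k⁻¹ hx, h.conj_mem_D k⟩

lemma exists_image_X' {α : MulAut (PS B)} (hD : α ∈ h.stabD)
    {v : V} (hv : v ≠ 0) (iv : B v v = 0) :
    ∃ v', v' ≠ 0 ∧ B v' v' = 0 ∧ α '' h.X v = h.X v' := by
  have key : ∀ β ∈ h.stabD, ∀ {v : V}, v ≠ 0 → B v v = 0 →
      ∃ v', v' ≠ 0 ∧ B v' v' = 0 ∧ β '' h.X v ⊆ h.X v' := by
    intro β hβ v hv iv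
    obtain ⟨v', c', iv', hc', e⟩ := (hβ _).2 ⟨v, 1, iv, map_one θ, rfl⟩
    have h1 : mkS B (h.E v' 0 c') ≠ 1 := by
      rw [← e, Ne, map_eq_one_iff β β.injective, ← map_one (mkS B), ← h.E_zero v]
      intro h0
      exact h.T_ne_one hv iv (map_one θ) one_ne_zero ((h.T_mk_inj hv iv iv (map_one θ)
        (map_zero θ) h0).trans (h.E_zero v))
    have hv' : v' ≠ 0 := by
      rintro rfl
      exact h1 (by rw [h.T_zero hc', map_one])
    have hc0 : c' ≠ 0 := by rintro rfl; exact h1 (by rw [h.E_zero, map_one])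
    refine ⟨v', hv', iv', ?_⟩
    rintro _ ⟨_, ⟨c, hc, rfl⟩, rfl⟩
    obtain ⟨w, d, iw, hd, e2⟩ := (hβ _).2 ⟨v, c, iv, hc, rfl⟩
    by_cases hd0 : d = 0
    · exact ⟨0, map_zero θ, by rw [e2, hd0, h.E_zero, h.E_zero]⟩
    obtain ⟨a, rfl⟩ := h.parallel_of_rel hv' iv' iw hc' hd hc0 hd0
      (by rw [← e, ← e2]; exact ((h.commute_T iv iv (map_one θ) hc iv).map _).map β)
      (by
        rw [← e, ← e2, ← map_mul, ← map_mul, h.T_mul iv (map_one θ) hc]
        exact (hβ _).2 ⟨v, _, iv, by simp [hc], rfl⟩)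
    by_cases ha : a = 0
    · refine ⟨0, map_zero θ, ?_⟩
      rw [e2, h.E_zero, ha, zero_smul, h.T_zero hd]
    · rw [← h.X_smul iv' ha]; exact ⟨d, hd, e2⟩
  obtain ⟨v', hv', iv', e⟩ := key α hD hv iv
  obtain ⟨v'', hv'', iv'', e'⟩ := key α⁻¹ (inv_mem hD) hv' iv'
  refine ⟨v', hv', iv', e.antisymm fun x hx => ?_⟩
  obtain ⟨a, ha, rfl⟩ := h.parallel_of_X_subset hv iv iv'' fun y hy =>
    e' ⟨_, e ⟨y, hy, rfl⟩, by simp⟩
  rw [h.X_smul iv'' ha]
  exact ⟨_, e' ⟨x, hx, rfl⟩, by simp⟩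

lemma exists_normalise' {α : MulAut (PS B)} (hD : α ∈ h.stabD)
    {e f : V} (hp : Hyp B e f) : ∃ g : SI B,
      (MulAut.conj (mkS B g) * α : MulAut (PS B)) '' h.X e = h.X e ∧
      (MulAut.conj (mkS B g) * α : MulAut (PS B)) '' h.X f = h.X f := by
  obtain ⟨e', he', ie', e1⟩ := h.exists_image_X' hD hp.ne_zero hp.ee
  obtain ⟨f', hf', jf', e2⟩ := h.exists_image_X' hD hp.ne_zero' hp.ff
  have hef : B e' f' ≠ 0 := fun h0 => by
    have := (h.orth_iff_of_image hp.ee hp.ff ie' jf' e1 e2).2 h0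
    simp [hp.ef] at this
  obtain ⟨g, a, ha, hg⟩ := h.exists_map_smul he' hp.ne_zero ie' hp.ee
  have h1 : B e (g.1 f') ≠ 0 := fun h0 => hef (by rw [← SI_map g, hg, B_smul_left, h0, mul_zero])
  have hp' : Hyp B e ((B e (g.1 f'))⁻¹ • g.1 f') := ⟨hp.ee, by simp [SI_map, jf'], by simp [h1]⟩
  obtain ⟨u, c, hv, -, e3⟩ := h.exists_E hp' hp
  refine ⟨h.E e u c * g, ?_, ?_⟩
  · rw [mul_image, e1, h.conj_X _ ie', SI_mul_apply, hg, map_smul, h.E_self hv, h.X_smul hp.ee ha]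
  · rw [mul_image, e2, h.conj_X _ jf', SI_mul_apply, ← e3, map_smul,
      h.X_smul (by rw [SI_map, SI_map, jf']) (inv_ne_zero h1)]

lemma form_iso' [Finite F] {α : MulAut (PS B)} (hD : α ∈ h.stabD)
    {e f : V} (hp : Hyp B e f) (e1 : α '' h.X e = h.X e) (e2 : α '' h.X f = h.X f)
    {φ : Wp B e f →+ Wp B e f} (h1 : h.IsPhi α e f φ) (hφ : Function.Injective φ) {σ : F ≃+* F}
    (hσ : ∀ a w, φ (a • w) = σ a • φ w) {u0 : V} (hu : u0 ∈ Wp B e f) (h0 : u0 ≠ 0)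
    (iu : B u0 u0 = 0) :
    ∃ κ : F, θ κ = κ ∧ κ ≠ 0 ∧ ∀ w y : Wp B e f, B (φ w) (φ y) = κ * σ (B w y) := by
  have k1 : ∀ u : Wp B e f, B u u = 0 → (u : V) ≠ 0 →
      ∃ κ : F, θ κ = κ ∧ κ ≠ 0 ∧ ∀ y : Wp B e f, B (φ u) (φ y) = κ * σ (B u y) := by
    intro u iu hu
    obtain ⟨u', hu', iu', e3⟩ := h.exists_image_X' hD hu iu
    obtain ⟨d, hd, e4⟩ : α (mkS B (h.E u 0 1)) ∈ h.X u' := e3 ▸ ⟨_, ⟨1, map_one θ, rfl⟩, rfl⟩
    have o1 := (h.orth_iff_of_image iu hp.ee iu' hp.ee e3 e1).1 (h.orth_symm u.2.1)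
    have o2 := (h.orth_iff_of_image iu hp.ff iu' hp.ff e3 e2).1 (h.orth_symm u.2.2)
    have k2 : ∀ w : Wp B e f, σ (B u w) • (φ u : V) = (d * B u' (φ w)) • u' := fun w => by
      have := h.phi_equiv hp h1 e4 one_ne_zero one_ne_zero one_ne_zero
        (by simp [h.T_apply iu, h.orth_symm u.2.1]) (by simp [h.T_apply iu' hd, o1])
        (by simp [h.T_apply iu' hd, o2]) w (w + B u w • u) (by simp [h.T_apply iu])
      simpa [h.T_apply iu' hd, hσ] using this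
    obtain ⟨z, hz, hq⟩ := h.exists_partner_Wp hp u.2 hu iu
    have k3 := k2 ⟨z, hz⟩
    rw [hq.ef, map_one, one_smul] at k3
    set m := d * B u' (φ ⟨z, hz⟩) with hm
    have hm0 : m ≠ 0 := by
      intro h0
      rw [h0, zero_smul, Submodule.coe_eq_zero, map_eq_zero_iff φ hφ] at k3
      exact hu (by simp [k3])
    have hd0 : d ≠ 0 := left_ne_zero_of_mul hm0
    refine ⟨m * θ m / d, by rw [map_div₀, map_mul, h.invol, hd, mul_comm],
      by simp [hm0, hd0], fun y => ?_⟩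
    have k4 := k2 y
    rw [k3, smul_smul] at k4
    have k5 := smul_left_injective F hu' k4
    rw [k3, B_smul_left]
    field_simp
    linear_combination -θ m * k5
  obtain ⟨z0, hz, hq⟩ := h.exists_partner_Wp hp hu h0 iu
  obtain ⟨κ, κ1, κ2, κ3⟩ := k1 ⟨u0, hu⟩ iu h0
  refine ⟨κ, κ1, κ2, fun w y => sub_eq_zero.1 (h.hom_zero_of_iso (u0 := ⟨u0, hu⟩)
    (z0 := ⟨z0, hz⟩) hq (AddMonoidHom.mk' (fun w : Wp B e f => B (φ w) (φ y) - κ * σ (B w y))
      fun a b => by simp; ring) (fun a => ?_) (fun u iu' hu' => ?_) w)⟩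
  · rw [AddMonoidHom.mk'_apply, hσ]
    simp only [Submodule.coe_smul, B_smul_left, κ3 y, map_mul, ringEquiv_comm_θ]
    ring
  · obtain ⟨κ', h2, -, h3⟩ := k1 u iu' (by rintro h0; simp [h0] at hu')
    have h4 := h3 ⟨u0, hu⟩
    rw [h.skew, κ3 u, h.skew u0 u, map_mul, κ1, map_neg, ringEquiv_comm_θ, mul_neg, neg_inj] at h4
    simp [h3 y, mul_right_cancel₀ (by simpa using hu') h4]

theorem aut_PS' [Finite F] {e f : V} (hp : Hyp B e f)
    (hW : (∃ u ∈ Wp B e f, u ≠ 0 ∧ B u u = 0) ∨ ∃ w0, RankOne B e f w0) {α : MulAut (PS B)}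
    (hD : α ∈ h.stabD) :
    ∃ (σ : F ≃+* F) (S : V ≃+ V) (κ : F), SemiSim B σ S κ ∧
      ∀ g g' : SI B, (∀ y, g'.1 (S y) = S (g.1 y)) → α (mkS B g) = mkS B g' := by
  obtain ⟨g0, e1, e2⟩ := h.exists_normalise' hD hp
  set α1 := MulAut.conj (mkS B g0) * α with hα1
  obtain ⟨φ, h1⟩ := h.exists_phi hp e1
  obtain ⟨φ', h2⟩ := h.exists_phi hp (image_inv e1)
  have hφ := Function.LeftInverse.injective (h.phi_inv hp h1 h2)
  have : Nontrivial (Wp B e f) := by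
    rcases hW with ⟨u, hu, h0, -⟩ | ⟨w0, hr⟩
    · exact ⟨⟨u, hu⟩, 0, by simpa using h0⟩
    · exact ⟨⟨w0, hr.mem⟩, 0, fun h0 => hr.ne (by simp [show w0 = 0 from congrArg Subtype.val h0])⟩
  obtain ⟨σ, hσ⟩ := h.exists_semilinear hp e1 e2 h1 h2 fun T hT => by
    rcases hW with ⟨u, hu, h0, iu⟩ | ⟨w0, hr⟩
    · exact h.cent_scalar_iso hp hT hu h0 iu
    · exact h.cent_scalar_one hp hT hr
  obtain ⟨κ, κ1, κ2, κ3⟩ : ∃ κ : F, θ κ = κ ∧ κ ≠ 0 ∧
      ∀ w y : Wp B e f, B (φ w) (φ y) = κ * σ (B w y) := by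
    rcases hW with ⟨u, hu, h0, iu⟩ | ⟨w0, hr⟩
    · exact h.form_iso' (mul_mem (h.conj_mem_stabD _) hD) hp e1 e2 h1 hφ hσ hu h0 iu
    · exact h.form_one hr hφ hσ
  obtain ⟨S, hS, s1, s2, s3⟩ := h.exists_semiSim hp hσ κ1 κ2 κ3
  set β := h.conjAut hS with hβ
  have e3 : (β⁻¹ * α1 : MulAut _) '' h.X e = h.X e := by
    rw [mul_image, e1]
    exact image_inv (by rw [h.conjAut_X hS hp.ee, s1, h.X_smul hp.ee κ2])
  have e4 : (β⁻¹ * α1 : MulAut _) '' h.X f = h.X f := by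
    rw [mul_image, e2]
    exact image_inv (by rw [h.conjAut_X hS hp.ff, s2])
  have h3 : h.IsPhi (β⁻¹ * α1) e f (AddMonoidHom.id _) := fun u c hv => by
    obtain ⟨c', h4, e5⟩ := h1 u c hv
    have h5 : EV B e u (σ.symm (c' / κ)) := ⟨hv.ee, hv.eu, σ.injective (by
      rw [map_sub, ringEquiv_comm_θ, σ.apply_symm_apply, map_div₀, κ1, ← sub_div, h4.uu, κ3]
      field_simp)⟩
    refine ⟨_, h5, ?_⟩
    rw [MulAut.mul_apply, e5, MulAut.inv_apply, MulEquiv.symm_apply_eq, AddMonoidHom.id_apply,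
      h.conjAut_E hS h5, s1, h.E_smul (s1 ▸ hS.EV h5) κ2, s3, κ1, smul_smul, mul_inv_cancel₀ κ2,
      one_smul, σ.apply_symm_apply]
    congr 2
    field_simp
  have e5 : β⁻¹ * α1 = 1 := h.eq_one_of_fix_Q hp e3 e4 fun u c hv hf => by
    rcases hW with ⟨u0, hu, h0, iu⟩ | ⟨w0, hr⟩
    · exact h.fix_Q_iso hp e4 h3 hu h0 iu u c hv hf
    · exact h.fix_Q_one hp e3 e4 h3 hr u c hv hf
  rw [inv_mul_eq_one] at e5
  refine ⟨σ, _, κ, hS.comp_inv g0⁻¹, fun g g' hg => ?_⟩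
  have e6 : α1 (mkS B g) = mkS B (g0 * g' * g0⁻¹) := by
    rw [← e5]
    exact h.conjAut_mk hS fun y => (SI_inv_apply_eq.1 (hg y).symm).symm
  simpa [hα1] using e6

lemma eq_zero_of_four (h4 : finrank F V = 4) {e f w z : V} (hp : Hyp B e f) (hw : w ∈ Wp B e f)
    (hz : z ∈ Wp B e f) (hq : Hyp B w z) {x : V} (h1 : B e x = 0) (h2 : B f x = 0)
    (h3 : B w x = 0) (h5 : B z x = 0) : x = 0 := by
  let L : V →ₗ[F] Fin 4 → F := LinearMap.pi ![B e, B f, B w, B z]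
  refine (LinearMap.injective_iff_surjective_of_finrank_eq_finrank (f := L) (by simpa)).2
    (fun a => ⟨a 0 • f - a 1 • e + a 2 • z - a 3 • w, ?_⟩) ?_ <;> ext i <;> fin_cases i <;>
    simp [L, hp.ee, hp.ef, hp.ff, h.swap_one hp.ef, (mem_Wp.1 hw).1, (mem_Wp.1 hz).1, h.orth_symm hw.1,
      h.orth_symm hw.2, h.orth_symm hz.1, h.orth_symm hz.2, hq.ee, hq.ef, hq.ff, h.swap_one hq.ef,
      (mem_Wp.1 hw).2, (mem_Wp.1 hz).2, h1, h2, h3, h5]

variable [Finite F] (h2 : (2 : F) = 0) (hθ : ∀ a, θ a = a)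
include hθ

omit [FiniteDimensional F V] [Finite F] in
lemma alt (x : V) : B x x = 0 := by obtain ⟨c, hc⟩ := h.tv x; rw [← hc, hθ, sub_self]

omit [Finite F] in
lemma exists_map_of_ne {v w : V} (hv : B w v ≠ 0) :
    ∃ g : SI B, g.1 v = w ∧ ∀ y, B v y = 0 → B w y = 0 → g.1 y = y :=
  ⟨h.E (w - v) 0 (B w v)⁻¹, by simp [h.T_apply (h.alt hθ _) (hθ _), h.alt hθ, hv], fun y h1 h3 => by
    simp [h.T_apply (h.alt hθ _) (hθ _), h1, h3]⟩

include h2

lemma isConj_T {e : V} (he : e ≠ 0) {x : PS B} (hx : x ∈ h.D) :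
    x = 1 ∨ IsConj (mkS B (h.E e 0 1)) x := by
  obtain ⟨v, c, iv, hc, rfl⟩ := hx
  obtain ⟨a, rfl⟩ := H13.exists_sq_eq_of_two_eq_zero h2 c
  by_cases ha : a = 0
  · simp [ha, h.E_zero]
  by_cases hv : v = 0
  · simp [hv, h.T_zero hc]
  obtain ⟨z, -, h1, h3⟩ := h.exists_opp he (smul_ne_zero ha hv) (h.alt hθ _) (h.alt hθ _)
  obtain ⟨g, hg, -⟩ := h.exists_map_of_ne hθ h1
  obtain ⟨g', hg', -⟩ := h.exists_map_of_ne hθ fun e => h3 (h.orth_symm e)
  refine Or.inr ((mkS B).map_isConj (isConj_iff.2 ⟨g' * g, ?_⟩))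
  rw [h.E_conj _ (EV_zero (h.alt hθ _) (hθ _)), SI_mul_apply, hg, hg', map_zero,
    h.E_smul (EV_zero (h.alt hθ _) (hθ _)) ha, hθ, smul_zero, one_mul, pow_two]

lemma mem_stabD_of {e : V} (he : e ≠ 0) {α : MulAut (PS B)} (hα : α (mkS B (h.E e 0 1)) ∈ h.D) :
    α ∈ h.stabD := by
  have h1 : Set.MapsTo α h.D h.D := fun x hx => by
    rcases h.isConj_T h2 hθ he hx with rfl | h1
    · rwa [map_one]
    · obtain ⟨k, rfl⟩ := isConj_iff.1 h1
      simpa using h.conj_mem_D (α k) hα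
  refine fun x => ⟨fun hx => ?_, fun hx => h1 hx⟩
  obtain ⟨y, hy, e⟩ := (((Set.toFinite _).injOn_iff_bijOn_of_mapsTo h1).1
    α.injective.injOn).surjOn hx
  exact α.injective e ▸ hy

lemma eq_one_of_cube (h4 : finrank F V = 4) {e f w : V} (hp : Hyp B e f) (hw : w ∈ Wp B e f)
    (h0 : w ≠ 0) {c : F} (hc : c ≠ 0) {g : PS B} (h3 : g ^ 3 = 1)
    (hg : Commute g (mkS B (h.E e w c))) : g = 1 := by
  have hB := h.alt hθ
  have h2V : ∀ x : V, x + x = 0 := fun x => by rw [← two_smul F, h2, zero_smul]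
  have sq : ∀ {a b : F}, a * a = b * b → a = b := fun {a b} e =>
    (mul_self_eq_mul_self_iff.1 e).elim id fun e => by linear_combination e - b * h2
  have inj : ∀ {g g' : SI B}, mkS B g = mkS B g' → g = g' := fun {g g'} e' => by
    obtain ⟨a, -, ha⟩ := (h.mk_eq_iff hp.ne_zero hp.ee).1 e'
    have := SI_map g' e f
    rw [ha, ha, B_smul_left, B_smul_right, SI_map, hp.ef, hθ] at this
    exact SI_ext fun y => by rw [ha, sq (a := a) (b := 1) (by linear_combination this), one_smul]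
  obtain ⟨g, rfl⟩ := QuotientGroup.mk'_surjective _ g
  have hE : EV B e w c := ⟨hp.ee, hw.1, by simp [hB, hθ]⟩
  have e1 : ∀ y, g.1 (g.1 (g.1 y)) = y := fun y =>
    congrArg (fun x : SI B => x.1 y) (inj (g := g ^ 3) (g' := 1) h3)
  have e2 : ∀ y, g.1 ((h.E e w c).1 y) = (h.E e w c).1 (g.1 y) := fun y =>
    congrArg (fun x : SI B => x.1 y) (inj (g := g * _) (g' := _ * g) hg)
  have e3 : ∀ y, B y ((h.E e w c).1 y) = c * (B e y * B e y) := fun y => by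
    simp only [h.E_apply hE, map_add, map_smul, hB, smul_eq_mul, h.skew w y, h.skew e y, hθ]
    linear_combination (-B e y * B w y - c * B e y * B e y) * h2
  have e4 : ∀ y, B e (g.1 y) = B e y := fun y =>
    sq (mul_left_cancel₀ hc (by rw [← e3, ← e3, ← e2, SI_map]))
  have e5 : g.1 e = e := sub_eq_zero.1 (h.nd _ fun y => by
    obtain ⟨y, rfl⟩ := g.1.surjective y
    rw [map_sub, LinearMap.sub_apply, SI_map, e4, sub_self])
  obtain ⟨a, e6⟩ : ∃ a : F, g.1 w = w + a • e := ⟨B w (g.1 f) - B w f, by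
    have := e2 f
    simp only [h.E_apply hE, map_add, map_smul, e4, e5, hp.ef] at this
    linear_combination (norm := module) this⟩
  have e7 : g.1 w = w := by
    have := e1 w
    simp only [e6, map_add, map_smul, e5] at this ⊢
    linear_combination (norm := module) this - h2V (a • e)
  obtain ⟨z, hz, hq⟩ := h.exists_partner_Wp hp hw h0 (hB _)
  have e8 : ∀ x, B e x = 0 → B w x = 0 → g.1 x = x := fun x h1 h5 => by
    have : x - B f x • e - B z x • w = 0 := h.eq_zero_of_four h4 hp hw hz hq (by simp [h1, hB, (mem_Wp.1 hw).1])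
      (by simp [(mem_Wp.1 hw).2, h.swap_one hp.ef, ← two_mul, h2])
      (by simp [h5, hB, h.orth_symm hw.1]) (by simp [h.orth_symm hz.1, h.swap_one hq.ef, ← two_mul, h2])
    rw [sub_sub, sub_eq_zero] at this
    rw [this, map_add, map_smul, map_smul, e5, e7]
  refine congrArg (mkS B) (SI_ext fun y => ?_)
  have e10 := congrArg g.1
    (e8 (g.1 y - y) (by simp [e4]) (by rw [map_sub, ← SI_map g w y, e7, sub_self]))
  simp only [map_sub, e1] at e10
  change g.1 y = y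
  linear_combination (norm := module) e10 - h2V y + h2V (g.1 (g.1 y))

lemma exists_conj_of_not_mem (h4 : finrank F V = 4) {e f : V} (hp : Hyp B e f) {u : V}
    (hu : u ∈ Wp B e f) (hu0 : u ≠ 0) {α : MulAut (PS B)} (hα : α ∉ h.stabD) :
    IsConj (mkS B (h.E e u 0)) (α (mkS B (h.E e 0 1))) := by
  have hB := h.alt hθ
  obtain ⟨k, w, c, h1, h3, h5, -⟩ := h.exists_E_of_aut α hp (map_one θ)
  have hw : w ∈ Wp B e f := ⟨h1.eu, h3⟩
  have h0 : w ≠ 0 := by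
    rintro rfl
    exact hα (h.mem_stabD_of h2 hθ hp.ne_zero ⟨k.1 e, c, hB _, hθ _, by
      rw [h5, h.E_conj k h1, map_zero]⟩)
  obtain ⟨z, hz, hq⟩ := h.exists_partner_Wp hp hw h0 (hB _)
  obtain rfl : c = 0 := by
    by_contra hc
    have e1 : ∀ y, (h.E w 0 1 * h.E z 0 1).1 y = y + B z y • z + (B w y + B z y) • w := fun y => by
      simp [h.T_apply (hB _) (hθ _), hq.ef, add_smul, add_assoc]
    have e2 : (h.E w 0 1 * h.E z 0 1) ^ 3 = 1 := SI_ext fun y => by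
      simp only [pow_succ, pow_zero, one_mul, SI_mul_apply _ (_ * _), e1, map_add, map_smul, hB,
        hq.ef, h.swap_one hq.ef, smul_eq_mul, SI_one_apply]
      match_scalars
      · ring
      · linear_combination (-B w y) * h2
      · linear_combination (B z y) * h2
    have e3 : Commute (h.E w 0 1 * h.E z 0 1) (h.E e 0 1) :=
      (h.commute_T (hB _) (hB _) (hθ _) (hθ _) (h.orth_symm hw.1)).mul_left
        (h.commute_T (hB _) (hB _) (hθ _) (hθ _) (h.orth_symm hz.1))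
    have e4 := ((e3.map (mkS B)).map α).map (MulAut.conj (mkS B k)⁻¹)
    rw [h5, show MulAut.conj (mkS B k)⁻¹ (mkS B (k * h.E e w c * k⁻¹)) = mkS B (h.E e w c) by
      simp [mul_assoc]] at e4
    have e5 := h.eq_one_of_cube h2 hθ h4 hp hw h0 hc (by simp only [← map_pow, e2, map_one]) e4
    rw [map_eq_one_iff _ (MulEquiv.injective _), map_eq_one_iff _ (MulEquiv.injective _)] at e5
    have := congrArg (fun g : SI B => B w (g.1 w)) (h.eq_of_mk_eq hp.ne_zero hp.ee (g' := 1) e5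
      hp.ne_zero (by rw [e1]; simp [h.orth_symm hw.1, h.orth_symm hz.1]))
    simp only [e1] at this
    simp [hB, hq.ef, h.swap_one hq.ef] at this
  have step : ∀ a ∈ Wp B e f, ∀ b ∈ Wp B e f, B b a ≠ 0 → IsConj (h.E e a 0) (h.E e b 0) :=
    fun a ha b hb e1 => by
      obtain ⟨g, e2, e3⟩ := h.exists_map_of_ne hθ e1
      exact isConj_iff.2 ⟨g, by rw [h.E_conj g ⟨hp.ee, ha.1, by simp [hB]⟩, e2,
        e3 e (h.orth_symm ha.1) (h.orth_symm hb.1)]⟩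
  rw [h5]
  refine (mkS B).map_isConj (IsConj.trans ?_ (isConj_iff.2 ⟨k, rfl⟩))
  by_cases e1 : B w u = 0
  · exact (step u hu z hz fun e2 => hu0 (h.eq_zero_of_four h4 hp hw hz hq hu.1 hu.2 e1 e2)).trans
      (step z hz w hw (by simp [hq.ef]))
  · exact step u hu w hw e1

lemma inv_mul_mem_stabD (h4 : finrank F V = 4) {e f : V} (hp : Hyp B e f) {u : V}
    (hu : u ∈ Wp B e f) (hu0 : u ≠ 0) {α β : MulAut (PS B)} (hα : α ∉ h.stabD)
    (hβ : β ∉ h.stabD) : α⁻¹ * β ∈ h.stabD := by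
  obtain ⟨k, hk⟩ := isConj_iff.1 ((h.exists_conj_of_not_mem h2 hθ h4 hp hu hu0 hα).symm.trans
    (h.exists_conj_of_not_mem h2 hθ h4 hp hu hu0 hβ))
  refine h.mem_stabD_of h2 hθ hp.ne_zero ?_
  rw [MulAut.mul_apply, ← hk]
  simpa using h.conj_mem_D (α⁻¹ k) ⟨e, 1, hp.ee, hθ _, rfl⟩

end SH

end SH

open Matrix Sum

variable {F : Type*} [Field F]

/-- the automorphisms induced by semilinear maps -/
def MatData.gam {H ι : Type*} [Group H] [Fintype ι] [DecidableEq ι] (D : MatData H ι F) :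
    Subgroup (MulAut (H ⧸ Subgroup.center H)) where
  carrier := {β | ∃ g σ, β = D.d g * D.f σ}
  one_mem' := ⟨1, 1, by simp⟩
  mul_mem' := by
    rintro _ _ ⟨g, σ, rfl⟩ ⟨h, τ, rfl⟩
    exact ⟨g * D.fΔ σ h, σ * τ, by
      rw [map_mul, map_mul, mul_assoc, mul_assoc, ← mul_assoc (D.f σ), D.f_mul_d, mul_assoc]⟩
  inv_mem' := by
    rintro _ ⟨g, σ, rfl⟩
    exact ⟨D.fΔ σ⁻¹ g⁻¹, σ⁻¹, by rw [_root_.mul_inv_rev, ← map_inv, ← map_inv, D.f_mul_d]⟩

lemma exists_stabD_Sp [Finite F] {m : ℕ} (hm : 2 ≤ m) :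
    ∃ E : symplecticGroup (Fin m) F ≃* SI (altB m F), (∀ s y, (E s).1 y = s.1 *ᵥ y) ∧
      ∀ α, MulAut.congr (H13.centerQuotEquiv E) α ∈ sh_altB.stabD → α ∈ (dataSp m F).gam := by
  obtain ⟨E, hE⟩ := sh_altB.exists_equiv_SI (jSp m F) jSp_injective range_jSp_iff
  refine ⟨E, hE, fun α hα => ?_⟩
  obtain ⟨σ, S, κ, hS, h1⟩ := sh_altB.aut_PS' (hyp_altB ⟨0, by omega⟩)
    (Or.inl ⟨_, single_mem_Wp (k := ⟨1, hm⟩) (by simp), by simp, (hyp_altB _).ff⟩) hα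
  obtain ⟨g, rfl⟩ := exists_semiGL S hS.smul
  refine ⟨⟨g, mem_GSp_iff.2 ⟨Units.mk0 κ hS.ne, semiSim_altB_iff.1 hS.map⟩⟩, σ,
    (dataSp m F).eq_df_iff.2 fun s s' e => (H13.centerQuotEquiv E).injective ?_⟩
  have := h1 (E s) (E s') fun y => by rw [hE, hE]; exact semiGL_semiconj_iff.2 e y
  rwa [QuotientGroup.mk'_apply, ← H13.centerQuotEquiv_mk, MulAut.congr_apply,
    MulEquiv.trans_apply, MulEquiv.symm_apply_apply] at this

theorem inv_mul_mem_gam [Finite F] (h2 : (2 : F) = 0) {α β : MulAut (PSp 2 F)}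
    (hα : α ∉ (dataSp 2 F).gam) (hβ : β ∉ (dataSp 2 F).gam) : α⁻¹ * β ∈ (dataSp 2 F).gam := by
  obtain ⟨E, -, key⟩ := exists_stabD_Sp (F := F) le_rfl
  refine key _ ?_
  rw [map_mul, map_inv]
  exact sh_altB.inv_mul_mem_stabD h2 (fun _ => rfl) (by simp) (hyp_altB 0)
    (single_mem_Wp (show (0 : Fin 2) ≠ 1 by simp)) (by simp) (mt (key _) hα) (mt (key _) hβ)

/-- a transvection in `Sp₄` -/
def t4 (F : Type*) [Field F] : symplecticGroup (Fin 2) F := ⟨1 - single (inl 0) (inr 0) 1, by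
  rw [SymplecticGroup.mem_iff]
  ext (i | i) (j | j) <;> fin_cases i <;> fin_cases j <;> simp [J, mul_apply, one_apply, single]⟩

lemma mem_gamSp_of_fix [Finite F] (h2 : (2 : F) = 0) {α : MulAut (PSp 2 F)}
    (h : α (t4 F) = t4 F) : α ∈ (dataSp 2 F).gam := by
  obtain ⟨E, hE, key⟩ := exists_stabD_Sp (F := F) le_rfl
  have e := (hyp_altB (F := F) (0 : Fin 2)).ff
  have : sh_altB.E (Pi.single (inl 0) 1) 0 1 = E (t4 F) := SI_ext fun y => by
    rw [sh_altB.T_apply e rfl, hE, altB_apply, sympForm_eq]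
    ext (i | i) <;> fin_cases i <;> simp [t4, add_mulVec, neg_mulVec, single_mulVec, sub_eq_add_neg]
  refine key _ (sh_altB.mem_stabD_of h2 (fun _ => rfl) (hyp_altB 0).ne_zero' ⟨_, 1, e, rfl, ?_⟩)
  rw [this, QuotientGroup.mk'_apply, ← H13.centerQuotEquiv_mk, MulAut.congr_apply,
    MulEquiv.trans_apply, MulEquiv.symm_apply_apply, MulEquiv.trans_apply, h]

lemma mem_gamSp_of_odd [Finite F] (h2 : (2 : F) = 0) {α : MulAut (PSp 2 F)}
    (h : (orderOf α).Coprime 2) : α ∈ (dataSp 2 F).gam := by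
  obtain ⟨k, hk⟩ := exists_sq_of_coprime h
  rw [hk]
  by_cases e : α ^ k ∈ (dataSp 2 F).gam
  · exact mul_mem e e
  · simpa using inv_mul_mem_gam h2 (mt (inv_mem_iff.1) e) e

/-- index pairs for the exceptional isogeny -/
def pr4 : Fin 2 ⊕ Fin 2 → (Fin 2 ⊕ Fin 2) × (Fin 2 ⊕ Fin 2) :=
  Sum.elim ![(inl 0, inl 1), (inl 0, inr 1)] ![(inr 1, inr 0), (inl 1, inr 0)]

/-- the exceptional isogeny of `Sp₄` -/
def st4 (A : Matrix (Fin 2 ⊕ Fin 2) (Fin 2 ⊕ Fin 2) F) : Matrix (Fin 2 ⊕ Fin 2) (Fin 2 ⊕ Fin 2) F :=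
  of fun p r => A (pr4 p).1 (pr4 r).1 * A (pr4 p).2 (pr4 r).2 -
    A (pr4 p).2 (pr4 r).1 * A (pr4 p).1 (pr4 r).2

lemma sp4_col {A : Matrix (Fin 2 ⊕ Fin 2) (Fin 2 ⊕ Fin 2) F} (h : A ∈ symplecticGroup (Fin 2) F)
    (i j : Fin 2 ⊕ Fin 2) : A (inr 0) i * A (inl 0) j + A (inr 1) i * A (inl 1) j -
      A (inl 0) i * A (inr 0) j - A (inl 1) i * A (inr 1) j = J (Fin 2) F i j := by
  rw [← SymplecticGroup.mem_iff'.1 h]
  simp [J, mul_apply, one_apply]
  ring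

lemma st4_transpose (A : Matrix (Fin 2 ⊕ Fin 2) (Fin 2 ⊕ Fin 2) F) : st4 Aᵀ = (st4 A)ᵀ := by
  ext; simp [st4, mul_comm]

lemma st4_one : st4 (1 : Matrix (Fin 2 ⊕ Fin 2) (Fin 2 ⊕ Fin 2) F) = 1 := by
  ext (i | i) (j | j) <;> fin_cases i <;> fin_cases j <;> simp [st4, pr4, one_apply]

variable [CharP F 2]

lemma st4_J : st4 (J (Fin 2) F) = J (Fin 2) F := by
  ext (i | i) (j | j) <;> fin_cases i <;> fin_cases j <;> simp [st4, pr4, J, CharTwo.neg_eq]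

lemma st4_mul {A B : Matrix (Fin 2 ⊕ Fin 2) (Fin 2 ⊕ Fin 2) F} (hA : A ∈ symplecticGroup (Fin 2) F)
    (hB : B ∈ symplecticGroup (Fin 2) F) : st4 (A * B) = st4 A * st4 B := by
  ext p r
  have e0 : ∀ p, J (Fin 2) F (pr4 p).1 (pr4 p).2 = 0 := by
    rintro (i | i) <;> fin_cases i <;> simp [pr4, J]
  have e1 := sp4_col (SymplecticGroup.transpose_mem hA) (pr4 p).1 (pr4 p).2
  have e2 := sp4_col hB (pr4 r).1 (pr4 r).2
  rw [e0] at e1 e2
  simp only [st4, mul_apply, of_apply, transpose_apply, Fintype.sum_sum_type,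
    Fin.sum_univ_two] at e1 ⊢
  generalize (pr4 p).1 = k at *
  generalize (pr4 p).2 = l at *
  generalize (pr4 r).1 = i at *
  generalize (pr4 r).2 = j at *
  simp only [pr4, elim_inl, elim_inr, cons_val_zero, cons_val_one]
  linear_combination (norm := (ring_nf; reduce_mod_char!))
    (B (inl 0) i * B (inr 0) j - B (inr 0) i * B (inl 0) j) * e1 +
      (A k (inl 1) * A l (inr 1) - A l (inl 1) * A k (inr 1)) * e2

lemma st4_st4 {A : Matrix (Fin 2 ⊕ Fin 2) (Fin 2 ⊕ Fin 2) F} (hA : A ∈ symplecticGroup (Fin 2) F) :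
    st4 (st4 A) = A.map (frobenius F 2) := by
  have key : ∀ p r a b, J (Fin 2) F a b = 1 → J (Fin 2) F r a = 0 → J (Fin 2) F r b = 0 →
      A p r ^ 2 = A p r * (A p r * (A (inr 0) a * A (inl 0) b + A (inr 1) a * A (inl 1) b -
      A (inl 0) a * A (inr 0) b - A (inl 1) a * A (inr 1) b) + A p a * (A (inr 0) r * A (inl 0) b +
      A (inr 1) r * A (inl 1) b - A (inl 0) r * A (inr 0) b - A (inl 1) r * A (inr 1) b) +
      A p b * (A (inr 0) r * A (inl 0) a + A (inr 1) r * A (inl 1) a - A (inl 0) r * A (inr 0) a -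
      A (inl 1) r * A (inr 1) a)) := fun p r a b h1 h2 h3 => by
    rw [sp4_col hA, sp4_col hA, sp4_col hA, h1, h2, h3]; ring
  ext p (j | j) <;> fin_cases j <;> rw [map_apply, frobenius_def]
  on_goal 1 => rw [key p _ (inr 1) (inl 1) (by simp [J]) (by simp [J]) (by simp [J])]
  on_goal 2 => rw [key p _ (inr 0) (inl 0) (by simp [J]) (by simp [J]) (by simp [J])]
  on_goal 3 => rw [key p _ (inr 1) (inl 1) (by simp [J]) (by simp [J]) (by simp [J])]
  on_goal 4 => rw [key p _ (inr 0) (inl 0) (by simp [J]) (by simp [J]) (by simp [J])]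
  all_goals
    rcases p with i | i <;> fin_cases i <;> simp [st4, pr4] <;> ring_nf <;> reduce_mod_char!

lemma st4_mem {A : Matrix (Fin 2 ⊕ Fin 2) (Fin 2 ⊕ Fin 2) F} (hA : A ∈ symplecticGroup (Fin 2) F) :
    st4 A ∈ symplecticGroup (Fin 2) F := by
  have h1 := SymplecticGroup.transpose_mem hA
  have h2 := SymplecticGroup.J_mem (Fin 2) F
  rw [SymplecticGroup.mem_iff', ← st4_transpose, ← st4_J, ← st4_mul h1 h2,
    ← st4_mul (mul_mem h1 h2) hA, SymplecticGroup.mem_iff'.1 hA]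

theorem exists_graph_Sp4 [Finite F] : ∃ γ : MulAut (PSp 2 F), γ ∉ (dataSp 2 F).gam ∧
    γ * γ = (dataSp 2 F).f (frobeniusEquiv F 2) := by
  let s : symplecticGroup (Fin 2) F →* symplecticGroup (Fin 2) F :=
    MonoidHom.mk' (fun A => ⟨_, st4_mem A.2⟩) fun A B => Subtype.ext (st4_mul A.2 B.2)
  have h1 : ∀ A, (s (s A)).1 = A.1.map (frobenius F 2) := fun A => st4_st4 A.2
  let γ := MulEquiv.ofBijective s (Finite.injective_iff_bijective.1 fun A B h => Subtype.ext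
    (Matrix.map_injective (frobenius_inj F 2) (by simp only [← h1, h])))
  refine ⟨quotAut _ γ, ?_, (dataSp 2 F).eq_f_iff.2 fun A B h => congrArg QuotientGroup.mk
    (Subtype.ext ((h1 A).trans (congrArg Units.val h).symm))⟩
  rintro ⟨g, σ, e⟩
  let t := t4 F
  obtain ⟨t', ht⟩ : g.1 * fieldGL _ F σ (jSp 2 F t) * g.1⁻¹ ∈ (jSp 2 F).range := by
    obtain ⟨u, hu⟩ := (dataSp 2 F).field_mem σ t
    exact hu ▸ (dataSp 2 F).conj_mem g g.2 u
  have h3 : (s t)⁻¹ * t' ∈ Subgroup.center _ :=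
    QuotientGroup.eq.1 ((dataSp 2 F).eq_df_iff.1 e t t' ht)
  have := Fintype.ofFinite F
  rw [Subgroup.eq_bot_of_card_eq _ (H12.card_center_sp.trans (Nat.coprime_two_left.2
    (Nat.Even.sub_odd Nat.card_pos (Nat.card_eq_fintype_card (α := F) ▸ H13.even_card_of_two_eq_zero
    CharTwo.two_eq_zero) odd_one))), Subgroup.mem_bot, inv_mul_eq_one] at h3
  have h4 : st4 t.1 = g.1.1 * (1 - single (inl 0) (inr 0) 1) * (g.1⁻¹).1 := by
    refine (congrArg Subtype.val h3).trans ((congrArg Units.val ht).trans ?_)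
    rw [Units.val_mul, Units.val_mul, coe_fieldGL]
    congr 2
    ext; simp [t, t4, one_apply, single, apply_ite σ]
  rw [mul_sub, sub_mul, mul_one, Units.mul_inv, single_eq_single_vecMulVec_single, mul_vecMulVec,
    vecMulVec_mul] at h4
  have h5 := fun a b => congrFun (congrFun h4 (inl a)) (inr b)
  have h6 := h5 0 0
  have h7 := h5 0 1
  have h8 := h5 1 0
  have h9 := h5 1 1
  simp only [Matrix.sub_apply, vecMulVec_apply] at h6 h7 h8 h9
  generalize (g.1.1 *ᵥ _) = u at *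
  generalize (_ ᵥ* (g.1⁻¹).1) = v at *
  simp [st4, pr4, t, t4, one_apply, single] at h6 h7 h8 h9
  rcases h6 with h | h <;> simp [h] at h7 h8

/-- the outer automorphism group of `Sp₄(2^f)` -/
theorem out_Sp4 [Fintype F] {f : ℕ} (hF : Fintype.card F = 2 ^ f) :
    IsCyclic (Out (PSp 2 F)) ∧ Nat.card (Out (PSp 2 F)) = 2 * f := by
  have h2 : (2 : F) = 0 := CharTwo.two_eq_zero
  obtain ⟨γ, h1, h3⟩ := exists_graph_Sp4 (F := F)
  obtain ⟨φ, e1, e2, e3⟩ := exists_frob hF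
  obtain rfl : φ = frobeniusEquiv F 2 := RingEquiv.ext e1
  have hI := range_d_Sp_char_two (m := 2) le_rfl h2
  let π : MulAut (PSp 2 F) →* Out (PSp 2 F) := QuotientGroup.mk' _
  have h4 : ∀ α ∈ (dataSp 2 F).gam, π α ∈ Subgroup.zpowers (π γ) := by
    rintro _ ⟨g, σ, rfl⟩
    obtain ⟨k, rfl⟩ : σ ∈ Subgroup.zpowers _ := e3 ▸ Subgroup.mem_top σ
    rw [map_mul, show π ((dataSp 2 F).d g) = 1 from (QuotientGroup.eq_one_iff _).2
      (hI ▸ ⟨g, rfl⟩), one_mul, map_zpow, ← h3, map_zpow, map_mul]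
    exact zpow_mem (mul_mem (Subgroup.mem_zpowers _) (Subgroup.mem_zpowers _)) _
  have h5 : Subgroup.zpowers (π γ) = ⊤ := eq_top_iff.2 fun x _ => by
    obtain ⟨α, rfl⟩ : ∃ α, π α = x := QuotientGroup.mk'_surjective _ x
    by_cases h : α ∈ (dataSp 2 F).gam
    · exact h4 α h
    · simpa using mul_mem (Subgroup.mem_zpowers (π γ)) (h4 _ (inv_mul_mem_gam h2 h1 h))
  refine ⟨⟨π γ, fun x => h5.ge (Subgroup.mem_top x)⟩, ?_⟩
  rw [← Subgroup.card_top, ← h5, Nat.card_zpowers, ← e2]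
  have h6 : ∀ k, π γ ^ (2 * k) = 1 ↔ frobeniusEquiv F 2 ^ k = 1 := fun k => by
    rw [← map_pow, pow_mul, pow_two, h3, ← map_pow]
    exact (QuotientGroup.eq_one_iff _).trans ⟨fun h => (triv_Sp le_rfl).eq_one_of_f_mem (hI ▸ h),
      fun h => by rw [h, map_one]; exact one_mem _⟩
  refine Nat.dvd_antisymm (orderOf_dvd_of_pow_eq_one ((h6 _).2 (pow_orderOf_eq_one _))) ?_
  obtain ⟨k, hk | hk⟩ := Nat.even_or_odd' (orderOf (π γ))
  · exact hk ▸ Nat.mul_dvd_mul_left _ (orderOf_dvd_of_pow_eq_one ((h6 _).1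
      (hk ▸ pow_orderOf_eq_one _)))
  · have := pow_orderOf_eq_one (π γ)
    rw [hk, ← map_pow, pow_succ, pow_mul, pow_two, h3, ← map_pow] at this
    obtain ⟨g, hg⟩ := hI.ge ((QuotientGroup.eq_one_iff _).1 this)
    exact (h1 (((dataSp 2 F).gam.mul_mem_cancel_left ⟨1, frobeniusEquiv F 2 ^ k, by
      rw [map_one, one_mul]⟩).1
      ⟨g, 1, by rw [map_one, mul_one, hg]⟩)).elim

end Cfsg.Agent.H28
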