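import Cfsg.Agent.L0.PresSL2
import Cfsg.Agent.H6.TwoU

/-! Bounded presentations of unitary groups: a cubic Baumslag trick and small field lemmas. -/

set_option autoImplicit false

namespace Cfsg.Agent.H28.US

open Subgroup Polynomial L0

universe v

variable {H : Type*} [Group H] {F : Type*} [Field F]

theorem baum3 {u t : H} {k : ℕ} (h1 : Commute u (cw u t 1)) (h2 : Commute u (cw u t 2))
    (h3 : Commute u (cw u t 3))
    (hs : cw u t k = u⁻¹ * cw u t 1 ^ 3 * (cw u t 2 ^ 3)⁻¹ * cw u t 3) (i : ℕ) : Commute u (cw u t i) := by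
  have key : ∀ n, ∀ i ≤ n + 3, Commute u (cw u t i) := by
    intro n
    induction n with
    | zero =>
      intro i hi
      interval_cases i
      · rw [cw_zero]
      · exact h1
      · exact h2
      · exact h3
    | succ n ih =>
      intro i hi
      rcases hi.lt_or_eq with hi | rfl
      · exact ih i (by omega)
      have c := fun i j a b => cw_comm_of (i := i) (j := j) ih a b
      have a := commute_conj (ih (n + 1) (by omega)) (t ^ k)
      have e : t ^ k * cw u t (n + 1) * (t ^ k)⁻¹ =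
          (cw u t (n + 1))⁻¹ * cw u t (n + 1 + 1) ^ 3 * (cw u t (n + 1 + 2) ^ 3)⁻¹ * cw u t (n + 1 + 3) := by
        rw [conj_cw, hs, ← cw_add (n + 1) 1, ← cw_add (n + 1) 2, ← cw_add (n + 1) 3]
        simp only [cw, pow_succ, pow_zero]; group
      rw [e, show t ^ k * u * (t ^ k)⁻¹ = cw u t k from rfl, hs] at a
      have b : ∀ j, j ≤ n + 3 → Commute (u⁻¹ * cw u t 1 ^ 3 * (cw u t 2 ^ 3)⁻¹ * cw u t 3) (cw u t j) := fun j hj =>
        ((((ih _ hj).inv_left.mul_left ((c 1 j (by omega) (by omega)).pow_left 3))).mul_left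
          ((c 2 j (by omega) (by omega)).pow_left 3).inv_left).mul_left (c _ _ (by omega) (by omega))
      have d := (((b (n + 1) (by omega)).inv_right.mul_right
        ((b (n + 1 + 1) (by omega)).pow_right 3)).mul_right
          ((b (n + 1 + 2) (by omega)).pow_right 3).inv_right).inv_right.mul_right a
      rw [inv_mul_cancel_left] at d
      simpa using ((((d.mul_left (c 3 (n + 1 + 3) (by omega) (by omega)).inv_left).mul_left
        ((c 2 (n + 1 + 3) (by omega) (by omega)).pow_left 3)).mul_left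
        ((c 1 (n + 1 + 3) (by omega) (by omega)).pow_left 3).inv_left)).inv_left
  exact key i i (by omega)

theorem brel3 [Finite F] {θ : F} (hθ : ∀ a, ∃ f : ℤ[X], aeval θ f = a)
    (hk : θ ≠ 1 → ∃ k, θ ^ k = (θ - 1) ^ 3) (N : ℕ) : ∃ R, R.length ≤ 6 ∧ BRel.{v} θ N R := by
  by_cases h1 : θ = 1
  · subst h1
    obtain ⟨R, a, b⟩ := brel_one hθ N
    exact ⟨R, by omega, b⟩
  obtain ⟨k, hk⟩ := hk h1
  obtain ⟨p, hp⟩ := CharP.exists F
  haveI := Fact.mk (CharP.char_is_prime F p)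
  obtain ⟨m, m1, m2⟩ := exists_m θ p
  refine ⟨[.of 0 ^ p, .of 0 * cw (.of 0) (.of 1) 1 * (cw (.of 0) (.of 1) 1 * .of 0)⁻¹,
    .of 0 * cw (.of 0) (.of 1) 2 * (cw (.of 0) (.of 1) 2 * .of 0)⁻¹,
    .of 0 * cw (.of 0) (.of 1) 3 * (cw (.of 0) (.of 1) 3 * .of 0)⁻¹,
    cw (.of 0) (.of 1) k * ((.of 0)⁻¹ * cw (.of 0) (.of 1) 1 ^ 3 * (cw (.of 0) (.of 1) 2 ^ 3)⁻¹ *
      cw (.of 0) (.of 1) 3)⁻¹,
    pw (.of 0) (.of 1) m * (.of 1 ^ N)⁻¹], le_rfl, ?_, ?_⟩
  · intro G _ x t hx ht hN
    simp only [List.mem_cons, List.not_mem_nil, or_false, forall_eq_or_imp, forall_eq, map_mul,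
      map_inv, map_pow, map_cw, map_pw, mul_inv_eq_one, FreeGroup.lift_apply_of,
      Matrix.cons_val_zero, Matrix.cons_val_one, cw_x ht, pw_x hx ht, m1, add_zero' hx, hN, hk]
    refine ⟨by rw [← add_nat' hx, CharP.cast_eq_zero, zero_mul, add_zero' hx], add_comm' hx _ _,
      add_comm' hx _ _, add_comm' hx _ _, ?_, trivial⟩
    rw [← add_nat' hx, ← add_nat' hx, ← add_neg' hx, ← add_neg' hx, ← hx, ← hx, ← hx]; congr 1
    push_cast; ring
  · intro H _ u t hR
    simp only [List.mem_cons, List.not_mem_nil, or_false, forall_eq_or_imp, forall_eq, map_mul,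
      map_inv, map_pow, map_cw, map_pw, mul_inv_eq_one, FreeGroup.lift_apply_of,
      Matrix.cons_val_zero, Matrix.cons_val_one] at hR
    obtain ⟨r1, r2, r2', r2'', r3, r4⟩ := hR
    have hc := baum3 r2 r2' r2'' r3
    have r5 : pw u t m = 1 := pw_fixed hc (k := k) (g := (X - 1) * (X - 1)) (by
      rw [show ((X - 1) * (X - 1) * (X - 1) : ℤ[X]) =
          (X ^ 1 + X ^ 1 + X ^ 1) - 1 - (X ^ 2 + X ^ 2 + X ^ 2) + X ^ 3 by ring, pw_add hc, pw_sub hc,
        pw_sub hc, pw_add hc, pw_add hc, pw_add hc, pw_add hc, pw_one, r3, pw_X_pow hc, pw_X_pow hc,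
        pw_X_pow hc, ((hc 1).pow_right 3).inv_left.eq]
      simp only [pow_succ, pow_zero, one_mul])
      (by rw [r4]; exact (Commute.refl t).pow_right N)
    exact ⟨r4 ▸ r5, exists_x hc hθ m2 r1 r5⟩

theorem conj_pow_x {θ : F} {x : F → H} {t : H} (ht : ∀ a, t * x a * t⁻¹ = x (θ * a)) (i : ℕ) (a : F) :
    t ^ i * x a * (t ^ i)⁻¹ = x (θ ^ i * a) := by
  induction i with
  | zero => simp
  | succ i ih => rw [pow_succ', pow_succ', mul_assoc θ, ← ht, ← ih]; group

theorem aff_form {θ : F} {x : F → H} {t : H} (hx : ∀ a b, x (a + b) = x a * x b)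
    (ht : ∀ a, t * x a * t⁻¹ = x (θ * a)) {N : ℕ} (hN : t ^ (N + 1) = 1) {g : H}
    (hg : g ∈ closure {x 1, t}) : ∃ a, ∃ i : ℕ, g = x a * t ^ i := by
  have c : ∀ (i : ℕ) a, t ^ i * x a = x (θ ^ i * a) * t ^ i := fun i a => by
    rw [← conj_pow_x ht, inv_mul_cancel_right]
  induction hg using closure_induction with
  | mem y hy =>
    rcases hy with rfl | rfl
    · exact ⟨1, 0, by simp⟩
    · exact ⟨0, 1, by simp [add_zero' hx]⟩
  | one => exact ⟨0, 0, by simp [add_zero' hx]⟩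
  | mul y z _ _ h1 h2 =>
    obtain ⟨a, i, rfl⟩ := h1
    obtain ⟨b, j, rfl⟩ := h2
    exact ⟨a + θ ^ i * b, i + j, by rw [hx, pow_add, mul_assoc, ← mul_assoc (t ^ i), c]; group⟩
  | inv y _ h1 =>
    obtain ⟨a, i, rfl⟩ := h1
    refine ⟨θ ^ (N * i) * -a, N * i, ?_⟩
    rw [← c, mul_inv_rev, add_neg' hx]
    congr 1
    rw [inv_eq_iff_mul_eq_one, ← pow_add, show i + N * i = (N + 1) * i by ring, pow_mul, hN, one_pow]

/-- a subring of a finite field as a subfield -/
def sf [Finite F] (E : Subring F) : Subfield F :=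
  { E with inv_mem' := fun _ h => H6.Two.subring_inv h }

theorem pow_card_sub [Finite F] (E : Subring F) {x : F} (hx : x ∈ E) (h0 : x ≠ 0) :
    x ^ (Nat.card E - 1) = 1 := by
  haveI := Fintype.ofFinite (sf E)
  have := FiniteField.pow_card_sub_one_eq_one (⟨x, hx⟩ : sf E) (fun h => h0 (congrArg Subtype.val h))
  rw [← Nat.card_eq_fintype_card] at this
  exact congrArg Subtype.val this

theorem pow_span [Finite F] (E : Subring F) (e : ℕ) (h : Nat.card F < Nat.card E ^ (e + 1)) (x : F) :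
    ∃ r : ℕ → F, (∀ j, r j ∈ E) ∧ x ^ e = ∑ j ∈ Finset.range e, r j * x ^ j := by
  have h1 : Module.finrank (sf E) F ≤ e := by
    by_contra h2
    rw [Module.natCard_eq_pow_finrank (K := sf E) (V := F)] at h
    exact absurd h (not_lt.2 (Nat.pow_le_pow_right Nat.card_pos (by omega)))
  have hi : IsIntegral (sf E) x := .of_finite _ _
  have hm := minpoly.monic hi
  have hd := (minpoly.natDegree_le x (A := sf E)).trans h1
  have h2 : ((X ^ e : (sf E)[X]) %ₘ minpoly (sf E) x).natDegree < e :=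
    (natDegree_modByMonic_lt _ hm (minpoly.ne_one _ x)).trans_le hd
  refine ⟨fun j => (((X ^ e : (sf E)[X]) %ₘ minpoly (sf E) x).coeff j : F), fun j => Subtype.prop _, ?_⟩
  have := aeval_eq_sum_range' h2 x
  rw [minpoly.aeval_modByMonic_minpoly, map_pow, aeval_X] at this
  exact this

end Cfsg.Agent.H28.US
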