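import Cfsg.Agent.H28.US1
import Cfsg.Agent.H28.Phan1

/-! A bounded presentation of the Borel subgroup of `SU₃(q)`. -/

set_option autoImplicit false
set_option linter.unusedSectionVars false

namespace Cfsg.Agent.H28.US

open Subgroup Polynomial L0

variable {F : Type} [Field F] {σ : F ≃+* F}

/-- action of the torus on `U/Z` -/
def mm (σ : F ≃+* F) : Fˣ →* F where
  toFun l := l * l * (σ l)⁻¹
  map_one' := by simp
  map_mul' a b := by simp only [Units.val_mul, map_mul, mul_inv]; ring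

/-- action of the torus on `Z` -/
def nn (σ : F ≃+* F) : Fˣ →* F where
  toFun l := l * σ l
  map_one' := by simp
  map_mul' a b := by simp only [Units.val_mul, map_mul]; ring

theorem mm_def (l : Fˣ) : mm σ l = l * l * (σ l)⁻¹ := rfl
theorem nn_def (l : Fˣ) : nn σ l = l * σ l := rfl
theorem sg_ne (l : Fˣ) : σ l ≠ 0 := by simp
theorem mm_ne (l : Fˣ) : mm σ l ≠ 0 := by simp [mm_def]
theorem nn_ne (l : Fˣ) : nn σ l ≠ 0 := by simp [nn_def]

/-- the affine quotient -/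
@[ext] structure Af (σ : F ≃+* F) where
  /-- translation part -/
  a : F
  /-- torus part -/
  l : Fˣ

instance : Mul (Af σ) := ⟨fun x y => ⟨x.a + mm σ x.l * y.a, x.l * y.l⟩⟩
instance : One (Af σ) := ⟨⟨0, 1⟩⟩
instance : Inv (Af σ) := ⟨fun x => ⟨-(mm σ x.l⁻¹ * x.a), x.l⁻¹⟩⟩
@[simp] theorem Af.mul_a (x y : Af σ) : (x * y).a = x.a + mm σ x.l * y.a := rfl
@[simp] theorem Af.mul_l (x y : Af σ) : (x * y).l = x.l * y.l := rfl
@[simp] theorem Af.one_a : (1 : Af σ).a = 0 := rfl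
@[simp] theorem Af.one_l : (1 : Af σ).l = 1 := rfl
@[simp] theorem Af.inv_a (x : Af σ) : x⁻¹.a = -(mm σ x.l⁻¹ * x.a) := rfl
@[simp] theorem Af.inv_l (x : Af σ) : x⁻¹.l = x.l⁻¹ := rfl

instance : Group (Af σ) := Group.ofLeftAxioms
  (fun x y z => Af.ext (by simp only [Af.mul_a, Af.mul_l, map_mul]; ring) (mul_assoc _ _ _))
  (fun x => Af.ext (by simp) (by simp)) (fun x => Af.ext (by simp) (by simp))

/-- the Borel subgroup -/
@[ext] structure Bo (σ : F ≃+* F) where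
  /-- first coordinate -/
  a : F
  /-- second coordinate -/
  b : F
  /-- torus part -/
  l : Fˣ
  h : b + σ b + a * σ a = 0

variable [hσ : Fact (∀ a, σ (σ a) = a)]

@[simp] theorem ss (a : F) : σ (σ a) = a := hσ.1 a
theorem mm_nn (l : Fˣ) : mm σ l * σ (mm σ l) = nn σ l := by
  have := sg_ne (σ := σ) l
  simp only [mm_def, nn_def, map_mul, map_inv₀, ss]; field_simp
@[simp] theorem s_nn (l : Fˣ) : σ (nn σ l) = nn σ l := by simp [nn_def, mul_comm]

instance : Mul (Bo σ) := ⟨fun x y => ⟨x.a + mm σ x.l * y.a, x.b + nn σ x.l * y.b - x.a * σ (mm σ x.l * y.a),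
  x.l * y.l, by
    simp only [map_add, map_sub, map_mul, ss, s_nn]
    linear_combination x.h + nn σ x.l * y.h + y.a * σ y.a * mm_nn (σ := σ) x.l⟩⟩
instance : One (Bo σ) := ⟨⟨0, 0, 1, by simp⟩⟩
instance : Inv (Bo σ) := ⟨fun x => ⟨-(mm σ x.l⁻¹ * x.a), nn σ x.l⁻¹ * σ x.b, x.l⁻¹, by
  simp only [map_neg, map_mul, ss, s_nn]
  linear_combination nn σ x.l⁻¹ * x.h + x.a * σ x.a * mm_nn (σ := σ) x.l⁻¹⟩⟩
@[simp] theorem Bo.mul_a (x y : Bo σ) : (x * y).a = x.a + mm σ x.l * y.a := rfl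
@[simp] theorem Bo.mul_b (x y : Bo σ) :
    (x * y).b = x.b + nn σ x.l * y.b - x.a * σ (mm σ x.l * y.a) := rfl
@[simp] theorem Bo.mul_l (x y : Bo σ) : (x * y).l = x.l * y.l := rfl
@[simp] theorem Bo.one_a : (1 : Bo σ).a = 0 := rfl
@[simp] theorem Bo.one_b : (1 : Bo σ).b = 0 := rfl
@[simp] theorem Bo.one_l : (1 : Bo σ).l = 1 := rfl
@[simp] theorem Bo.inv_a (x : Bo σ) : x⁻¹.a = -(mm σ x.l⁻¹ * x.a) := rfl
@[simp] theorem Bo.inv_b (x : Bo σ) : x⁻¹.b = nn σ x.l⁻¹ * σ x.b := rfl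
@[simp] theorem Bo.inv_l (x : Bo σ) : x⁻¹.l = x.l⁻¹ := rfl

instance : Group (Bo σ) := Group.ofLeftAxioms
  (fun x y z => Bo.ext (by simp only [Bo.mul_a, Bo.mul_l, map_mul]; ring)
    (by simp only [Bo.mul_a, Bo.mul_b, Bo.mul_l, map_mul, map_add]
        linear_combination (-(y.a * σ (mm σ y.l) * σ z.a)) * mm_nn (σ := σ) x.l) (mul_assoc _ _ _))
  (fun x => Bo.ext (by simp) (by simp) (by simp))
  (fun x => Bo.ext (by simp) (by
    have h1 : σ (mm σ x.l⁻¹) * σ (mm σ x.l) = 1 := by rw [← map_mul, ← map_mul, inv_mul_cancel]; simp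
    simp only [Bo.mul_b, Bo.inv_a, Bo.inv_b, Bo.inv_l, map_mul, Bo.one_b]
    linear_combination nn σ x.l⁻¹ * x.h + x.a * σ x.a * mm_nn (σ := σ) x.l⁻¹) (by simp))

/-- torus -/
def dd (σ : F ≃+* F) [Fact (∀ a, σ (σ a) = a)] : Fˣ →* Bo σ where
  toFun l := ⟨0, 0, l, by simp⟩
  map_one' := rfl
  map_mul' a b := Bo.ext (by simp) (by simp) rfl

@[simp] theorem dd_a (l : Fˣ) : (dd σ l).a = 0 := rfl
@[simp] theorem dd_b (l : Fˣ) : (dd σ l).b = 0 := rfl
@[simp] theorem dd_l (l : Fˣ) : (dd σ l).l = l := rfl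

/-- quotient map -/
def ra (σ : F ≃+* F) [Fact (∀ a, σ (σ a) = a)] : Bo σ →* Af σ where
  toFun x := ⟨x.a, x.l⟩
  map_one' := rfl
  map_mul' _ _ := rfl

@[simp] theorem ra_a (x : Bo σ) : (ra σ x).a = x.a := rfl
@[simp] theorem ra_l (x : Bo σ) : (ra σ x).l = x.l := rfl

/-- translations -/
def tl (σ : F ≃+* F) (a : F) : Af σ := ⟨a, 1⟩
omit hσ in
theorem tl_add (a b : F) : tl σ (a + b) = tl σ a * tl σ b := Af.ext (by simp [tl]) (by simp [tl])
theorem tl_conj (l : Fˣ) (a : F) : ra σ (dd σ l) * tl σ a * (ra σ (dd σ l))⁻¹ = tl σ (mm σ l * a) :=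
  Af.ext (by simp [tl]) (by simp [tl])

/-- centre -/
def zc {ε : F} (hε : σ ε = -ε) (c : fixF σ) : Bo σ := ⟨0, ε * c, 1, by
  rw [map_mul, hε, show σ c = c from c.2]; simp⟩

variable {ε : F} (hε : σ ε = -ε)

theorem zc_add (c d : fixF σ) : zc hε (c + d) = zc hε c * zc hε d :=
  Bo.ext (by simp [zc]) (by simp [zc, mul_add]) (by simp [zc])

/-- the norm as element of the fixed field -/
def nK (σ : F ≃+* F) [Fact (∀ a, σ (σ a) = a)] (l : Fˣ) : fixF σ := ⟨nn σ l, s_nn l⟩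

theorem zc_conj (l : Fˣ) (c : fixF σ) : dd σ l * zc hε c * (dd σ l)⁻¹ = zc hε (nK σ l * c) :=
  Bo.ext (by simp [zc]) (by simp [zc, nK]; ring) (by simp [zc])

theorem exists_zc (h0 : ε ≠ 0) {x : Bo σ} (h : ra σ x = 1) : ∃ c, x = zc hε c := by
  have h1 : x.a = 0 := congrArg Af.a h
  have h2 : x.l = 1 := congrArg Af.l h
  have h3 := x.h
  rw [h1, zero_mul, add_zero] at h3
  refine ⟨⟨x.b / ε, ?_⟩, Bo.ext h1 (by simp [zc]; field_simp) h2⟩
  rw [mem_fixF, map_div₀, hε, eq_neg_of_add_eq_zero_right h3, neg_div_neg_eq]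

theorem zc_comm {x : Bo σ} (h : x.l = 1) (c : fixF σ) : Commute x (zc hε c) :=
  Bo.ext (by simp [zc]) (by simp [zc, h, add_comm]) (by simp [zc])

section
variable {H : Type*} [Group H]

/-- generators of the auxiliary subgroup -/
def VS (q : ℕ) (u z h : H) : Set H :=
  {g | (∃ i j, j < 3 ∧ g = cw u h ((q - 1) * i + j)) ∨ ∃ i, g = cw z h i}

theorem map_VS {H' : Type*} [Group H'] (φ : H →* H') (q : ℕ) (u z h : H) :
    (closure (VS q u z h)).map φ = closure (VS q (φ u) (φ z) (φ h)) := by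
  rw [MonoidHom.map_closure]; congr 1
  ext g; constructor
  · rintro ⟨_, ⟨i, j, hj, rfl⟩ | ⟨i, rfl⟩, rfl⟩
    · exact Or.inl ⟨i, j, hj, map_cw _ _ _ _⟩
    · exact Or.inr ⟨i, map_cw _ _ _ _⟩
  · rintro (⟨i, j, hj, rfl⟩ | ⟨i, rfl⟩)
    · exact ⟨_, Or.inl ⟨i, j, hj, rfl⟩, map_cw _ _ _ _⟩
    · exact ⟨_, Or.inr ⟨i, rfl⟩, map_cw _ _ _ _⟩

theorem map_ZS {H' : Type*} [Group H'] (φ : H →* H') (z h : H) :
    (closure (Set.range (cw z h))).map φ = closure (Set.range (cw (φ z) (φ h))) := by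
  rw [MonoidHom.map_closure, ← Set.range_comp]; congr 2
  exact funext fun i => map_cw _ _ _ _

theorem VS_conj {q : ℕ} {u z h : H} (h3 : cw u h 3 ∈ closure (VS q u z h)) (i : ℕ) {g : H}
    (hg : g ∈ closure (VS q u z h)) : h ^ i * g * (h ^ i)⁻¹ ∈ closure (VS q u z h) := by
  have k : ∀ n, (∀ i j, j < 3 → cw u h (n + ((q - 1) * i + j)) ∈ closure (VS q u z h)) →
      ∀ g ∈ closure (VS q u z h), h ^ n * g * (h ^ n)⁻¹ ∈ closure (VS q u z h) := fun n hn =>
    (closure_le ((closure (VS q u z h)).comap (MulAut.conj (h ^ n)).toMonoidHom)).2 (by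
      rintro _ (⟨i, j, hj, rfl⟩ | ⟨i, rfl⟩)
      · show h ^ n * cw u h _ * (h ^ n)⁻¹ ∈ closure (VS q u z h)
        rw [cw_add]; exact hn i j hj
      · exact subset_closure (Or.inr ⟨n + i, cw_add n i⟩))
  have k1 : ∀ m, ∀ g ∈ closure (VS q u z h), h ^ ((q - 1) * m) * g * (h ^ ((q - 1) * m))⁻¹ ∈
      closure (VS q u z h) := fun m => k _ fun i j hj =>
    subset_closure (Or.inl ⟨m + i, j, hj, by congr 1; ring⟩)
  have k2 := k 1 fun i j hj => by
    by_cases e : j = 2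
    · subst e
      rw [show 1 + ((q - 1) * i + 2) = (q - 1) * i + 3 by ring, ← cw_add]
      exact k1 i _ h3
    · exact subset_closure (Or.inl ⟨i, j + 1, by omega, by congr 1; ring⟩)
  induction i with
  | zero => simpa using hg
  | succ i ih => simpa [pow_succ', mul_assoc] using k2 _ ih

end

variable [Fintype F] {q : ℕ}

/-- standing assumptions -/
structure Cz (q : ℕ) (σ : F ≃+* F) : Prop where
  card : Fintype.card F = q ^ 2
  pow : ∀ a, σ a = a ^ q
  three : 3 ≤ q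

/-- conjugate of a unit -/
def su (σ : F ≃+* F) : Fˣ →* Fˣ := Units.map (σ : F →* F)
omit hσ [Fintype F] in
@[simp] theorem su_val (l : Fˣ) : (su σ l : F) = σ l := rfl

omit [Fintype F] in
theorem mm_cube (l : Fˣ) : mm σ (l * l * su σ l) = l ^ 3 := by
  have := sg_ne (σ := σ) l
  simp only [mm_def, Units.val_mul, su_val, map_mul, ss]; field_simp

namespace Cz
variable (c : Cz q σ)
include c

theorem ord : orderOf σ = 2 := orderOf_eq_two_of_pow c.card c.pow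

theorem exists_nm {s : F} (hs : σ s = s) (h0 : s ≠ 0) : ∃ a, nn σ a = s := by
  obtain ⟨a, ha⟩ := exists_nrm_units σ (c := Units.mk0 s h0) hs
  rw [c.ord, nrm_two] at ha
  exact ⟨a, congrArg Units.val ha⟩

theorem exists_tr {s : F} (hs : σ s = s) : ∃ a, a + σ a = s :=
  H13.exists_add_conj_eq (ne_id_of_orderOf_two c.ord) ss hs

theorem exists_eps : ∃ ε : F, ε ≠ 0 ∧ σ ε = -ε := by
  by_contra! h
  refine ne_id_of_orderOf_two c.ord (RingHom.ext fun a => ?_)
  by_contra h1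
  exact h (σ a - a) (sub_ne_zero.2 h1) (by simp)

variable {ζ : Fˣ} (hζ : ∀ e, e ∈ zpowers ζ)
include hζ

theorem ordz : orderOf ζ = q ^ 2 - 1 := by
  rw [orderOf_eq_card_of_forall_mem_zpowers hζ, Nat.card_units, Nat.card_eq_fintype_card, c.card]

theorem le_of_pow {n : ℕ} (h0 : n ≠ 0) (h : (ζ : F) ^ n = 1) : q ^ 2 - 1 ≤ n :=
  c.ordz hζ ▸ orderOf_le_of_pow_eq_one (Nat.pos_of_ne_zero h0) (Units.ext (by simpa using h))

omit c in
theorem cube {a : F} (ha : a ≠ 0) : ∃ k, mm σ ζ ^ k = a ^ 3 := by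
  obtain ⟨k, hk⟩ := mem_powers_iff_mem_zpowers.2 (hζ (Units.mk0 a ha * Units.mk0 a ha * su σ (Units.mk0 a ha)))
  exact ⟨k, by rw [← map_pow, show ζ ^ k = _ from hk, mm_cube]; rfl⟩

theorem gen_mm (a : F) : ∃ f : ℤ[X], aeval (mm σ ζ) f = a := by
  obtain ⟨k, hk⟩ := cube (σ := σ) hζ ζ.ne_zero
  have := H6.Two.subring_cube (S := (aeval (R := ℤ) (mm σ ζ)).range.toSubring) hζ ⟨X ^ k, by simpa using hk⟩
    (fun h => by
      have h1 := c.le_of_pow hζ (by omega) h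
      have h2 : 3 ^ 2 ≤ q ^ 2 := Nat.pow_le_pow_left c.three 2
      omega)
  exact (this ▸ Subring.mem_top a : a ∈ (aeval (R := ℤ) (mm σ ζ)).range.toSubring)

theorem pow_nK {a : fixF σ} (ha : a ≠ 0) : ∃ k, nK σ ζ ^ k = a := by
  obtain ⟨l, hl⟩ := c.exists_nm a.2 (fun h => ha (Subtype.ext h))
  obtain ⟨k, hk⟩ := mem_powers_iff_mem_zpowers.2 (hζ l)
  exact ⟨k, Subtype.ext (by rw [← hl, ← show ζ ^ k = l from hk, map_pow]; rfl)⟩

theorem gen_nK (a : fixF σ) : ∃ f : ℤ[X], aeval (nK σ ζ) f = a := by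
  by_cases ha : a = 0
  · exact ⟨0, by simp [ha]⟩
  obtain ⟨k, hk⟩ := c.pow_nK hζ ha
  exact ⟨X ^ k, by simpa using hk⟩

theorem cube_mem (A : AddSubgroup F) (h : ∀ i j, j < 3 → mm σ ζ ^ ((q - 1) * i + j) ∈ A) : mm σ ζ ^ 3 ∈ A := by
  let A' := AddSubgroup.closure {x | ∃ i j, j < 3 ∧ x = mm σ ζ ^ ((q - 1) * i + j)}
  have hA : A' ≤ A := (AddSubgroup.closure_le _).2 (by rintro _ ⟨i, j, hj, rfl⟩; exact h i j hj)
  let E : Subring F :=
    { carrier := {c | ∀ a ∈ A', c * a ∈ A'}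
      mul_mem' := fun ha hb x hx => mul_assoc _ _ x ▸ ha _ (hb _ hx)
      one_mem' := fun x hx => by simpa using hx
      add_mem' := fun ha hb x hx => add_mul _ _ x ▸ add_mem (ha _ hx) (hb _ hx)
      zero_mem' := fun x _ => by simp
      neg_mem' := fun ha x hx => by simpa using ha _ hx }
  have h1 : mm σ ζ ^ (q - 1) ∈ E := fun a ha =>
    (AddSubgroup.closure_le (A'.comap (AddMonoidHom.mulLeft (mm σ ζ ^ (q - 1))))).2 (by
      rintro _ ⟨i, j, hj, rfl⟩
      exact AddSubgroup.subset_closure ⟨i + 1, j, hj, by simp [← pow_add]; congr 1; ring⟩) ha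
  obtain ⟨k, rfl⟩ := Nat.exists_eq_add_of_le' c.three
  have h2 : mm σ ζ ^ (k + 3 - 1) = ζ ^ (3 * (k + 2)) := by
    have := ζ.ne_zero
    have h3 : (ζ : F) ^ ((k + 3) ^ 2 - 1) = 1 := by
      rw [← c.ordz hζ, ← Units.val_pow_eq_pow_val, pow_orderOf_eq_one, Units.val_one]
    rw [show (k + 3) ^ 2 - 1 = (k + 4) * (k + 2) from Nat.sub_eq_of_eq_add (by ring)] at h3
    rw [mm_def, c.pow, show k + 3 - 1 = k + 2 from rfl, mul_pow, inv_pow, mul_inv_eq_iff_eq_mul₀ (by simp [this])]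
    linear_combination (-(ζ : F) ^ (2 * (k + 2))) * h3
  have h3 := pow_card_sub E h1 (pow_ne_zero _ (mm_ne ζ))
  have h4 : 1 < Nat.card E := Finite.one_lt_card
  obtain ⟨e, he⟩ := Nat.exists_eq_add_of_lt h4
  rw [h2, ← pow_mul, he, show 1 + e + 1 - 1 = e + 1 by omega] at h3
  have h5 := c.le_of_pow hζ (by positivity) h3
  rw [show (k + 3) ^ 2 - 1 = (k + 4) * (k + 2) from Nat.sub_eq_of_eq_add (by ring)] at h5
  have h6 : k + 4 ≤ 3 * (e + 1) := Nat.le_of_mul_le_mul_right (c := k + 2) (by linarith) (by omega)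
  obtain ⟨r, r1, r2⟩ := pow_span E 3 (by
    rw [Nat.card_eq_fintype_card, c.card, he, show (1 + e + 1) ^ (3 + 1) = ((e + 2) ^ 2) ^ 2 by ring]
    exact Nat.pow_lt_pow_left (by nlinarith) two_ne_zero) (mm σ ζ)
  rw [r2]
  exact hA (sum_mem fun j hj => r1 j _ (AddSubgroup.subset_closure ⟨0, j, Finset.mem_range.1 hj, by simp⟩))

omit hζ in
theorem bo_pres : ∃ g : Fin 3 → Bo σ, Pres g 14 := by
  obtain ⟨ζ, hζ⟩ := IsCyclic.exists_generator (α := Fˣ)
  obtain ⟨ε, ε0, hε⟩ := c.exists_eps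
  obtain ⟨b0, hb0⟩ := c.exists_tr (s := -1) (by simp)
  obtain ⟨u, ua, ul⟩ : ∃ u : Bo σ, u.a = 1 ∧ u.l = 1 := ⟨⟨1, b0, 1, by simp [hb0]⟩, rfl, rfl⟩
  have ru : ra σ u = tl σ 1 := Af.ext ua ul
  obtain ⟨N, hN⟩ : ∃ N, orderOf ζ = N + 1 := ⟨_, (Nat.succ_pred_eq_of_pos (orderOf_pos ζ)).symm⟩
  have dN : dd σ ζ ^ (N + 1) = 1 := by rw [← map_pow, ← hN, pow_orderOf_eq_one, map_one]
  obtain ⟨RK, lK, k1, k2⟩ := brel1.{0} (c.gen_nK hζ) (fun h => c.pow_nK hζ (sub_ne_zero.2 h)) (N + 1)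
  obtain ⟨RF, lF, f1, f2⟩ := brel3.{0} (c.gen_mm hζ) (fun h => cube hζ (sub_ne_zero.2 h)) (N + 1)
  let g : Fin 3 → Bo σ := ![u, zc hε 1, dd σ ζ]
  have hZ : ∀ x, ra σ x = 1 → x ∈ closure (Set.range (cw (zc hε 1) (dd σ ζ))) := fun x hx => by
    obtain ⟨a, rfl⟩ := exists_zc hε ε0 hx
    obtain ⟨f, rfl⟩ := c.gen_nK hζ a
    rw [← pw_x (zc_add hε) (zc_conj hε ζ)]
    exact pw_mem (fun i => Subgroup.subset_closure (Set.mem_range_self i)) f
  have hcu : ∀ i, ra σ (cw u (dd σ ζ) i) = tl σ (mm σ ζ ^ i) := fun i => by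
    rw [map_cw, ru, cw_x (tl_conj ζ)]
  have hv : ∀ w ∈ RF, ∃ v ∈ closure (Set.range (cw (FreeGroup.of (1 : Fin 3)) (.of 2))),
      FreeGroup.lift g v = FreeGroup.lift ![u, dd σ ζ] w := fun w hw => by
    have := hZ (FreeGroup.lift ![u, dd σ ζ] w) (by
      rw [map_lift, ← f1 _ _ _ tl_add (tl_conj ζ) (by rw [← map_pow, dN, map_one]) w hw]
      congr 2; ext1 i; fin_cases i <;> simp [ru])
    have e := map_ZS (FreeGroup.lift g) (.of 1) (.of 2)
    simp only [FreeGroup.lift_apply_of] at e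
    exact mem_map.1 (e.ge this)
  choose! v hv1 hv2 using hv
  have lift : ∀ (L : Subgroup (Bo σ)), closure (Set.range (cw (zc hε 1) (dd σ ζ))) ≤ L →
      ∀ x, ra σ x ∈ L.map (ra σ) → x ∈ L := fun L hL x ⟨y, hy, e⟩ => by
    simpa using mul_mem hy (hL (hZ (y⁻¹ * x) (by rw [map_mul, map_inv, e, inv_mul_cancel])))
  obtain ⟨v3, h31, h32⟩ : ∃ v ∈ closure (VS q (FreeGroup.of (0 : Fin 3)) (.of 1) (.of 2)),
      FreeGroup.lift g v = cw u (dd σ ζ) 3 := by
    have e := map_VS (FreeGroup.lift g) q (.of 0) (.of 1) (.of 2)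
    simp only [FreeGroup.lift_apply_of] at e
    refine mem_map.1 (e.ge (lift _ (closure_mono (by rintro _ ⟨i, rfl⟩; exact Or.inr ⟨i, rfl⟩)) _ ?_))
    rw [hcu]
    let A : AddSubgroup F :=
      { carrier := {a | tl σ a ∈ (closure (VS q u (zc hε 1) (dd σ ζ))).map (ra σ)}
        add_mem' := fun ha hb => by rw [Set.mem_ofPred_eq, tl_add]; exact mul_mem ha hb
        zero_mem' := one_mem ((closure (VS q u (zc hε 1) (dd σ ζ))).map (ra σ))
        neg_mem' := fun ha => by rw [Set.mem_ofPred_eq, L0.add_neg' tl_add]; exact inv_mem ha }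
    exact c.cube_mem hζ A fun i j hj => ⟨_, subset_closure (Or.inl ⟨i, j, hj, rfl⟩), hcu _⟩
  let C : ℕ → FreeGroup (Fin 3) := fun j => cw (.of 0) (.of 2) j * .of 1 * (.of 1 * cw (.of 0) (.of 2) j)⁻¹
  refine ⟨g, Pres.intro (RK.map (FreeGroup.lift ![.of 1, .of 2]) ++
    RF.map (fun w => FreeGroup.lift ![.of 0, .of 2] w * (v w)⁻¹) ++
    [C 0, C 1, C 2, cw (.of 0) (.of 2) 3 * v3⁻¹]) (by simp; omega) ?_ ?_ ?_⟩
  · have m0 : u ∈ closure (Set.range g) := subset_closure ⟨0, rfl⟩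
    have m1 : zc hε 1 ∈ closure (Set.range g) := subset_closure ⟨1, rfl⟩
    have m2 : dd σ ζ ∈ closure (Set.range g) := subset_closure ⟨2, rfl⟩
    have cm : ∀ y ∈ closure (Set.range g), ∀ i, cw y (dd σ ζ) i ∈ closure (Set.range g) := fun y hy i =>
      mul_mem (mul_mem (pow_mem m2 i) hy) (inv_mem (pow_mem m2 i))
    refine eq_top_iff.2 fun x _ => lift _ ((closure_le _).2 (by rintro _ ⟨i, rfl⟩; exact cm _ m1 i)) _ ?_
    obtain ⟨f, hf⟩ := c.gen_mm hζ x.a
    obtain ⟨i, hi⟩ := hζ x.l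
    refine ⟨pw u (dd σ ζ) f * dd σ ζ ^ i, mul_mem (pw_mem (cm _ m0) f) (zpow_mem m2 i), ?_⟩
    rw [map_mul, map_pw, ru, pw_x tl_add (tl_conj ζ), hf, ← map_zpow, show ζ ^ i = x.l from hi]
    exact Af.ext (by simp [tl]) (by simp [tl])
  · simp only [List.forall_mem_append, List.forall_mem_map, lift_two, List.mem_cons,
      List.not_mem_nil, or_false, forall_eq_or_imp, forall_eq, map_mul, C,
      map_inv, map_cw, mul_inv_eq_one, FreeGroup.lift_apply_of, h32]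
    have k : ∀ j, Commute (cw u (dd σ ζ) j) (zc hε 1) := fun j => zc_comm hε (congrArg Af.l (hcu j)) 1
    exact ⟨⟨k1 _ _ _ (zc_add hε) (zc_conj hε ζ) dN, fun w hw => (hv2 w hw).symm⟩, k 0, k 1, k 2, rfl⟩
  · intro H _ g' π hπ hc hR
    simp only [List.forall_mem_append, List.forall_mem_map, lift_two, List.mem_cons,
      List.not_mem_nil, or_false, forall_eq_or_imp, forall_eq, map_mul, C,
      map_inv, map_cw, mul_inv_eq_one, FreeGroup.lift_apply_of] at hR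
    obtain ⟨⟨r0, r1⟩, c0, c1, c2, r3⟩ := hR
    obtain ⟨hN', x, hx, x1, ht, hp⟩ := k2 H _ _ r0
    have px : ∀ a, π (x a) = zc hε a :=
      x_eq (c.gen_nK hζ) π hp (zc_add hε) (by rw [hπ 2]; exact zc_conj hε ζ) (hπ 1)
    have h3 : cw (g' 0) (g' 2) 3 ∈ closure (VS q (g' 0) (g' 1) (g' 2)) := by
      have e := map_VS (FreeGroup.lift g') q (.of 0) (.of 1) (.of 2)
      simp only [FreeGroup.lift_apply_of] at e
      exact r3 ▸ e.le (mem_map_of_mem _ h31)
    have hk : Commute (g' 2 ^ (q - 1)) (g' 1) := by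
      have := conj_pow_x ht (q - 1) 1
      rw [show nK σ ζ ^ (q - 1) = 1 from Subtype.ext (by
        obtain ⟨k, rfl⟩ := Nat.exists_eq_add_of_le' c.three
        have h3 := congrArg Units.val (pow_orderOf_eq_one ζ)
        rw [c.ordz hζ, show (k + 3) ^ 2 - 1 = (k + 3 + 1) * (k + 3 - 1) from
          Nat.sub_eq_of_eq_add (by rw [show k + 3 - 1 = k + 2 from rfl]; ring)] at h3
        simpa [nK, nn_def, c.pow, ← pow_succ', pow_mul] using h3), one_mul, x1] at this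
      exact mul_inv_eq_iff_eq_mul.1 this
    have hV : closure (VS q (g' 0) (g' 1) (g' 2)) ≤ centralizer {g' 1} := (closure_le _).2 (by
      rintro _ (⟨i, j, hj, rfl⟩ | ⟨i, rfl⟩)
      · rw [← cw_add, pow_mul]
        have a := mem_centralizer_singleton_iff.2 (hk.pow_left i).eq
        refine mul_mem (mul_mem a (mem_centralizer_singleton_iff.2 ?_)) (inv_mem a)
        interval_cases j <;> assumption
      · rw [← x1, cw_x ht]; exact mem_centralizer_singleton_iff.2 (add_comm' hx _ _).eq)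
    have hu : ∀ a, Commute (g' 0) (x a) := fun a => by
      by_cases ha : a = 0
      · rw [ha, add_zero' hx]; exact Commute.one_right _
      obtain ⟨i, hi⟩ := c.pow_nK hζ (inv_ne_zero ha)
      have := mem_centralizer_singleton_iff.1 (hV (VS_conj h3 i (g := g' 0)
        (subset_closure (Or.inl ⟨0, 0, by omega, by simp [cw]⟩))))
      rw [← x1, ← inv_mul_cancel₀ ha, ← hi, ← conj_pow_x ht] at this
      have h5 := commute_conj this (g' 2 ^ i)⁻¹
      simpa [mul_assoc] using h5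
    let Z : Subgroup H := (MonoidHom.mk' (fun a : Multiplicative (fixF σ) => x a.toAdd) (fun a b => hx _ _)).range
    have mZ : ∀ a, x a ∈ Z := fun a => ⟨.ofAdd a, rfl⟩
    have : Z.Normal := by
      refine normalizer_eq_top_iff.1 (eq_top_iff.2 (hc ▸ (closure_le _).2 ?_))
      have a : ∀ y, (∀ a, Commute y (x a)) → y ∈ normalizer (Z : Set H) := fun y hy =>
        centralizer_le_normalizer _ (by rintro _ ⟨a, rfl⟩; exact (hy _).eq.symm)
      rintro _ ⟨i, rfl⟩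
      fin_cases i
      · exact a _ hu
      · exact a _ fun b => x1 ▸ add_comm' hx _ _
      · have : Finite Z := Finite.of_surjective _ (MonoidHom.rangeRestrict_surjective _)
        exact mem_normalizer_fintype (by rintro _ ⟨a, rfl⟩; exact (ht _).symm ▸ mZ _)
    obtain ⟨hN2, y, hy, y1, yt, yp⟩ := f2 (H ⧸ Z) (QuotientGroup.mk' Z (g' 0)) (QuotientGroup.mk' Z (g' 2))
      fun w hw => by
        have e := map_ZS (FreeGroup.lift g') (.of 1) (.of 2)
        simp only [FreeGroup.lift_apply_of] at e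
        have := (closure_le Z).2 (by rintro _ ⟨i, rfl⟩; rw [← x1, cw_x ht]; exact mZ _)
          (e.le (mem_map_of_mem _ (hv1 w hw)))
        rw [← r1 w hw, ← QuotientGroup.eq_one_iff, ← QuotientGroup.mk'_apply, map_lift] at this
        rw [← this]; congr 2; ext1 i; fin_cases i <;> rfl
    let π' : H ⧸ Z →* Af σ := QuotientGroup.lift Z ((ra σ).comp π) (by
      rintro _ ⟨a, rfl⟩; exact (congrArg (ra σ) (px _)).trans rfl)
    have p2 : π' (QuotientGroup.mk' Z (g' 2)) = ra σ (dd σ ζ) := congrArg (ra σ) (hπ 2)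
    have py : ∀ a, π' (y a) = tl σ a := x_eq (c.gen_mm hζ) π' yp tl_add (by rw [p2]; exact tl_conj ζ)
      ((congrArg (ra σ) (hπ 0)).trans ru)
    refine (injective_iff_map_eq_one π).2 fun t ht' => ?_
    obtain ⟨a, i, e⟩ := aff_form hy yt hN2 (g := QuotientGroup.mk' Z t) (by
      have := mem_map_of_mem (QuotientGroup.mk' Z) (hc.ge (mem_top t))
      rw [MonoidHom.map_closure] at this
      refine (closure_le _).2 ?_ this
      rintro _ ⟨_, ⟨i, rfl⟩, rfl⟩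
      fin_cases i
      · exact subset_closure (Or.inl y1.symm)
      · show QuotientGroup.mk' Z (g' 1) ∈ closure {y 1, QuotientGroup.mk' Z (g' 2)}
        rw [show QuotientGroup.mk' Z (g' 1) = 1 from (QuotientGroup.eq_one_iff _).2 (x1 ▸ mZ 1)]
        exact one_mem _
      · exact subset_closure (Or.inr rfl))
    have e1 := congrArg π' e
    rw [map_mul, py, map_pow, p2, ← map_pow, ← map_pow,
      show π' (QuotientGroup.mk' Z t) = 1 from (congrArg (ra σ) ht').trans (map_one _)] at e1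
    have a0 : a = 0 := by simpa [tl, -map_pow] using (congrArg Af.a e1).symm
    obtain ⟨k, rfl⟩ := hN ▸ orderOf_dvd_of_pow_eq_one (show ζ ^ i = 1 by simpa [tl, -map_pow] using (congrArg Af.l e1).symm)
    rw [a0, add_zero' hy, pow_mul, hN2, one_pow, mul_one, QuotientGroup.mk'_apply, QuotientGroup.eq_one_iff] at e
    obtain ⟨b, rfl⟩ := e
    have e2 : ε * (b.toAdd : F) = 0 := congrArg Bo.b ((px _).symm.trans ht')
    have e3 : b.toAdd = 0 := Subtype.ext ((mul_eq_zero.1 e2).resolve_left ε0)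
    exact (congrArg x e3).trans (add_zero' hx)

end Cz

end Cfsg.Agent.H28.US
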