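import Cfsg.Agent.H28.US2

/-! A bounded presentation of `SU₃(q)`: two Bruhat relations imply all others. -/

set_option autoImplicit false
set_option linter.unusedSectionVars false

namespace Cfsg.Agent.H28.US

open Subgroup L0 Matrix
open scoped MatrixGroups

variable {F : Type} [Field F] {σ : F ≃+* F} [hσ : Fact (∀ a, σ (σ a) = a)]

section
variable {H : Type*} [Group H]

/-- the Bruhat relation holds for `x` -/
def Gd (φ : Bo σ →* H) (w : H) (x : Bo σ) : Prop := ∃ b c, w * φ x * w = φ b * w * φ c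

variable {φ : Bo σ →* H} {w : H} (hw : w * w = 1) (hd : ∀ l, w * φ (dd σ l) * w = φ (dd σ (su σ l)⁻¹))
include hw

theorem ww1 (g : H) : w * (w * g) = g := by rw [← mul_assoc, hw, one_mul]

theorem Gd.inv {x : Bo σ} (h : Gd φ w x) : Gd φ w x⁻¹ := by
  obtain ⟨b, c, e⟩ := h
  have := congrArg (·⁻¹) e
  simp only [_root_.mul_inv_rev, inv_eq_of_mul_eq_one_right hw, ← map_inv] at this
  exact ⟨c⁻¹, b⁻¹, by simpa [mul_assoc] using this⟩

theorem Gd.rot {x b c : Bo σ} (e : w * φ x * w = φ b * w * φ c) : Gd φ w b :=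
  ⟨x, c⁻¹, by
    rw [show φ b = w * φ x * w * (φ c)⁻¹ * w by rw [e]; simp [mul_assoc, hw]]
    simp [mul_assoc, hw, ww1 hw]⟩

theorem Gd.tet {x y b c b' c' : Bo σ} (e : w * φ x * w = φ b * w * φ c) (e' : w * φ y * w = φ b' * w * φ c')
    (h : Gd φ w (c * b')) : Gd φ w (x * y) := by
  obtain ⟨d, d', e''⟩ := h
  refine ⟨b * d, d' * c', ?_⟩
  calc w * φ (x * y) * w = (w * φ x * w) * (w * φ y * w) := by simp [mul_assoc, ww1 hw]
    _ = φ b * (w * φ (c * b') * w) * φ c' := by rw [e, e']; simp [mul_assoc]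
    _ = _ := by rw [e'']; simp [mul_assoc]

include hd

theorem Gd.left {x : Bo σ} (h : Gd φ w x) (l : Fˣ) : Gd φ w (dd σ l * x) := by
  obtain ⟨b, c, e⟩ := h
  refine ⟨dd σ (su σ l)⁻¹ * b, c, ?_⟩
  rw [map_mul φ _ b, ← hd, mul_assoc _ (φ b), mul_assoc _ (φ b * w), ← e]
  simp [mul_assoc, ww1 hw]

theorem Gd.congr {x y : Bo σ} (h : Gd φ w x) (h1 : y.a = x.a) (h2 : y.b = x.b) : Gd φ w y := by
  have := ((h.inv hw).left hw hd (y.l⁻¹ * x.l)).inv hw
  rwa [show (dd σ (y.l⁻¹ * x.l) * x⁻¹)⁻¹ = y by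
    rw [_root_.mul_inv_rev, inv_inv, ← map_inv]; exact Bo.ext (by simp [h1]) (by simp [h2]) (by simp)] at this

theorem Gd.norm {x : Bo σ} (h : Gd φ w x) : ∃ b c, c.l = 1 ∧ w * φ x * w = φ b * w * φ c := by
  obtain ⟨b, c, e⟩ := h
  refine ⟨b * dd σ (su σ c.l)⁻¹, (dd σ c.l)⁻¹ * c, by simp, ?_⟩
  rw [e, map_mul, ← hd]; simp [mul_assoc, ww1 hw]

variable [Fintype F] {q : ℕ}

theorem Cz.all_gd (c : Cz q σ) {ζ : Fˣ} (hζ : ∀ e, e ∈ zpowers ζ) {ε : F} (ε0 : ε ≠ 0) (hε : σ ε = -ε)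
    (hA : ∀ x b c : Bo σ, x.l = 1 → c.l = 1 → w * φ x * w = φ b * w * φ c →
      b.a = -x.a / σ x.b ∧ b.b = 1 / x.b ∧ c.a = -x.a / x.b ∧ c.b = 1 / x.b)
    {z x1 : Bo σ} (z1 : z.a = 0) (z2 : z.b = ε) (hz : Gd φ w z) (h1 : x1.b = ε * ζ) (hx : Gd φ w x1)
    (x : Bo σ) (h0 : x.b ≠ 0) : Gd φ w x := by
  have cen : ∀ x : Bo σ, x.a = 0 → x.b ≠ 0 → Gd φ w x := fun x a0 b0 => by
    have h := x.h
    rw [a0, zero_mul, add_zero] at h
    obtain ⟨l, hl⟩ := c.exists_nm (s := x.b / ε)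
      (by rw [map_div₀, hε, eq_neg_of_add_eq_zero_right h, neg_div_neg_eq]) (div_ne_zero b0 ε0)
    exact (hz.left hw hd l).congr hw hd (by simp [a0, z1]) (by simp [hl, z2, ε0])
  have ζ0 := ζ.ne_zero
  have sζ := sg_ne (σ := σ) ζ
  have hT : (ζ : F) - σ ζ ≠ 0 := fun h => by
    obtain ⟨k, rfl⟩ := Nat.exists_eq_add_of_le' c.three
    rw [sub_eq_zero, c.pow, pow_succ] at h
    have := c.le_of_pow hζ (n := k + 2) (by omega) (mul_right_cancel₀ ζ0 (by rw [← h, one_mul]))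
    have h2 : (k + 3) ^ 2 ≤ k + 2 + 1 := by omega
    nlinarith
  have tr : ∀ (x : Bo σ) r, σ r = r → x.b = r * (ε * ζ) → r * (ε * (ζ - σ ζ)) = -(x.a * σ x.a) :=
    fun x r r1 r2 => by
      have := x.h
      rw [r2, map_mul, map_mul, r1, hε] at this
      linear_combination this
  have uq : ∀ {x y : Bo σ} {r s : F}, Gd φ w x → σ r = r → x.b = r * (ε * ζ) → y.a = x.a → σ s = s →
      y.b = s * (ε * ζ) → Gd φ w y := fun {x y r s} h r1 r2 e s1 s2 =>
    h.congr hw hd e (by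
      rw [r2, s2, mul_right_cancel₀ (mul_ne_zero ε0 hT) ((tr y s s1 s2).trans (e ▸ (tr x r r1 r2).symm))])
  have mk : ∀ a : F, ∃ (x : Bo σ) (r : F), x.a = a ∧ x.l = 1 ∧ σ r = r ∧ x.b = r * (ε * ζ) := fun a => by
    have r1 : σ (-(a * σ a) / (ε * (ζ - σ ζ))) = -(a * σ a) / (ε * (ζ - σ ζ)) := by
      simp only [map_div₀, map_neg, map_mul, map_sub, ss, hε]; congr 1 <;> ring
    refine ⟨⟨a, -(a * σ a) / (ε * (ζ - σ ζ)) * (ε * ζ), 1, ?_⟩, _, rfl, rfl, r1, rfl⟩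
    rw [map_mul, r1, map_mul, hε]; field_simp; ring
  have a1 : x1.a ≠ 0 := fun h => by
    have := tr x1 1 (map_one σ) (by rw [h1, one_mul])
    rw [h, zero_mul, neg_zero, one_mul] at this
    exact mul_ne_zero ε0 hT this
  have Q : ∀ k : ℕ, ∀ (y : Bo σ) s, y.a = ζ ^ k * x1.a → σ s = s → y.b = s * (ε * ζ) → Gd φ w y := by
    intro k
    induction k with
    | zero => exact fun y s e => uq hx (map_one σ) (by rw [h1, one_mul]) (by simpa using e)
    | succ k ih =>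
      intro y s e
      obtain ⟨x, r, xa, xl, r1, r2⟩ := mk (ζ ^ k * x1.a)
      have r0 : r ≠ 0 := fun h => by
        have := tr x r r1 r2
        rw [h, zero_mul, xa] at this
        simp [a1] at this
      obtain ⟨b, d, d1, e1⟩ := (ih x r xa r1 r2).norm hw hd
      obtain ⟨b1, b2, -, -⟩ := hA x b d xl d1 e1
      have g1 : Gd φ w ⟨b.a, b.b, 1, b.h⟩ := (Gd.rot hw e1).congr hw hd rfl rfl
      refine uq ((g1.inv hw).left hw hd (Units.mk0 (ζ * σ ζ * r * ε) (by simp [r0, ε0])))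
        (r := ζ * σ ζ * r) (by simp [r1, mul_comm]) ?_ ?_
      · simp [nn_def, b2, r2, r1, hε]; field_simp
      · simp [mm_def, b1, r2, r1, hε, e, xa]; field_simp; ring
  have P1 : ∀ (y : Bo σ) s, σ s = s → y.b ≠ 0 → y.b = s * (ε * ζ) → Gd φ w y := fun y s s1 y0 s2 => by
    by_cases ha : y.a = 0
    · exact cen y ha y0
    obtain ⟨k, hk⟩ := exists_pow_eq ζ hζ (div_ne_zero ha a1)
    exact Q k y s (by rw [hk]; field_simp) s1 s2
  have P : ∀ k : ℕ, ∀ (y : Bo σ) s, σ s = s → y.b ≠ 0 → y.b = s * (ε * ζ ^ k) → Gd φ w y := by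
    intro k
    induction k with
    | zero =>
      intro y s s1 y0 s2
      have := y.h
      rw [s2, pow_zero, mul_one, map_mul, s1, hε] at this
      exact cen y (by simpa using this) y0
    | succ k ih =>
      intro y s s1 y0 s2
      by_cases ha : y.a = 0
      · exact cen y ha y0
      obtain ⟨x, r, xa, xl, r1, r2⟩ := mk y.a
      have x0 : x.b ≠ 0 := fun h => by
        have := x.h
        rw [h, xa] at this
        simp [ha] at this
      have gx := P1 x r r1 x0 r2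
      by_cases hb : y.b = x.b
      · exact gx.congr hw hd xa.symm hb
      have t0 : σ (y.b - x.b) = -(y.b - x.b) := by
        have := y.h
        rw [← xa] at this
        rw [map_sub]; linear_combination this - x.h
      let t : Bo σ := ⟨0, y.b - x.b, 1, by simp [t0]⟩
      have t1 : y.b - x.b ≠ 0 := sub_ne_zero.2 hb
      obtain ⟨b, d, d1, e1⟩ := (cen t rfl t1).norm hw hd
      obtain ⟨b', d', d1', e1'⟩ := gx.norm hw hd
      obtain ⟨-, -, d2, d3⟩ := hA t b d rfl d1 e1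
      obtain ⟨-, b3, -, -⟩ := hA x b' d' xl d1' e1'
      have r0 : r ≠ 0 := fun h => x0 (by rw [r2, h, zero_mul])
      have e3 : (d * b').b = y.b / ((y.b - x.b) * x.b) := by
        simp only [Bo.mul_b, d1, d2, d3, b3, t, map_one]; field_simp; ring
      refine (Gd.tet hw e1 e1' (ih _ (s / ((y.b - x.b) * ε * r)) ?_ ?_ ?_)).congr hw hd
        (by simp [t, xa]) (by simp [t])
      · rw [map_div₀, map_mul, map_mul, t0, hε, r1, s1]; congr 1; ring
      · rw [e3]; exact div_ne_zero y0 (mul_ne_zero t1 x0)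
      · rw [e3]; generalize y.b - x.b = D at t1; rw [s2, r2]; field_simp; ring
  obtain ⟨k, hk⟩ := exists_pow_eq ζ hζ (div_ne_zero h0 ε0)
  exact P k x 1 (map_one σ) h0 (by rw [hk]; field_simp)

theorem bruhat_all (hG : ∀ x : Bo σ, x.b ≠ 0 → Gd φ w x) {g : H} (hg : g ∈ φ.range ⊔ closure {w}) :
    ∃ b, g = φ b ∨ ∃ c, g = φ b * w * φ c := by
  rw [← closure_eq φ.range, ← Subgroup.closure_union] at hg
  have k : ∀ g, (∃ b, g = φ b ∨ ∃ c, g = φ b * w * φ c) → ∃ b, w * g = φ b ∨ ∃ c, w * g = φ b * w * φ c := by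
    rintro _ ⟨b, rfl | ⟨c, rfl⟩⟩
    · exact ⟨1, Or.inr ⟨b, by simp⟩⟩
    by_cases h : b.b = 0
    · have h1 := b.h
      rw [h] at h1
      have h2 : b = dd σ b.l := Bo.ext (by simpa using h1) h rfl
      exact ⟨dd σ (su σ b.l)⁻¹ * c, Or.inl (by rw [map_mul, ← hd, ← h2]; simp [mul_assoc])⟩
    · obtain ⟨d, d', e⟩ := hG b h
      exact ⟨d, Or.inr ⟨d' * c, by rw [map_mul, ← mul_assoc _ (φ d'), ← e]; simp [mul_assoc]⟩⟩
  have k' : ∀ x g, (∃ b, g = φ b ∨ ∃ c, g = φ b * w * φ c) →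
      ∃ b, φ x * g = φ b ∨ ∃ c, φ x * g = φ b * w * φ c := by
    rintro x _ ⟨b, rfl | ⟨c, rfl⟩⟩
    · exact ⟨x * b, Or.inl (by simp)⟩
    · exact ⟨x * b, Or.inr ⟨c, by simp [mul_assoc]⟩⟩
  induction hg using closure_induction_left with
  | one => exact ⟨1, Or.inl (by simp)⟩
  | mul_left x hx y _ ih =>
    rcases hx with ⟨x, rfl⟩ | rfl
    · exact k' _ _ ih
    · exact k _ ih
  | inv_mul_cancel x hx y _ ih =>
    rcases hx with ⟨x, rfl⟩ | rfl
    · exact map_inv φ x ▸ k' _ _ ih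
    · exact (inv_eq_of_mul_eq_one_right hw).symm ▸ k _ ih

end

end Cfsg.Agent.H28.US
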