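import Cfsg.Agent.H28.US3

/-! A bounded presentation of `SU₃(q)`: matrices. -/

set_option autoImplicit false
set_option linter.unusedSectionVars false

namespace Cfsg.Agent.H28.US

open Subgroup L0 Matrix
open scoped MatrixGroups

variable {F : Type} [Field F] {σ : F ≃+* F} [hσ : Fact (∀ a, σ (σ a) = a)]

/-- the antidiagonal form -/
def JJ (F : Type) [Field F] : Matrix (Fin 3) (Fin 3) F := !![0, 0, 1; 0, 1, 0; 1, 0, 0]

/-- special unitary group of a form -/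
def GJ {n : ℕ} (σ : F ≃+* F) (J : Matrix (Fin n) (Fin n) F) : Subgroup SL(n, F) where
  carrier := {g | cT σ g.1 * J * g.1 = J}
  mul_mem' {a b} ha hb := by
    simp only [Set.mem_ofPred_eq] at *
    show cT σ (a.1 * b.1) * J * (a.1 * b.1) = J
    generalize a.1 = A at *
    generalize b.1 = B at *
    rw [cT_mul, mul_assoc (cT σ B), mul_assoc (cT σ B), ← mul_assoc _ A, ha, ← mul_assoc, hb]
  one_mem' := by
    show cT σ 1 * J * 1 = J
    simp
  inv_mem' {a} ha := by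
    simp only [Set.mem_ofPred_eq] at *
    have h : a.1 * (a⁻¹).1 = 1 := congrArg Subtype.val (mul_inv_cancel a)
    generalize a.1 = A at *
    generalize (a⁻¹).1 = B at *
    nth_rw 1 [← ha]
    rw [← mul_assoc, ← mul_assoc, ← cT_mul, h, mul_assoc, h]; simp

section
omit hσ
variable {n : ℕ} {J : Matrix (Fin n) (Fin n) F}
/-- underlying matrix -/
def gv (g : GJ σ J) : Matrix (Fin n) (Fin n) F := g.1.1
theorem gmul (g h : GJ σ J) : gv (g * h) = gv g * gv h := rfl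
theorem gone : gv (1 : GJ σ J) = 1 := rfl
theorem gdet (g : GJ σ J) : (gv g).det = 1 := g.1.2
theorem gform (g : GJ σ J) : cT σ (gv g) * J * gv g = J := g.2
theorem gext {g h : GJ σ J} (e : gv g = gv h) : g = h := Subtype.ext (Subtype.ext e)
end

theorem su_equiv [Fintype F] {q n : ℕ} (h1 : Fintype.card F = q ^ 2) (h2 : ∀ a, σ a = a ^ q)
    (J : GL (Fin n) F) (hJ : cT σ J.1 = J) : Nonempty (GJ σ J.1 ≃* SU n F q) := by
  obtain ⟨P, hP⟩ := exists_cT_mul_herm (orderOf_eq_two_of_pow h1 h2) J hJ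
  have a1 : P.1 * (P⁻¹).1 = 1 := by simp
  have a2 : (P⁻¹).1 * P.1 = 1 := by simp
  have hJ' : J.1 = cT σ (P⁻¹).1 * (P⁻¹).1 := by
    calc J.1 = cT σ (P.1 * (P⁻¹).1) * J.1 * (P.1 * (P⁻¹).1) := by rw [a1]; simp
      _ = cT σ (P⁻¹).1 * (cT σ P.1 * J.1 * P.1) * (P⁻¹).1 := by rw [cT_mul]; simp only [mul_assoc]
      _ = _ := by rw [hP, mul_one]
  have d : ∀ (A B : Matrix (Fin n) (Fin n) F), A * B = 1 → ∀ g : SL(n, F), (A * g.1 * B).det = 1 := fun A B h g => by
    rw [det_mul, det_mul, g.2, mul_one, ← det_mul, h, det_one]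
  refine ⟨{ toFun := fun g => ⟨⟨(P⁻¹).1 * g.1.1 * P.1, d _ _ a2 _⟩, (mem_SU_iff h2).2 ?_⟩
            invFun := fun g => ⟨⟨P.1 * g.1.1 * (P⁻¹).1, d _ _ a1 _⟩, ?_⟩
            left_inv := fun g => ?_, right_inv := fun g => ?_, map_mul' := fun g g' => ?_ }⟩
  · have := gform g
    show cT σ ((P⁻¹).1 * gv g * P.1) * ((P⁻¹).1 * gv g * P.1) = 1
    generalize gv g = A at *
    rw [← hP, ← this, cT_mul, cT_mul, hJ']; simp only [mul_assoc]
  · have := (mem_SU_iff h2).1 g.2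
    show cT σ (P.1 * g.1.1 * (P⁻¹).1) * J.1 * (P.1 * g.1.1 * (P⁻¹).1) = J.1
    calc _ = cT σ (P⁻¹).1 * (cT σ g.1.1 * (cT σ P.1 * J.1 * P.1) * g.1.1) * (P⁻¹).1 := by
          rw [cT_mul, cT_mul]; simp only [mul_assoc]
      _ = _ := by rw [hP, mul_one, this, mul_one, hJ']
  · exact Subtype.ext (Subtype.ext (by simp only [← mul_assoc, a1, one_mul]; rw [mul_assoc, a1, mul_one]))
  · exact Subtype.ext (Subtype.ext (by simp only [← mul_assoc, a2, one_mul]; rw [mul_assoc, a2, mul_one]))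
  · exact Subtype.ext (Subtype.ext (by
      show (P⁻¹).1 * (g.1.1 * g'.1.1) * P.1 = (P⁻¹).1 * g.1.1 * P.1 * ((P⁻¹).1 * g'.1.1 * P.1)
      simp only [mul_assoc]; rw [← mul_assoc P.1, a1, one_mul]))

/-- matrix of a Borel element -/
def bm (x : Bo σ) : Matrix (Fin 3) (Fin 3) F :=
  !![x.l, x.a * σ x.l / x.l, x.b / σ x.l; 0, σ x.l / x.l, -σ x.a / σ x.l; 0, 0, 1 / σ x.l]

/-- the Borel subgroup in the unitary group -/
def rb (σ : F ≃+* F) [Fact (∀ a, σ (σ a) = a)] : Bo σ →* GJ σ (JJ F) := MonoidHom.mk'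
  (fun x => ⟨⟨bm x, by
      have := sg_ne (σ := σ) x.l
      simp [bm, det_fin_three]; field_simp⟩, by
      have := sg_ne (σ := σ) x.l
      have h := x.h
      show cT σ (bm x) * JJ F * bm x = JJ F
      ext i j; fin_cases i <;> fin_cases j <;> simp [cT, bm, JJ, mul_apply, Fin.sum_univ_three] <;> field_simp
      · ring
      · ring
      · linear_combination h⟩)
  fun x y => Subtype.ext (Subtype.ext (by
    have := sg_ne (σ := σ) x.l
    have := sg_ne (σ := σ) y.l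
    show bm (x * y) = bm x * bm y
    ext i j; fin_cases i <;> fin_cases j <;> simp [bm, mul_apply, Fin.sum_univ_three, mm_def, nn_def] <;>
      field_simp <;> ring))

/-- the Weyl element -/
def WW (σ : F ≃+* F) : GJ σ (JJ F) := ⟨⟨!![0, 0, 1; 0, -1, 0; 1, 0, 0], by simp [det_fin_three]⟩, by
  show cT σ !![0, 0, 1; 0, -1, 0; 1, 0, 0] * JJ F * !![0, 0, 1; 0, -1, 0; 1, 0, 0] = JJ F
  ext i j; fin_cases i <;> fin_cases j <;> simp [cT, JJ, mul_apply, Fin.sum_univ_three]⟩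

theorem rbv (x : Bo σ) : gv (rb σ x) = bm x := rfl
omit hσ in
theorem WWv : gv (WW σ) = !![0, 0, 1; 0, -1, 0; 1, 0, 0] := rfl

omit hσ in
theorem WW_sq : WW σ * WW σ = 1 := gext (by
  rw [gmul, WWv, gone]; ext i j; fin_cases i <;> fin_cases j <;> simp [mul_apply, Fin.sum_univ_three])

theorem WW_dd (l : Fˣ) : WW σ * rb σ (dd σ l) * WW σ = rb σ (dd σ (su σ l)⁻¹) := gext (by
  have := sg_ne (σ := σ) l
  simp only [gmul, WWv, rbv]
  ext i j; fin_cases i <;> fin_cases j <;> simp [bm, mul_apply, Fin.sum_univ_three]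
  field_simp)

theorem WW_uniq {x b c : Bo σ} (xl : x.l = 1) (cl : c.l = 1) (e : WW σ * rb σ x * WW σ = rb σ b * WW σ * rb σ c) :
    b.a = -x.a / σ x.b ∧ b.b = 1 / x.b ∧ c.a = -x.a / x.b ∧ c.b = 1 / x.b := by
  have h := congrArg gv e
  simp only [gmul, WWv, rbv] at h
  have h0 := congrFun (congrFun h 0) 0
  have h1 := congrFun (congrFun h 1) 0
  have h2 := congrFun (congrFun h 2) 0
  have h3 := congrFun (congrFun h 2) 1
  have h4 := congrFun (congrFun h 2) 2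
  simp [bm, mul_apply, Fin.sum_univ_three, xl, cl] at h0 h1 h2 h3 h4
  have := sg_ne (σ := σ) b.l
  have h5 := congrArg σ h1
  simp only [map_div₀, map_neg, ss] at h5
  have := b.l.ne_zero
  rw [h2]
  refine ⟨by rw [h5]; simp, ?_, ?_, ?_⟩ <;> field_simp at h0 h3 h4 ⊢
  · linear_combination -h0
  · linear_combination -h3
  · linear_combination -h4

theorem WW_gd (x : Bo σ) (h : x.b ≠ 0) : Gd (rb σ) (WW σ) x := by
  have h' : σ x.b ≠ 0 := by simpa using h
  have hx := x.h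
  refine Gd.congr WW_sq WW_dd (x := ⟨x.a, x.b, 1, x.h⟩) ⟨⟨-x.a / σ x.b, 1 / x.b, (Units.mk0 _ h')⁻¹, ?_⟩,
    ⟨-x.a / x.b, 1 / x.b, 1, ?_⟩, gext ?_⟩ rfl rfl
  · simp; field_simp; linear_combination hx
  · simp; field_simp; linear_combination hx
  · simp only [gmul, WWv, rbv]
    ext i j; fin_cases i <;> fin_cases j <;> simp [bm, mul_apply, Fin.sum_univ_three, h, h'] <;> field_simp
    all_goals first | linear_combination hx | linear_combination -hx | ring

theorem rb_inj {x : Bo σ} (h : rb σ x = 1) : x = 1 := by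
  have h := congrArg gv h
  have h0 := congrFun (congrFun h 0) 0
  have h1 := congrFun (congrFun h 0) 1
  have h2 := congrFun (congrFun h 0) 2
  simp [rbv, bm, gone] at h0 h1 h2
  exact Bo.ext h1 h2 h0

theorem rb_ne (x y : Bo σ) : rb σ x * WW σ * rb σ y ≠ 1 := fun h => by
  have h := congrArg gv h
  have h0 := congrFun (congrFun h 2) 0
  simp [gmul, gone, WWv, rbv, bm, mul_apply, Fin.sum_univ_three] at h0

theorem rb_gen : (rb σ).range ⊔ closure {WW σ} = ⊤ := by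
  have ent : ∀ (g : GJ σ (JJ F)) i j, σ (gv g 0 i) * gv g 2 j + σ (gv g 1 i) * gv g 1 j +
      σ (gv g 2 i) * gv g 0 j = !![0, 0, 1; 0, 1, 0; 1, 0, 0] i j := fun g i j => by
    have := congrFun (congrFun (gform g) i) j
    generalize gv g = A at *
    refine Eq.trans ?_ this
    simp [cT, JJ, mul_apply, Fin.sum_univ_three]; ring
  have k : ∀ g : GJ σ (JJ F), gv g 2 0 = 0 → g ∈ (rb σ).range := fun g h2 => by
    have e0 := ent g 0 0
    have e1 := ent g 0 1
    have e2 := ent g 0 2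
    have e3 := ent g 1 2
    have e4 := ent g 2 2
    have e5 := gdet g
    simp [h2] at e0
    simp [h2, e0] at e1 e2
    have g0 : gv g 0 0 ≠ 0 := fun h => by simp [h] at e2
    have s0 : σ (gv g 0 0) ≠ 0 := by simpa using g0
    have e1 := e1.resolve_left g0
    simp [e1] at e3 e4
    simp [det_fin_three, h2, e0, e1] at e5
    have f2 : gv g 2 2 = 1 / σ (gv g 0 0) := by field_simp; linear_combination e2
    have f1 : gv g 1 1 = σ (gv g 0 0) / gv g 0 0 := by rw [f2] at e5; field_simp at e5 ⊢; linear_combination e5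
    rw [f2, f1] at e3
    rw [f2] at e4
    simp only [map_div₀, map_one, ss] at e3 e4
    have f3 : gv g 1 2 = -σ (gv g 0 1) / gv g 0 0 := by field_simp at e3 ⊢; linear_combination e3
    refine ⟨⟨gv g 0 1 * gv g 0 0 / σ (gv g 0 0), gv g 0 2 * σ (gv g 0 0), Units.mk0 _ g0, ?_⟩,
      gext ?_⟩
    · rw [f3] at e4
      simp only [map_div₀, map_mul, map_neg, ss] at e4 ⊢
      field_simp at e4 ⊢; linear_combination e4
    · rw [rbv]; ext i j; fin_cases i <;> fin_cases j <;> simp [bm, h2, e0, e1, f1, f2, f3, g0] <;> field_simp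
  refine eq_top_iff.2 fun g _ => ?_
  by_cases h : gv g 2 0 = 0
  · exact mem_sup_left (k g h)
  have h' : σ (gv g 2 0) ≠ 0 := by simpa using h
  have e0 := ent g 0 0
  let x : Bo σ := ⟨-σ (gv g 1 0 / gv g 2 0), gv g 0 0 / gv g 2 0, 1, by
    simp at e0 ⊢; field_simp; linear_combination e0⟩
  have := k (WW σ * rb σ x⁻¹ * g) (by
    rw [gmul, gmul, WWv, rbv]
    simp [bm, mul_apply, Fin.sum_univ_three, x] at e0 ⊢
    field_simp; linear_combination e0)
  have h1 : WW σ ∈ (rb σ).range ⊔ closure {WW σ} := mem_sup_right (subset_closure rfl)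
  simpa [mul_assoc, ww1 WW_sq] using mul_mem (mul_mem (mem_sup_left (MonoidHom.mem_range.2 ⟨x, rfl⟩)) h1) (mem_sup_left this)

theorem lift_inv {ι H : Type*} [Group H] (g : ι → H) (w : FreeGroup ι) :
    FreeGroup.lift g w⁻¹ = (FreeGroup.lift g w)⁻¹ := map_inv _ _

theorem Cz.gj_pres [Fintype F] {q : ℕ} (c : Cz q σ) : ∃ g : Fin 3 ⊕ Unit → GJ σ (JJ F), Pres g 18 := by
  obtain ⟨τ, hτ⟩ := c.bo_pres
  obtain ⟨ζ, hζ⟩ := IsCyclic.exists_generator (α := Fˣ)
  obtain ⟨ε, ε0, hε⟩ := c.exists_eps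
  obtain ⟨x1, h1⟩ : ∃ x : Bo σ, x.b = ε * ζ := by
    by_cases h : ε * ζ + σ (ε * ζ) = 0
    · exact ⟨⟨0, ε * ζ, 1, by rw [h]; simp⟩, rfl⟩
    obtain ⟨a, ha⟩ := c.exists_nm (s := -(ε * ζ + σ (ε * ζ))) (by simp [add_comm]) (neg_ne_zero.2 h)
    exact ⟨⟨a, ε * ζ, 1, by rw [← nn_def, ha]; ring⟩, rfl⟩
  obtain ⟨b1, c1, e1⟩ := WW_gd (zc hε 1) (by simpa [zc] using ε0)
  obtain ⟨b2, c2, e2⟩ := WW_gd x1 (by simp [h1, ε0])
  let w : FreeGroup (Bo σ ⊕ Unit) := .of (.inr ())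
  let B : Bo σ → FreeGroup (Bo σ ⊕ Unit) := fun x => .of (.inl x)
  refine ⟨_, hτ.ext (rb σ) (fun _ => WW σ) [w * w, w * B (dd σ ζ) * w * (B (dd σ (su σ ζ)⁻¹))⁻¹,
    w * B (zc hε 1) * w * (B b1 * w * B c1)⁻¹, w * B x1 * w * (B b2 * w * B c2)⁻¹] ?_
    (by rw [Set.range_const]; exact rb_gen) ?_⟩
  · simp only [List.mem_cons, List.not_mem_nil, or_false, forall_eq_or_imp, forall_eq, map_mul, w, B,
      lift_inv, mul_inv_eq_one, FreeGroup.lift_apply_of, Sum.elim_inl, Sum.elim_inr]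
    exact ⟨WW_sq, WW_dd ζ, e1, e2⟩
  · intro H _ φ t π p1 p2 hg hR
    simp only [List.mem_cons, List.not_mem_nil, or_false, forall_eq_or_imp, forall_eq, map_mul, w, B,
      lift_inv, mul_inv_eq_one, FreeGroup.lift_apply_of, Sum.elim_inl, Sum.elim_inr] at hR
    obtain ⟨r1, r2, r3, r4⟩ := hR
    have hd : ∀ l, t () * φ (dd σ l) * t () = φ (dd σ (su σ l)⁻¹) := fun l => by
      obtain ⟨i, rfl⟩ := hζ l
      simp only [map_zpow, ← _root_.inv_zpow, ← r2]
      nth_rw 2 4 [← inv_eq_of_mul_eq_one_right r1]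
      exact conj_zpow.symm
    have hG := c.all_gd r1 hd hζ ε0 hε (fun x b d xl dl e => WW_uniq xl dl (by
      simpa [p1, p2] using congrArg π e)) (z := zc hε 1) rfl (by simp [zc]) ⟨_, _, r3⟩ h1 ⟨_, _, r4⟩
    refine (injective_iff_map_eq_one π).2 fun g hg' => ?_
    rw [show Set.range t = {t ()} from Set.range_unique] at hg
    obtain ⟨b, rfl | ⟨d, rfl⟩⟩ := bruhat_all r1 hd hG (hg.ge (mem_top g))
    · rw [rb_inj ((p1 b).symm.trans hg'), map_one]
    · exact absurd (by simpa [p1, p2] using hg') (rb_ne b d)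

theorem Cz.su3_pres [Fintype F] {q : ℕ} (c : Cz q σ) : ∃ g : Fin 3 ⊕ Unit → SU 3 F q, Pres g 18 := by
  have h : JJ F * JJ F = 1 := by
    ext i j; fin_cases i <;> fin_cases j <;> simp [JJ, mul_apply, Fin.sum_univ_three]
  obtain ⟨e⟩ := su_equiv c.card c.pow ⟨JJ F, JJ F, h, h⟩ (by
    ext i j; fin_cases i <;> fin_cases j <;> simp [JJ, cT])
  obtain ⟨g, hg⟩ := c.gj_pres
  exact ⟨_, hg.equiv e⟩

end Cfsg.Agent.H28.US
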