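import Cfsg.Agent.H28.US4
import Cfsg.Agent.H17.MatU
import Cfsg.Agent.H12.Transport

/-! Bounded presentations of unitary groups: passing to quotients and to arbitrary fields. -/

set_option autoImplicit false

namespace Cfsg.Agent.H28.US

open Subgroup L0

theorem pres_psu {F : Type} [Field F] [Fintype F] {q n : ℕ} (hF : Fintype.card F = q ^ 2) (hn : 2 ≤ n)
    {ι : Type} {g : ι → SU n F q} {r : ℕ} (h : Pres g r) : ∃ g : ι → PSU n F q, Pres g (r + 1) := by
  have sc := H17.center_SU_scalar hF hn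
  let i : Fin n := ⟨0, by omega⟩
  have : IsCyclic (center (SU n F q)) := isCyclic_of_injective_ringHom
    (⟨⟨fun a : center (SU n F q) => H17.τU n F q a.1 i i, by simp⟩, fun a b => by
      obtain ⟨d, hd⟩ := sc a.1 a.2
      simp [hd]⟩ : center (SU n F q) →* F) (fun a b e => by
      obtain ⟨d, hd⟩ := sc a.1 a.2
      obtain ⟨d', hd'⟩ := sc b.1 b.2
      have e' : d = d' := by simpa [hd, hd'] using e
      exact Subtype.ext (Subtype.ext (Subtype.ext (hd.trans (e' ▸ hd'.symm)))))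
  obtain ⟨z, hz⟩ := IsCyclic.exists_generator (α := center (SU n F q))
  refine ⟨_, h.quot (QuotientGroup.mk' (center _)) (QuotientGroup.mk'_surjective _) [z.1] ?_⟩
  rw [QuotientGroup.ker_mk']
  refine le_antisymm (fun x hx => ?_) (normalClosure_le_normal (by simp))
  obtain ⟨k, e⟩ := hz ⟨x, hx⟩
  rw [show x = z.1 ^ k from (congrArg Subtype.val e).symm]
  exact zpow_mem (subset_normalClosure (by simp)) _

/-- presentations of `SU` and `PSU` with `d` generators -/
def PP (n : ℕ) (F : Type*) [Field F] (q d r : ℕ) : Prop :=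
  (∃ g : Fin d → SU n F q, Pres g r) ∧ ∃ g : Fin d → PSU n F q, Pres g (r + 1)

theorem PP.of_small {F : Type*} [Field F] [Fintype F] {q n d r : ℕ} (hF : Fintype.card F = q ^ 2) (hn : 2 ≤ n)
    (h : ∀ (K : Type) [Field K] [Fintype K] (σ : K ≃+* K) [Fact (∀ a, σ (σ a) = a)], Fintype.card K = q ^ 2 →
      (∀ a, σ a = a ^ q) → ∃ g : Fin d → SU n K q, Pres g r) : PP n F q d r := by
  obtain ⟨K, _, _, ⟨e⟩⟩ := H12.exists_small_field F
  have hK : Fintype.card K = q ^ 2 := (Fintype.card_congr e.toEquiv).symm.trans hF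
  obtain ⟨σ, h1, h2⟩ := exists_frob_two hK
  have := Fact.mk (apply_apply_of_orderOf_two h2)
  obtain ⟨g, hg⟩ := h K σ hK h1
  obtain ⟨g', hg'⟩ := pres_psu hK hn hg
  exact ⟨⟨_, hg.equiv (H12.suCongr n q e.symm)⟩, _, hg'.equiv (H12.psuCongr n q e.symm)⟩

theorem pres_two {F : Type*} [Field F] [Fintype F] {q n : ℕ} (hF : Fintype.card F = q ^ 2) (hn : 3 ≤ n)
    (h32 : n = 3 → q ≠ 2) {ι : Type} {g : ι → SU n F q} {r : ℕ} (h : Pres g r) :
    ∃ g : Fin 2 → SU n F q, Pres g (r + 2) := by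
  obtain ⟨a, b, hab⟩ := (H6.Two.su_two hF n hn h32).equiv (H12.suEquiv hF n).symm
  exact ⟨![a, b], h.change_all _ (by simpa [Set.pair_comm] using hab)⟩

theorem pp_three {F : Type*} [Field F] [Fintype F] {q : ℕ} (hF : Fintype.card F = q ^ 2) (h2 : q ≠ 2) :
    PP 3 F q 2 20 := PP.of_small hF (by omega) fun K _ _ σ _ h1 h3 => by
  obtain ⟨g, hg⟩ := Cz.su3_pres ⟨h1, h3, by have := two_le_of_card_sq h1; omega⟩
  exact pres_two h1 le_rfl (fun _ => h2) hg

end Cfsg.Agent.H28.US
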