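import Cfsg.Agent.H28.US5
import Cfsg.Agent.H28.PhanB10
import Cfsg.Agent.L0.PresSL3
import Cfsg.Agent.L0.PresA5

/-! Block embeddings of unitary groups moved around by the alternating group. -/

set_option autoImplicit false
set_option linter.unusedSectionVars false

namespace Cfsg.Agent.H28.US

open Subgroup L0 Matrix Ph Function Equiv
open scoped MatrixGroups Classical

theorem e2k1 {T κ : Type} {H : Type*} [Group H] (a : T → H) (t : κ → H) (x : FreeGroup κ) :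
    FreeGroup.lift (Sum.elim a t) (FreeGroup.map Sum.inr x) = FreeGroup.lift t x := by
  rw [FreeGroup.map_eq_lift, lift_lift]; simp

theorem e2k2 {T S κ : Type} [Group T] [Group S] {σ : κ → S} {v : S → FreeGroup κ}
    (hv : ∀ x, FreeGroup.lift σ (v x) = x) {H : Type*} [Group H] (φ1 : T →* H) (φ2 : S →* H)
    (x : FreeGroup (T ⊕ S)) :
    FreeGroup.lift (Sum.elim φ1 fun j => φ2 (σ j)) (FreeGroup.lift (Sum.elim (fun x => FreeGroup.of (Sum.inl x))
      fun x => FreeGroup.map Sum.inr (v x) : T ⊕ S → FreeGroup (T ⊕ κ)) x) =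
      FreeGroup.lift (Sum.elim φ1 φ2) x := by
  rw [lift_lift]; congr 2
  funext y; rcases y with y | y
  · simp
  · simp only [Sum.elim_inr, e2k1]; rw [← map_lift, hv]

theorem e2k3 {S κ : Type} [Group S] {σ : κ → S} (h : closure (Set.range σ) = ⊤) {H : Type*} [Group H]
    (φ2 : S →* H) : closure (Set.range fun j => φ2 (σ j)) = φ2.range := by
  rw [MonoidHom.range_eq_map, ← h, MonoidHom.map_closure, ← Set.range_comp]; rfl

theorem Pres.ext2 {ι κ : Type} {G : Type*} [Group G] {T S : Type} [Group T] [Group S] {τ : ι → T} {σ : κ → S}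
    {r r' : ℕ} (h1 : Pres τ r) (h2 : Pres σ r') (ρ1 : T →* G) (ρ2 : S →* G) (R : List (FreeGroup (T ⊕ S)))
    (hR : ∀ w ∈ R, FreeGroup.lift (Sum.elim ρ1 ρ2) w = 1) (hg : ρ1.range ⊔ ρ2.range = ⊤)
    (hinj : ∀ (H : Type) [Group H] (φ1 : T →* H) (φ2 : S →* H) (π : H →* G), (∀ x, π (φ1 x) = ρ1 x) →
      (∀ x, π (φ2 x) = ρ2 x) → φ1.range ⊔ φ2.range = ⊤ →
      (∀ w ∈ R, FreeGroup.lift (Sum.elim φ1 φ2) w = 1) → Injective π) :
    ∃ g : ι ⊕ κ → G, Pres g (r + r' + R.length) := by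
  obtain ⟨R0, b, c, d⟩ := h2.univ
  choose v hv using lift_surj h2.1
  refine ⟨_, (h1.ext ρ1 (fun j => ρ2 (σ j)) (R0.map (FreeGroup.map Sum.inr) ++ R.map (FreeGroup.lift
    (Sum.elim (fun x => FreeGroup.of (Sum.inl x)) fun x => FreeGroup.map Sum.inr (v x) :
      T ⊕ S → FreeGroup (T ⊕ κ)))) ?_ (by rw [e2k3 h2.1, hg]) ?_).mono (by simp; omega)⟩
  · simp only [List.forall_mem_append, List.forall_mem_map, e2k1, e2k2 hv]
    exact ⟨fun y hy => by rw [← map_lift, c y hy, map_one], hR⟩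
  · intro H _ φ t π p1 p2 hc hR'
    simp only [List.forall_mem_append, List.forall_mem_map, e2k1] at hR'
    obtain ⟨φ2, hφ⟩ := d H t hR'.1
    obtain rfl : t = fun j => φ2 (σ j) := funext fun j => (hφ j).symm
    refine hinj H φ φ2 π p1 (fun x => ?_) (e2k3 h2.1 φ2 ▸ hc) fun w hw =>
      (e2k2 hv φ φ2 w).symm.trans (hR'.2 w hw)
    exact DFunLike.congr_fun (MonoidHom.eq_of_eqOn_dense h2.1 (f := π.comp φ2) (g := ρ2) (by
      rintro _ ⟨i, rfl⟩; exact p2 i)) x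

/-- the alternating group -/
abbrev Al (n : ℕ) : Type := alternatingGroup (Fin n)

variable {k l m n : ℕ}

/-- inclusion of alternating groups -/
noncomputable def incA {j : Fin m → Fin n} (hj : Injective j) : Al m →* Al n :=
  ((Perm.extendDomainHom (Equiv.ofInjective j hj)).comp (alternatingGroup _).subtype).codRestrict _ fun ρ => by
    rw [Perm.mem_alternatingGroup]
    exact (Perm.sign_extendDomain _ _).trans ρ.2

theorem incA_app {j : Fin m → Fin n} (hj : Injective j) (ρ : Al m) (a : Fin m) :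
    (incA hj ρ).1 (j a) = j (ρ.1 a) := Perm.extendDomain_apply_image ρ.1 (Equiv.ofInjective j hj) a

theorem incA_fix {j : Fin m → Fin n} (hj : Injective j) (ρ : Al m) {x : Fin n} (h : x ∉ Set.range j) :
    (incA hj ρ).1 x = x := Perm.extendDomain_apply_not_subtype ρ.1 (Equiv.ofInjective j hj) h

theorem incA_eq {j : Fin m → Fin n} (hj : Injective j) {ρ : Al m} {τ : Perm (Fin n)}
    (h1 : ∀ a, τ (j a) = j (ρ.1 a)) (h2 : ∀ x, x ∉ Set.range j → τ x = x) : (incA hj ρ).1 = τ := by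
  ext1 x
  by_cases h : x ∈ Set.range j
  · obtain ⟨a, rfl⟩ := h; rw [incA_app, h1]
  · rw [incA_fix _ _ h, h2 x h]

theorem incA_incA {j : Fin m → Fin n} (hj : Injective j) {w : Fin l → Fin m} (hw : Injective w) (τ : Al n)
    {J : Fin l → Fin n} (hJ : Injective J) (e : ∀ a, J a = τ.1 (j (w a))) (ρ : Al l) :
    τ * incA hj (incA hw ρ) * τ⁻¹ = incA hJ ρ := by
  refine Subtype.ext (incA_eq hJ (fun a => ?_) fun x hx => ?_).symm
  · simp [e, incA_app]
  · obtain ⟨y, rfl⟩ := τ.1.surjective x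
    by_cases h : y ∈ Set.range j
    · obtain ⟨b, rfl⟩ := h
      simp [incA_app, incA_fix hw ρ (x := b) (by rintro ⟨a, rfl⟩; exact hx ⟨a, e a⟩)]
    · simp [incA_fix hj _ h]

theorem incA_c3 {j : Fin m → Fin n} (hj : Injective j) {a b c : Fin m} (h : c3 a b c ∈ alternatingGroup (Fin m)) :
    (incA hj ⟨c3 a b c, h⟩).1 = c3 (j a) (j b) (j c) :=
  incA_eq hj (fun x => by simp [c3, hj.swap_apply]) fun x hx =>
    c3_fix (fun e => hx ⟨a, e.symm⟩) (fun e => hx ⟨b, e.symm⟩) fun e => hx ⟨c, e.symm⟩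

theorem exA' {ι : Type} [Finite ι] (x y : ι → Fin n) (hx : Injective x) (hy : Injective y) {u v : Fin n}
    (h : u ≠ v) : ∃ τ : Al n, (∀ a, τ.1 (x a) = y a) ∨ ∀ a, τ.1 (swap u v (x a)) = y a := by
  obtain ⟨σ, hσ⟩ := Perm.exists_extending_pair x y hx hy
  rcases Int.units_eq_one_or (Perm.sign σ) with e | e
  · exact ⟨⟨σ, e⟩, Or.inl hσ⟩
  · exact ⟨⟨σ * swap u v, by simp [e, h]⟩, Or.inr (by simpa using hσ)⟩

theorem exA_tr (h : k + 2 ≤ n) {j : Fin k → Fin n} (hj : Injective j) :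
    ∃ τ : Al n, ∀ a, τ.1 (sh k 0 (by omega) a) = j a := by
  obtain ⟨τ, h | h⟩ := exA' _ _ (sh_inj (show 0 + k ≤ n by omega)) hj
    (u := ⟨k, by omega⟩) (v := ⟨k + 1, by omega⟩) (by simp)
  · exact ⟨τ, h⟩
  · refine ⟨τ, fun a => (congrArg τ.1 (swap_apply_of_ne_of_ne ?_ ?_).symm).trans (h a)⟩ <;>
      simp [sh, Fin.ext_iff] <;> omega

theorem c3_a {α : Type} [DecidableEq α] {a b c d : α} (h1 : a ≠ b) (h2 : a ≠ c) (h3 : a ≠ d) (h4 : b ≠ c)
    (h5 : b ≠ d) (h6 : c ≠ d) : c3 a b d = c3 a b c * (c3 b c d)⁻¹ := by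
  ext t; simp only [c3, _root_.mul_inv_rev, swap_inv, Perm.mul_apply, swap_apply_def]; grind

theorem c3_b {α : Type} [DecidableEq α] {p q x y z : α} (h1 : p ≠ x) (h2 : p ≠ y) (h3 : p ≠ z) (h4 : q ≠ x)
    (h5 : q ≠ y) (h6 : q ≠ z) : c3 p q z = c3 x y z * c3 p q y * (c3 x y z)⁻¹ := by
  rw [c3_conj, c3_fix h1 h2 h3, c3_fix h4 h5 h6, c3_q]

theorem alt_consec (hn : 3 ≤ n) (L : Subgroup (Perm (Fin n)))
    (h : ∀ i (hi : i + 3 ≤ n), c3 (sh 3 i hi 0) (sh 3 i hi 1) (sh 3 i hi 2) ∈ L) : alternatingGroup (Fin n) ≤ L := by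
  have k : ∀ i (hi : i + 2 < n), c3 (⟨0, by omega⟩ : Fin n) ⟨1, by omega⟩ ⟨i + 2, hi⟩ ∈ L := by
    intro i
    induction i with
    | zero => exact fun hi => h 0 hi
    | succ i ih =>
      intro hi
      have a : c3 (⟨i + 1, by omega⟩ : Fin n) ⟨i + 2, by omega⟩ ⟨i + 1 + 2, hi⟩ ∈ L := h (i + 1) (by omega)
      have b := ih (by omega)
      rcases i with _ | i
      · rw [c3_a (c := ⟨0 + 2, by omega⟩) (by simp) (by simp) (by simp) (by simp) (by simp) (by simp)]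
        exact mul_mem b (inv_mem a)
      · rw [c3_b (x := ⟨i + 1 + 1, by omega⟩) (y := ⟨i + 1 + 2, by omega⟩) (Fin.ne_of_val_ne (by simp))
          (Fin.ne_of_val_ne (by simp)) (Fin.ne_of_val_ne (by simp)) (Fin.ne_of_val_ne (by simp))
          (Fin.ne_of_val_ne (by simp)) (Fin.ne_of_val_ne (by simp))]
        exact mul_mem (mul_mem a b) (inv_mem a)
  rw [← AltOn_univ]
  refine alt_le (p := ⟨0, by omega⟩) (q := ⟨1, by omega⟩) (Fin.ne_of_val_ne (by simp)) _ fun i _ h0 h1 => ?_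
  obtain ⟨i, hi⟩ := i
  obtain ⟨i, rfl⟩ : ∃ t, i = t + 2 := ⟨i - 2, by simp [Fin.ext_iff] at h0 h1; omega⟩
  exact k i hi

theorem stab_gens (h : k + 2 ≤ n) : ∃ L : List (Al n), L.length ≤ 2 ∧ L.length + (k + 2) ≤ n ∧
    (∀ τ ∈ L, ∀ a, τ.1 (sh k 0 (by omega) a) = sh k 0 (by omega) a) ∧
    ∀ τ : Al n, (∀ a, τ.1 (sh k 0 (by omega) a) = sh k 0 (by omega) a) → τ ∈ closure {τ | τ ∈ L} := by
  let p : Fin n := ⟨k, by omega⟩
  let q : Fin n := ⟨k + 1, by omega⟩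
  have hpq : p ≠ q := by simp [p, q]
  have key : ∀ L : List (Al n), (∀ i : Fin n, k + 2 ≤ i → c3 p q i ∈ (closure {τ | τ ∈ L}).map (Subgroup.subtype _)) →
      ∀ τ : Al n, (∀ a, τ.1 (sh k 0 (by omega) a) = sh k 0 (by omega) a) → τ ∈ closure {τ | τ ∈ L} :=
    fun L hL τ hτ => (mem_map_iff_mem (subtype_injective _)).1 (alt_le hpq {t | k ≤ t.1}
      (fun i hi a b => hL i (by simp [p, q, Fin.ext_iff] at hi a b; omega)) ⟨τ.2, fun t ht => by
        have := hτ ⟨t.1, by simpa using ht⟩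
        simpa [sh] using this⟩)
  by_cases h1 : n = k + 2
  · exact ⟨[], by simp, by simp [h1], by simp, key _ fun i hi => by omega⟩
  let o : Fin n := ⟨k + 2, by omega⟩
  have ho : c3 p q o ∈ alternatingGroup (Fin n) := c3_sign (by simp [p, o]) hpq
  have f3 : ∀ a, c3 p q o (sh k 0 (by omega) a) = sh k 0 (by omega) a := fun a =>
    c3_fix (by simp [sh, p, Fin.ext_iff]; omega) (by simp [sh, q, Fin.ext_iff]; omega)
      (by simp [sh, o, Fin.ext_iff]; omega)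
  by_cases h2 : n = k + 3
  · refine ⟨[⟨_, ho⟩], by simp, by simp; omega, by simpa using f3, key _ fun i hi => ?_⟩
    rw [show i = o from Fin.ext (by simp [o]; omega)]
    exact mem_map_of_mem (Subgroup.subtype _) (x := ⟨_, ho⟩) (subset_closure (by simp))
  obtain ⟨A, A1, A2⟩ := exists_gen (o := o) hpq (Finset.univ.filter fun i => k + 2 ≤ i.1) (by simp [p])
    (by simp [q]) (by simp [o])
  refine ⟨[⟨A, A1.1⟩, ⟨_, ho⟩], by simp, by simp; omega, ?_, key _ fun i hi =>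
    A2 _ (mem_map_of_mem (Subgroup.subtype _) (x := ⟨A, A1.1⟩) (subset_closure (by simp)))
      (mem_map_of_mem (Subgroup.subtype _) (x := ⟨_, ho⟩) (subset_closure (by simp))) i (by simpa using hi)⟩
  simp only [List.mem_cons, List.not_mem_nil, or_false, forall_eq_or_imp, forall_eq]
  exact ⟨fun a => A1.2 _ (by simp [sh, p, q, Fin.ext_iff]; omega), f3⟩

variable {F : Type} [Field F] [Fintype F] {q : ℕ} {θ : F ≃+* F} (hθ : ∀ a, θ a = a ^ q)

/-- block embedding -/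
def em {j : Fin m → Fin n} (hj : Injective j) : SU m F q →* SU n F q :=
  MonoidHom.mk' (fun g => ⟨⟨embM j (mt g), by rw [det_embM hj, g.1.2]⟩, (mem_SU_iff hθ).2 (by
    rw [cT_embM, ← embM_mul hj, (mem_SU_iff hθ).1 g.2, embM_one])⟩)
    fun g g' => Subtype.ext (Subtype.ext (embM_mul hj _ _))

omit hθ in
theorem Pm_Pm (j : Fin m → Fin n) (w : Fin l → Fin m) : Pm F j * Pm F w = Pm F (j ∘ w) := by
  ext i a; simp [Pm, Matrix.mul_apply]

theorem em_em {j : Fin m → Fin n} (hj : Injective j) {w : Fin l → Fin m} (hw : Injective w)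
    {J : Fin l → Fin n} (hJ : Injective J) (e : ∀ a, J a = j (w a)) (g : SU l F q) :
    em hθ hj (em hθ hw g) = em hθ hJ g := by
  refine Subtype.ext (Subtype.ext ?_)
  change embM j (embM w (mt g)) = embM J (mt g)
  rw [embM, embM, embM, add_sub_cancel_left, show J = j ∘ w from funext e, ← Pm_Pm, transpose_mul]
  simp only [Matrix.mul_assoc]

theorem em_id (g : SU n F q) : em hθ injective_id g = g := by
  refine Subtype.ext (Subtype.ext ?_)
  change embM id (mt g) = mt g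
  rw [embM, show Pm F (id : Fin n → Fin n) = 1 by ext i a; simp [Pm, one_apply]]; simp

/-- permutation matrices -/
def PA : Al n →* SU n F q := MonoidHom.mk'
  (fun τ => ⟨⟨Pm F τ.1, by
      rw [show Pm F τ.1 = (τ.1⁻¹).permMatrix F by
        ext i a
        simp only [Pm, PEquiv.toMatrix_apply, Equiv.toPEquiv_apply, Option.mem_def, Option.some.injEq, of_apply]
        exact if_congr (by rw [Perm.inv_eq_iff_eq]) rfl rfl, det_permutation,
        Perm.sign_inv, show Perm.sign τ.1 = 1 from τ.2]; simp⟩, (mem_SU_iff hθ).2 (by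
      change cT θ (Pm F τ.1) * Pm F τ.1 = 1
      rw [show cT θ (Pm F τ.1) = (Pm F τ.1)ᵀ by ext i a; simp [cT, Pm, apply_ite θ], Pm_mul τ.1.injective])⟩)
  fun a b => Subtype.ext (Subtype.ext (Pm_Pm a.1 b.1).symm)

theorem PA_ee (τ : Al n) (a : Fin n) : PA hθ τ • ee F a = ee F (τ.1 a) := Pm_ee a

theorem PA_em (τ : Al n) {j : Fin m → Fin n} (hj : Injective j) {J : Fin m → Fin n} (hJ : Injective J)
    (e : ∀ a, τ.1 (j a) = J a) (s : SU m F q) : PA hθ τ * em hθ hj s * (PA hθ τ)⁻¹ = em hθ hJ s := by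
  rw [mul_inv_eq_iff_eq_mul]
  refine Subtype.ext (Subtype.ext ?_)
  change Pm F τ.1 * embM j (mt s) = embM J (mt s) * Pm F τ.1
  rw [embM, embM, show J = τ.1 ∘ j from funext fun a => (e a).symm, ← Pm_Pm, transpose_mul, Matrix.mul_add,
    Matrix.add_mul]
  simp only [Matrix.mul_assoc, Pm_mul τ.1.injective, Matrix.mul_one, Matrix.one_mul]

theorem em_PA {j : Fin m → Fin n} (hj : Injective j) (ρ : Al m) : em hθ hj (PA hθ ρ) = PA hθ (incA hj ρ) := by
  refine su_ext fun x => ?_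
  by_cases h : x ∈ Set.range j
  · obtain ⟨a, rfl⟩ := h
    rw [PA_ee, incA_app, ← Pm_ee, ← Pm_ee]
    exact (embM_Pm hj _ _).trans (congrArg _ (Pm_ee a))
  · rw [PA_ee, incA_fix _ _ h]
    exact embM_ee _ (by simpa using h)

theorem em_comm {j : Fin m → Fin n} (hj : Injective j) {j' : Fin l → Fin n} (hj' : Injective j')
    (h : ∀ a b, j a ≠ j' b) (s : SU m F q) (s' : SU l F q) : Commute (em hθ hj s) (em hθ hj' s') := by
  have h0 : (Pm F j)ᵀ * Pm F j' = 0 := by ext a b; simp [Pm, Matrix.mul_apply, h, (h _ _).symm]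
  have h1 : (Pm F j')ᵀ * Pm F j = 0 := by ext a b; simp [Pm, Matrix.mul_apply, h, (h _ _).symm]
  refine Subtype.ext (Subtype.ext ?_)
  change embM j (mt s) * embM j' (mt s') = embM j' (mt s') * embM j (mt s)
  simp only [embM, Matrix.mul_add, Matrix.add_mul, Matrix.mul_one, Matrix.one_mul, Matrix.mul_assoc]
  rw [← Matrix.mul_assoc (Pm F j)ᵀ, ← Matrix.mul_assoc (Pm F j')ᵀ, h0, h1]
  simp [add_assoc, add_comm, add_left_comm]

variable {H : Type*} [Group H]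

theorem exists_Th (ψ : Al n →* H) (φ : SU m F q →* H) {c : Fin m → Fin n} (hc : Injective c) {i1 : Fin k → Fin m}
    (h1 : Injective i1) {u v : Fin k} (huv : u ≠ v)
    (tr : ∀ j : Fin k → Fin n, Injective j → ∃ τ : Al n, ∀ a, τ.1 (c (i1 a)) = j a)
    (hfix : ∀ τ : Al n, (∀ a, τ.1 (c (i1 a)) = c (i1 a)) → ∀ s, Commute (ψ τ) (φ (em hθ h1 s)))
    (hI : ∀ ρ, φ (PA hθ ρ) = ψ (incA hc ρ)) {τ0 : Al n} (h0 : ∀ a, τ0.1 (c (i1 a)) = c (i1 (swap u v a)))
    (hS : ∀ s, φ (em hθ (h1.comp (swap u v).injective) s) = ψ τ0 * φ (em hθ h1 s) * (ψ τ0)⁻¹) :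
    ∃ Θ : (Fin k → Fin n) → SU k F q →* H,
      (∀ (τ : Al n) (j : Fin k → Fin n), (∀ a, τ.1 (c (i1 a)) = j a) → ∀ s, Θ j s = ψ τ * φ (em hθ h1 s) * (ψ τ)⁻¹) ∧
      (∀ j (hj : Injective j) s, φ (em hθ hj s) = Θ (c ∘ j) s) ∧
      (∀ J (hJ : Injective J), ∃ R : SU m F q →* H, (∀ j (hj : Injective j) s, R (em hθ hj s) = Θ (J ∘ j) s) ∧
        ∀ ρ, R (PA hθ ρ) = ψ (incA hJ ρ)) ∧
      ∀ (l : ℕ) (e : Fin l → Fin k) (he : Injective e) (j0 : Fin k → Fin n), Injective j0 → (∀ a b, c (i1 a) ≠ j0 (e b)) →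
        (∀ s s', Commute (Θ (c ∘ i1) s) (Θ j0 (em hθ he s'))) →
        (∀ j j', Injective j → Injective j' → j ∘ e = j' ∘ e → ∀ s, Θ j (em hθ he s) = Θ j' (em hθ he s)) →
        ∀ j j', Injective j → Injective j' → (∀ a b, j a ≠ j' (e b)) →
          ∀ s s', Commute (Θ j s) (Θ j' (em hθ he s')) := by
  let Θ : (Fin k → Fin n) → SU k F q →* H := fun j =>
    if h : ∃ τ : Al n, ∀ a, τ.1 (c (i1 a)) = j a then
      (MulAut.conj (ψ h.choose)).toMonoidHom.comp (φ.comp (em hθ h1)) else 1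
  have T1 : ∀ (τ : Al n) (j : Fin k → Fin n), (∀ a, τ.1 (c (i1 a)) = j a) → ∀ s,
      Θ j s = ψ τ * φ (em hθ h1 s) * (ψ τ)⁻¹ := fun τ j hj s => by
    have h : ∃ τ : Al n, ∀ a, τ.1 (c (i1 a)) = j a := ⟨τ, hj⟩
    have := (hfix (τ⁻¹ * h.choose) (fun a => by
      simp [h.choose_spec a, ← hj a]) s).eq
    simp only [Θ, dif_pos h]
    change ψ h.choose * φ (em hθ h1 s) * (ψ h.choose)⁻¹ = _
    rw [map_mul, map_inv, mul_assoc, inv_mul_eq_iff_eq_mul] at this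
    rw [this]; group
  have T2 : ∀ (τ : Al n) (j j' : Fin k → Fin n), Injective j → (∀ a, τ.1 (j a) = j' a) → ∀ s,
      Θ j' s = ψ τ * Θ j s * (ψ τ)⁻¹ := fun τ j j' hj e s => by
    obtain ⟨σ, hσ⟩ := tr j hj
    rw [T1 σ j hσ, T1 (τ * σ) j' fun a => by simp [hσ, e], map_mul]; group
  have T3 : ∀ j (hj : Injective j) s, φ (em hθ hj s) = Θ (c ∘ j) s := fun j hj s => by
    obtain ⟨ρ, h | h⟩ := exA' _ _ h1 hj (h1.ne huv)
    · rw [← PA_em hθ ρ h1 hj h, map_mul, map_mul, map_inv, hI,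
        T1 (incA hc ρ) _ fun a => by simp [incA_app, h]]
    · rw [← PA_em hθ ρ (h1.comp (swap u v).injective) hj (fun a => by simpa [h1.swap_apply] using h a),
        map_mul, map_mul, map_inv, hI, hS, T1 (incA hc ρ * τ0) _ fun a => by
          simp [h0, incA_app, ← h a, h1.swap_apply], map_mul]
      group
  have T4 : ∀ J (hJ : Injective J), ∃ R : SU m F q →* H,
      (∀ j (hj : Injective j) s, R (em hθ hj s) = Θ (J ∘ j) s) ∧ ∀ ρ, R (PA hθ ρ) = ψ (incA hJ ρ) := fun J hJ => by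
    obtain ⟨τ, w, hw, e⟩ : ∃ (τ : Al n) (w : Fin m → Fin m), Injective w ∧ ∀ a, J a = τ.1 (c (w a)) := by
      obtain ⟨τ, h | h⟩ := exA' _ _ hc hJ (hc.ne (h1.ne huv))
      · exact ⟨τ, id, injective_id, fun a => (h a).symm⟩
      · exact ⟨τ, _, (swap (i1 u) (i1 v)).injective, fun a => by rw [← h a, hc.swap_apply]⟩
    refine ⟨(MulAut.conj (ψ τ)).toMonoidHom.comp (φ.comp (em hθ hw)), fun j hj s => ?_, fun ρ => ?_⟩
    · change ψ τ * φ (em hθ hw (em hθ hj s)) * (ψ τ)⁻¹ = _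
      rw [em_em hθ hw hj (hw.comp hj) (fun _ => rfl), T3,
        T2 τ (c ∘ w ∘ j) (J ∘ j) (hc.comp (hw.comp hj)) fun a => (e _).symm]
    · change ψ τ * φ (em hθ hw (PA hθ ρ)) * (ψ τ)⁻¹ = _
      rw [em_PA, hI, ← incA_incA hc hw τ hJ e, map_mul, map_mul, map_inv]
  refine ⟨Θ, T1, T3, T4, fun l e he j0 hj0 d0 hb hQ j j' hj hj' d s s' => ?_⟩
  have inj : ∀ {x : Fin k → Fin n} {y : Fin l → Fin n}, Injective x → Injective y → (∀ a b, x a ≠ y b) →
      Injective (Sum.elim x y) := fun hx hy h => hx.sumElim hy h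
  obtain ⟨τ, w, hw, e1, e2⟩ : ∃ (τ : Al n) (w : Fin k → Fin k), Injective w ∧ (∀ a, j a = τ.1 (c (i1 (w a)))) ∧
      ∀ b, τ.1 (j0 (e b)) = j' (e b) := by
    obtain ⟨τ, h | h⟩ := exA' _ _ (inj (hc.comp h1) (hj0.comp he) d0) (inj hj (hj'.comp he) d)
      (hc.ne (h1.ne huv))
    · exact ⟨τ, id, injective_id, fun a => (h (.inl a)).symm, fun b => h (.inr b)⟩
    · refine ⟨τ, _, (swap u v).injective, fun a => ?_, fun b => ?_⟩
      · simpa [hc.swap_apply, h1.swap_apply] using (h (.inl a)).symm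
      · simpa [swap_apply_of_ne_of_ne (d0 u b).symm (d0 v b).symm] using h (.inr b)
  rw [T2 τ (c ∘ i1 ∘ w) j (hc.comp (h1.comp hw)) (fun a => (e1 a).symm), ← T3 _ (h1.comp hw),
    ← em_em hθ h1 hw (h1.comp hw) (fun _ => rfl), T3,
    hQ j' (τ.1 ∘ j0) hj' (τ.1.injective.comp hj0) (funext fun b => (e2 b).symm), T2 τ j0 (τ.1 ∘ j0) hj0 fun _ => rfl]
  exact commute_conj (hb _ _) _

end Cfsg.Agent.H28.US
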