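import Cfsg.Agent.H28.US6
import Cfsg.Agent.S2402

/-! Presentations of `SU n` from those of `A n` and of a small unitary group. -/

set_option autoImplicit false
set_option linter.unusedSectionVars false

namespace Cfsg.Agent.H28.US

open Subgroup L0 Matrix Ph Function Equiv
open scoped MatrixGroups Classical commutatorElement

variable {k l m n : ℕ}

theorem sh_sh {i i' : ℕ} (h : i + m ≤ n) (h' : i' + k ≤ m) (h'' : i + i' + k ≤ n) :
    sh m i h ∘ sh k i' h' = sh k (i + i') h'' := funext fun a => Fin.ext (by simp [sh]; omega)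

theorem hom_ext {A H : Type*} [Group A] [Group H] {Y : List A} (hY : closure {y | y ∈ Y} = ⊤) {f g : A →* H}
    (h : ∀ y ∈ Y, f y = g y) (s : A) : f s = g s :=
  DFunLike.congr_fun (MonoidHom.eq_of_eqOn_dense hY h) s

theorem comm_cl {A H : Type*} [Group A] [Group H] {Y : Set A} (f : A →* H) {x : H}
    (h : ∀ y ∈ Y, Commute (f y) x) {s : A} (hs : s ∈ closure Y) : Commute (f s) x := by
  induction hs using closure_induction with
  | mem y hy => exact h y hy
  | one => simp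
  | mul a b _ _ ha hb => rw [map_mul]; exact ha.mul_left hb
  | inv a _ ha => rw [map_inv]; exact ha.inv_left

theorem comm_top {A H : Type*} [Group A] [Group H] {Y : List A} (hY : closure {y | y ∈ Y} = ⊤) (f : A →* H)
    {x : H} (h : ∀ y ∈ Y, Commute (f y) x) (s : A) : Commute (f s) x := comm_cl f h (hY ▸ mem_top s)

variable {F : Type} [Field F] [Fintype F] {q : ℕ} {θ : F ≃+* F} (hθ : ∀ a, θ a = a ^ q)

/-- generation by consecutive blocks -/
def Gen (k n : ℕ) : Prop :=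
  ∀ K : Subgroup (SU n F q), (∀ i (hi : i + k ≤ n) s, em hθ (sh_inj hi) s ∈ K) → K = ⊤

theorem core {ι κ : Type} {τ : ι → Al n} {σ : κ → SU m F q} {r r' : ℕ} (h1 : Pres τ r) (h2 : Pres σ r')
    (hkm : k ≤ m) (hmn : m ≤ n) (hk : k + 2 ≤ n) (h3 : 3 ≤ m) {u v : Fin k} (huv : u ≠ v)
    (LA : List (Al m)) (hLA : closure {y | y ∈ LA} = ⊤) (Y : List (SU k F q)) (hY : closure {y | y ∈ Y} = ⊤)
    (C : List ((Fin k → Fin n) × SU k F q))
    (hC : ∀ p ∈ C, ∃ hj : Injective p.1, ∀ s, Commute (em hθ (sh_inj (show 0 + k ≤ n by omega)) s) (em hθ hj p.2))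
    (g1 : Gen hθ k m) (g2 : Gen hθ k n)
    (hU : ∀ (H : Type) [Group H] (Θ : (Fin k → Fin n) → SU k F q →* H),
      (∀ J : Fin m → Fin n, Injective J → ∃ R : SU m F q →* H, ∀ j (hj : Injective j) s,
        R (em hθ hj s) = Θ (J ∘ j) s) →
      (∀ (l : ℕ) (e : Fin l → Fin k) (he : Injective e) (j0 : Fin k → Fin n), Injective j0 →
        (∀ a b, sh k 0 (by omega) a ≠ j0 (e b)) →
        (∀ s s', Commute (Θ (sh k 0 (by omega)) s) (Θ j0 (em hθ he s'))) →
        (∀ j j', Injective j → Injective j' → j ∘ e = j' ∘ e → ∀ s, Θ j (em hθ he s) = Θ j' (em hθ he s)) →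
        ∀ j j', Injective j → Injective j' → (∀ a b, j a ≠ j' (e b)) →
          ∀ s s', Commute (Θ j s) (Θ j' (em hθ he s'))) →
      (∀ p ∈ C, ∀ s, Commute (Θ (sh k 0 (by omega)) s) (Θ p.1 p.2)) →
      ∃ f : SU n F q →* H, ∀ i (hi : i + k ≤ n), (Θ (sh k i hi)).range ≤ f.range) :
    ∃ t, t ≤ 2 ∧ t + (k + 2) ≤ n ∧ ∃ g : ι ⊕ κ → SU n F q,
      Pres g (r + r' + (LA.length + t * Y.length + Y.length + C.length * Y.length)) := by
  have hc := sh_inj (show 0 + m ≤ n by omega)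
  have hi := sh_inj (show 0 + k ≤ m by omega)
  have h0 := sh_inj (show 0 + k ≤ n by omega)
  have ci : ∀ a, sh m 0 (by omega) (sh k 0 (by omega) a) = (sh k 0 (by omega) a : Fin n) :=
    fun a => Fin.ext (by simp [sh])
  have ce : ∀ s, em hθ hc (em hθ hi s) = em hθ h0 s := em_em hθ hc hi h0 fun a => (ci a).symm
  obtain ⟨L, L1, L2, L3, L4⟩ := stab_gens hk
  have tr : ∀ j : Fin k → Fin n, ∃ τ : Al n, Injective j → ∀ a, τ.1 (sh k 0 (by omega) a) = j a := fun j => by
    by_cases hj : Injective j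
    · exact (exA_tr hk hj).imp fun _ h _ => h
    · exact ⟨1, fun h => (hj h).elim⟩
  choose T hT using tr
  have hs := hi.comp (swap u v).injective
  have hs' := h0.comp (swap u v).injective
  let a : Al n → FreeGroup (Al n ⊕ SU m F q) := fun x => .of (.inl x)
  let b : SU m F q → FreeGroup (Al n ⊕ SU m F q) := fun x => .of (.inr x)
  let R := LA.map (fun ρ => b (PA hθ ρ) * (a (incA hc ρ))⁻¹) ++
    (L ×ˢ Y).map (fun p => ⁅a p.1, b (em hθ hi p.2)⁆) ++
    Y.map (fun y => b (em hθ hs y) * (a (T (sh k 0 (by omega) ∘ swap u v)) * b (em hθ hi y) *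
      (a (T (sh k 0 (by omega) ∘ swap u v)))⁻¹)⁻¹) ++
    (C ×ˢ Y).map fun p => ⁅b (em hθ hi p.2), a (T p.1.1) * b (em hθ hi p.1.2) * (a (T p.1.1))⁻¹⁆
  have hR : ∀ (H : Type) [Group H] (ψ : Al n →* H) (φ : SU m F q →* H),
      (∀ w ∈ R, FreeGroup.lift (Sum.elim ψ φ) w = 1) ↔
      (((∀ ρ ∈ LA, φ (PA hθ ρ) = ψ (incA hc ρ)) ∧ ∀ x ∈ L, ∀ y ∈ Y, Commute (ψ x) (φ (em hθ hi y))) ∧
        ∀ y ∈ Y, φ (em hθ hs y) = ψ (T (sh k 0 (by omega) ∘ swap u v)) * φ (em hθ hi y) *
          (ψ (T (sh k 0 (by omega) ∘ swap u v)))⁻¹) ∧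
        ∀ p ∈ C, ∀ y ∈ Y, Commute (φ (em hθ hi y)) (ψ (T p.1) * φ (em hθ hi p.2) * (ψ (T p.1))⁻¹) := by
    intro H _ ψ φ
    simp only [R, a, b, List.forall_mem_append, List.forall_mem_map, map_commutatorElement, map_mul, map_inv,
      FreeGroup.lift_apply_of, Sum.elim_inl, Sum.elim_inr, mul_inv_eq_one, commutatorElement_eq_one_iff_commute,
      Prod.forall, List.mem_product, and_imp]
    exact and_congr (and_congr (and_congr Iff.rfl ⟨fun h x hx y hy => h x y hx hy, fun h x y hx hy => h x hx y hy⟩)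
      Iff.rfl) ⟨fun h x z hx y hy => h x z y hx hy, fun h x z y hx hy => h x z hx y hy⟩
  have gG : (PA hθ).range ⊔ (em hθ hc).range = ⊤ := g2 _ fun i hi' s => by
    rw [← PA_em hθ (T _) h0 (sh_inj hi') (hT _ (sh_inj hi')), ← ce]
    exact mul_mem (mul_mem (mem_sup_left ⟨_, rfl⟩) (mem_sup_right ⟨_, rfl⟩)) (inv_mem (mem_sup_left ⟨_, rfl⟩))
  refine ⟨L.length, L1, L2, ?_⟩
  refine (Pres.ext2 h1 h2 (PA hθ) (em hθ hc) R ((hR _ _ _).2 ⟨⟨⟨fun ρ _ => em_PA hθ hc ρ, fun x hx y _ => ?_⟩,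
    fun y _ => ?_⟩, fun p hp y _ => ?_⟩) gG ?_).imp fun g hg => hg.mono (by simp [R, List.length_product]; omega)
  · rw [ce, Commute, SemiconjBy, ← mul_inv_eq_iff_eq_mul]
    exact PA_em hθ x h0 h0 (L3 x hx) y
  · rw [ce, PA_em hθ _ h0 hs' (hT _ hs'), em_em hθ hc hs hs' fun a => (ci _).symm]
  · obtain ⟨hj, h⟩ := hC p hp
    rw [ce, ce, PA_em hθ _ h0 hj (hT _ hj)]
    exact h y
  intro H _ ψ φ π p1 p2 hg hw
  obtain ⟨⟨⟨r1, r2⟩, r3⟩, r4⟩ := (hR H ψ φ).1 hw
  obtain ⟨Θ, T1, T3, T4, T5⟩ := exists_Th hθ ψ φ hc hi huv (fun j hj => ⟨T j, fun a => by rw [ci, hT j hj]⟩)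
    (fun x hx s => comm_cl ψ (fun x hx => (comm_top hY (φ.comp (em hθ hi)) (fun y hy => (r2 x hx y hy).symm) s).symm)
      (L4 x fun a => by simpa only [ci] using hx a))
    (hom_ext hLA (f := φ.comp (PA hθ)) (g := ψ.comp (incA hc)) r1) (τ0 := T (sh k 0 (by omega) ∘ swap u v))
    (fun a => by rw [ci, ci, hT _ hs']; rfl)
    (hom_ext hY (f := φ.comp (em hθ hs)) (g := (MulAut.conj (ψ _)).toMonoidHom.comp (φ.comp (em hθ hi))) r3)
  rw [show sh m 0 _ ∘ sh k 0 _ = sh k 0 _ from funext ci] at T5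
  simp only [ci] at T1 T5
  obtain ⟨f, hf⟩ := hU H Θ (fun J hJ => (T4 J hJ).imp fun _ h => h.1) T5 fun p hp s => by
    obtain ⟨hj, -⟩ := hC p hp
    rw [T1 _ _ (hT _ hj), T1 1 (sh k 0 _) fun _ => rfl]
    simpa using comm_top hY (φ.comp (em hθ hi)) (r4 p hp) s
  have key : ∀ i (h : i + m ≤ n) (R : SU m F q →* H),
      (∀ j (hj : Injective j) s, R (em hθ hj s) = Θ (sh m i h ∘ j) s) → ∀ x, R x ∈ f.range := fun i h R hR x => by
    have := g1 (f.range.comap R) fun i' h' s => by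
      rw [mem_comap, hR, sh_sh h h' (by omega)]
      exact hf _ _ ⟨s, rfl⟩
    exact (this ▸ mem_top x : x ∈ f.range.comap R)
  have fs : Surjective f := by
    rw [← MonoidHom.range_eq_top, eq_top_iff, ← hg]
    refine sup_le ?_ (by rintro _ ⟨x, rfl⟩; exact key 0 _ φ T3 x)
    rintro _ ⟨x, rfl⟩
    refine (mem_map_iff_mem (subtype_injective _)).1
      (alt_consec (by omega) ((f.range.comap ψ).map (Subgroup.subtype _)) (fun i h => ?_) x.2)
    obtain ⟨i', d, rfl, e1, e2⟩ : ∃ i' d, i = i' + d ∧ i' + m ≤ n ∧ d + 3 ≤ m :=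
      ⟨min i (n - m), i - min i (n - m), by omega, by omega, by omega⟩
    obtain ⟨R, R1, R2⟩ := T4 _ (sh_inj e1)
    have ho : c3 (sh 3 d e2 0) (sh 3 d e2 1) (sh 3 d e2 2) ∈ alternatingGroup (Fin m) :=
      c3_sign ((sh_inj e2).ne (by decide)) ((sh_inj e2).ne (by decide))
    refine ⟨incA (sh_inj e1) ⟨_, ho⟩, ?_, ?_⟩
    · change ψ _ ∈ f.range
      rw [← R2]; exact key _ _ R R1 _
    · rw [← sh_sh e1 e2 h]; exact incA_c3 _ ho
  have ps : Surjective π := by
    rw [← MonoidHom.range_eq_top, eq_top_iff, ← gG]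
    exact sup_le (by rintro _ ⟨x, rfl⟩; exact ⟨_, p1 x⟩) (by rintro _ ⟨x, rfl⟩; exact ⟨_, p2 x⟩)
  exact Injective.of_comp_right (Finite.injective_iff_surjective.2 (ps.comp fs)) fs

omit hθ

theorem alt_list (hn : 3 ≤ n) : ∃ L : List (Al n), L.length = n - 2 ∧ closure {y | y ∈ L} = ⊤ := by
  have ho : ∀ i (h : i + 3 ≤ n), c3 (sh 3 i h 0) (sh 3 i h 1) (sh 3 i h 2) ∈ alternatingGroup (Fin n) :=
    fun i h => c3_sign ((sh_inj h).ne (by decide)) ((sh_inj h).ne (by decide))
  refine ⟨List.ofFn fun i : Fin (n - 2) => ⟨_, ho i (by have := i.2; omega)⟩, by simp, eq_top_iff.2 fun x _ => ?_⟩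
  exact (mem_map_iff_mem (subtype_injective _)).1 (alt_consec hn _ (fun i h => mem_map_of_mem (Subgroup.subtype _)
    (x := ⟨_, ho i h⟩) (subset_closure (by
      simp only [Set.mem_ofPred_eq, List.mem_ofFn]; exact ⟨⟨i, by omega⟩, rfl⟩))) x.2)

theorem top_of_center {G : Type*} [Group G] (h : _root_.commutator G = ⊤) {K : Subgroup G} (hK : K ⊔ center G = ⊤) :
    K = ⊤ := by
  rw [eq_top_iff, ← h]
  refine commutator_le.2 fun a _ b _ => ?_
  obtain ⟨x, hx, y, hy, rfl⟩ := mem_sup_of_normal_right.1 (hK ▸ mem_top a)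
  obtain ⟨x', hx', y', hy', rfl⟩ := mem_sup_of_normal_right.1 (hK ▸ mem_top b)
  have e : ⁅x * y, x' * y'⁆ = ⁅x, x'⁆ := by
    have a1 := mem_center_iff.1 hy
    have a2 := mem_center_iff.1 hy'
    calc _ = x * (y * (x' * y') * y⁻¹) * x⁻¹ * (x' * y')⁻¹ := by simp only [commutatorElement_def]; group
      _ = x * x' * (y' * x⁻¹ * y'⁻¹) * x'⁻¹ := by rw [← a1]; group
      _ = _ := by rw [← a2]; simp only [commutatorElement_def]; group
  rw [e]
  exact mul_mem (mul_mem (mul_mem hx hx') (inv_mem hx)) (inv_mem hx')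

theorem su2_two (c : Cx q θ) : ∃ a b : SU 2 F q, closure {a, b} = ⊤ := by
  obtain ⟨e⟩ := H12.nonempty_SU2_equiv c.card c.card_fix
  have h := H12.commutator_SL_fin_eq_top (F := fixF θ) 2 le_rfl fun _ => c.card_fix ▸ c.four
  obtain ⟨z, hz⟩ := IsCyclic.exists_generator (α := (fixF θ)ˣ)
  refine H6.Two.Gen2.equiv ⟨_, _, top_of_center h (S2402.result (c.card_fix ▸ c.four) 1 le_rfl z hz (D2 z) (X2 1) W2
    ?_ ?_ ?_)⟩ e.symm
  all_goals ext i j; fin_cases i <;> fin_cases j <;> simp [D2v, X2v, W2v, transvection]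

theorem gen_x (c : Cx q θ) (hn : 2 ≤ n) : Gen c.pow 2 n := fun K hK => by
  obtain ⟨k, rfl⟩ := Nat.exists_eq_add_of_le' hn
  refine eq_top_iff.2 fun g _ => c.genI K 0 k (by omega) (fun i _ hi g hg => ?_) fun x hx =>
    (hx (mem_Iv.2 (by omega))).elim
  rw [← image_sh (by omega)] at hg
  obtain ⟨s, rfl⟩ := c.exists_emb (sh_inj _) hg
  exact hK i _ s

theorem gen_y (c : Cy q θ) (hn : 3 ≤ n) : Gen c.pow 3 n := fun K hK => by
  obtain ⟨k, rfl⟩ := Nat.exists_eq_add_of_le' hn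
  refine eq_top_iff.2 fun g _ => c.genI K 0 k (by omega) (fun i _ hi g hg => ?_) fun x hx =>
    (hx (mem_Iv.2 (by omega))).elim
  rw [← image_sh (by omega)] at hg
  obtain ⟨s, rfl⟩ := c.exists_emb (sh_inj _) hg
  exact hK i _ s

theorem su_x (c : Cx q θ) (hn : 4 ≤ n) {ι : Type} {τ : ι → Al n} {r : ℕ} (h1 : Pres τ r) :
    ∃ t, t ≤ 2 ∧ t + 4 ≤ n ∧ ∃ g : ι ⊕ Fin 2 → SU n F q, Pres g (r + 27 + 2 * t) := by
  obtain ⟨σ, h2⟩ := (pp_three c.card (by have := c.four; omega)).1
  obtain ⟨LA, l1, l2⟩ := alt_list (le_refl 3)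
  obtain ⟨a, b, hab⟩ := su2_two c
  have hY : closure {y | y ∈ [a, b]} = ⊤ := by rw [← hab]; congr 1; ext; simp
  have d : ∀ {i j} (hi : i + 2 ≤ n) (hj : j + 2 ≤ n), i + 2 ≤ j → ∀ a b, sh 2 i hi a ≠ sh 2 j hj b :=
    fun _ _ _ a b => Fin.ne_of_val_ne (by simp only [sh]; omega)
  obtain ⟨t, t1, t2, g, hg⟩ := core c.pow h1 h2 (k := 2) (by omega) (by omega) hn le_rfl (zero_ne_one' (Fin 2))
    LA l2 [a, b] hY ([a, b].map fun z => (sh 2 2 hn, z)) (by
      simp only [List.forall_mem_map]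
      exact fun z _ => ⟨sh_inj _, fun s => em_comm _ _ _ (d _ _ le_rfl) _ _⟩)
    (gen_x c (by omega)) (gen_x c (by omega)) fun H _ Θ T4 T5 hC => by
      choose R hR using T4
      simp only [List.forall_mem_map] at hC
      obtain ⟨f, hf⟩ := c.universal (n := n) (by omega) (fun i => if h : i + 3 ≤ n then R _ (sh_inj h) else 1)
        (fun i => if h : i + 2 ≤ n then Θ (sh 2 i h) else 1)
        (fun i hi s => by
          rw [dif_pos hi, dif_pos (show i + 2 ≤ n by omega)]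
          exact (hR _ _ _ (sh_inj _) s).trans (by rw [sh_sh _ _ (by omega)]; rfl))
        (fun i hi s => by
          rw [dif_pos hi, dif_pos (show i + 1 + 2 ≤ n by omega)]
          exact (hR _ _ _ (sh_inj _) s).trans (by rw [sh_sh _ _ (by omega)]))
        fun i j hij hj s s' => by
          rw [dif_pos hj, dif_pos (show i + 2 ≤ n by omega)]
          have := T5 2 id injective_id _ (sh_inj hn) (d _ _ le_rfl)
            (fun s s' => (comm_top hY _ (fun y hy => (hC y hy s).symm) _).symm)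
            (fun j j' _ _ e s => by rw [show j = j' from e]) _ _ (sh_inj (show i + 2 ≤ n by omega)) (sh_inj hj)
            (d _ _ hij) s s'
          rwa [em_id] at this
      exact ⟨f, fun i hi => by simpa only [dif_pos hi] using hf i hi⟩
  exact ⟨t, t1, t2, g, hg.mono (by simp [l1]; omega)⟩

theorem su_y (c : Cy q θ) (hn : 5 ≤ n) {ι κ : Type} {τ : ι → Al n} {σ : κ → SU 4 F q} {r r' : ℕ} (h1 : Pres τ r)
    (h2 : Pres σ r') {a b : SU 3 F q} (hab : closure {a, b} = ⊤) {x y : SU 2 F q} (hxy : closure {x, y} = ⊤) :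
    ∃ g : ι ⊕ κ → SU n F q, Pres g (r + r' + 16) := by
  obtain ⟨LA, l1, l2⟩ := alt_list (show 3 ≤ 4 by omega)
  have hY : closure {y | y ∈ [a, b]} = ⊤ := by rw [← hab]; congr 1; ext; simp
  have hZ : closure {z | z ∈ [x, y]} = ⊤ := by rw [← hxy]; congr 1; ext; simp
  have e1 := sh_inj (show 1 + 2 ≤ 3 by omega)
  have d : ∀ {i j} (hi : i + 3 ≤ n) (hj : j + 3 ≤ n), i + 3 ≤ j → ∀ a b, sh 3 i hi a ≠ sh 3 j hj b :=
    fun _ _ _ a b => Fin.ne_of_val_ne (by simp only [sh]; omega)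
  have d' : ∀ {i j} (hi : i + 3 ≤ n) (hj : j + 3 ≤ n), i + 2 ≤ j → ∀ a b,
      sh 3 i hi a ≠ sh 3 j hj (sh 2 1 le_rfl b) :=
    fun _ _ _ a b => Fin.ne_of_val_ne (by simp only [sh]; omega)
  obtain ⟨t, t1, t2, g, hg⟩ := core c.pow h1 h2 (k := 3) (by omega) (by omega) hn (by omega) (zero_ne_one' (Fin 3))
    LA l2 [a, b] hY ([x, y].map (fun z => (sh 3 2 hn, em c.pow e1 z)) ++
      if h : 3 + 3 ≤ n then [a, b].map fun z => (sh 3 3 h, z) else []) (by
      simp only [List.forall_mem_append, List.forall_mem_map]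
      refine ⟨fun z _ => ⟨sh_inj _, fun s => ?_⟩, ?_⟩
      · rw [em_em _ _ e1 ((sh_inj hn).comp e1) fun _ => rfl]
        exact em_comm _ _ _ (d' _ _ le_rfl) _ _
      · split_ifs with h
        · simp only [List.forall_mem_map]
          exact fun z _ => ⟨sh_inj _, fun s => em_comm _ _ _ (d _ _ le_rfl) _ _⟩
        · simp)
    (gen_y c (by omega)) (gen_y c (by omega)) fun H _ Θ T4 T5 hC => by
      choose R hR using T4
      simp only [List.forall_mem_append, List.forall_mem_map] at hC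
      have mv : ∀ (J : Fin 4 → Fin n) (hJ : Injective J) {w w' : Fin 3 → Fin 4} (hw : Injective w)
          (hw' : Injective w') {e e' : Fin 2 → Fin 3} (he : Injective e) (he' : Injective e'),
          (∀ a, w (e a) = w' (e' a)) → ∀ s, Θ (J ∘ w) (em c.pow he s) = Θ (J ∘ w') (em c.pow he' s) :=
        fun J hJ w w' hw hw' e e' he he' h s => by
          rw [← hR J hJ w hw, ← hR J hJ w' hw', em_em _ hw he (hw.comp he) fun _ => rfl,
            em_em _ hw' he' (hw.comp he) h]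
      have k2 := T5 2 _ e1 _ (sh_inj hn) (d' _ _ le_rfl)
        (fun s s' => (comm_top hZ ((Θ _).comp (em c.pow e1)) (fun y hy => (hC.1 y hy s).symm) _).symm)
        fun j j' hj hj' e s => by
          have a1 : j 1 = j' 1 := congrFun e 0
          have a2 : j 2 = j' 2 := congrFun e 1
          by_cases a0 : j 0 = j' 0
          · rw [show j = j' by ext1 i; fin_cases i <;> assumption]
          have hJ : Injective (Fin.snoc j (j' 0) : Fin 4 → Fin n) := Fin.snoc_injective_iff.2 ⟨hj, by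
            rintro ⟨i, hi⟩
            fin_cases i
            exacts [a0 hi, absurd (hj' (a1.symm.trans hi)) (by decide), absurd (hj' (a2.symm.trans hi)) (by decide)]⟩
          have := mv _ hJ (w := ![0, 1, 2]) (w' := ![3, 1, 2]) (by decide) (by decide) e1 e1
            (fun a => by fin_cases a <;> rfl) s
          convert this using 3 <;> ext1 i <;> fin_cases i <;> first | rfl | exact a1.symm | exact a2.symm
      obtain ⟨f, hf⟩ := c.universal (n := n) (by omega) (fun i => if h : i + 4 ≤ n then R _ (sh_inj h) else 1)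
        (fun i => if h : i + 3 ≤ n then Θ (sh 3 i h) else 1)
        (fun i hi s => by
          rw [dif_pos hi, dif_pos (show i + 3 ≤ n by omega)]
          exact (hR _ _ _ (sh_inj _) s).trans (by rw [sh_sh _ _ (by omega)]; rfl))
        (fun i hi s => by
          rw [dif_pos hi, dif_pos (show i + 1 + 3 ≤ n by omega)]
          exact (hR _ _ _ (sh_inj _) s).trans (by rw [sh_sh _ _ (by omega)]))
        (fun i j hij hj s s' => by
          rw [dif_pos hj, dif_pos (show i + 3 ≤ n by omega)]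
          exact k2 _ _ (sh_inj (show i + 3 ≤ n by omega)) (sh_inj hj) (d' _ _ hij) s s')
        (fun i j hij hj s s' => by
          rw [dif_pos hj, dif_pos (show i + 3 ≤ n by omega)]
          have hi := sh_inj (show i + 4 ≤ n by omega)
          have := mv _ hi (sh_inj (show 0 + 3 ≤ 4 by omega)) (w' := ![2, 0, 1]) (by decide)
            (sh_inj (show 0 + 2 ≤ 3 by omega)) e1 (fun a => by fin_cases a <;> rfl) s
          rw [sh_sh _ _ (by omega)] at this
          refine (congrArg (· * _) this).trans (Eq.trans ?_ (congrArg (_ * ·) this.symm))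
          refine (k2 _ _ (sh_inj hj) (hi.comp (by decide)) (fun a b => Fin.ne_of_val_ne ?_) s' s).symm
          fin_cases b <;> simp [sh] <;> omega)
        fun i j hij hj s s' => by
          rw [dif_pos hj, dif_pos (show i + 3 ≤ n by omega)]
          have h6 : 3 + 3 ≤ n := by omega
          have hC' := hC.2
          simp only [dif_pos h6, List.forall_mem_map] at hC'
          have := T5 3 id injective_id _ (sh_inj h6) (d _ _ le_rfl)
            (fun s s' => (comm_top hY _ (fun y hy => (hC' y hy s).symm) _).symm)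
            (fun j j' _ _ e s => by rw [show j = j' from e]) _ _ (sh_inj (show i + 3 ≤ n by omega)) (sh_inj hj)
            (d _ _ hij) s s'
          rwa [em_id] at this
      exact ⟨f, fun i hi => by simpa only [dif_pos hi] using hf i hi⟩
  exact ⟨g, hg.mono (by split_ifs <;> simp [l1] <;> omega)⟩

end Cfsg.Agent.H28.US
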